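import Cfsg.Agent.H4.PE

/-! Two local lemmas: involutions in a coset `d S` (Suzuki type) and Sylow subgroups with the same centre
(unitary type). -/

set_option autoImplicit false
set_option linter.unusedSectionVars false
set_option linter.style.haveILetI false

namespace Cfsg.Agent.H4.PA

open Cfsg.Agent.H5.TA Subgroup MulAction

variable {G : Type*} [Group G] [Finite G] {F K : Type} [Field F] [Field K] {m i : ℕ} {N N' : Subgroup G}

theorem exists_ne4 {α : Type*} [Finite α] (h : 4 < Nat.card α) (a b c d : α) : ∃ x, x ≠ a ∧ x ≠ b ∧ x ≠ c ∧ x ≠ d := by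
  classical
  haveI := Fintype.ofFinite α
  obtain ⟨x, -, hx⟩ := Finset.exists_mem_notMem_of_card_lt_card (s := {a, b, c, d}) (t := Finset.univ)
    (by rw [Finset.card_univ, ← Nat.card_eq_fintype_card]; exact Finset.card_le_four.trans_lt h)
  exact ⟨x, by simpa using hx⟩

theorem szEnd (R : R0 N F K m 2) {d : G} (hd : d * d = 1) (hn : d ∈ Nm R.S) (hZ : ∀ x, d * R.ζ x * d⁻¹ = R.ζ x) :
    {s | s ∈ R.S ∧ (d * s) * (d * s) = 1}.ncard < 2 ^ m * (2 ^ m - 1) := by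
  haveI := R.finF
  haveI := R.finK
  have di : d⁻¹ = d := inv_eq_of_mul_eq_one_right hd
  have hθ : Odd m ∧ ∀ a, R.θ (R.θ a) = a ^ 2 := by
    rcases R.typ with k | k | k
    · omega
    · exact ⟨k.2.1, k.2.2.2.2⟩
    · omega
  have hK : Nat.card K = 2 ^ m := by rw [R.cardK]; simp
  have h8 : 2 ^ 3 ≤ 2 ^ m := Nat.pow_le_pow_right two_pos (by have := R.hm; obtain ⟨k, hk⟩ := hθ.1; omega)
  have key : ∀ s ∈ R.S, (d * s) * (d * s) = 1 → d * s * d⁻¹ = R.ζ (R.ν (R.ω s)) * s := fun s hs e => by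
    rw [← R.sq s hs, di]
    have h4 : s * s * (s * s) = 1 := R.Z_sq (R.sq_mem hs)
    calc d * s * d = d * s * (d * s) * s⁻¹ := by group
      _ = s * s * (s * s) * s⁻¹ := by rw [e, h4]
      _ = _ := by group
  let A : Set K := {a | ∃ s ∈ R.S, (d * s) * (d * s) = 1 ∧ R.ω s = a}
  have hA : ∀ a ∈ A, ∀ b ∈ A, a + b ∈ A → a ≠ 0 → b ≠ 0 → a = b := by
    rintro _ ⟨s, hs, e, rfl⟩ _ ⟨s', hs', e', rfl⟩ ⟨u, hu, e'', k⟩ a0 b0
    obtain ⟨x, rfl⟩ := (R.ω_eq_iff hu (mul_mem hs hs')).1 (k.trans (R.ω_mul _ hs _ hs').symm)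
    have h1 := key _ hu e''
    rw [k, ← conj_mul, ← conj_mul, hZ, key s hs e, key s' hs' e', mul_assoc (R.ζ _) s, ← mul_assoc s,
      ← R.ζ_comm _ s hs, mul_assoc _ s, ← mul_assoc, ← mul_assoc, ← R.ζ_add, ← R.ζ_add, ← mul_assoc, ← mul_assoc,
      ← mul_assoc, ← R.ζ_add] at h1
    have h2 := R.ζ_inj (mul_right_cancel (mul_right_cancel h1))
    have h3 := R.ι_β (R.ω s) (R.ω s')
    rw [show R.β (R.ω s) (R.ω s') = 0 by
      rw [R0.β]; linear_combination -h2 + R.addF (R.ν (R.ω s)) + R.addF (R.ν (R.ω s')), map_zero] at h3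
    have h4 : R.θ (R.ω s / R.ω s') = R.ω s / R.ω s' := by
      have := (map_ne_zero R.θ).2 b0
      rw [map_div₀]
      field_simp
      linear_combination -h3 - R.addK (R.ω s * R.θ (R.ω s'))
    have h5 := hθ.2 (R.ω s / R.ω s')
    rw [h4, h4] at h5
    exact (div_eq_one_iff_eq b0).1 (mul_left_cancel₀ (div_ne_zero a0 b0) (by rw [mul_one, ← pow_two, ← h5]))
  obtain ⟨c, c', hc, hc', cc⟩ : ∃ c c', c ∉ A ∧ c' ∉ A ∧ c ≠ c' := by
    by_contra k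
    push Not at k
    obtain ⟨c, hc⟩ : ∃ c, ∀ a, a ≠ c → a ∈ A := by
      by_cases e : ∀ a, a ∈ A
      · exact ⟨0, fun a _ => e a⟩
      push Not at e
      obtain ⟨c, hc⟩ := e
      exact ⟨c, fun a ha => by_contra fun e => ha (k a c e hc)⟩
    obtain ⟨a, a0, ac, -⟩ := exists_ne4 (α := K) (by omega) 0 c c c
    obtain ⟨b, b0, bc, ba, bac⟩ := exists_ne4 (α := K) (by omega) 0 c a (a + c)
    exact ba (hA a (hc a ac) b (hc b bc) (hc _ fun e => bac (by linear_combination e - R.addK a)) a0 b0).symm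
  choose f hf hf' using R.ω_surj (by omega)
  have ex : ∀ s, ∃ x, s ∈ R.S → s = R.ζ x * f (R.ω s) := fun s => by
    by_cases hs : s ∈ R.S
    · exact ((R.ω_eq_iff hs (hf _)).1 (hf' _).symm).imp fun x hx _ => hx
    · exact ⟨0, fun k => (hs k).elim⟩
  choose g hg using ex
  have le := Set.ncard_le_ncard_of_injOn (s := {s | s ∈ R.S ∧ (d * s) * (d * s) = 1})
    (t := (Set.univ : Set F) ×ˢ ({c, c'} : Set K)ᶜ) (fun s => (g s, R.ω s))
    (fun s hs => ⟨trivial, fun k => by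
      have : R.ω s ∈ A := ⟨s, hs.1, hs.2, rfl⟩
      rcases k with k | k
      exacts [hc (k ▸ this), hc' (k ▸ this)]⟩)
    (fun s hs s' hs' e => by
      rw [hg s hs.1, hg s' hs'.1, show g s = g s' from congrArg Prod.fst e,
        show R.ω s = R.ω s' from congrArg Prod.snd e]) (Set.toFinite _)
  rw [Set.ncard_prod, Set.ncard_univ, Set.ncard_compl, Set.ncard_pair cc, R.cardF, hK] at le
  exact le.trans_lt (Nat.mul_lt_mul_of_pos_left (by omega) (by omega))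

theorem three_cases (R : R0 N F K m i) (h3 : i = 3) {P : Subgroup G} (hn : P ≤ Nm R.S)
    (hZ : ∀ y ∈ P, ∀ x, y * R.ζ x * y⁻¹ = R.ζ x) (h4 : ∀ y ∈ P, y * y * (y * y) = 1) :
    (∀ x ∈ P, ∀ l, (∀ s ∈ R.S, R.ω (x * s * x⁻¹) = l * R.ω s) → ∀ s ∈ R.S, R.ω (x * s * x⁻¹) = R.ω s) ∧
    ∀ x ∈ P, ∀ y ∈ P, ∃ v, (v = x ∨ v = y ∨ v = x * y) ∧ ∀ s ∈ R.S, R.ω (v * s * v⁻¹) = R.ω s := by
  have sc : ∀ x ∈ P, ∀ l, (∀ s ∈ R.S, R.ω (x * s * x⁻¹) = l * R.ω s) → ∀ s ∈ R.S, R.ω (x * s * x⁻¹) = R.ω s :=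
    fun x hx l h s hs => by
      have l2 := scal_one R (by omega) (h4 x hx) (hn (mul_mem hx hx)) (l := l * l) fun s hs => by
        rw [show x * x * s * (x * x)⁻¹ = x * (x * s * x⁻¹) * x⁻¹ by group, h _ (Nm_conj (hn hx) hs), h s hs, mul_assoc]
      haveI := R.charK
      rw [h s hs, show l = 1 from CharTwo.sq_injective (by simp only; rw [pow_two, l2, one_pow]), one_mul]
  refine ⟨sc, fun x hx y hy => ?_⟩
  obtain ⟨l, -, k | k⟩ := R.W_cases (hn hx) (hZ x hx)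
  · exact ⟨x, Or.inl rfl, sc x hx l k⟩
  obtain ⟨l', -, k' | k'⟩ := R.W_cases (hn hy) (hZ y hy)
  · exact ⟨y, Or.inr (Or.inl rfl), sc y hy l' k'⟩
  refine ⟨x * y, Or.inr (Or.inr rfl), sc _ (mul_mem hx hy) (l * R.θ l') fun s hs => ?_⟩
  rw [show x * y * s * (x * y)⁻¹ = x * (y * s * y⁻¹) * x⁻¹ by group, k _ (Nm_conj (hn hy) hs), k' s hs, map_mul,
    R.θθ h3, mul_assoc]

theorem thetaOut (R : R0 N F K m 3) (R' : R0 N' F K m 3) (hZ : R'.Z = R.Z) (hn : R'.S ≤ Nm R.S)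
    (h : ∀ y ∈ R'.S, (∀ s ∈ R.S, R.ω (y * s * y⁻¹) = R.ω s) → y ∈ R.S) : R'.S ≤ R.S := by
  have cz : ∀ y ∈ R'.S, ∀ x, y * R.ζ x * y⁻¹ = R.ζ x := fun y hy x => by
    rw [← R'.Z_comm (hZ ▸ R.ζ_mem_Z x) hy, mul_inv_cancel_right]
  obtain ⟨sc, tc⟩ := three_cases R rfl hn cz fun y hy => R'.Z_sq (R'.sq_mem hy)
  intro y hy
  obtain ⟨l, hl, k | k⟩ := R.W_cases (hn hy) (cz y hy)
  · exact h y hy (sc y hy l k)
  exfalso
  have l0 : l ≠ 0 := fun e => by rw [e, R.ν_zero] at hl; exact zero_ne_one hl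
  have I1 : ∀ s ∈ R.S, s ∈ R'.S → l * R.θ (R.ω s) = R.ω s := fun s hs hs' => by
    have hz : R'.ζ (R'.β (R'.ω y) (R'.ω s)) ∈ R.Z := hZ ▸ R'.ζ_mem_Z _
    rw [← k s hs, R'.conj_S hy hs', R.ω_mul _ (R.Z_le hz) _ hs, (R.ω_eq_zero (R.Z_le hz)).2 hz, zero_add]
  obtain ⟨c, c0, c1⟩ := R.exists_F
  have ex : ∀ a : K, ∃ s ∈ R.S, s ∈ R'.S ∧ ∃ x, x ≠ 0 ∧ R'.ω s = a * R'.ι x := fun a => by
    obtain ⟨s, hs, e⟩ := R'.ω_surj (by omega) a
    obtain ⟨s', hs', e'⟩ := R'.ω_surj (by omega) (a * R'.ι c)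
    obtain ⟨v, rfl | rfl | rfl, hv⟩ := tc s hs s' hs'
    · exact ⟨_, h _ hs hv, hs, 1, one_ne_zero, by rw [e, map_one, mul_one]⟩
    · exact ⟨_, h _ hs' hv, hs', c, c0, e'⟩
    · exact ⟨_, h _ (mul_mem hs hs') hv, mul_mem hs hs', 1 + c, fun e0 => c1 (by linear_combination e0 - R.twoF),
        by rw [R'.ω_mul _ hs _ hs', e, e', map_add, map_one]; ring⟩
  obtain ⟨t, -, ht⟩ := θ_ne R' rfl
  obtain ⟨s, hs, hs', x, x0, e⟩ := ex 1
  obtain ⟨u, hu, hu', z, z0, e'⟩ := ex (R'.ψ t)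
  have a1 : R.β (R.ω s) (R.ω u) = 0 := R.ι.injective (mul_left_cancel₀ l0 (by
    rw [R.ι_β, map_zero]
    linear_combination R.ω s * I1 u hu hu' + R.ω u * I1 s hs hs' + R.addK (R.ω s * R.ω u)))
  have a2 := R'.ι_β (R'.ω s) (R'.ω u)
  rw [(R'.comm_iff hs' hu').1 ((R.comm_iff hs hu).2 a1), map_zero, e, e', map_mul, map_mul, R'.θ_ι (by omega),
    R'.θ_ι (by omega), map_one] at a2
  refine ht (mul_left_cancel₀ (mul_ne_zero ((map_ne_zero R'.ι).2 x0) ((map_ne_zero R'.ι).2 z0)) ?_)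
  linear_combination -a2 - R.addK (R'.ι x * R'.ι z * R'.ψ t)

end Cfsg.Agent.H4.PA
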