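import Cfsg.Agent.H4.PA

/-! A local lemma on two Sylow subgroups acting on each other. -/

set_option autoImplicit false
set_option linter.unusedSectionVars false
set_option linter.style.haveILetI false

namespace Cfsg.Agent.H4.PA

open Cfsg.Agent.H5.TA Subgroup MulAction

variable {G : Type*} [Group G] [Finite G] {F K : Type} [Field F] [Field K] {m i : ℕ} {N N' : Subgroup G}

omit [Finite G] in
theorem comm_of_same {d s s' c : G} (h : d * s * d⁻¹ = c * s) (h' : d * s' * d⁻¹ = c * s') : Commute (s⁻¹ * s') d := by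
  have : d * (s⁻¹ * s') * d⁻¹ = s⁻¹ * s' := by
    calc _ = (d * s * d⁻¹)⁻¹ * (d * s' * d⁻¹) := by group
      _ = _ := by rw [h, h']; group
  exact (mul_inv_eq_iff_eq_mul.1 this : Commute d _).symm

omit [Finite G] in
theorem conj_conj {d : G} (hd : d * d = 1) (s : G) : d * (d * s * d⁻¹) * d⁻¹ = s := by
  rw [show d * (d * s * d⁻¹) * d⁻¹ = (d * d) * s * (d * d)⁻¹ by group, hd]; simp

section
variable (R : R0 N F K m i) (R' : R0 N' F K m i) {E E' : Subgroup G} (hE' : E' ≤ R'.S)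
  (n1 : E' ≤ Nm R.S) (c1 : ∀ x ∈ E', x ≠ 1 → ∀ s ∈ R.S, Commute s x ↔ s ∈ E)
include hE' n1 c1

theorem EE_a1 (h : ¬ R.Z ≤ E) : E' ≤ R'.Z ∧ ¬ R'.Z ≤ E' := by
  obtain ⟨_, ⟨z, rfl⟩, hz⟩ := SetLike.not_le_iff_exists.1 h
  have h1 : ∀ x ∈ E', x * x = 1 := fun x hx => by
    by_contra k
    have x1 : x ≠ 1 := fun e => k (by rw [e, mul_one])
    obtain ⟨L, -, hL⟩ := R.exists_LZ (n1 hx)
    have h2 : ∀ a, x * x * R.ζ a * (x * x)⁻¹ = R.ζ (L (L a)) := fun a => by rw [← hL, ← hL]; group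
    have H : ∀ a, L (L a) = a → L a = a := fun a e => R.ζ_inj (by
      have := (c1 _ (mul_mem hx hx) k _ (R.ζ_mem a)).1
        (mul_inv_eq_iff_eq_mul.1 ((h2 a).trans (by rw [e])) : Commute (x * x) (R.ζ a)).symm
      rw [← hL, ← ((c1 x hx x1 _ (R.ζ_mem a)).2 this).eq, mul_inv_cancel_right])
    have h4 : L (L (L (L z))) = z := R.ζ_inj (by
      rw [← h2, ← h2]
      exact conj_conj (R'.Z_sq (R'.sq_mem (hE' hx))) _)
    have s1 := H (L (L z) + z) (by rw [map_add, map_add, h4, add_comm])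
    rw [map_add] at s1
    have s2 := H (L z + z) (by rw [map_add, map_add]; linear_combination s1 + R.addF (L (L z)) - R.addF (L z))
    rw [map_add] at s2
    have s3 := H z (by linear_combination s2)
    exact hz ((c1 x hx x1 _ (R.ζ_mem z)).1
      (mul_inv_eq_iff_eq_mul.1 ((hL z).trans (by rw [s3])) : Commute x (R.ζ z)).symm)
  refine ⟨fun x hx => (R'.sq_eq_one (hE' hx)).1 (h1 x hx), fun k => ?_⟩
  choose f hf using fun x => mul_mem (R.Z_norm (n1 (k (R'.ζ_mem_Z x))) (R.ζ_mem_Z z)) (R.ζ_mem_Z z)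
  have hf' : ∀ x, R'.ζ x * R.ζ z * (R'.ζ x)⁻¹ = R.ζ (f x) * R.ζ z := fun x => by
    rw [hf, mul_assoc _ (R.ζ z) (R.ζ z), R.ζ_sq, mul_one]
  have inj : Function.Injective f := fun x y e => by
    by_contra ne
    have a1 : R'.ζ (x + y) ≠ 1 := fun e1 => ne (by linear_combination R'.ζ_eq_one.1 e1 - R.addF y)
    refine hz ((c1 _ (k (R'.ζ_mem_Z _)) a1 _ (R.ζ_mem z)).1 (mul_inv_eq_iff_eq_mul.1 ?_ : Commute _ (R.ζ z)).symm)
    rw [R'.ζ_add, show R'.ζ x * R'.ζ y * R.ζ z * (R'.ζ x * R'.ζ y)⁻¹ =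
      R'.ζ x * (R'.ζ y * R.ζ z * (R'.ζ y)⁻¹) * (R'.ζ x)⁻¹ by group, hf', ← e, ← hf', conj_conj (R'.ζ_sq x)]
  haveI := R.finF
  obtain ⟨x, hx⟩ := Finite.injective_iff_surjective.1 inj z
  have := hf' x
  rw [hx, R.ζ_sq, conj_eq_one_iff] at this
  exact hz (this ▸ one_mem _)

omit hE' in
theorem EE_a2 (hi : i ≠ 1) (h : ¬ R.Z ≤ E) (hZ : E ≤ R.Z) {d : G} (hd : d ∈ E') (d1 : d ≠ 1) (d2 : d * d = 1) :
    False := by
  obtain ⟨_, ⟨z, rfl⟩, hz⟩ := SetLike.not_le_iff_exists.1 h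
  obtain ⟨L, -, hL, hL'⟩ := R.exists_LW hi (n1 hd)
  choose f hf hf' using R.ω_surj hi
  have key : ∀ s ∈ R.S, L (R.ω s) = R.ω s → ∃ e : E, d * s * d⁻¹ = e * s := fun s hs e => by
    obtain ⟨x, hx⟩ := (R.ω_eq_iff (Nm_conj (n1 hd) hs) hs).1 ((hL s hs).trans e)
    refine ⟨⟨R.ζ x, (c1 d hd d1 _ (R.ζ_mem x)).1 (mul_inv_eq_iff_eq_mul.1 ?_ : Commute d _).symm⟩, hx⟩
    have := conj_conj d2 s
    rw [hx, ← conj_mul, hx, ← mul_assoc, mul_eq_right] at this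
    rw [eq_inv_of_mul_eq_one_left this, R.ζ_inv]
  let g : {a // L a = a} × Bool → G := fun p => f p.1 * (if p.2 then R.ζ z else 1)
  have g1 : ∀ p, g p ∈ R.S ∧ R.ω (g p) = p.1 := fun p => by
    obtain ⟨a, _ | _⟩ := p
    · simpa [g] using ⟨hf a, hf' a⟩
    · exact ⟨mul_mem (hf _) (R.ζ_mem z), by
        change R.ω (f a * R.ζ z) = a
        rw [R.ω_mul _ (hf _) _ (R.ζ_mem z), R.ω_ζ, add_zero, hf']⟩
  choose φ hφ using fun p => key (g p) (g1 p).1 (by rw [(g1 p).2]; exact p.1.2)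
  have inj : Function.Injective φ := fun p p' e => by
    have a1 := (c1 d hd d1 _ (mul_mem (inv_mem (g1 p).1) (g1 p').1)).1 (comm_of_same (hφ p) (e ▸ hφ p'))
    have a2 := (R.ω_eq_zero (R.Z_le (hZ a1))).2 (hZ a1)
    rw [R.ω_mul _ (inv_mem (g1 p).1) _ (g1 p').1, R.ω_inv (g1 p).1, (g1 p).2, (g1 p').2] at a2
    obtain ⟨a, b⟩ := p
    obtain ⟨a', b'⟩ := p'
    obtain rfl : a = a' := Subtype.ext (by linear_combination a2 - R.addK a'.1)
    cases b <;> cases b'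
    · rfl
    · exact (hz (by simpa [g] using a1)).elim
    · exact (hz (by simpa [g] using a1)).elim
    · rfl
  haveI := R.finK
  haveI := R.finF
  have c := Nat.card_le_card_of_injective φ inj
  rw [Nat.card_prod, Nat.card_eq_fintype_card (α := Bool), Fintype.card_bool] at c
  have pos : 0 < Nat.card {a // L a = a} := by
    haveI : Nonempty {a // L a = a} := ⟨⟨0, map_zero L⟩⟩
    exact Nat.card_pos
  by_cases h3 : i = 3
  · let n : K →+ K := L + AddMonoidHom.id K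
    have hn : ∀ a, n a = L a + a := fun _ => rfl
    have LL : ∀ a, L (L a) = a := fun a => by
      have := hL _ (Nm_conj (n1 hd) (hf a))
      rw [conj_conj d2, hL _ (hf a), hf'] at this
      exact this.symm
    have k1 : Nat.card n.ker ≤ Nat.card {a // L a = a} := Nat.card_le_card_of_injective
      (fun a => ⟨a.1, by have : L a + a = 0 := a.2
                         linear_combination this - R.addK a.1⟩) fun a b e => Subtype.ext (congrArg Subtype.val e :)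
    have k2 : Nat.card n.range ≤ Nat.card {a // L a = a} := Nat.card_le_card_of_injective
      (fun a => ⟨a.1, by obtain ⟨b, e⟩ := a.2
                         rw [← e, hn, map_add, LL, add_comm]⟩) fun a b e => Subtype.ext (congrArg Subtype.val e :)
    have k3 : Nat.card K = Nat.card n.range * Nat.card n.ker := by
      rw [AddSubgroup.card_eq_card_quotient_mul_card_addSubgroup n.ker,
        Nat.card_congr (QuotientAddGroup.quotientKerEquivRange n).toEquiv]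
    have k4 := card_le_of_le hZ
    rw [R.card_Z] at k4
    rw [R.cardK, if_pos h3] at k3
    have := Nat.mul_le_mul k2 k1
    nlinarith
  · have surj : Function.Surjective R.ν := by
      have hc : Nat.card K = Nat.card F := by rw [R.cardK, if_neg h3, pow_one, R.cardF]
      exact ((Nat.bijective_iff_injective_and_card _).2 ⟨R.ν_inj h3, hc⟩).2
    have : ∀ e : E, ∃ a : {a // L a = a}, R.ζ (R.ν a) = e := fun e => by
      obtain ⟨x, hx⟩ := hZ e.2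
      obtain ⟨a, rfl⟩ := surj x
      refine ⟨⟨a, R.ν_inj h3 (R.ζ_inj ?_)⟩, hx⟩
      rw [← hL', ← ((c1 d hd d1 _ (R.ζ_mem _)).2 (hx ▸ e.2)).eq, mul_inv_cancel_right]
    choose ψ hψ using this
    have := Nat.card_le_card_of_injective ψ fun e e' k => Subtype.ext (by rw [← hψ, k, hψ])
    omega

omit hE' in
theorem EE_cz (hZ : R.Z ≤ E) {x : G} (hx : x ∈ E') (a : F) : x * R.ζ a * x⁻¹ = R.ζ a := by
  by_cases e : x = 1
  · simp [e]
  rw [← ((c1 x hx e _ (R.ζ_mem a)).2 (hZ (R.ζ_mem_Z a))).eq, mul_inv_cancel_right]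

theorem EE_b0 (hZ : R.Z ≤ E) (hS : ¬ R.S ≤ E) {x : G} (hx : x ∈ E') (h : ∀ s ∈ R.S, R.ω (x * s * x⁻¹) = R.ω s) :
    x ∈ R'.Z := by
  obtain ⟨s, hs, hs'⟩ := SetLike.not_le_iff_exists.1 hS
  obtain ⟨a, ha⟩ := (R.ω_eq_iff (Nm_conj (n1 hx) hs) hs).1 (h s hs)
  refine (R'.sq_eq_one (hE' hx)).1 ?_
  by_contra k
  refine hs' ((c1 _ (mul_mem hx hx) k s hs).1 (mul_inv_eq_iff_eq_mul.1 ?_ : Commute _ s).symm)
  rw [show x * x * s * (x * x)⁻¹ = x * (x * s * x⁻¹) * x⁻¹ by group, ha, ← conj_mul, EE_cz R n1 c1 hZ hx, ha,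
    ← mul_assoc, R.ζ_sq, one_mul]

theorem EE_b2 (h3 : i ≠ 3) (hZ : R.Z ≤ E) (hS : ¬ R.S ≤ E) : E' ≤ R'.Z := fun x hx =>
  EE_b0 R R' hE' n1 c1 hZ hS hx fun s hs => R.ν_inj h3 (R.ζ_inj (by
    rw [← R.sq _ (Nm_conj (n1 hx) hs), conj_mul, R.sq s hs, EE_cz R n1 c1 hZ hx]))

theorem EE_b3 (h3 : i = 3) (hZ : R.Z ≤ E) {x y : G} (hx : x ∈ E') (hy : y ∈ E') :
    ∃ v, (v = x ∨ v = y ∨ v = x * y) ∧ ∀ s ∈ R.S, R.ω (v * s * v⁻¹) = R.ω s := by
  have sc : ∀ x ∈ E', ∀ l, (∀ s ∈ R.S, R.ω (x * s * x⁻¹) = l * R.ω s) → ∀ s ∈ R.S, R.ω (x * s * x⁻¹) = R.ω s :=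
    fun x hx l h s hs => by
      have l2 := scal_one R (by omega) (R'.Z_sq (R'.sq_mem (hE' hx))) (n1 (mul_mem hx hx)) (l := l * l) fun s hs => by
        rw [show x * x * s * (x * x)⁻¹ = x * (x * s * x⁻¹) * x⁻¹ by group, h _ (Nm_conj (n1 hx) hs), h s hs, mul_assoc]
      haveI := R.charK
      rw [h s hs, show l = 1 from CharTwo.sq_injective (by simp only; rw [pow_two, l2, one_pow]), one_mul]
  obtain ⟨l, -, k | k⟩ := R.W_cases (n1 hx) (EE_cz R n1 c1 hZ hx)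
  · exact ⟨x, Or.inl rfl, sc x hx l k⟩
  obtain ⟨l', -, k' | k'⟩ := R.W_cases (n1 hy) (EE_cz R n1 c1 hZ hy)
  · exact ⟨y, Or.inr (Or.inl rfl), sc y hy l' k'⟩
  refine ⟨x * y, Or.inr (Or.inr rfl), sc _ (mul_mem hx hy) (l * R.θ l') fun s hs => ?_⟩
  rw [show x * y * s * (x * y)⁻¹ = x * (y * s * y⁻¹) * x⁻¹ by group, k _ (Nm_conj (n1 hy) hs), k' s hs, map_mul,
    R.θθ h3, mul_assoc]

end

theorem EE (R : R0 N F K m i) (R' : R0 N' F K m i) (hi : i ≠ 1) {E E' : Subgroup G} (hE : E ≤ R.S) (hE' : E' ≤ R'.S)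
    (n1 : E' ≤ Nm R.S) (n2 : E ≤ Nm R'.S) (c1 : ∀ x ∈ E', x ≠ 1 → ∀ s ∈ R.S, Commute s x ↔ s ∈ E)
    (c2 : ∀ x ∈ E, x ≠ 1 → ∀ s ∈ R'.S, Commute s x ↔ s ∈ E') (e1 : E ≠ ⊥) (e2 : E' ≠ ⊥) :
    E = R.S ∨ (i = 2 ∧ E = R.Z ∧ E' = R'.Z) := by
  have hZ : R.Z ≤ E := by
    by_contra h
    obtain ⟨a1, a2⟩ := EE_a1 R R' hE' n1 c1 h
    obtain ⟨⟨d, hd⟩, d1⟩ := ne_bot_iff_exists_ne_one.1 e2
    exact EE_a2 R n1 c1 hi h (EE_a1 R' R hE n2 c2 a2).1 hd (fun e => d1 (Subtype.ext e)) (R'.Z_sq (a1 hd))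
  have hZ' : R'.Z ≤ E' := by
    by_contra h
    exact (EE_a1 R' R hE n2 c2 h).2 hZ
  by_cases hS : R.S ≤ E
  · exact Or.inl (le_antisymm hE hS)
  right
  by_cases h3 : i = 3
  · exfalso
    obtain ⟨y, y0, y1⟩ := R.exists_F
    obtain ⟨z, hz, z1, h⟩ : ∃ z ∈ R.Z, z ≠ 1 ∧ ∀ s ∈ R'.S, R'.ω (z * s * z⁻¹) = R'.ω s := by
      obtain ⟨v, k | k | k, h⟩ := EE_b3 R' R hE n2 c2 h3 hZ' (hZ (R.ζ_mem_Z y)) (hZ (R.ζ_mem_Z 1))
      · exact ⟨v, k ▸ R.ζ_mem_Z y, k ▸ (R.iv_ζ y0).2.1, h⟩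
      · exact ⟨v, k ▸ R.ζ_mem_Z 1, k ▸ (R.iv_ζ one_ne_zero).2.1, h⟩
      · rw [← R.ζ_add] at k
        exact ⟨v, k ▸ R.ζ_mem_Z _, k ▸ (R.iv_ζ fun e => y1 (by linear_combination e - R.twoF)).2.1, h⟩
    choose f hf hf' using R'.ω_surj hi
    choose φ hφ using fun a => (R'.ω_eq_iff (Nm_conj (n2 (hZ hz)) (hf a)) (hf a)).1 (h _ (hf a))
    have key : ∀ a b, φ a = φ b → (f a)⁻¹ * f b ∈ E' ∧ R'.ω ((f a)⁻¹ * f b) = a + b := fun a b e =>
      ⟨(c2 z (hZ hz) z1 _ (mul_mem (inv_mem (hf a)) (hf b))).1 (comm_of_same (hφ a) (e ▸ hφ b)),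
        by rw [R'.ω_mul _ (inv_mem (hf a)) _ (hf b), R'.ω_inv (hf a), hf', hf']⟩
    haveI := R.finK
    haveI := R.finF
    haveI := Fintype.ofFinite K
    haveI := Fintype.ofFinite F
    classical
    obtain ⟨c, hc⟩ := Fintype.exists_lt_card_fiber_of_mul_lt_card φ (n := 2) (by
      rw [← Nat.card_eq_fintype_card, ← Nat.card_eq_fintype_card, R.cardK, if_pos h3, R.cardF]
      have := R.four_le
      nlinarith)
    obtain ⟨a, b, c', ha, hb, hc', ab, ac, bc⟩ := Finset.two_lt_card_iff.1 hc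
    simp only [Finset.mem_filter, Finset.mem_univ, true_and] at ha hb hc'
    obtain ⟨p1, p2⟩ := key a b (ha.trans hb.symm)
    obtain ⟨q1, q2⟩ := key a c' (ha.trans hc'.symm)
    obtain ⟨v, k, h⟩ := EE_b3 R R' hE' n1 c1 h3 hZ p1 q1
    have hv : v ∈ E' := by
      rcases k with rfl | rfl | rfl
      exacts [p1, q1, mul_mem p1 q1]
    have := (R'.ω_eq_zero (hE' hv)).2 (EE_b0 R R' hE' n1 c1 hZ hS hv h)
    rcases k with rfl | rfl | rfl
    · exact ab (by linear_combination this - p2 - R.addK b)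
    · exact ac (by linear_combination this - q2 - R.addK c')
    · rw [R'.ω_mul _ (hE' p1) _ (hE' q1), p2, q2] at this
      exact bc (by linear_combination this - R.addK a - R.addK c')
  have a1 := EE_b2 R R' hE' n1 c1 h3 hZ hS
  have a2 : ¬ R'.S ≤ E' := fun k => by
    obtain ⟨s, hs, e⟩ := R'.ω_surj hi 1
    exact one_ne_zero (e ▸ (R'.ω_eq_zero hs).2 (a1 (k hs)))
  exact ⟨by rcases R.i_cases with k | k | k <;> omega, le_antisymm (EE_b2 R' R hE n2 c2 h3 hZ' a2) hZ,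
    le_antisymm a1 hZ'⟩

end Cfsg.Agent.H4.PA
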