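import Cfsg.Agent.H4.UT1
import Cfsg.Agent.H1.URd

/-! Rank 3 actions of unitary groups: the case of a proper part of a transvection group in the stabiliser. -/

set_option autoImplicit false
set_option linter.unusedSectionVars false

namespace Cfsg.Agent.H4.UT

open Module H5 Matrix Cfsg.Agent.H1 Cfsg.Agent.H1.UR Finset
open scoped Classical

section Core

variable {G X Y C : Type*} [Group G] [CommGroup C] [MulAction G X] [MulAction G Y] [MulAction C Y]
  [Fintype X] [Fintype Y] [Fintype C] {adj : X → X → Prop}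

/-- scaled incidence matrices -/
noncomputable def sc (b : X → Y → Prop) (c : C) : Matrix X Y ℝ := Matrix.of fun x v => if b x (c • v) then 1 else 0

theorem invM_sc [SMulCommClass G C Y] {b : X → Y → Prop} (hb : ∀ (g : G) x v, b (g • x) (g • v) ↔ b x v) (c : C) :
    InvM G (sc b c) := fun g x v => by simp only [sc, of_apply, ← smul_comm g c, hb]

theorem core [SMulCommClass G C Y] (h : Rk3 G adj) {b : X → Y → Prop}
    (hb : ∀ (g : G) x v, b (g • x) (g • v) ↔ b x v) (Λ : Subgroup C) (hΛ : ∀ x v c, b x v → (b x (c • v) ↔ c ∈ Λ))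
    {x₀ : X} {v₀ : Y} (h0 : b x₀ v₀) (ht : ∀ v w : Y, ∃ g : G, g • v = w) (hf : ∀ (c : C) (v : Y), c • v = v → c = 1)
    {s : C} (hs : s ∉ Λ) (hs' : ∀ v w : Y, (∀ c : C, c • v ≠ w) → ∃ (g : G) (c : C), g • v = c • v ∧ g • w = (c / s) • w)
    {E : Matrix X X ℝ} (hE : InvM G E) (E0 : E ≠ 0) (h1 : E * E = E) (hJ : JM X X * E = 0)
    (h2 : ∀ c : C, (sc b (1 : C) - sc b c)ᵀ * E = 0) : (Fintype.card X - 1 - E.trace) * Fintype.card C = Fintype.card Y := by
  have hi := invM_sc (C := C) hb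
  have N0 : (Fintype.card X : ℝ) ≠ 0 := by exact_mod_cast h.card_pos.ne'
  obtain ⟨β, hβ⟩ : ∃ β : X → Y → ℝ, ∀ x v, β x v = if b x v then 1 else 0 := ⟨_, fun _ _ => rfl⟩
  obtain ⟨L, hL⟩ : ∃ L : C → ℝ, ∀ c, L c = if c ∈ Λ then 1 else 0 := ⟨_, fun _ => rfl⟩
  have hsc : ∀ (c : C) x v, sc b c x v = β x (c • v) := fun c x v => (hβ _ _).symm
  obtain ⟨Z, hZ⟩ : ∃ Z : Y → Y → ℝ, ∀ v w, Z v w = ∑ x, β x v * β x w := ⟨_, fun _ _ => rfl⟩
  have βi : ∀ (g : G) x v, β (g • x) (g • v) = β x v := fun g x v => by rw [hβ, hβ, hb]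
  have Zi : ∀ (g : G) v w, Z (g • v) (g • w) = Z v w := fun g v w => by
    rw [hZ, hZ]
    exact (Fintype.sum_equiv (MulAction.toPerm g) _ _ fun x => by simp [βi]).symm
  obtain ⟨r, hr⟩ : ∃ r, r = ∑ x, β x v₀ := ⟨_, rfl⟩
  have r0 : 0 < r := hr ▸ sum_pos' (fun x _ => by rw [hβ]; split_ifs <;> simp) ⟨x₀, mem_univ _, by simp [hβ, h0]⟩
  have r1 : ∀ v, ∑ x, β x v = r := fun v => by
    obtain ⟨g, rfl⟩ := ht v₀ v
    rw [hr]
    exact (Fintype.sum_equiv (MulAction.toPerm g) _ _ fun x => by simp [βi]).symm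
  have Z1 : ∀ v (c : C), Z v (c • v) = r * L c := fun v c => by
    rw [hZ, ← r1 v, sum_mul]
    refine sum_congr rfl fun x _ => ?_
    by_cases e : b x v
    · simp [hβ, hL, e, hΛ x v c e]
    · simp [hβ, e]
  have Z2 : ∀ v (c c' : C), Z (c • v) (c' • v) = r * L (c' / c) := fun v c c' => by
    rw [← Z1 (c • v), smul_smul, div_mul_cancel]
  have L1 : ∀ c, L c⁻¹ = L c := fun c => by simp [hL]
  have t1 : ∀ c c' : C, (sc b c * (sc b c')ᵀ).trace = Fintype.card Y * r * L (c' / c) := fun c c' => by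
    simp only [trace, diag_apply, mul_apply, transpose_apply, hsc]
    rw [sum_comm]
    simp only [← hZ, Z2, sum_const, card_univ, nsmul_eq_mul, mul_assoc]
  have hJ' : ∀ c : C, (sc b (1 : C) - sc b c)ᵀ * JM X X = 0 := fun c => by
    ext v x
    simp [mul_apply, JM_apply, hsc, r1]
  have EJ : E * JM X X = 0 := by rw [← h.symm_of_inv _ hE, ← JM_transpose, ← transpose_mul, hJ, transpose_zero]
  obtain ⟨E', hE'⟩ : ∃ E', E' = 1 - (Fintype.card X : ℝ)⁻¹ • JM X X - E := ⟨_, rfl⟩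
  have tE : E'.trace = Fintype.card X - 1 - E.trace := by
    rw [hE', trace_sub, trace_sub, trace_smul]
    simp [trace, JM_apply, N0]
  have E2 : E' * E' = E' := by
    simp only [hE', Matrix.sub_mul, Matrix.mul_sub, Matrix.one_mul, Matrix.smul_mul,
      Matrix.mul_smul, JM_mul_JM, hJ, EJ, h1, smul_smul, inv_mul_cancel₀ N0, mul_one]
    simp
  have key : ∀ c c' : C, ∃ m : ℝ, sc b c * (sc b (1 : C) - sc b c')ᵀ = m • E' := fun c c' => by
    obtain ⟨α, y, z, e⟩ := h.span hE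
    have y0 : y ≠ 0 := by
      rintro rfl
      have k1 := h2 s
      rw [e, zero_smul, add_zero, Matrix.mul_add, Matrix.mul_smul, Matrix.mul_smul, hJ', smul_zero, add_zero,
        Matrix.mul_one, smul_eq_zero] at k1
      rcases k1 with rfl | k1
      · rw [e, zero_smul, zero_smul, zero_add, zero_add, Matrix.mul_smul, JM_mul_JM, smul_smul] at hJ
        have := congrFun (congrFun hJ x₀) x₀
        simp [JM_apply, N0] at this
        exact E0 (by simp [e, this])
      · have := congrFun (congrFun k1 v₀) x₀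
        simp [sc, h0, hΛ x₀ v₀ s h0, hs] at this
    obtain ⟨α', y', z', e'⟩ := h.span ((hi c).mul ((hi 1).sub (hi c')).transpose)
    have k1 : sc b c * (sc b (1 : C) - sc b c')ᵀ = (α' - y' / y * α) • (1 : Matrix X X ℝ) + (y' / y) • E +
        (z' - y' / y * z) • JM X X := by
      rw [e', e]
      match_scalars <;> field_simp <;> ring
    generalize α' - y' / y * α = m₁ at k1
    generalize z' - y' / y * z = m₃ at k1
    generalize y' / y = m₂ at k1
    have k2 := congrArg (· * E) k1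
    have k3 := congrArg (· * JM X X) k1
    simp only [Matrix.mul_assoc, h2, hJ', Matrix.mul_zero, Matrix.add_mul, Matrix.smul_mul, Matrix.one_mul, h1, hJ, EJ,
      smul_zero, add_zero, JM_mul_JM, ← add_smul, smul_smul] at k2 k3
    have k4 := (smul_eq_zero.1 k2.symm).resolve_right E0
    have k5 := congrFun (congrFun k3 x₀) x₀
    simp only [Matrix.zero_apply, Matrix.smul_apply, JM_apply, smul_eq_mul, mul_one] at k5
    refine ⟨m₁, ?_⟩
    rw [k1, hE', show m₂ = -m₁ by linarith, show m₃ = -(m₁ * (Fintype.card X : ℝ)⁻¹) by field_simp; linarith]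
    module
  choose m hm using key
  have m1 : ∀ c c', m c c' * E'.trace = Fintype.card Y * r * (L c - L (c' / c)) := fun c c' => by
    have := congrArg trace (hm c c')
    rw [trace_smul, transpose_sub, Matrix.mul_sub, trace_sub, t1, t1, one_div, L1] at this
    rw [← smul_eq_mul, ← this]; ring
  have S1 : ∑ c, L (s / c) = ∑ c, L c := Fintype.sum_equiv (Equiv.divLeft s) _ _ fun _ => rfl
  have S2 : ∀ c, (L c - L (s / c)) * L c = L c := fun c => by
    by_cases e : c ∈ Λ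
    · have : s / c ∉ Λ := fun e' => hs (by simpa using mul_mem e' e)
      simp [hL, e, this]
    · simp [hL, e]
  have S3 : 0 < ∑ c, L c := sum_pos' (fun x _ => by rw [hL]; split_ifs <;> simp) ⟨1, mem_univ _, by simp [hL]⟩
  obtain ⟨Θ, hΘ⟩ : ∃ Θ, Θ = ∑ c : C, (sc b (1 : C) * (sc b c)ᵀ * (sc b c * (sc b (1 : C) - sc b s)ᵀ)).trace := ⟨_, rfl⟩
  have A1 : E'.trace * Θ = (Fintype.card Y * r) ^ 2 * ∑ c, L c := by
    have : ∀ c : C, E'.trace * (sc b (1 : C) * (sc b c)ᵀ * (sc b c * (sc b (1 : C) - sc b s)ᵀ)).trace =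
        Fintype.card Y * r * ((sc b (1 : C) * (sc b (1 : C))ᵀ * E').trace - Fintype.card Y * r) * (L c - L (s / c)) +
          (Fintype.card Y * r) ^ 2 * L c := fun c => by
      have e : sc b (1 : C) * (sc b c)ᵀ = sc b (1 : C) * (sc b (1 : C))ᵀ - m 1 c • E' := by
        rw [← hm, transpose_sub, Matrix.mul_sub, sub_sub_cancel]
      have e1 := m1 1 c
      rw [div_one, hL 1, if_pos (one_mem _)] at e1
      rw [hm, e, Matrix.mul_smul, Matrix.sub_mul, Matrix.smul_mul, E2, trace_smul, trace_sub, trace_smul, smul_eq_mul,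
        smul_eq_mul, e1]
      linear_combination ((sc b (1 : C) * (sc b (1 : C))ᵀ * E').trace - Fintype.card Y * r * (1 - L c)) * m1 c s +
        (Fintype.card Y * r) ^ 2 * S2 c
    rw [hΘ, mul_sum, sum_congr rfl fun c _ => this c, sum_add_distrib, ← mul_sum, ← mul_sum, sum_sub_distrib, S1]
    ring
  obtain ⟨W, hW⟩ : ∃ W : Y → Y → ℝ, ∀ v w, W v w = ∑ c : C, Z (c • v) (c • w) := ⟨_, fun _ _ => rfl⟩
  have A2 : Θ = ∑ v, ∑ w, (W v w - W v (s⁻¹ • w)) * Z w v := by
    have : ∀ c : C, (sc b (1 : C) * (sc b c)ᵀ * (sc b c * (sc b (1 : C) - sc b s)ᵀ)).trace =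
        ∑ v, ∑ w, Z (c • v) (c • w) * (Z w v - Z (s • w) v) := fun c => by
      rw [Matrix.mul_assoc, trace_mul_comm, Matrix.mul_assoc, Matrix.mul_assoc, ← Matrix.mul_assoc]
      simp only [trace, diag_apply, mul_apply, transpose_apply, Matrix.sub_apply, hsc, one_smul, sub_mul,
        sum_sub_distrib, ← hZ]
    rw [hΘ, sum_congr rfl fun c _ => this c, sum_comm]
    refine sum_congr rfl fun v _ => ?_
    rw [sum_comm]
    simp only [← sum_mul, ← hW, mul_sub, sub_mul, sum_sub_distrib]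
    congr 1
    exact Fintype.sum_equiv (MulAction.toPerm s) _ _ fun w => by simp
  have A3 : ∀ v, ∑ w, (W v w - W v (s⁻¹ • w)) * Z w v = Fintype.card C * r ^ 2 * ∑ c, L c := fun v => by
    rw [mul_sum]
    refine (Fintype.sum_of_injective (fun c : C => c • v) (fun c c' e => ?_) _ _ (fun w hw => ?_) fun c => ?_).symm
    · exact div_eq_one.1 (hf _ v (by rw [div_eq_inv_mul, mul_smul, show c • v = c' • v from e, inv_smul_smul]))
    · obtain ⟨g, c, e1, e2⟩ := hs' v w fun c e => hw ⟨c, e⟩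
      rw [hW, hW, Fintype.sum_equiv (Equiv.mulRight c) (fun d => Z (d • v) (d • w))
        (fun d => Z (d • v) (d • s⁻¹ • w)) fun d => ?_, sub_self, zero_mul]
      rw [← Zi g ((_ : C) • v), smul_comm g, smul_comm g, e1, e2]
      simp [smul_smul, div_eq_mul_inv, mul_assoc]
    · have e1 := Z2 v c 1
      rw [one_smul, one_div, L1] at e1
      have e2 : ∀ c : C, W v (c • v) = Fintype.card C * (r * L c) := fun c => by
        simp only [hW, smul_smul, Z2, mul_div_cancel_left, sum_const, card_univ, nsmul_eq_mul]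
      rw [smul_smul, e1, e2, e2, ← L1 (s⁻¹ * c), _root_.mul_inv_rev, inv_inv, mul_comm c⁻¹, ← div_eq_mul_inv]
      linear_combination (-(Fintype.card C : ℝ) * r ^ 2) * S2 c
  rw [A2, sum_congr rfl fun v _ => A3 v, sum_const, card_univ, nsmul_eq_mul, tE] at A1
  have Y0 : (0 : ℝ) < Fintype.card Y := by exact_mod_cast Fintype.card_pos_iff.2 ⟨v₀⟩
  apply mul_left_cancel₀ (show Fintype.card Y * r ^ 2 * ∑ c, L c ≠ 0 by positivity)
  linear_combination A1

end Core

variable {F : Type*} [Field F] {σ : F →+* F} {E : Type*} [AddCommGroup E] [Module F E]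
  [FiniteDimensional F E] {B : Sesq σ E} (hB : IsEps B 1) [Fintype F] [Fintype E] {q : ℕ} (hU : UF σ q)
variable {X : Type*} [MulAction (SUb B) X] [Fintype X] {adj : X → X → Prop} {ω : X}

/-- nonzero isotropic vectors -/
def IV (B : Sesq σ E) : Type _ := {v : E // v ≠ 0 ∧ B v v = 0}

noncomputable instance : Fintype (IV B) := Subtype.fintype _

noncomputable instance : MulAction (SUb B) (IV B) where
  smul g v := ⟨suAct B g v.1, sa_ne_zero g v.2.1, sa_iso g v.2.2⟩
  one_smul v := Subtype.ext (sa_one v.1)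
  mul_smul g h v := Subtype.ext (sa_mul g h v.1)

instance : MulAction Fˣ (IV B) where
  smul c v := ⟨(c : F) • v.1, smul_ne_zero c.ne_zero v.2.1, by simp [v.2.2]⟩
  one_smul v := Subtype.ext (one_smul F v.1)
  mul_smul c d v := Subtype.ext (mul_smul (c : F) (d : F) v.1)

theorem g_val (g : SUb B) (v : IV B) : (g • v).1 = suAct B g v.1 := rfl

theorem c_val (c : Fˣ) (v : IV B) : (c • v).1 = (c : F) • v.1 := rfl

instance : SMulCommClass (SUb B) Fˣ (IV B) := ⟨fun g c v => Subtype.ext (map_smul (suAct B g) (c : F) v.1)⟩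

include hB hU in
theorem exists_scale (hn : 6 ≤ finrank F E) {v w : E} (v0 : v ≠ 0) (hv : B v v = 0) (hw : B w w = 0) (h : w ∉ F ∙ v)
    {a : F} (a0 : a ≠ 0) : ∃ g : SUb B, suAct B g v = a • v ∧ suAct B g w = (σ a)⁻¹ • w := by
  have sa : σ a ≠ 0 := (map_ne_zero σ).2 a0
  obtain ⟨u, h1, h2⟩ := exists_aniso_perp hB hU ((F ∙ v) ⊔ F ∙ w) (by have := finrank_two_le (F := F) v w; omega)
  exact su_move2 hB hU v0 (smul_ne_zero a0 v0) h (by
    rwa [Submodule.span_singleton_smul_eq (IsUnit.mk0 a a0), Submodule.smul_mem_iff _ (inv_ne_zero sa)])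
    (by simp [hv]) (by simp [sa]) (by simp [hw]) h2 (mem_perp_two.1 h1).1 (mem_perp_two.1 h1).2

include hB hU in
theorem pt_scale (hn : 6 ≤ finrank F E) {Z : Matrix (IV B) (TI B 1) ℝ} (hZ : InvM (SUb B) Z) (c : Fˣ) (v : IV B)
    (y : TI B 1) : Z (c • v) y = Z v y := by
  obtain ⟨w, w0, hw, rfl⟩ := exists_pt y
  obtain ⟨g, h1, d, h2⟩ : ∃ g : SUb B, suAct B g v.1 = (c : F) • v.1 ∧ ∃ d : F, d • suAct B g w = w := by
    by_cases h : w ∈ F ∙ v.1
    · obtain ⟨g, hg⟩ := su_move1 hB hU (by omega) v.2.1 (c • v).2.1 (by rw [v.2.2, (c • v).2.2])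
      obtain ⟨l, rfl⟩ := Submodule.mem_span_singleton.1 h
      exact ⟨g, hg, c⁻¹, by rw [map_smul, hg, c_val, smul_comm l, inv_smul_smul₀ c.ne_zero]⟩
    · obtain ⟨g, h1, h2⟩ := exists_scale hB hU hn v.2.1 v.2.2 hw h c.ne_zero
      exact ⟨g, h1, σ c, by rw [h2, smul_inv_smul₀ ((map_ne_zero σ).2 c.ne_zero)]⟩
  rw [← hZ g v, (smul_pt_eq g w0 hw w0 hw).2 ⟨d, h2⟩, show g • v = c • v from Subtype.ext h1]

include hU in
theorem q_dvd (hs : Sit B adj ω) (hn : 6 ≤ finrank F E) {u : E} (u0 : u ≠ 0) (hu : B u u = 0)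
    (h : ∀ v, v ≠ 0 → B v v = 0 → ¬ XX hB ω v) : q ∣ Fintype.card X := by
  rw [← pow_one q]
  refine pow_dvd_of_orbit hB hU hu fun x => ?_
  obtain ⟨g, rfl⟩ := hs.rk.tr ω x
  have h1 := card_A_le hB hU u0 hu (ω := g • ω) (by
    rw [← sa_app_inv g u, XX_conj hB (sa_iso _ hu)]; exact h _ (sa_ne_zero _ u0) (sa_iso _ hu))
  have h2 := (uD hB hu).card_le_orbit (g • ω)
  have h3 := card_uV hB hU hu u0
  have h4 := AddSubgroup.card_le_of_le ((uD hB hu).J_le (g • ω))
  rw [card_uZ hB hU hu] at h2 h4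
  obtain ⟨k, hk⟩ : ∃ k, finrank F E = k + 3 := ⟨finrank F E - 3, by omega⟩
  have h5 := Nat.mul_le_mul_left (q ^ 2) (h2.trans (Nat.mul_le_mul_right _ (Nat.mul_le_mul h1 h4)))
  rw [← mul_assoc, mul_comm (q ^ 2), h3, hk] at h5
  refine Nat.le_of_mul_le_mul_left (le_trans ?_ h5 |>.trans_eq (mul_assoc _ _ _).symm) (by have := hU.pos; positivity)
  simp only [← pow_add, ← pow_succ]
  exact Nat.pow_le_pow_right hU.pos (by omega)

include hU in
theorem T2 (hs : Sit B adj ω) (hn : 6 ≤ finrank F E) (hq : 3 ≤ q) (h1 : ¬ Tr B ω 1) {u : E} (u0 : u ≠ 0)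
    (hu : B u u = 0) {c : F} (c0 : c ≠ 0) (hc : σ c = -c) (hω : ut hB u c • ω = ω)
    (h : ∀ v, v ≠ 0 → B v v = 0 → ¬ XX hB ω v) : False := by
  obtain ⟨k, hk⟩ : ∃ k, finrank F E = k + 6 := ⟨finrank F E - 6, by omega⟩
  let b : X → IV B → Prop := fun x v => ∀ d, σ d = -d → (ut hB v.1 d • x = x ↔ ut hB u d • ω = ω)
  have hb : ∀ (g : SUb B) x v, b (g • x) (g • v) ↔ b x v := fun g x v =>
    forall₂_congr fun d hd => by rw [g_val, ut_fix_conj hB v.2.2 hd]
  have sk : ∀ a d : F, σ d = -d → σ (a * σ a * d) = -(a * σ a * d) := fun a d hd => by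
    rw [map_mul, hU.norm_fixed, hd, mul_neg]
  let Λ : Subgroup Fˣ :=
    { carrier := {l | ∀ d, σ d = -d → (ut hB u ((l : F) * σ l * d) • ω = ω ↔ ut hB u d • ω = ω)}
      one_mem' := fun d _ => by simp
      mul_mem' := fun {l m} h1 h2 d hd => by
        rw [← h2 d hd, ← h1 _ (sk m d hd), Units.val_mul, map_mul]; congr! 3; ring
      inv_mem' := fun {l} h1 d hd => by
        rw [← h1 _ (sk _ _ hd)]; congr! 3
        have : σ l ≠ 0 := (map_ne_zero σ).2 l.ne_zero
        simp only [Units.val_inv_eq_inv_val, map_inv₀]; field_simp }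
  have hΛ : ∀ x v (l : Fˣ), b x v → (b x (l • v) ↔ l ∈ Λ) := fun x v l hv =>
    forall₂_congr fun d hd => by rw [c_val, ut_smul hB v.2.2 _ hd, hv _ (sk _ _ hd)]
  obtain ⟨a, ha⟩ : ∃ a : Fˣ, a * Units.map σ.toMonoidHom a ∉ Λ := by
    by_contra hn
    push Not at hn
    let K : AddSubgroup F :=
      { carrier := {y | σ y = y ∧ ut hB u (y * c) • ω = ω}
        zero_mem' := ⟨map_zero σ, by rw [zero_mul, ut_zero hB hu, one_smul]⟩
        add_mem' := fun {y z} h1 h2 => ⟨by rw [map_add, h1.1, h2.1], by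
          rw [add_mul, ← ut_mul hB hu (by simp [h1.1, hc]) (by simp [h2.1, hc]), mul_smul, h2.2, h1.2]⟩
        neg_mem' := fun {y} h1 => ⟨by rw [map_neg, h1.1], by
          rw [neg_mul, ← ut_inv hB hu (by simp [h1.1, hc]), inv_smul_eq_iff, h1.2]⟩ }
    have k1 : ∀ y, σ y = y → y * y ∈ K := fun y hy => by
      by_cases y0 : y = 0
      · simp [y0]
      obtain ⟨a, rfl⟩ := hU.norm_surj hy
      refine ⟨by rw [map_mul, hy], ?_⟩
      have := (hn (Units.mk0 a (left_ne_zero_of_mul y0)) c hc).2 hω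
      simp only [Units.val_mul, Units.coe_map, Units.val_mk0, RingHom.toMonoidHom_eq_coe, MonoidHom.coe_coe] at this
      rwa [hy] at this
    refine h u u0 hu fun d hd => ?_
    have hy : σ (d / c) = d / c := by rw [map_div₀, hd, hc, neg_div_neg_eq]
    rw [← div_mul_cancel₀ d c0]
    refine (show d / c ∈ K from ?_).2
    generalize d / c = y at hy
    by_cases h2 : (2 : F) = 0
    · obtain ⟨z, rfl⟩ := FiniteField.isSquare_of_char_two (F := F)
        (CharP.ringChar_of_prime_eq_zero Nat.prime_two (by exact_mod_cast h2)) y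
      refine k1 z (sub_eq_zero.1 (pow_eq_zero_iff two_ne_zero |>.1 ?_))
      rw [map_mul] at hy
      linear_combination hy + (z * z - σ z * z) * h2
    · have e1 : σ (y / 2) = y / 2 := by rw [map_div₀, hy, map_ofNat]
      have := sub_mem (sub_mem (k1 (y / 2 + 1) (by rw [map_add, e1, map_one])) (k1 _ e1)) (k1 1 (map_one σ))
      convert this using 1
      field_simp; ring
  have key : ∀ (e : Matrix (TI B 1) (TI B 1) ℝ) (θ : ℝ), Prim (SUb B) e → Kt hB _ * e = θ • e →
      θ ≠ (cI q (finrank F E) - 1) / (q + 1) → ∀ y : TI B 1, orbM (SUb B) ω y * e ≠ (0 : Matrix X (TI B 1) ℝ) →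
      ∃ f : ℕ, e.trace = f ∧ (Fintype.card X : ℝ) = 1 + f + Fintype.card (TI B 1) := fun e θ pe ke hθ y hy => by
    obtain ⟨P, p, z, t, kP⟩ := pe.transfer (invM_orbM ω y) hy
    have := core hs.rk hb Λ hΛ (x₀ := ω) (v₀ := ⟨u, u0, hu⟩) (fun _ _ => Iff.rfl)
      (fun v w => (su_move1 hB hU (by omega) v.2.1 w.2.1 (by rw [v.2.2, w.2.2])).imp fun _ => Subtype.ext)
      (fun l v e => Units.ext (smul_left_injective F v.2.1 ((congrArg Subtype.val e).trans (one_smul F _).symm)))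
      ha (fun v w e => ?_) p.inv z p.idem
      (hs.rk.J_mul_eq_zero (invM_Kt hB X) (Kt_mul_J hB hU X) (kP _ _ _ ((invM_orbM ω y).opS_comm _ _) ke) hθ)
      fun l => ?_
    · obtain ⟨f, hf⟩ := trace_idem_nat pe.idem
      refine ⟨f, hf, ?_⟩
      have h2 := sum_pt (B := B) hU fun _ => 1
      have h3 : (Iso B).card = Fintype.card (IV B) := (Fintype.card_of_subtype _ fun _ => mem_Iso).symm
      have h4 : (Fintype.card Fˣ : ℝ) = q ^ 2 - 1 := by
        rw [Fintype.card_units, Nat.cast_sub Fintype.card_pos, hU.card]; simp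
      simp only [sum_const, card_univ, nsmul_eq_mul, mul_one, h3] at h2
      rw [t, hf, h4, ← h2] at this
      have q3 : (3 : ℝ) ≤ q := by exact_mod_cast hq
      apply mul_left_cancel₀ (show (q : ℝ) ^ 2 - 1 ≠ 0 by nlinarith)
      linear_combination this
    · obtain ⟨g, h2, h3⟩ := exists_scale hB hU hn v.2.1 v.2.2 w.2.2 (fun e' => by
        obtain ⟨l, hl⟩ := Submodule.mem_span_singleton.1 e'
        exact e (Units.mk0 l (left_ne_zero_of_smul (hl ▸ w.2.1))) (Subtype.ext hl)) a.ne_zero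
      exact ⟨g, a, Subtype.ext h2, Subtype.ext (by rw [g_val, h3, c_val]; simp)⟩
    · have h2 : (sc b (1 : Fˣ) - sc b l)ᵀ * orbM (SUb B) ω y = 0 := by
        ext v p
        have := pt_scale hB hU hn ((invM_sc (C := Fˣ) hb 1).transpose.mul (invM_orbM ω y)) l v p
        simp only [mul_apply, transpose_apply, sc, of_apply, one_smul] at this
        simp only [mul_apply, transpose_apply, sc, of_apply, one_smul, Matrix.sub_apply, sub_mul, sum_sub_distrib,
          Matrix.zero_apply]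
        exact sub_eq_zero.2 (by convert this.symm)
      have h3 := kP ((sc b (1 : Fˣ) - sc b l) * (sc b (1 : Fˣ) - sc b l)ᵀ) 0 0
        (by rw [Matrix.mul_assoc, h2, Matrix.mul_zero, Matrix.mul_zero]) (by simp)
      by_contra h4
      refine transpose_mul_ne_zero h4 ?_
      rw [transpose_mul, transpose_transpose, Matrix.mul_assoc, ← Matrix.mul_assoc (sc b (1 : Fˣ) - sc b l), h3]
      simp
  obtain ⟨eA, eB, pA, pB, es, n1, kA, kB, tA, tB⟩ := pt_idem hB hU hk hq rfl
  have q3 : (3 : ℝ) ≤ q := by exact_mod_cast hq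
  have y1 : -(q : ℝ) - 1 ≠ 0 := by linarith
  rw [hk, cI_succ (by linarith) rfl, show ((-(q : ℝ)) ^ (k + 5 + 1) + (-q) ^ (k + 5) - (-q) ^ (2 * (k + 5) + 1) - 1) /
    (q + 1) = ((-q) ^ (k + 6) - 1) * ((-q) ^ (k + 5) - 1) / (-q - 1) by
      rw [div_eq_div_iff (by linarith) y1]; ring] at key
  obtain ⟨m1, m2, -⟩ := th_ne (y := -(q : ℝ)) (by linarith) k
  obtain ⟨f, h2, h3⟩ : ∃ f : ℕ, (f : ZMod q) = 0 ∧ (Fintype.card X : ℝ) = 1 + f + Fintype.card (TI B 1) := by
    simp only [Tr, not_forall] at h1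
    obtain ⟨y, y', h1⟩ := h1
    by_cases c1 : orbM (SUb B) ω y * eA = 0
    · by_cases c2 : orbM (SUb B) ω y * eB = 0
      · have := const_row es c1 c2 ω y y'
        rw [orb_row, orb_row, if_pos (Rel.refl ω y), if_neg (show ¬ Rel B ω y y' from h1)] at this
        exact absurd this one_ne_zero
      · obtain ⟨f, e1, e2⟩ := key eB _ pB kB (fun e => m2 ((div_left_inj' y1).1 e)) y c2
        rw [e1] at tB
        have : (f : ℤ) * ((-q - 1) * ((-q) ^ 2 - 1)) = -(-q) ^ 3 * ((-q) ^ (k + 5) - 1) * ((-q) ^ (k + 4) - 1) := by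
          exact_mod_cast tB
        exact ⟨f, by simpa using congrArg (Int.cast : ℤ → ZMod q) this, e2⟩
    · obtain ⟨f, e1, e2⟩ := key eA _ pA kA (fun e => m1 ((div_left_inj' y1).1 e)) y c1
      rw [e1] at tA
      have : (f : ℤ) * ((-q - 1) * ((-q) ^ 2 - 1)) = (-q) ^ 2 * ((-q) ^ (k + 6) - 1) * ((-q) ^ (k + 3) - 1) := by
        exact_mod_cast tA
      exact ⟨f, by simpa using congrArg (Int.cast : ℤ → ZMod q) this, e2⟩
  have h4 : (Fintype.card (TI B 1) : ℤ) * ((-q) ^ 2 - 1) = -((-q) ^ (k + 6) - 1) * ((-q) ^ (k + 5) - 1) := by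
    exact_mod_cast n1
  have h5 : (Fintype.card (TI B 1) : ZMod q) = 1 := by simpa using congrArg (Int.cast : ℤ → ZMod q) h4
  have h6 : Fintype.card X = 1 + f + Fintype.card (TI B 1) := by exact_mod_cast h3
  have h7 := (ZMod.natCast_eq_zero_iff _ _).2 (q_dvd hB hU hs hn u0 hu h)
  rw [h6, Nat.cast_add, Nat.cast_add, h2, h5] at h7
  have := Nat.le_of_dvd two_pos ((ZMod.natCast_eq_zero_iff 2 q).1 (by rw [← h7]; norm_num))
  omega

end Cfsg.Agent.H4.UT
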