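import Cfsg.Agent.H4.OForm

/-!
# Verification of the numerical hypotheses
-/

set_option autoImplicit false
set_option linter.unusedSectionVars false
set_option linter.unusedSimpArgs false
set_option linter.unnecessarySeqFocus false

namespace Cfsg.Agent.H4

open Cfsg.Agent.H6 Module Finset

variable {F V : Type*} [Field F] [AddCommGroup V] [Module F V] {Q : QuadraticForm F V}
variable [Fintype F] [Fintype V] [FiniteDimensional F V]

local notation "q" => Fintype.card F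
local notation "n" => finrank F V

theorem card_level_zero {v : V} (hv : Q v = 0) [DecidablePred fun w => w ≠ 0 ∧ Q w = Q v] :
    (univ.filter fun w => w ≠ 0 ∧ Q w = Q v).card = (Sg Q).card := by
  congr 1
  ext w
  simp [mem_Sg, hv, and_comm]

theorem card_level_ne {v : V} (hv : Q v ≠ 0) [DecidablePred fun w => w ≠ 0 ∧ Q w = Q v] :
    (univ.filter fun w => w ≠ 0 ∧ Q w = Q v).card = cnt Q (Q v) := by
  rw [cnt]
  congr 1
  ext w
  simp only [mem_filter, mem_univ, true_and, and_iff_right_iff_imp]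
  rintro h rfl
  exact hv (by simpa using h.symm)

theorem h5_of {a N c0 d k j : ℕ} (ha : 0 < a) (h : N ≤ a ^ j * c0) (hd : d + j ≤ k) :
    N * (a ^ d - 1) ≤ a ^ k * c0 :=
  calc N * (a ^ d - 1) ≤ a ^ j * c0 * a ^ d := Nat.mul_le_mul h (Nat.sub_le _ _)
    _ = a ^ (d + j) * c0 := by ring
    _ ≤ _ := Nat.mul_le_mul_right _ (Nat.pow_le_pow_right ha hd)

variable (hB : (pb Q).Nondegenerate) (hn : 7 ≤ finrank F V)
include hB hn

theorem numHyp_small {N c0 c w B : ℕ} (hq : q ≤ 3)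
    (hc0 : c0 + q + (q - 1) * q ^ (n - 2) ≤ cnt Q 0)
    (hc : ∀ b, b ≠ 0 → c + (q - 1) * q ^ (n - 2) ≤ cnt Q b)
    (wi : ∀ D, TotSing Q D → finrank F D ≤ w) (h2 : N ≤ c0 + c) (h3 : q = 3 → N ≤ 2 * c)
    (h4 : q = 2 → Even n ∧ 3 * N ≤ 8 * c)
    (h5 : ∀ d, 2 ≤ d → d + 1 ≤ w → d + 6 ≤ n → N * (q ^ d - 1) ≤ q ^ (n - 5) * c0)
    (h6 : ∀ e, 3 ≤ e → e ≤ w → e + 4 = n →
      N ≤ 2 * c0 ∧ B * (q * (q ^ e - q)) ≤ c0 * (q + 1) * q ^ e ∧ q * N ≤ q * B + c)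
    (h7 : n = 8 → 4 ≤ w → q * N ≤ q * B + c0 ∧
      N * (Sg Q).card ≤ B * (Sg Q).card + N * (q ^ 4 - 1) ∧
      q ^ 4 - 1 < (Sg Q).card ∧ N ≤ 2 * B ∧ (4 ≤ q ∨ N ≤ B))
    (h8 : N * (q - 1) ≤ (Sg Q).card) (h9 : N * (q - 1) ≤ q ^ (n - 2) * (q - 1) + c)
    (h10 : N ≤ 2 * q ^ (n - 2)) : NumHyp Q N c0 c w B := by
  obtain ⟨s, h, -, h'⟩ := cl1_ge hB (by omega)
  have : 1 < q := Fintype.one_lt_card
  exact ⟨fun x t hx hx0 _ _ ht => cl0_ge hB (by omega) hc0 x t hx hx0 ht,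
    fun x t hx hx0 h1 ht => (Nat.le_mul_of_pos_left _ (by omega)).trans (h' c hc x t hx hx0 h1 ht),
    wi, fun h => by omega, fun _ => h2, h3, h4, h5, h6, h7, h8, h9, h10⟩

theorem numHyp_big {N c0 c w B ε : ℕ} (hq : 4 ≤ q)
    (hc0 : c0 + q + (q - 1) * q ^ (n - 2) ≤ cnt Q 0)
    (hc : ∀ b, b ≠ 0 → c + (q - 1) * q ^ (n - 2) ≤ cnt Q b)
    (wi : ∀ D, TotSing Q D → finrank F D ≤ w) (e1 : 25 * ε ≤ q ^ (n - 2))
    (e2 : (Sg Q).card ≤ q * q ^ (n - 2) + q * ε) (e3 : q ^ (n - 2) ≤ c + ε)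
    (e4 : 3 * q ^ (n - 2) ≤ 4 * c0)
    (h6 : ∀ e, 3 ≤ e → e ≤ w → e + 4 = n →
      B * (q * (q ^ e - q)) ≤ c0 * (q + 1) * q ^ e ∧ q * N ≤ q * B + c)
    (h7 : n = 8 → 4 ≤ w → q * N ≤ q * B + c0 ∧
      N * (Sg Q).card ≤ B * (Sg Q).card + N * (q ^ 4 - 1) ∧
      q ^ 4 - 1 < (Sg Q).card ∧ N ≤ 2 * B ∧ (4 ≤ q ∨ N ≤ B))
    (h8 : N * (q - 1) ≤ (Sg Q).card) : ∃ c1, NumHyp Q N c0 c1 w B := by
  obtain ⟨s, h, h1, h'⟩ := cl1_ge hB (by omega)
  have hN := h8.trans e2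
  have key : N ≤ 2 * c0 ∧ q * N ≤ ringChar F * (s * c) ∧
      N * (q - 1) ≤ q ^ (n - 2) * (q - 1) + s * c ∧ N ≤ 2 * q ^ (n - 2) := by
    replace h1 := h1 hq
    generalize q ^ (n - 2) = P at *
    rw [← mul_assoc]
    generalize ringChar F * s = ps at *
    obtain ⟨r, hr⟩ : ∃ r, q = r + 4 := ⟨q - 4, by omega⟩
    rw [hr] at hN h h1 ⊢
    rw [show r + 4 - 1 = r + 3 by omega] at hN h h1 ⊢
    obtain ⟨P', rfl⟩ : ∃ P', P = 25 * ε + P' := ⟨P - 25 * ε, by omega⟩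
    obtain ⟨c', rfl⟩ : ∃ c', c = 24 * ε + P' + c' := ⟨c - (24 * ε + P'), by omega⟩
    refine ⟨?_, ?_, ?_, ?_⟩
    · refine Nat.le_of_mul_le_mul_right (c := 2 * (r + 3)) ?_ (by omega)
      nlinarith [Nat.mul_le_mul_right (r + 3) e4, Nat.zero_le (r * ε), Nat.zero_le (r * P')]
    · refine Nat.le_of_mul_le_mul_right (c := 2 * (r + 3)) ?_ (by omega)
      have k1 : (r + 4) * N * (2 * (r + 3)) ≤ 2 * (r + 4) * ((r + 4) * (25 * ε + P') + (r + 4) * ε) :=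
        by nlinarith [Nat.mul_le_mul_left (2 * (r + 4)) hN]
      refine k1.trans ?_
      rcases h1 with h1 | ⟨h1, h2⟩
      · refine le_trans ?_ (Nat.mul_le_mul_right _ (Nat.mul_le_mul h1 (Nat.le_add_right _ c')))
        ring_nf
        omega
      · obtain ⟨r', rfl⟩ : ∃ r', r = r' + 5 := ⟨r - 5, by omega⟩
        refine le_trans ?_ (le_of_le_of_eq (Nat.mul_le_mul_right (r' + 5 + 3)
          (Nat.mul_le_mul h2 (Nat.le_add_right (24 * ε + P') c'))) (by ring))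
        ring_nf
        omega
    · refine Nat.le_of_mul_le_mul_left (c := 2) ?_ (by omega)
      nlinarith [Nat.mul_le_mul h (Nat.le_add_right (24 * ε + P') c'), Nat.zero_le (r * ε),
        Nat.zero_le (r * P')]
    · refine Nat.le_of_mul_le_mul_right (c := r + 3) ?_ (by omega)
      nlinarith [Nat.zero_le (r * ε), Nat.zero_le (r * P')]
  exact ⟨s * c, fun x t hx hx0 _ _ ht => cl0_ge hB (by omega) hc0 x t hx hx0 ht,
    fun x t hx hx0 h1 ht => h' c hc x t hx hx0 h1 ht, wi, fun _ => key.2.1, fun h => by omega,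
    fun h => by omega, fun h => by omega,
    fun d _ _ hd => h5_of (j := 1) (by omega) (by nlinarith [key.1]) (by omega),
    fun e a1 a2 a3 => ⟨key.1, (h6 e a1 a2 a3).1, (h6 e a1 a2 a3).2.trans
      (Nat.add_le_add_left (Nat.le_mul_of_pos_left _ (by omega)) _)⟩, h7, h8, key.2.2.1, key.2.2.2⟩

end Cfsg.Agent.H4
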