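import Cfsg.Agent.H4.TO5

/-! The split BN-pair of `Ω`: a two-transitive action restricts to a transitive action of the flag stabiliser. -/

set_option autoImplicit false
set_option linter.unusedSectionVars false

namespace Cfsg.Agent.H4.TO

namespace Fr

open Module H6 H1 Finset
open scoped commutatorElement Classical

variable {F : Type*} [Field F] {E : Type*} [AddCommGroup E] [Module F E] [FiniteDimensional F E]
  {Q : QuadraticForm F E} {T : Fr Q} {hB : (pb Q).Nondegenerate} {n m u v b b' g : Om Q}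

theorem uniq {w y : T.W} (hn : T.Rp n w.1) (hm : T.Rp m y.1) (hb : b ∈ T.B hB) (hb' : b' ∈ T.B hB)
    (e : m = b * n * b') : y = w := by
  have key : ∀ j, T.p j ≠ 0 → w.1 j ≤ y.1 j := fun j hj => by
    have := hm.Z_left.2 (B_diag (inv_mem hb') hj)
    rw [← map_mul, e, mul_inv_cancel_right, map_mul, hn.Z_right] at this
    exact mem_B.1 hb _ _ this
  refine Subtype.ext (Equiv.ext fun a => ?_)
  by_cases h : ok T.r a
  · have h1 := key a (T.p_ne h)
    have h2 := key (-a) (T.p_ne (ok_neg.2 h))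
    rw [w.2.1, y.2.1] at h2
    omega
  · rw [w.2.2.1 a h, y.2.2.1 a h]

theorem Z_conj' {w : T.W} (hn : T.Rp n w.1) {a c : ℤ} (h : T.Z (oA Q u) a c) :
    T.Z (oA Q (n⁻¹ * u * n)) (w⁻¹.1 a) (w⁻¹.1 c) := by
  rw [map_mul, map_mul, hn.Z_conj]
  simpa using h

theorem hull {y : T.W} (hu : u ∈ T.U hB) (hm : T.Rp m y.1)
    (h : ∀ γ : T.Ph, γ.1.2 < γ.1.1 → T.Z (oA Q u) γ.1.1 γ.1.2 → y⁻¹.1 γ.1.2 < y⁻¹.1 γ.1.1) :
    m⁻¹ * u * m ∈ T.U hB := fun a c h1 => by
  have h2 := conj_sub m⁻¹ u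
  rw [inv_inv] at h2
  rw [h2, hm.Z_conj] at h1
  have h3 := mem_U.1 hu _ _ h1
  rw [Z_sub_one h3.ne'] at h1
  have k : ∀ a c, T.Z (oA Q u) a c → a ≠ c → a ≠ -c → y⁻¹.1 c < y⁻¹.1 a := fun a c h1 h2 h3 =>
    h ⟨(a, c), h1.left, h1.right, h2, h3⟩ ((mem_B.1 (U_le hu) _ _ h1).lt_of_ne h2.symm) h1
  by_cases e : y.1 a = -y.1 c
  · obtain ⟨d, h4, h5, h6, h7⟩ := B_anti (a := y.1 a) (U_le hu) (by omega) (by rwa [e, neg_neg, ← e])
    have h8 := k _ _ h6 h5 (by omega)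
    have h9 := k _ _ h7 (by omega) (by omega)
    have h10 : a = -c := y.1.injective (by rw [e, y.2.1])
    have h11 : y⁻¹.1 (-y.1 a) = c := by simp [e]
    rw [y⁻¹.2.1 d] at h9
    omega
  · simpa using k _ _ h1 h3.ne' e

variable (T hB) in
/-- minimal parabolic subgroups -/
def P (s : ℕ) : Subgroup (Om Q) where
  carrier := {g | ∀ a b, T.Z (oA Q g) a b → ∀ t : ℕ, t ≠ s → ta (T.p 0 = 0) t b ≤ ta (T.p 0 = 0) t a}
  mul_mem' h1 h2 a b h t ht := by
    obtain ⟨c, h3, h4⟩ := Z.mul (by rwa [map_mul] at h)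
    exact (h2 _ _ h4 t ht).trans (h1 _ _ h3 t ht)
  one_mem' a b h t _ := by rw [Z.one (T := T) (a := a) (b := b) (by simpa using h)]
  inv_mem' h a b h1 t ht := by
    have := h _ _ (h1.inv hB) t ht
    rw [ta_neg (by omega), ta_neg (by omega)] at this
    omega

theorem ent_add (s : ℤ) (hu : u ∈ T.U hB) (hv : v ∈ T.U hB) :
    T.p (rx (T.p 0 = 0) s) * oA Q (u * v) * T.p (ry (T.p 0 = 0) s) =
      T.p (rx (T.p 0 = 0) s) * oA Q u * T.p (ry (T.p 0 = 0) s) +
        T.p (rx (T.p 0 = 0) s) * oA Q v * T.p (ry (T.p 0 = 0) s) := by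
  have h1 : ¬ T.Z ((oA Q u - 1) * (oA Q v - 1)) (rx (T.p 0 = 0) s) (ry (T.p 0 = 0) s) := fun h => by
    obtain ⟨c, h2, h3⟩ := h.mul
    have h4 := mem_U.1 hu _ _ h2
    have h5 := mem_U.1 hv _ _ h3
    rcases sg_cases (T.p 0 = 0) s with ⟨hd, -, e1, e2, -⟩ | ⟨-, -, e1, e2, -⟩ | ⟨-, e1, e2, -⟩
    · have : c ≠ 0 := by rintro rfl; exact h3.left hd
      rw [show c = 1 by omega, e2, Z_sub_one (by omega)] at h3
      exact B_not (U_le hv) hd h3
    · omega
    · omega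
  have h2 := T.p_mul_ne (ry_lt (d := T.p 0 = 0) s).ne'
  rw [Z, not_not] at h1
  rw [map_mul, show oA Q u * oA Q v = (oA Q u - 1) * (oA Q v - 1) + oA Q u + oA Q v - 1 by noncomm_ring]
  simp only [mul_sub (T.p _) _ 1, mul_add, sub_mul _ (T.p _), add_mul, h1, mul_one, h2, zero_add, sub_zero]

theorem ent_inv (s : ℤ) (hu : u ∈ T.U hB) : T.p (rx (T.p 0 = 0) s) * oA Q u⁻¹ * T.p (ry (T.p 0 = 0) s) =
    -(T.p (rx (T.p 0 = 0) s) * oA Q u * T.p (ry (T.p 0 = 0) s)) := by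
  rw [eq_neg_iff_add_eq_zero, ← ent_add s (inv_mem hu) hu, inv_mul_cancel, map_one, mul_one,
    T.p_mul_ne (ry_lt s).ne']

variable (T hB) in
/-- elements of `U` with trivial simple root component -/
def Y (s : ℤ) : Subgroup (Om Q) where
  carrier := {u | u ∈ T.U hB ∧ T.p (rx (T.p 0 = 0) s) * oA Q u * T.p (ry (T.p 0 = 0) s) = 0}
  mul_mem' h1 h2 := ⟨mul_mem h1.1 h2.1, by rw [ent_add s h1.1 h2.1, h1.2, h2.2, add_zero]⟩
  one_mem' := ⟨one_mem _, by rw [map_one, mul_one, T.p_mul_ne (ry_lt s).ne']⟩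
  inv_mem' h := ⟨inv_mem h.1, by rw [ent_inv s h.1, h.2, neg_zero]⟩

theorem comm_le (s : ℤ) : ⁅T.U hB, T.U hB⁆ ≤ T.Y hB s := Subgroup.commutator_le.2 fun u hu v hv => by
  refine ⟨mul_mem (mul_mem (mul_mem hu hv) (inv_mem hu)) (inv_mem hv), ?_⟩
  rw [commutatorElement_def, ent_add s (mul_mem (mul_mem hu hv) (inv_mem hu)) (inv_mem hv),
    ent_add s (mul_mem hu hv) (inv_mem hu), ent_add s hu hv, ent_inv s hu, ent_inv s hv]
  abel

theorem p_p_ne_zero {a c : ℤ} {v : E} (h : T.p c (T.p a v) ≠ 0) : c = a := by_contra fun e => h (T.p_p_ne e v)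

variable [Finite F] (H : OH Q) (hA : T.An) (h2 : 2 ≤ T.r)

/-- the split BN-pair -/
noncomputable def ax : H7.AX (Om Q) (rs H hA h2) where
  U := T.U H.nd
  B := T.B H.nd
  Um := T.Um
  Rep n w := T.Rp n w.1
  P s := T.P H.nd s
  Y s := T.Y H.nd s
  rep_mul h1 h2 := h1.mul h2
  rep_inv h := h.inv (by simp)
  rep_ex w := w.2.2.2
  rep_one h := mem_B.2 fun _ _ h1 => (h.eq h1).ge
  U_le := U_le
  conj_U := conj_U
  B_eq {g} hg := by
    obtain ⟨w, n, u, b, h1, h3, -, h4, h5⟩ := bruhat H hA g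
    have h6 : n ∈ T.B H.nd := by
      rw [show n = u⁻¹ * g * b⁻¹ by rw [h5]; group]
      exact mul_mem (mul_mem (inv_mem (U_le h3)) hg) (inv_mem (U_le h4))
    have h7 : w = 1 := uniq Rp_one h1 h6 (one_mem _) (by simp)
    refine ⟨n, h7 ▸ h1, ?_⟩
    rw [h5, mul_assoc u, mul_assoc u]
    exact mul_mem h3 (conj_U h6 h4)
  bruhat g := by
    obtain ⟨w, n, u, b, h1, h3, h4, h5, h6⟩ := bruhat H hA g
    exact ⟨w, n, u, b, h1, h3, h4, U_le h5, h6⟩
  uniq := uniq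
  hull1 {u n m w y} hu hn h hm k := hull hu hm fun γ h1 h3 =>
    k γ h1 ((mem_B.1 h _ _ (Z_conj' hn h3)).lt_of_ne (w⁻¹ • γ).2.2.2.1.symm)
  hull2 hu hn h hm k := hull hu hm fun γ h1 h3 => k γ h1 (h _ _ (Z_conj' hn h3)).not_gt
  B_le s g hg a b h t _ := ta_mono (by omega) (mem_B.1 hg _ _ h) (su_iff.1 h.left).2.2 (su_iff.1 h.right).2.2
    (by rintro hd rfl rfl; exact B_not hg hd h)
  rep_P {s n} hn a b h t ht := by
    rw [hn.eq h]
    exact (ta_sg (by omega) (by omega) (by omega) b).ge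
  P_rep {s n w} hn h := by
    have k : ∀ t : ℕ, t ≠ s → ∀ a, ta (T.p 0 = 0) t (w.1 a) = ta (T.p 0 = 0) t a := fun t ht a => by
      have k : ∀ a, ok T.r a → ta (T.p 0 = 0) t a ≤ ta (T.p 0 = 0) t (w.1 a) := fun a ha => h _ _ (by
        rw [← mul_one (oA Q n), hn.Z_left, Z, mul_one, p_mul]; exact T.p_ne ha) t ht
      by_cases ha : ok T.r a
      · have h1 := k a ha
        have h3 := k (-a) (ok_neg.2 ha)
        rw [w.2.1, ta_neg (by omega), ta_neg (by omega)] at h3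
        omega
      · rw [w.2.2.1 a ha]
    have key : ∀ w : T.W, (∀ t : ℕ, t ≠ s → ∀ a, ta (T.p 0 = 0) t (w.1 a) = ta (T.p 0 = 0) t a) →
        s ∉ (rs H hA h2).Ds w → w = 1 := fun w k hs => by_contra fun e => by
      obtain ⟨t, ht⟩ := H7.RS.exists_Ds (R := rs H hA h2) e
      have h1 : (t : ℕ) ≠ s := fun e => hs (Fin.ext e ▸ ht)
      obtain ⟨a1, a2, a3, a4⟩ := ((rs H hA h2).α t).2
      obtain ⟨b1, b2, b3, b4⟩ := (w⁻¹ • (rs H hA h2).α t).2
      have h3 := ta_le (s := t) (by omega) b2 b1 (not_lt.1 ht) (by omega)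
      rw [← k t h1, ← k t h1 (w⁻¹ • (rs H hA h2).α t).1.2] at h3
      simp only [smul_val, InvMemClass.coe_inv, Equiv.Perm.coe_inv, Equiv.apply_symm_apply] at h3
      exact H7.RS.sp_self (R := rs H hA h2) t (h3.antisymm (ta_le (by omega) a1 a2 ((rs H hA h2).α_pos t).le a4))
    by_cases hs : s ∈ (rs H hA h2).Ds w
    · refine .inr ?_
      rw [← H7.RS.σ_inv, eq_comm, inv_eq_iff_mul_eq_one]
      refine key _ (fun t ht a => ?_) (by rw [H7.RS.mem_Ds_σ]; exact not_not.2 hs)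
      rw [← k t ht a]
      exact ta_sg (by omega) (by omega) (by omega) _
    · exact .inl (key w k hs)
  Y_ne s h := by
    obtain ⟨a1, a2, a3, a4⟩ := ((rs H hA h2).α s).2
    have h0 := ry_lt (d := T.p 0 = 0) s
    obtain ⟨x, y, hy⟩ := T.exists_pb H.nd a2
    change T.p (rx _ s) ≠ 0 at a1
    change rx _ s ≠ -ry _ s at a4
    change pb Q (T.p (ry _ s) x) (T.p (-ry _ s) y) = 1 at hy
    have h1 : ok T.r (rx (T.p 0 = 0) s) := (T.sup_iff.1 a1).resolve_right fun h => by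
      have := h.1; unfold rx at this; split_ifs at this <;> omega
    have := LinearMap.congr_fun (h (ez_U H (a := rx (T.p 0 = 0) s) (y := T.p (-ry (T.p 0 = 0) s) y) fun c hc => by
      have := p_p_ne_zero hc; omega)).2 x
    rw [End.mul_apply, End.mul_apply, H.ez_apply (T.sing _) (pb_e_of (T.p_p_ne (by omega) _)), hy, pb_p,
      T.p_e_ne (by omega)] at this
    exact T.e_ne h1 (by simpa [T.p_p_ne h0.ne', p_e] using this)
  comm_le s := comm_le _
  Us_le {s u n} hu hn h := ⟨hu, by_contra fun e => by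
    have h1 := mem_B.1 (U_le h) _ _ (Z_conj' hn e)
    rw [H7.RS.σ_inv] at h1
    exact h1.not_gt (sg_xy (by omega))⟩

theorem ez_comm {i : ℤ} (h1 : 2 ≤ i) (h3 : i ≤ T.r) (h4 : T.p (i - 2) ≠ 0) {y : E}
    (hy : ∀ c, T.p c y ≠ 0 → 2 - i ≤ c ∧ c ≤ i) : H.ez (T.e i) y ∈ ⁅T.U H.nd, T.U H.nd⁆ := by
  let A : AddSubgroup E :=
    { carrier := {v | pb Q (T.e i) v = 0 ∧ H.ez (T.e i) v ∈ ⁅T.U H.nd, T.U H.nd⁆}
      add_mem' := fun h k => ⟨by simp [h.1, k.1], H.ez_add (T.sing i) h.1 k.1 ▸ mul_mem h.2 k.2⟩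
      zero_mem' := ⟨by simp, H.ez_zero _ ▸ one_mem _⟩
      neg_mem' := fun h => ⟨by simp [h.1], H.ez_inv (T.sing i) h.1 ▸ inv_mem h.2⟩ }
  have k1 : ∀ z a, (∀ c, T.p c z ≠ 0 → 2 - i ≤ c) → (∀ c, T.p c a ≠ 0 → -i < c) →
      oA Q (H.ez (T.e (i - 1)) z) a - a ∈ A := fun z a hz ha => by
    have e1 : pb Q (T.e i) a = 0 := pb_e_of (by_contra fun e => (ha _ e).false)
    have e2 : oA Q (H.ez (T.e (i - 1)) z) (T.e i) = T.e i :=
      H.ez_fix (T.sing _) (pb_e_of (by_contra fun e => by have := hz _ e; omega)) (T.zero _ _ (by omega))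
        (pb_e_of (by_contra fun e => by have := hz _ e; omega))
    have e3 : pb Q (T.e i) (oA Q (H.ez (T.e (i - 1)) z) a) = 0 := by rw [← e2, oA_pb, e1]
    refine ⟨by simp [e1, e3], ?_⟩
    have := Subgroup.commutator_mem_commutator (ez_U H (a := i - 1) (y := z) fun c hc => by have := hz c hc; omega)
      (ez_U H ha)
    rwa [commutatorElement_def, H.ez_conj, mul_inv_cancel_right, e2, H.ez_inv (T.sing _) e1,
      ← H.ez_add (T.sing _) e3 (by simp [e1]), ← sub_eq_add_neg] at this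
  have k2 : ∀ t : F, t • T.e (i - 1) ∈ A := fun t => by
    obtain ⟨x, x', hx⟩ := T.exists_pb H.nd h4
    have := k1 (t • T.p (-(i - 2)) x') (T.p (i - 2) x)
      (fun c hc => by have := p_p_ne_zero (right_ne_zero_of_smul (by rwa [map_smul] at hc)); omega)
      fun c hc => by have := p_p_ne_zero hc; omega
    rw [H.ez_apply (T.sing _) (by rw [map_smul, pb_e_of (T.p_p_ne (by omega) _), smul_zero]), map_smul, hx, pb_p,
      T.p_e_ne (by omega)] at this
    simpa using this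
  have k3 : ∀ t : F, t • T.e i ∈ A := fun t => ⟨by simp [pb_sing (T.sing i)], H.ez_self _ _ ▸ one_mem _⟩
  obtain ⟨z, hz⟩ : ∃ z, z = y - T.p (i - 1) y - T.p i y := ⟨_, rfl⟩
  have k4 : ∀ c, T.p c z ≠ 0 → 2 - i ≤ c ∧ c ≤ i - 2 := fun c hc => by
    have e1 : c ≠ i - 1 := by rintro rfl; simp [hz, p_p, T.p_p_ne (show i - 1 ≠ i by omega)] at hc
    have e2 : c ≠ i := by rintro rfl; simp [hz, p_p, T.p_p_ne (show c ≠ c - 1 by omega)] at hc
    have := hy c (by simpa [hz, T.p_p_ne e1, T.p_p_ne e2] using hc)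
    omega
  have k5 := k1 z (T.e (-(i - 1))) (fun c hc => (k4 c hc).1) fun c hc => by
    have : c = -(i - 1) := by_contra fun e => hc (T.p_e_ne e)
    omega
  rw [H.ez_apply (T.sing _) (pb_e_of (by_contra fun e => by have := k4 _ e; omega)),
    pb_e_of (by_contra fun e => by have := k4 _ e; omega), pb_comm, T.one _ (by unfold ok; omega)] at k5
  have := add_mem (add_mem (sub_mem (neg_mem k5) (k2 (Q z))) (k2 (pb Q (T.e (-(i - 1))) y)))
    (k3 (pb Q (T.e (-i)) y))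
  rw [← T.p_apply (by omega), ← T.p_apply (by omega)] at this
  convert this.2 using 2
  rw [hz]
  module

theorem star_aux (k : ℕ) : ∀ u ∈ T.U H.nd, (∀ s : Fin T.r, u ∈ T.Y H.nd s) →
    (∀ t : ℤ, k < t.natAbs → oA Q u (T.e t) = T.e t) → u ∈ ⁅T.U H.nd, T.U H.nd⁆ := by
  have key : ∀ (u : Om Q) t v, oA Q u (T.e t) = T.e t → pb Q (T.e t) (oA Q u v - v) = 0 := fun u t v h => by
    rw [map_sub, ← h, oA_pb, h, sub_self]
  induction k with
  | zero =>
    intro u hu _ h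
    suffices oA Q u - 1 = 0 from (show u = 1 from om_ext fun x => by rw [sub_eq_zero.1 this]; rfl) ▸ one_mem _
    refine eq_zero_of_Z (T := T) fun a b h1 => ?_
    have h3 := mem_U.1 hu _ _ h1
    obtain ⟨v, hv⟩ := Z_iff.1 h1
    by_cases h0 : a = 0
    · exact h1.at_e (by omega) (by simp [h b (by omega)])
    · exact hv ((T.p_eq_zero h0).2 (key u _ _ (h _ (by omega))))
  | succ k ih =>
  intro u hu hY h
  obtain ⟨i, hi⟩ : ∃ i : ℤ, i = k + 1 := ⟨_, rfl⟩
  by_cases ha : ok T.r i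
  swap
  · refine ih u hu hY fun t ht => ?_
    by_cases e : k + 1 < t.natAbs
    · exact h t e
    · rw [T.nok t (by unfold ok at *; omega), map_zero]
  have k1 : ∀ a c, T.p c (oA Q u (T.e a) - T.e a) ≠ 0 → a < c ∧ -i ≤ c ∧ c ≤ i := fun a c hc =>
    ⟨mem_U.1 hu _ _ (.of_e hc), by_contra fun e => hc ((T.p_eq_zero (by omega)).2 (key u _ _ (h _ (by omega))))⟩
  have k2 : oA Q u (T.e i) = T.e i := sub_eq_zero.1 (T.eq_of_p fun c => by_contra fun e => by
    have := k1 i c (by simpa using e); omega)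
  obtain ⟨y, hy⟩ : ∃ y, y = oA Q u (T.e (-i)) - T.e (-i) := ⟨_, rfl⟩
  have k3 : oA Q (H.ez (T.e i) (-y)) (T.e (-i)) = oA Q u (T.e (-i)) := by
    simpa [hy] using ez_to H (T.sing i) (v := oA Q u (T.e (-i))) (by rw [oA_Q, T.sing]) (T.sing (-i)) (T.one i ha)
      one_ne_zero (by rw [← k2, oA_pb, T.one i ha])
  have k4 : ∀ c, T.p c y ≠ 0 → -i < c ∧ c ≤ i := fun c hc => by have := k1 (-i) c (hy ▸ hc); omega
  have k5 : ∀ s : ℕ, s < T.r → rx (T.p 0 = 0) s = i → T.p (-ry (T.p 0 = 0) s) y = 0 := fun s hs e => by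
    by_contra e'
    have h1 := (Z_sub_one (by have := ry_lt (d := T.p 0 = 0) s; omega)).1 (Z.of_e (x := oA Q u - 1) (hy ▸ e'))
    have h3 := Z.inv H.nd (g := u⁻¹) (by rwa [inv_inv])
    rw [neg_neg, neg_neg, ← e] at h3
    exact h3 (inv_mem (hY ⟨s, hs⟩)).2
  have k6 : H.ez (T.e i) (-y) ∈ ⁅T.U H.nd, T.U H.nd⁆ := by
    unfold ok at ha
    by_cases e : 2 ≤ i ∧ T.p (i - 2) ≠ 0
    · refine ez_comm H e.1 ha.2.2 e.2 fun c hc => ?_
      rw [map_neg, neg_ne_zero] at hc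
      have h1 := k4 c hc
      have h3 : c ≠ 1 - i := by
        have := k5 k (by omega) (by unfold rx; rw [if_neg (by omega), hi])
        rw [ry, if_neg (by omega)] at this
        rintro rfl
        exact hc (by rw [← this]; congr 2; omega)
      omega
    · have : T.p i y = y := T.eq_p fun c hc => by_contra fun e' => by
        have h1 := k4 c e'
        have h3 := su_iff.1 (show T.p c ≠ 0 from fun h => e' (by simp [h]))
        have h4 : ∀ s : ℕ, s < T.r → rx (T.p 0 = 0) s = i → c ≠ -ry (T.p 0 = 0) s := fun s hs e e'' =>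
          e' (e'' ▸ k5 s hs e)
        have h5 := h4 0 (by omega)
        have h6 := h4 1
        rw [su_iff] at e
        unfold su rx ry at *
        grind
      rw [← this, T.p_apply ha.1, ← neg_smul, H.ez_self]
      exact one_mem _
  have k7 : pb Q (T.e i) (-y) = 0 := by rw [map_neg, hy, key u _ _ k2, neg_zero]
  have k8 := (comm_le 0 k6).1
  refine (mul_mem_cancel_left (inv_mem k6)).1 (ih _ (mul_mem (inv_mem k8) hu)
    (fun s => mul_mem (inv_mem (comm_le _ k6)) (hY s)) fun t ht => ?_)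
  rw [map_mul, End.mul_apply]
  refine inv_fix ?_
  by_cases e1 : t = -i
  · rw [e1, k3]
  by_cases e2 : t = i
  · rw [e2, k2, H.ez_fix (T.sing _) k7 (pb_sing (T.sing _)) k7]
  rw [h t (by omega), H.ez_fix (T.sing _) k7 (T.zero _ _ (by omega))]
  rw [map_neg, hy, key u _ _ (h t (by omega)), neg_zero]

theorem pgroup {p : ℕ} [Fact p.Prime] [CharP F p] (h1 : 1 ≤ T.r) : IsPGroup p (T.U hB) := fun u => by
  have : Nontrivial E := ⟨⟨_, _, T.e_ne (a := 1) (by unfold ok; omega)⟩⟩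
  have : CharP (End F E) p := charP_of_injective_algebraMap (algebraMap F (End F E)).injective p
  refine ⟨2 * T.r + 1, Subtype.ext (om_ext fun x => ?_)⟩
  have h := sub_pow_char_pow_of_commute p (2 * T.r + 1) (Commute.one_right (oA Q u.1))
  rw [pow_eq_zero_of_le (Nat.lt_pow_self (Fact.out : p.Prime).one_lt).le (Tr.nil u.2), one_pow, eq_comm,
    sub_eq_zero, ← map_pow] at h
  exact LinearMap.congr_fun h x

theorem exists_move (h1 : 1 ≤ T.r) {Ω : Type*} [MulAction (Om Q) Ω] (ht : H7.TT (Om Q) Ω) :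
    ∃ u ∈ T.U H.nd, ∃ y : Ω, u • y ≠ y := by
  by_contra hn
  push Not at hn
  obtain ⟨x⟩ := ht.nt.to_nonempty
  obtain ⟨g, hg⟩ := ht.exists_ne_smul x
  have := H.eq_top (MulAction.toPermHom (Om Q) Ω).ker fun a b ha hb => by
    by_cases h0 : a = 0
    · rw [h0, H.ez_zero_left]; exact one_mem _
    obtain ⟨k, hk⟩ := H.witt_one (T.e_ne (a := T.r) (by unfold ok; omega)) h0 (by rw [ha, T.sing])
    rw [← hk, ← oA_apply_inv k b, ← mul_inv_eq_iff_eq_mul.2 (H.ez_conj _ _ _)]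
    refine Subgroup.Normal.conj_mem inferInstance _ (Equiv.ext (hn _ (ez_U H fun c hc => ?_))) _
    have h3 := su_iff.1 (show T.p c ≠ 0 from fun h => hc (by simp [h]))
    refine h3.1.lt_of_ne ?_
    rintro rfl
    exact hc ((T.p_eq_zero (by omega)).2 (by rw [neg_neg, pb_comm, pb_inv, hk, pb_comm, hb]))
  exact hg (Equiv.congr_fun (show g ∈ (MulAction.toPermHom (Om Q) Ω).ker from this ▸ Subgroup.mem_top g) x)

end Fr

open Module H6 H1 Fr in
/-- A two-transitive action of `Ω` is transitive for the Borel subgroup. -/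
theorem borel {F : Type*} [Field F] [Finite F] {E : Type*} [AddCommGroup E] [Module F E] [FiniteDimensional F E]
    {Q : QuadraticForm F E} (h : OH Q) {T : Fr Q} (hA : T.An) (h3 : 3 ≤ T.r) (h4 : T.p 0 = 0 → 4 ≤ T.r)
    {Ω : Type*} [Finite Ω] [MulAction (Om Q) Ω] (ht : H7.TT (Om Q) Ω) (x y : Ω) :
    ∃ g ∈ T.B h.nd, g • x = y := by
  classical
  have := finite_Om (Q := Q)
  have := Fintype.ofFinite T.Ph
  obtain ⟨p, hp⟩ := CharP.exists F
  have : Fact p.Prime := ⟨CharP.char_is_prime F p⟩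
  refine H7.AX.B_trans (A := ax h hA (by omega)) ht (pgroup (hB := h.nd) (by omega))
    (H7.AX.not_fix ht (exists_move h (by omega) ht) fun s => ?_)
    (fun u hu hY => star_aux h T.r u hu hY fun t ht => by rw [T.nok t (by unfold ok; omega), map_zero]) x y
  have k := fun s : Fin T.r => ta_top (d := T.p 0 = 0) (s := s) (by omega) (by omega) h3 h4
  refine ⟨⟨(T.r, 1 - T.r), T.p_ne (by unfold ok; omega), T.p_ne (by unfold ok; omega), by omega, by omega⟩,
    show 1 - (T.r : ℤ) < T.r by omega, (k s).1, fun e => ?_, (k s).2⟩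
  have e0 := e ⟨0, by omega⟩ (k _).1
  have e1 := e ⟨1, by omega⟩ (k _).1
  exact absurd (e0.trans e1.symm) (by simp)

open Module H6 H1 Fr in
/-- The stabiliser of a singular flag is transitive. -/
theorem flag {F : Type} [Field F] [Fintype F] {E : Type*} [AddCommGroup E] [Module F E] [FiniteDimensional F E]
    {Q : QuadraticForm F E} (h : H1.OH Q) (h7 : 7 ≤ Module.finrank F E) {Ω : Type*} [Finite Ω]
    [MulAction (H1.Om Q) Ω] (ht : H7.TT (H1.Om Q) Ω) :
    ∃ e1 e2 : E, Q e1 = 0 ∧ Q e2 = 0 ∧ H6.pb Q e1 e2 = 0 ∧ e1 ≠ 0 ∧ e2 ∉ F ∙ e1 ∧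
      ∀ x y : Ω, ∃ g : H1.Om Q, g • x = y ∧ H1.oA Q g e1 ∈ F ∙ e1 ∧ H1.oA Q g e2 ∈ F ∙ e1 ⊔ F ∙ e2 := by
  classical
  obtain ⟨T, hA, h3, h4⟩ := exists_fr h.nd h7
  refine ⟨T.e T.r, T.e (T.r - 1), T.sing _, T.sing _, T.zero _ _ (by omega), T.e_ne (by unfold ok; omega),
    fun e => ?_, fun x y => ?_⟩
  · obtain ⟨c, hc⟩ := Submodule.mem_span_singleton.1 e
    have := T.one (T.r - 1) (by unfold ok; omega)
    rw [← hc] at this
    simp [T.zero T.r (1 - T.r) (by omega)] at this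
  obtain ⟨g, hg, e⟩ := borel h hA h3 h4 ht x y
  have k : ∀ a c, T.p c (oA Q g (T.e a)) ≠ 0 → a ≤ c ∧ c ≤ T.r := fun a c hc =>
    ⟨mem_B.1 hg _ _ (.of_e hc), (su_iff.1 (Z.of_e hc).left).2.1⟩
  have m : ∀ a v, a ≠ 0 → T.p a v ∈ F ∙ T.e a := fun a v ha => by
    rw [T.p_apply ha]; exact Submodule.smul_mem _ _ (Submodule.mem_span_singleton_self _)
  refine ⟨g, e, ?_, ?_⟩
  · rw [← T.eq_p (a := T.r) (v := oA Q g (T.e T.r)) fun c hc => by_contra fun e => by have := k _ c e; omega]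
    exact m _ _ (by omega)
  · rw [← T.sum_p_apply (oA Q g _)]
    refine Submodule.sum_mem _ fun c _ => ?_
    by_cases e1 : c = T.r
    · exact Submodule.mem_sup_left (e1 ▸ m _ _ (by omega))
    by_cases e2 : c = T.r - 1
    · exact Submodule.mem_sup_right (e2 ▸ m _ _ (by omega))
    rw [show T.p c _ = 0 from by_contra fun e => by have := k _ c e; omega]
    exact zero_mem _

end Cfsg.Agent.H4.TO
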