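import Cfsg.Agent.H4.CV2

/-! Covering numbers of linear groups, part 3: powers of classes and block triangular lifting. -/

set_option autoImplicit false

namespace Cfsg.Agent.H4

open Module Polynomial
open scoped Pointwise

universe u

variable {F : Type u} [Field F]
variable {V : Type*} {W : Type*} [AddCommGroup V] [Module F V] [AddCommGroup W] [Module F W]

/-- The class under elements of determinant one. -/
def cS (x : End F V) : Set (End F V) := {y | SSim x y}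

/-- The similarity class. -/
def cG (x : End F V) : Set (End F V) := {y | Sim x y}

/-- Similarity by an element of given determinant. -/
def DSim (d : F) (f g : End F V) : Prop := ∃ e : End F V, LinearMap.det e = d ∧ e * f = g * e

theorem DSim.trans {d d' : F} {f g h : End F V} (h1 : DSim d f g) (h2 : DSim d' g h) :
    DSim (d' * d) f h := by
  obtain ⟨e, a1, a2⟩ := h1
  obtain ⟨e', b1, b2⟩ := h2
  exact ⟨e' * e, by rw [map_mul, a1, b1], by rw [mul_assoc, a2, ← mul_assoc, b2, mul_assoc]⟩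

theorem DSim.trans_s {d : F} {f g h : End F V} (h1 : DSim d f g) (h2 : SSim g h) :
    DSim d f h := by simpa using h1.trans h2

theorem Sim.exists_dsim {f g : End F V} (h : Sim f g) : ∃ d, d ≠ 0 ∧ DSim d f g := by
  obtain ⟨e, a1, a2⟩ := h.exists_mul
  exact ⟨_, a1, e, rfl, a2⟩

theorem Sim.dsim {f g : End F V} (h : Sim f g)
    (hc : ∀ μ : F, ∃ c : End F V, c * f = f * c ∧ LinearMap.det c = μ) (d : F) : DSim d f g := by
  obtain ⟨d', h0, h1⟩ := h.exists_dsim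
  obtain ⟨c, b1, b2⟩ := hc (d'⁻¹ * d)
  simpa [h0] using DSim.trans (⟨c, b2, b1⟩ : DSim _ f f) h1

theorem dsim_line (l d : F) : DSim d (l • (1 : End F F)) (l • 1) :=
  ⟨d • 1, det_smul_one d, by simp [smul_smul, mul_comm]⟩

theorem map_mem_pow {M N : Type*} [Monoid M] [Monoid N] (Φ : M →* N) {C : Set M} {D : Set N}
    (h : ∀ y ∈ C, Φ y ∈ D) {k : ℕ} {T : M} (hT : T ∈ C ^ k) : Φ T ∈ D ^ k := by
  induction k generalizing T with
  | zero => rw [pow_zero, Set.mem_one] at hT ⊢; rw [hT, map_one]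
  | succ k ih =>
    rw [pow_succ] at hT ⊢
    obtain ⟨a, ha, b, hb, rfl⟩ := hT
    rw [map_mul]
    exact Set.mul_mem_mul (ih ha) (h b hb)

theorem mul_mem_pow_add {M : Type*} [Monoid M] {C : Set M} {j k : ℕ} {a b : M} (ha : a ∈ C ^ j)
    (hb : b ∈ C ^ k) : a * b ∈ C ^ (j + k) := by
  rw [pow_add]; exact Set.mul_mem_mul ha hb

theorem mul_mem_pow_succ {M : Type*} [Monoid M] {C : Set M} {j : ℕ} {a b : M} (ha : a ∈ C ^ j)
    (hb : b ∈ C) : a * b ∈ C ^ (j + 1) := by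
  rw [pow_succ]; exact Set.mul_mem_mul ha hb

theorem mul_mem_pow_succ' {M : Type*} [Monoid M] {C : Set M} {j : ℕ} {a b : M} (ha : a ∈ C)
    (hb : b ∈ C ^ j) : a * b ∈ C ^ (j + 1) := by
  rw [pow_succ']; exact Set.mul_mem_mul ha hb

theorem mul_mem_sq {M : Type*} [Monoid M] {C : Set M} {a b : M} (ha : a ∈ C)
    (hb : b ∈ C) : a * b ∈ C ^ 2 := by
  rw [pow_two]; exact Set.mul_mem_mul ha hb

theorem Sim.transport {x : End F V} {x' : End F W} (h : Sim x x') :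
    ∃ Φ : End F V ≃ₐ[F] End F W, Φ x = x' ∧ (∀ T, Sim T (Φ T)) ∧
      ∀ d a b, DSim d a b → DSim d (Φ a) (Φ b) := by
  obtain ⟨e, he⟩ := h
  have h1 : ∀ T, Sim T (e.conjAlgEquiv F T) := fun T => sim_conj T e
  refine ⟨e.conjAlgEquiv F, (Sim.eq_conj he).symm, h1, ?_⟩
  rintro d a b ⟨c, a1, a2⟩
  exact ⟨e.conjAlgEquiv F c, (h1 c).det_eq.symm.trans a1, by rw [← map_mul, a2, map_mul]⟩

theorem cS_transport {x : End F V} {x' : End F W} (h : Sim x x') {k : ℕ} {T : End F V}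
    (hT : T ∈ cS x ^ k) : ∃ T' ∈ cS x' ^ k, Sim T T' := by
  obtain ⟨Φ, rfl, h1, h2⟩ := h.transport
  exact ⟨Φ T, map_mem_pow (Φ : End F V →* End F W) (fun y hy => h2 1 _ _ hy) hT, h1 T⟩

theorem cG_transport {x : End F V} {x' : End F W} (h : Sim x x') {k : ℕ} {T : End F V}
    {T' : End F W} (hT : T ∈ cG x ^ k) (hT' : Sim T T') : T' ∈ cG x' ^ k := by
  obtain ⟨Φ, rfl, h1, -⟩ := hT'.transport
  exact map_mem_pow (Φ : End F V →* End F W) (fun y hy => h.symm.trans (Sim.trans hy (h1 y))) hT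

theorem det_of_mem_cG {x T : End F V} {k : ℕ} (hT : T ∈ cG x ^ k) :
    LinearMap.det T = LinearMap.det x ^ k := by
  have := map_mem_pow (LinearMap.det : End F V →* F) (D := {LinearMap.det x})
    (fun y hy => (Sim.det_eq hy).symm) hT
  simpa [Set.singleton_pow] using this

theorem sim_tri_congr {V' W' : Type*} [AddCommGroup V'] [Module F V'] [AddCommGroup W']
    [Module F W'] {A : End F V} {A' : End F V'} {B : End F W} {B' : End F W'} (hA : Sim A A')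
    (hB : Sim B B') (Z : W →ₗ[F] V) : ∃ Z', Sim (tri A Z B) (tri A' Z' B') := by
  obtain ⟨e, he⟩ := hA
  obtain ⟨e', he'⟩ := hB
  exact ⟨e.toLinearMap ∘ₗ Z ∘ₗ e'.symm.toLinearMap, e.prodCongr e', fun v => by simp [he, he']⟩

theorem nonscalar_inv {x x' : End F V} (h : x * x' = 1) (h' : x' * x = 1)
    (hx : ∀ c : F, x ≠ c • 1) (c : F) : x' ≠ c • 1 := by
  rintro rfl
  by_cases c0 : c = 0
  · refine hx 0 ?_
    rw [c0, zero_smul, mul_zero] at h
    rw [← mul_one x, ← h, mul_zero, zero_smul]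
  · refine hx c⁻¹ ?_
    rw [eq_inv_smul_iff₀ c0, ← h', smul_mul_assoc, one_mul]

theorem Sim.nonscalar {x : End F V} {y : End F W} (h : Sim x y) (hx : ∀ c : F, x ≠ c • 1) (c : F) :
    y ≠ c • 1 := fun h' => hx c (by simpa using (h.pow_eq_smul_iff 1 c).2 (by simpa using h'))

variable [Module.Finite F V] [Module.Finite F W]

theorem DSim.sim {d : F} {f g : End F V} (h : DSim d f g) (hd : d ≠ 0) : Sim f g := by
  obtain ⟨e, rfl, h⟩ := h
  exact sim_of_mul hd h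

theorem cS_pow_subset {x : End F V} {k : ℕ} {T : End F V} (hT : T ∈ cS x ^ k) : T ∈ cG x ^ k :=
  map_mem_pow (MonoidHom.id _) (fun _ hy => SSim.sim hy) hT

theorem det_of_mem_cS {x T : End F V} {k : ℕ} (hT : T ∈ cS x ^ k) :
    LinearMap.det T = LinearMap.det x ^ k := det_of_mem_cG (cS_pow_subset hT)

theorem SSim.exists_hom {T T' : End F V} (h : SSim T T') :
    ∃ Φ : End F V →* End F V, Φ T = T' ∧ ∀ y, SSim y (Φ y) := by
  obtain ⟨e, e', a1, -, a3, a4, rfl⟩ := h.exists_conj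
  exact ⟨{ toFun := fun y => e * y * e', map_one' := by rw [mul_one, a3]
           map_mul' := fun a b => by
            rw [mul_assoc (e * a), ← mul_assoc e', ← mul_assoc e', a4, one_mul]
            simp only [mul_assoc] }, rfl, fun y => ssim_conj y a1 a4⟩

theorem cS_conj {x T T' : End F V} {k : ℕ} (hT : T ∈ cS x ^ k) (h : SSim T T') :
    T' ∈ cS x ^ k := by
  obtain ⟨Φ, rfl, h1⟩ := h.exists_hom
  exact map_mem_pow Φ (fun y hy => SSim.trans hy (h1 y)) hT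

omit [Module.Finite F V] in
theorem SSim.inv {a b a' b' : End F V} (h : SSim a b) (ha : a * a' = 1) (hb : b' * b = 1) :
    SSim a' b' := by
  obtain ⟨e, a1, a2⟩ := h
  refine ⟨e, a1, ?_⟩
  calc e * a' = b' * (b * e) * a' := by rw [← mul_assoc, hb, one_mul]
    _ = b' * e := by rw [← a2, mul_assoc, mul_assoc, ha, mul_one]

theorem cor_gl (hV : 2 ≤ finrank F V) {x S T : End F V} (hx : LinearMap.det x ≠ 0)
    (hx' : ∀ c : F, x ≠ c • 1) (hS : Cyc S) (hS0 : LinearMap.det S ≠ 0) (hT : Gd T)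
    (hd : LinearMap.det T = LinearMap.det x * LinearMap.det S) :
    ∃ x' S', SSim x x' ∧ Sim S S' ∧ T = x' * S' := by
  obtain ⟨y, y1, y2, y3⟩ := exists_inv_of_det hx
  obtain ⟨U, a1, a2⟩ := lev_gl hV (M := y) (by rw [y3]; exact inv_ne_zero hx)
    (nonscalar_inv y1 y2 hx') hS hT (by rw [hd]; exact mul_ne_zero hx hS0)
    (by rw [y3, hd, inv_mul_cancel_left₀ hx])
  obtain ⟨Φ, h1, h2⟩ := a1.symm.exists_hom
  exact ⟨Φ x, Φ (y * U), h2 x, a2.trans (h2 _).sim, by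
    rw [← map_mul, ← mul_assoc, y1, one_mul, h1]⟩

theorem cor_sl (hV : 3 ≤ finrank F V) {x S T : End F V} (hx : LinearMap.det x ≠ 0)
    (hx' : ∀ c : F, x ≠ c • 1) (hS : Cyc S) (hS0 : LinearMap.det S ≠ 0) (hT : Gd T)
    (hd : LinearMap.det T = LinearMap.det x * LinearMap.det S) :
    ∃ x' S', SSim x x' ∧ SSim S S' ∧ T = x' * S' := by
  obtain ⟨y, y1, y2, y3⟩ := exists_inv_of_det hx
  obtain ⟨U, a1, a2⟩ := lev_sl hV (M := y) (by rw [y3]; exact inv_ne_zero hx)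
    (nonscalar_inv y1 y2 hx') hS hT (by rw [hd]; exact mul_ne_zero hx hS0)
    (by rw [y3, hd, inv_mul_cancel_left₀ hx])
  obtain ⟨Φ, h1, h2⟩ := a1.symm.exists_hom
  exact ⟨Φ x, Φ (y * U), h2 x, a2.trans (h2 _), by
    rw [← map_mul, ← mul_assoc, y1, one_mul, h1]⟩

theorem cor_sl' (hV : 3 ≤ finrank F V) {M A B : End F V} (hM : ∀ c : F, M ≠ c • 1) (hA : Cyc A)
    (hA0 : LinearMap.det A ≠ 0) (hB : Gd B) (hB0 : LinearMap.det B ≠ 0)
    (hd : LinearMap.det M = LinearMap.det B * LinearMap.det A) :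
    ∃ B' A', SSim B B' ∧ SSim A A' ∧ M = B' * A' := by
  have hM0 : LinearMap.det M ≠ 0 := by rw [hd]; exact mul_ne_zero hB0 hA0
  obtain ⟨y, y1, y2, y3⟩ := exists_inv_of_det hM0
  obtain ⟨a, b1, b2, b3⟩ := exists_inv_of_det hA0
  obtain ⟨U, a1, a2⟩ := lev_sl hV (M := y) (A := a) (by rw [y3]; exact inv_ne_zero hM0)
    (nonscalar_inv y1 y2 hM) (hA.inv b1) hB hB0 (by rw [y3, b3, hd]; field_simp)
  obtain ⟨U', c1, c2, -⟩ := exists_inv_of_det (e := U) (by rw [← a1.sim.det_eq]; exact hB0)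
  refine ⟨U, U' * M, a1, a2.inv b2 ?_, by rw [← mul_assoc, c1, one_mul]⟩
  rw [mul_assoc, ← mul_assoc M, y1, one_mul, c2]

theorem gd_mem_cG (hV : 2 ≤ finrank F V) {x S T : End F V} {j : ℕ} (hx : LinearMap.det x ≠ 0)
    (hx' : ∀ c : F, x ≠ c • 1) (hS : Cyc S) (hS' : S ∈ cG x ^ j) (hT : Gd T)
    (hd : LinearMap.det T = LinearMap.det x ^ (j + 1)) : T ∈ cG x ^ (j + 1) := by
  have h1 := det_of_mem_cG hS'
  obtain ⟨x', S', a1, a2, rfl⟩ := cor_gl hV hx hx' hS (by rw [h1]; exact pow_ne_zero _ hx) hT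
    (by rw [hd, h1, pow_succ'])
  exact mul_mem_pow_succ' a1.sim (cG_transport (Sim.refl x) hS' a2)

theorem gd_mem_cS (hV : 3 ≤ finrank F V) {x S T : End F V} {j : ℕ} (hx : LinearMap.det x ≠ 0)
    (hx' : ∀ c : F, x ≠ c • 1) (hS : Cyc S) (hS' : S ∈ cS x ^ j) (hT : Gd T)
    (hd : LinearMap.det T = LinearMap.det x ^ (j + 1)) : T ∈ cS x ^ (j + 1) := by
  have h1 := det_of_mem_cS hS'
  obtain ⟨x', S', a1, a2, rfl⟩ := cor_sl hV hx hx' hS (by rw [h1]; exact pow_ne_zero _ hx) hT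
    (by rw [hd, h1, pow_succ'])
  exact mul_mem_pow_succ' a1 (cS_conj hS' a2)

theorem nonscalar_mem_cS (hV : 3 ≤ finrank F V) {x A B M : End F V} {j k : ℕ}
    (hx : LinearMap.det x = 1) (hA : Cyc A) (hA' : A ∈ cS x ^ j) (hB : Gd B) (hB' : B ∈ cS x ^ k)
    (hM : ∀ c : F, M ≠ c • 1) (hd : LinearMap.det M = 1) : M ∈ cS x ^ (k + j) := by
  have h1 := det_of_mem_cS hA'
  have h2 := det_of_mem_cS hB'
  rw [hx, one_pow] at h1 h2
  obtain ⟨B', A', a1, a2, rfl⟩ := cor_sl' hV hM hA (by simp [h1]) hB (by simp [h2])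
    (by simp [h1, h2, hd])
  exact mul_mem_pow_add (cS_conj hB' a1) (cS_conj hA' a2)

theorem lift_one {A A' : End F V} {B B' : End F W} {d d' : F} (hA : DSim d A A')
    (hB : DSim d' B B') (hd : d * d' = 1) (Z : W →ₗ[F] V) : ∃ Z1 : W →ₗ[F] V, ∀ Y : W →ₗ[F] V,
      SSim (tri A Z B) (tri A' (Z1 + (A' ∘ₗ Y - Y ∘ₗ B')) B') := by
  obtain ⟨e, rfl, a2⟩ := hA
  obtain ⟨e', rfl, b2⟩ := hB
  obtain ⟨g, -, g2, -⟩ := exists_inv_of_det (right_ne_zero_of_mul_eq_one hd)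
  refine ⟨e ∘ₗ Z ∘ₗ g, fun Y => ⟨tri e (-Y ∘ₗ e') e', by rw [det_tri, hd], ?_⟩⟩
  rw [tri_mul, tri_mul, a2, b2]
  congr 1
  refine LinearMap.ext fun v => ?_
  have h1 : g (e' v) = v := LinearMap.congr_fun g2 v
  have h2 : e' (B v) = B' (e' v) := LinearMap.congr_fun b2 v
  simp [h1, h2]
  abel

theorem lift_upper {B B' : End F W} (hB : Sim B B') (l : F) (Z : W →ₗ[F] F) :
    ∃ Z1 : W →ₗ[F] F, ∀ Y : W →ₗ[F] F, SSim (tri (l • (1 : End F F)) Z B)
      (tri (l • (1 : End F F)) (Z1 + ((l • (1 : End F F)) ∘ₗ Y - Y ∘ₗ B')) B') := by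
  obtain ⟨d, d0, hd⟩ := hB.exists_dsim
  exact lift_one (dsim_line l d⁻¹) hd (inv_mul_cancel₀ d0) Z

theorem lift_lower {A A' : End F V} (hA : Sim A A') (l : F) (Z : F →ₗ[F] V) :
    ∃ Z1 : F →ₗ[F] V, ∀ Y : F →ₗ[F] V, SSim (tri A Z (l • (1 : End F F)))
      (tri A' (Z1 + (A' ∘ₗ Y - Y ∘ₗ (l • (1 : End F F)))) (l • (1 : End F F))) := by
  obtain ⟨d, d0, hd⟩ := hA.exists_dsim
  exact lift_one hd (dsim_line l d⁻¹) (mul_inv_cancel₀ d0) Z

omit [Module.Finite F V] [Module.Finite F W] in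
theorem tri_one : tri (1 : End F V) 0 (1 : End F W) = 1 := LinearMap.ext fun v => by simp

theorem lift_pow_upper {B T : End F W} {k : ℕ} (hT : T ∈ cG B ^ k) (l : F) (Z : W →ₗ[F] F) :
    ∃ Z', tri (l ^ k • (1 : End F F)) Z' T ∈ cS (tri (l • (1 : End F F)) Z B) ^ k := by
  induction k generalizing T with
  | zero =>
    rw [pow_zero, Set.mem_one] at hT
    exact ⟨0, by rw [hT, pow_zero, pow_zero, one_smul, tri_one]; rfl⟩
  | succ k ih =>
    rw [pow_succ] at hT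
    obtain ⟨a, ha, b, hb, rfl⟩ := hT
    obtain ⟨Z0, h0⟩ := ih ha
    obtain ⟨Z1, h1⟩ := lift_upper hb l Z
    have := mul_mem_pow_succ h0 (h1 0)
    rw [tri_mul, smul_mul_smul_comm, one_mul, ← pow_succ] at this
    exact ⟨_, this⟩

theorem lift_pow_lower {A T : End F V} {k : ℕ} (hT : T ∈ cG A ^ k) (l : F) (Z : F →ₗ[F] V) :
    ∃ Z', tri T Z' (l ^ k • (1 : End F F)) ∈ cS (tri A Z (l • (1 : End F F))) ^ k := by
  induction k generalizing T with
  | zero =>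
    rw [pow_zero, Set.mem_one] at hT
    exact ⟨0, by rw [hT, pow_zero, pow_zero, one_smul, tri_one]; rfl⟩
  | succ k ih =>
    rw [pow_succ] at hT
    obtain ⟨a, ha, b, hb, rfl⟩ := hT
    obtain ⟨Z0, h0⟩ := ih ha
    obtain ⟨Z1, h1⟩ := lift_lower hb l Z
    have := mul_mem_pow_succ h0 (h1 0)
    rw [tri_mul, smul_mul_smul_comm, one_mul, ← pow_succ] at this
    exact ⟨_, this⟩

theorem exists_link_functional (S1 A' : End F V) {T2 : End F W} (B' : End F W) (hT : Cyc T2)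
    (Zc : W →ₗ[F] V) (ν : F) (h : ∀ v, v ≠ 0 → T2 v = ν • v → ∀ ψ : V →ₗ[F] F, ψ ≠ 0 →
      (∀ u, ψ (S1 (A' u)) = ν * ψ u) → ∃ Y : W →ₗ[F] V, ψ (S1 (A' (Y v) - Y (B' v))) ≠ 0) :
    ∃ (l : (W →ₗ[F] V) →ₗ[F] F) (c : F), (l ≠ 0 ∨ c ≠ 0) ∧ ∀ Y, l Y ≠ c →
      X - C ν ∣ (S1 * A').charpoly → X - C ν ∣ T2.charpoly → ∀ u v,
        (S1 * A') u + (Zc + S1 ∘ₗ (A' ∘ₗ Y - Y ∘ₗ B')) v = ν • u → T2 v = ν • v → v = 0 := by
  by_cases h1 : X - C ν ∣ (S1 * A').charpoly ∧ X - C ν ∣ T2.charpoly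
  · obtain ⟨ψ, p1, p2⟩ := exists_left_eigen (dvd_iff_isRoot.1 h1.1)
    obtain ⟨v, v1, v2⟩ := exists_eigen (dvd_iff_isRoot.1 h1.2)
    obtain ⟨Y, hY⟩ := h v v1 v2 ψ p1 p2
    refine ⟨ψ ∘ₗ S1 ∘ₗ (A' ∘ₗ LinearMap.applyₗ v - LinearMap.applyₗ (B' v)), -ψ (Zc v),
      Or.inl fun h0 => hY (LinearMap.congr_fun h0 Y), fun Y hY _ _ u w a1 a2 => ?_⟩
    obtain ⟨c, rfl⟩ := hT.eigen_span v1 v2 a2
    have := congrArg ψ a1
    rw [map_add, p2, map_smul, map_smul, map_smul, smul_eq_mul, smul_eq_mul, add_eq_left,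
      mul_eq_zero] at this
    rcases this with h | h
    · rw [h, zero_smul]
    · exact absurd (eq_neg_of_add_eq_zero_right (by simpa using h)) (by simpa using hY)
  · exact ⟨0, 1, Or.inr one_ne_zero, fun _ _ a b => absurd ⟨a, b⟩ h1⟩

omit [Module.Finite F V] in
theorem avoid_affine (hF : Four F) {l1 l2 l3 : V →ₗ[F] F} {c1 c2 c3 : F} (h1 : l1 ≠ 0 ∨ c1 ≠ 0)
    (h2 : l2 ≠ 0 ∨ c2 ≠ 0) (h3 : l3 ≠ 0 ∨ c3 ≠ 0) : ∃ v, l1 v ≠ c1 ∧ l2 v ≠ c2 ∧ l3 v ≠ c3 := by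
  have key : ∀ {l : V →ₗ[F] F} {c : F}, (l ≠ 0 ∨ c ≠ 0) →
      LinearMap.ker (l.coprod (-c • LinearMap.id : F →ₗ[F] F)) ≠ ⊤ := by
    intro l c h h'
    rw [LinearMap.ker_eq_top] at h'
    rcases h with h | h
    · exact h (LinearMap.ext fun v => by simpa using LinearMap.congr_fun h' (v, 0))
    · exact h (by simpa using LinearMap.congr_fun h' (0, 1))
  obtain ⟨⟨v, t⟩, a1, a2, a3, a4⟩ := avoid_four hF (key h1) (key h2) (key h3)
    (key (l := 0) (Or.inr one_ne_zero))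
  have t0 : t ≠ 0 := by simpa using a4
  have fin : ∀ {l : V →ₗ[F] F} {c : F},
      (v, t) ∉ LinearMap.ker (l.coprod (-c • LinearMap.id : F →ₗ[F] F)) → l (t⁻¹ • v) ≠ c := by
    intro l c h h'
    rw [map_smul, smul_eq_mul, inv_mul_eq_iff_eq_mul₀ t0] at h'
    exact h (by simp [h', mul_comm])
  exact ⟨t⁻¹ • v, fin a1, fin a2, fin a3⟩

end Cfsg.Agent.H4
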