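import Cfsg.Agent.H4.CV3

/-! Covering numbers of linear groups, part 4: growth of cyclic elements in powers of a class. -/

set_option autoImplicit false

namespace Cfsg.Agent.H4

open Module Polynomial
open scoped Pointwise

universe u

variable {F : Type u} [Field F]
variable {V : Type*} {W : Type*} [AddCommGroup V] [Module F V] [AddCommGroup W] [Module F W]

/-- Every eigenspace has codimension at least two. -/
def Big (x : End F V) : Prop := ∀ μ : F, nul x (X - C μ) + 2 ≤ finrank F V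

theorem Big.of_sim {x : End F V} {y : End F W} (h : Big x) (hs : Sim x y) : Big y := fun μ => by
  rw [← hs.nul_eq, ← hs.finrank_eq]; exact h μ

theorem Big.nonscalar {x : End F V} (h : Big x) (c : F) : x ≠ c • 1 := by
  rintro rfl
  have := h c
  rw [nul_eq_finrank (by simp [Algebra.algebraMap_eq_smul_one])] at this
  omega

theorem exists_poly (hF : Four F) {m : ℕ} (hm : 2 ≤ m) (g0 : F) {r1 r2 r3 : F} (h1 : r1 ≠ 0)
    (h2 : r2 ≠ 0) (h3 : r3 ≠ 0) : ∃ g : F[X], g.Monic ∧ g.natDegree = m ∧ g.coeff 0 = g0 ∧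
      g.eval r1 ≠ 0 ∧ g.eval r2 ≠ 0 ∧ g.eval r3 ≠ 0 := by
  obtain ⟨c, a1, a2, a3⟩ := hF (-(r1 ^ m + g0) / r1) (-(r2 ^ m + g0) / r2) (-(r3 ^ m + g0) / r3)
  have key : ∀ r : F, r ≠ 0 → c ≠ -(r ^ m + g0) / r → (X ^ m + (C c * X + C g0)).eval r ≠ 0 := by
    intro r hr h h'
    simp only [eval_add, eval_pow, eval_X, eval_mul, eval_C] at h'
    exact h (by field_simp; linear_combination h')
  have hd : (C c * X + C g0).degree < (m : WithBot ℕ) :=
    lt_of_le_of_lt degree_linear_le (by exact_mod_cast (by omega : 1 < m))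
  refine ⟨X ^ m + (C c * X + C g0), monic_X_pow_add hd, ?_, ?_, key _ h1 a1, key _ h2 a2,
    key _ h3 a3⟩
  · rw [natDegree_add_eq_left_of_degree_lt (by rwa [degree_X_pow]), natDegree_X_pow]
  · simp [coeff_X_pow, show (0 : ℕ) ≠ m by omega]

variable [Module.Finite F V] [Module.Finite F W]

theorem exists_gd (hF : Four F) (hV : 3 ≤ finrank F V) (d : F) {μ1 μ2 : F} (h1 : μ1 ≠ 0)
    (h2 : μ2 ≠ 0) : ∃ T : End F V, Gd T ∧ LinearMap.det T = d ∧ T.charpoly.eval μ1 ≠ 0 ∧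
      T.charpoly.eval μ2 ≠ 0 := by
  obtain ⟨ω, a1, a2, a3⟩ := hF 0 μ1 μ2
  obtain ⟨g, b1, b2, b3, b4, b5, b6⟩ := exists_poly hF (m := finrank F V - 1) (by omega)
    (-(-1) ^ finrank F V * d / ω) a1 h1 h2
  obtain ⟨T, v, c1, c2⟩ := exists_cyc_end (V := V) ((monic_X_sub_C ω).mul b1) (by
    rw [(monic_X_sub_C ω).natDegree_mul b1, b2, natDegree_X_sub_C]; omega)
  refine ⟨T, gd_of_charpoly ⟨v, c2⟩ c1 b4, ?_, by simp [c1, b5, sub_eq_zero, a2.symm],
    by simp [c1, b6, sub_eq_zero, a3.symm]⟩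
  rw [det_eq_charpoly, c1, mul_coeff_zero, b3]
  rcases neg_one_pow_eq_or F (finrank F V) with h | h <;> simp [h] <;> field_simp

theorem gd_upper {B T : End F W} {k : ℕ} (hT : T ∈ cG B ^ k) (hc : Cyc T) (l : F) (Z : W →ₗ[F] F)
    (h : T.charpoly.eval (l ^ k) ≠ 0) :
    ∃ T' ∈ cS (tri (l • (1 : End F F)) Z B) ^ k, Gd T' ∧
      T'.charpoly = (X - C (l ^ k)) * T.charpoly := by
  obtain ⟨Z', h1⟩ := lift_pow_upper hT l Z
  have h2 : (tri (l ^ k • (1 : End F F)) Z' T).charpoly = (X - C (l ^ k)) * T.charpoly := by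
    rw [charpoly_tri, charpoly_smul_one]
  exact ⟨_, h1, gd_of_charpoly (cyc_tri_upper _ hc h) h2 h, h2⟩

theorem single_mem (hV : 2 ≤ finrank F W) {x S : End F W} {j : ℕ} (hx : LinearMap.det x ≠ 0)
    (hx' : ∀ c : F, x ≠ c • 1) (hS : Cyc S) (hS' : S ∈ cG x ^ j) {l : F} (hl : l ≠ 0)
    (Z : W →ₗ[F] F) {T : End F (F × W)} (hT : Cyc T) (h1 : Spl T (l ^ (j + 1))) {ω : F}
    (hω : ω ≠ l ^ (j + 1)) (h2 : Spl T ω)
    (hd : LinearMap.det T = (l * LinearMap.det x) ^ (j + 1)) :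
    T ∈ cS (tri (l • (1 : End F F)) Z x) ^ (j + 1) := by
  obtain ⟨g1, a1, a2, a3⟩ := h1.exists_charpoly hT
  obtain ⟨g2, -, b2, b3⟩ := h2.exists_charpoly hT
  obtain ⟨g, rfl⟩ : X - C ω ∣ g1 := by
    have := congrArg (eval ω) (a2.symm.trans b2)
    simpa [dvd_iff_isRoot, sub_eq_zero, hω] using this
  have c1 : g2 = (X - C (l ^ (j + 1))) * g :=
    mul_left_cancel₀ (X_sub_C_ne_zero ω) (by rw [← b2, a2]; ring)
  obtain ⟨B, v, d1, d2⟩ := exists_cyc_end (V := W) a1 (by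
    have := T.charpoly_natDegree
    rw [a2, (monic_X_sub_C _).natDegree_mul a1, natDegree_X_sub_C, finrank_prod,
      finrank_self] at this
    omega)
  have d3 : LinearMap.det B = LinearMap.det x ^ (j + 1) := by
    rw [det_eq_charpoly, a2, mul_coeff_zero, finrank_prod, finrank_self, mul_pow] at hd
    rw [det_eq_charpoly, d1]
    apply mul_left_cancel₀ (pow_ne_zero (j + 1) hl)
    rw [← hd]
    simp only [coeff_sub, coeff_X_zero, coeff_C_zero]
    ring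
  obtain ⟨T', e1, e2, e3⟩ := gd_upper (gd_mem_cG hV hx hx' hS hS' (gd_of_charpoly ⟨v, d2⟩ d1
    (fun h => b3 (by rw [c1, eval_mul, h, mul_zero]))) d3) ⟨v, d2⟩ l Z (by rwa [d1])
  exact cS_conj e1 (e2.ssim (e2.1.sim hT (by rw [e3, a2, d1])))

theorem single (hF : Four F) (hV : 3 ≤ finrank F W) {x S : End F W} {j : ℕ}
    (hx' : ∀ c : F, x ≠ c • 1) (hS : Cyc S) (hS' : S ∈ cG x ^ j) {l : F}
    (hd : l * LinearMap.det x = 1) (Z : W →ₗ[F] F) :
    ∃ T ∈ cS (tri (l • (1 : End F F)) Z x) ^ (j + 1), Gd T ∧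
      ∃ T' ∈ cS (tri (l • (1 : End F F)) Z x) ^ (j + 1), T * T' = 1 := by
  have hl := left_ne_zero_of_mul_eq_one hd
  have hx := right_ne_zero_of_mul_eq_one hd
  set μ := l ^ (j + 1) with hμ
  have μ0 : μ ≠ 0 := pow_ne_zero _ hl
  obtain ⟨ω, a1, a2, a3⟩ : ∃ ω : F, ω ≠ 0 ∧ ω ≠ μ ∧ (μ⁻¹ = μ ∨ ω⁻¹ = μ) := by
    by_cases h : μ⁻¹ = μ
    · obtain ⟨ω, a1, a2, -⟩ := hF 0 μ μ
      exact ⟨ω, a1, a2, Or.inl h⟩
    · exact ⟨μ⁻¹, inv_ne_zero μ0, h, Or.inr (inv_inv μ)⟩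
  obtain ⟨g, b1, b2, b3, b4, b5, -⟩ := exists_poly hF (m := finrank F W - 1) (by omega)
    (-(-1) ^ finrank F W / (μ * ω)) a1 μ0 μ0
  have m1 := (monic_X_sub_C μ).mul ((monic_X_sub_C ω).mul b1)
  obtain ⟨T, v, c1, c2⟩ := exists_cyc_end (V := F × W) m1 (by
    rw [(monic_X_sub_C μ).natDegree_mul ((monic_X_sub_C ω).mul b1),
      (monic_X_sub_C ω).natDegree_mul b1, b2, natDegree_X_sub_C, natDegree_X_sub_C, finrank_prod,
      finrank_self]
    omega)
  have c3 : LinearMap.det T = 1 := by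
    rw [det_eq_charpoly, c1, mul_coeff_zero, mul_coeff_zero, b3, finrank_prod, finrank_self,
      pow_add]
    rcases neg_one_pow_eq_or F (finrank F W) with h | h <;> simp [h] <;> field_simp
  have s1 : Spl T μ := spl_of_charpoly c1 (by simp [b5, sub_eq_zero, a2.symm])
  have s2 : Spl T ω := spl_of_charpoly (g := (X - C μ) * g) (by rw [c1]; ring)
    (by simp [b4, sub_eq_zero, a2])
  obtain ⟨T', e1, e2, e3⟩ := exists_inv_of_det_one c3
  have hc : Cyc T := ⟨v, c2⟩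
  refine ⟨T, single_mem (by omega) hx hx' hS hS' hl Z hc s1 a2 s2 (by rw [c3, hd, one_pow]),
    ⟨hc, _, s1⟩, T', ?_, e1⟩
  rcases a3 with h | h
  · exact single_mem (by omega) hx hx' hS hS' hl Z (hc.inv e1) (by rw [← hμ, ← h]; exact s1.inv e1 e2)
      (by rw [← hμ, ← h]; exact fun h' => a2 (inv_injective h')) (s2.inv e1 e2)
      (by rw [e3, hd, one_pow])
  · exact single_mem (by omega) hx hx' hS hS' hl Z (hc.inv e1) (by rw [← hμ, ← h]; exact s2.inv e1 e2)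
      (ω := μ⁻¹) (fun h' => a2 (inv_injective (h.trans h'.symm))) (s1.inv e1 e2)
      (by rw [e3, hd, one_pow])

theorem pair (hF : Four F) (hV : 3 ≤ finrank F W) {x S : End F W} {j : ℕ}
    (hx : LinearMap.det x ≠ 0) (hx' : Big x) (hS : Cyc S) (hS' : S ∈ cG x ^ j) {l1 l2 : F}
    (h1 : l1 ≠ 0) (h2 : l2 ≠ 0) (z1 : W × F →ₗ[F] F) (z2 : F →ₗ[F] W) :
    ∃ T ∈ cS (tri (l1 • (1 : End F F)) z1 (tri x z2 (l2 • (1 : End F F)))) ^ (j + 1), Gd T := by
  obtain ⟨T0, a1, a2, a3, a4⟩ := exists_gd (V := W) hF hV (LinearMap.det x ^ (j + 1))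
    (pow_ne_zero (j + 1) h1) (pow_ne_zero (j + 1) h2)
  have d1 := det_of_mem_cG hS'
  obtain ⟨x', S', b1, b2, rfl⟩ := cor_gl (by omega) hx hx'.nonscalar hS
    (by rw [d1]; exact pow_ne_zero _ hx) a1 (by rw [a2, d1, pow_succ'])
  have s0 : Sim (x' * S') (S' * x') := sim_mul_comm ((LinearMap.isUnit_iff_isUnit_det _).2 (by
    rw [← b2.det_eq, d1]; exact (pow_ne_zero _ hx).isUnit))
  replace a1 := a1.of_sim s0
  rw [s0.charpoly_eq] at a3 a4
  obtain ⟨z0, c1⟩ := lift_pow_lower (cG_transport (Sim.refl x) hS' b2) l2 z2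
  obtain ⟨Z1, c2⟩ := lift_lower b1.sim l2 z2
  obtain ⟨Y, hY⟩ : ∃ Y : F →ₗ[F] W, ∀ v, v ≠ 0 → (tri S' z0 (l2 ^ j • (1 : End F F)) *
      tri x' (Z1 + (x' ∘ₗ Y - Y ∘ₗ (l2 • (1 : End F F)))) (l2 • (1 : End F F))) v =
        l1 ^ (j + 1) • v →
      tri x' (Z1 + (x' ∘ₗ Y - Y ∘ₗ (l2 • (1 : End F F)))) (l2 • (1 : End F F)) v ≠ l1 • v := by
    by_contra hh
    push Not at hh
    have key : ∀ y : W, ∃ u : W, x' (u + y) + Z1 1 = l1 • (u + y) ∧ S' u + z0 1 = l1 ^ j • u := by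
      intro y
      obtain ⟨⟨u, c⟩, v0, e1, e2⟩ := hh (LinearMap.toSpanSingleton F W y)
      have c0 : c ≠ 0 := by
        rintro rfl
        exact a3 (isRoot_of_eigen (v := u) (fun h => v0 (by simp [h]))
          (by simpa using congrArg Prod.fst e1))
      rw [Module.End.mul_apply, e2, map_smul, pow_succ', mul_smul] at e1
      have e3 := congrArg Prod.fst (smul_right_injective _ h1 e1)
      have e4 := congrArg Prod.fst e2
      have e5 : l2 = l1 := by simpa [c0] using congrArg Prod.snd e2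
      have e6 : ∀ z : F →ₗ[F] W, z c = c • z 1 := fun z => by rw [← map_smul]; simp
      simp [e6 z0] at e3
      simp [e6 Z1, e5] at e4
      refine ⟨c⁻¹ • u, smul_right_injective _ c0 ?_, smul_right_injective _ c0 ?_⟩
      · simp only [map_add, map_smul, smul_add, smul_inv_smul₀ c0, smul_comm c l1]
        linear_combination (norm := module) e4
      · simp only [map_smul, smul_add, smul_inv_smul₀ c0, smul_comm c (l1 ^ j)]
        exact e3
    obtain ⟨y, hy⟩ : ∃ y, y ∉ LinearMap.ker (aeval x' (X - C l1)) ⊔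
        LinearMap.ker (aeval S' (X - C (l1 ^ j))) := by
      by_contra h
      push Not at h
      have f1 := Submodule.finrank_add_le_finrank_add_finrank (LinearMap.ker (aeval x' (X - C l1)))
        (LinearMap.ker (aeval S' (X - C (l1 ^ j))))
      have f2 := hx'.of_sim b1.sim l1
      have f3 := (hS.of_sim b2).nul_lt (irreducible_X_sub_C (l1 ^ j))
      rw [Submodule.eq_top_iff'.2 h, finrank_top] at f1
      rw [natDegree_X_sub_C] at f3
      rw [nul] at f2 f3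
      omega
    obtain ⟨u0, p1, p2⟩ := key 0
    obtain ⟨u1, q1, q2⟩ := key y
    refine hy (Submodule.mem_sup.2 ⟨u1 + y - (u0 + 0), ?_, u0 - u1, ?_, by abel⟩)
    · simp only [LinearMap.mem_ker, map_sub, aeval_X, aeval_C, LinearMap.sub_apply,
        Module.algebraMap_end_apply]
      linear_combination (norm := module) q1 - p1
    · simp only [LinearMap.mem_ker, map_sub, aeval_X, aeval_C, LinearMap.sub_apply,
        Module.algebraMap_end_apply]
      linear_combination (norm := module) p2 - q2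
  have c3 := c2 Y
  set S2 := tri S' z0 (l2 ^ j • (1 : End F F)) with hS2
  set B' := tri x' (Z1 + (x' ∘ₗ Y - Y ∘ₗ (l2 • (1 : End F F)))) (l2 • (1 : End F F)) with hB'
  obtain ⟨c4, c5⟩ : Cyc (S2 * B') ∧
      (S2 * B').charpoly = (S' * x').charpoly * (X - C (l2 ^ (j + 1))) := by
    rw [hS2, hB', tri_mul, smul_mul_smul_comm, one_mul, ← pow_succ]
    exact ⟨cyc_tri_lower _ a1.1 a4, by rw [charpoly_tri, charpoly_smul_one]⟩
  obtain ⟨z0', e1⟩ := lift_pow_upper (cS_pow_subset c1) l1 z1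
  obtain ⟨Z1', e2⟩ := lift_upper c3.sim l1 z1
  obtain ⟨l, c, f1, f2⟩ := exists_link_functional (l1 ^ j • (1 : End F F)) (l1 • (1 : End F F)) B' c4
    ((l1 ^ j • (1 : End F F)) ∘ₗ Z1' + z0' ∘ₗ B') (l1 ^ (j + 1)) fun v v0 hv ψ ψ0 _ => by
      obtain ⟨Y', hY'⟩ := Module.Projective.exists_dual_eq_one F (sub_ne_zero.2 (hY v v0 hv).symm)
      refine ⟨Y', fun h => ψ0 (LinearMap.ext_ring ?_)⟩
      rw [map_sub, map_smul] at hY'
      rw [show (l1 • (1 : End F F)) (Y' v) = l1 • Y' v from rfl, hY', LinearMap.smul_apply,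
        map_smul] at h
      simpa [h1] using h
  obtain ⟨Y', g1, -⟩ := avoid_affine hF f1 f1 f1
  have g2 := mul_mem_pow_succ e1 (e2 Y')
  have g3 : ((l1 ^ j • (1 : End F F)) * (l1 • (1 : End F F))).charpoly = X - C (l1 ^ (j + 1)) := by
    rw [smul_mul_smul_comm, one_mul, ← pow_succ, charpoly_smul_one]
  rw [tri_mul] at g2
  obtain ⟨ω, g, -, k1, k2⟩ := a1.2.imp fun ω h => h.exists_charpoly a1.1
  refine ⟨_, g2, gd_of_charpoly (ω := ω) (g := (X - C (l1 ^ (j + 1))) * g * (X - C (l2 ^ (j + 1))))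
    (cyc_tri (cyc_of_finrank_le_one (by simp) _) c4 fun φ m1 m2 m3 m4 => ?_)
    (by rw [charpoly_tri, g3, c5, k1]; ring) ?_⟩
  · obtain rfl : φ = X - C (l1 ^ (j + 1)) := eq_of_monic_of_associated m1 (monic_X_sub_C _)
      (m2.associated_of_dvd (irreducible_X_sub_C _) (g3 ▸ m3))
    refine ⟨_, rfl, fun u v n1 n2 => f2 Y' g1 m3 m4 u v ?_ n2⟩
    rw [← n1, LinearMap.comp_add, add_right_comm]
  · rw [k1] at a3 a4
    simp only [eval_mul, eval_sub, eval_X, eval_C, ne_eq, mul_eq_zero, not_or, sub_eq_zero] at a3 a4 ⊢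
    exact ⟨⟨Ne.symm a3.1, k2⟩, Ne.symm a4.1⟩

theorem exists_end_det (hV : 0 < finrank F V) (d : F) : ∃ e : End F V, LinearMap.det e = d := by
  have := Module.nontrivial_of_finrank_pos hV
  obtain ⟨v, hv⟩ := exists_ne (0 : V)
  obtain ⟨l, hl⟩ := Module.Projective.exists_dual_eq_one F hv
  exact ⟨1 + ((d - 1) • l).smulRight v, by rw [det_one_add_smulRight']; simp [hl]⟩

theorem exists_dsim (hV : 0 < finrank F V) {d : F} (hd : d ≠ 0) (B : End F V) :
    ∃ B', DSim d B B' := by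
  obtain ⟨e, rfl⟩ := exists_end_det hV d
  obtain ⟨e', -, h, -⟩ := exists_inv_of_det hd
  exact ⟨e * B * e', e, rfl, by rw [mul_assoc, h, mul_one]⟩

theorem Cyc.nonscalar (hV : 2 ≤ finrank F V) {B : End F V} (h : Cyc B) (c : F) : B ≠ c • 1 := by
  rintro rfl
  have := h.nul_lt (irreducible_X_sub_C c)
  rw [nul_eq_finrank (by simp [Algebra.algebraMap_eq_smul_one]), natDegree_X_sub_C] at this
  omega

theorem flex [Finite F] (hV : 2 ≤ finrank F V) {B T : End F V} (hB : Cyc B)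
    (hB0 : LinearMap.det B ≠ 0) (hr : ∀ a, B.charpoly.eval a ≠ 0) (hT : Gd T)
    (hd : LinearMap.det T = LinearMap.det B * LinearMap.det B) {d1 d2 : F} (h1 : d1 ≠ 0)
    (h2 : d2 ≠ 0) : ∃ B1 B2, DSim d1 B B1 ∧ DSim d2 B B2 ∧ T = B1 * B2 := by
  rcases hV.eq_or_lt with h | h
  · obtain ⟨B1, B2, a1, a2, a3⟩ := cor_gl hV hB0 (hB.nonscalar hV) hB hB0 hT hd
    have hi : Irreducible B.charpoly := (B.charpoly_monic.irreducible_iff_roots_eq_zero_of_degree_le_three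
      (by rw [B.charpoly_natDegree, h]) (by rw [B.charpoly_natDegree, ← h]; norm_num)).2
      (Multiset.eq_zero_of_forall_notMem fun a ha => hr a (isRoot_of_mem_roots ha))
    have hc := exists_commute_det_end (by omega) hi.squarefree (LinearMap.aeval_self_charpoly B)
    exact ⟨B1, B2, a1.sim.dsim hc d1, a2.dsim hc d2, a3⟩
  · obtain ⟨B1, s1⟩ := exists_dsim (by omega) h1 B
    obtain ⟨B2, s2⟩ := exists_dsim (by omega) h2 B
    have e1 := (s1.sim h1).det_eq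
    have e2 := (s2.sim h2).det_eq
    obtain ⟨B1', B2', a1, a2, a3⟩ := cor_sl h (e1 ▸ hB0) ((hB.of_sim (s1.sim h1)).nonscalar hV)
      (hB.of_sim (s2.sim h2)) (e2 ▸ hB0) hT (by rw [← e1, ← e2, hd])
    exact ⟨B1', B2', s1.trans_s a1, s2.trans_s a2, a3⟩

theorem add_block [Finite F] (hF : Four F) (hW : 2 ≤ finrank F W) {A T : End F V} {B : End F W}
    (hT : T ∈ cG A ^ 2) (hc : Cyc T) (hB : Cyc B) (hB0 : LinearMap.det B ≠ 0)
    (hr : ∀ a, B.charpoly.eval a ≠ 0) (Z : W →ₗ[F] V) : ∃ T' ∈ cS (tri A Z B) ^ 2, Cyc T' := by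
  rw [pow_two] at hT
  obtain ⟨A1, a1, A2, a2, rfl⟩ := hT
  obtain ⟨d1, n1, s1⟩ := Sim.exists_dsim a1
  obtain ⟨d2, n2, s2⟩ := Sim.exists_dsim a2
  set δ := LinearMap.det B with hδ
  obtain ⟨β, b0, b1, b2⟩ : ∃ β : F, β ≠ 0 ∧ β ≠ 1 ∧ β * β ≠ δ * δ := by
    simp only [Ne, mul_self_eq_mul_self_iff, not_or]
    by_cases h2 : (1 : F) = -1
    · obtain ⟨β, a, b, c⟩ := hF 0 1 δ
      exact ⟨β, a, b, c, by rwa [← neg_one_mul, ← h2, one_mul]⟩
    · by_cases h3 : δ = 1 ∨ δ = -1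
      · obtain ⟨β, a, b, c⟩ := hF 0 1 (-1)
        rcases h3 with h | h <;> exact ⟨β, a, b, by rwa [h], by simpa [h]⟩
      · push Not at h3
        exact ⟨-1, by simp, Ne.symm h2, Ne.symm h3.2, by simpa using Ne.symm h3.1⟩
  obtain ⟨k, hk⟩ : ∃ k, finrank F W = k + 2 := ⟨finrank F W - 2, by omega⟩
  have m1 := (monic_X_sub_C (δ * δ / β)).mul ((monic_X_sub_C (1 : F)).pow k)
  obtain ⟨T2, v, c1, c2⟩ := exists_cyc_end (V := W) ((monic_X_sub_C β).mul m1) (by
    rw [(monic_X_sub_C β).natDegree_mul m1, (monic_X_sub_C _).natDegree_mul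
      ((monic_X_sub_C (1 : F)).pow k), natDegree_pow, natDegree_X_sub_C, natDegree_X_sub_C,
      natDegree_X_sub_C, hk]
    omega)
  have c3 : LinearMap.det T2 = δ * δ := by
    rw [det_eq_charpoly, c1, hk, coeff_zero_eq_eval_zero]
    rcases neg_one_pow_eq_or F k with h | h <;> simp [h, pow_add] <;> field_simp
  obtain ⟨B1, B2, t1, t2, rfl⟩ := flex hW hB hB0 hr (gd_of_charpoly ⟨v, c2⟩ c1 (by
    simp only [eval_mul, eval_sub, eval_X, eval_C, eval_pow]
    exact mul_ne_zero (fun h => b2 (by field_simp at h; linear_combination h))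
      (pow_ne_zero _ (sub_ne_zero.2 b1)))) c3 (inv_ne_zero n1) (inv_ne_zero n2)
  obtain ⟨Z1, e1⟩ := lift_one s1 t1 (mul_inv_cancel₀ n1) Z
  obtain ⟨Z2, e2⟩ := lift_one s2 t2 (mul_inv_cancel₀ n2) Z
  have key := fun ν => exists_link_functional A1 A2 B2 (T2 := B1 * B2) ⟨v, c2⟩
    (A1 ∘ₗ Z2 + (Z1 + (A1 ∘ₗ 0 - 0 ∘ₗ B1)) ∘ₗ B2) ν fun w w0 hw ψ ψ0 hψ => by
      obtain ⟨u, hu⟩ : ∃ u, ψ u ≠ 0 := by
        by_contra h; push Not at h; exact ψ0 (LinearMap.ext h)
      have ν0 : ν ≠ 0 := by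
        rintro rfl
        rw [zero_smul, map_eq_zero_iff _ (injective_of_det (c3 ▸ mul_ne_zero hB0 hB0))] at hw
        exact w0 hw
      obtain ⟨f, f1, f2⟩ := exists_dual_one_zero (p := Submodule.span F {B2 w}) (v := w) fun h => by
        obtain ⟨c, hc⟩ := Submodule.mem_span_singleton.1 h
        have c0 : c ≠ 0 := by rintro rfl; exact w0 (by simpa using hc.symm)
        refine hr c⁻¹ ?_
        rw [(t2.sim (inv_ne_zero n2)).charpoly_eq]
        exact isRoot_of_eigen w0 (by rw [eq_inv_smul_iff₀ c0, hc])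
      exact ⟨f.smulRight u, by simp [f1, f2 _ (Submodule.subset_span rfl), hψ, ν0, hu]⟩
  obtain ⟨l1, k1, p1, q1⟩ := key β
  obtain ⟨l2, k2, p2, q2⟩ := key (δ * δ / β)
  obtain ⟨l3, k3, p3, q3⟩ := key 1
  obtain ⟨Y, y1, y2, y3⟩ := avoid_affine hF p1 p2 p3
  have g := mul_mem_sq (C := cS (tri A Z B)) (e1 0) (e2 Y)
  rw [tri_mul, LinearMap.comp_add, add_right_comm] at g
  refine ⟨_, g, cyc_tri hc ⟨v, c2⟩ fun φ m1 m2 m3 m4 => ?_⟩
  have lin : ∀ ν, φ ∣ X - C ν → φ = X - C ν := fun ν h => eq_of_monic_of_associated m1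
    (monic_X_sub_C _) (m2.associated_of_dvd (irreducible_X_sub_C _) h)
  have m5 := m4
  rw [c1, m2.prime.dvd_mul, m2.prime.dvd_mul] at m5
  rcases m5 with h | h | h
  · obtain rfl := lin _ h
    exact ⟨_, rfl, q1 Y y1 m3 m4⟩
  · obtain rfl := lin _ h
    exact ⟨_, rfl, q2 Y y2 m3 m4⟩
  · obtain rfl := lin _ (m2.prime.dvd_of_dvd_pow h)
    exact ⟨_, rfl, q3 Y y3 m3 m4⟩

theorem cyc_sq_aux [Finite F] (hF : Four F) (n : ℕ) : ∀ (A : Matrix (Fin n) (Fin n) F),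
    A.det ≠ 0 → A.charpoly.roots.card ≤ 1 → ∃ T ∈ cS (Matrix.toLin' A) ^ 2, Cyc T := by
  induction n using Nat.strong_induction_on with
  | _ n ih =>
  intro A hA hr
  obtain ⟨s, hs⟩ := exists_hasType (Matrix.toLin' A)
  by_cases h : ∃ y ∈ s, y.1.natDegree ≠ 1
  · obtain ⟨y, hy, h1⟩ := h
    obtain ⟨g1, g2, g3⟩ := hs.good y hy
    obtain ⟨m1, m2, k, A', s1⟩ := hs.exists_split hy
    have := finite_adjoinRoot m1.ne_zero
    have s2 := s1.trans (sim_prodMap_comm _ _)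
    rw [← tri_zero] at s2
    have e1 := s2.finrank_eq
    have e2 := s2.det_eq
    have e3 := s2.charpoly_eq
    rw [finrank_prod, finrank_adjoinRoot] at e1
    simp only [finrank_fintype_fun_eq_card, Fintype.card_fin] at e1
    rw [det_tri, LinearMap.det_toLin', LinearMap.det_toLin'] at e2
    rw [charpoly_tri, Matrix.charpoly_toLin', Matrix.charpoly_toLin'] at e3
    rw [e2] at hA
    obtain ⟨T, t1, t2⟩ := ih k (by omega) A' (left_ne_zero_of_mul hA) (le_trans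
      (Multiset.card_le_card (roots.le_of_dvd A.charpoly_monic.ne_zero ⟨_, e3⟩)) hr)
    obtain ⟨T', u1, u2⟩ := add_block hF (B := mulX (y.1 ^ y.2)) (by
      rw [finrank_adjoinRoot, natDegree_pow]
      have := g2.natDegree_pos
      nlinarith [show 2 ≤ y.1.natDegree by omega]) (cS_pow_subset t1) t2 ⟨1, isCyc_mulX _⟩
      (right_ne_zero_of_mul hA) (fun a ha => by
        rw [charpoly_mulX m1, eval_pow] at ha
        exact h1 (natDegree_eq_of_degree_eq_some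
          (degree_eq_one_of_irreducible_of_root g2 (pow_eq_zero_iff g3.ne' |>.1 ha)))) 0
    obtain ⟨T'', v1, v2⟩ := cS_transport s2.symm u1
    exact ⟨T'', v1, u2.of_sim v2⟩
  · push Not at h
    refine ⟨_, mul_mem_sq (SSim.refl _) (SSim.refl _), cyc_of_finrank_le_one ?_ _⟩
    have h1 : A.charpoly.Splits := by
      rw [← Matrix.charpoly_toLin', hs.charpoly_eq, chi]
      refine Splits.multisetProd fun p hp => ?_
      obtain ⟨y, hy, rfl⟩ := Multiset.mem_map.1 hp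
      exact (Splits.of_natDegree_eq_one (h y hy)).pow _
    rw [← h1.natDegree_eq_card_roots, Matrix.charpoly_natDegree_eq_dim] at hr
    simpa using hr

theorem cyc_sq [Finite F] (hF : Four F) {x : End F V} (hx : LinearMap.det x ≠ 0)
    (hr : x.charpoly.roots.card ≤ 1) : ∃ T ∈ cS x ^ 2, Cyc T := by
  obtain ⟨A, hA⟩ := exists_matrix_sim (n := Fin (finrank F V)) x (by simp)
  obtain ⟨T, t1, t2⟩ := cyc_sq_aux hF _ A (by rwa [← hA.det_eq, LinearMap.det_toLin'] at hx)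
    (by rwa [← hA.charpoly_eq, Matrix.charpoly_toLin'] at hr)
  obtain ⟨T', v1, v2⟩ := cS_transport hA t1
  exact ⟨T', v1, t2.of_sim v2⟩

end Cfsg.Agent.H4
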