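import Cfsg.Agent.H4.CV4
import Cfsg.Agent.H2.M2

/-! Covering numbers of linear groups, part 5: quadratic endomorphisms in dimension four. -/

set_option autoImplicit false

namespace Cfsg.Agent.H4

open Module Polynomial
open scoped Pointwise

universe u

variable {F : Type u} [Field F]
variable {V : Type*} {W : Type*} [AddCommGroup V] [Module F V] [AddCommGroup W] [Module F W]

/-- The endomorphism satisfies a monic quadratic equation. -/
def Quad (x : End F V) : Prop := ∃ τ δ : F, ∀ v, x (x v) = τ • x v - δ • v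

theorem coprime_quad {θ1 θ2 d : F} (h : θ1 ≠ θ2) (hd : d ≠ 0) :
    IsCoprime (X ^ 2 - C θ1 * X + C d : F[X]) (X ^ 2 - C θ2 * X + C d) := by
  have h1 : C (θ2 - θ1)⁻¹ * (C θ2 - C θ1) = 1 := by
    rw [← map_sub, ← map_mul, inv_mul_cancel₀ (sub_ne_zero.2 h.symm), map_one]
  have h2 : C d⁻¹ * C d = 1 := by rw [← map_mul, inv_mul_cancel₀ hd, map_one]
  exact ⟨C d⁻¹ * (1 - (X - C θ1) * C (θ2 - θ1)⁻¹), C d⁻¹ * ((X - C θ1) * C (θ2 - θ1)⁻¹), by
    linear_combination h2 - C d⁻¹ * (X - C θ1) * X * h1⟩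

theorem squarefree_quad {τ δ : F} (h : τ ^ 2 ≠ 4 * δ) :
    Squarefree (X ^ 2 - C τ * X + C δ : F[X]) := by
  refine Separable.squarefree ?_
  have h1 : C (τ ^ 2 - 4 * δ)⁻¹ * (C τ ^ 2 - 4 * C δ) = 1 := by
    rw [show C τ ^ 2 - 4 * C δ = C (τ ^ 2 - 4 * δ) by simp [map_ofNat], ← map_mul,
      inv_mul_cancel₀ (sub_ne_zero.2 h), map_one]
  refine ⟨-4 * C (τ ^ 2 - 4 * δ)⁻¹, C (τ ^ 2 - 4 * δ)⁻¹ * (2 * X - C τ), ?_⟩
  simp only [derivative_add, derivative_sub, derivative_X_pow, derivative_mul, derivative_C,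
    derivative_X, Nat.cast_ofNat, map_ofNat]
  linear_combination h1

theorem exists_half [Finite F] {τ δ : F} (h : τ ^ 2 = 4 * δ) : ∃ l : F, τ = 2 * l ∧ δ = l ^ 2 := by
  by_cases h2 : (2 : F) = 0
  · have := Fintype.ofFinite F
    obtain ⟨l, hl⟩ := FiniteField.isSquare_of_char_two (F := F) (by
      have h3 : ringChar F ∣ 2 := (ringChar.spec F 2).1 (by exact_mod_cast h2)
      exact ((Nat.dvd_prime Nat.prime_two).1 h3).resolve_left CharP.ringChar_ne_one) δ
    refine ⟨l, ?_, by rw [hl, pow_two]⟩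
    rw [h2, zero_mul]
    exact pow_eq_zero_iff two_ne_zero |>.1 (by linear_combination h + 2 * δ * h2)
  · refine ⟨τ / 2, by field_simp, ?_⟩
    have : (4 : F) ≠ 0 := by rw [show (4 : F) = 2 * 2 by norm_num]; exact mul_ne_zero h2 h2
    field_simp
    linear_combination -h

theorem exists_conic [Finite F] {τ δ θ : F} (h : θ ≠ 2 * δ) :
    ∃ a c : F, a ^ 2 + τ * a * c + δ * c ^ 2 - τ * a + (θ - τ ^ 2) * c + δ = 0 := by
  by_cases hD : τ ^ 2 = 4 * δ
  · obtain ⟨l, rfl, rfl⟩ := exists_half hD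
    have := mul_inv_cancel₀ (sub_ne_zero.2 h)
    exact ⟨l ^ 3 * (θ - 2 * l ^ 2)⁻¹, -l ^ 2 * (θ - 2 * l ^ 2)⁻¹, by
      linear_combination (-l ^ 2) * this⟩
  · have h0 := mul_inv_cancel₀ (sub_ne_zero.2 hD)
    obtain ⟨a0, c0, h1, h2⟩ : ∃ a0 c0 : F, 2 * a0 + τ * c0 = τ ∧ τ * a0 + 2 * δ * c0 = τ ^ 2 - θ :=
      ⟨(τ * (τ ^ 2 - θ) - 2 * δ * τ) * (τ ^ 2 - 4 * δ)⁻¹, (2 * θ - τ ^ 2) * (τ ^ 2 - 4 * δ)⁻¹,
        by linear_combination τ * h0, by linear_combination (τ ^ 2 - θ) * h0⟩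
    obtain ⟨a, c, h3⟩ := H2.exists_form_eq (Or.inr hD)
      (-(a0 ^ 2 + τ * a0 * c0 + δ * c0 ^ 2 - τ * a0 + (θ - τ ^ 2) * c0 + δ))
    exact ⟨a0 + a, c0 + c, by linear_combination h3 + a * h1 + c * h2⟩

variable [Module.Finite F V] [Module.Finite F W]

theorem cyc_two (hV : finrank F V = 2) {f : End F V} (h : ∀ c : F, f ≠ c • 1) : Cyc f := by
  refine exists_isCyc_of_nul fun φ h1 h2 => ?_
  by_contra h3
  have h4 : nul f φ ≤ 2 := (Submodule.finrank_le _).trans hV.le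
  have h5 := h2.natDegree_pos
  have h6 := Submodule.eq_top_of_finrank_eq (S := LinearMap.ker (aeval f φ))
    (by unfold nul at h3 h4; omega)
  rw [LinearMap.ker_eq_top, h1.eq_X_add_C (by omega)] at h6
  exact h (-φ.coeff 0) (by
    simpa [Algebra.algebraMap_eq_smul_one, add_eq_zero_iff_eq_neg] using h6)

theorem cyc_mat {A : Matrix (Fin 2) (Fin 2) F} (h : ∀ c : F, A.trace = 2 * c → A.det ≠ c ^ 2) :
    Cyc (Matrix.toLin' A) := cyc_two (by simp) fun c hc => by
  have h1 : A = c • 1 := Matrix.toLin'.injective (by rw [hc]; simp [Module.End.one_eq_id])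
  exact h c (by simp [h1, mul_comm]) (by simp [h1])

theorem cyc_mat' {A : Matrix (Fin 2) (Fin 2) F} (h : A 0 1 ≠ 0 ∨ A 1 0 ≠ 0) :
    Cyc (Matrix.toLin' A) := cyc_two (by simp) fun c hc => by
  have h1 : A = c • 1 := Matrix.toLin'.injective (by rw [hc]; simp [Module.End.one_eq_id])
  simp [h1] at h

theorem charpoly_mat (A : Matrix (Fin 2) (Fin 2) F) :
    LinearMap.charpoly (Matrix.toLin' A) = X ^ 2 - C A.trace * X + C A.det := by
  rw [Matrix.charpoly_toLin', Matrix.charpoly_fin_two]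

theorem two_trace [Finite F] (τ : F) {δ θ : F} (h1 : θ ≠ 2 * δ) (h2 : θ ≠ -(2 * δ)) :
    ∃ A : End F (Fin 2 → F), Sim (Matrix.toLin' !![0, -δ; 1, τ]) A ∧
      Cyc (Matrix.toLin' !![0, -δ; 1, τ] * A) ∧
      (Matrix.toLin' !![0, -δ; 1, τ] * A).charpoly = X ^ 2 - C θ * X + C (δ ^ 2) := by
  obtain ⟨a, c, h⟩ := exists_conic (τ := τ) h1
  let A : Matrix (Fin 2) (Fin 2) F := !![a, θ - τ ^ 2 + τ * a + δ * c; c, τ - a]
  have a1 : A.trace = τ := by simp [A]
  have a2 : A.det = δ := by simp [A]; linear_combination -h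
  have a3 : (!![0, -δ; 1, τ] * A).trace = θ := by simp [A]; ring
  have a4 : (!![0, -δ; 1, τ] * A).det = δ ^ 2 := by rw [Matrix.det_mul, a2]; simp [pow_two]
  refine ⟨Matrix.toLin' A, Cyc.sim (cyc_mat' (Or.inr (by simp))) (cyc_two (by simp) fun s hs => ?_)
    (by rw [charpoly_mat, charpoly_mat, a1, a2]; simp), ?_, ?_⟩
  · have h3 : A = s • 1 := Matrix.toLin'.injective (by rw [hs]; simp [Module.End.one_eq_id])
    rw [h3] at a1 a2 a3
    simp at a1 a2 a3
    exact h1 (by rw [← a3, ← a1, ← a2]; ring)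
  · rw [Module.End.mul_eq_comp, ← Matrix.toLin'_mul]
    refine cyc_mat fun s e1 e2 => ?_
    rw [a3] at e1
    rw [a4, sq_eq_sq_iff_eq_or_eq_neg] at e2
    rcases e2 with e | e
    · exact h1 (by rw [e1, e])
    · exact h2 (by rw [e1, e]; ring)
  · rw [Module.End.mul_eq_comp, ← Matrix.toLin'_mul, charpoly_mat, a3, a4]

theorem two_trace_J {l s d : F} (hl : l ≠ 0) (hs : s ≠ 0) (hd : d ≠ 0) :
    ∃ A : End F (Fin 2 → F), DSim d (Matrix.toLin' !![l, l; 0, l]) A ∧
      Cyc (Matrix.toLin' !![l, l; 0, l] * A) ∧ (Matrix.toLin' !![l, l; 0, l] * A).charpoly =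
        X ^ 2 - C (l ^ 2 * (2 - s ^ 2 / d)) * X + C (l ^ 4) := by
  refine ⟨Matrix.toLin' !![l, 0; -l * s ^ 2 / d, l], ⟨Matrix.toLin' !![0, -d / s; s, 0], ?_, ?_⟩,
    ?_, ?_⟩
  · rw [LinearMap.det_toLin']; simp; field_simp
  · rw [Module.End.mul_eq_comp, Module.End.mul_eq_comp, ← Matrix.toLin'_mul, ← Matrix.toLin'_mul]
    congr 1
    ext i j
    fin_cases i <;> fin_cases j <;> simp <;> field_simp
  · rw [Module.End.mul_eq_comp, ← Matrix.toLin'_mul]
    exact cyc_mat' (Or.inl (by simp [hl]))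
  · rw [Module.End.mul_eq_comp, ← Matrix.toLin'_mul, charpoly_mat]
    congr 4
    · simp; ring
    · simp; ring

theorem quad_four (hV : finrank F V = 4) {x : End F V} (hx : Big x) {τ δ : F}
    (h : ∀ v, x (x v) = τ • x v - δ • v) :
    Sim (tri (Matrix.toLin' !![0, -δ; 1, τ]) 0 (Matrix.toLin' !![0, -δ; 1, τ])) x := by
  obtain ⟨v, v0, hv⟩ := exists_not_mem_span hx.nonscalar
  have ind : ∀ s t : F, s • v + t • x v = 0 → s = 0 ∧ t = 0 := fun s t hst => by
    have t0 : t = 0 := by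
      by_contra t0
      exact hv (Submodule.mem_span_singleton.2 ⟨-t⁻¹ * s, by
        rw [mul_smul, neg_smul, eq_neg_of_add_eq_zero_left hst]; simp [t0]⟩)
    exact ⟨by simpa [t0, v0] using hst, t0⟩
  let U := Submodule.span F {v, x v}
  have u1 : v ∈ U := Submodule.subset_span (by simp)
  have u2 : x v ∈ U := Submodule.subset_span (by simp)
  have hU : U ≤ U.comap x := Submodule.span_le.2 (by
    rintro _ (rfl | rfl)
    · exact u2
    · rw [SetLike.mem_coe, Submodule.mem_comap, h]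
      exact sub_mem (U.smul_mem _ u2) (U.smul_mem _ u1))
  obtain ⟨w, w0, hw⟩ := exists_not_mem_span (f := U.mapQ U x hU) fun a ha => by
    have h1 : ∀ w, x w - a • w ∈ U := fun w => by
      rw [← Submodule.Quotient.eq]
      exact LinearMap.congr_fun ha (U.mkQ w)
    obtain ⟨w, hw⟩ : ∃ w, w ∉ U := by
      by_contra hh
      push Not at hh
      classical
      have h2 := finrank_span_le_card (R := F) ({v, x v} : Set V)
      have h3 : ({v, x v} : Set V).toFinset.card ≤ 2 := by simpa using Finset.card_le_two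
      rw [show Submodule.span F {v, x v} = ⊤ from Submodule.eq_top_iff'.2 hh, finrank_top] at h2
      omega
    have h2 : a * (τ - a) = δ := by
      by_contra h2
      refine hw ((U.smul_mem_iff (sub_ne_zero.2 h2)).1 ?_)
      have := U.sub_mem (hU (h1 w)) (U.smul_mem (τ - a) (h1 w))
      rw [map_sub, map_smul, h] at this
      convert this using 1
      module
    have h3 : LinearMap.range (aeval x (X - C a)) ≤ Submodule.span F {x v - a • v} := by
      rintro _ ⟨w, rfl⟩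
      obtain ⟨s, t, hst⟩ := Submodule.mem_span_pair.1 (h1 w)
      have h4 := congrArg (fun y => x y - (τ - a) • y) hst
      simp only [map_add, map_sub, map_smul, h] at h4
      have h5 := (ind (-t * δ - (τ - a) * s) (s + t * a) (by
        linear_combination (norm := module) h4 + h2 • w)).2
      refine Submodule.mem_span_singleton.2 ⟨t, ?_⟩
      simp only [map_sub, aeval_X, aeval_C, LinearMap.sub_apply, Module.algebraMap_end_apply]
      linear_combination (norm := module) hst - h5 • v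
    have h4 := (Submodule.finrank_mono h3).trans (finrank_span_le_card _)
    have h5 := LinearMap.finrank_range_add_finrank_ker (aeval x (X - C a))
    have h6 := hx a
    rw [nul] at h6
    simp only [Set.toFinset_singleton, Finset.card_singleton] at h4
    omega
  obtain ⟨w, rfl⟩ := U.mkQ_surjective w
  let e : ((Fin 2 → F) × (Fin 2 → F)) →ₗ[F] V :=
    ((LinearMap.proj (0 : Fin 2)).smulRight v + (LinearMap.proj (1 : Fin 2)).smulRight (x v)).coprod
      ((LinearMap.proj (0 : Fin 2)).smulRight w + (LinearMap.proj (1 : Fin 2)).smulRight (x w))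
  have he : Function.Injective e := (injective_iff_map_eq_zero _).2 fun ⟨a, b⟩ hab => by
    have e1 : a 0 • v + a 1 • x v + (b 0 • w + b 1 • x w) = 0 := hab
    have e2 : b 0 • U.mkQ w + b 1 • U.mkQ (x w) = 0 := by
      rw [← map_smul, ← map_smul, ← map_add, Submodule.mkQ_apply, Submodule.Quotient.mk_eq_zero,
        eq_neg_of_add_eq_zero_right e1]
      exact neg_mem (add_mem (U.smul_mem _ u1) (U.smul_mem _ u2))
    have e3 : b 1 = 0 := by
      by_contra t0
      exact hw (Submodule.mem_span_singleton.2 ⟨-(b 1)⁻¹ * b 0, by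
        rw [mul_smul, neg_smul, eq_neg_of_add_eq_zero_left e2]; simp [t0]⟩)
    have e4 : b 0 = 0 := by
      rw [e3, zero_smul, add_zero] at e2
      exact (smul_eq_zero.1 e2).resolve_right w0
    obtain ⟨e5, e6⟩ := ind (a 0) (a 1) (by simpa [e3, e4] using e1)
    ext i <;> fin_cases i <;> simp [e3, e4, e5, e6]
  refine ⟨LinearEquiv.ofInjectiveOfFinrankEq e he (by simp [hV]), fun ⟨a, b⟩ => ?_⟩
  change e _ = x (e _)
  simp [e, h, Matrix.vecHead, Matrix.vecTail]
  module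

theorem quad_cG [Finite F] (hV : finrank F V = 4) {x : End F V} (hx : Big x) {τ δ : F}
    (h : ∀ v, x (x v) = τ • x v - δ • v) (hδ : δ ≠ 0) {θ1 θ2 : F} (h12 : θ1 ≠ θ2)
    (a1 : θ1 ≠ 2 * δ) (a2 : θ1 ≠ -(2 * δ)) (b1 : θ2 ≠ 2 * δ) (b2 : θ2 ≠ -(2 * δ)) :
    ∃ T ∈ cG x ^ 2, Cyc T ∧
      T.charpoly = (X ^ 2 - C θ1 * X + C (δ ^ 2)) * (X ^ 2 - C θ2 * X + C (δ ^ 2)) := by
  have s := quad_four hV hx h
  obtain ⟨A1, p1, p2, p3⟩ := two_trace τ a1 a2
  obtain ⟨A2, q1, q2, q3⟩ := two_trace τ b1 b2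
  obtain ⟨Z, hZ⟩ := sim_tri_congr p1 q1 0
  have m := mul_mem_sq (C := cG _) (Sim.refl _) hZ
  rw [tri_mul] at m
  obtain ⟨Φ, -, h1, -⟩ := s.transport
  exact ⟨_, cG_transport s m (h1 _), (cyc_tri_of_coprime _ p2 q2 (by
    rw [p3, q3]; exact coprime_quad h12 (pow_ne_zero _ hδ))).of_sim (h1 _),
    by rw [← (h1 _).charpoly_eq, charpoly_tri, p3, q3]⟩

theorem real_four {x T : End F V} (hT : T ∈ cS x ^ 2) (hc : Cyc T) {r θ : F} (h0 : r ≠ 0)
    (h1 : r ≠ r⁻¹) (h2 : r + r⁻¹ ≠ θ)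
    (h : T.charpoly = (X ^ 2 - C (r + r⁻¹) * X + C 1) * (X ^ 2 - C θ * X + C 1)) :
    ∃ T ∈ cS x ^ 2, Gd T ∧ ∃ T' ∈ cS x ^ 2, T * T' = 1 := by
  have g : Gd T := gd_of_charpoly hc (ω := r) (g := (X - C r⁻¹) * (X ^ 2 - C θ * X + C 1)) (by
      have : C r * C r⁻¹ = 1 := by rw [← map_mul, mul_inv_cancel₀ h0, map_one]
      rw [h, map_add, map_one]
      linear_combination (-(X ^ 2 - C θ * X + 1)) * this) (by
      simp only [eval_mul, eval_sub, eval_X, eval_C, eval_add, eval_pow]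
      refine mul_ne_zero (sub_ne_zero.2 h1) fun h3 => h2 ?_
      field_simp
      linear_combination h3)
  obtain ⟨T', e1, e2, -⟩ := exists_inv_of_det (e := T) (by
    rw [det_eq_charpoly, h, coeff_zero_eq_eval_zero]; simp)
  refine ⟨T, hT, g, T', cS_conj hT (g.ssim (hc.sim (hc.inv e1) ?_)), e1⟩
  refine ((hc.inv e1).choose_spec.charpoly_eq T.charpoly_monic T.charpoly_natDegree ?_).symm
  have key : ∀ θ : F, aeval T' (X ^ 2 - C θ * X + C 1) =
      T' ^ 2 * aeval T (X ^ 2 - C θ * X + C 1) := fun θ => by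
    simp only [map_add, map_sub, map_mul, aeval_X, aeval_C, map_one, mul_add, mul_sub,
      ← Algebra.smul_def, mul_smul_comm, pow_two, mul_one]
    rw [mul_assoc T' T' T, e2, mul_assoc, ← mul_assoc T' T T, e2, one_mul, e2, mul_one]
    abel
  have h3 := LinearMap.aeval_self_charpoly T
  have h4 : ∀ p : F[X], aeval T' p * T' ^ 2 = T' ^ 2 * aeval T' p := fun p => by
    have := congrArg (aeval T') (mul_comm p (X ^ 2))
    simpa using this
  rw [h, map_mul] at h3
  rw [h, map_mul, key θ, ← mul_assoc, h4, key, mul_assoc, mul_assoc, h3]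
  simp

theorem quad_cS [Finite F] (hF : Four F) (hV : finrank F V = 4) {x : End F V} (hx : Big x)
    (hq : Quad x) (hd : LinearMap.det x = 1) :
    ∃ T ∈ cS x ^ 2, Gd T ∧ ∃ T' ∈ cS x ^ 2, T * T' = 1 := by
  obtain ⟨τ, δ, h⟩ := hq
  have s := quad_four hV hx h
  have hδ : δ ^ 2 = 1 := by
    rw [← hd, ← s.det_eq, det_tri, LinearMap.det_toLin']; simp [pow_two]
  obtain ⟨r, r0, r1, r2⟩ := hF 0 1 (-1)
  have r3 : r * r ≠ 1 := fun h => (mul_self_eq_one_iff.1 h).elim r1 r2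
  have r4 : r ≠ r⁻¹ := fun h => r3 (by nth_rw 2 [h]; exact mul_inv_cancel₀ r0)
  have r5 : r + r⁻¹ ≠ 2 := fun h => r1 (by
    field_simp at h
    exact sub_eq_zero.1 (pow_eq_zero_iff two_ne_zero |>.1 (by linear_combination h)))
  have r6 : r + r⁻¹ ≠ -2 := fun h => r2 (by
    field_simp at h
    exact eq_neg_of_add_eq_zero_left (pow_eq_zero_iff two_ne_zero |>.1 (by linear_combination h)))
  have hδ' : ∀ θ : F, θ ≠ 2 → θ ≠ -2 → θ ≠ 2 * δ ∧ θ ≠ -(2 * δ) := fun θ a b => by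
    rcases mul_self_eq_one_iff.1 (by rw [← pow_two]; exact hδ : δ * δ = 1) with h | h <;> simp [h, a, b]
  by_cases hD : τ ^ 2 = 4 * δ
  · obtain ⟨l, rfl, rfl⟩ := exists_half hD
    have l0 : l ≠ 0 := by rintro rfl; simp at hδ
    have l4 : l ^ 4 = 1 := by rw [← hδ]; ring
    have s1 : Sim (Matrix.toLin' !![0, -l ^ 2; 1, 2 * l]) (Matrix.toLin' !![l, l; 0, l]) :=
      Cyc.sim (cyc_mat' (Or.inr (by simp))) (cyc_mat' (Or.inl (by simpa)))
        (by rw [charpoly_mat, charpoly_mat]; simp [two_mul, pow_two])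
    obtain ⟨Z, s2⟩ := sim_tri_congr s1 s1 0
    have p0 : 2 - l ^ 2 * (r + r⁻¹) ≠ 0 := fun h => (hδ' _ r5 r6).1 (by
      linear_combination (-l ^ 2) * h - (r + r⁻¹) * l4)
    set p := 2 - l ^ 2 * (r + r⁻¹) with hp
    obtain ⟨A1, a1, a2, a3⟩ := two_trace_J l0 one_ne_zero (inv_ne_zero p0)
    obtain ⟨A2, b1, b2, b3⟩ := two_trace_J l0 (mul_ne_zero r0 p0) p0
    have e1 : l ^ 2 * (2 - 1 ^ 2 / p⁻¹) = r + r⁻¹ := by
      rw [one_pow, one_div, inv_inv, hp]; linear_combination (r + r⁻¹) * l4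
    have e2 : r + r⁻¹ ≠ l ^ 2 * (2 - (r * p) ^ 2 / p) := fun h => r3 (by
      rw [← e1] at h
      have := mul_left_cancel₀ (pow_ne_zero 2 l0) h
      field_simp at this
      exact mul_right_cancel₀ p0 (by linear_combination this))
    rw [e1, l4] at a3
    rw [l4] at b3
    obtain ⟨Z1, c1⟩ := lift_one a1 b1 (inv_mul_cancel₀ p0) Z
    have m := mul_mem_sq (C := cS _) (SSim.refl _) (c1 0)
    rw [tri_mul] at m
    obtain ⟨T, t1, t2⟩ := cS_transport (s2.symm.trans s) m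
    exact real_four t1 ((cyc_tri_of_coprime _ a2 b2 (by
      rw [a3, b3]; exact coprime_quad e2 one_ne_zero)).of_sim t2) r0 r4 e2
      (by rw [← t2.charpoly_eq, charpoly_tri, a3, b3])
  · obtain ⟨θ, a1, a2, a3⟩ := hF 2 (-2) (r + r⁻¹)
    obtain ⟨T, t1, t2, t3⟩ := quad_cG hV hx h (by rintro rfl; simp at hδ) a3.symm (hδ' _ r5 r6).1
      (hδ' _ r5 r6).2 (hδ' _ a1 a2).1 (hδ' _ a1 a2).2
    rw [hδ] at t3
    refine real_four (map_mem_pow (MonoidHom.id _) (fun y hy => Sim.ssim hy fun μ _ =>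
      exists_commute_det_end (by omega) (squarefree_quad hD) (LinearMap.ext fun v => ?_) μ) t1)
      t2 r0 r4 a3.symm t3
    simp [pow_two, h]

end Cfsg.Agent.H4
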