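import Cfsg.Agent.H4.CV5

/-! Covering numbers of linear groups, part 6: peeling eigenlines and the main induction. -/

set_option autoImplicit false

namespace Cfsg.Agent.H4

open Module Polynomial
open scoped Pointwise

universe u v

variable {F : Type u} [Field F]

section

variable {V : Type*} {W : Type*} [AddCommGroup V] [Module F V] [AddCommGroup W] [Module F W]
variable [Module.Finite F V] [Module.Finite F W]

theorem nul_le_tri_left (A : End F V) (Z : W →ₗ[F] V) (B : End F W) (p : F[X]) :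
    nul A p ≤ nul (tri A Z B) p := by
  have i1 : ∀ u, aeval (tri A Z B) p (u, 0) = (aeval A p u, 0) := fun u =>
    (intertwine_aeval (f := A) (g := tri A Z B) (LinearMap.inl F V W) (fun v => by simp) p u).symm
  refine LinearMap.finrank_le_finrank_of_injective (f := LinearMap.codRestrict _
    (LinearMap.inl F V W ∘ₗ Submodule.subtype _) fun v => ?_) fun v w hvw => ?_
  · have h3 : aeval A p v = 0 := v.2
    change aeval (tri A Z B) p (v, 0) = 0
    rw [i1, h3]; rfl
  · exact Subtype.ext (congrArg (fun t => t.1.1) hvw)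

theorem nul_le_tri_right (A : End F V) (Z : W →ₗ[F] V) (B : End F W) (p : F[X]) :
    nul B p ≤ nul (tri A Z B) p := by
  have i2 : ∀ v, (aeval (tri A Z B) p v).2 = aeval B p v.2 := fun v =>
    intertwine_aeval (f := tri A Z B) (g := B) (LinearMap.snd F V W) (fun v => rfl) p v
  let ι : V × LinearMap.ker (aeval B p) →ₗ[F] V × W := LinearMap.id.prodMap (Submodule.subtype _)
  let L : V × LinearMap.ker (aeval B p) →ₗ[F] V := LinearMap.fst F V W ∘ₗ aeval (tri A Z B) p ∘ₗ ι
  have h1 := LinearMap.finrank_range_add_finrank_ker L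
  have h2 := Submodule.finrank_le (LinearMap.range L)
  have h3 : finrank F (LinearMap.ker L) ≤ nul (tri A Z B) p :=
    LinearMap.finrank_le_finrank_of_injective (f := LinearMap.codRestrict _
      (ι ∘ₗ Submodule.subtype _) fun v => Prod.ext v.2 ((i2 _).trans v.1.2.2)) fun v w hvw =>
        Subtype.ext (Prod.ext (congrArg (fun t => t.1.1) hvw)
          (Subtype.ext (congrArg (fun t => t.1.2) hvw)))
  rw [finrank_prod] at h1
  rw [nul]
  omega

theorem nul_succ_le_tri (μ : F) (B : End F W) :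
    nul B (X - C μ) + 1 ≤ nul (tri (μ • (1 : End F F)) 0 B) (X - C μ) := by
  have := LinearMap.finrank_le_finrank_of_injective (f := LinearMap.codRestrict
    (LinearMap.ker (aeval (tri (μ • (1 : End F F)) 0 B) (X - C μ)))
    (LinearMap.id.prodMap (LinearMap.ker (aeval B (X - C μ))).subtype) fun v => by
      simpa using v.2.2) fun v w hvw => Prod.ext (congrArg (fun t => t.1.1) hvw)
        (Subtype.ext (congrArg (fun t => t.1.2) hvw))
  rwa [finrank_prod, finrank_self, add_comm] at this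

theorem peel_crit (hV : 4 ≤ finrank F V) {x : End F V} (hq : finrank F V = 4 → ¬ Quad x)
    (hx : Big x) {μ : F} (h : nul x (X - C μ) + 2 = finrank F V) :
    ∃ (f : V →ₗ[F] F) (x' : End F (LinearMap.ker f)), finrank F (LinearMap.ker f) + 1 = finrank F V ∧
      Sim (tri (μ • (1 : End F F)) 0 x') x ∧ Big x' := by
  have h1 := LinearMap.finrank_range_add_finrank_ker (aeval x (X - C μ))
  obtain ⟨e, e1, e2⟩ : ∃ e ∈ LinearMap.ker (aeval x (X - C μ)),
      e ∉ LinearMap.range (aeval x (X - C μ)) := by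
    by_contra hh
    push Not at hh
    have h2 := Submodule.finrank_mono hh
    rw [nul] at h
    have h3 := Submodule.eq_of_le_of_finrank_eq hh (by omega)
    refine hq (by omega) ⟨2 * μ, μ * μ, fun v => ?_⟩
    have h4 : aeval x (X - C μ) v ∈ LinearMap.ker (aeval x (X - C μ)) := h3 ▸ ⟨v, rfl⟩
    simp only [LinearMap.mem_ker, map_sub, aeval_X, aeval_C, LinearMap.sub_apply,
      Module.algebraMap_end_apply, map_smul] at h4
    linear_combination (norm := module) h4
  obtain ⟨f, f1, f2⟩ := exists_dual_one_zero e2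
  have hT : ∀ v ∈ LinearMap.ker f, x v ∈ LinearMap.ker f := fun v hv => by
    have := f2 _ ⟨v, rfl⟩
    rw [LinearMap.mem_ker] at hv ⊢
    simpa [hv] using this
  have s1 : Sim (tri (μ • (1 : End F F)) 0 (x.restrict hT)) x :=
    sim_tri_upper f1 (by simpa [sub_eq_zero] using e1) fun v => by simp
  have k := finrank_ker_add_one f1
  refine ⟨f, _, k, s1, fun ν => ?_⟩
  by_cases c : ν = μ
  · have := nul_succ_le_tri μ (x.restrict hT)
    rw [s1.nul_eq] at this
    rw [c]; omega
  · have h2 := nul_le_tri_right (μ • (1 : End F F)) 0 (x.restrict hT) (X - C ν)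
    rw [s1.nul_eq] at h2
    have h3 := hx ν
    by_contra h4
    have h5 := Submodule.finrank_sup_add_finrank_inf_eq (LinearMap.ker (aeval x (X - C μ)))
      (LinearMap.ker (aeval x (X - C ν)))
    have h6 := Submodule.finrank_le (LinearMap.ker (aeval x (X - C μ)) ⊔
      LinearMap.ker (aeval x (X - C ν)))
    rw [show LinearMap.ker (aeval x (X - C μ)) ⊓ LinearMap.ker (aeval x (X - C ν)) = ⊥ from
      eq_bot_iff.2 fun v hv => by
        have a1 : x v = μ • v := by simpa [sub_eq_zero] using hv.1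
        have a2 : x v = ν • v := by simpa [sub_eq_zero] using hv.2
        rw [a1, ← sub_eq_zero, ← sub_smul, smul_eq_zero] at a2
        exact a2.resolve_left (sub_ne_zero.2 (Ne.symm c)), finrank_bot] at h5
    unfold nul at h h2 h3 h4
    have h7 := Submodule.eq_top_of_finrank_eq (S := LinearMap.ker (aeval x (X - C μ)) ⊔
      LinearMap.ker (aeval x (X - C ν))) (by omega)
    refine hq (by omega) ⟨μ + ν, μ * ν, fun v => ?_⟩
    obtain ⟨a, ha, b, hb, rfl⟩ := Submodule.mem_sup.1 (h7 ▸ Submodule.mem_top : v ∈ _)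
    have a1 : x a = μ • a := by simpa [sub_eq_zero] using ha
    have a2 : x b = ν • b := by simpa [sub_eq_zero] using hb
    simp only [map_add, map_smul, a1, a2]
    module

theorem peel_upper (hV : 4 ≤ finrank F V) {x : End F V} (hq : finrank F V = 4 → ¬ Quad x)
    (hx : Big x) {ν : F} (h : x.charpoly.eval ν = 0) :
    ∃ (f : V →ₗ[F] F) (l : F) (z : LinearMap.ker f →ₗ[F] F) (x' : End F (LinearMap.ker f)),
      finrank F (LinearMap.ker f) + 1 = finrank F V ∧
      Sim (tri (l • (1 : End F F)) z x') x ∧ Big x' := by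
  by_cases c : ∃ μ, nul x (X - C μ) + 2 = finrank F V
  · obtain ⟨μ, hμ⟩ := c
    obtain ⟨f, x', h1⟩ := peel_crit hV hq hx hμ
    exact ⟨f, μ, 0, x', h1⟩
  push Not at c
  obtain ⟨e, e0, e1⟩ := exists_eigen h
  obtain ⟨f, f1⟩ := Module.Projective.exists_dual_eq_one F e0
  obtain ⟨x', hx'⟩ := exists_compress x f1
  have s1 : Sim (tri (ν • (1 : End F F)) (f ∘ₗ x ∘ₗ (LinearMap.ker f).subtype) x') x :=
    sim_tri_upper f1 e1 fun v => by simp [hx']
  have k := finrank_ker_add_one f1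
  refine ⟨f, ν, _, x', k, s1, fun μ => ?_⟩
  have h2 := nul_le_tri_right (ν • (1 : End F F)) (f ∘ₗ x ∘ₗ (LinearMap.ker f).subtype) x' (X - C μ)
  rw [s1.nul_eq] at h2
  have := hx μ
  have := c μ
  omega

theorem peel_lower (hV : 4 ≤ finrank F V) {x : End F V} (hq : finrank F V = 4 → ¬ Quad x)
    (hx : Big x) {ν : F} (h : x.charpoly.eval ν = 0) :
    ∃ (f : V →ₗ[F] F) (l : F) (z : F →ₗ[F] LinearMap.ker f) (x' : End F (LinearMap.ker f)),
      finrank F (LinearMap.ker f) + 1 = finrank F V ∧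
      Sim (tri x' z (l • (1 : End F F))) x ∧ Big x' := by
  by_cases c : ∃ μ, nul x (X - C μ) + 2 = finrank F V
  · obtain ⟨μ, hμ⟩ := c
    obtain ⟨f, x', h1, h2, h3⟩ := peel_crit hV hq hx hμ
    rw [tri_zero] at h2
    exact ⟨f, μ, 0, x', h1, by rw [tri_zero]; exact (sim_prodMap_comm _ _).trans h2, h3⟩
  push Not at c
  obtain ⟨ψ, p0, p1⟩ := exists_left_eigen h
  obtain ⟨e, f1⟩ : ∃ e, ψ e = 1 := by
    obtain ⟨u, hu⟩ : ∃ u, ψ u ≠ 0 := by
      by_contra h; push Not at h; exact p0 (LinearMap.ext h)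
    exact ⟨(ψ u)⁻¹ • u, by simp [hu]⟩
  have hT : ∀ v ∈ LinearMap.ker ψ, x v ∈ LinearMap.ker ψ := fun v hv => by
    rw [LinearMap.mem_ker] at hv ⊢
    rw [p1, hv, mul_zero]
  have s1 : Sim (tri (x.restrict hT) (LinearMap.toSpanSingleton F _ ⟨x e - ν • e, by simp [p1]⟩)
      (ν • (1 : End F F))) x := sim_tri_lower f1 (by simp) fun v => rfl
  have k := finrank_ker_add_one f1
  refine ⟨ψ, ν, _, _, k, s1, fun μ => ?_⟩
  have h2 := nul_le_tri_left (x.restrict hT) (LinearMap.toSpanSingleton F _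
    ⟨x e - ν • e, by simp [p1]⟩) (ν • (1 : End F F)) (X - C μ)
  rw [s1.nul_eq] at h2
  have := hx μ
  have := c μ
  omega

theorem cyc_three (hV : finrank F V = 3) {x : End F V} (hx : Big x) : Cyc x := by
  refine exists_isCyc_of_nul fun φ h1 h2 => ?_
  by_contra h3
  have h4 : nul x φ ≤ 3 := (Submodule.finrank_le _).trans hV.le
  have h5 := h2.natDegree_pos
  have h6 := hx (-φ.coeff 0)
  rw [map_neg, sub_neg_eq_add, ← h1.eq_X_add_C (by omega)] at h6
  omega

theorem exists_not_cyc {x : End F V} (hx : ¬ Cyc x) (hr : ∀ a, x.charpoly.eval a ≠ 0) :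
    ∃ φ : F[X], φ.Monic ∧ Irreducible φ ∧ 2 ≤ φ.natDegree ∧ 2 * φ.natDegree ≤ nul x φ := by
  by_contra hh
  push Not at hh
  refine hx (exists_isCyc_of_nul fun φ h1 h2 => ?_)
  have h5 := h2.natDegree_pos
  by_cases c : φ.natDegree = 1
  · rw [nul, LinearMap.ker_eq_bot'.2 fun v hv => eq_zero_of_not_dvd h2 (fun h => ?_) hv, finrank_bot]
    · omega
    · rw [h1.eq_X_add_C c, ← sub_neg_eq_add, ← map_neg, dvd_iff_isRoot] at h
      exact hr _ h
  · exact hh φ h1 h2 (by omega)

theorem cyc_four (hV : finrank F V = 4) {x : End F V} (hq : ¬ Quad x)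
    (hr : ∀ a, x.charpoly.eval a ≠ 0) : Cyc x := by
  by_contra h
  obtain ⟨φ, h1, h2, h3, h4⟩ := exists_not_cyc h hr
  have h5 : nul x φ ≤ 4 := (Submodule.finrank_le _).trans hV.le
  have h6 := Submodule.eq_top_of_finrank_eq (S := LinearMap.ker (aeval x φ))
    (by unfold nul at h4 h5; omega)
  rw [LinearMap.ker_eq_top, h1.as_sum, show φ.natDegree = 2 by omega] at h6
  refine hq ⟨-φ.coeff 1, φ.coeff 0, fun v => ?_⟩
  have := LinearMap.congr_fun h6 v
  simp [Finset.sum_range_succ, pow_two] at this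
  linear_combination (norm := module) this

theorem cyc_five (hV : finrank F V = 5) {x : End F V} (hr : ∀ a, x.charpoly.eval a ≠ 0) :
    Cyc x := by
  by_contra h
  obtain ⟨φ, h1, h2, h3, h4⟩ := exists_not_cyc h hr
  have h5 : nul x φ ≤ 5 := (Submodule.finrank_le _).trans hV.le
  have h7 := LinearMap.finrank_range_add_finrank_ker (aeval x φ)
  by_cases c : aeval x φ = 0
  · obtain ⟨s, hs⟩ := exists_hasType x
    have h6 : 2 ∣ size s := Multiset.dvd_sum fun a ha => by
      obtain ⟨y, hy, rfl⟩ := Multiset.mem_map.1 ha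
      obtain ⟨g1, g2, g3⟩ := hs.good y hy
      have := eq_of_monic_of_associated g1 h1 (g2.associated_of_dvd h2
        ((dvd_pow_self _ g3.ne').trans ((hs.aeval_eq_zero_iff φ).1 c y hy)))
      rw [this, show φ.natDegree = 2 by omega]
      exact dvd_mul_left _ _
    rw [← hs.finrank_eq] at h6
    omega
  · obtain ⟨w, w0⟩ : ∃ w, aeval x φ w ≠ 0 := by
      by_contra h; push Not at h; exact c (LinearMap.ext h)
    have hv' : (⟨_, w, rfl⟩ : LinearMap.range (aeval x φ)) ≠ 0 :=
      fun h => w0 (congrArg Subtype.val h)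
    have := nontrivial_of_ne _ _ hv'
    obtain ⟨a, ha⟩ := (finrank_eq_one_iff_of_nonzero' (K := F) _ hv').1
      (le_antisymm (by unfold nul at h4; omega) Module.finrank_pos) ⟨_, x w, rfl⟩
    refine hr a (isRoot_of_eigen w0 ?_)
    rw [intertwine_aeval (f := x) (g := x) x (fun _ => rfl)] 
    exact (congrArg Subtype.val ha).symm

theorem cyc_mono (hF : Four F) (hV : 3 ≤ finrank F V) {x S : End F V} (hx : LinearMap.det x ≠ 0)
    (hx' : ∀ c : F, x ≠ c • 1) {j k : ℕ} (hS : S ∈ cG x ^ j) (hc : Cyc S) (h : j ≤ k) :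
    ∃ T ∈ cG x ^ k, Cyc T := by
  induction k, h using Nat.le_induction with
  | base => exact ⟨S, hS, hc⟩
  | succ k _ ih =>
    obtain ⟨T, t1, t2⟩ := ih
    obtain ⟨T', a1, a2, -⟩ := exists_gd hF hV (LinearMap.det x ^ (k + 1)) one_ne_zero one_ne_zero
    exact ⟨T', gd_mem_cG (by omega) hx hx' t2 t1 a1 a2, a1.1⟩

end

theorem exists_two_traces [Fintype F] (h4 : 4 ≤ Fintype.card F) (d t : F) : ∃ θ1 θ2 : F,
    θ1 ≠ θ2 ∧ (θ1 ≠ 2 * d ∧ θ1 ≠ -(2 * d) ∧ θ1 ≠ t) ∧ θ2 ≠ 2 * d ∧ θ2 ≠ -(2 * d) ∧ θ2 ≠ t := by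
  classical
  have hF := four_of_card h4
  obtain ⟨θ1, h1⟩ := hF (2 * d) (-(2 * d)) t
  by_cases h2 : (2 : F) = 0
  · obtain ⟨θ2, a1, a2, a3⟩ := hF 0 t θ1
    exact ⟨θ1, θ2, a3.symm, h1, by simpa [h2], by simpa [h2], a2⟩
  · have h3 : Fintype.card F % 2 = 1 := FiniteField.odd_card_of_char_ne_two fun h => h2 (by
      have := ringChar.Nat.cast_ringChar (R := F)
      rw [h] at this
      exact_mod_cast this)
    obtain ⟨θ2, h5⟩ : ∃ θ2, θ2 ∉ ({θ1, 2 * d, -(2 * d), t} : Finset F) := by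
      by_contra hh
      push Not at hh
      have := Finset.card_le_card (fun a _ => hh a : Finset.univ ⊆ _)
      have h6 : ({θ1, 2 * d, -(2 * d), t} : Finset F).card ≤ 4 := Finset.card_le_four
      rw [Finset.card_univ] at this
      omega
    simp only [Finset.mem_insert, Finset.mem_singleton, not_or] at h5
    exact ⟨θ1, θ2, Ne.symm h5.1, h1, h5.2⟩

theorem odd_main [Fintype F] (h4 : 4 ≤ Fintype.card F) (k : ℕ) : ∀ {V : Type v} [AddCommGroup V]
    [Module F V] [Module.Finite F V], finrank F V = 2 * k + 3 → ∀ x : End F V,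
    LinearMap.det x ≠ 0 → Big x →
    Cyc x ∨ (2 ≤ k ∧ ∃ T ∈ cS x ^ 2, Cyc T) ∨ ∃ T ∈ cS x ^ (k + 1), Gd T := by
  have hF := four_of_card h4
  induction k with
  | zero => exact fun hV x _ hx => Or.inl (cyc_three hV hx)
  | succ k ih =>
    intro V _ _ _ hV x hd hx
    by_cases c1 : ∀ a, x.charpoly.eval a ≠ 0
    · rcases Nat.eq_zero_or_pos k with rfl | hk
      · exact Or.inl (cyc_five hV c1)
      · refine Or.inr (Or.inl ⟨by omega, cyc_sq hF hd ?_⟩)
        rw [Multiset.eq_zero_of_forall_notMem fun a ha => c1 a (isRoot_of_mem_roots ha)]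
        simp
    push Not at c1
    obtain ⟨ν, hν⟩ := c1
    obtain ⟨f, l1, z1, x1, k1, s1, b1⟩ := peel_upper (by omega) (by omega) hx hν
    have d1 := s1.det_eq
    rw [det_tri, det_smul_one] at d1
    rw [← d1] at hd
    have tr : (∃ T ∈ cS (tri (l1 • (1 : End F F)) z1 x1) ^ (k + 1 + 1), Gd T) →
        ∃ T ∈ cS x ^ (k + 1 + 1), Gd T := fun ⟨T, t1, t2⟩ => by
      obtain ⟨T', u1, u2⟩ := cS_transport s1 t1
      exact ⟨T', u1, t2.of_sim u2⟩
    by_cases c2 : finrank F (LinearMap.ker f) = 4 ∧ Quad x1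
    · obtain ⟨c2, τ, δ, hq⟩ := c2
      obtain rfl : k = 0 := by omega
      have hδ : δ ≠ 0 := by
        rintro rfl
        refine right_ne_zero_of_mul hd ?_
        rw [← (quad_four c2 b1 hq).det_eq, det_tri, LinearMap.det_toLin']
        simp
      have l0 := pow_ne_zero 2 (left_ne_zero_of_mul hd)
      obtain ⟨θ1, θ2, a0, ⟨a1, a2, a3⟩, a4, a5, a6⟩ := exists_two_traces h4 δ
        (((l1 ^ 2) ^ 2 + δ ^ 2) / l1 ^ 2)
      obtain ⟨T, t1, t2, t3⟩ := quad_cG c2 b1 hq hδ a0 a1 a2 a4 a5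
      obtain ⟨T', u1, u2, -⟩ := gd_upper t1 t2 l1 z1 (by
        rw [t3, eval_mul]
        simp only [eval_add, eval_sub, eval_mul, eval_pow, eval_X, eval_C]
        exact mul_ne_zero (fun h => a3 (by rw [eq_div_iff l0]; linear_combination -h))
          fun h => a6 (by rw [eq_div_iff l0]; linear_combination -h))
      exact Or.inr (Or.inr (tr ⟨T', u1, u2⟩))
    by_cases c3 : ∀ a, x1.charpoly.eval a ≠ 0
    · rcases Nat.eq_zero_or_pos k with rfl | hk
      · exact Or.inl ((cyc_tri_upper z1 (cyc_four (by omega) (fun h => c2 ⟨by omega, h⟩) c3)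
          (c3 _)).of_sim s1)
      · refine Or.inr (Or.inl ⟨by omega, cyc_sq hF (d1 ▸ hd) ?_⟩)
        rw [← s1.charpoly_eq, charpoly_tri, charpoly_smul_one,
          roots_mul ((monic_X_sub_C _).mul x1.charpoly_monic).ne_zero,
          Multiset.eq_zero_of_forall_notMem fun a ha => c3 a (isRoot_of_mem_roots ha)]
        simp
    push Not at c3
    obtain ⟨ν', hν'⟩ := c3
    obtain ⟨f', l2, z2, x2, k2, s2, b2⟩ := peel_lower (by omega) (fun a b => c2 ⟨a, b⟩) b1 hν'
    have d2 := s2.det_eq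
    rw [det_tri, det_smul_one] at d2
    have d3 := right_ne_zero_of_mul hd
    rw [← d2] at d3
    have d4 := left_ne_zero_of_mul d3
    obtain ⟨S, t1, t2⟩ : ∃ S ∈ cG x2 ^ (k + 1), Cyc S := by
      rcases ih (V := LinearMap.ker f') (by omega) x2 d4 b2 with h | ⟨h, T, t1, t2⟩ | ⟨T, t1, t2⟩
      · exact cyc_mono hF (by omega) d4 b2.nonscalar (j := 1) (by rw [pow_one]; exact Sim.refl x2) h
          (by omega)
      · exact cyc_mono hF (by omega) d4 b2.nonscalar (cS_pow_subset t1) t2 (by omega)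
      · exact ⟨T, cS_pow_subset t1, t2.1⟩
    obtain ⟨z1', s3⟩ := sim_tri_congr (Sim.refl (l1 • (1 : End F F))) s2.symm z1
    obtain ⟨T, u1, u2⟩ := pair hF (by omega) d4 b2 t2 t1 (left_ne_zero_of_mul hd)
      (right_ne_zero_of_mul d3) z1' z2
    obtain ⟨T', v1, v2⟩ := cS_transport s3.symm u1
    exact Or.inr (Or.inr (tr ⟨T', v1, u2.of_sim v2⟩))

end Cfsg.Agent.H4
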