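import Cfsg.Agent.H4.CV6

/-! Covering numbers of linear groups, part 7: rank one perturbations of scalars, and the covering
theorem. -/

set_option autoImplicit false

namespace Cfsg.Agent.H4

open Module Polynomial
open scoped Pointwise

universe u v

variable {F : Type u} [Field F]

section

variable {V : Type*} [AddCommGroup V] [Module F V]

/-- Products of rank one perturbations of the identity, with the common kernel of the forms. -/
inductive RP (ρ : F) : ℕ → End F V → Submodule F V → Prop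
  | nil : RP ρ 0 1 ⊤
  | cons {k : ℕ} {M : End F V} {K : Submodule F V} (v : V) (f : V →ₗ[F] F) (h : f v = ρ - 1) :
      RP ρ k M K → RP ρ (k + 1) ((1 + f.smulRight v) * M) (K ⊓ LinearMap.ker f)

theorem RP.fix {ρ : F} {k : ℕ} {M : End F V} {K : Submodule F V} (h : RP ρ k M K) :
    ∀ w ∈ K, M w = w := by
  induction h with
  | nil => exact fun _ _ => rfl
  | cons v f _ _ ih =>
    intro w hw
    simp [ih w hw.1, LinearMap.mem_ker.1 hw.2]

theorem RP.lift {ρ : F} {e : V} {f : V →ₗ[F] F} (hf : f e = 1) (π : V →ₗ[F] LinearMap.ker f)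
    (hπ : ∀ v, (π v : V) = v - f v • e) {k : ℕ} {M : End F (LinearMap.ker f)}
    {K : Submodule F (LinearMap.ker f)} (h : RP ρ k M K) : ∀ (M1 : End F V)
    (Z : LinearMap.ker f →ₗ[F] F), M1 e = e → (∀ v : LinearMap.ker f, M1 v = M v + Z v • e) →
    (∀ w ∈ K, Z w = 0) → RP ρ k M1 (K.comap π) := by
  have π1 : π e = 0 := Subtype.ext (by simp [hπ, hf])
  have π2 : ∀ v : LinearMap.ker f, π v = v := fun v =>
    Subtype.ext (by simp [hπ, LinearMap.mem_ker.1 v.2])
  have ext : ∀ {A B : End F V}, A e = B e → (∀ v : LinearMap.ker f, A v = B v) → A = B :=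
    fun h1 h2 => LinearMap.ext fun v => by
      obtain ⟨c, w, rfl⟩ := exists_split_apply hf v
      rw [map_add, map_add, map_smul, map_smul, h1, h2]
  induction h with
  | nil =>
    intro M1 Z a1 a2 a3
    rw [show M1 = 1 from ext a1 fun v => by simp [a2, a3 v trivial], Submodule.comap_top]
    exact RP.nil
  | @cons k M K v g hg hM ih =>
    intro M1 Z a1 a2 a3
    obtain ⟨c, hc⟩ : ∃ c : F, ∀ w ∈ K, Z w = c * g w := by
      by_cases h : ∃ w0 ∈ K, g w0 ≠ 0
      · obtain ⟨w0, h1, h2⟩ := h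
        refine ⟨Z w0 / g w0, fun w hw => ?_⟩
        have := a3 (g w0 • w - g w • w0) ⟨K.sub_mem (K.smul_mem _ hw) (K.smul_mem _ h1), by
          simp [mul_comm]⟩
        simp only [map_sub, map_smul, smul_eq_mul] at this
        field_simp
        linear_combination this
      · push Not at h
        exact ⟨0, fun w hw => by rw [a3 w ⟨hw, h w hw⟩, zero_mul]⟩
    obtain ⟨M2, b1, b2⟩ := exists_end_split hf e
      ((LinearMap.ker f).subtype ∘ₗ M + (Z - c • g ∘ₗ M).smulRight e)
    have := RP.cons ((v : V) + c • e) (g ∘ₗ π) (by simp [π1, π2, hg])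
      (ih M2 (Z - c • g ∘ₗ M) b1 b2 fun w hw => by simp [hc w hw, hM.fix w hw])
    rw [Submodule.comap_inf, ← LinearMap.ker_comp]
    convert this using 1
    refine ext (by simp [a1, b1, π1]) fun w => ?_
    simp [a2, b2, π1, π2]
    module

variable [Module.Finite F V]

theorem RP.step {ρ : F} (hρ : ρ ≠ 0) {M : End F V} {m : ℕ} (hd : LinearMap.det M = ρ ^ (m + 1))
    {e : V} {f : V →ₗ[F] F} (h1 : f e = 1) (h2 : f (M e) = ρ)
    (h : ∀ M' : End F (LinearMap.ker f), (∀ v, (M' v : V) = M v - (ρ⁻¹ * f (M v)) • M e) →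
      LinearMap.det M' = ρ ^ m → RP ρ m M' ⊥) : RP ρ (m + 1) M ⊥ := by
  let M1 : End F V := (1 - (ρ⁻¹ • f).smulRight (M e - e)) * M
  have e1 : (1 + f.smulRight (M e - e)) * M1 = M := LinearMap.ext fun v => by
    simp [M1, h1, h2]
    match_scalars <;> field_simp <;> ring
  have e2 : M1 e = e := by simp [M1, h2, hρ]
  obtain ⟨M', hM'⟩ := exists_compress M1 h1
  have s1 : Sim (tri ((1 : F) • (1 : End F F)) (f ∘ₗ M1 ∘ₗ (LinearMap.ker f).subtype) M') M1 :=
    sim_tri_upper h1 (by simp [e2]) fun v => by simp [hM']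
  have e3 := s1.det_eq
  rw [det_tri, det_smul_one, one_mul] at e3
  have e4 : LinearMap.det M' = ρ ^ m := by
    rw [← e1, map_mul, det_one_add_smulRight', ← e3, map_sub, h1, h2, pow_succ'] at hd
    exact mul_left_cancel₀ hρ (by linear_combination hd)
  let π : V →ₗ[F] LinearMap.ker f := LinearMap.snd F _ _ ∘ₗ (splitEquiv e f h1).symm.toLinearMap
  have hπ : ∀ v, (π v : V) = v - f v • e := fun v => rfl
  have := RP.cons (M e - e) f (by rw [map_sub, h1, h2]) ((h M' (fun v => by
      simp [hM', M1, h1, h2]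
      match_scalars <;> field_simp
      all_goals ring) e4).lift h1 π hπ M1
    (f ∘ₗ M1 ∘ₗ (LinearMap.ker f).subtype) e2 (fun v => by simp [hM']) (by simp))
  rw [e1] at this
  convert this using 1
  refine (eq_bot_iff.2 fun w hw => ?_).symm
  have h3 := congrArg Subtype.val (show π w = 0 from hw.1)
  simpa [hπ, LinearMap.mem_ker.1 hw.2] using h3

end

theorem rp_main {ρ : F} (hρ : ρ ≠ 0) (n : ℕ) : ∀ {V : Type v} [AddCommGroup V] [Module F V]
    [Module.Finite F V], finrank F V = n → ∀ M : End F V, LinearMap.det M = ρ ^ n →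
    ((∀ c : F, M ≠ c • 1) ∨ M = ρ • 1) → RP ρ n M ⊥ := by
  induction n with
  | zero =>
    intro V _ _ _ hV M _ _
    have := Module.finrank_zero_iff.1 hV
    rw [Subsingleton.elim M 1, Subsingleton.elim (⊥ : Submodule F V) ⊤]
    exact RP.nil
  | succ m ih =>
    intro V _ _ _ hV M hd hM
    rcases hM with hM | rfl
    swap
    · have := Module.nontrivial_of_finrank_pos (R := F) (M := V) (by omega)
      obtain ⟨e, he⟩ := exists_ne (0 : V)
      obtain ⟨f, hf⟩ := Module.Projective.exists_dual_eq_one F he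
      refine RP.step hρ hd hf (by simp [hf]) fun M' h1 h2 => ih (by
        have := finrank_ker_add_one hf; omega) M' h2 (Or.inr (LinearMap.ext fun v => Subtype.ext ?_))
      simp [h1, LinearMap.mem_ker.1 v.2]
    obtain ⟨e, he, h1⟩ := exists_not_mem_span hM
    obtain ⟨f, f1, f2⟩ : ∃ f : V →ₗ[F] F, f e = 1 ∧ f (M e) = ρ := by
      obtain ⟨l, hl⟩ := Module.Projective.exists_dual_eq_one F he
      obtain ⟨ψ, p1, p2⟩ := exists_dual_one_zero h1
      exact ⟨l + (ρ - l (M e)) • ψ, by simp [hl, p2 e (Submodule.subset_span rfl)], by simp [p1]⟩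
    by_cases hm : m ≤ 1
    · refine RP.step hρ hd f1 f2 fun M' _ h2 => ?_
      have k := finrank_ker_add_one f1
      refine ih (by omega) M' h2 (Or.inr ?_)
      rcases Nat.le_one_iff_eq_zero_or_eq_one.1 hm with rfl | rfl
      · have := Module.finrank_zero_iff.1 (show finrank F (LinearMap.ker f) = 0 by omega)
        exact Subsingleton.elim _ _
      · have k' : finrank F (LinearMap.ker f) = 1 := by omega
        obtain ⟨c, rfl, -⟩ := LinearMap.existsUnique_eq_smul_id_of_finrank_eq_one k' M'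
        rw [LinearMap.det_smul, k'] at h2
        simp at h2
        rw [h2]; rfl
    have key : ∀ f : V →ₗ[F] F, f e = 1 → f (M e) = ρ → RP ρ (m + 1) M ⊥ ∨
        ∃ c : F, ∀ v, M v - (ρ⁻¹ * f (M v)) • M e = c • (v - f v • e) := by
      intro f f1 f2
      refine or_iff_not_imp_right.2 fun h => RP.step hρ hd f1 f2 fun M' h2 h3 => ih (by
        have := finrank_ker_add_one f1; omega) M' h3 (Or.inl fun c hc => h ⟨c, fun v => ?_⟩)
      have := h2 ⟨v - f v • e, by simp [f1]⟩
      rw [hc] at this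
      simp only [LinearMap.smul_apply, Module.End.one_apply, Submodule.coe_smul, map_sub, map_smul,
        f2] at this
      rw [this]
      match_scalars <;> field_simp <;> ring
    obtain ⟨z, hz⟩ : ∃ z, z ∉ Submodule.span F {e} ⊔ Submodule.span F {M e} := by
      simpa [Submodule.eq_top_iff'] using span_sup_ne_top (P := Submodule.span F {e}) (M e)
        (by rw [finrank_span_singleton he]; omega)
    obtain ⟨g, g1, g2⟩ := exists_dual_one_zero hz
    have g3 : g e = 0 := g2 _ (Submodule.mem_sup_left (Submodule.subset_span rfl))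
    have g4 : g (M e) = 0 := g2 _ (Submodule.mem_sup_right (Submodule.subset_span rfl))
    refine (key f f1 f2).elim id fun ⟨c, hc⟩ =>
      (key (f + g) (by simp [f1, g3]) (by simp [f2, g4])).elim id fun ⟨c', hc'⟩ => ?_
    exfalso
    have e1 : c = c' := by
      have a1 := congrArg g (hc z)
      have a2 := congrArg g (hc' z)
      simp only [map_sub, map_smul, g1, g3, g4, smul_eq_mul, mul_zero, sub_zero, mul_one] at a1 a2
      rw [← a1, a2]
    obtain ⟨M', m1, -⟩ := exists_inv_of_det (e := M) (by rw [hd]; exact pow_ne_zero _ hρ)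
    have m2 : M (M' z) = z := LinearMap.congr_fun m1 z
    have e2 := hc (M' z)
    have e3 := hc' (M' z)
    rw [← e1, LinearMap.add_apply, LinearMap.add_apply, m2, g1] at e3
    rw [m2] at e2
    refine h1 (Submodule.mem_span_singleton.2 ⟨ρ * c * g (M' z), ?_⟩)
    have e4 : (ρ * ρ⁻¹) • M e = M e := by rw [mul_inv_cancel₀ hρ, one_smul]
    linear_combination (norm := module) ρ • e3 - ρ • e2 + e4

section

variable {V : Type v} [AddCommGroup V] [Module F V] [Module.Finite F V]

theorem ssim_rank_one_aux {v u : V} {φ ψ : V →ₗ[F] F} (h : φ v = ψ v) (h1 : φ u = 1)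
    (h2 : ψ u = 1) : SSim (1 + φ.smulRight v : End F V) (1 + ψ.smulRight v) :=
  ⟨1 + (φ - ψ).smulRight u, by rw [det_one_add_smulRight']; simp [h1, h2],
    LinearMap.ext fun w => by simp [h, h2]; module⟩

theorem ssim_rank_one (hV : 3 ≤ finrank F V) {v v' : V} {φ φ' : V →ₗ[F] F} (hv : v ≠ 0)
    (hφ : φ ≠ 0) (hv' : v' ≠ 0) (hφ' : φ' ≠ 0) (h : φ v = φ' v') :
    SSim (1 + φ.smulRight v : End F V) (1 + φ'.smulRight v') := by
  obtain ⟨g, a1, -, rfl⟩ := exists_move (P := (⊥ : Submodule F V)) (by simp; omega)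
    (y := v) (y' := v') (by simpa) (by simpa)
  have hψ : φ' ∘ₗ g ≠ 0 := fun h0 => hφ' (LinearMap.ext fun w => by
    obtain ⟨g', b1, -⟩ := exists_inv_of_det_one a1
    simpa [show g (g' w) = w from LinearMap.congr_fun b1 w] using LinearMap.congr_fun h0 (g' w))
  refine SSim.trans (g := 1 + (φ' ∘ₗ g).smulRight v) ?_ ⟨g, a1, LinearMap.ext fun w => by simp⟩
  set ψ := φ' ∘ₗ g
  replace h : φ v = ψ v := h
  by_cases c : φ v = 0
  · obtain ⟨u, hu⟩ : ∃ u, φ u = 1 := by
      obtain ⟨u, hu⟩ : ∃ u, φ u ≠ 0 := by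
        by_contra h; push Not at h; exact hφ (LinearMap.ext h)
      exact ⟨(φ u)⁻¹ • u, by simp [hu]⟩
    obtain ⟨z, z1, z2⟩ := avoid_two (span_sup_ne_top (P := Submodule.span F {v}) u
      (by rw [finrank_span_singleton hv]; omega)) (B := LinearMap.ker ψ)
      (by rwa [Ne, LinearMap.ker_eq_top])
    replace z2 : ψ z ≠ 0 := z2
    obtain ⟨χ, b1, b2⟩ := exists_dual_one_zero z1
    have b3 : χ v = 0 := b2 _ (Submodule.mem_sup_left (Submodule.subset_span rfl))
    have b4 : χ u = 0 := b2 _ (Submodule.mem_sup_right (Submodule.subset_span rfl))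
    exact (ssim_rank_one_aux (ψ := φ + (ψ z - φ z) • χ) (u := u) (by simp [b3]) hu
      (by simp [hu, b4])).trans (ssim_rank_one_aux (u := (ψ z)⁻¹ • z) (by simp [b3, h])
        (by simp [b1, z2]) (by simp [z2]))
  · exact ssim_rank_one_aux (u := (φ v)⁻¹ • v) h (by simp [c]) (by simp [← h, c])

theorem pad_transvection (hF : Four F) (hV : 3 ≤ finrank F V) {v : V} {φ : V →ₗ[F] F} (hv : v ≠ 0)
    (hφ : φ ≠ 0) (h : φ v = 0) (k : ℕ) : ∀ {v' : V} {φ' : V →ₗ[F] F}, v' ≠ 0 → φ' ≠ 0 → φ' v' = 0 →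
    (1 + φ'.smulRight v' : End F V) ∈ cS (1 + φ.smulRight v : End F V) ^ (k + 1) := by
  induction k with
  | zero =>
    intro v' φ' a1 a2 a3
    rw [zero_add, pow_one]
    exact ssim_rank_one hV hv hφ a1 a2 (h.trans a3.symm)
  | succ k ih =>
    intro v' φ' a1 a2 a3
    obtain ⟨s, s0, s1, -⟩ := hF 0 1 1
    have := mul_mem_pow_succ (ih (φ' := s • φ') a1 (smul_ne_zero s0 a2) (by simp [a3]))
      (ssim_rank_one hV hv hφ a1 (φ' := (1 - s) • φ') (smul_ne_zero (sub_ne_zero.2 s1.symm) a2)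
        (by simp [a3, h]))
    convert this using 1
    refine LinearMap.ext fun w => ?_
    simp [a3]
    module

theorem RP.mem (hF : Four F) (hV : 3 ≤ finrank F V) {v : V} {φ : V →ₗ[F] F} (hv : v ≠ 0)
    (hφ : φ ≠ 0) {k : ℕ} {M : End F V} {K : Submodule F V} (h : RP (1 + φ v) k M K) :
    M ∈ cS (1 + φ.smulRight v : End F V) ^ k ∨ (φ v = 0 ∧ M = 1) := by
  induction h with
  | nil => exact Or.inl (by simp)
  | @cons k M K w f h _ ih =>
    rw [add_sub_cancel_left] at h
    by_cases c : w ≠ 0 ∧ f ≠ 0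
    · rcases ih with ih | ⟨h0, rfl⟩
      · exact Or.inl (mul_mem_pow_succ' (ssim_rank_one hV hv hφ c.1 c.2 h.symm) ih)
      · exact Or.inl (by rw [mul_one]; exact pad_transvection hF hV hv hφ h0 k c.1 c.2 (h.trans h0))
    · obtain ⟨e1, e2⟩ : φ v = 0 ∧ (1 + f.smulRight w : End F V) = 1 := by
        rw [not_and_or, not_not, not_not] at c
        rcases c with rfl | rfl <;> exact ⟨by simpa using h.symm, by simp⟩
      rw [e2, one_mul]
      rcases ih with ih | ih
      · rcases k with _ | k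
        · exact Or.inr ⟨e1, by simpa using ih⟩
        · rw [pow_succ'] at ih
          obtain ⟨a, ha, b, hb, rfl⟩ := ih
          obtain ⟨g, g', -, -, a3, a4, rfl⟩ := SSim.exists_conj ha
          have b1 : ∀ u, g' (g u) = u := LinearMap.congr_fun a4
          have b2 : ∀ u, g (g' u) = u := LinearMap.congr_fun a3
          have := mul_mem_pow_add (pad_transvection hF hV hv hφ e1 1 (v' := g v) (φ' := φ ∘ₗ g')
            (fun h => hv (by rw [← b1 v, h, map_zero])) (fun h => hφ (LinearMap.ext fun u => by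
              simpa [b1] using LinearMap.congr_fun h (g u))) (by simp [b1, e1])) hb
          rw [show 1 + 1 + k = k + 1 + 1 by ring] at this
          left
          convert this using 2
          exact LinearMap.ext fun u => by simp [b2]
      · exact Or.inr ih

omit [Module.Finite F V] in
theorem smul_mem_cS_pow {x T : End F V} {k : ℕ} (h : T ∈ cS x ^ k) (l : F) :
    l ^ k • T ∈ cS (l • x) ^ k := by
  induction k generalizing T with
  | zero => simpa using h
  | succ k ih =>
    rw [pow_succ] at h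
    obtain ⟨a, ha, b, hb, rfl⟩ := h
    have := mul_mem_pow_succ (ih ha) (SSim.smul hb l)
    rwa [smul_mul_smul_comm, ← pow_succ] at this

/-- Up to scalars, everything is a product of `dim V` conjugates. -/
def Cov (x : End F V) : Prop := ∀ M : End F V, LinearMap.det M = 1 →
  ∃ z : F, z ^ finrank F V = 1 ∧ z • M ∈ cS x ^ finrank F V

omit [Module.Finite F V] in
theorem cov_of_one {x : End F V} (h : ∀ M : End F V, (∀ c : F, M ≠ c • 1) → LinearMap.det M = 1 →
    M ∈ cS x ^ finrank F V) (h1 : 1 ∈ cS x ^ finrank F V) (hV : 0 < finrank F V) : Cov x := by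
  intro M hM
  by_cases c : ∀ c : F, M ≠ c • 1
  · exact ⟨1, one_pow _, by rw [one_smul]; exact h M c hM⟩
  · push Not at c
    obtain ⟨c, rfl⟩ := c
    have := Module.finite_of_finrank_pos hV
    rw [LinearMap.det_smul, map_one, mul_one] at hM
    have c0 : c ≠ 0 := by rintro rfl; rw [zero_pow hV.ne'] at hM; exact zero_ne_one hM
    exact ⟨c⁻¹, by rw [inv_pow, hM, inv_one], by rwa [inv_smul_smul₀ c0]⟩

theorem cov_rank_one (hF : Four F) (hV : 3 ≤ finrank F V) {x : End F V}
    (hd : LinearMap.det x = 1) (hx : ∀ c : F, x ≠ c • 1) (hb : ¬ Big x) : Cov x := by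
  obtain ⟨l, hl⟩ := not_forall.1 hb
  have h1 := LinearMap.finrank_range_add_finrank_ker (aeval x (X - C l))
  rw [nul] at hl
  have l0 : l ≠ 0 := by
    rintro rfl
    rw [map_zero, sub_zero, aeval_X, LinearMap.ker_eq_bot.2 (injective_of_det (by simp [hd])),
      finrank_bot] at hl
    omega
  obtain ⟨⟨v, hv0⟩, hv⟩ := (finrank_le_one_iff (K := F) (V := LinearMap.range (aeval x (X - C l)))).1
    (by omega)
  obtain ⟨φ, hφ⟩ := exists_transvection_of_rank_le_one (R := l⁻¹ • x) (a := v) fun w => by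
    obtain ⟨c, hc⟩ := hv ⟨_, w, rfl⟩
    have := congrArg Subtype.val hc
    simp only [map_sub, aeval_X, aeval_C, LinearMap.sub_apply, Module.algebraMap_end_apply,
      Submodule.coe_smul] at this
    exact ⟨l⁻¹ * c, by rw [mul_smul, this, smul_sub, inv_smul_smul₀ l0]; rfl⟩
  obtain rfl : x = l • (1 + φ.smulRight v) := by
    rw [← inv_smul_eq_iff₀ l0, hφ]; rfl
  have v0 : v ≠ 0 := by rintro rfl; exact hx l (by simp)
  have φ0 : φ ≠ 0 := by rintro rfl; exact hx l (by simp)
  rw [LinearMap.det_smul, det_one_add_smulRight'] at hd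
  have ρ0 := right_ne_zero_of_mul_eq_one hd
  have key : ∀ M : End F V, LinearMap.det M = 1 → ((∀ c : F, M ≠ c • 1) ∨ M = 1) →
      M ∈ cS (l • (1 + φ.smulRight v : End F V)) ^ finrank F V ∨ (φ v = 0 ∧ M = 1) := by
    intro M h1 h2
    refine ((rp_main ρ0 _ rfl ((1 + φ v) • M) (by rw [LinearMap.det_smul, h1, mul_one])
      (h2.imp (fun h c hc => h ((1 + φ v)⁻¹ * c) (by rw [mul_smul, ← hc, inv_smul_smul₀ ρ0]))
        fun h => by rw [h])).mem hF hV v0 φ0).imp (fun h => ?_) fun h => ⟨h.1, by simpa [h.1] using h.2⟩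
    have := smul_mem_cS_pow h l
    rwa [smul_smul, hd, one_smul] at this
  refine cov_of_one (fun M h1 h2 => (key M h2 (Or.inl h1)).resolve_right fun h =>
    h1 1 (by rw [h.2, one_smul])) ((key 1 (map_one _) (Or.inr rfl)).elim id fun h => ?_) (by omega)
  obtain ⟨k, hk⟩ : ∃ k, finrank F V = k + 1 + 1 := ⟨finrank F V - 2, by omega⟩
  have := smul_mem_cS_pow (mul_mem_pow_succ (pad_transvection hF hV v0 φ0 h.1 k v0 φ0 h.1)
    (ssim_rank_one hV v0 φ0 v0 (neg_ne_zero.2 φ0) (by simp [h.1]))) l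
  rw [h.1, add_zero, mul_one] at hd
  rw [← hk, hd, one_smul] at this
  convert this using 1
  exact LinearMap.ext fun w => by simp [h.1]

theorem all_of_nonscalar (hV : 3 ≤ finrank F V) {x : End F V} (hd : LinearMap.det x = 1)
    (hx : ∀ c : F, x ≠ c • 1) {k : ℕ}
    (h : ∀ M : End F V, (∀ c : F, M ≠ c • 1) → LinearMap.det M = 1 → M ∈ cS x ^ k)
    (hk : k + 1 ≤ finrank F V) : Cov x := by
  suffices H : ∀ m, k + 1 ≤ m → ∀ M : End F V, LinearMap.det M = 1 → M ∈ cS x ^ m from
    fun M hM => ⟨1, one_pow _, by rw [one_smul]; exact H _ hk M hM⟩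
  have step : ∀ {m : ℕ} {y M : End F V}, SSim x y →
      (∀ M', LinearMap.det M' = 1 → y * M' = M → M' ∈ cS x ^ m) → LinearMap.det M = 1 →
      M ∈ cS x ^ (m + 1) := by
    intro m y M h1 h2 h3
    obtain ⟨y', a1, -, a3⟩ := exists_inv_of_det_one (h1.sim.det_eq.symm.trans hd)
    have e : y * (y' * M) = M := by rw [← mul_assoc, a1, one_mul]
    exact e ▸ mul_mem_pow_succ' h1 (h2 _ (by rw [map_mul, a3, h3, one_mul]) e)
  intro m hm
  induction m, hm using Nat.le_induction with
  | base =>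
    intro M hM
    by_cases c : ∃ c : F, M = c • x
    · obtain ⟨c, rfl⟩ := c
      obtain ⟨v, v0, hv⟩ := exists_not_mem_span hx
      obtain ⟨z, hz⟩ : ∃ z, z ∉ Submodule.span F {v} ⊔ Submodule.span F {x v} := by
        simpa [Submodule.eq_top_iff'] using span_sup_ne_top (P := Submodule.span F {v}) (x v)
          (by rw [finrank_span_singleton v0]; omega)
      obtain ⟨g, g1, g2, g3⟩ := exists_move_two hV v0 hv v0 fun h => hz (Submodule.mem_sup_left h)
      obtain ⟨g', -, g4, -⟩ := exists_inv_of_det_one g1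
      refine step (ssim_conj x g1 g4) (fun M' a1 a2 => h M' (fun d hd' => ?_) a1) hM
      have e1 : g' v = v := by conv_lhs => rw [← g2]
                               exact LinearMap.congr_fun g4 v
      have e2 := LinearMap.congr_fun a2 v
      have d0 : d ≠ 0 := by
        rintro rfl
        rw [hd', LinearMap.det_smul, zero_pow (by omega), zero_mul] at a1
        exact zero_ne_one a1
      simp only [hd', Module.End.mul_apply, LinearMap.smul_apply, Module.End.one_apply, map_smul, e1,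
        g3] at e2
      exact hz (Submodule.mem_sup_right (Submodule.mem_span_singleton.2
        ⟨d⁻¹ * c, by rw [mul_smul, ← e2, inv_smul_smul₀ d0]⟩))
    · exact step (SSim.refl x) (fun M' a1 a2 => h M' (fun d hd' =>
        c ⟨d, by rw [← a2, hd', mul_smul_comm, mul_one]⟩) a1) hM
  | succ m _ ih => exact fun M hM => step (SSim.refl x) (fun M' a1 _ => ih M' a1) hM

theorem one_mem_three (hF : Four F) (hV : finrank F V = 3) {x : End F V}
    (hd : LinearMap.det x = 1) (hx : ∀ c : F, x ≠ c • 1) : 1 ∈ cS x ^ 3 := by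
  obtain ⟨W, h1, h2⟩ : ∃ W : End F V, W.charpoly = X ^ 3 - 1 ∧ (x * W).charpoly = X ^ 3 - 1 := by
    by_cases h3 : (3 : F) = 0
    · obtain ⟨W, a1, a2, -⟩ := exists_reg_unip hF (n := 2) hV hd hx
      have : (X - C 1 : F[X]) ^ (2 + 1) = X ^ 3 - 1 := by
        have : (3 : F[X]) = 0 := by
          rw [show (3 : F[X]) = C 3 from rfl, h3, map_zero]
        rw [map_one]
        linear_combination (X - X ^ 2) * this
      exact ⟨W, a1.trans this, a2.trans this⟩
    · obtain ⟨B, v, b1, b2⟩ := exists_cyc_end (V := V) (χ := (X ^ 3 - 1 : F[X])) (by monicity!)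
        (by rw [hV]; compute_degree!)
      have b3 : LinearMap.det B = 1 := by rw [det_eq_charpoly, b1, hV]; simp; norm_num
      obtain ⟨W, a1, a2⟩ := lev_gl (by omega) (by simp [hd]) hx ⟨v, b2⟩ (gd_of_charpoly ⟨v, b2⟩
        (ω := 1) (g := X ^ 2 + X + 1) (by rw [b1, map_one]; ring)
        (by simpa [one_add_one_eq_two, two_add_one_eq_three] using h3)) (by simp [b3])
        (by simp [hd])
      exact ⟨W, by rw [← a1.sim.charpoly_eq, b1], by rw [← a2.charpoly_eq, b1]⟩
  have e1 := LinearMap.aeval_self_charpoly W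
  have e2 := LinearMap.aeval_self_charpoly (x * W)
  rw [h1] at e1
  rw [h2] at e2
  simp only [map_sub, map_pow, aeval_X, map_one, sub_eq_zero] at e1 e2
  have e3 : LinearMap.det W = 1 := by rw [det_eq_charpoly, h1, hV]; simp; norm_num
  have := mul_mem_pow_succ (mul_mem_sq (C := cS x) (SSim.refl x) (ssim_conj x e3 (e' := W ^ 2)
    (by rw [← pow_succ, e1]))) (ssim_conj x (e := W ^ 2) (e' := W) (by simp [e3])
      (by rw [← pow_succ', e1]))
  convert this using 1
  rw [← e2, show x * (W * x * W ^ 2) * (W ^ 2 * x * W) = x * W * x * (W ^ 3 * W) * x * W by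
    noncomm_ring, e1]
  noncomm_ring

theorem cov_main [Fintype F] (h4 : 4 ≤ Fintype.card F) (hV : 3 ≤ finrank F V) {x : End F V}
    (hd : LinearMap.det x = 1) (hx : ∀ c : F, x ≠ c • 1) : Cov x := by
  have hF := four_of_card h4
  by_cases hb : Big x
  swap
  · exact cov_rank_one hF hV hd hx hb
  have hd' : LinearMap.det x ≠ 0 := by simp [hd]
  have cyc : ∀ {j : ℕ} {S : End F V}, S ∈ cS x ^ j → Cyc S → ∀ M : End F V,
      (∀ c : F, M ≠ c • 1) → LinearMap.det M = 1 → M ∈ cS x ^ (j + 1 + j) := by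
    intro j S s1 s2 M m1 m2
    obtain ⟨T, a1, a2, -⟩ := exists_gd hF hV (LinearMap.det x ^ (j + 1)) one_ne_zero one_ne_zero
    exact nonscalar_mem_cS hV hd s2 s1 a1 (gd_mem_cS hV hd' hx s2 s1 a1 a2) m1 m2
  have x1 : x ∈ cS x ^ 1 := by rw [pow_one]; exact SSim.refl x
  have real : ∀ k, finrank F V = k + k → (∃ T ∈ cS x ^ k, Gd T) → 1 ∈ cS x ^ (k + k) → Cov x :=
    fun k hk ⟨T, t1, t2⟩ h => cov_of_one (fun M m1 m2 => by
      rw [hk]; exact nonscalar_mem_cS hV hd t2.1 t1 t2 t1 m1 m2) (by rwa [hk]) (by omega)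
  rcases Nat.even_or_odd' (finrank F V - 3) with ⟨k, hk | hk⟩
  · rcases odd_main h4 k (by omega) x hd' hb with h | ⟨h, T, t1, t2⟩ | ⟨T, t1, t2⟩
    · rcases Nat.eq_zero_or_pos k with rfl | h0
      · have h3 : finrank F V = 3 := by omega
        exact cov_of_one (by rw [h3]; exact cyc x1 h) (by rw [h3]; exact one_mem_three hF h3 hd hx)
          (by omega)
      · exact all_of_nonscalar hV hd hx (cyc x1 h) (by omega)
    · exact all_of_nonscalar hV hd hx (cyc t1 t2) (by omega)
    · exact all_of_nonscalar hV hd hx (fun M m1 m2 => nonscalar_mem_cS hV hd t2.1 t1 t2 t1 m1 m2)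
        (by omega)
  by_cases c1 : finrank F V = 4 ∧ Quad x
  · obtain ⟨T, t1, t2, T', t3, t4⟩ := quad_cS hF c1.1 hb c1.2 hd
    exact real 2 c1.1 ⟨T, t1, t2⟩ (t4 ▸ mul_mem_pow_add t1 t3)
  by_cases c2 : ∀ a, x.charpoly.eval a ≠ 0
  · rcases Nat.eq_zero_or_pos k with rfl | h0
    · exact all_of_nonscalar hV hd hx (cyc x1 (cyc_four (by omega) (fun h => c1 ⟨by omega, h⟩) c2))
        (by omega)
    · obtain ⟨T, t1, t2⟩ := cyc_sq hF hd' (by
        rw [Multiset.eq_zero_of_forall_notMem fun a ha => c2 a (isRoot_of_mem_roots ha)]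
        simp)
      exact all_of_nonscalar hV hd hx (cyc t1 t2) (by omega)
  push Not at c2
  obtain ⟨ν, hν⟩ := c2
  obtain ⟨f, l, z, x', k1, s1, b1⟩ := peel_upper (by omega) (fun a b => c1 ⟨a, b⟩) hb hν
  have d1 := s1.det_eq
  rw [det_tri, det_smul_one, hd] at d1
  have d4 := right_ne_zero_of_mul_eq_one d1
  obtain ⟨S, t1, t2⟩ : ∃ S ∈ cG x' ^ (k + 1), Cyc S := by
    rcases odd_main h4 k (V := LinearMap.ker f) (by omega) x' d4 b1 with
      h | ⟨h, T, t1, t2⟩ | ⟨T, t1, t2⟩
    · exact cyc_mono hF (by omega) d4 b1.nonscalar (j := 1) (by rw [pow_one]; exact Sim.refl x') h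
        (by omega)
    · exact cyc_mono hF (by omega) d4 b1.nonscalar (cS_pow_subset t1) t2 (by omega)
    · exact ⟨T, cS_pow_subset t1, t2.1⟩
  obtain ⟨T, u1, u2, T', u3, u4⟩ := single hF (by omega) b1.nonscalar t2 t1 d1 z
  obtain ⟨T1, v1, v2⟩ := cS_transport s1 u1
  obtain ⟨T2, v3, v4⟩ := cS_transport s1 (u4 ▸ mul_mem_pow_add u1 u3)
  obtain rfl : T2 = 1 := by simpa using (v4.pow_eq_one_iff 1).1 (by simp)
  exact real (k + 1 + 1) (by omega) ⟨T1, v1, u2.of_sim v2⟩ v3

end

end Cfsg.Agent.H4
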