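import Mathlib

/-! The facts about involution centralizers `2^{1+4}:A₅` used for groups of `J₃` type. -/

set_option autoImplicit false

namespace Cfsg.Agent.H4.J3

open Subgroup

/-- local facts read off the centralizer of an involution -/
structure HF (G : Type*) [Group G] : Prop where
  one : ∀ x y : G, orderOf x = 2 → orderOf y = 2 → IsConj x y
  card : ∀ u : G, orderOf u = 2 → Nat.card (centralizer ({u} : Set G)) = 1920
  five : ∀ u w : G, orderOf u = 2 → orderOf w = 5 → Commute u w →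
    (∀ c, Commute c u → Commute c w → ∃ i : ℕ, c = w ^ i ∨ c = u * w ^ i) ∧
    (∃ s, s * s = 1 ∧ Commute s u ∧ s * w * s = w⁻¹) ∧ ∀ c, Commute c u → c * w * c⁻¹ ≠ w ^ 2
  three : ∀ u z : G, orderOf u = 2 → orderOf z = 3 → Commute u z →
    (∃ r s, Commute r z ∧ Commute s z ∧ r * r = u ∧ s * s = 1 ∧ s * r * s = r⁻¹ ∧
      ∀ c, Commute c u → Commute c z → ∃ j i : ℕ, c = z ^ j * r ^ i ∨ c = z ^ j * (s * r ^ i)) ∧
    (∃ g, Commute g u ∧ g * z * g⁻¹ = z⁻¹) ∧ (∀ g, g * g = u → g * z * g⁻¹ ≠ z⁻¹) ∧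
    ∀ y, orderOf y = 3 → Commute u y → IsConj z y
  n16 : ∀ g : G, orderOf g ≠ 16
  e16 : ∃ (t : G) (F : Subgroup G) (z : G), orderOf t = 2 ∧ t ∈ F ∧ Nat.card F = 16 ∧
    (∀ f ∈ F, f * f = 1) ∧ centralizer (F : Set G) = F ∧
    (∀ u ∈ F, u ≠ 1 → ∃ m ∈ normalizer (F : Set G), m * u * m⁻¹ = t) ∧
    Nat.card ↥(normalizer (F : Set G) ⊓ centralizer ({t} : Set G)) = 192 ∧
    orderOf z = 3 ∧ z ∈ normalizer (F : Set G) ∧ Commute z t

end Cfsg.Agent.H4.J3
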