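import Cfsg.Agent.H4.J3A

/-! Groups all of whose involution centralizers are dihedral of order eight. -/

set_option autoImplicit false
set_option linter.unusedSectionVars false

namespace Cfsg.Agent.H4.J3

open Cfsg Cfsg.Agent.H1 Cfsg.Agent.H3.NQ Subgroup Finset

theorem formulaZ {C G : Type*} [Group C] [Fintype C] [DecidableEq C] [Group G] [Fintype G] {N : ℕ}
    [NeZero N] (φ : C →* G) (f : C →* Multiplicative (ZMod N)) (s : G) (σ : C → C)
    (inj : Function.Injective φ) (cnj : ∀ c, φ (σ c) = s * φ c * s⁻¹) (out : ∀ c, φ c ≠ s)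
    (inv : ∀ c, f (σ c) * f c = 1)
    (ti : ∀ c d x, f c ≠ 1 → x * φ c * x⁻¹ = φ d → ∃ a, x = φ a ∨ x = s * φ a)
    (ss : s * s = 1) {t : G} (ht : ∀ u, IsConj t u ↔ u * u = 1 ∧ u ≠ 1)
    (hi : ∀ u v : C, u * u = 1 → v * v = 1 → u ≠ 1 → v ≠ 1 → f (u * v) = 1)
    (w : C) (hw : f w ^ 2 ≠ 1) (hJ : ∀ c, σ (c * w) * (c * w) = 1 ↔ σ c * c = 1) (c : C)
    (hc : φ c = t) (k : ℤ) (hk : f c = 1 ∧ k = 0 ∨ f c ≠ 1 ∧ f c * f c = 1 ∧ k = 4) :
    ∃ (χ ψ : IrrCharacter G) (x : ℤ), dg ψ = dg χ + 1 ∧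
      1 + x ^ 2 + (1 + x - k) ^ 2 ≤ Nat.card (centralizer ({t} : Set G)) ∧
      (Nat.card C : ℤ) * Nat.card G * (dg χ * (dg χ + 1) + x ^ 2 * (dg χ + 1) - (1 + x - k) ^ 2 * dg χ) =
        (Nat.card (centralizer ({t} : Set G)) * (univ.filter fun c => σ c * c = 1).card) ^ 2 *
          (dg χ * (dg χ + 1)) := by
  obtain ⟨l, hl⟩ : ∃ l : Multiplicative (ZMod N) →* ℂ, ∀ x, l x = 1 ↔ x = 1 :=
    ⟨(ZMod.stdAddChar (N := N)).toMonoidHom, fun x => ⟨fun h =>
      ZMod.injective_stdAddChar (a₁ := x.toAdd) (a₂ := 0) (h.trans (AddChar.map_zero_eq_one _).symm),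
      fun h => by simp [h]⟩⟩
  have T : TI φ (l.comp f) s σ := ⟨inj, cnj, out, fun c => by
    simp only [MonoidHom.comp_apply, ← map_mul l, inv, map_one], fun c d x h =>
      ti c d x fun e => h (by simp [e])⟩
  obtain ⟨χ, ψ, x, y, h1, h2, h3, h4⟩ := T.formula ss ht (fun u v a b c d => by
    rw [MonoidHom.comp_apply, hi u v a b c d, map_one]) (w := w) (by
      rwa [MonoidHom.comp_apply, ← map_pow, Ne, hl]) hJ c hc
  obtain rfl : y = 1 + x - k := by
    rw [MonoidHom.comp_apply] at h2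
    rcases hk with ⟨e, rfl⟩ | ⟨e1, e2, rfl⟩
    · rw [e, map_one] at h2
      have : ((1 + x - y : ℤ) : ℂ) = (0 : ℤ) := by rw [h2]; norm_num
      have := Int.cast_injective this
      omega
    · have e3 : l (f c) = -1 := (mul_self_eq_one_iff.1 (by rw [← map_mul, e2, map_one])).resolve_left
        fun e => e1 ((hl _).1 e)
      rw [e3] at h2
      have : ((1 + x - y : ℤ) : ℂ) = (4 : ℤ) := by rw [h2]; norm_num
      have := Int.cast_injective this
      omega
  exact ⟨χ, ψ, x, h1, h3, h4⟩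

variable {G : Type*} [Group G]

/-- the cyclic group generated by `x` -/
def cyc {n : ℕ} [NeZero n] (x : G) (h : x ^ n = 1) : Multiplicative (ZMod n) →* G :=
  MonoidHom.mk' (fun i => x ^ i.toAdd.val) fun i j => by
    rw [toAdd_mul, ZMod.val_add, ← pow_add]
    conv_rhs => rw [← Nat.div_add_mod (_ + _) n, pow_add, pow_mul, h, one_pow, one_mul]

theorem cyc_nat {n : ℕ} [NeZero n] (x : G) (h : x ^ n = 1) (k : ℕ) :
    cyc x h (Multiplicative.ofAdd (k : ZMod n)) = x ^ k := by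
  show x ^ (k : ZMod n).val = _
  rw [ZMod.val_natCast]
  conv_rhs => rw [← Nat.div_add_mod k n, pow_add, pow_mul, h, one_pow, one_mul]

theorem cyc_inj {n : ℕ} [NeZero n] (x : G) (h : x ^ n = 1) (ho : orderOf x = n) :
    Function.Injective (cyc x h) := fun i j e =>
  ZMod.val_injective n (pow_injOn_Iio_orderOf ((ZMod.val_lt i.toAdd).trans_eq ho.symm)
    ((ZMod.val_lt j.toAdd).trans_eq ho.symm) e)

theorem inv_pow_of {s r : G} (hs : s * s = 1) (hrs : s * r * s = r⁻¹) (i : ℕ) :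
    s * r ^ i = (r ^ i)⁻¹ * s := by
  have := conj_pow (a := s) (b := r) (i := i)
  rw [inv_eq_of_mul_eq_one_left hs, hrs, inv_pow] at this
  rw [this, mul_assoc, hs, mul_one]

theorem cyc_inv {n : ℕ} [NeZero n] {r s : G} (h : r ^ n = 1) (hs : s * s = 1) (hrs : s * r * s = r⁻¹)
    (i : Multiplicative (ZMod n)) : s * cyc r h i = cyc r h i⁻¹ * s := by
  rw [map_inv]; exact inv_pow_of hs hrs _

/-- the dihedral group generated by `r` and `s` -/
def dih {n : ℕ} [NeZero n] (r s : G) (h : r ^ n = 1) (hs : s * s = 1) (hrs : s * r * s = r⁻¹) :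
    DihedralGroup n →* G :=
  MonoidHom.mk' (fun x => match x with
    | .r i => cyc r h (Multiplicative.ofAdd i)
    | .sr i => s * cyc r h (Multiplicative.ofAdd i)) (by
      have e : ∀ i x, cyc r h i * (s * x) = s * (cyc r h i⁻¹ * x) := fun i x => by
        rw [← mul_assoc s, cyc_inv h hs hrs, inv_inv, mul_assoc]
      rintro (i | i) (j | j) <;>
        simp only [DihedralGroup.r_mul_r, DihedralGroup.r_mul_sr, DihedralGroup.sr_mul_r,
          DihedralGroup.sr_mul_sr, mul_assoc, e, ← map_mul]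
      · rfl
      · rw [sub_eq_neg_add]; rfl
      · rfl
      · rw [← mul_assoc, hs, one_mul, sub_eq_neg_add]; rfl)

theorem dih_r {n : ℕ} [NeZero n] {r s : G} (h : r ^ n = 1) (hs : s * s = 1) (hrs : s * r * s = r⁻¹)
    (k : ℕ) : dih r s h hs hrs (.r k) = r ^ k := cyc_nat r h k

theorem dih_sr {n : ℕ} [NeZero n] {r s : G} (h : r ^ n = 1) (hs : s * s = 1) (hrs : s * r * s = r⁻¹)
    (k : ℕ) : dih r s h hs hrs (.sr k) = s * r ^ k := congrArg (s * ·) (cyc_nat r h k)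

theorem ne_pow_of {s r : G} (hs : s * s = 1) (hrs : s * r * s = r⁻¹) (h2 : r * r ≠ 1) (i : ℕ) :
    r ^ i ≠ s := by
  rintro rfl
  rw [← (Commute.self_pow r i).eq, mul_assoc, hs, mul_one] at hrs
  exact h2 (mul_eq_one_iff_eq_inv.2 hrs)

theorem dih_inj {n : ℕ} [NeZero n] {r s : G} (h : r ^ n = 1) (hs : s * s = 1) (hrs : s * r * s = r⁻¹)
    (ho : orderOf r = n) (h2 : r * r ≠ 1) : Function.Injective (dih r s h hs hrs) := by
  rw [injective_iff_map_eq_one]
  rintro (i | i) e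
  · have : Multiplicative.ofAdd i = 1 := cyc_inj r h ho (e.trans (map_one _).symm)
    exact congrArg DihedralGroup.r this
  · exact absurd ((eq_inv_of_mul_eq_one_right e).trans (inv_eq_of_mul_eq_one_left hs))
      (ne_pow_of hs hrs h2 _)

theorem conj_into [Finite G] {p : ℕ} [Fact p.Prime] {P : Subgroup G} (hP : IsPGroup p P) {N : Subgroup G}
    (hN : ¬ p ∣ N.index) : ∃ g, ∀ x ∈ P, g * x * g⁻¹ ∈ N := by
  obtain ⟨x, hx⟩ := hP.nonempty_fixed_point_of_prime_not_dvd_card (G ⧸ N) hN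
  obtain ⟨t, rfl⟩ := QuotientGroup.mk_surjective x
  refine ⟨t⁻¹, fun y hy => ?_⟩
  have := QuotientGroup.eq.1 (hx ⟨y⁻¹, inv_mem hy⟩)
  simpa [Subgroup.smul_def, mul_assoc] using this

theorem pg_zpowers {p k : ℕ} {y : G} (h : y ^ p ^ k = 1) : IsPGroup p (zpowers y) := by
  rintro ⟨_, n, rfl⟩
  refine ⟨k, Subtype.ext ?_⟩
  change (y ^ n) ^ p ^ k = 1
  rw [← zpow_natCast, ← zpow_mul, mul_comm, zpow_mul, zpow_natCast, h, one_zpow]

theorem exists_central [Finite G] {p : ℕ} [hp : Fact p.Prime] (h : p ∣ Nat.card G) :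
    ∃ u : G, orderOf u = p ∧ ¬ p ∣ (centralizer ({u} : Set G)).index := by
  obtain ⟨P⟩ : Nonempty (Sylow p G) := inferInstance
  have h1 : Nontrivial P := (P : Subgroup G).nontrivial_iff_ne_bot.2 (P.ne_bot_of_dvd_card h)
  have h2 := P.isPGroup'.center_nontrivial
  obtain ⟨k, hk⟩ := (P.isPGroup'.to_subgroup (center P)).exists_card_eq
  obtain ⟨u, hu⟩ := exists_prime_orderOf_dvd_card' (G := center P) p (by
    rw [hk]
    refine dvd_pow_self p fun e => ?_
    rw [e, pow_zero] at hk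
    exact absurd hk Finite.one_lt_card.ne')
  refine ⟨u, by rw [orderOf_coe, orderOf_coe, hu], fun e => P.not_dvd_index (e.trans (index_dvd_of_le
    fun x hx => mem_centralizer_singleton_iff.2 ?_))⟩
  exact congrArg Subtype.val (mem_center_iff.1 u.2 ⟨x, hx⟩)

theorem ord2 {u : G} : orderOf u = 2 ↔ u * u = 1 ∧ u ≠ 1 :=
  ⟨fun h => ⟨by rw [← sq, ← h, pow_orderOf_eq_one], fun e => by simp [e] at h⟩,
    fun h => orderOf_eq_prime (by rw [sq, h.1]) h.2⟩

theorem d8_num {m d x : ℤ} (hm : Odd m) (hd : 0 < d) (h1 : 1 + x ^ 2 + (1 + x - 4) ^ 2 ≤ 8)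
    (h2 : 4 * (m * 8) * (d * (d + 1) + x ^ 2 * (d + 1) - (1 + x - 4) ^ 2 * d) =
      (8 * 4) ^ 2 * (d * (d + 1))) : m = 21 ∨ m = 45 := by
  have : 0 < x ∧ x < 3 := by constructor <;> nlinarith
  obtain ⟨k, rfl⟩ := hm
  obtain rfl | rfl : x = 1 ∨ x = 2 := by omega
  · obtain ⟨e, rfl⟩ : ∃ e, d = e + 1 := ⟨d - 1, by ring⟩
    have h3 : (2 * k + 1) * e ^ 2 = 32 * (e + 1) * (e + 2) := by linarith
    have h4 : e ∣ 64 := ⟨(2 * k + 1) * e - 32 * e - 96, by linarith⟩
    have h5 := Int.le_of_dvd (by norm_num) h4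
    have : 0 ≤ e := by omega
    interval_cases e <;> omega
  · obtain ⟨e, rfl⟩ : ∃ e, d = e - 2 := ⟨d + 2, by ring⟩
    have h3 : (2 * k + 1) * e ^ 2 = 32 * (e - 1) * (e - 2) := by linarith
    have h4 : e ∣ 64 := ⟨(2 * k + 1) * e - 32 * e + 96, by linarith⟩
    have h5 := Int.le_of_dvd (by norm_num) h4
    have : 2 < e := by omega
    interval_cases e <;> omega

theorem d8 [Finite G] (h : ∀ u : G, orderOf u = 2 → ∃ r s : G, r * r = u ∧ s * s = 1 ∧ s * r * s = r⁻¹ ∧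
    ∀ c, Commute c u → ∃ i : ℕ, c = r ^ i ∨ c = s * r ^ i) (h2 : 2 ∣ Nat.card G) :
    Nat.card G = 168 ∨ Nat.card G = 360 := by
  classical
  have := Fintype.ofFinite G
  obtain ⟨u, u1, u2⟩ := exists_central h2
  obtain ⟨r, s, rr, ss, sr, hc⟩ := h u u1
  obtain ⟨uu, u0⟩ := ord2.1 u1
  have r4 : r ^ 4 = 1 := by rw [← uu, ← rr]; simp [pow_succ, mul_assoc]
  have ro : orderOf r = 4 := orderOf_eq_prime_pow (p := 2) (n := 1) (by rwa [pow_one, sq, rr]) r4
  have sq' : ∀ c, Commute c u → c * c = 1 ∨ c * c = u := fun c h => by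
    obtain ⟨i, rfl | rfl⟩ := hc c h
    · rw [← (Commute.refl r).mul_pow, rr]
      rcases Nat.even_or_odd' i with ⟨j, rfl | rfl⟩ <;> simp [pow_succ, pow_mul, uu]
    · left
      nth_rw 2 [inv_pow_of ss sr]
      rw [mul_assoc, mul_inv_cancel_left, ss]
  have ht : ∀ v, IsConj u v ↔ v * v = 1 ∧ v ≠ 1 := fun v => ⟨fun e => ord2.1 (by
    obtain ⟨c, rfl⟩ := isConj_iff.1 e
    rw [← u1]; exact (MulAut.conj c).orderOf_eq u), fun e => by
      obtain ⟨r', -, rr', -⟩ := h v (ord2.2 e)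
      obtain ⟨g, hg⟩ := conj_into (pg_zpowers (y := r') (p := 2) (k := 2) (by
        rw [← e.1, ← rr']; simp [pow_succ, mul_assoc])) u2
      have := sq' _ (mem_centralizer_singleton_iff.1 (hg r' (mem_zpowers r')))
      rw [conj_mul, rr'] at this
      exact (isConj_iff.2 ⟨g, this.resolve_left (by simpa using e.2)⟩).symm⟩
  have su : s * u = u * s := by
    rw [← rr, ← sq, inv_pow_of ss sr, sq, rr, inv_eq_of_mul_eq_one_left uu]
  have c8 : Nat.card (centralizer ({u} : Set G)) = 8 := by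
    rw [show centralizer ({u} : Set G) = (dih r s r4 ss sr).range from le_antisymm (fun c hx => by
      obtain ⟨i, rfl | rfl⟩ := hc c (mem_centralizer_singleton_iff.1 hx)
      exacts [⟨_, dih_r r4 ss sr i⟩, ⟨_, dih_sr r4 ss sr i⟩]) (by
        have hr : r ∈ centralizer ({u} : Set G) := mem_centralizer_singleton_iff.2 (by
          rw [← rr, mul_assoc])
        rintro _ ⟨i | i, rfl⟩
        exacts [pow_mem hr _, mul_mem (mem_centralizer_singleton_iff.2 su) (pow_mem hr _)]),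
      ← Nat.card_congr (MonoidHom.ofInjective (dih_inj r4 ss sr ro (rr ▸ u0))).toEquiv,
      DihedralGroup.nat_card]
  have cu : cyc r r4 (Multiplicative.ofAdd 2) = u := (cyc_nat r r4 2).trans (by rw [sq, rr])
  have ci := cyc_inj r r4 ro
  obtain ⟨χ, ψ, x, -, a2, a3⟩ := formulaZ (cyc r r4) (MonoidHom.id _) s (·⁻¹) ci
    (fun c => by rw [cyc_inv r4 ss sr, mul_inv_cancel_right]) (fun c => ne_pow_of ss sr (rr ▸ u0) _)
    (fun c => inv_mul_cancel c) (fun c d x h1 h2 => by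
      have : Commute x u := by
        obtain ⟨k, -, k1⟩ : ∃ k : ℕ, k < 4 ∧ c ^ k = Multiplicative.ofAdd 2 := by
          clear h2
          revert c
          decide
        have h3 : x * u * x⁻¹ = cyc r r4 (d ^ k) := by rw [← cu, ← k1, map_pow, map_pow, ← h2, conj_pow]
        have h4 := (ht _).1 (isConj_iff.2 ⟨x, h3⟩)
        rw [← map_mul, Ne, map_eq_one_iff _ ci, map_eq_one_iff _ ci] at h4
        rw [show d ^ k = Multiplicative.ofAdd 2 by
          revert h4; generalize d ^ k = e; revert e; decide, cu] at h3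
        exact mul_inv_eq_iff_eq_mul.1 h3
      obtain ⟨i, rfl | rfl⟩ := hc x this
      exacts [⟨_, Or.inl (cyc_nat r r4 i).symm⟩, ⟨_, Or.inr (by rw [cyc_nat r r4 i])⟩])
    ss ht (by decide) (Multiplicative.ofAdd 1) (by decide) (by decide) _ cu 4 (by decide)
  obtain ⟨m, hm⟩ : ∃ m, m = (centralizer ({u} : Set G)).index := ⟨_, rfl⟩
  have e : Nat.card G = m * 8 := by rw [hm, ← c8, index_mul_card]
  rw [c8, e] at a3
  rw [c8] at a2
  rw [show Nat.card (Multiplicative (ZMod 4)) = 4 by simp, show #(univ.filter fun c :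
    Multiplicative (ZMod 4) => c⁻¹ * c = 1) = 4 by decide] at a3
  have := d8_num (m := m) (d := dg χ) (by
    rw [Int.odd_coe_nat, ← Nat.not_even_iff_odd, even_iff_two_dvd, hm]; exact u2)
    (by exact_mod_cast dg_pos χ) (by exact_mod_cast a2) (by exact_mod_cast a3)
  omega

end Cfsg.Agent.H4.J3
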