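import Cfsg.Agent.H4.J3C
import Cfsg.Agent.H4.J3B

/-! Sylow lemmas and an element of order three centralized by elements of orders two and five. -/

set_option autoImplicit false
set_option linter.unusedSectionVars false

namespace Cfsg.Agent.H4.J3

open Subgroup

variable {G : Type*} [Group G] [Finite G]

theorem card_cent_sub (D : Subgroup G) (x : D) :
    Nat.card (centralizer ({x} : Set D)) = Nat.card ↥(D ⊓ centralizer ({(x : G)} : Set G)) := by
  rw [← Nat.card_congr (subgroupOfEquivOfLe (inf_le_left : D ⊓ centralizer {(x : G)} ≤ D)).toEquiv,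
    inf_subgroupOf_left]
  congr 3
  ext y
  simp only [mem_centralizer_singleton_iff, mem_subgroupOf, Subtype.ext_iff, coe_mul]

theorem card_orb (M : Subgroup G) (t : G) : Nat.card M =
    {x | ∃ m ∈ M, m * t * m⁻¹ = x}.ncard * Nat.card ↥(M ⊓ centralizer ({t} : Set G)) := by
  let _ := MulAction.compHom G ((MulAut.conj : G →* MulAut G).comp M.subtype)
  rw [← Nat.card_congr (subgroupOfEquivOfLe (inf_le_left : M ⊓ centralizer {t} ≤ M)).toEquiv,
    inf_subgroupOf_left, ← (MulAction.stabilizer M t).index_mul_card, MulAction.index_stabilizer]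
  congr 2
  · ext x
    exact ⟨fun ⟨m, h⟩ => ⟨m, m.2, h⟩, fun ⟨m, h1, h⟩ => ⟨⟨m, h1⟩, h⟩⟩
  · congr 1
    ext m
    rw [mem_subgroupOf, mem_centralizer_singleton_iff, ← mul_inv_eq_iff_eq_mul]
    rfl

theorem cent_zpowers (w : G) : centralizer (zpowers w : Set G) = centralizer {w} := by
  rw [zpowers_eq_closure, centralizer_closure]

theorem card_fix {p : ℕ} [Fact p.Prime] (Q : Subgroup G) {x : G} (hx : x ^ p = 1)
    (hn : x ∈ normalizer (Q : Set G)) :
    Nat.card Q ≡ Nat.card ↥(Q ⊓ centralizer ({x} : Set G)) [MOD p] := by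
  let _ := MulAction.compHom Q (Q.normalizerMonoidHom.comp (inclusion (zpowers_le.2 hn)))
  have := (pg_zpowers (y := x) (p := p) (k := 1) (by simpa using hx)).card_modEq_card_fixedPoints Q
  rw [← Nat.card_congr (subgroupOfEquivOfLe (inf_le_left : Q ⊓ centralizer {x} ≤ Q)).toEquiv,
    inf_subgroupOf_left]
  rw [show MulAction.fixedPoints (zpowers x) Q = ((centralizer {x}).subgroupOf Q : Set Q) from
    Set.ext fun q => Iff.symm ?_] at this
  · exact this
  rw [← cent_zpowers]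
  refine ⟨fun h y => Subtype.ext (mul_inv_eq_iff_eq_mul.2 (h y y.2)), fun h y hy => ?_⟩
  exact mul_inv_eq_iff_eq_mul.1 (congrArg Subtype.val (h ⟨y, hy⟩))

theorem syl_prime {p : ℕ} [hp : Fact p.Prime] {w : G} (hw : orderOf w = p) (h2 : ¬ p ^ 2 ∣ Nat.card G) :
    ∃ n e, n * Nat.card (normalizer (zpowers w : Set G)) = Nat.card G ∧ n ≡ 1 [MOD p] ∧
      Nat.card (normalizer (zpowers w : Set G)) = e * Nat.card (centralizer ({w} : Set G)) ∧
      e ∣ p - 1 ∧ (∀ y : G, y ^ p = 1 → ∃ g, g * y * g⁻¹ ∈ zpowers w) ∧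
      (e = 1 → ∃ K : Subgroup G, K.Normal ∧ K.index = p) := by
  have c1 : Nat.card (zpowers w) = p := by rw [Nat.card_zpowers, hw]
  have i1 : ¬ p ∣ (zpowers w).index := fun e => h2 (by
    rw [← (zpowers w).index_mul_card, c1, sq]; exact Nat.mul_dvd_mul_right e p)
  let P : Sylow p G := (IsPGroup.of_card (n := 1) (by rw [c1, pow_one])).toSylow i1
  have hle : centralizer (zpowers w : Set G) ≤ normalizer (zpowers w : Set G) := centralizer_le_normalizer _
  have e1 : Nat.card (normalizer (zpowers w : Set G)) =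
      (zpowers w).normalizerMonoidHom.ker.index * Nat.card (centralizer ({w} : Set G)) := by
    rw [← cent_zpowers, ← Nat.card_congr (subgroupOfEquivOfLe hle).toEquiv, ← normalizerMonoidHom_ker,
      index_mul_card]
  refine ⟨_, _, index_mul_card _, ?_, e1, ?_, fun y hy => ?_, fun e => ?_⟩
  · exact (show Nat.card (Sylow p G) = (normalizer (zpowers w : Set G)).index from
      P.card_eq_index_normalizer) ▸ card_sylow_modEq_one p G
  · rw [index_ker, ← Nat.totient_prime hp.out, ← c1, ← IsCyclic.card_mulAut]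
    exact card_subgroup_dvd_card _
  · obtain ⟨g, hg⟩ := conj_into (pg_zpowers (y := y) (p := p) (k := 1) (by simpa using hy)) i1
    exact ⟨g, hg y (mem_zpowers y)⟩
  · have hP : normalizer (P : Set G) ≤ centralizer (P : Set G) := by
      rw [e, one_mul, ← cent_zpowers] at e1
      exact (eq_of_le_of_card_ge hle e1.le).ge
    exact ⟨_, inferInstance, (MonoidHom.ker_transferSylow_isComplement' P hP).symm.index_eq_card.trans c1⟩

instance f2 : Fact (Nat.Prime 2) := ⟨by norm_num⟩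
instance f3 : Fact (Nat.Prime 3) := ⟨by norm_num⟩
instance f5 : Fact (Nat.Prime 5) := ⟨by norm_num⟩

theorem exists_ord {p : ℕ} [Fact p.Prime] (D : Subgroup G) (h : p ∣ Nat.card D) :
    ∃ x ∈ D, orderOf x = p := by
  obtain ⟨x, hx⟩ := exists_prime_orderOf_dvd_card' (G := D) p h
  exact ⟨x, x.2, by rw [orderOf_coe, hx]⟩

theorem ord15 (hc : Nat.card G = 2880)
    (h4 : ∀ w : G, orderOf w = 5 → ¬ 4 ∣ Nat.card (centralizer ({w} : Set G))) :
    ∃ w z : G, orderOf w = 5 ∧ orderOf z = 3 ∧ Commute z w := by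
  by_contra hn
  have h3 : ∀ w : G, orderOf w = 5 → ¬ 3 ∣ Nat.card (centralizer ({w} : Set G)) := fun w hw e => by
    obtain ⟨z, z1, z2⟩ := exists_ord _ e
    exact hn ⟨w, z, hw, z2, mem_centralizer_singleton_iff.1 z1⟩
  obtain ⟨w, hw⟩ := exists_prime_orderOf_dvd_card' (G := G) 5 (by norm_num [hc])
  obtain ⟨n, e, s1, s2, s3, s4, -, s5⟩ := syl_prime hw (by norm_num [hc])
  have c1 := (centralizer ({w} : Set G)).orderOf_dvd_natCard (mem_centralizer_singleton_iff.2 rfl)
  have c2 := h3 w hw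
  have c3 := h4 w hw
  have c4 := card_subgroup_dvd_card (centralizer ({w} : Set G))
  rw [s3, hc] at s1
  rw [hc] at c4
  rw [hw] at c1
  generalize Nat.card (centralizer ({w} : Set G)) = c at *
  have c5 : c = 5 ∨ c = 10 := by
    have : c ∈ Nat.divisors 2880 := Nat.mem_divisors.2 ⟨c4, by norm_num⟩
    exact (by decide +kernel : ∀ c ∈ Nat.divisors 2880, 5 ∣ c → ¬ 3 ∣ c → ¬ 4 ∣ c → c = 5 ∨ c = 10)
      c this c1 c2 c3
  have c6 := Nat.le_of_dvd (by norm_num) s4
  obtain ⟨K, k1, k2⟩ := s5 (by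
    unfold Nat.ModEq at s2
    rcases c5 with rfl | rfl <;> interval_cases e <;> omega)
  obtain ⟨Q⟩ : Nonempty (Sylow 3 K) := inferInstance
  have q1 : Nat.card ((Q : Subgroup K).map K.subtype) = 9 := by
    have := K.index_mul_card
    rw [k2, hc] at this
    rw [card_map_of_injective K.subtype_injective, Q.card_eq_multiplicity,
      show Nat.card K = 576 by omega]
    decide +kernel
  have q2 := relIndex_sup_right (normalizer ((Q : Subgroup K).map K.subtype : Set G)) K
  rw [Q.normalizer_sup_eq_top, relIndex_top_right, k2] at q2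
  obtain ⟨x, x1, x2⟩ := exists_ord _ (q2 ▸ relIndex_dvd_card K _)
  have q3 := card_fix _ (x2 ▸ pow_orderOf_eq_one x : x ^ 5 = 1) x1
  have q4 := card_dvd_of_le (inf_le_left : (Q : Subgroup K).map K.subtype ⊓ centralizer {x} ≤ _)
  rw [q1] at q3 q4
  refine h3 x x2 (Dvd.dvd.trans ?_ (card_dvd_of_le (inf_le_right :
    (Q : Subgroup K).map K.subtype ⊓ centralizer {x} ≤ _)))
  generalize Nat.card ↥((Q : Subgroup K).map K.subtype ⊓ centralizer {x}) = a at *
  have := Nat.le_of_dvd (by norm_num) q4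
  unfold Nat.ModEq at q3
  interval_cases a <;> omega

theorem three_five_two (hc : Nat.card G = 2880)
    (h4 : ∀ w : G, orderOf w = 5 → ¬ 4 ∣ Nat.card (centralizer ({w} : Set G))) {z t : G}
    (z3 : orderOf z = 3) (t2 : orderOf t = 2) (zt : Commute z t) :
    ∃ z w u : G, orderOf z = 3 ∧ orderOf w = 5 ∧ orderOf u = 2 ∧ Commute z w ∧ Commute u z := by
  obtain ⟨w, y, w5, y3, yw⟩ := ord15 hc h4
  by_cases h2 : 2 ∣ Nat.card (centralizer ({y} : Set G))
  · obtain ⟨u, u1, u2⟩ := exists_ord _ h2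
    exact ⟨y, w, u, y3, w5, u2, yw, mem_centralizer_singleton_iff.1 u1⟩
  obtain ⟨D, hD⟩ : ∃ D, D = centralizer ({y} : Set G) := ⟨_, rfl⟩
  have wD : w ∈ D := hD ▸ mem_centralizer_singleton_iff.2 yw.symm
  have c1 := D.orderOf_dvd_natCard wD
  obtain ⟨Q, hQ⟩ := (pg_zpowers (y := y) (p := 3) (k := 1) (y3 ▸ by simp)).exists_le_sylow
  have q1 : Nat.card Q = 3 ^ 2 := by
    rw [Q.card_eq_multiplicity, hc]
    decide +kernel
  have q2 : (Q : Subgroup G) ≤ D := fun x hx => hD ▸ mem_centralizer_singleton_iff.2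
    (congrArg Subtype.val ((IsPGroup.isMulCommutative_of_card_eq_prime_sq q1).1.1 ⟨x, hx⟩
      ⟨y, hQ (mem_zpowers y)⟩))
  have c2 := q1 ▸ card_dvd_of_le q2
  have c3 := hc ▸ card_subgroup_dvd_card D
  have c4 : Nat.card D = 45 := by
    rw [← hD] at h2
    rw [w5] at c1
    generalize Nat.card D = c at *
    have : c ∈ Nat.divisors 2880 := Nat.mem_divisors.2 ⟨c3, by norm_num⟩
    exact (by decide +kernel : ∀ c ∈ Nat.divisors 2880, 5 ∣ c → 3 ^ 2 ∣ c → ¬ 2 ∣ c → c = 45)
      c this c1 c2 h2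
  obtain ⟨n, e, s1, s2, s3, s4, -⟩ := syl_prime (G := D) (p := 5) (w := ⟨w, wD⟩)
    (by rw [← orderOf_coe, w5]) (by norm_num [c4])
  have c5 : Nat.card (centralizer ({⟨w, wD⟩} : Set D)) = Nat.card D := by
    have a1 := (centralizer ({⟨w, wD⟩} : Set D)).orderOf_dvd_natCard (mem_centralizer_singleton_iff.2 rfl)
    rw [← orderOf_coe, w5] at a1
    rw [s3, c4] at s1
    rw [c4]
    obtain ⟨k, hk⟩ := a1
    rw [hk] at s1 ⊢
    have a2 : n * e * k = 9 := by linarith
    have a3 := Nat.le_of_dvd (by norm_num) s4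
    have a4 : n ≤ 9 := Nat.le_of_dvd (by norm_num) ⟨e * k, by rw [← a2, mul_assoc]⟩
    unfold Nat.ModEq at s2
    interval_cases n <;> interval_cases e <;> omega
  obtain ⟨g, hg⟩ := conj_into (pg_zpowers (y := z) (p := 3) (k := 1) (z3 ▸ by simp)) (N := D)
    fun e => Q.not_dvd_index (e.trans (index_dvd_of_le q2))
  have a1 : (⟨_, hg z (mem_zpowers z)⟩ : D) ∈ centralizer ({⟨w, wD⟩} : Set D) := by
    rw [eq_top_of_card_eq _ c5]; trivial
  exact ⟨g * z * g⁻¹, w, g * t * g⁻¹, z3 ▸ (MulAut.conj g).orderOf_eq z, w5,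
    t2 ▸ (MulAut.conj g).orderOf_eq t, congrArg Subtype.val (mem_centralizer_singleton_iff.1 a1),
    (zt.symm.map (MulAut.conj g))⟩

namespace HF

variable (H : HF G)
include H

theorem card10 {u w : G} (hu : orderOf u = 2) (hw : orderOf w = 5) (h : Commute u w) :
    Nat.card ↥(centralizer ({w} : Set G) ⊓ centralizer {u}) = 10 := by
  have e : orderOf (u * w) = 10 := by
    rw [h.orderOf_mul_eq_mul_orderOf_of_coprime (by norm_num [hu, hw]), hu, hw]
  have u2 : u ^ 2 = 1 := hu ▸ pow_orderOf_eq_one u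
  have w5 : w ^ 5 = 1 := hw ▸ pow_orderOf_eq_one w
  rw [← e, ← Nat.card_zpowers]
  congr 3
  refine le_antisymm (fun c hc => ?_) (zpowers_le.2 ⟨mem_centralizer_singleton_iff.2
    (h.mul_left rfl), mem_centralizer_singleton_iff.2 ((Commute.refl u).mul_left h.symm)⟩)
  have a1 : w ∈ zpowers (u * w) := by
    have : (u * w) ^ 6 = w := by
      rw [h.mul_pow, show 6 = 2 * 3 from rfl, pow_mul, u2, pow_succ _ 5, w5]; simp
    exact ⟨(6 : ℕ), (zpow_natCast _ _).trans this⟩
  have a2 : u ∈ zpowers (u * w) := by simpa using mul_mem (mem_zpowers (u * w)) (inv_mem a1)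
  obtain ⟨i, rfl | rfl⟩ := (H.five u w hu hw h).1 c (mem_centralizer_singleton_iff.1 hc.2)
    (mem_centralizer_singleton_iff.1 hc.1)
  exacts [pow_mem a1 i, mul_mem a2 (pow_mem a1 i)]

theorem not4 {w : G} (hw : orderOf w = 5) : ¬ 4 ∣ Nat.card (centralizer ({w} : Set G)) := fun e => by
  obtain ⟨u, u1, u2⟩ := exists_central (G := centralizer ({w} : Set G)) (p := 2) (Dvd.dvd.trans (by norm_num) e)
  rw [← (centralizer ({u} : Set (centralizer ({w} : Set G)))).index_mul_card, card_cent_sub,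
    H.card10 (by rw [orderOf_coe, u1]) hw (mem_centralizer_singleton_iff.1 u.2)] at e
  omega

theorem step1 : ∃ z w u : G, orderOf z = 3 ∧ orderOf w = 5 ∧ orderOf u = 2 ∧ Commute z w ∧ Commute u z := by
  obtain ⟨t, F, z, t2, tF, cF, -, h1, h2, h3, z3, zN, zt⟩ := H.e16
  have hc := card_orb (normalizer (F : Set G)) t
  rw [h3, show {x | ∃ m ∈ normalizer (F : Set G), m * t * m⁻¹ = x} = (F : Set G) \ {1} from
    Set.ext fun x => ⟨fun ⟨m, m1, m2⟩ => ⟨m2 ▸ (mem_normalizer_iff.1 m1 t).1 tF, fun e =>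
      (ord2.1 t2).2 (by simpa [← m2] using e)⟩, fun hx => by
        obtain ⟨m, m1, m2⟩ := h2 x hx.1 hx.2
        exact ⟨m⁻¹, inv_mem m1, by simp [← m2, mul_assoc]⟩⟩,
    Set.ncard_sdiff_singleton_of_mem F.one_mem, ← Nat.card_coe_set_eq, SetLike.coe_sort_coe, cF] at hc
  obtain ⟨z, w, u, a1, a2, a3, a4, a5⟩ := three_five_two (G := normalizer (F : Set G)) hc
    (fun w hw e => H.not4 (w := w) (by rw [orderOf_coe, hw])
      (e.trans (card_cent_sub _ w ▸ card_dvd_of_le inf_le_right)))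
    (z := ⟨z, zN⟩) (t := ⟨t, le_normalizer tF⟩) (by rw [← orderOf_coe, z3]) (by rw [← orderOf_coe, t2])
    (Subtype.ext zt)
  exact ⟨z, w, u, by rw [orderOf_coe, a1], by rw [orderOf_coe, a2], by rw [orderOf_coe, a3],
    congrArg Subtype.val a4, congrArg Subtype.val a5⟩

end HF

end Cfsg.Agent.H4.J3
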