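import Cfsg.Agent.H4.J3D

/-! The centralizers of the elements of orders three and five. -/

set_option autoImplicit false
set_option linter.unusedSectionVars false

namespace Cfsg.Agent.H4.J3

open Subgroup

variable {G : Type*} [Group G] [Finite G]

theorem d8c {z : G} (z3 : orderOf z = 3) (hz : ∀ c, Commute c z) (h : ∀ u : G, orderOf u = 2 →
    ∃ r s : G, r * r = u ∧ s * s = 1 ∧ s * r * s = r⁻¹ ∧
      ∀ c, Commute c u → ∃ j i : ℕ, c = z ^ j * r ^ i ∨ c = z ^ j * (s * r ^ i)) (h2 : 2 ∣ Nat.card G) :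
    Nat.card G = 504 ∨ Nat.card G = 1080 := by
  have hn : (zpowers z).Normal := ⟨by
    rintro _ ⟨k, rfl⟩ g
    rw [((hz g).zpow_right k).eq, mul_inv_cancel_right]
    exact ⟨k, rfl⟩⟩
  have c1 := card_eq_card_quotient_mul_card_subgroup (zpowers z)
  rw [Nat.card_zpowers, z3] at c1
  have y3 : ∀ y ∈ zpowers z, y ^ 3 = 1 := fun y hy =>
    orderOf_dvd_iff_pow_eq_one.1 (z3 ▸ orderOf_dvd_of_mem_zpowers hy)
  have zz : (z : G ⧸ zpowers z) = 1 := (QuotientGroup.eq_one_iff z).2 (mem_zpowers z)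
  have := d8 (G := G ⧸ zpowers z) (fun u hu => by
    obtain ⟨v, rfl⟩ := QuotientGroup.mk_surjective u
    obtain ⟨v1, v2⟩ := ord2.1 hu
    have v3 : ((v ^ 3 : G) : G ⧸ zpowers z) = v := by
      rw [QuotientGroup.mk_pow, pow_succ, sq, v1, one_mul]
    have v4 : v ^ 3 * v ^ 3 = 1 := by
      rw [← (Commute.refl v).mul_pow]
      exact y3 _ ((QuotientGroup.eq_one_iff _).1 v1)
    obtain ⟨r, s, rr, ss, sr, hc⟩ := h (v ^ 3) (ord2.2 ⟨v4, fun e => v2 (by rw [← v3, e]; rfl)⟩)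
    refine ⟨r, s, by rw [← QuotientGroup.mk_mul, rr, v3], by rw [← QuotientGroup.mk_mul, ss]; rfl,
      by rw [← QuotientGroup.mk_mul, ← QuotientGroup.mk_mul, sr]; rfl, fun c e => ?_⟩
    obtain ⟨c, rfl⟩ := QuotientGroup.mk_surjective c
    rw [← v3] at e
    generalize v ^ 3 = x at *
    have a1 : (c * x)⁻¹ * (x * c) ∈ zpowers z := QuotientGroup.eq.1 e
    have a2 := y3 _ a1
    obtain ⟨k, hk⟩ := mem_zpowers_iff.1 a1
    have a3 : c⁻¹ * x * c = x * z ^ k := by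
      rw [hk]; group
    have a4 : z ^ k * z ^ k = 1 := by
      have : x * z ^ k * (x * z ^ k) = 1 := by
        rw [← a3]
        calc _ = c⁻¹ * (x * x) * c := by group
          _ = 1 := by rw [v4]; group
      rwa [mul_assoc, ← mul_assoc _ x, ← ((hz x).zpow_right k).eq, ← mul_assoc, ← mul_assoc, v4,
        one_mul] at this
    rw [← hk, pow_succ, sq, a4, one_mul] at a2
    rw [a2, mul_one, mul_assoc, inv_mul_eq_iff_eq_mul] at a3
    obtain ⟨j, i, rfl | rfl⟩ := hc c a3.symm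
    exacts [⟨i, Or.inl (by simp [zz])⟩, ⟨i, Or.inr (by simp [zz])⟩]) (by omega)
  omega

theorem exists_inv_of_even {x : G} (h : 2 ∣ orderOf x) : ∃ k : ℕ, orderOf (x ^ k) = 2 := by
  obtain ⟨m, hm⟩ := h
  have := orderOf_pos x
  exact ⟨m, by rw [orderOf_pow, hm, Nat.gcd_eq_right (Dvd.intro_left 2 rfl),
    Nat.mul_div_cancel _ (by omega)]⟩

theorem conj_odd {g z : G} (h : g * z * g⁻¹ = z⁻¹) {m : ℕ} (hm : Odd m) :
    g ^ m * z * (g ^ m)⁻¹ = z⁻¹ := by
  obtain ⟨k, rfl⟩ := hm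
  induction k with
  | zero => simpa using h
  | succ k ih =>
    rw [show 2 * (k + 1) + 1 = 1 + 1 + (2 * k + 1) by ring, pow_add, pow_add, pow_one]
    calc _ = g * (g * (g ^ (2 * k + 1) * z * (g ^ (2 * k + 1))⁻¹) * g⁻¹) * g⁻¹ := by group
      _ = _ := by rw [ih, ← conj_inv, h, inv_inv, h]

theorem even_of_inv {g z : G} (z3 : orderOf z = 3) (h : g * z * g⁻¹ = z⁻¹) : 2 ∣ orderOf g := by
  by_contra hn
  have := conj_odd h (m := orderOf g) (Nat.odd_iff.2 (by omega))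
  rw [pow_orderOf_eq_one, one_mul, inv_one, mul_one, eq_inv_iff_mul_eq_one, ← sq,
    ← orderOf_dvd_iff_pow_eq_one, z3] at this
  omega

theorem mem5 {w y : G} (w5 : orderOf w = 5) (h : y ∈ zpowers w) (h1 : y ≠ 1) :
    y = w ∨ y = w ^ 2 ∨ y = w ^ 3 ∨ y = w⁻¹ := by
  classical
  obtain ⟨i, hi, rfl⟩ := Finset.mem_image.1 (mem_zpowers_iff_mem_range_orderOf.1 h)
  rw [w5, Finset.mem_range] at hi
  have : w ^ 4 = w⁻¹ := eq_inv_of_mul_eq_one_left ((pow_succ w 4).symm.trans (show w ^ 5 = 1 from w5 ▸ pow_orderOf_eq_one w))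
  interval_cases i <;> simp [this] at h1 ⊢

namespace HF

variable (H : HF G)
include H

theorem c3 {z u : G} (z3 : orderOf z = 3) (u2 : orderOf u = 2) (h : Commute u z) :
    Nat.card (centralizer ({z} : Set G)) = 504 ∨ Nat.card (centralizer ({z} : Set G)) = 1080 := by
  refine d8c (G := centralizer ({z} : Set G)) (z := ⟨z, mem_centralizer_singleton_iff.2 rfl⟩)
    (by rw [← orderOf_coe, z3]) (fun c => Subtype.ext (mem_centralizer_singleton_iff.1 c.2))
    (fun v hv => ?_) (u2 ▸ (centralizer _).orderOf_dvd_natCard (mem_centralizer_singleton_iff.2 h))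
  obtain ⟨r, s, r1, s1, rr, ss, sr, hc⟩ := (H.three v z (by rw [orderOf_coe, hv]) z3
    (mem_centralizer_singleton_iff.1 v.2)).1
  refine ⟨⟨r, mem_centralizer_singleton_iff.2 r1⟩, ⟨s, mem_centralizer_singleton_iff.2 s1⟩,
    Subtype.ext rr, Subtype.ext ss, Subtype.ext sr, fun c e => ?_⟩
  obtain ⟨j, i, e⟩ := hc c (congrArg Subtype.val e) (mem_centralizer_singleton_iff.1 c.2)
  exact ⟨j, i, e.imp Subtype.ext Subtype.ext⟩

theorem c3' {z w u : G} (z3 : orderOf z = 3) (w5 : orderOf w = 5) (u2 : orderOf u = 2) (h : Commute z w)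
    (h' : Commute u z) : Nat.card (centralizer ({z} : Set G)) = 1080 := by
  have := (centralizer ({z} : Set G)).orderOf_dvd_natCard (mem_centralizer_singleton_iff.2 h.symm)
  rw [w5] at this
  have := H.c3 z3 u2 h'
  omega

/-- Sylow five data in the centralizer of `z` -/
theorem syl5 {z w u : G} (z3 : orderOf z = 3) (w5 : orderOf w = 5) (u2 : orderOf u = 2) (h : Commute z w)
    (h' : Commute u z) : (∃ e n, e ∣ 4 ∧ n % 5 = 1 ∧
      n * (e * Nat.card ↥(centralizer ({z} : Set G) ⊓ centralizer {w})) = 1080 ∧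
      e * Nat.card ↥(centralizer ({z} : Set G) ⊓ centralizer {w}) =
        Nat.card ↥(centralizer ({z} : Set G) ⊓ normalizer (zpowers w : Set G))) ∧
      ∀ y, Commute y z → y ^ 5 = 1 → ∃ g, Commute g z ∧ g * y * g⁻¹ ∈ zpowers w := by
  have hc := H.c3' z3 w5 u2 h h'
  have hw : w ∈ centralizer ({z} : Set G) := mem_centralizer_singleton_iff.2 h.symm
  obtain ⟨n, e, s1, s2, s3, s4, s5, -⟩ := syl_prime (G := centralizer ({z} : Set G)) (p := 5)
    (w := ⟨w, hw⟩) (by rw [← orderOf_coe, w5]) (by norm_num [hc])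
  have m : ∀ y : centralizer ({z} : Set G), y ∈ zpowers (⟨w, hw⟩ : centralizer ({z} : Set G)) ↔
      (y : G) ∈ zpowers w := fun y => by
    simp only [mem_zpowers_iff, Subtype.ext_iff, SubgroupClass.coe_zpow]
  refine ⟨⟨e, n, s4, s2, by rw [← hc, ← s1, s3, card_cent_sub], ?_⟩, fun y y1 y2 => ?_⟩
  · rw [← card_cent_sub _ ⟨w, hw⟩, ← s3, ← Nat.card_congr (subgroupOfEquivOfLe (inf_le_left :
      centralizer ({z} : Set G) ⊓ normalizer (zpowers w : Set G) ≤ _)).toEquiv, inf_subgroupOf_left,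
      subgroupOf_normalizer_eq (zpowers_le.2 hw)]
    rw [show zpowers (⟨w, hw⟩ : centralizer ({z} : Set G)) = (zpowers w).subgroupOf _ from
      Subgroup.ext m]
  · obtain ⟨g, hg⟩ := s5 ⟨y, mem_centralizer_singleton_iff.2 y1⟩ (Subtype.ext y2)
    exact ⟨g, mem_centralizer_singleton_iff.1 g.2, (m _).1 hg⟩

theorem even5 {z w u : G} (z3 : orderOf z = 3) (w5 : orderOf w = 5) (u2 : orderOf u = 2) (h : Commute z w)
    (h' : Commute u z) : ∃ t, orderOf t = 2 ∧ Commute t w := by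
  by_contra hn
  have k1 : ∀ x, Commute x w → ¬ 2 ∣ orderOf x := fun x hx e => by
    obtain ⟨k, hk⟩ := exists_inv_of_even e
    exact hn ⟨_, hk, hx.pow_left k⟩
  have w1 : w ≠ 1 := fun e => by simp [e] at w5
  have w0 : w ^ 5 = 1 := w5 ▸ pow_orderOf_eq_one w
  obtain ⟨⟨e, n, e1, n1, e2, e3⟩, s1⟩ := H.syl5 z3 w5 u2 h h'
  have nm : ∀ g ∈ normalizer (zpowers w : Set G), g * w * g⁻¹ = w ∨ g * w * g⁻¹ = w ^ 2 ∨
      g * w * g⁻¹ = w ^ 3 ∨ g * w * g⁻¹ = w⁻¹ := fun g hg =>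
    mem5 w5 ((mem_normalizer_iff.1 hg w).1 (mem_zpowers w)) (by simpa using w1)
  have p4 : ∀ g : G, g * w * g⁻¹ = w ^ 2 ∨ g * w * g⁻¹ = w ^ 3 → g * g * w * (g * g)⁻¹ = w⁻¹ :=
    fun g hg => by
      have : g * g * w * (g * g)⁻¹ = g * (g * w * g⁻¹) * g⁻¹ := by group
      rw [this, eq_inv_iff_mul_eq_one]
      rcases hg with e | e <;> rw [e, ← conj_pow, e, ← pow_mul, ← pow_succ]
      · exact w0
      · rw [show 3 * 3 + 1 = 5 * 2 from rfl, pow_mul, w0, one_pow]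
  have wi : w ≠ w⁻¹ := fun e => by
    rw [eq_inv_iff_mul_eq_one, ← sq, ← orderOf_dvd_iff_pow_eq_one, w5] at e
    omega
  obtain ⟨s, s2, s3⟩ := exists_ord (p := 2) _ (e3 ▸ show 2 ∣ e * _ by
    have a1 := (centralizer ({z} : Set G) ⊓ centralizer {w}).orderOf_dvd_natCard
      (x := z) ⟨mem_centralizer_singleton_iff.2 rfl, mem_centralizer_singleton_iff.2 h⟩
    have a2 := (centralizer ({z} : Set G) ⊓ centralizer {w}).orderOf_dvd_natCard
      (x := w) ⟨mem_centralizer_singleton_iff.2 h.symm, mem_centralizer_singleton_iff.2 rfl⟩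
    rw [z3] at a1
    rw [w5] at a2
    have a3 := a1.mul_left e
    have a4 := a2.mul_left e
    generalize e * _ = a at *
    exact (by decide +kernel : ∀ a ∈ Nat.divisors 1080, 3 ∣ a → 5 ∣ a → 1080 / a % 5 = 1 → 2 ∣ a) a
      (Nat.mem_divisors.2 ⟨Dvd.intro_left _ e2, by norm_num⟩) a3 a4 (by
        rw [← e2, Nat.mul_div_cancel _ (Nat.pos_of_ne_zero (by rintro rfl; omega)), n1]))
  have sz : Commute s z := mem_centralizer_singleton_iff.1 s2.1
  have sw : s * w * s⁻¹ = w⁻¹ := by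
    rcases nm s s2.2 with e | e | e | e
    · exact absurd (s3 ▸ dvd_rfl) (k1 s (mul_inv_eq_iff_eq_mul.1 e))
    · exact absurd (by simpa [(ord2.1 s3).1] using p4 s (Or.inl e)) wi
    · exact absurd (by simpa [(ord2.1 s3).1] using p4 s (Or.inr e)) wi
    · exact e
  obtain ⟨g0, -, g1⟩ := (H.three u z u2 z3 h').2.1
  obtain ⟨c, c1, c2⟩ := s1 (g0 * w * g0⁻¹) (by
    have := (h.symm.map (MulAut.conj g0)).inv_right
    simpa only [MulAut.conj_apply, g1, inv_inv] using this) (by rw [conj_pow, w0]; simp)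
  have g2 : c * g0 * z * (c * g0)⁻¹ = z⁻¹ := by
    calc _ = c * (g0 * z * g0⁻¹) * c⁻¹ := by group
      _ = _ := by rw [g1, c1.inv_right.eq, mul_inv_cancel_right]
  have g3 : c * g0 ∈ normalizer (zpowers w : Set G) := mem_normalizer_fintype (by
    rintro _ ⟨k, rfl⟩
    rw [← conj_zpow]
    exact zpow_mem (by simpa [mul_assoc] using c2) k)
  generalize c * g0 = g at *
  have g4 : ∀ g ∈ normalizer (zpowers w : Set G), g * z * g⁻¹ = z⁻¹ → g * g * w * (g * g)⁻¹ = w⁻¹ :=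
    fun g hg e => by
      rcases nm g hg with e' | e' | e' | e'
      · exact absurd (even_of_inv z3 e) (k1 g (mul_inv_eq_iff_eq_mul.1 e'))
      · exact p4 g (Or.inl e')
      · exact p4 g (Or.inr e')
      · refine absurd (even_of_inv z3 (g := s * g) ?_) (k1 _ (mul_inv_eq_iff_eq_mul.1 ?_))
        · calc _ = s * (g * z * g⁻¹) * s⁻¹ := by group
            _ = _ := by rw [e, sz.inv_right.eq, mul_inv_cancel_right]
        · calc _ = s * (g * w * g⁻¹) * s⁻¹ := by group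
            _ = _ := by rw [e', ← conj_inv, sw, inv_inv]
  have g5 : Commute (g ^ 4) w := mul_inv_eq_iff_eq_mul.1 (by
    calc _ = g * g * (g * g * w * (g * g)⁻¹) * (g * g)⁻¹ := by simp [pow_succ, mul_assoc]
      _ = _ := by rw [g4 g g3 g2, ← conj_inv, g4 g g3 g2, inv_inv])
  have g6 : Odd (orderOf (g ^ 4)) := Nat.odd_iff.2 (by have := k1 _ g5; omega)
  have g7 := conj_odd g2 g6
  have g8 := g4 _ (pow_mem g3 _) g7
  have g9 : (g ^ orderOf (g ^ 4)) ^ 4 = 1 := by rw [← pow_mul, mul_comm, pow_mul, pow_orderOf_eq_one]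
  generalize g ^ orderOf (g ^ 4) = x at *
  refine (H.three (x * x) z (ord2.2 ⟨by rw [← g9]; simp [pow_succ, mul_assoc], fun e => wi (by
    simpa [e] using g8)⟩) z3 (mul_inv_eq_iff_eq_mul.1 ?_)).2.2.1 x rfl g7
  calc _ = x * (x * z * x⁻¹) * x⁻¹ := by group
    _ = _ := by rw [g7, ← conj_inv, g7, inv_inv]

end HF

end Cfsg.Agent.H4.J3
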