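import Cfsg.Agent.H4.J3E

/-! The centralizer of an element of order five. -/

set_option autoImplicit false
set_option linter.unusedSectionVars false

namespace Cfsg.Agent.H4.J3

open Subgroup

variable {G : Type*} [Group G] [Finite G]

theorem pow5 {w a : G} (w5 : orderOf w = 5) (h : a ∈ zpowers w) : a ^ 5 = 1 :=
  orderOf_dvd_iff_pow_eq_one.1 (w5 ▸ orderOf_dvd_of_mem_zpowers h)

theorem cube_sq {a : G} (h : a ^ 5 = 1) : (a * a) ^ 3 = a := by
  rw [← sq, ← pow_mul, pow_succ, h, one_mul]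

namespace HF

variable (H : HF G) {t w : G} (t2 : orderOf t = 2) (w5 : orderOf w = 5) (tw : Commute t w)
include H t2 w5 tw

theorem inv_eq {c : G} (h1 : Commute c t) (h2 : Commute c w) (h : orderOf c = 2) : c = t := by
  obtain ⟨c1, c2⟩ := ord2.1 h
  have k : ∀ i : ℕ, w ^ i * w ^ i = 1 → w ^ i = 1 := fun i e => by
    rw [← cube_sq (pow5 w5 (npow_mem_zpowers w i)), e, one_pow]
  obtain ⟨i, rfl | rfl⟩ := (H.five t w t2 w5 tw).1 c h1 h2
  · exact absurd (k i c1) c2
  · rw [mul_assoc, ← mul_assoc _ t, ← (tw.pow_right i).eq, ← mul_assoc, ← mul_assoc, (ord2.1 t2).1,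
      one_mul] at c1
    rw [k i c1, mul_one]

theorem conj_in {v : G} (v2 : orderOf v = 2) (vw : Commute v w) :
    ∃ d, Commute d w ∧ d * v * d⁻¹ = t := by
  obtain ⟨d, hd⟩ := conj_into (G := centralizer ({w} : Set G)) (p := 2) (pg_zpowers (k := 1)
    (y := ⟨v, mem_centralizer_singleton_iff.2 vw⟩) (Subtype.ext (by simpa [sq] using (ord2.1 v2).1)))
    (N := centralizer {⟨t, mem_centralizer_singleton_iff.2 tw⟩}) fun e => H.not4 w5 (by
      rw [← (centralizer ({⟨t, mem_centralizer_singleton_iff.2 tw⟩} :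
        Set (centralizer ({w} : Set G)))).index_mul_card, card_cent_sub, H.card10 t2 w5 tw]
      omega)
  have := hd _ (mem_zpowers _)
  exact ⟨d, mem_centralizer_singleton_iff.1 d.2, H.inv_eq t2 w5 tw
    (congrArg Subtype.val (mem_centralizer_singleton_iff.1 this))
    (mem_centralizer_singleton_iff.1 (d * ⟨v, mem_centralizer_singleton_iff.2 vw⟩ * d⁻¹).2)
    (v2 ▸ (MulAut.conj (d : G)).orderOf_eq v)⟩

theorem pm {x : G} (h : x * w * x⁻¹ ∈ zpowers w) : x * w * x⁻¹ = w ∨ x * w * x⁻¹ = w⁻¹ := by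
  have w0 := pow5 w5 (mem_zpowers w)
  have k : ∀ x : G, x * w * x⁻¹ ≠ w ^ 2 := fun x e => by
    obtain ⟨d, d1, d2⟩ := H.conj_in t2 w5 tw (v := x * t * x⁻¹) (t2 ▸ (MulAut.conj x).orderOf_eq t) (by
      have := (tw.map (MulAut.conj x)).pow_right 3
      simp only [MulAut.conj_apply, e] at this
      rwa [sq, cube_sq w0] at this)
    refine (H.five t w t2 w5 tw).2.2 (d * x) (mul_inv_eq_iff_eq_mul.1 (by nth_rw 2 [← d2]; group)) ?_
    calc _ = d * (x * w * x⁻¹) * d⁻¹ := by group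
      _ = _ := by rw [e, (d1.pow_right 2).eq, mul_inv_cancel_right]
  rcases mem5 w5 h (by rintro e; simp at e; simp [e] at w5) with e | e | e | e
  · exact Or.inl e
  · exact absurd e (k x)
  · refine absurd ?_ (k x⁻¹)
    have : x * w ^ 2 * x⁻¹ = w := by
      rw [← conj_pow, e, ← pow_mul, pow_succ, w0, one_mul]
    nth_rw 1 [← this]
    group
  · exact Or.inr e

theorem cover {c : G} (hc : Commute c w) : ∃ v a, orderOf v = 2 ∧ Commute v w ∧ a ∈ zpowers w ∧
    (c = v * a ∨ c = t * v * a) := by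
  obtain ⟨D, hD⟩ : ∃ D, D = centralizer ({w} : Set G) := ⟨_, rfl⟩
  have mD : ∀ x, x ∈ D ↔ Commute x w := fun x => hD ▸ mem_centralizer_singleton_iff
  obtain ⟨I, hI⟩ : ∃ I, I = {x | ∃ m ∈ D, m * t * m⁻¹ = x} := ⟨_, rfl⟩
  have c1 := card_orb D t
  rw [← hI, hD, H.card10 t2 w5 tw, ← hD] at c1
  have i1 : ∀ v : I, orderOf (v : G) = 2 ∧ Commute (v : G) w := fun ⟨v, hv⟩ => by
    obtain ⟨m, m1, rfl⟩ := hI ▸ hv
    exact ⟨t2 ▸ (MulAut.conj m).orderOf_eq t, (mD _).1 (mul_mem (mul_mem m1 ((mD _).2 tw)) (inv_mem m1))⟩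
  have a1 : ∀ a : zpowers w, ∀ x, Commute x w → Commute x a := fun ⟨_, k, rfl⟩ x hx => hx.zpow_right k
  have tt := (ord2.1 t2).1
  have sq' : ∀ (v : I) (a : zpowers w), (v : G) * a * (v * a) = a * a := fun v a => by
    rw [mul_assoc, ← mul_assoc (a : G), ← (a1 a v (i1 v).2).eq, ← mul_assoc, ← mul_assoc,
      (ord2.1 (i1 v).1).1, one_mul]
  have j1 : ∀ (v v' : I) (a a' : zpowers w), (v : G) * a = v' * a' → (v, a) = (v', a') :=
    fun v v' a a' e => by
      have e1 : (a : G) = a' := by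
        rw [← cube_sq (pow5 w5 a.2), ← sq' v, e, sq', cube_sq (pow5 w5 a'.2)]
      rw [e1, mul_left_inj] at e
      exact Prod.ext (Subtype.ext e) (Subtype.ext e1)
  have j2 : ∀ (v v' : I) (a a' : zpowers w), t * v * a ≠ v' * a' := fun v v' a a' e => by
    obtain ⟨b, hb⟩ : ∃ b : zpowers w, b = a' * a⁻¹ := ⟨_, rfl⟩
    have e1 : t * v = v' * b := by simp [hb, ← mul_assoc, ← e]
    obtain ⟨v1, v0⟩ := ord2.1 (i1 v).1
    obtain ⟨v2, -⟩ := ord2.1 (i1 v').1
    have b1 := (a1 b t tw).eq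
    have b2 := (a1 b _ (i1 v').2).eq
    have b3 := pow5 w5 b.2
    generalize (b : G) = b at *
    have e2 : v = t * v' * b := by rw [mul_assoc, ← e1, ← mul_assoc, tt, one_mul]
    have e3 : t * v' * (t * v') * (b * b) = 1 := by
      rw [← v1, e2]
      simp only [mul_assoc]
      rw [← mul_assoc b t, ← b1, mul_assoc, ← mul_assoc b v', ← b2, mul_assoc]
    have e4 : b * b = v' * t * (v' * t) := by
      rw [eq_inv_of_mul_eq_one_right e3]
      simp [inv_eq_of_mul_eq_one_left tt, inv_eq_of_mul_eq_one_left v2]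
    have e5 : b * b * (b * b) = 1 := by
      have : t * (b * b) * t = b * b := by
        rw [← mul_assoc, b1, mul_assoc b, b1, mul_assoc, mul_assoc, tt, mul_one]
      rw [← e3]
      congr 1
      rw [← this, e4]
      simp [mul_assoc, tt]
    have e6 : b = 1 := by rwa [pow_succ, show b ^ 4 = 1 by rw [← e5]; simp [pow_succ, mul_assoc],
      one_mul] at b3
    rw [e6, mul_one, mul_one] at e3
    rw [e6, mul_one] at e2
    have e7 : Commute (v' : G) t := by
      have := eq_inv_of_mul_eq_one_left e3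
      rw [mul_inv_rev, inv_eq_of_mul_eq_one_left tt, inv_eq_of_mul_eq_one_left v2] at this
      exact this.symm
    exact v0 (by rw [e2, H.inv_eq t2 w5 tw e7 (i1 v').2 (i1 v').1, tt])
  have m1 : ∀ (v : I) (a : zpowers w), (v : G) * a ∈ D := fun v a =>
    (mD _).2 ((i1 v).2.mul_left (a1 a w rfl).symm)
  let f : Bool × I × zpowers w → D := fun x => match x with
    | (false, v, a) => ⟨_, m1 v a⟩
    | (true, v, a) => ⟨t * v * a, mul_assoc t _ _ ▸ mul_mem ((mD _).2 tw) (m1 v a)⟩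
  have hf : Function.Bijective f := (Nat.bijective_iff_injective_and_card f).2 ⟨by
    rintro ⟨_ | _, v, a⟩ ⟨_ | _, v', a'⟩ e <;> replace e := congrArg Subtype.val e
    · rw [j1 v v' a a' e]
    · exact absurd e.symm (j2 _ _ _ _)
    · exact absurd e (j2 _ _ _ _)
    · rw [j1 v v' a a' (mul_left_cancel (a := t) (by simpa [f, mul_assoc] using e))], by
      rw [Nat.card_prod, Nat.card_prod, Nat.card_zpowers, w5, c1, Nat.card_coe_set_eq]
      simp
      ring⟩
  obtain ⟨⟨_ | _, v, a⟩, e⟩ := hf.2 ⟨c, (mD c).2 hc⟩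
  exacts [⟨v, a, (i1 v).1, (i1 v).2, a.2, Or.inl (congrArg Subtype.val e).symm⟩,
    ⟨v, a, (i1 v).1, (i1 v).2, a.2, Or.inr (congrArg Subtype.val e).symm⟩]

theorem inv3 {z : G} (z3 : orderOf z = 3) (h : Commute z w) : t * z * t = z⁻¹ := by
  have z0 : z ^ 3 = 1 := z3 ▸ pow_orderOf_eq_one z
  have tt := (ord2.1 t2).1
  obtain ⟨v, a, v2, vw, ha, e⟩ := H.cover t2 w5 tw h
  have a5 := pow5 w5 ha
  obtain ⟨k, rfl⟩ := mem_zpowers_iff.1 ha
  have vv := (ord2.1 v2).1
  rcases e with e | e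
  · have : z ^ 10 = 1 := by
      rw [e, (vw.zpow_right k).mul_pow, show 10 = 2 * 5 from rfl, pow_mul, sq, vv, mul_comm 2, pow_mul, a5]
      simp
    rw [← orderOf_dvd_iff_pow_eq_one, z3] at this
    omega
  have b1 := tw.zpow_right k
  have b2 := h.zpow_right k
  have b3 := vw.zpow_right k
  generalize w ^ k = a at *
  have e1 : t * z * t = z⁻¹ * (a * a) := by
    rw [eq_inv_mul_iff_mul_eq, e]
    simp only [mul_assoc]
    rw [← mul_assoc t t, tt, one_mul, ← mul_assoc a v, ← b3.eq, mul_assoc, ← mul_assoc v v, vv, one_mul,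
      ← b1.eq, ← mul_assoc a t, ← b1.eq, mul_assoc, ← mul_assoc t t, tt, one_mul]
  have e2 : (a * a) ^ 3 = 1 := by
    have : (t * z * t) ^ 3 = 1 := by
      nth_rw 2 [← inv_eq_of_mul_eq_one_left tt]
      rw [conj_pow, z0]; simp
    rwa [e1, (b2.mul_right b2).inv_left.mul_pow, inv_pow, z0, inv_one, one_mul] at this
  rw [cube_sq a5] at e2
  rw [e1, e2, mul_one, mul_one]

theorem card15 {z u : G} (z3 : orderOf z = 3) (h : Commute z w) (u2 : orderOf u = 2) (h' : Commute u z) :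
    Nat.card ↥(centralizer ({z} : Set G) ⊓ centralizer {w}) = 15 := by
  obtain ⟨⟨e, n, e1, n1, e2, e3⟩, -⟩ := H.syl5 z3 w5 u2 h h'
  have a1 := (centralizer ({z} : Set G) ⊓ centralizer {w}).orderOf_dvd_natCard
    (x := z) ⟨mem_centralizer_singleton_iff.2 rfl, mem_centralizer_singleton_iff.2 h⟩
  have a2 := (centralizer ({z} : Set G) ⊓ centralizer {w}).orderOf_dvd_natCard
    (x := w) ⟨mem_centralizer_singleton_iff.2 h.symm, mem_centralizer_singleton_iff.2 rfl⟩
  have a3 : ¬ 2 ∣ Nat.card ↥(centralizer ({z} : Set G) ⊓ centralizer {w}) := fun e => by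
    obtain ⟨v, v1, v2⟩ := exists_ord _ e
    have := (centralizer ({w} : Set G) ⊓ centralizer {v}).orderOf_dvd_natCard (x := z)
      ⟨mem_centralizer_singleton_iff.2 h, mem_centralizer_singleton_iff.2
        (mem_centralizer_singleton_iff.1 v1.1).symm⟩
    rw [H.card10 v2 w5 (mem_centralizer_singleton_iff.1 v1.2), z3] at this
    omega
  have a4 := card_orb (centralizer ({z} : Set G) ⊓ normalizer (zpowers w : Set G)) w
  rw [inf_assoc, inf_of_le_right (show centralizer {w} ≤ normalizer (zpowers w : Set G) from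
    cent_zpowers w ▸ centralizer_le_normalizer _), ← e3] at a4
  have a5 := (Set.ncard_le_ncard (s := {x | ∃ m ∈ centralizer ({z} : Set G) ⊓
    normalizer (zpowers w : Set G), m * w * m⁻¹ = x}) (t := {w, w⁻¹}) (by
      rintro _ ⟨m, m1, rfl⟩
      exact H.pm t2 w5 tw ((mem_normalizer_iff.1 m1.2 w).1 (mem_zpowers w)))).trans
        ((Set.ncard_insert_le _ _).trans_eq (by rw [Set.ncard_singleton]))
  rw [← Nat.eq_of_mul_eq_mul_right Nat.card_pos a4] at a5
  rw [z3] at a1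
  rw [w5] at a2
  generalize Nat.card ↥(centralizer ({z} : Set G) ⊓ centralizer {w}) = a at *
  have a6 : a ∈ Nat.divisors 1080 := Nat.mem_divisors.2 ⟨⟨n * e, by rw [← e2]; ring⟩, by norm_num⟩
  rcases (by decide +kernel : ∀ a ∈ Nat.divisors 1080, 3 ∣ a → 5 ∣ a → ¬ 2 ∣ a → a = 15 ∨ a = 45 ∨ a = 135)
    a a6 a1 a2 a3 with rfl | rfl | rfl <;> interval_cases e <;> omega

theorem form {z u : G} (z3 : orderOf z = 3) (h : Commute z w) (u2 : orderOf u = 2) (h' : Commute u z)
    {c : G} (hc : Commute c w) : ∃ i j : ℕ, c = w ^ i * z ^ j ∨ c = w ^ i * (t * z ^ j) := by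
  have tt := (ord2.1 t2).1
  have k : ∀ v, orderOf v = 2 → Commute v w → ∃ j : ℕ, t * v = z ^ j := fun v v2 vw => by
    have e : orderOf (z * w) = 15 := by
      rw [h.orderOf_mul_eq_mul_orderOf_of_coprime (by norm_num [z3, w5]), z3, w5]
    have e1 : zpowers (z * w) = centralizer ({z} : Set G) ⊓ centralizer {w} :=
      eq_of_le_of_card_ge (zpowers_le.2 ⟨mem_centralizer_singleton_iff.2
        ((Commute.refl z).mul_left h.symm), mem_centralizer_singleton_iff.2 (h.mul_left rfl)⟩)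
        (by rw [H.card15 t2 w5 tw z3 h u2 h', Nat.card_zpowers, e])
    have vv := (ord2.1 v2).1
    have e2 : t * v ∈ zpowers (z * w) := e1 ▸ ⟨mem_centralizer_singleton_iff.2 (by
      have a1 := inv_pow_of vv (H.inv3 v2 w5 vw z3 h) 1
      have a2 := inv_pow_of tt (H.inv3 t2 w5 tw z3 h) 1
      rw [pow_one] at a1 a2
      rw [mul_assoc, a1, ← mul_assoc z, ← mul_assoc, mul_left_inj, mul_inv_eq_iff_eq_mul, mul_assoc, a2,
        mul_inv_cancel_left]), mem_centralizer_singleton_iff.2 (tw.mul_left vw)⟩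
    obtain ⟨j, hj⟩ := (mem_powers_iff_mem_zpowers.2 e2)
    simp only [h.mul_pow] at hj
    have e3 : t * (t * v) * t * (t * v) = 1 := by simp [← mul_assoc, tt, mul_assoc v t t, vv]
    have b1 := inv_pow_of tt (H.inv3 t2 w5 tw z3 h) j
    have b2 := (tw.pow_right j).eq
    have b3 := (h.pow_pow j j).eq
    rw [← hj, ← mul_assoc t, b1] at e3
    simp only [mul_assoc] at e3
    rw [← mul_assoc (w ^ j) t, ← b2, mul_assoc t, ← mul_assoc t t, tt, one_mul, ← mul_assoc (w ^ j),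
      ← b3, mul_assoc, inv_mul_cancel_left] at e3
    rw [← cube_sq (pow5 w5 (npow_mem_zpowers w j)), e3, one_pow, mul_one] at hj
    exact ⟨j, hj.symm⟩
  obtain ⟨v, a, v2, vw, ha, e⟩ := H.cover t2 w5 tw hc
  obtain ⟨i, rfl⟩ := (mem_powers_iff_mem_zpowers.2 ha)
  obtain ⟨j, hj⟩ := k v v2 vw
  refine ⟨i, j, e.symm.imp (fun e => ?_) fun e => ?_⟩
  · rw [e, hj]; exact (h.pow_pow j i).eq
  · rw [e, ← hj, ← mul_assoc t, tt, one_mul]; exact (vw.pow_right i).eq

end HF

end Cfsg.Agent.H4.J3
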