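import Cfsg.Agent.H4.J3F

/-! The order of a group of `J₃` type. -/

set_option autoImplicit false
set_option linter.unusedSectionVars false

namespace Cfsg.Agent.H4.J3

open Cfsg Cfsg.Agent.H1 Cfsg.Agent.H3.NQ Subgroup Finset

theorem num {g d : ℕ} {x : ℤ} (h1 : d ∣ g) (h2 : d + 1 ∣ g) (hd : 0 < d)
    (h3 : 1 + x ^ 2 + (1 + x - 0) ^ 2 ≤ (1920 : ℕ))
    (h4 : ((30 : ℕ) : ℤ) * g * (d * (d + 1) + x ^ 2 * (d + 1) - (1 + x - 0) ^ 2 * d) =
      ((1920 : ℕ) * (20 : ℕ)) ^ 2 * (d * (d + 1)))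
    (h5 : g % 256 = 128) (h6 : g % 25 ≠ 0) (h7 : g % 27 = 0) (h8 : g / 60 % 5 = 1) :
    g = 50232960 ∧ d = 323 := by
  obtain ⟨q, rfl⟩ := (show d.Coprime (d + 1) by simp).mul_dvd_of_dvd_of_dvd h1 h2
  have a1 : (q : ℤ) * (d - x) ^ 2 = 49152000 := by
    have : (0 : ℤ) < 30 * (d * (d + 1)) := by positivity
    refine mul_left_cancel₀ this.ne' ?_
    push_cast at h4
    linear_combination h4
  have a2 : -32 < x ∧ x < 31 := by push_cast at h3; constructor <;> nlinarith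
  obtain ⟨K, hK⟩ : ∃ K, K = (d - x).natAbs := ⟨_, rfl⟩
  have a3 : q * (K * K) = 49152000 := by
    have : ((K * K : ℕ) : ℤ) = (d - x) ^ 2 := by rw [hK]; push_cast; rw [abs_mul_abs_self, sq]
    exact_mod_cast (this ▸ a1 : (q : ℤ) * (K * K : ℕ) = 49152000)
  have q0 : 0 < q := Nat.pos_of_ne_zero (by rintro rfl; omega)
  have a4 : K < 7011 := by
    by_contra hn
    have := Nat.mul_le_mul q0 (Nat.mul_le_mul (not_lt.1 hn) (not_lt.1 hn))
    omega
  have a5 : K ∈ Nat.divisors 1280 := by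
    have := (by decide +kernel : ∀ a < 84, ∀ b < 84, (84 * a + b) * (84 * a + b) ∣ 49152000 →
      84 * a + b ∈ Nat.divisors 1280) (K / 84) (by omega) (K % 84) (by omega)
    rw [Nat.div_add_mod] at this
    exact this (Dvd.intro_left _ a3)
  have a6 : q = 49152000 / (K * K) := by
    rw [← a3, Nat.mul_div_cancel _ (Nat.pos_of_ne_zero fun e => by rw [e] at a3; omega)]
  have a7 := Nat.divisor_le a5
  obtain ⟨y, hy, rfl⟩ : ∃ y < 63, d = K + y - 31 := ⟨d + 31 - K, by omega, by omega⟩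
  have := (by decide +kernel : ∀ K ∈ Nat.divisors 1280, ∀ y < 63,
    ((K + y - 31) * (K + y - 31 + 1) * (49152000 / (K * K)) % 256 = 128 ∧
    (K + y - 31) * (K + y - 31 + 1) * (49152000 / (K * K)) % 25 ≠ 0 ∧
    (K + y - 31) * (K + y - 31 + 1) * (49152000 / (K * K)) % 27 = 0 ∧
    (K + y - 31) * (K + y - 31 + 1) * (49152000 / (K * K)) / 60 % 5 = 1) →
    K = 320 ∧ y = 34) K a5 y hy ⟨a6 ▸ h5, a6 ▸ h6, a6 ▸ h7, a6 ▸ h8⟩
  obtain ⟨rfl, rfl⟩ := this
  exact ⟨by rw [a6], rfl⟩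

variable {G : Type*} [Group G] [Finite G]

/-- the model of the centralizer -/
abbrev C0 := Multiplicative (ZMod 5) × DihedralGroup 3

theorem card_conj {a b : G} (h : IsConj a b) :
    Nat.card (centralizer ({a} : Set G)) = Nat.card (centralizer ({b} : Set G)) := by
  obtain ⟨c, rfl⟩ := isConj_iff.1 h
  refine Nat.card_congr ((MulAut.conj c).toEquiv.subtypeEquiv fun x => ?_)
  simp [mem_centralizer_singleton_iff]

theorem HF.model (H : HF G) : ∃ (φ : C0 →* G) (s : G), Function.Injective φ ∧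
    φ.range = centralizer {φ (.ofAdd 1, 1)} ∧ s * s = 1 ∧ (∀ c, φ (c.1⁻¹, c.2) = s * φ c * s⁻¹) ∧
    Nat.card (centralizer ({φ (1, .r 1)} : Set G)) = 1080 ∧ ∃ u, orderOf u = 2 ∧ Commute u (φ (1, .r 1)) := by
  obtain ⟨z, w, u, z3, w5, u2, h, h'⟩ := H.step1
  obtain ⟨t, t2, tw⟩ := H.even5 z3 w5 u2 h h'
  have tt := (ord2.1 t2).1
  have tz := H.inv3 t2 w5 tw z3 h
  have w0 : w ^ 5 = 1 := w5 ▸ pow_orderOf_eq_one w
  have z0 : z ^ 3 = 1 := z3 ▸ pow_orderOf_eq_one z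
  have cm : ∀ x, Commute x z → Commute x t → ∀ b, Commute x (dih z t z0 tt tz b) := by
    rintro x h1 h2 (i | i)
    exacts [h1.pow_right _, h2.mul_right (h1.pow_right _)]
  let φ : C0 →* G := MonoidHom.noncommCoprod (cyc w w0) (dih z t z0 tt tz) fun a b =>
    (cm w h.symm tw.symm b).pow_left _
  have hφ : ∀ a b, φ (a, b) = cyc w w0 a * dih z t z0 tt tz b := fun a b => rfl
  have e1 : φ (.ofAdd 1, 1) = w := by rw [hφ, map_one (dih z t z0 tt tz), mul_one]; exact (cyc_nat w w0 1).trans (pow_one w)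
  have e2 : φ (1, .r 1) = z := by rw [hφ, map_one, one_mul]; exact (dih_r z0 tt tz 1).trans (pow_one z)
  have e3 : φ (1, .sr 0) = t := by
    rw [hφ, map_one, one_mul]; exact (dih_sr z0 tt tz 0).trans (by simp)
  have inj : Function.Injective φ := by
    rw [injective_iff_map_eq_one]
    rintro ⟨a, b⟩ e
    have a1 : φ (a, 1) = 1 := by
      rw [show ((a, 1) : C0) = (a, b) ^ 6 by clear e; revert a b; decide, map_pow, e, one_pow]
    rw [hφ, map_one, mul_one, map_eq_one_iff _ (cyc_inj w w0 w5)] at a1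
    rw [hφ, a1, map_one, one_mul, map_eq_one_iff _ (dih_inj z0 tt tz z3 fun e => by
      rw [← sq, ← orderOf_dvd_iff_pow_eq_one, z3] at e; omega)] at e
    rw [a1, e]; rfl
  have rg : φ.range = centralizer {w} := le_antisymm (by
    rintro _ ⟨⟨a, b⟩, rfl⟩
    exact mem_centralizer_singleton_iff.2 (((Commute.refl w).pow_left _).mul_left
      (cm w h.symm tw.symm b).symm)) fun c hc => by
    obtain ⟨i, j, rfl | rfl⟩ := H.form t2 w5 tw z3 h u2 h' (mem_centralizer_singleton_iff.1 hc)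
    exacts [⟨(.ofAdd i, .r j), by rw [hφ, cyc_nat, dih_r]⟩, ⟨(.ofAdd i, .sr j), by rw [hφ, cyc_nat, dih_sr]⟩]
  obtain ⟨s, ss, st, sw, sz⟩ : ∃ s, s * s = 1 ∧ Commute s t ∧ s * w * s = w⁻¹ ∧ Commute s z := by
    obtain ⟨s, ss, st, sw⟩ := (H.five t w t2 w5 tw).2.1
    have si := inv_eq_of_mul_eq_one_left ss
    obtain ⟨c, hc⟩ : s * z * s⁻¹ ∈ φ.range := rg ▸ mem_centralizer_singleton_iff.2 (by
      have := (h.map (MulAut.conj s)).inv_right
      simp only [MulAut.conj_apply] at this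
      rwa [show s * w * s⁻¹ = w⁻¹ by rw [si, sw], inv_inv] at this)
    have c1 : c ^ 3 = 1 := inj (by rw [map_pow, hc, conj_pow, z0]; simp)
    have c2 : c ≠ 1 := by
      rintro rfl
      rw [map_one, eq_comm, conj_eq_one_iff] at hc
      simp [hc] at z3
    rcases (by decide : ∀ c : C0, c ^ 3 = 1 → c ≠ 1 → c = (1, .r 1) ∨ c = (1, .r 1)⁻¹) c c1 c2 with rfl | rfl
    · exact ⟨s, ss, st, sw, mul_inv_eq_iff_eq_mul.1 (hc.symm.trans e2)⟩
    · rw [map_inv, e2] at hc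
      refine ⟨s * t, by rw [mul_assoc, ← mul_assoc t, ← st.eq, mul_assoc, tt, mul_one, ss],
        st.mul_left rfl, by
          rw [st.eq, mul_assoc t, mul_assoc t, ← st.eq, ← mul_assoc, ← mul_assoc, mul_assoc t,
            mul_assoc t, sw, ← mul_assoc, tw.inv_right.eq, mul_assoc, tt, mul_one], mul_inv_eq_iff_eq_mul.1 ?_⟩
      calc _ = s * (t * z * t⁻¹) * s⁻¹ := by group
        _ = _ := by rw [inv_eq_of_mul_eq_one_left tt, tz, ← conj_inv, ← hc, inv_inv]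
  refine ⟨φ, s, inj, e1 ▸ rg, ss, fun c => ?_, e2 ▸ H.c3' z3 w5 u2 h h', u, u2, e2 ▸ h'⟩
  rw [eq_mul_inv_iff_mul_eq, hφ, hφ, ← mul_assoc, cyc_inv w0 ss sw, mul_assoc, mul_assoc,
    (cm s sz st _).eq]

theorem HF.main (H : HF G) : Nat.card G = 50232960 ∧
    (∀ w : G, orderOf w = 5 → Nat.card (centralizer ({w} : Set G)) = 30) ∧
    (∀ z : G, orderOf z = 3 → (2 ∣ Nat.card (centralizer ({z} : Set G)) ∨
      5 ∣ Nat.card (centralizer ({z} : Set G))) → Nat.card (centralizer ({z} : Set G)) = 1080) ∧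
    ∃ χ : G → ℂ, IsIrrCharacter G χ ∧ χ 1 = 323 := by
  classical
  have := Fintype.ofFinite G
  obtain ⟨φ, s, inj, rg, ss, cnj, c1080, u, u2, uz⟩ := H.model
  obtain ⟨w, hw⟩ : ∃ w, w = φ (.ofAdd 1, 1) := ⟨_, rfl⟩
  obtain ⟨z, hz⟩ : ∃ z, z = φ (1, .r 1) := ⟨_, rfl⟩
  obtain ⟨t, ht⟩ : ∃ t, t = φ (1, .sr 0) := ⟨_, rfl⟩
  rw [← hw] at rg
  rw [← hz] at c1080 uz
  have w5 : orderOf w = 5 := by
    rw [hw, orderOf_injective φ inj]; exact orderOf_eq_prime (by decide) (by decide)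
  have z3 : orderOf z = 3 := by
    rw [hz, orderOf_injective φ inj]; exact orderOf_eq_prime (by decide) (by decide)
  have t2 : orderOf t = 2 := by
    rw [ht, orderOf_injective φ inj]; exact orderOf_eq_prime (by decide) (by decide)
  have tw : Commute t w := mem_centralizer_singleton_iff.1 (rg ▸ ⟨_, ht.symm⟩)
  have c30 : Nat.card (centralizer ({w} : Set G)) = 30 := by
    rw [← rg, ← Nat.card_congr (MonoidHom.ofInjective inj).toEquiv, Nat.card_prod, DihedralGroup.nat_card]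
    simp
  have sw : s * w * s⁻¹ = w⁻¹ := by rw [hw, ← cnj, ← map_inv φ]; rfl
  have wi : w ≠ w⁻¹ := fun e => by
    rw [eq_inv_iff_mul_eq_one, ← sq, ← orderOf_dvd_iff_pow_eq_one, w5] at e
    omega
  have m5 : ∀ c : C0, c ^ 5 = 1 → φ c ∈ zpowers w := fun c hc => by
    obtain ⟨k, -, rfl⟩ := (by decide : ∀ c : C0, c ^ 5 = 1 → ∃ k < 5, c = (.ofAdd 1, 1) ^ k) c hc
    rw [map_pow, ← hw]
    exact npow_mem_zpowers w k
  have k5 : ∀ y, orderOf y = 5 → Commute y w → centralizer ({y} : Set G) = centralizer {w} :=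
    fun y y5 h => by
      obtain ⟨c, rfl⟩ : y ∈ φ.range := rg ▸ mem_centralizer_singleton_iff.2 h
      rw [← cent_zpowers, ← cent_zpowers w, eq_of_le_of_card_ge (zpowers_le.2 (m5 c (inj (by
        rw [map_pow, map_one]; exact orderOf_dvd_iff_pow_eq_one.1 y5.dvd)))) (by simp only [Nat.card_zpowers, y5, w5, le_refl])]
  have n25 : ¬ 5 ^ 2 ∣ Nat.card G := fun e => by
    obtain ⟨y, y5, y1⟩ := exists_central (G := G) (p := 5) (Dvd.dvd.trans (by norm_num) e)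
    obtain ⟨g, hg⟩ := conj_into (pg_zpowers (y := w) (p := 5) (k := 1) (w5 ▸ by simp)) y1
    have a1 := (show Commute _ _ from mem_centralizer_singleton_iff.1 (hg w (mem_zpowers w))).symm.map
      (MulAut.conj g⁻¹)
    have a2 := card_conj (isConj_iff.2 ⟨g⁻¹, rfl⟩ : IsConj y _)
    rw [k5 (g⁻¹ * y * g⁻¹⁻¹) (y5 ▸ (MulAut.conj g⁻¹).orderOf_eq y) (by simpa [mul_assoc] using a1), c30] at a2
    rw [← (centralizer ({y} : Set G)).index_mul_card, a2] at e
    omega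
  obtain ⟨n, e, s1, s2, -, -, s5, -⟩ := syl_prime w5 n25
  have all5 : ∀ y, orderOf y = 5 → ∃ g, centralizer ({g * y * g⁻¹} : Set G) = centralizer {w} :=
    fun y y5 => by
      obtain ⟨g, k, hk⟩ := s5 y (y5 ▸ pow_orderOf_eq_one y)
      exact ⟨g, k5 _ (y5 ▸ (MulAut.conj g).orderOf_eq y) (hk ▸ (Commute.refl w).zpow_left k)⟩
  have c60 := card_orb (normalizer (zpowers w : Set G)) w
  rw [inf_of_le_right (show centralizer {w} ≤ normalizer (zpowers w : Set G) from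
    cent_zpowers w ▸ centralizer_le_normalizer _), c30, show {x | ∃ m ∈ normalizer (zpowers w : Set G),
      m * w * m⁻¹ = x} = {w, w⁻¹} from Set.ext fun x => ⟨by
        rintro ⟨m, m1, rfl⟩
        exact H.pm t2 w5 tw ((mem_normalizer_iff.1 m1 w).1 (mem_zpowers w)), by
        rintro (rfl | rfl)
        exacts [⟨1, one_mem _, by simp⟩, ⟨s, mem_normalizer_fintype (by
          rintro _ ⟨k, rfl⟩
          rw [← conj_zpow, sw]
          exact zpow_mem (inv_mem (mem_zpowers w)) k), sw⟩]⟩, Set.ncard_pair wi] at c60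
  obtain ⟨χ, ψ, x, a1, a2, a3⟩ := formulaZ φ (MonoidHom.fst _ _) s (fun c => (c.1⁻¹, c.2)) inj cnj
    (fun c e => wi (by
      rw [← sw, ← e, (mem_centralizer_singleton_iff.1 (rg ▸ ⟨c, rfl⟩ : φ c ∈ centralizer {w})),
        mul_inv_cancel_right])) (fun c => inv_mul_cancel c.1) (fun c d x h1 h2 => by
      obtain ⟨k, -, k1⟩ := (by decide : ∀ c : C0, c.1 ≠ 1 → ∃ k < 30, c ^ k = (.ofAdd 1, 1)) c h1
      have h3 : x * w * x⁻¹ = φ (d ^ k) := by rw [hw, ← k1, map_pow, map_pow, ← h2, conj_pow]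
      rcases H.pm t2 w5 tw (h3 ▸ m5 _ (inj (by
        rw [map_pow, ← h3, conj_pow, pow5 w5 (mem_zpowers w)]; simp))) with e | e
      · obtain ⟨a, ha⟩ : x ∈ φ.range := rg ▸ mem_centralizer_singleton_iff.2 (mul_inv_eq_iff_eq_mul.1 e)
        exact ⟨a, Or.inl ha.symm⟩
      · obtain ⟨a, ha⟩ : s * x ∈ φ.range := rg ▸ mem_centralizer_singleton_iff.2
          (mul_inv_eq_iff_eq_mul.1 (by
            calc _ = s * (x * w * x⁻¹) * s⁻¹ := by group
              _ = _ := by rw [e, ← conj_inv, sw, inv_inv]))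
        exact ⟨a, Or.inr (by rw [ha, ← mul_assoc, ss, one_mul])⟩) ss (t := t)
    (fun v => ⟨fun e => ord2.1 (by
      obtain ⟨c, rfl⟩ := isConj_iff.1 e
      exact t2 ▸ (MulAut.conj c).orderOf_eq t), fun e => H.one _ _ t2 (ord2.2 e)⟩)
    (by decide +kernel) (.ofAdd 1, 1) (by decide) (by decide +kernel) _ ht.symm 0 (by decide)
  rw [H.card t t2] at a2 a3
  rw [show Nat.card C0 = 30 by rw [Nat.card_prod, DihedralGroup.nat_card]; simp,
    show #(univ.filter fun c : C0 => (c.1⁻¹, c.2) * c = 1) = 20 by decide +kernel] at a3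
  obtain ⟨v, v2, v1⟩ := exists_central (G := G) (p := 2) (t2 ▸ orderOf_dvd_natCard t)
  have b1 := (centralizer ({v} : Set G)).index_mul_card
  have b2 := c1080 ▸ card_subgroup_dvd_card (centralizer ({z} : Set G))
  rw [H.card v v2] at b1
  rw [c60] at s1
  obtain ⟨r1, r2⟩ := num (deg_dvd χ.2 (dg_eq χ)) (a1 ▸ deg_dvd ψ.2 (dg_eq ψ)) (dg_pos χ) a2 a3
    (by omega) (by omega) (by omega) (by unfold Nat.ModEq at s2; omega)
  refine ⟨r1, fun y y5 => ?_, fun y y3 h => ?_, χ.1, χ.2, by rw [dg_eq, r2]; rfl⟩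
  · obtain ⟨g, hg⟩ := all5 y y5
    rw [card_conj (isConj_iff.2 ⟨g, rfl⟩), hg, c30]
  rw [← c1080]
  rcases h with h | h <;> obtain ⟨a, a1, a2⟩ := exists_ord _ h
  · obtain ⟨g, hg⟩ := isConj_iff.1 (H.one a u a2 u2)
    exact card_conj ((isConj_iff.2 ⟨g, rfl⟩).trans ((H.three u z u2 z3 uz).2.2.2 _
      (y3 ▸ (MulAut.conj g).orderOf_eq y) (hg ▸ (show Commute a y from
        mem_centralizer_singleton_iff.1 a1).map (MulAut.conj g))).symm)
  · obtain ⟨g, hg⟩ := all5 a a2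
    obtain ⟨c, hc⟩ : g * y * g⁻¹ ∈ φ.range := rg ▸ hg ▸ mem_centralizer_singleton_iff.2
      ((show Commute a y from mem_centralizer_singleton_iff.1 a1).symm.map (MulAut.conj g))
    have c3 : orderOf c = 3 := by rw [← orderOf_injective φ inj, hc, ← y3]; exact (MulAut.conj g).orderOf_eq y
    obtain ⟨b, hb⟩ := (by decide : ∀ c : C0, c ^ 3 = 1 → c ≠ 1 → ∃ b, b * c * b⁻¹ = (1, .r 1)) c
      (orderOf_dvd_iff_pow_eq_one.1 c3.dvd) (fun e => by simp [e] at c3)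
    exact card_conj ((isConj_iff.2 ⟨g, hc.symm⟩).trans (isConj_iff.2 ⟨φ b, by
      rw [hz, ← hb, map_mul, map_mul, map_inv]⟩))

end Cfsg.Agent.H4.J3
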