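import Cfsg.Agent.H4.GLOrd
import Cfsg.Agent.H4.Diag2
import Cfsg.Prelude.Def_Transfer

/-! Normal elementary abelian subgroups of Sylow `2`-subgroups of `GL_n(q)`, `q` odd. -/

set_option autoImplicit false

namespace Cfsg.Agent.H4

open Module

theorem exists_normal_elem {G H : Type*} [Group G] [Group H] [Finite G] (ι : H →* G)
    (hι : Function.Injective ι)
    (hc : (Nat.card H).factorization 2 = (Nat.card G).factorization 2) (D : Subgroup H)
    [hn : D.Normal] (hD : IsElementaryAbelian 2 D) (S : Sylow 2 G) :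
    ∃ E : Subgroup S, E.Normal ∧ IsElementaryAbelian 2 E ∧ Nat.card E = Nat.card D := by
  have : Finite H := Finite.of_injective ι hι
  obtain ⟨P⟩ := (inferInstance : Nonempty (Sylow 2 H))
  obtain ⟨e⟩ := sylow_equiv_of_injective (ι.comp (P : Subgroup H).subtype)
    (hι.comp Subtype.val_injective) (by rw [P.card_eq_multiplicity, hc]) S
  have hDP : D ≤ P := IsPGroup.le_sylow_of_normal (fun a => ⟨1, Subtype.ext (hD.2 a a.2)⟩) P
  refine ⟨(D.subgroupOf P).comap e.toMonoidHom, inferInstance, ⟨⟨⟨fun a b => ?_⟩⟩, fun a ha => ?_⟩,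
    ?_⟩
  · apply Subtype.ext
    apply e.injective
    apply Subtype.ext
    have := hD.1.1.1 ⟨_, a.2⟩ ⟨_, b.2⟩
    have h2 := congrArg Subtype.val this
    simp only [Subgroup.coe_mul, map_mul]
    exact h2
  · apply e.injective
    apply Subtype.ext
    simpa using hD.2 _ ha
  · rw [← Nat.card_congr (Subgroup.subgroupOfEquivOfLe hDP).toEquiv]
    exact Nat.card_congr (e.toEquiv.subtypeEquiv fun _ => Iff.rfl)

section wreath

variable (F : Type*) [Field F] (m d k : ℕ)

/-- The stabiliser of a decomposition into `m` spaces of dimension `d` and one of dimension `k`. -/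
abbrev Wr := ((Fin m → GL (Fin d) F) ⋊[mulAutArrow] Equiv.Perm (Fin m)) × GL (Fin k) F

/-- The natural representation of `Wr`. -/
noncomputable def wrRep : Representation F (Wr F m d k) ((Fin m → Fin d → F) × (Fin k → F)) where
  toFun g := (LinearMap.pi fun j => Matrix.toLin' (g.1.left j : Matrix _ _ F) ∘ₗ
    LinearMap.proj (g.1.right⁻¹ j)).prodMap (Matrix.toLin' (g.2 : Matrix _ _ F))
  map_one' := LinearMap.ext fun v => by ext <;> simp
  map_mul' g h := LinearMap.ext fun v => by
    ext <;> simp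
    rfl

theorem wrRep_injective (hd : 0 < d) : Function.Injective (wrRep F m d k) := by
  rw [injective_iff_map_eq_one]
  rintro ⟨⟨a, σ⟩, h⟩ H
  have h1 : ∀ (v : Fin m → Fin d → F) j, (a j : Matrix _ _ F).mulVec (v (σ⁻¹ j)) = v j :=
    fun v j => congrFun (congrArg Prod.fst (LinearMap.congr_fun H (v, 0))) j
  have h2 : ∀ v : Fin k → F, (h : Matrix _ _ F).mulVec v = v :=
    fun v => congrArg Prod.snd (LinearMap.congr_fun H (0, v))
  have h3 : σ = 1 := by
    rw [← inv_eq_one]
    ext j : 1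
    by_contra hj
    change ¬ σ⁻¹ j = j at hj
    have := h1 (Pi.single j 1) j
    rw [Pi.single_eq_of_ne hj, Matrix.mulVec_zero, Pi.single_eq_same] at this
    exact zero_ne_one (congrFun this ⟨0, hd⟩)
  subst h3
  have h4 : ∀ {n : ℕ} (g : GL (Fin n) F), (∀ v, g.val.mulVec v = v) → g = 1 :=
    fun g hg => Units.ext (Matrix.toLin'.injective (LinearMap.ext fun v => by simp [hg v]))
  rw [h4 h h2, show a = 1 from funext fun j => h4 _ fun v => h1 (fun _ => v) j]
  rfl

theorem exists_wr_hom {n : ℕ} (hd : 0 < d) (hn : m * d + k = n) :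
    ∃ ι : Wr F m d k →* GL (Fin n) F, Function.Injective ι :=
  ⟨repGL (Module.finBasisOfFinrankEq F _ (by simp [finrank_pi_fintype, hn])) (wrRep F m d k),
    repGL_injective _ (wrRep_injective F m d k hd)⟩

/-- The subgroup of blockwise signs. -/
def wrSigns : Subgroup (Wr F m d k) :=
  ((Subgroup.pi Set.univ fun _ => Subgroup.zpowers (-1)).map SemidirectProduct.inl).prod
    (Subgroup.zpowers (-1))

theorem mem_zpowers_neg_one {n : ℕ} {g : GL (Fin n) F} :
    g ∈ Subgroup.zpowers (-1 : GL (Fin n) F) ↔ g = 1 ∨ g = -1 := by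
  constructor
  · rintro ⟨i, rfl⟩
    rcases Int.even_or_odd i with h | h
    exacts [Or.inl h.neg_one_zpow, Or.inr h.neg_one_zpow]
  · rintro (rfl | rfl)
    exacts [one_mem _, Subgroup.mem_zpowers _]

theorem mem_wrSigns {g : Wr F m d k} : g ∈ wrSigns F m d k ↔
    g.1.right = 1 ∧ (∀ j, g.1.left j = 1 ∨ g.1.left j = -1) ∧ (g.2 = 1 ∨ g.2 = -1) := by
  obtain ⟨⟨a, σ⟩, h⟩ := g
  simp only [wrSigns, Subgroup.mem_prod, Subgroup.mem_map, Subgroup.mem_pi, Set.mem_univ,
    mem_zpowers_neg_one, true_imp_iff]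
  constructor
  · rintro ⟨⟨b, h1, h2⟩, h3⟩
    obtain ⟨rfl, rfl⟩ := SemidirectProduct.ext_iff.1 h2
    exact ⟨rfl, h1, h3⟩
  · rintro ⟨rfl, h1, h3⟩
    exact ⟨⟨a, h1, rfl⟩, h3⟩

instance wrSigns_normal : (wrSigns F m d k).Normal where
  conj_mem x hx g := by
    rw [mem_wrSigns] at hx ⊢
    obtain ⟨h1, h2, h3⟩ := hx
    refine ⟨by simp [h1], fun j => ?_, by rcases h3 with h | h <;> simp [h]⟩
    have e : (g * x * g⁻¹).1.left j =
        g.1.left j * x.1.left (g.1.right⁻¹ j) * (g.1.left j)⁻¹ := by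
      simp [h1]
      rfl
    rw [e]
    rcases h2 (g.1.right⁻¹ j) with h | h <;> rw [h] <;> simp

theorem wrSigns_elem : IsElementaryAbelian 2 (wrSigns F m d k) := by
  refine ⟨⟨⟨fun a b => Subtype.ext ?_⟩⟩, fun a ha => ?_⟩
  · obtain ⟨a1, a2, a3⟩ := (mem_wrSigns F m d k).1 a.2
    obtain ⟨b1, b2, b3⟩ := (mem_wrSigns F m d k).1 b.2
    refine Prod.ext (SemidirectProduct.ext (funext fun j => ?_) (by simp [a1, b1])) ?_
    · rcases a2 j with h | h <;> rcases b2 j with h' | h' <;> simp [a1, b1, h, h']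
    · rcases a3 with h | h <;> rcases b3 with h' | h' <;> simp [h, h']
  · obtain ⟨a1, a2, a3⟩ := (mem_wrSigns F m d k).1 ha
    rw [pow_two]
    refine Prod.ext (SemidirectProduct.ext (funext fun j => ?_) (by simp [a1])) ?_
    · rcases a2 j with h | h <;> simp [a1, h]
    · rcases a3 with h | h <;> simp [h]

theorem card_zpowers_neg_one (h2 : (2 : F) ≠ 0) {n : ℕ} (hn : 0 < n) :
    Nat.card (Subgroup.zpowers (-1 : GL (Fin n) F)) = 2 := by
  rw [Nat.card_zpowers]
  refine orderOf_eq_prime (by simp) fun h => h2 ?_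
  have := congrArg (fun g : GL (Fin n) F => (g : Matrix (Fin n) (Fin n) F) ⟨0, hn⟩ ⟨0, hn⟩) h
  simp at this
  linear_combination -this

theorem card_wrSigns (h2 : (2 : F) ≠ 0) (hd : 0 < d) (hk : k ≤ 1) :
    Nat.card (wrSigns F m d k) = 2 ^ (m + k) := by
  rw [wrSigns, Nat.card_congr (Subgroup.prodEquiv _ _).toEquiv, Nat.card_prod,
    ← Nat.card_congr (Subgroup.equivMapOfInjective _ _ SemidirectProduct.inl_injective).toEquiv,
    pow_add]
  congr 1
  · rw [Nat.card_congr ((Equiv.subtypePiEquivPi (p := fun (_ : Fin m) (g : GL (Fin d) F) =>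
      g ∈ Subgroup.zpowers (-1))).symm.trans (Equiv.subtypeEquivRight fun a => by
      simp [Subgroup.mem_pi])).symm, Nat.card_pi]
    simp [card_zpowers_neg_one F h2 hd]
  · rcases Nat.le_one_iff_eq_zero_or_eq_one.1 hk with rfl | rfl
    · exact Nat.card_unique
    · exact card_zpowers_neg_one F h2 one_pos

theorem card_wr : Nat.card (Wr F m d k) =
    Nat.card (GL (Fin d) F) ^ m * m.factorial * Nat.card (GL (Fin k) F) := by
  rw [Nat.card_prod, SemidirectProduct.card, Nat.card_pi, Nat.card_perm]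
  simp

end wreath

section num

theorem fact_pow_sub_one_odd {q i : ℕ} (hq : 1 < q) (ho : Odd q) (hi : Odd i) :
    (q ^ i - 1).factorization 2 = (q - 1).factorization 2 := by
  have := factorization_pow_mul_sub_one (d := 1) (k := i) hq Nat.prime_two one_pos
    ho.not_two_dvd_nat (by obtain ⟨k, rfl⟩ := ho; simp)
    hi.not_two_dvd_nat
  simpa using this

theorem fact_pow_sub_one {q i : ℕ} (hq : 1 < q) (h4 : q % 4 = 1) (hi : i ≠ 0) :
    (q ^ i - 1).factorization 2 = (q - 1).factorization 2 + i.factorization 2 := by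
  rcases Nat.even_or_odd i with h | h
  · have h1 := padicValNat.pow_two_sub_one hq (by omega) hi h
    have h2 : padicValNat 2 (q + 1) = 1 := by
      obtain ⟨k, hk⟩ : ∃ k, q + 1 = 2 * (2 * k + 1) := ⟨q / 4, by omega⟩
      rw [hk, padicValNat.mul two_ne_zero (by omega), padicValNat.eq_zero_of_not_dvd (n := 2 * k + 1) (by omega)]
      simp
    simp only [Nat.factorization_def _ Nat.prime_two]
    omega
  · rw [fact_pow_sub_one_odd hq (Nat.odd_iff.2 (by omega)) h,
      Nat.factorization_eq_zero_of_not_dvd (n := i) h.not_two_dvd_nat,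
      add_zero]

theorem sum_fact_one {q : ℕ} (hq : 1 < q) (h4 : q % 4 = 1) (m : ℕ) :
    ∑ i ∈ Finset.range m, (q ^ (i + 1) - 1).factorization 2 =
      m * (q - 1).factorization 2 + m.factorial.factorization 2 := by
  induction m with
  | zero => simp
  | succ m ih =>
    rw [Finset.sum_range_succ, ih, fact_pow_sub_one hq h4 (Nat.succ_ne_zero m), Nat.factorial_succ,
      Nat.factorization_mul (Nat.succ_ne_zero m) m.factorial_ne_zero, Finsupp.add_apply]
    ring

theorem sum_fact_two {q : ℕ} (hq : 1 < q) (ho : Odd q) (m : ℕ) :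
    ∑ i ∈ Finset.range (m * 2), (q ^ (i + 1) - 1).factorization 2 =
      m * ((q - 1).factorization 2 + (q ^ 2 - 1).factorization 2) +
        m.factorial.factorization 2 := by
  induction m with
  | zero => simp
  | succ m ih =>
    have h1 : q ^ 2 % 4 = 1 := by
      obtain ⟨k, rfl⟩ := ho
      rw [show (2 * k + 1) ^ 2 = 4 * (k * k + k) + 1 by ring]; omega
    rw [show (m + 1) * 2 = m * 2 + 1 + 1 by ring, Finset.sum_range_succ, Finset.sum_range_succ, ih,
      fact_pow_sub_one_odd hq ho (i := m * 2 + 1) ⟨m, by ring⟩,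
      show m * 2 + 1 + 1 = 2 * (m + 1) by ring, pow_mul,
      fact_pow_sub_one (Nat.one_lt_pow two_ne_zero hq) h1 (Nat.succ_ne_zero m), Nat.factorial_succ,
      Nat.factorization_mul (Nat.succ_ne_zero m) m.factorial_ne_zero, Finsupp.add_apply]
    ring

end num

theorem card_le_of_signs {E ι : Type*} [Group E] [Fintype ι] [DecidableEq (E →* ℤˣ)]
    (χ : ι → E →* ℤˣ) (h : ∀ e, (∀ i, χ i e = 1) → e = 1) :
    Nat.card E ≤ 2 ^ (Finset.univ.image χ).card := by
  have := Nat.card_le_card_of_injective (fun (e : E) (c : Finset.univ.image χ) => c.1 e)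
    fun x y hxy => by
      rw [← mul_inv_eq_one]
      refine h _ fun i => ?_
      have := congrFun hxy ⟨χ i, by simp⟩
      simp only at this
      rw [map_mul, this, map_inv, mul_inv_cancel]
  rwa [Nat.card_fun, Nat.card_eq_fintype_card (α := ℤˣ), Fintype.card_units_int,
    Nat.card_eq_fintype_card (α := Finset.univ.image χ), Fintype.card_coe] at this

theorem two_mul_card_image_le {ι κ : Type*} [Fintype ι] [DecidableEq κ] (χ : ι → κ)
    (h : ∀ i j, (∀ k, χ k = χ i → k = i) → (∀ k, χ k = χ j → k = j) → i = j) :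
    2 * (Finset.univ.image χ).card ≤ Fintype.card ι + 1 := by
  classical
  rw [← Finset.card_univ, Finset.card_eq_sum_card_image χ Finset.univ]
  set T := Finset.univ.image χ
  have h1 : (T.filter fun c => (Finset.univ.filter fun i => χ i = c).card ≤ 1).card ≤ 1 := by
    rw [Finset.card_le_one]
    intro c hc c' hc'
    rw [Finset.mem_filter, Finset.card_le_one] at hc hc'
    obtain ⟨i, -, rfl⟩ := Finset.mem_image.1 hc.1
    obtain ⟨j, -, rfl⟩ := Finset.mem_image.1 hc'.1
    rw [h i j (fun k hk => hc.2 k (by simpa) i (by simp)) fun k hk => hc'.2 k (by simpa) j (by simp)]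
  rw [Finset.card_filter] at h1
  calc 2 * T.card = ∑ _c ∈ T, 2 := by simp [mul_comm]
    _ ≤ ∑ c ∈ T, ((Finset.univ.filter fun i => χ i = c).card +
        if (Finset.univ.filter fun i => χ i = c).card ≤ 1 then 1 else 0) := by
      refine Finset.sum_le_sum fun c hc => ?_
      obtain ⟨i, -, rfl⟩ := Finset.mem_image.1 hc
      have : 0 < (Finset.univ.filter fun k => χ k = χ i).card :=
        Finset.card_pos.2 ⟨i, by simp⟩
      split_ifs <;> omega
    _ ≤ _ := by rw [Finset.sum_add_distrib]; omega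

theorem exists_conj_mem_sylow {G : Type*} [Group G] [Finite G] {p : ℕ} [Fact p.Prime]
    (S : Sylow p G) {C : Subgroup G} (hS : (S : Subgroup G) ≤ C) {g : G} (hg : g ∈ C) {k : ℕ}
    (hk : g ^ p ^ k = 1) : ∃ h ∈ C, h * g * h⁻¹ ∈ (S : Subgroup G) := by
  have h1 : IsPGroup p (Subgroup.zpowers (⟨g, hg⟩ : C)) := by
    rintro ⟨_, i, rfl⟩
    refine ⟨k, Subtype.ext (Subtype.ext ?_)⟩
    simp only [SubgroupClass.coe_pow, SubgroupClass.coe_zpow, OneMemClass.coe_one]
    rw [← zpow_natCast, ← zpow_mul, mul_comm, zpow_mul, zpow_natCast, hk, one_zpow]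
  obtain ⟨Q, hQ⟩ := h1.exists_le_sylow
  obtain ⟨h, hh⟩ := MulAction.exists_smul_eq C Q (S.subtype hS)
  refine ⟨h, h.2, ?_⟩
  have h2 : h * ⟨g, hg⟩ * h⁻¹ ∈ ((h • Q : Sylow p C) : Subgroup C) :=
    Subgroup.smul_mem_pointwise_smul _ (MulAut.conj h) _ (hQ (Subgroup.mem_zpowers _))
  rw [hh] at h2
  exact h2

section upper

variable {F V : Type*} [Field F] [AddCommGroup V] [Module F V]

theorem pow_four_of_monomial {ι : Type*} (b : Basis ι F V) (hsq : ∀ c : F, c * c ≠ -1)
    {A : ι → Prop} {T : End F V} (h8 : T ^ 8 = 1) {α β γ : F}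
    (h3 : T ^ 3 = α • T ^ 2 + β • T ^ 1 + γ • T ^ 0)
    (hA : ∀ i, A i → ∃ j, A j ∧ ∃ c : F, T (b i) = c • b j) {i : ι} (hi : A i) :
    (T ^ 4) (b i) = b i := by
  classical
  choose π hπ c hc using hA
  let σ : {i // A i} → {i // A i} := fun i => ⟨π i.1 i.2, hπ i.1 i.2⟩
  have hinj : Function.Injective T := Function.LeftInverse.injective (g := (T ^ 7 : End F V))
    fun v => by rw [← Module.End.mul_apply, ← pow_succ, h8]; rfl
  have key : ∀ k : ℕ, ∃ d : F, d ≠ 0 ∧ (T ^ k) (b i) = d • b (σ^[k] ⟨i, hi⟩).1 := by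
    intro k
    induction k with
    | zero => exact ⟨1, one_ne_zero, by simp⟩
    | succ k ih =>
      obtain ⟨d, d0, hd⟩ := ih
      refine ⟨d * c _ (σ^[k] ⟨i, hi⟩).2, mul_ne_zero d0 fun h => ?_, ?_⟩
      · have := hc _ (σ^[k] ⟨i, hi⟩).2
        rw [h, zero_smul, map_eq_zero_iff _ hinj] at this
        exact b.ne_zero _ this
      · rw [pow_succ', Module.End.mul_apply, hd, map_smul, hc _ (σ^[k] ⟨i, hi⟩).2,
          Function.iterate_succ_apply', mul_smul]
  choose d d0 hd using key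
  have e8 : σ^[8] ⟨i, hi⟩ = ⟨i, hi⟩ := by
    by_contra h
    have := congrArg (fun v => b.repr v i) (hd 8)
    simp only [h8, Module.End.one_apply, map_smul, Basis.repr_self, Finsupp.smul_apply,
      Finsupp.single_eq_same, Finsupp.single_eq_of_ne' (fun h' => h (Subtype.ext h'))] at this
    simp at this
  have e3 : σ^[3] ⟨i, hi⟩ = σ^[2] ⟨i, hi⟩ ∨ σ^[3] ⟨i, hi⟩ = σ^[1] ⟨i, hi⟩ ∨
      σ^[3] ⟨i, hi⟩ = σ^[0] ⟨i, hi⟩ := by
    by_contra h
    push Not at h
    have := congrArg (fun v => b.repr v (σ^[3] ⟨i, hi⟩).1) (LinearMap.congr_fun h3 (b i))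
    simp only [LinearMap.add_apply, LinearMap.smul_apply, hd, map_add, map_smul, Basis.repr_self,
      Finsupp.add_apply, Finsupp.smul_apply, Finsupp.single_eq_same,
      Finsupp.single_eq_of_ne (fun h' => h.1 (Subtype.ext h')),
      Finsupp.single_eq_of_ne (fun h' => h.2.1 (Subtype.ext h')),
      Finsupp.single_eq_of_ne (fun h' => h.2.2 (Subtype.ext h'))] at this
    exact d0 3 (by simpa using this)
  have e2 : σ^[2] ⟨i, hi⟩ = ⟨i, hi⟩ := by
    have e9 : σ^[9] ⟨i, hi⟩ = σ ⟨i, hi⟩ := by rw [Function.iterate_succ_apply', e8]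
    have e1 : σ ⟨i, hi⟩ = ⟨i, hi⟩ → σ^[2] ⟨i, hi⟩ = ⟨i, hi⟩ := fun h => Function.iterate_fixed h 2
    rcases e3 with h | h | h
    · apply e1
      rw [← e9, show 9 = 6 + 3 by rfl, Function.iterate_add_apply, h, ← Function.iterate_add_apply,
        e8]
    · have := congrArg σ^[7] h
      rwa [← Function.iterate_add_apply, ← Function.iterate_add_apply, e8, show 7 + 3 = 2 + 8 by rfl,
        Function.iterate_add_apply, e8] at this
    · apply e1
      rw [← e9, show 9 = 3 * 3 by rfl, Function.iterate_mul]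
      exact Function.iterate_fixed h 3
  have f2 := hd 2
  rw [e2] at f2
  have f4 : (T ^ 4) (b i) = (d 2 * d 2) • b i := by
    rw [show 4 = 2 + 2 by rfl, pow_add, Module.End.mul_apply, f2, map_smul, f2, mul_smul]
  have f8 : (d 2 * d 2 * (d 2 * d 2)) • b i = (1 : F) • b i := by
    rw [mul_smul, ← f4, ← map_smul, ← f4, ← Module.End.mul_apply, ← pow_add, h8, one_smul]; rfl
  rcases mul_self_eq_one_iff.1 (smul_left_injective F (b.ne_zero i) f8) with h | h
  · rw [f4, h, one_smul]
  · exact absurd h (hsq _)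

theorem exists_tau [Fintype F] (h : Fintype.card F % 4 = 3) :
    ∃ τ δ : F, δ * δ = 1 ∧ τ * τ = 2 * δ := by
  have h1 : ¬ IsSquare (-1 : F) := by rw [FiniteField.isSquare_neg_one_iff]; simp [h]
  by_cases h2 : IsSquare (2 : F)
  · obtain ⟨τ, hτ⟩ := h2
    exact ⟨τ, 1, by simp, by rw [← hτ, mul_one]⟩
  · obtain ⟨τ, hτ⟩ : IsSquare (-2 : F) := by
      rw [FiniteField.isSquare_two_iff] at h2
      rw [FiniteField.isSquare_neg_two_iff]
      omega
    exact ⟨τ, -1, by simp, by rw [← hτ]; ring⟩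

theorem isolated_unique [Fintype F] (hq : Fintype.card F % 4 = 3) {G ι : Type*} [Group G]
    [Finite G] (ρ : Representation F G V) (hρ : Function.Injective ρ)
    (hρ' : ∀ f : End F V, f ^ 8 = 1 → ∃ g, ρ g = f) (S : Sylow 2 G) (E : Subgroup S) [hE : E.Normal]
    (b : Basis ι F V) (χ : ι → E →* ℤˣ) (hχ : ∀ i (e : E), ρ e (b i) = χ i e • b i) {i0 i1 : ι}
    (h0 : ∀ k, χ k = χ i0 → k = i0) (h1 : ∀ k, χ k = χ i1 → k = i1) : i0 = i1 := by
  classical
  by_contra hne
  have hsq : ∀ c : F, c * c ≠ -1 := fun c hc => by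
    have : IsSquare (-1 : F) := ⟨c, hc.symm⟩
    rw [FiniteField.isSquare_neg_one_iff] at this
    exact this hq
  have h2 : (2 : F) ≠ 0 := fun h => hsq 1 (by linear_combination h)
  let A : ι → Prop := fun i => ∀ k, χ k = χ i → k = i
  have hc : ∀ (e : E) v j, b.repr (ρ e v) j = ((χ j e : ℤ) : F) * b.repr v j := by
    intro e v j
    have : b.coord j ∘ₗ ρ e = ((χ j e : ℤ) : F) • b.coord j := b.ext fun i => by
      by_cases h : i = j
      · subst h; simp [hχ, Units.smul_def]
      · simp [hχ, Units.smul_def, Finsupp.single_eq_of_ne' h]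
    exact LinearMap.congr_fun this v
  have hcast : ∀ u v : ℤˣ, ((u : ℤ) : F) = ((v : ℤ) : F) → u = v := by
    intro u v h
    rcases Int.units_eq_one_or u with rfl | rfl <;> rcases Int.units_eq_one_or v with rfl | rfl
    · rfl
    · exact absurd (by simp at h; linear_combination h) h2
    · exact absurd (by simp at h; linear_combination -h) h2
    · rfl
  have K1 : ∀ (s : S) i j, b.repr (ρ s (b i)) j ≠ 0 → ∀ e e' : E, (e' : S) * s = s * e →
      χ j e' = χ i e := by
    intro s i j h e e' he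
    have h3 := hc e' (ρ s (b i)) j
    rw [← Module.End.mul_apply, ← map_mul, ← Subgroup.coe_mul, he, Subgroup.coe_mul, map_mul,
      Module.End.mul_apply, hχ, Units.smul_def, map_zsmul, map_zsmul, Finsupp.smul_apply,
      zsmul_eq_mul] at h3
    exact hcast _ _ (mul_right_cancel₀ h h3).symm
  have hinv : ∀ (s : S) v, ρ s (ρ (s⁻¹ : S) v) = v := fun s v => by
    rw [← Module.End.mul_apply, ← map_mul]; simp
  have hinv' : ∀ (s : S) v, ρ (s⁻¹ : S) (ρ s v) = v := fun s v => by
    rw [← Module.End.mul_apply, ← map_mul]; simp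
  have single : ∀ v i, (∀ k, b.repr v k ≠ 0 → k = i) → v = b.repr v i • b i := fun v i h =>
    b.repr.injective (Finsupp.ext fun k => by
      by_cases hk : k = i
      · subst hk; simp
      · simp [Finsupp.single_eq_of_ne hk]
        by_contra h'; exact hk (h k h'))
  have K2 : ∀ (s : S) i, A i → ∃ j, A j ∧ ∃ c : F, ρ s (b i) = c • b j := by
    intro s i hi
    obtain ⟨j, hj⟩ : ∃ j, b.repr (ρ s (b i)) j ≠ 0 := by
      by_contra h
      push Not at h
      have : ρ s (b i) = 0 := b.repr.injective (Finsupp.ext fun k => by simpa using h k)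
      exact b.ne_zero i (by rw [← hinv' s (b i), this, map_zero])
    have h3 : ∀ j', χ j' = χ j → ∃ c : F, c ≠ 0 ∧ b j' = c • ρ s (b i) := by
      intro j' hj'
      have h4 := single (ρ (s⁻¹ : S) (b j')) i fun k hk => hi k (MonoidHom.ext fun e => by
        rw [K1 s⁻¹ j' k hk ⟨s * e * s⁻¹, hE.conj_mem _ e.2 s⟩ e (by simp [mul_assoc]), hj']
        exact K1 s i j hj e _ (by simp))
      have h5 := congrArg (ρ s) h4
      rw [hinv, map_smul] at h5
      exact ⟨_, fun h => b.ne_zero j' (by rw [h5, h, zero_smul]), h5⟩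
    obtain ⟨c, c0, hc'⟩ := h3 j rfl
    have h6 : ρ s (b i) = c⁻¹ • b j := by rw [hc', smul_smul, inv_mul_cancel₀ c0, one_smul]
    refine ⟨j, fun k hk => ?_, c⁻¹, h6⟩
    obtain ⟨c', -, hc''⟩ := h3 k hk
    by_contra h
    have := congrArg (fun v => b.repr v k) hc''
    simp [h6, Finsupp.single_eq_of_ne h] at this
  have K3 : ∀ (s : S) i j, ¬ A i → A j → b.repr (ρ s (b i)) j = 0 := by
    intro s i j hi hj
    by_contra h
    obtain ⟨k, hk, c, hc'⟩ := K2 s⁻¹ j hj
    have c0 : c ≠ 0 := fun h => b.ne_zero j (by rw [← hinv s (b j), hc', h, zero_smul, map_zero])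
    refine hi (hk i (MonoidHom.ext fun e => ?_) ▸ hk)
    rw [K1 s⁻¹ j k (by rw [hc']; simpa using c0) ⟨s * e * s⁻¹, hE.conj_mem _ e.2 s⟩ e
      (by simp [mul_assoc])]
    exact (K1 s i j h e _ (by simp)).symm
  let z : End F V := b.constr F fun i => if A i then -b i else b i
  have z1 : ∀ i, A i → z (b i) = -b i := fun i hi => by simp [z, hi]
  have z2 : ∀ i, ¬ A i → z (b i) = b i := fun i hi => by simp [z, hi]
  have z3 : ∀ v j, b.repr (z v) j = (if A j then -1 else 1) * b.repr v j := by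
    intro v j
    have : b.coord j ∘ₗ z = (if A j then (-1 : F) else 1) • b.coord j := b.ext fun i => by
      by_cases h : i = j
      · subst h; by_cases hi : A i <;> simp [z1, z2, hi]
      · by_cases hi : A i <;> by_cases hj : A j <;>
          simp [z1, z2, hi, hj, Finsupp.single_eq_of_ne' h]
    exact LinearMap.congr_fun this v
  have zz : z * z = 1 := b.ext fun i => by by_cases hi : A i <;> simp [z1, z2, hi]
  obtain ⟨z', hz'⟩ := hρ' z (by rw [show 8 = 2 * 4 by rfl, pow_mul, pow_two, zz, one_pow])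
  have hC : ∀ g, g ∈ Subgroup.centralizer {z'} ↔ z * ρ g = ρ g * z := fun g => by
    rw [Subgroup.mem_centralizer_singleton_iff, ← hρ.eq_iff, map_mul, map_mul, hz', eq_comm]
  have hSC : (S : Subgroup G) ≤ Subgroup.centralizer {z'} := fun s hs => (hC s).2 (b.ext fun i => by
    by_cases hi : A i
    · obtain ⟨j, hj, c, h⟩ := K2 ⟨s, hs⟩ i hi
      simp only [Module.End.mul_apply, z1 i hi, map_neg]
      rw [show ρ s (b i) = c • b j from h, map_smul, z1 j hj, smul_neg]
    · simp only [Module.End.mul_apply, z2 i hi]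
      refine b.repr.injective (Finsupp.ext fun j => ?_)
      rw [z3]
      split_ifs with hj
      · rw [show b.repr (ρ s (b i)) j = 0 from K3 ⟨s, hs⟩ i j hi hj, mul_zero]
      · rw [one_mul])
  obtain ⟨τ, δ, hδ, hτ⟩ := exists_tau hq
  let g : End F V := b.constr F fun i =>
    if i = i0 then b i1 else if i = i1 then -δ • b i0 + τ • b i1 else b i
  have g0 : g (b i0) = b i1 := by simp [g]
  have g1 : g (b i1) = -δ • b i0 + τ • b i1 := by simp [g, Ne.symm hne]
  have g2 : ∀ i, i ≠ i0 → i ≠ i1 → g (b i) = b i := fun i a1 a2 => by simp [g, a1, a2]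
  have hext : ∀ {f f' : End F V}, f (b i0) = f' (b i0) → f (b i1) = f' (b i1) →
      (∀ i, i ≠ i0 → i ≠ i1 → f (b i) = f' (b i)) → f = f' := fun a1 a2 a3 => b.ext fun i => by
    by_cases c1 : i = i0
    · rw [c1, a1]
    by_cases c2 : i = i1
    · rw [c2, a2]
    exact a3 i c1 c2
  have g40 : (g ^ 4) (b i0) = -b i0 := by
    simp only [pow_succ, pow_zero, Module.End.mul_apply, Module.End.one_apply, g0, g1, map_add,
      map_smul]
    match_scalars <;> grind
  have g41 : (g ^ 4) (b i1) = -b i1 := by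
    rw [← g0, ← Module.End.mul_apply, ← pow_succ, pow_succ', Module.End.mul_apply, g40, map_neg]
  have g8 : g ^ 8 = 1 := by
    rw [show 8 = 4 + 4 by rfl, pow_add]
    exact hext (by simp [g40]) (by simp [g41]) fun i a1 a2 => by
      simp [pow_succ, g2 i a1 a2]
  have g3 : g ^ 3 = (τ + 1) • g ^ 2 + (-δ - τ) • g ^ 1 + δ • g ^ 0 := by
    refine hext ?_ ?_ fun i a1 a2 => ?_
    all_goals
      simp only [pow_succ, pow_zero, Module.End.mul_apply, Module.End.one_apply, g0, g1, map_add,
        map_smul, LinearMap.add_apply, LinearMap.smul_apply]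
    · module
    · module
    · simp only [g2 i a1 a2]; module
  have gz : z * g = g * z := hext (by simp [g0, z1 _ h0, z1 _ h1])
    (by simp [g1, z1 _ h0, z1 _ h1]; abel) fun i a1 a2 => by
      by_cases hi : A i <;> simp [z1, z2, hi, g2 i a1 a2]
  have gz' : g * (1 + z) = 1 + z := b.ext fun i => by
    by_cases hi : A i
    · simp [z1 i hi]
    · have := g2 i (by rintro rfl; exact hi h0) (by rintro rfl; exact hi h1)
      simp [z2 i hi, this]
  obtain ⟨x, hx⟩ := hρ' g g8
  obtain ⟨h, hh, hy⟩ := exists_conj_mem_sylow S hSC (g := x) ((hC x).2 (by rw [hx, gz])) (k := 3)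
    (hρ (by rw [map_pow, hx, map_one]; exact g8))
  have hT : ∀ k : ℕ, ρ (h * x * h⁻¹) ^ k = ρ h * g ^ k * ρ h⁻¹ := fun k => by
    rw [← map_pow, conj_pow, map_mul, map_mul, map_pow, hx]
  have hh1 : ρ h * ρ h⁻¹ = 1 := by rw [← map_mul]; simp
  have hh2 : ρ h⁻¹ * ρ h = 1 := by rw [← map_mul]; simp
  have T4 : ρ (h * x * h⁻¹) ^ 4 = 1 := b.ext fun i => by
    by_cases hi : A i
    · exact pow_four_of_monomial b hsq (by rw [hT, g8, mul_one, hh1]) (α := τ + 1) (β := -δ - τ)
        (γ := δ) (by simp only [hT, g3, mul_add, add_mul, mul_smul_comm, smul_mul_assoc])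
        (K2 ⟨_, hy⟩) hi
    · have e1 : ρ (h * x * h⁻¹) * (1 + z) = 1 + z := by
        have e2 : ρ h⁻¹ * (1 + z) = (1 + z) * ρ h⁻¹ := by
          rw [mul_add, add_mul, (hC _).1 (inv_mem hh), mul_one, one_mul]
        rw [map_mul, map_mul, hx, mul_assoc, e2, ← mul_assoc, mul_assoc _ g, gz', mul_assoc, ← e2,
          ← mul_assoc, hh1, one_mul]
      have e3 := LinearMap.congr_fun e1 (b i)
      simp only [Module.End.mul_apply, LinearMap.add_apply, Module.End.one_apply, z2 i hi,
        ← two_smul F, map_smul] at e3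
      have e4 := smul_right_injective V h2 e3
      simp only [pow_succ, pow_zero, Module.End.mul_apply, Module.End.one_apply, e4]
  have e5 : g ^ 4 = 1 := by
    rw [hT] at T4
    calc g ^ 4 = ρ h⁻¹ * (ρ h * g ^ 4 * ρ h⁻¹) * ρ h := by
          rw [← mul_assoc, ← mul_assoc, hh2, one_mul, mul_assoc, hh2, mul_one]
      _ = 1 := by rw [T4, mul_one, hh2]
  rw [e5, Module.End.one_apply, eq_neg_iff_add_eq_zero, ← two_smul F, smul_eq_zero] at g40
  exact b.ne_zero i0 (g40.resolve_left h2)

end upper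

end Cfsg.Agent.H4
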