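import Cfsg.Agent.H4.OLoc2

/-!
# Annihilators of additive subgroups with respect to `ψ ∘ B`
-/

set_option autoImplicit false
set_option linter.unusedSectionVars false
set_option linter.unusedSimpArgs false
set_option linter.unnecessarySeqFocus false

namespace Cfsg.Agent.H4

open Cfsg.Agent.H6 Module

variable {F V : Type*} [Field F] [AddCommGroup V] [Module F V] {Q : QuadraticForm F V}

theorem exists_psi (F : Type*) [Field F] [Finite F] : ∃ ψ : AddChar F ℂ, ψ ≠ 1 := by
  refine ⟨AddChar.FiniteField.primitiveChar_to_Complex F, ?_⟩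
  have := AddChar.FiniteField.primitiveChar_to_Complex_isPrimitive F
  have h := this (a := 1) one_ne_zero
  simpa using h

/-- a fixed nontrivial additive character -/
noncomputable def psi (F : Type*) [Field F] [Finite F] : AddChar F ℂ := (exists_psi F).choose

section Fin

variable [Fintype F]

theorem eq_zero_of_psi' {x : F} (h : ∀ c, psi F (c * x) = 1) : x = 0 := by
  by_contra hx
  apply (exists_psi F).choose_spec
  ext c
  have := h (c * x⁻¹)
  rwa [mul_assoc, inv_mul_cancel₀ hx, mul_one] at this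

/-- annihilator -/
def ann (Q : QuadraticForm F V) (S : AddSubgroup V) : AddSubgroup V where
  carrier := {t | ∀ a ∈ S, psi F (pb Q t a) = 1}
  add_mem' {s t} hs ht a ha := by
    rw [map_add, LinearMap.add_apply, AddChar.map_add_eq_mul, hs a ha, ht a ha, mul_one]
  zero_mem' a _ := by simp
  neg_mem' {t} ht a ha := by
    rw [map_neg, LinearMap.neg_apply, AddChar.map_neg_eq_inv, ht a ha, inv_one]

theorem mem_ann {S : AddSubgroup V} {t : V} : t ∈ ann Q S ↔ ∀ a ∈ S, psi F (pb Q t a) = 1 :=
  Iff.rfl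

variable [FiniteDimensional F V] (hB : (pb Q).Nondegenerate)
include hB

theorem card_ann (S : AddSubgroup V) :
    Nat.card (ann Q S) * Nat.card S = Fintype.card F ^ finrank F V := by
  classical
  have : Finite V := Module.finite_of_finite F
  have := Fintype.ofFinite V
  have h1 : ∀ t : V, ∑ a : S, psi F (pb Q t a) = if t ∈ ann Q S then (Fintype.card S : ℂ) else 0 := by
    intro t
    have := AddChar.sum_eq_ite ((psi F).compAddMonoidHom
      ((pb Q t).toAddMonoidHom.comp S.subtype))
    refine Eq.trans ?_ (this.trans ?_)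
    · rfl
    · refine if_congr ?_ rfl rfl
      rw [mem_ann, AddChar.ext_iff]
      exact ⟨fun h a ha => h ⟨a, ha⟩, fun h a => h a.1 a.2⟩
  have h2 : ∀ a : S, ∑ t : V, psi F (pb Q t a) = if a = 0 then (Fintype.card V : ℂ) else 0 := by
    intro a
    have := AddChar.sum_eq_ite ((psi F).compAddMonoidHom ((pb Q).flip a.1).toAddMonoidHom)
    refine Eq.trans ?_ (this.trans ?_)
    · rfl
    · refine if_congr ?_ rfl rfl
      rw [AddChar.ext_iff]
      constructor
      · intro h
        refine Subtype.ext (hB.2 _ fun t => eq_zero_of_psi' fun c => ?_)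
        have := h (c • t)
        simpa using this
      · rintro rfl t
        simp
  have h3 := Finset.sum_comm (s := (Finset.univ : Finset V)) (t := (Finset.univ : Finset S))
    (f := fun t a => psi F (pb Q t a))
  simp only [h1, h2, Finset.sum_ite_eq', Finset.mem_univ, if_true] at h3
  rw [← Finset.sum_filter, Finset.sum_const, nsmul_eq_mul] at h3
  rw [← Module.card_eq_pow_finrank, Nat.card_eq_fintype_card, Nat.card_eq_fintype_card,
    Fintype.card_subtype]
  exact_mod_cast h3

theorem ann_ann (S : AddSubgroup V) : ann Q (ann Q S) = S := by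
  have : Finite V := Module.finite_of_finite F
  symm
  refine AddSubgroup.eq_of_le_of_card_ge (fun a ha t ht => by rw [pb_comm]; exact ht a ha) ?_
  have h1 := card_ann hB S
  have h2 := card_ann hB (ann Q S)
  rw [← h1, mul_comm] at h2
  exact (Nat.eq_of_mul_eq_mul_left Nat.card_pos h2).le

omit hB [FiniteDimensional F V] in
/-- the set of characters of `Q_x` occurring in the permutation module on cosets of `H` -/
def TT (H : Subgroup (OG Q)) (x : V) : AddSubgroup V := ann Q (AA H x)

omit hB in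
theorem TT_le_DD {H : Subgroup (OG Q)} {x t : V} (h : t ∈ TT H x) : t ∈ DD H x :=
  fun a ha => eq_zero_of_psi' fun c => by
    have := h _ (ha c)
    rwa [map_smul, smul_eq_mul, pb_comm] at this

omit hB in
theorem line_mem_TT (H : Subgroup (OG Q)) (x : V) (c : F) : c • x ∈ TT H x := fun a ha => by
  simp [ha.1]

omit hB in
theorem TT_perp {H : Subgroup (OG Q)} {x t : V} (hx : Q x = 0) (h : t ∈ TT H x) : pb Q x t = 0 :=
  DD_perp hx (TT_le_DD h)

theorem mem_AA_of {H : Subgroup (OG Q)} {x v : V} (h : ∀ t ∈ TT H x, psi F (pb Q v t) = 1) :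
    v ∈ AA H x := by
  rw [← ann_ann hB (AA H x)]; exact h

theorem DD_le_of_TT {H : Subgroup (OG Q)} {x : V} {U : Submodule F V} (h : ∀ t ∈ TT H x, t ∈ U) :
    DD H x ≤ U := by
  intro d hd
  rw [← orth_orth hB U]
  intro v hv
  exact hd v fun c => mem_AA_of hB fun t ht => by
    have : pb Q t v = 0 := hv t (h t ht)
    simp [pb_comm Q v t, this]

theorem exists_TT_not_mem {H : Subgroup (OG Q)} {x : V} {U : Submodule F V}
    (h : finrank F U < finrank F (DD H x)) : ∃ t ∈ TT H x, t ∉ U := by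
  by_contra hc
  push Not at hc
  exact absurd (Submodule.finrank_mono (DD_le_of_TT hB hc)) (not_le.2 h)

theorem exists_TT_of_not_full {H : Subgroup (OG Q)} {x : V} (h : ¬ Full H x) :
    ∃ t ∈ TT H x, t ∉ F ∙ x := by
  by_contra hc
  push Not at hc
  exact h (full_of_DD hB (DD_le_of_TT hB hc))

theorem ts_of_TT {H : Subgroup (OG Q)} {x : V} (h : ∀ t ∈ TT H x, Q t = 0) :
    TotSing Q (DD H x) := by
  have h1 : ∀ s ∈ TT H x, ∀ t ∈ TT H x, pb Q s t = 0 := fun s hs t ht => by
    rw [pb_def, h _ (add_mem hs ht), h s hs, h t ht]; simp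
  have h2 : ∀ s ∈ TT H x, ∀ d ∈ DD H x, pb Q d s = 0 := fun s hs d hd =>
    mem_orth_span.1 (DD_le_of_TT hB (U := (pb Q).orthogonal (F ∙ s))
      (fun t ht => mem_orth_span.2 (h1 t ht s hs)) hd)
  have h3 : ∀ d ∈ DD H x, ∀ d' ∈ DD H x, pb Q d d' = 0 := fun d hd d' hd' =>
    mem_orth_span.1 (DD_le_of_TT hB (U := (pb Q).orthogonal (F ∙ d'))
      (fun t ht => mem_orth_span.2 (by rw [pb_comm]; exact h2 t ht d' hd')) hd)
  let U : Submodule F V :=
    { carrier := {d | d ∈ DD H x ∧ Q d = 0}
      add_mem' := fun {a b} ha hb => ⟨add_mem ha.1 hb.1, by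
        rw [Q_add, ha.2, hb.2, h3 a ha.1 b hb.1]; simp⟩
      zero_mem' := ⟨zero_mem _, map_zero _⟩
      smul_mem' := fun c a ha => ⟨Submodule.smul_mem _ _ ha.1, by rw [Q_smul, ha.2, mul_zero]⟩ }
  exact fun d hd => (DD_le_of_TT hB (U := U) (fun t ht => ⟨TT_le_DD ht, h t ht⟩) hd).2

theorem rg_of_TT {H : Subgroup (OG Q)} {x : V} (h : ∀ w, pb Q w x = 0 → w ∈ TT H x) : Rg H x := by
  intro v hv
  rw [← orth_orth hB (F ∙ x)]
  intro w hw
  refine eq_zero_of_psi' fun c => ?_
  have := h (c • w) (by rw [map_smul, LinearMap.smul_apply, mem_orth_span.1 hw, smul_zero]) v hv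
  simpa using this

omit hB in
theorem Rg.mem_TT {H : Subgroup (OG Q)} {x w : V} (h : Rg H x) (hw : pb Q w x = 0) :
    w ∈ TT H x := fun a ha => by
  obtain ⟨c, rfl⟩ := Submodule.mem_span_singleton.1 (h a ha)
  simp [hw]

omit hB in
theorem Cj.TT {H H' : Subgroup (OG Q)} {g : OG Q} (h : Cj g H H') {x : V} (hx : Q x = 0) {c : F}
    (hc : c ≠ 0) (hg : g.1 x = c • x) (t : V) : t ∈ TT H x ↔ c⁻¹ • g.1 t ∈ TT H' x := by
  have key : ∀ a, a ∈ H4.AA H x ↔ c • g.1 a ∈ H4.AA H' x := fun a => by
    rw [h.AA, hg, mem_AA_smul hx hc]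
  have e : ∀ a, pb Q (c⁻¹ • g.1 t) (c • g.1 a) = pb Q t a := fun a => by
    simp [OG_pb, hc]
  constructor
  · intro h1 a ha
    have : a = c • g.1 (c⁻¹ • g⁻¹.1 a) := by simp [smul_smul, hc]
    rw [this] at ha ⊢
    rw [e]
    exact h1 _ ((key _).2 ha)
  · intro h1 a ha
    rw [← e]
    exact h1 _ ((key _).1 ha)

end Fin

end Cfsg.Agent.H4
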