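import Cfsg.Agent.H4.OMain
import Cfsg.Agent.H6.OrthRank
import Cfsg.Agent.H6.OrthChar2
import Cfsg.Agent.H1.QCount

/-!
# Minimal index for `PΩ`: bridge and counting of vectors
-/

set_option autoImplicit false
set_option linter.unusedSectionVars false
set_option linter.unusedSimpArgs false
set_option linter.unnecessarySeqFocus false

namespace Cfsg.Agent.H4

open Cfsg.Agent.H6 Module MulAction Finset

section General

variable {F V : Type*} [Field F] [AddCommGroup V] [Module F V] {Q : QuadraticForm F V}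
variable [Fintype F] [Fintype V] [FiniteDimensional F V]

local notation "q" => Fintype.card F
local notation "n" => finrank F V

open Classical in
/-- number of vectors of given norm -/
noncomputable def cnt (Q : QuadraticForm F V) (a : F) : ℕ := (univ.filter fun v => Q v = a).card

theorem card_Sg : (Sg Q).card + 1 = cnt Q 0 := by
  classical
  rw [cnt, ← card_erase_add_one (a := 0) (s := univ.filter fun v => Q v = 0) (by simp)]
  congr 2
  ext v
  simp [mem_Sg, and_comm]

theorem finite_OG : Finite (OG Q) :=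
  Finite.of_injective (fun g : OG Q => (g.1 : V → V)) fun _ _ h => OG_ext (congrFun h)

variable (hB : (pb Q).Nondegenerate)
include hB

theorem cnt_perp {x : V} (hx : Q x = 0) (hx0 : x ≠ 0) (hn : 2 ≤ n) (a : F)
    [DecidablePred fun t => pb Q x t = 0 ∧ Q t = a] :
    cnt Q a ≤ (univ.filter fun t => pb Q x t = 0 ∧ Q t = a).card + (q - 1) * q ^ (n - 2) := by
  classical
  have h1 := card_perp hB hx0
  have h2 : (univ.filter fun t => pb Q x t = 0).card + (univ.filter fun t => ¬ pb Q x t = 0).card =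
      q ^ n := by rw [card_filter_add_card_filter_not, card_univ, Module.card_eq_pow_finrank (K := F)]
  have h3 : (univ.filter fun t => ¬ pb Q x t = 0 ∧ Q t = a).card * q ≤
      (univ.filter fun t => ¬ pb Q x t = 0).card := by
    rw [← card_univ (α := F), ← card_product]
    refine card_le_card_of_injOn (fun p => p.1 + p.2 • x) (fun p hp => ?_) fun p hp p' hp' h => ?_
    · simp only [coe_filter, mem_filter, mem_univ, true_and, Set.mem_ofPred_eq, coe_product,
        Set.mem_prod, coe_univ, Set.mem_univ, and_true] at hp ⊢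
      simpa [pb_sing hx] using hp.1
    · simp only [coe_filter, mem_filter, mem_univ, true_and, Set.mem_ofPred_eq, coe_product,
        Set.mem_prod, coe_univ, Set.mem_univ, and_true] at hp hp' h
      have e : p'.1 = p.1 + (p.2 - p'.2) • x := by rw [sub_smul, ← add_sub_assoc, h]; simp
      have e2 := hp'.2
      rw [e, Q_add, Q_smul, hx, hp.2] at e2
      have e3 : p.2 = p'.2 := by
        simpa [pb_comm Q p.1 x, hp.1, sub_eq_zero] using e2
      exact Prod.ext (by simpa [e3] using h) e3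
  have h4 : cnt Q a = (univ.filter fun t => pb Q x t = 0 ∧ Q t = a).card +
      (univ.filter fun t => ¬ pb Q x t = 0 ∧ Q t = a).card := by
    rw [cnt, ← card_filter_add_card_filter_not (s := univ.filter fun v => Q v = a)
      (fun t => pb Q x t = 0), filter_filter, filter_filter]
    simp only [and_comm]
  rw [h4]
  refine Nat.add_le_add_left (Nat.le_of_mul_le_mul_right ?_ (Fintype.card_pos (α := F))) _
  obtain ⟨k, hk⟩ : ∃ k, n = k + 2 := ⟨n - 2, by omega⟩
  obtain ⟨r, hr⟩ : ∃ r, q = r + 1 := ⟨q - 1, by have := Fintype.card_pos (α := F); omega⟩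
  rw [hk, hr] at h1 h2 ⊢
  rw [hr] at h3
  have h5 : (univ.filter fun t => pb Q x t = 0).card = (r + 1) ^ (k + 1) :=
    Nat.eq_of_mul_eq_mul_left (by omega : 0 < r + 1) (by rw [h1]; ring)
  simp only [Nat.add_sub_cancel]
  have : (r + 1) ^ (k + 2) = (r + 1) ^ (k + 1) + r * (r + 1) ^ k * (r + 1) := by ring
  omega

theorem cl0_ge (hn : 2 ≤ n) {c0 : ℕ} (h : c0 + q + (q - 1) * q ^ (n - 2) ≤ cnt Q 0) (x t : V)
    (hx : Q x = 0) (hx0 : x ≠ 0) (ht : Q t = 0) : c0 ≤ (Cl Q x t).card := by
  classical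
  have h1 := cnt_perp hB hx hx0 hn 0
  have h2 : (univ.filter fun t => pb Q x t = 0 ∧ Q t = 0).card ≤ (Cl Q x t).card + q := by
    rw [← card_line hx0]
    refine (card_le_card fun a ha => ?_).trans (card_union_le _ _)
    simp only [mem_union, mem_filter, mem_univ, true_and, mem_Cl] at ha ⊢
    by_cases h : a ∈ F ∙ x
    · exact Or.inr h
    · exact Or.inl ⟨ha.1, h, 1, one_ne_zero, by rw [ha.2, ht, mul_zero]⟩
  omega

theorem cl1_ge (hn : 2 ≤ n) : ∃ s, q - 1 ≤ 2 * s ∧
    (4 ≤ q → 2 * (q - 1) ≤ ringChar F * s ∨ (9 ≤ q ∧ 3 * (q - 1) ≤ 2 * (ringChar F * s))) ∧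
    ∀ c, (∀ b, b ≠ 0 → c + (q - 1) * q ^ (n - 2) ≤ cnt Q b) →
      ∀ x t, Q x = 0 → x ≠ 0 → pb Q x t = 0 → Q t ≠ 0 → s * c ≤ (Cl Q x t).card := by
  classical
  have key : ∀ s, (∀ a : F, a ≠ 0 → s ≤ ((univ.erase (0 : F)).image fun c => c ^ 2 * a).card) →
      ∀ c, (∀ b, b ≠ 0 → c + (q - 1) * q ^ (n - 2) ≤ cnt Q b) →
      ∀ x t, Q x = 0 → x ≠ 0 → pb Q x t = 0 → Q t ≠ 0 → s * c ≤ (Cl Q x t).card := by
    intro s hs c hc x t hx hx0 _ ht
    refine (Nat.mul_le_mul_right _ (hs _ ht)).trans ?_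
    rw [← mul_one (Cl Q x t).card]
    refine Finset.card_mul_le_card_mul (fun b t' => Q t' = b) (fun b hb => ?_) fun t' _ => ?_
    · obtain ⟨d, hd, rfl⟩ := mem_image.1 hb
      have hd0 := (mem_erase.1 hd).1
      have hb0 := mul_ne_zero (pow_ne_zero 2 hd0) ht
      have h1 := (hc _ hb0).trans (cnt_perp hB hx hx0 hn _)
      refine (Nat.le_of_add_le_add_right h1).trans (card_le_card fun a ha => ?_)
      simp only [bipartiteAbove, mem_filter, mem_univ, true_and, mem_Cl] at ha ⊢
      exact ⟨⟨ha.1, not_mem_line hx (by rwa [ha.2]), d, hd0, ha.2⟩, ha.2⟩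
    · exact card_le_one.2 fun a ha b hb => (mem_filter.1 ha).2.symm.trans (mem_filter.1 hb).2
  have hp : (ringChar F).Prime := CharP.char_is_prime F _
  have hc : (univ.erase (0 : F)).card = q - 1 := by rw [card_erase_of_mem (mem_univ _), card_univ]
  by_cases h2 : ringChar F = 2
  · refine ⟨q - 1, by omega, fun _ => Or.inl (by rw [h2]), key _ fun a ha => ?_⟩
    have : CharP F 2 := h2 ▸ ringChar.charP F
    rw [card_image_of_injective _ fun c d h => ?_, hc]
    have := mul_right_cancel₀ ha h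
    exact frobenius_inj F 2 this
  · have hodd := FiniteField.odd_card_of_char_ne_two h2
    refine ⟨(q - 1) / 2, by omega, fun h4 => ?_, key _ fun a ha => ?_⟩
    · obtain ⟨s, hs⟩ : ∃ s, q = 2 * s + 1 := ⟨q / 2, by omega⟩
      have e : (q - 1) / 2 = s := by omega
      have e' : q - 1 = 2 * s := by omega
      rw [e, e']
      by_cases h3 : ringChar F = 3
      · right
        refine ⟨?_, by rw [h3]; omega⟩
        obtain ⟨k, -, hk⟩ := FiniteField.card F (ringChar F)
        rw [h3] at hk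
        have : 2 ≤ (k : ℕ) := by
          by_contra h
          have : (k : ℕ) = 1 := by have := k.2; change 0 < (k : ℕ) at this; omega
          rw [this] at hk
          omega
        rw [hk]
        exact Nat.pow_le_pow_right (by norm_num : 0 < 3) this
      · left
        have := hp.two_le
        have h5 : 4 ≤ ringChar F := by omega
        nlinarith
    · have : (univ.erase (0 : F)).card ≤ 2 * ((univ.erase (0 : F)).image fun c => c ^ 2 * a).card := by
        refine card_le_mul_card_image _ _ fun b hb => ?_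
        obtain ⟨d, -, rfl⟩ := mem_image.1 hb
        refine (card_le_card (t := {d, -d}) fun e he => ?_).trans card_le_two
        simpa using sq_eq_sq_iff_eq_or_eq_neg.1 (mul_right_cancel₀ ha (mem_filter.1 he).2)
      omega

variable (hn : 7 ≤ finrank F V)
include hn

theorem index_ge {N c0 c1 w B : ℕ} (hN : NumHyp Q N c0 c1 w B)
    (H : Subgroup (commutator (OG Q))) (hH : H ≠ ⊤) : N ≤ H.index := by
  classical
  have := finite_OG (Q := Q)
  let H' := H.map (commutator (OG Q)).subtype
  have := Fintype.ofFinite (OG Q ⧸ H')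
  have e : stabilizer (commutator (OG Q)) ((1 : OG Q) : OG Q ⧸ H') = H := by
    ext g
    change g.1 ∈ stabilizer (OG Q) ((1 : OG Q) : OG Q ⧸ H') ↔ _
    rw [stabilizer_quotient]
    exact Subgroup.mem_map_iff_mem Subtype.val_injective
  have h := le_card_Orb hB hn hN (ω0 := ((1 : OG Q) : OG Q ⧸ H')) (fun h => hH (by
    rw [← e, eq_top_iff]
    intro g _
    exact h g.2))
  rw [← e, index_stabilizer]
  rw [← Set.ncard_coe_finset] at h
  convert h
  ext a
  rw [mem_coe, mem_Orb]
  exact ⟨fun ⟨g, h⟩ => ⟨g.1, g.2, h⟩, fun ⟨g, hg, h⟩ => ⟨⟨g, hg⟩, h⟩⟩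

theorem exists_index {v : V} (hv0 : v ≠ 0) (hv : ∀ c : F, c ≠ 0 → c ^ 2 * Q v = Q v)
    [DecidablePred fun w => w ≠ 0 ∧ Q w = Q v] :
    ∃ H : Subgroup (commutator (OG Q)), Subgroup.center _ ≤ H ∧
      H.index * (q - 1) = (univ.filter fun w => w ≠ 0 ∧ Q w = Q v).card := by
  classical
  have := finite_OG (Q := Q)
  let H : Subgroup (commutator (OG Q)) :=
    { carrier := {g | ∃ c : F, c ≠ 0 ∧ g.1.1 v = c • v}
      mul_mem' := by
        rintro a b ⟨c, hc, h1⟩ ⟨d, hd, h2⟩
        exact ⟨_, (Pg.mul ⟨a.2, hc, h1⟩ ⟨b.2, hd, h2⟩).2⟩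
      one_mem' := ⟨1, one_ne_zero, by simp⟩
      inv_mem' := by
        rintro a ⟨c, hc, h1⟩
        exact ⟨_, (Pg.inv ⟨a.2, hc, h1⟩).2⟩ }
  refine ⟨H, fun z hz => ?_, ?_⟩
  · have : z.1.1 v ∈ F ∙ v := by
      by_contra hc
      obtain ⟨e, he, h1, -, h2⟩ := exists_sing2 hB hn (a := v) (b := v) (by rwa [sup_idem])
      obtain ⟨u, hu, hue⟩ := exists_mem_not_mem (S := F ∙ e)
        (T := (pb Q).orthogonal ((F ∙ v) ⊔ F ∙ e)) (by
          have := finrank_orth hB ((F ∙ v) ⊔ F ∙ e)
          have := finrank_pair_le (F := F) v e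
          have := finrank_line_le (F := F) e
          omega)
      rw [mem_orth_pair] at hu
      have h3 : pb Q e u = 0 := by rw [pb_comm, hu.2]
      have h4 := congrArg (fun g : commutator (OG Q) => g.1.1 v)
        (Subgroup.mem_center_iff.1 hz ⟨_, E_mem hB hn e u⟩)
      simp only [Subgroup.coe_mul, OG_mul_apply, LinearEquiv.mul_apply] at h4
      rw [E_fix (w := v) he h3 (by rw [pb_comm, h1]) (by rw [pb_comm, hu.1]), E_apply he h3] at h4
      refine hue (Submodule.mem_span_singleton.2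
        ⟨pb Q (z.1.1 v) u / pb Q (z.1.1 v) e - Q u, ?_⟩)
      have h5 : pb Q (z.1.1 v) u • e = pb Q (z.1.1 v) e • (u + Q u • e) := by
        rw [← sub_eq_zero, ← add_sub_cancel_left (z.1.1 v) (_ - _), ← add_sub_assoc, h4, sub_self]
      rw [sub_smul, div_eq_inv_mul, ← smul_smul, h5, smul_smul, inv_mul_cancel₀ h2, one_smul,
        add_sub_cancel_right]
    obtain ⟨c, hc⟩ := Submodule.mem_span_singleton.1 this
    exact ⟨c, by rintro rfl; exact hv0 (by simpa using hc.symm), hc.symm⟩
  · have h1 : stabilizer (commutator (OG Q)) v ≤ H := fun g hg =>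
      ⟨1, one_ne_zero, by rw [one_smul]; exact hg⟩
    have h2 := Subgroup.relIndex_mul_index h1
    have h3 : (stabilizer (commutator (OG Q)) v).relIndex H = (stabilizer H v).index := rfl
    have h4 : orbit H v = ↑((univ.filter (· ∈ F ∙ v)).erase 0) := by
      ext w
      simp only [mem_orbit_iff, coe_erase, coe_filter, mem_univ, true_and, Set.mem_sdiff,
        Set.mem_ofPred_eq, Set.mem_singleton_iff, Submodule.mem_span_singleton]
      constructor
      · rintro ⟨⟨g, c, hc, hg⟩, rfl⟩
        change (∃ a : F, a • v = g.1.1 v) ∧ g.1.1 v ≠ 0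
        exact ⟨⟨c, hg.symm⟩, by simpa using hv0⟩
      · rintro ⟨⟨c, rfl⟩, h⟩
        have hc : c ≠ 0 := by rintro rfl; simp at h
        obtain ⟨g, hg, e⟩ := witt1 hB hn hv0 h (by rw [Q_smul, hv c hc])
        exact ⟨⟨⟨g, hg⟩, c, hc, e⟩, e⟩
    have h5 : orbit (commutator (OG Q)) v = ↑(univ.filter fun w => w ≠ 0 ∧ Q w = Q v) := by
      ext w
      simp only [mem_orbit_iff, coe_filter, mem_univ, true_and, Set.mem_ofPred_eq]
      constructor
      · rintro ⟨g, rfl⟩
        change g.1.1 v ≠ 0 ∧ Q (g.1.1 v) = Q v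
        exact ⟨by simpa using hv0, OG_Q _ _⟩
      · rintro ⟨h, h'⟩
        obtain ⟨g, hg, e⟩ := witt1 hB hn hv0 h h'
        exact ⟨⟨g, hg⟩, e⟩
    rw [h3, index_stabilizer, index_stabilizer, h4, h5, Set.ncard_coe_finset, Set.ncard_coe_finset,
      card_erase_of_mem (by simp), card_line hv0] at h2
    rw [mul_comm, h2]

end General

theorem pomega_min {F : Type*} [Field F] [Fintype F] {ι : Type} [Fintype ι] [DecidableEq ι]
    [DecidableEq F] {Q : QuadraticForm F (ι → F)} (hB : (pb Q).Nondegenerate)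
    (hn : 7 ≤ finrank F (ι → F)) {N c0 c1 w B : ℕ} (hN : NumHyp Q N c0 c1 w B) {v : ι → F}
    (hv0 : v ≠ 0) (hv : ∀ c : F, c ≠ 0 → c ^ 2 * Q v = Q v)
    (h : N * (Fintype.card F - 1) = (univ.filter fun w => w ≠ 0 ∧ Q w = Q v).card) :
    (∀ H : Subgroup (POmega F Q), H ≠ ⊤ → N ≤ H.index) ∧ ∃ H : Subgroup (POmega F Q), H.index = N := by
  let φ : commutator (OG Q) →* POmega F Q :=
    (QuotientGroup.mk' _).comp (commutatorEquiv (ogEquiv Q)).symm.toMonoidHom
  have hφ : Function.Surjective φ :=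
    (QuotientGroup.mk'_surjective _).comp (commutatorEquiv (ogEquiv Q)).symm.surjective
  constructor
  · intro H hH
    rw [← Subgroup.index_comap_of_surjective H hφ]
    refine index_ge hB hn hN _ fun h => hH ?_
    rw [← Subgroup.map_comap_eq_self_of_surjective hφ H, h, Subgroup.map_top_of_surjective _ hφ]
  · obtain ⟨H, h1, h2⟩ := exists_index hB hn hv0 hv
    refine ⟨H.map φ, ?_⟩
    rw [Subgroup.index_map_eq _ hφ fun g hg => h1 ?_]
    · exact Nat.eq_of_mul_eq_mul_right (by have := Fintype.one_lt_card (α := F); omega)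
        (h2.trans h.symm)
    · have : (commutatorEquiv (ogEquiv Q)).symm g ∈ Subgroup.center _ :=
        (QuotientGroup.eq_one_iff _).1 hg
      rw [Subgroup.mem_center_iff] at this ⊢
      intro a
      apply (commutatorEquiv (ogEquiv Q)).symm.injective
      rw [map_mul, map_mul, this]

end Cfsg.Agent.H4
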