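import Cfsg.Agent.H4.OAnn

/-!
# Counting orbits of point stabilisers
-/

set_option autoImplicit false
set_option linter.unusedSectionVars false
set_option linter.unusedSimpArgs false
set_option linter.unnecessarySeqFocus false

namespace Cfsg.Agent.H4

open Cfsg.Agent.H6 Module MulAction Finset

variable {F V : Type*} [Field F] [AddCommGroup V] [Module F V] {Q : QuadraticForm F V}
variable [Fintype F] [Fintype V] [FiniteDimensional F V] {X : Type*} [Fintype X]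
  [MulAction (OG Q) X]

theorem cj_stab (g : OG Q) (ω : X) : Cj g (stabilizer (OG Q) ω) (stabilizer (OG Q) (g • ω)) :=
  fun a => by simp [mul_smul]

/-- `g ∈ Ω` scales `x` by `c` -/
def Pg (x : V) (g : OG Q) (c : F) : Prop := g ∈ commutator (OG Q) ∧ c ≠ 0 ∧ g.1 x = c • x

theorem Pg.mul {x : V} {g h : OG Q} {c d : F} (h1 : Pg x g c) (h2 : Pg x h d) :
    Pg x (g * h) (c * d) :=
  ⟨mul_mem h1.1 h2.1, mul_ne_zero h1.2.1 h2.2.1, by
    rw [OG_mul_apply, h2.2.2, map_smul, h1.2.2, smul_smul, mul_comm]⟩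

theorem Pg.inv {x : V} {g : OG Q} {c : F} (h : Pg x g c) : Pg x g⁻¹ c⁻¹ :=
  ⟨inv_mem h.1, inv_ne_zero h.2.1, by
    have := congrArg g⁻¹.1 h.2.2
    rw [OG_inv_apply, map_smul] at this
    conv_rhs => rw [this]
    rw [smul_smul, inv_mul_cancel₀ h.2.1, one_smul]⟩

theorem Pg.one (x : V) : Pg (Q := Q) x 1 1 := ⟨one_mem _, one_ne_zero, by simp⟩

open Classical in
/-- the `Ω`-orbit -/
noncomputable def Orb (Q : QuadraticForm F V) [MulAction (OG Q) X] (ω : X) : Finset X :=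
  univ.filter fun ω' => ∃ g ∈ commutator (OG Q), g • ω = ω'

open Classical in
/-- the orbit of the stabiliser of the point `x` -/
noncomputable def Yo (Q : QuadraticForm F V) [MulAction (OG Q) X] (x : V) (ω : X) : Finset X :=
  univ.filter fun ω' => ∃ (g : OG Q) (c : F), Pg x g c ∧ g • ω = ω'

/-- type of a point -/
abbrev Tp (Q : QuadraticForm F V) [MulAction (OG Q) X] (x : V) (ω : X) : AddSubgroup V :=
  TT (stabilizer (OG Q) ω) x

open Classical in
/-- all types in an orbit -/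
noncomputable def CC (Q : QuadraticForm F V) [MulAction (OG Q) X] (x : V) (ω : X) :
    Finset (AddSubgroup V) := (Yo Q x ω).image (Tp Q x)

open Classical in
/-- multiplicity -/
noncomputable def mm (Q : QuadraticForm F V) [MulAction (OG Q) X] (x : V) (ω : X) (t : V) : ℕ :=
  ((CC Q x ω).filter fun T => t ∈ T).card

open Classical in
/-- fibre -/
noncomputable def fib (Q : QuadraticForm F V) [MulAction (OG Q) X] (x : V) (ω : X) : Finset X :=
  (Yo Q x ω).filter fun ω' => Tp Q x ω' = Tp Q x ω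

open Classical in
/-- the orbit of `Q_x` -/
noncomputable def Qo (Q : QuadraticForm F V) [MulAction (OG Q) X] (x : V) (ω : X) : Finset X :=
  (univ.filter fun v => pb Q x v = 0).image fun v => E Q x v • ω

open Classical in
/-- class of a vector of `x^⊥` -/
noncomputable def Cl (Q : QuadraticForm F V) (x t : V) : Finset V :=
  univ.filter fun t' => pb Q x t' = 0 ∧ t' ∉ F ∙ x ∧ ∃ c : F, c ≠ 0 ∧ Q t' = c ^ 2 * Q t

theorem mem_Orb {ω ω' : X} : ω' ∈ Orb Q ω ↔ ∃ g ∈ commutator (OG Q), g • ω = ω' := by simp [Orb]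

theorem mem_Yo {x : V} {ω ω' : X} :
    ω' ∈ Yo Q x ω ↔ ∃ (g : OG Q) (c : F), Pg x g c ∧ g • ω = ω' := by simp [Yo]

theorem mem_Qo {x : V} {ω ω' : X} : ω' ∈ Qo Q x ω ↔ ∃ v, pb Q x v = 0 ∧ E Q x v • ω = ω' := by
  simp [Qo]

theorem mem_Cl {x t t' : V} :
    t' ∈ Cl Q x t ↔ pb Q x t' = 0 ∧ t' ∉ F ∙ x ∧ ∃ c : F, c ≠ 0 ∧ Q t' = c ^ 2 * Q t := by
  simp [Cl]

theorem self_mem_Orb (ω : X) : ω ∈ Orb Q ω := mem_Orb.2 ⟨1, one_mem _, one_smul _ _⟩

theorem smul_mem_Orb {ω ω' : X} (h : ω' ∈ Orb Q ω) {g : OG Q} (hg : g ∈ commutator (OG Q)) :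
    g • ω' ∈ Orb Q ω := by
  obtain ⟨g', h1, rfl⟩ := mem_Orb.1 h
  exact mem_Orb.2 ⟨g * g', mul_mem hg h1, mul_smul _ _ _⟩

theorem self_mem_Yo (x : V) (ω : X) : ω ∈ Yo Q x ω := mem_Yo.2 ⟨1, 1, Pg.one x, one_smul _ _⟩

theorem smul_mem_Yo {x : V} {ω ω' : X} (h : ω' ∈ Yo Q x ω) {g : OG Q} {c : F} (hg : Pg x g c) :
    g • ω' ∈ Yo Q x ω := by
  obtain ⟨g', c', h1, rfl⟩ := mem_Yo.1 h
  exact mem_Yo.2 ⟨g * g', _, hg.mul h1, mul_smul _ _ _⟩

theorem Yo_subset {x : V} {ω ω' : X} (h : ω' ∈ Orb Q ω) : Yo Q x ω' ⊆ Orb Q ω := fun a ha => by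
  obtain ⟨g, c, h1, rfl⟩ := mem_Yo.1 ha
  exact smul_mem_Orb h h1.1

theorem Yo_disj {x : V} {ω ω' : X} (h : ω' ∉ Yo Q x ω) : Disjoint (Yo Q x ω) (Yo Q x ω') := by
  rw [Finset.disjoint_left]
  intro a h1 h2
  obtain ⟨g, c, h3, rfl⟩ := mem_Yo.1 h2
  simpa [h] using smul_mem_Yo h1 h3.inv

theorem Yo_eq {x : V} {ω ω' : X} (h : ω' ∈ Yo Q x ω) : Yo Q x ω' = Yo Q x ω := by
  obtain ⟨g, c, h1, rfl⟩ := mem_Yo.1 h
  ext a
  constructor
  · intro ha
    obtain ⟨g', c', h2, rfl⟩ := mem_Yo.1 ha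
    exact smul_mem_Yo h h2
  · intro ha
    obtain ⟨g', c', h2, rfl⟩ := mem_Yo.1 ha
    simpa [mul_smul] using smul_mem_Yo (self_mem_Yo x (g • ω)) (h2.mul h1.inv)

theorem Yo_add {x : V} {ω0 ω ω' : X} (h1 : ω ∈ Orb Q ω0) (h2 : ω' ∈ Orb Q ω0)
    (h : ω' ∉ Yo Q x ω) : (Yo Q x ω).card + (Yo Q x ω').card ≤ (Orb Q ω0).card := by
  classical
  rw [← card_union_of_disjoint (Yo_disj h)]
  exact card_le_card (union_subset (Yo_subset h1) (Yo_subset h2))

/-- twisted action -/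
def twm (g : OG Q) (c : F) : V →+ V := (c⁻¹ • (g.1 : V →ₗ[F] V)).toAddMonoidHom

theorem twm_apply (g : OG Q) (c : F) (t : V) : twm g c t = c⁻¹ • g.1 t := rfl

theorem twm_inj (g : OG Q) {c : F} (hc : c ≠ 0) : Function.Injective (twm g c) := fun a b h => by
  simpa [twm_apply, hc] using h

theorem mem_Tp_smul {x : V} (hx : Q x = 0) {g : OG Q} {c : F} (hg : Pg x g c) (ω : X) (t : V) :
    t ∈ Tp Q x ω ↔ twm g c t ∈ Tp Q x (g • ω) := (cj_stab g ω).TT hx hg.2.1 hg.2.2 t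

theorem Tp_smul {x : V} (hx : Q x = 0) {g : OG Q} {c : F} (hg : Pg x g c) (ω : X) :
    Tp Q x (g • ω) = (Tp Q x ω).map (twm g c) := by
  ext t
  rw [AddSubgroup.mem_map]
  constructor
  · intro h
    have e : twm g c (c • g⁻¹.1 t) = t := by simp [twm_apply, smul_smul, hg.2.1]
    exact ⟨_, (mem_Tp_smul hx hg ω _).2 (by rwa [e]), e⟩
  · rintro ⟨s, hs, rfl⟩
    exact (mem_Tp_smul hx hg ω _).1 hs

theorem card_Tp {x : V} (hx : Q x = 0) {ω ω' : X} (h : ω' ∈ Yo Q x ω) :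
    Nat.card (Tp Q x ω') = Nat.card (Tp Q x ω) := by
  obtain ⟨g, c, h1, rfl⟩ := mem_Yo.1 h
  rw [Tp_smul hx h1, AddSubgroup.card_map_of_injective (twm_inj g h1.2.1)]

theorem CC_mul_fib {x : V} (hx : Q x = 0) (ω : X) :
    (fib Q x ω).card * (CC Q x ω).card ≤ (Yo Q x ω).card := by
  classical
  refine Finset.mul_card_image_le_card _ _ fun b hb => ?_
  obtain ⟨a, ha, rfl⟩ := mem_image.1 hb
  obtain ⟨g, c, h1, rfl⟩ := mem_Yo.1 ha
  refine card_le_card_of_injOn (fun a => g • a) (fun a ha => ?_) fun a _ b _ h => by simpa using h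
  simp only [fib, coe_filter, Set.mem_ofPred_eq] at ha ⊢
  exact ⟨smul_mem_Yo ha.1 h1, by rw [Tp_smul hx h1, Tp_smul hx h1, ha.2]⟩

theorem twm_mem_Cl {x : V} {g : OG Q} {c : F} (hg : Pg x g c) {t t' : V} (h : t' ∈ Cl Q x t) :
    twm g c t' ∈ Cl Q x t := by
  rw [mem_Cl] at h ⊢
  obtain ⟨h1, h2, d, h3, h4⟩ := h
  have e : x = twm g c x := by rw [twm_apply, hg.2.2, smul_smul, inv_mul_cancel₀ hg.2.1, one_smul]
  refine ⟨?_, fun h => h2 ?_, c⁻¹ * d, mul_ne_zero (inv_ne_zero hg.2.1) h3, ?_⟩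
  · rw [e]; simp [twm_apply, OG_pb, h1]
  · obtain ⟨a, ha⟩ := Submodule.mem_span_singleton.1 h
    refine Submodule.mem_span_singleton.2 ⟨a, twm_inj g hg.2.1 ?_⟩
    rw [← ha]
    conv_rhs => rw [e]
    simp only [twm_apply, map_smul, smul_smul, mul_comm]
  · rw [twm_apply, Q_smul, OG_Q, h4]; ring

theorem card_line {x : V} (hx0 : x ≠ 0) [DecidablePred (· ∈ F ∙ x)] :
    (univ.filter (· ∈ F ∙ x)).card = Fintype.card F := by
  rw [← Fintype.card_subtype, Module.card_eq_pow_finrank (K := F), finrank_span_singleton hx0,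
    pow_one]

open Classical in
theorem card_Cl_inter {x : V} (hx0 : x ≠ 0) (ω : X) (t : V) :
    ((Cl Q x t).filter (· ∈ Tp Q x ω)).card + Fintype.card F ≤ Nat.card (Tp Q x ω) := by
  rw [← card_line hx0, ← card_union_of_disjoint, Nat.card_eq_fintype_card, Fintype.card_subtype]
  · refine card_le_card fun a ha => ?_
    simp only [mem_union, mem_filter, mem_univ, true_and] at ha ⊢
    rcases ha with ha | ha
    · exact ha.2
    · obtain ⟨c, rfl⟩ := Submodule.mem_span_singleton.1 ha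
      exact line_mem_TT _ _ _
  · rw [Finset.disjoint_left]
    intro a h1 h2
    simp only [mem_filter, mem_univ, true_and, mem_Cl] at h1 h2
    exact h1.1.2.1 h2

variable (hB : (pb Q).Nondegenerate) (hn : 7 ≤ finrank F V)
include hB hn

theorem Pg.E {x z v : V} (hz : Q z = 0) (hv : pb Q z v = 0) (h1 : pb Q x z = 0)
    (h2 : pb Q x v = 0) : Pg x (E Q z v) (1 : F) :=
  ⟨E_mem hB hn _ _, one_ne_zero, by rw [E_fix hz hv h1 h2, one_smul]⟩

theorem Qo_subset_fib {x : V} (hx : Q x = 0) {ω ω' : X} (h : ω' ∈ fib Q x ω) :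
    Qo Q x ω' ⊆ fib Q x ω := by
  classical
  intro a ha
  obtain ⟨v, hv, rfl⟩ := mem_Qo.1 ha
  simp only [fib, mem_filter] at h ⊢
  refine ⟨smul_mem_Yo h.1 (Pg.E hB hn hx hv (pb_sing hx) hv), ?_⟩
  rw [← h.2]
  have : AA (stabilizer (OG Q) (E Q x v • ω')) x = AA (stabilizer (OG Q) ω') x := by
    ext a
    rw [mem_AA, mem_AA]
    refine and_congr_right fun ha => ?_
    rw [mem_stabilizer_iff, mem_stabilizer_iff, ← mul_smul, ← E_add hx ha hv, add_comm,
      E_add hx hv ha, mul_smul, smul_left_cancel_iff]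
  rw [Tp, TT, this]
  rfl

omit hn in
theorem card_perp {x : V} (hx0 : x ≠ 0) [DecidablePred fun v => pb Q x v = 0] :
    Fintype.card F * (univ.filter fun v => pb Q x v = 0).card = Fintype.card F ^ finrank F V := by
  classical
  have h1 := finrank_orth hB (F ∙ x)
  rw [finrank_span_singleton hx0] at h1
  rw [← h1, pow_succ', ← Module.card_eq_pow_finrank, Fintype.card_subtype]
  congr 2
  ext v
  rw [mem_filter, mem_filter, mem_orth_span, pb_comm Q v x]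

omit hn in
theorem card_Tp_le_Qo {x : V} (hx : Q x = 0) (hx0 : x ≠ 0) (ω : X) :
    Nat.card (Tp Q x ω) ≤ Fintype.card F * (Qo Q x ω).card := by
  classical
  have h1 : (univ.filter fun v => pb Q x v = 0).card ≤
      Nat.card (AA (stabilizer (OG Q) ω) x) * (Qo Q x ω).card := by
    refine Finset.card_le_mul_card_image _ _ fun b hb => ?_
    obtain ⟨v, hv, rfl⟩ := mem_image.1 hb
    rw [Nat.card_eq_fintype_card, Fintype.card_subtype]
    refine card_le_card_of_injOn (fun a => a - v) (fun a ha => ?_) fun a _ b _ h => by simpa using h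
    simp only [coe_filter, mem_filter, mem_univ, true_and, Set.mem_ofPred_eq] at ha hv ⊢
    refine ⟨by simp [ha.1, hv], ?_⟩
    rw [sub_eq_neg_add, E_add hx (by simp [hv]) ha.1, mem_stabilizer_iff, mul_smul, ha.2,
      E_neg hx hv, inv_smul_smul]
  have h2 := card_ann hB (AA (stabilizer (OG Q) ω) x)
  rw [← card_perp hB hx0] at h2
  refine Nat.le_of_mul_le_mul_right (c := Nat.card (AA (stabilizer (OG Q) ω) x)) ?_ Nat.card_pos
  calc _ = _ := h2
    _ ≤ _ := Nat.mul_le_mul_left _ h1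
    _ = _ := by ring

theorem card_Tp_le_fib {x : V} (hx : Q x = 0) (hx0 : x ≠ 0) (ω : X) :
    Nat.card (Tp Q x ω) ≤ Fintype.card F * (fib Q x ω).card := by
  classical
  exact (card_Tp_le_Qo hB hx hx0 ω).trans (Nat.mul_le_mul_left _ (card_le_card
    (Qo_subset_fib hB hn hx (by simp [fib, self_mem_Yo]))))

omit hB hn in
theorem Qo_disj {x : V} (hx : Q x = 0) {ω ω' : X} (h : ω' ∉ Qo Q x ω) :
    Disjoint (Qo Q x ω) (Qo Q x ω') := by
  rw [Finset.disjoint_left]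
  intro a h1 h2
  obtain ⟨v, hv, rfl⟩ := mem_Qo.1 h1
  obtain ⟨v', hv', e⟩ := mem_Qo.1 h2
  refine h (mem_Qo.2 ⟨-v' + v, by simp [hv, hv'], ?_⟩)
  rw [E_add hx (by simp [hv']) hv, mul_smul, ← e, E_neg hx hv', inv_smul_smul]

theorem two_card_Tp_le_fib {x : V} (hx : Q x = 0) (hx0 : x ≠ 0) {ω ω' : X} (h : ω' ∈ fib Q x ω)
    (h' : ω' ∉ Qo Q x ω) : 2 * Nat.card (Tp Q x ω) ≤ Fintype.card F * (fib Q x ω).card := by
  classical
  have h1 := card_Tp_le_Qo hB hx hx0 ω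
  have h2 := card_Tp_le_Qo hB hx hx0 ω'
  have h3 := card_le_card (union_subset (Qo_subset_fib hB hn hx (ω := ω) (ω' := ω)
    (by simp [fib, self_mem_Yo])) (Qo_subset_fib hB hn hx h))
  rw [card_union_of_disjoint (Qo_disj hx h')] at h3
  rw [(mem_filter.1 h).2] at h2
  nlinarith

theorem exists_Pg_Cl {x t t' : V} (hx : Q x = 0) (hx0 : x ≠ 0) (ht : pb Q x t = 0)
    (htx : t ∉ F ∙ x) (h : t' ∈ Cl Q x t) : ∃ (g : OG Q) (c : F), Pg x g c ∧ twm g c t = t' := by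
  obtain ⟨h1, h2, c, hc, h3⟩ := mem_Cl.1 h
  obtain ⟨g, hg, h4, h5⟩ := witt2 hB hn (x := x) (t := t) (x' := c⁻¹ • x) (t' := c⁻¹ • t') hx0
    (by simp [hc, hx0]) htx (fun h => h2 (by
      rw [Submodule.span_singleton_smul_eq (inv_ne_zero hc).isUnit] at h
      simpa [smul_smul, hc] using Submodule.smul_mem _ c h))
    (by rw [Q_smul, hx, mul_zero]) (by rw [Q_smul, h3]; field_simp) (by simp [h1, ht])
  exact ⟨g, c⁻¹, ⟨hg, inv_ne_zero hc, h4⟩, by simp [twm_apply, h5, smul_smul, hc]⟩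

omit hB hn in
theorem mm_le {x : V} (hx : Q x = 0) (ω : X) {g : OG Q} {c : F} (hg : Pg x g c) (t : V) :
    mm Q x ω t ≤ mm Q x ω (twm g c t) := by
  classical
  refine card_le_card_of_injOn (fun T => T.map (twm g c)) (fun T hT => ?_)
    fun a _ b _ h => AddSubgroup.map_injective (twm_inj g hg.2.1) h
  simp only [CC, coe_filter, mem_image, Set.mem_ofPred_eq] at hT ⊢
  obtain ⟨⟨a, ha, rfl⟩, h⟩ := hT
  exact ⟨⟨g • a, smul_mem_Yo ha hg, Tp_smul hx hg a⟩, AddSubgroup.mem_map_of_mem _ h⟩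

theorem mm_le_of_Cl {x t t' : V} (hx : Q x = 0) (hx0 : x ≠ 0) (ht : pb Q x t = 0)
    (htx : t ∉ F ∙ x) (h : t' ∈ Cl Q x t) (ω : X) : mm Q x ω t ≤ mm Q x ω t' := by
  obtain ⟨g, c, hg, rfl⟩ := exists_Pg_Cl hB hn hx hx0 ht htx h
  exact mm_le hx ω hg t

open Classical in
theorem mm_mul_Cl {x t : V} (hx : Q x = 0) (hx0 : x ≠ 0) (ht : pb Q x t = 0)
    (htx : t ∉ F ∙ x) (ω : X) : (Cl Q x t).card * mm Q x ω t ≤
      (CC Q x ω).card * ((Cl Q x t).filter (· ∈ Tp Q x ω)).card := by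
  refine Finset.card_mul_le_card_mul (fun t' (T : AddSubgroup V) => t' ∈ T)
    (fun t' h => mm_le_of_Cl hB hn hx hx0 ht htx h ω) fun T hT => ?_
  obtain ⟨a, ha, rfl⟩ := mem_image.1 hT
  obtain ⟨g, c, hg, rfl⟩ := mem_Yo.1 ha
  refine card_le_card_of_injOn (twm g⁻¹ c⁻¹) (fun a ha => ?_)
    fun a _ b _ h => twm_inj _ hg.inv.2.1 h
  simp only [bipartiteBelow, coe_filter, Set.mem_ofPred_eq] at ha ⊢
  exact ⟨twm_mem_Cl hg.inv ha.1, by simpa using (mem_Tp_smul hx hg.inv (g • ω) a).1 ha.2⟩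

theorem CC_mul_T {x : V} (hx : Q x = 0) (hx0 : x ≠ 0) (ω : X) :
    (CC Q x ω).card * Nat.card (Tp Q x ω) ≤ Fintype.card F * (Yo Q x ω).card := by
  have h1 := CC_mul_fib (Q := Q) hx ω
  have h2 := card_Tp_le_fib hB hn hx hx0 ω
  calc _ ≤ (CC Q x ω).card * (Fintype.card F * (fib Q x ω).card) := Nat.mul_le_mul_left _ h2
    _ = Fintype.card F * ((fib Q x ω).card * (CC Q x ω).card) := by ring
    _ ≤ _ := Nat.mul_le_mul_left _ h1

/-- the basic one-class bound -/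
theorem one_class {x t : V} (hx : Q x = 0) (hx0 : x ≠ 0) (ht : pb Q x t = 0)
    (htx : t ∉ F ∙ x) (ω : X) {M j : ℕ} (hM : Nat.card (Tp Q x ω) ≤ M)
    (hj : j * Nat.card (Tp Q x ω) ≤ Fintype.card F * (fib Q x ω).card) :
    j * (Cl Q x t).card * mm Q x ω t * M ≤
      Fintype.card F * (Yo Q x ω).card * (M - Fintype.card F) := by
  classical
  have h1 := CC_mul_fib (Q := Q) hx ω
  have h2 := mm_mul_Cl hB hn hx hx0 ht htx ω
  have h3 := card_Cl_inter (Q := Q) hx0 ω t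
  have h4 : 0 < Nat.card (Tp Q x ω) := Nat.card_pos
  generalize Nat.card (Tp Q x ω) = T at *
  generalize ((Cl Q x t).filter (· ∈ Tp Q x ω)).card = I at *
  generalize Fintype.card F = q at *
  obtain ⟨r, rfl⟩ : ∃ r, M = q + r := ⟨M - q, by omega⟩
  rw [Nat.add_sub_cancel_left]
  have h5 : I * (q + r) ≤ T * r := by nlinarith
  refine Nat.le_of_mul_le_mul_right ?_ h4
  calc j * (Cl Q x t).card * mm Q x ω t * (q + r) * T
      = (Cl Q x t).card * mm Q x ω t * (q + r) * (j * T) := by ring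
    _ ≤ (CC Q x ω).card * I * (q + r) * (q * (fib Q x ω).card) := by gcongr
    _ = q * ((fib Q x ω).card * (CC Q x ω).card) * (I * (q + r)) := by ring
    _ ≤ q * (Yo Q x ω).card * (T * r) := by gcongr
    _ = _ := by ring

theorem one_class' {x t : V} (hx : Q x = 0) (hx0 : x ≠ 0) (ht : pb Q x t = 0)
    (htx : t ∉ F ∙ x) (ω : X) :
    (Cl Q x t).card * mm Q x ω t ≤ Fintype.card F * (Yo Q x ω).card := by
  classical
  have h2 := mm_mul_Cl hB hn hx hx0 ht htx ω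
  have h3 := card_Cl_inter (Q := Q) hx0 ω t
  exact h2.trans ((Nat.mul_le_mul_left _ (by omega)).trans (CC_mul_T hB hn hx hx0 ω))

theorem two_class {x t s : V} (hx : Q x = 0) (hx0 : x ≠ 0) (ht : pb Q x t = 0)
    (htx : t ∉ F ∙ x) (hs : pb Q x s = 0) (hsx : s ∉ F ∙ x) (hst : s ∉ Cl Q x t) (ω : X) :
    (Cl Q x t).card * mm Q x ω t + (Cl Q x s).card * mm Q x ω s ≤
      Fintype.card F * (Yo Q x ω).card := by
  classical
  have h1 := mm_mul_Cl hB hn hx hx0 ht htx ω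
  have h2 := mm_mul_Cl hB hn hx hx0 hs hsx ω
  refine (add_le_add h1 h2).trans (le_trans ?_ (CC_mul_T hB hn hx hx0 ω))
  rw [← mul_add, ← card_union_of_disjoint, Nat.card_eq_fintype_card, Fintype.card_subtype]
  · refine Nat.mul_le_mul_left _ (card_le_card fun a ha => ?_)
    simp only [mem_union, mem_filter, mem_univ, true_and] at ha ⊢
    exact ha.elim (·.2) (·.2)
  · rw [Finset.disjoint_left]
    intro a h3 h4
    obtain ⟨-, -, c, hc, e⟩ := mem_Cl.1 (mem_filter.1 h3).1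
    obtain ⟨-, -, d, hd, e'⟩ := mem_Cl.1 (mem_filter.1 h4).1
    refine hst (mem_Cl.2 ⟨hs, hsx, c / d, div_ne_zero hc hd, ?_⟩)
    field_simp
    linear_combination e - e'

omit hB hn in
theorem one_le_mm {x t : V} {ω : X} (ht : t ∈ Tp Q x ω) : 1 ≤ mm Q x ω t := by
  classical
  exact card_pos.2 ⟨Tp Q x ω, mem_filter.2 ⟨mem_image_of_mem _ (self_mem_Yo x ω), ht⟩⟩

end Cfsg.Agent.H4
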