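import Mathlib
import Cfsg.Agent.H6.OrthBasis
import Cfsg.Agent.H6.OrthInv

/-!
# Eichler transformations in orthogonal groups: calculus, generation, Witt's lemma in `Ω`
-/

set_option autoImplicit false
set_option linter.unusedSectionVars false
set_option linter.unusedSimpArgs false
set_option linter.unnecessarySeqFocus false

namespace Cfsg.Agent.H4

open Cfsg.Agent.H6 Module

variable {F V : Type*} [Field F] [AddCommGroup V] [Module F V]

/-- linear map of an Eichler transformation -/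
noncomputable def eLin (Q : QuadraticForm F V) (z v : V) : V →ₗ[F] V :=
  LinearMap.id + ((pb Q).flip v).smulRight z - ((pb Q).flip z).smulRight (v + Q v • z)

theorem eLin_apply (Q : QuadraticForm F V) (z v w : V) :
    eLin Q z v w = w + pb Q w v • z - pb Q w z • (v + Q v • z) := rfl

variable {Q : QuadraticForm F V}

theorem pb_sing {z : V} (hz : Q z = 0) : pb Q z z = 0 := by rw [pb_self, hz, mul_zero]

theorem eLin_add {z v v' : V} (hz : Q z = 0) (hv : pb Q z v = 0) (hv' : pb Q z v' = 0) (w : V) :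
    eLin Q z v (eLin Q z v' w) = eLin Q z (v + v') w := by
  have h1 : pb Q v z = 0 := by rw [pb_comm, hv]
  have h2 : pb Q v' z = 0 := by rw [pb_comm, hv']
  simp only [eLin_apply, map_add, map_sub, map_smul, LinearMap.add_apply, LinearMap.sub_apply,
    LinearMap.smul_apply, smul_eq_mul, pb_sing hz, hv, h2, Q_add, pb_comm Q v' v]
  module

theorem eLin_zero (z w : V) : eLin Q z 0 w = w := by simp [eLin_apply]

open Classical in
/-- Eichler transformation (the identity for inadmissible parameters) -/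
noncomputable def E (Q : QuadraticForm F V) (z v : V) : OG Q :=
  if h : Q z = 0 ∧ pb Q z v = 0 then
    ⟨LinearEquiv.ofLinearMap (eLin Q z v) (eLin Q z (-v))
      (LinearMap.ext fun w => by
        change eLin Q z v (eLin Q z (-v) w) = w
        rw [eLin_add h.1 h.2 (by simp [h.2]), add_neg_cancel, eLin_zero])
      (LinearMap.ext fun w => by
        change eLin Q z (-v) (eLin Q z v w) = w
        rw [eLin_add h.1 (by simp [h.2]) h.2, neg_add_cancel, eLin_zero]), fun w => by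
      change Q (eLin Q z v w) = Q w
      have h1 : pb Q v z = 0 := by rw [pb_comm, h.2]
      simp only [eLin_apply, Q_sub, Q_add, Q_smul, map_add, map_smul, LinearMap.add_apply,
        LinearMap.smul_apply, smul_eq_mul, pb_sing h.1, h.1, h.2, h1]
      ring⟩
  else 1

theorem E_apply {z v : V} (hz : Q z = 0) (hv : pb Q z v = 0) (w : V) :
    (E Q z v).1 w = w + pb Q w v • z - pb Q w z • (v + Q v • z) := by
  rw [E, dif_pos ⟨hz, hv⟩]; rfl

theorem E_add {z v v' : V} (hz : Q z = 0) (hv : pb Q z v = 0) (hv' : pb Q z v' = 0) :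
    E Q z (v + v') = E Q z v * E Q z v' := OG_ext fun w => by
  rw [OG_mul_apply, E_apply hz hv, E_apply hz hv', E_apply hz (by simp [hv, hv'])]
  exact (eLin_add hz hv hv' w).symm

theorem E_zero (z : V) : E Q z 0 = 1 := by
  by_cases hz : Q z = 0
  · exact OG_ext fun w => by rw [E_apply hz (by simp)]; simp
  · rw [E, dif_neg (fun h => hz h.1)]

theorem E_neg {z v : V} (hz : Q z = 0) (hv : pb Q z v = 0) : E Q z (-v) = (E Q z v)⁻¹ := by
  rw [eq_inv_iff_mul_eq_one, ← E_add hz (by simp [hv]) hv, neg_add_cancel, E_zero]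

theorem E_line {z : V} (hz : Q z = 0) (c : F) : E Q z (c • z) = 1 := OG_ext fun w => by
  rw [E_apply hz (by simp [pb_sing hz])]
  simp [Q_smul, hz, smul_smul, mul_comm]

theorem E_smul {z v : V} (hz : Q z = 0) (hv : pb Q z v = 0) (c : F) :
    E Q (c • z) v = E Q z (c • v) := OG_ext fun w => by
  rw [E_apply (by rw [Q_smul, hz, mul_zero]) (by simp [hv]), E_apply hz (by simp [hv])]
  simp only [map_smul, smul_eq_mul, Q_smul]
  module

theorem E_swap {z v : V} (hz : Q z = 0) (hv : Q v = 0) (h : pb Q z v = 0) :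
    E Q z v = E Q v (-z) := OG_ext fun w => by
  rw [E_apply hz h, E_apply hv (by simp [pb_comm Q v z, h])]
  simp only [map_neg, Q_neg, hz, hv]
  module

theorem E_conj (g : OG Q) (z v : V) : g * E Q z v * g⁻¹ = E Q (g.1 z) (g.1 v) := by
  by_cases h : Q z = 0 ∧ pb Q z v = 0
  · refine OG_ext fun w => ?_
    rw [OG_mul_apply, OG_mul_apply, E_apply h.1 h.2,
      E_apply (by rw [OG_Q, h.1]) (by rw [OG_pb, h.2])]
    simp only [map_sub, map_add, map_smul, OG_apply_inv, OG_Q, pb_comm Q w, OG_pb_inv g,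
      pb_comm Q (g⁻¹.1 w)]
  · rw [E, dif_neg h, E, dif_neg (by rwa [OG_Q, OG_pb])]; simp

theorem E_fix {z v w : V} (hz : Q z = 0) (hv : pb Q z v = 0) (h1 : pb Q w z = 0)
    (h2 : pb Q w v = 0) : (E Q z v).1 w = w := by
  rw [E_apply hz hv, h1, h2]; simp

theorem E_self {z v : V} (hz : Q z = 0) (hv : pb Q z v = 0) : (E Q z v).1 z = z :=
  E_fix hz hv (pb_sing hz) hv

theorem E_perp {z v w : V} (hz : Q z = 0) (hv : pb Q z v = 0) (h1 : pb Q w z = 0) :
    (E Q z v).1 w = w + pb Q w v • z := by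
  rw [E_apply hz hv, h1]; simp

theorem E_eq_refl {z v : V} (hz : Q z = 0) (hv : pb Q z v = 0) (h : Q v ≠ 0) :
    E Q z v = refl Q v * refl Q (v - Q v • z) := OG_ext fun w => by
  have h1 : pb Q v z = 0 := by rw [pb_comm, hv]
  have h2 : Q (v - Q v • z) = Q v := by rw [Q_sub, Q_smul, hz]; simp [h1]
  rw [E_apply hz hv, OG_mul_apply, refl_apply, refl_apply, h2]
  simp only [map_sub, map_smul, LinearMap.sub_apply, LinearMap.smul_apply, smul_eq_mul, pb_self,
    hv]
  match_scalars <;> field_simp <;> ring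

theorem nE_eq {x y u : V} (hx : Q x = 0) (hy : Q y = 0) (hxy : pb Q x y = 1)
    (hxu : pb Q x u = 0) (hyu : pb Q y u = 0) (hu : Q u ≠ 0) :
    E Q x u * E Q y ((Q u)⁻¹ • u) * E Q x u = refl Q u * refl Q (Q u • x + y) := OG_ext fun w => by
  have h1 : pb Q u x = 0 := by rw [pb_comm, hxu]
  have h2 : pb Q u y = 0 := by rw [pb_comm, hyu]
  have h3 : pb Q y x = 1 := by rw [pb_comm, hxy]
  have h4 : Q (Q u • x + y) = Q u := by rw [Q_add, Q_smul, hx, hy]; simp [hxy]
  have h5 : pb Q y ((Q u)⁻¹ • u) = 0 := by simp [hyu]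
  rw [OG_mul_apply, OG_mul_apply, OG_mul_apply, refl_apply, refl_apply, h4, E_apply hx hxu,
    E_apply hy h5, E_apply hx hxu]
  simp only [map_sub, map_add, map_smul, LinearMap.sub_apply, LinearMap.add_apply,
    LinearMap.smul_apply, smul_eq_mul, pb_self, hx, hy, hxy, hxu, hyu, h1, h2, h3, Q_smul]
  match_scalars <;> field_simp <;> ring

theorem exists_hyp_partner {S : Submodule F V} {e f0 : V} (he : Q e = 0) (heS : e ∈ S)
    (hf : f0 ∈ S) (h : pb Q e f0 ≠ 0) : ∃ f ∈ S, Q f = 0 ∧ pb Q e f = 1 := by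
  refine ⟨(pb Q e f0)⁻¹ • f0 - Q ((pb Q e f0)⁻¹ • f0) • e,
    S.sub_mem (S.smul_mem _ hf) (S.smul_mem _ heS), ?_, ?_⟩
  · rw [Q_sub, Q_smul _ _ e, he]
    simp only [map_smul, LinearMap.smul_apply, smul_eq_mul, pb_comm Q f0 e]
    field_simp
    ring
  · simp [pb_sing he, h]

theorem exists_sing_of_hyp {S : Submodule F V} {e f : V} (heS : e ∈ S) (hfS : f ∈ S)
    (he : Q e = 0) (hf : Q f = 0) (hef : pb Q e f = 1) {t s : V} (hs : s ∈ S)
    (h : pb Q t s ≠ 0) : ∃ z ∈ S, Q z = 0 ∧ pb Q t z ≠ 0 := by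
  by_contra hc
  push Not at hc
  have hfe : pb Q f e = 1 := by rw [pb_comm, hef]
  set s1 := s - pb Q s f • e - pb Q s e • f with hs1
  have h1 : pb Q s1 e = 0 := by simp [hs1, pb_sing he, hfe]
  have h2 : pb Q s1 f = 0 := by simp [hs1, pb_sing hf, hef]
  have hm : s1 ∈ S := S.sub_mem (S.sub_mem hs (S.smul_mem _ heS)) (S.smul_mem _ hfS)
  have h3 := hc (s1 + e - Q s1 • f) (S.sub_mem (S.add_mem hm heS) (S.smul_mem _ hfS)) (by
    rw [Q_sub, Q_add, Q_smul, he, hf, h1]
    simp [h2, hef])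
  have h4 := hc e heS he
  have h5 := hc f hfS hf
  apply h
  simp only [map_sub, map_add, map_smul, h4, h5, hs1, smul_eq_mul, mul_zero, sub_zero,
    add_zero] at h3
  exact h3

section Fin

variable [Fintype F] [FiniteDimensional F V]

theorem finrank_inf_perp (S : Submodule F V) (u : V) :
    finrank F S ≤ finrank F ↥(S ⊓ (pb Q).orthogonal (F ∙ u)) + 1 := by
  have h1 := LinearMap.finrank_range_add_finrank_ker (((pb Q).flip u).domRestrict S)
  have h2 : finrank F (LinearMap.range (((pb Q).flip u).domRestrict S)) ≤ 1 := by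
    simpa using Submodule.finrank_le (LinearMap.range (((pb Q).flip u).domRestrict S))
  have h3 : finrank F (LinearMap.ker (((pb Q).flip u).domRestrict S)) =
      finrank F ↥(S ⊓ (pb Q).orthogonal (F ∙ u)) := by
    have : Submodule.map S.subtype (LinearMap.ker (((pb Q).flip u).domRestrict S)) =
        S ⊓ (pb Q).orthogonal (F ∙ u) := by
      ext w
      simp only [Submodule.mem_map, LinearMap.mem_ker, Submodule.mem_inf, mem_orth_span]
      constructor
      · rintro ⟨a, ha, rfl⟩; exact ⟨a.2, ha⟩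
      · rintro ⟨h1, h2⟩; exact ⟨⟨w, h1⟩, h2, rfl⟩
    rw [← Submodule.finrank_map_subtype_eq, this]
  omega

theorem exists_mem_not_mem {S T : Submodule F V} (h : finrank F S < finrank F T) :
    ∃ z ∈ T, z ∉ S := by
  by_contra hc
  push Not at hc
  exact absurd (Submodule.finrank_mono (show T ≤ S from hc)) (not_le.mpr h)

theorem finrank_line_le (y : V) : finrank F (F ∙ y) ≤ 1 := by
  by_cases hy : y = 0
  · subst hy; rw [Submodule.span_zero_singleton, finrank_bot]; omega
  · rw [finrank_span_singleton hy]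

theorem finrank_sup_line_le (W : Submodule F V) (y : V) :
    finrank F ↥(W ⊔ F ∙ y) ≤ finrank F W + 1 := by
  have := Submodule.finrank_add_le_finrank_add_finrank W (F ∙ y)
  have := finrank_line_le (F := F) y
  omega

theorem exists_sing_of_three (Q : QuadraticForm F V) (S : Submodule F V) (h : 3 ≤ finrank F S) :
    ∃ z ∈ S, z ≠ 0 ∧ Q z = 0 := by
  classical
  by_contra hc
  push Not at hc
  obtain ⟨u, hu, hu0⟩ := exists_mem_not_mem (S := ⊥) (T := S) (by rw [finrank_bot]; omega)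
  replace hu0 : u ≠ 0 := by simpa using hu0
  have h1 := finrank_inf_perp (Q := Q) S u
  obtain ⟨w, hw, hw0⟩ := exists_mem_not_mem (S := F ∙ u) (T := S ⊓ (pb Q).orthogonal (F ∙ u))
    (by have := finrank_line_le (F := F) u; omega)
  have hwu := mem_orth_span.1 hw.2
  have hQu := hc u hu hu0
  by_cases h2 : (2 : F) = 0
  · have : CharP F 2 := CharTwo.of_one_ne_zero_of_two_eq_zero one_ne_zero h2
    obtain ⟨c, hc'⟩ := FiniteField.isSquare_of_char_two (ringChar.eq F 2) (Q w / Q u)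
    refine hc (w + c • u) (S.add_mem hw.1 (S.smul_mem _ hu)) (fun e => hw0 ?_) ?_
    · rw [eq_neg_of_add_eq_zero_left e]
      exact Submodule.neg_mem _ (Submodule.smul_mem _ _ (Submodule.mem_span_singleton_self u))
    · rw [Q_add, Q_smul, sq, ← hc']
      simp only [map_smul, hwu, smul_zero, add_zero]
      field_simp
      linear_combination Q w * h2
  · have h3 := finrank_inf_perp (Q := Q) (S ⊓ (pb Q).orthogonal (F ∙ u)) w
    obtain ⟨w', hw', hw'0⟩ := exists_mem_not_mem (S := ⊥)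
      (T := S ⊓ (pb Q).orthogonal (F ∙ u) ⊓ (pb Q).orthogonal (F ∙ w)) (by rw [finrank_bot]; omega)
    replace hw'0 : w' ≠ 0 := by simpa using hw'0
    have hQw := hc w hw.1 (by rintro rfl; exact hw0 (Submodule.zero_mem _))
    have hQw' := hc w' hw'.1.1 hw'0
    have e1 := mem_orth_span.1 hw'.1.2
    have e2 := mem_orth_span.1 hw'.2
    have hodd : Fintype.card F % 2 = 1 := FiniteField.odd_card_of_char_ne_two (by
      intro h
      have := ringChar.Nat.cast_ringChar (R := F)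
      rw [h] at this
      exact h2 (by exact_mod_cast this))
    obtain ⟨a, b, hab⟩ := FiniteField.exists_root_sum_quadratic
      (f := Polynomial.C (Q u) * Polynomial.X ^ 2)
      (g := Polynomial.C (Q w) * Polynomial.X ^ 2 + Polynomial.C (Q w'))
      (by rw [Polynomial.degree_C_mul_X_pow _ hQu]; rfl) (by compute_degree!) hodd
    simp only [Polynomial.eval_mul, Polynomial.eval_C, Polynomial.eval_pow, Polynomial.eval_X,
      Polynomial.eval_add] at hab
    refine hc (w' + (b • w + a • u))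
      (S.add_mem hw'.1.1 (S.add_mem (S.smul_mem _ hw.1) (S.smul_mem _ hu))) (fun e => ?_) ?_
    · have := congrArg (pb Q w') e
      simp only [map_add, map_smul, e1, e2, pb_self, smul_zero, add_zero, map_zero] at this
      exact mul_ne_zero h2 hQw' this
    · rw [Q_add, Q_add, Q_smul, Q_smul]
      simp only [map_add, map_smul, LinearMap.smul_apply, e1, e2, hwu, smul_zero, add_zero]
      linear_combination hab

variable (hB : (pb Q).Nondegenerate)
include hB

theorem orth_orth (U : Submodule F V) : (pb Q).orthogonal ((pb Q).orthogonal U) = U :=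
  LinearMap.BilinForm.orthogonal_orthogonal hB (pb_isRefl Q) U

theorem finrank_orth (U : Submodule F V) :
    finrank F ((pb Q).orthogonal U) + finrank F U = finrank F V := by
  rw [LinearMap.BilinForm.finrank_orthogonal hB]
  have := Submodule.finrank_le U
  omega

theorem exists_orth_ne {U : Submodule F V} {t : V} (h : t ∉ U) :
    ∃ s ∈ (pb Q).orthogonal U, pb Q t s ≠ 0 := by
  obtain ⟨y, h1, h2⟩ := exists_dual hB U h
  exact ⟨y, fun x hx => h1 x hx, by rw [h2]; exact one_ne_zero⟩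

theorem exists_hyp (U : Submodule F V)
    (h : finrank F U + finrank F ↥(U ⊓ (pb Q).orthogonal U) + 3 ≤ finrank F V) :
    ∃ e ∈ (pb Q).orthogonal U, ∃ f ∈ (pb Q).orthogonal U, Q e = 0 ∧ Q f = 0 ∧ pb Q e f = 1 := by
  obtain ⟨C, hC⟩ := (U ⊓ (pb Q).orthogonal U).exists_isCompl
  have h1 := Submodule.finrank_add_eq_of_isCompl hC
  have h2 := Submodule.finrank_sup_add_finrank_inf_eq C ((pb Q).orthogonal U)
  have h3 := Submodule.finrank_le (C ⊔ (pb Q).orthogonal U)
  have h4 := finrank_orth hB U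
  obtain ⟨e, he, he0, hQ⟩ := exists_sing_of_three Q (C ⊓ (pb Q).orthogonal U) (by omega)
  have : e ∉ U := fun h' => he0 (by
    have := hC.disjoint.le_bot (⟨⟨h', he.2⟩, he.1⟩ : e ∈ (U ⊓ (pb Q).orthogonal U) ⊓ C)
    simpa using this)
  obtain ⟨s, hs, hs'⟩ := exists_orth_ne hB this
  obtain ⟨f, hf, h5, h6⟩ := exists_hyp_partner hQ he.2 hs hs'
  exact ⟨e, he.2, f, hf, hQ, h5, h6⟩

omit hB in
theorem mem_orth_pair {a b w : V} :
    w ∈ (pb Q).orthogonal ((F ∙ a) ⊔ F ∙ b) ↔ pb Q w a = 0 ∧ pb Q w b = 0 := by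
  rw [orth_sup, Submodule.mem_inf, mem_orth_span, mem_orth_span]

omit hB in
theorem finrank_pair_le (a b : V) : finrank F ↥((F ∙ a) ⊔ F ∙ b) ≤ 2 := by
  have := finrank_sup_line_le (F ∙ a) b
  have := finrank_line_le (F := F) a
  omega

theorem exists_hyp2 (hn : 7 ≤ finrank F V) (a b : V) :
    ∃ e f, Q e = 0 ∧ Q f = 0 ∧ pb Q e f = 1 ∧ pb Q e a = 0 ∧ pb Q e b = 0 ∧ pb Q f a = 0 ∧
      pb Q f b = 0 := by
  obtain ⟨e, he, f, hf, h1, h2, h3⟩ := exists_hyp hB ((F ∙ a) ⊔ F ∙ b) (by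
    have := finrank_pair_le (F := F) a b
    have := Submodule.finrank_mono (inf_le_left : ((F ∙ a) ⊔ F ∙ b) ⊓
      (pb Q).orthogonal ((F ∙ a) ⊔ F ∙ b) ≤ _)
    omega)
  rw [mem_orth_pair] at he hf
  exact ⟨e, f, h1, h2, h3, he.1, he.2, hf.1, hf.2⟩

theorem exists_partner {x : V} (hx : Q x = 0) (h0 : x ≠ 0) : ∃ y, Q y = 0 ∧ pb Q x y = 1 := by
  obtain ⟨s, -, hs⟩ := exists_orth_ne hB (U := ⊥) (t := x) (by simpa using h0)
  obtain ⟨f, -, h⟩ := exists_hyp_partner (S := ⊤) hx trivial trivial hs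
  exact ⟨f, h⟩

/-- a singular vector orthogonal to `a, b` and not orthogonal to `t` -/
theorem exists_sing2 (hn : 7 ≤ finrank F V) {a b t : V} (h : t ∉ (F ∙ a) ⊔ F ∙ b) :
    ∃ z, Q z = 0 ∧ pb Q z a = 0 ∧ pb Q z b = 0 ∧ pb Q t z ≠ 0 := by
  obtain ⟨e, f, h1, h2, h3, h4, h5, h6, h7⟩ := exists_hyp2 hB hn a b
  obtain ⟨s, hs, hs'⟩ := exists_orth_ne hB h
  obtain ⟨z, hz, h8, h9⟩ := exists_sing_of_hyp (mem_orth_pair.2 ⟨h4, h5⟩)
    (mem_orth_pair.2 ⟨h6, h7⟩) h1 h2 h3 hs hs'
  rw [mem_orth_pair] at hz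
  exact ⟨z, h8, hz.1, hz.2, h9⟩

omit hB [FiniteDimensional F V] [Fintype F] in
theorem Q_hyp {e f : V} (he : Q e = 0) (hf : Q f = 0) (hef : pb Q e f = 1) (c : F) :
    Q (e + c • f) = c := by
  rw [Q_add, Q_smul, he, hf]; simp [hef]

theorem refl_mul_refl_mem {u v : V} (hu : Q u ≠ 0) (hv : Q v ≠ 0) (h : IsSquare (Q u * Q v)) :
    refl Q u * refl Q v ∈ commutator (OG Q) := by
  classical
  have h1 : quadraticChar F (Q u) = quadraticChar F (Q v) := by
    have h2 := (quadraticChar_one_iff_isSquare (mul_ne_zero hu hv)).2 h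
    rw [map_mul] at h2
    rw [← one_mul (quadraticChar F (Q v)), ← h2, mul_assoc, qc_sq hv, mul_one]
  obtain ⟨g, hg⟩ := isConj_iff.1 (isConj_refl hB hu hv h1)
  rw [← hg]
  have := Subgroup.commutator_mem_commutator (Subgroup.mem_top (refl Q u)) (Subgroup.mem_top g)
  rw [commutatorElement_def, refl_inv] at this
  rw [commutator_def]
  simpa only [mul_assoc] using this

theorem E_mem (hn : 7 ≤ finrank F V) (z v : V) : E Q z v ∈ commutator (OG Q) := by
  by_cases h : Q z = 0 ∧ pb Q z v = 0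
  swap
  · rw [E, dif_neg h]; exact one_mem _
  obtain ⟨hz, hv⟩ := h
  have key : ∀ v, pb Q z v = 0 → Q v ≠ 0 → E Q z v ∈ commutator (OG Q) := by
    intro v hv h
    have h2 : Q (v - Q v • z) = Q v := by rw [Q_sub, Q_smul, hz]; simp [pb_comm Q v z, hv]
    rw [E_eq_refl hz hv h]
    exact refl_mul_refl_mem hB h (by rwa [h2]) (by rw [h2]; exact ⟨_, rfl⟩)
  by_cases h : Q v = 0
  · obtain ⟨e, f, h1, h2, h3, h4, h5, h6, h7⟩ := exists_hyp2 hB hn z v
    have hu : Q (e + (1 : F) • f) = 1 := Q_hyp h1 h2 h3 1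
    have hzu : pb Q z (e + (1 : F) • f) = 0 := by simp [pb_comm Q z, h4, h6]
    have : v = (v + (e + (1 : F) • f)) + -(e + (1 : F) • f) := by abel
    rw [this, E_add hz (by rw [map_add, hv, hzu, add_zero]) (by rw [map_neg, hzu, neg_zero])]
    refine mul_mem (key _ (by rw [map_add, hv, hzu, add_zero]) ?_)
      (key _ (by rw [map_neg, hzu, neg_zero]) (by rw [Q_neg, hu]; exact one_ne_zero))
    rw [Q_add, hu, h]
    simp [pb_comm Q v, h5, h7]
  · exact key v hv h

omit hB [Fintype F] in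
theorem bigEnough (hn : 7 ≤ finrank F V) : BigEnough F V := Or.inl (by omega)

theorem adjust (hn : 7 ≤ finrank F V) {e f : V} (he : Q e = 0) (hf : Q f = 0)
    (hef : pb Q e f = 1) (g : OG Q) :
    ∃ g' ∈ commutator (OG Q), ∀ u, pb Q u e = 0 → pb Q u f = 0 → g'.1 u = g.1 u := by
  classical
  have hN := bigEnough hn
  have hfix : ∀ (c : F) (u : V), pb Q u e = 0 → pb Q u f = 0 → (refl Q (e + c • f)).1 u = u :=
    fun c u h1 h2 => refl_of_orth (by simp [h1, h2])
  have h1 : ∃ g1 : OG Q, dick hB hN g1 = 1 ∧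
      ∀ u, pb Q u e = 0 → pb Q u f = 0 → g1.1 u = g.1 u := by
    rcases Int.units_eq_one_or (dick hB hN g) with h | h
    · exact ⟨g, h, fun _ _ _ => rfl⟩
    · refine ⟨g * refl Q (e + (1 : F) • f), ?_, fun u h1 h2 => ?_⟩
      · rw [map_mul, h, dick_refl hB hN (by rw [Q_hyp he hf hef]; exact one_ne_zero)]; simp
      · rw [OG_mul_apply, hfix 1 u h1 h2]
  obtain ⟨g1, hd, hg1⟩ := h1
  rcases theta_dichotomy hB hN g1 with h | h
  · exact ⟨g1, (mem_commutator_OG hB hN g1).2 ⟨(dick_eq_one_iff hB hN g1).1 hd, h⟩, hg1⟩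
  · have h2 : ringChar F ≠ 2 := by
      intro h2
      have : CharP F 2 := h2 ▸ ringChar.charP F
      rw [theta_eq_one_of_char_two hB hN] at h
      omega
    obtain ⟨c, hc⟩ := quadraticChar_exists_neg_one' h2
    have n1 : Q (e + (1 : F) • f) ≠ 0 := by rw [Q_hyp he hf hef]; exact one_ne_zero
    have n2 : Q (e + (c : F) • f) ≠ 0 := by rw [Q_hyp he hf hef]; exact c.ne_zero
    refine ⟨g1 * refl Q (e + (1 : F) • f) * refl Q (e + (c : F) • f),
      (mem_commutator_OG hB hN _).2 ⟨(dick_eq_one_iff hB hN _).1 ?_, ?_⟩, fun u h1 h2 => ?_⟩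
    · rw [map_mul, map_mul, hd, dick_refl hB hN n1, dick_refl hB hN n2]; simp
    · rw [theta_mul_refl hB _ n2, theta_mul_refl hB _ n1, h, Q_hyp he hf hef, Q_hyp he hf hef, hc]
      simp
    · rw [OG_mul_apply, OG_mul_apply, hfix _ u h1 h2, hfix _ u h1 h2, hg1 u h1 h2]

theorem witt1 (hn : 7 ≤ finrank F V) {v v' : V} (hv : v ≠ 0) (hv' : v' ≠ 0) (h : Q v' = Q v) :
    ∃ g ∈ commutator (OG Q), g.1 v = v' := by
  obtain ⟨g, hg⟩ := witt_vec hB hv hv' h
  obtain ⟨e, f, h1, h2, h3, h4, -, h6, -⟩ := exists_hyp2 hB hn v v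
  obtain ⟨g', hg', h'⟩ := adjust hB hn h1 h2 h3 g
  exact ⟨g', hg', by rw [h' v (by rw [pb_comm, h4]) (by rw [pb_comm, h6]), hg]⟩

theorem witt2 (hn : 7 ≤ finrank F V) {x t x' t' : V} (hx : x ≠ 0) (hx' : x' ≠ 0)
    (ht : t ∉ F ∙ x) (ht' : t' ∉ F ∙ x') (h1 : Q x' = Q x) (h2 : Q t' = Q t)
    (h3 : pb Q x' t' = pb Q x t) : ∃ g ∈ commutator (OG Q), g.1 x = x' ∧ g.1 t = t' := by
  obtain ⟨g1, hg1⟩ := witt_vec hB hx hx' h1
  have : g1.1 t ∉ F ∙ x' := by
    intro h
    obtain ⟨c, hc⟩ := Submodule.mem_span_singleton.1 h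
    rw [← hg1, ← map_smul] at hc
    exact ht (Submodule.mem_span_singleton.2 ⟨c, g1.1.injective hc⟩)
  obtain ⟨g2, hg2, hg2'⟩ := witt_step hB (F ∙ x') this ht' (by rw [h2, OG_Q]) (fun y hy => by
    obtain ⟨c, rfl⟩ := Submodule.mem_span_singleton.1 hy
    rw [map_smul, LinearMap.smul_apply, LinearMap.smul_apply, h3, ← hg1, OG_pb])
  obtain ⟨e, f, h4, h5, h6, h7, h8, h9, h10⟩ := exists_hyp2 hB hn x t
  obtain ⟨g', hg', h'⟩ := adjust hB hn h4 h5 h6 (g2 * g1)
  refine ⟨g', hg', ?_, ?_⟩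
  · rw [h' x (by rw [pb_comm, h7]) (by rw [pb_comm, h9]), OG_mul_apply, hg1,
      hg2 _ (Submodule.mem_span_singleton_self _)]
  · rw [h' t (by rw [pb_comm, h8]) (by rw [pb_comm, h10]), OG_mul_apply, hg2']

theorem commutator_le_of_E (hn : 7 ≤ finrank F V) (H : Subgroup (OG Q))
    (hH : ∀ z v, E Q z v ∈ H) : commutator (OG Q) ≤ H := by
  let EG : Subgroup (OG Q) := Subgroup.closure {g | ∃ z v, g = E Q z v}
  have hEG : ∀ z v, E Q z v ∈ EG := fun z v => Subgroup.subset_closure ⟨z, v, rfl⟩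
  have hnorm : EG.Normal := ⟨fun a ha g => by
    induction ha using Subgroup.closure_induction with
    | mem a h => obtain ⟨z, v, rfl⟩ := h; rw [E_conj]; exact hEG _ _
    | one => simp
    | mul a b _ _ h1 h2 =>
      have := mul_mem h1 h2
      simpa [mul_assoc] using this
    | inv a _ h =>
      have := inv_mem h
      simpa [mul_assoc] using this⟩
  refine le_trans ?_ ((Subgroup.closure_le H).2 (show {g | ∃ z v, g = E Q z v} ⊆ _ by
    rintro _ ⟨z, v, rfl⟩; exact hH z v))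
  obtain ⟨x, y, hx, hy, hxy, -⟩ := exists_hyp2 hB hn 0 0
  obtain ⟨e, f, he, hf, hef, hex, hey, hfx, hfy⟩ := exists_hyp2 hB hn x y
  let π := QuotientGroup.mk' EG
  have hπ : ∀ z v, π (E Q z v) = 1 := fun z v => (QuotientGroup.eq_one_iff _).2 (hEG z v)
  let ρ : F → OG Q ⧸ EG := fun c => π (refl Q (c • x + y))
  have hW : ∀ u, pb Q x u = 0 → pb Q y u = 0 → Q u ≠ 0 → π (refl Q u) = ρ (Q u) := by
    intro u h1 h2 h3
    have := congrArg π (nE_eq hx hy hxy h1 h2 h3)
    simp only [map_mul, hπ, mul_one] at this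
    rw [eq_inv_of_mul_eq_one_left this.symm, ← map_inv, refl_inv]
  have hsq : ∀ c l : F, c ≠ 0 → l ≠ 0 → ρ (l ^ 2 * c) = ρ c := by
    intro c l hc hl
    have h1 : pb Q x (e + c • f) = 0 := by simp [pb_comm Q x, hex, hfx]
    have h2 : pb Q y (e + c • f) = 0 := by simp [pb_comm Q y, hey, hfy]
    have e1 := hW _ h1 h2 (by rwa [Q_hyp he hf hef])
    have e2 := hW (l • (e + c • f)) (by rw [map_smul, h1, smul_zero])
      (by rw [map_smul, h2, smul_zero]) (by
        rw [Q_smul, Q_hyp he hf hef]; exact mul_ne_zero (pow_ne_zero _ hl) hc)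
    rw [refl_smul _ hl, Q_smul, Q_hyp he hf hef] at e2
    rw [Q_hyp he hf hef] at e1
    rw [← e1, e2]
  have hline : ∀ x' y' : V, Q x' = 0 → Q y' = 0 → pb Q x' y' = 1 → ∀ v, Q v ≠ 0 →
      pb Q v y' ≠ 0 → ∃ c : F, c ≠ 0 ∧ π (refl Q v) = π (refl Q (x' + c • y')) := by
    intro x' y' hx' hy' hxy' v hv h
    have h3 : pb Q y' x' = 1 := by rw [pb_comm, hxy']
    set w := (pb Q v y')⁻¹ • (v - pb Q v y' • x' - pb Q v x' • y') with hw
    have hyw : pb Q y' w = 0 := by simp [hw, h3, pb_sing hy', pb_comm Q y' v]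
    have e1 : (E Q y' w).1 v = pb Q v y' • (x' + (Q v / pb Q v y' ^ 2) • y') := by
      have hc : ∃ c : F, (E Q y' w).1 v = pb Q v y' • (x' + c • y') := by
        refine ⟨(pb Q v w + pb Q v x' - pb Q v y' * Q w) / pb Q v y', ?_⟩
        rw [E_apply hy' hyw]
        generalize pb Q v w = a
        generalize Q w = b
        rw [hw]
        match_scalars <;> field_simp <;> ring
      obtain ⟨c, hc⟩ := hc
      have := OG_Q (E Q y' w) v
      rw [hc, Q_smul, Q_hyp hx' hy' hxy'] at this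
      rw [hc, ← this]
      field_simp
    refine ⟨Q v / pb Q v y' ^ 2, div_ne_zero hv (pow_ne_zero _ h), ?_⟩
    rw [← refl_smul (x' + _ • y') h, ← e1, ← conj_refl, map_mul, map_mul, map_inv, hπ]
    simp
  have hall : ∀ v, Q v ≠ 0 → ∃ c, c ≠ 0 ∧ π (refl Q v) = ρ c := by
    intro v hv
    by_cases h1 : pb Q v x = 0
    · by_cases h2 : pb Q v y = 0
      · exact ⟨_, hv, hW v (by rw [pb_comm, h1]) (by rw [pb_comm, h2]) hv⟩
      · obtain ⟨c, hc, e⟩ := hline x y hx hy hxy v hv h2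
        refine ⟨c⁻¹, inv_ne_zero hc, ?_⟩
        rw [e, ← refl_smul _ (inv_ne_zero hc), smul_add, smul_smul, inv_mul_cancel₀ hc, one_smul]
    · obtain ⟨c, hc, e⟩ := hline y x hy hx (by rw [pb_comm, hxy]) v hv h1
      exact ⟨c, hc, by rw [e, add_comm]⟩
  have hcomm : ∀ c d, c ≠ 0 → d ≠ 0 → Commute (ρ c) (ρ d) := by
    intro c d hc hd
    have hQ : Q (c • x + y) = c := by rw [add_comm]; exact Q_hyp hy hx (by rw [pb_comm, hxy]) c
    have e1 : (refl Q (c • x + y)).1 (d • x + y) = (-(d / c)) • (((c / d) ^ 2 * d) • x + y) := by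
      rw [refl_apply, hQ]
      simp only [map_add, map_smul, LinearMap.add_apply, LinearMap.smul_apply, pb_sing hx,
        pb_sing hy, hxy, pb_comm Q y x, smul_eq_mul]
      match_scalars <;> field_simp <;> ring
    have e2 := congrArg π (conj_refl (refl Q (c • x + y)) (d • x + y))
    rw [e1, refl_smul _ (neg_ne_zero.2 (div_ne_zero hd hc)), map_mul, map_mul, map_inv] at e2
    have e3 := hsq d (c / d) hd (div_ne_zero hc hd)
    exact mul_inv_eq_iff_eq_mul.1 (e2.trans e3)
  have hN := bigEnough hn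
  rw [commutator_def, Subgroup.commutator_le]
  rintro g - h -
  rw [← QuotientGroup.eq_one_iff, ← QuotientGroup.mk'_apply, map_commutatorElement,
    commutatorElement_eq_one_iff_commute]
  have h1 : ∀ (d : F), d ≠ 0 → ∀ g : OG Q, Commute (π g) (ρ d) := by
    intro d hd g
    induction g using refl_induction hB hN with
    | h1 => simp
    | hs g v hv ih =>
      obtain ⟨c, hc, e⟩ := hall v hv
      rw [map_mul, e]
      exact ih.mul_left (hcomm c d hc hd)
  induction h using refl_induction hB hN with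
  | h1 => simp
  | hs h v hv ih =>
    obtain ⟨c, hc, e⟩ := hall v hv
    rw [map_mul]
    exact ih.mul_right (e ▸ h1 c hc g)

end Fin

end Cfsg.Agent.H4
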