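import Cfsg.Agent.H4.OBr

/-!
# Number of vectors of given norm for the standard forms
-/

set_option autoImplicit false
set_option linter.unusedSectionVars false
set_option linter.unusedSimpArgs false
set_option linter.unnecessarySeqFocus false

namespace Cfsg.Agent.H4

open Cfsg.Agent.H6 Module Finset

variable {F : Type*} [Field F] [Fintype F] [DecidableEq F]

local notation "q" => Fintype.card F

theorem cnt_eq {V : Type*} [AddCommGroup V] [Module F V] [Fintype V] (Q : QuadraticForm F V)
    (a : F) : cnt Q a = ∑ v, if Q v = a then 1 else 0 := by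
  rw [cnt, card_filter]
  exact sum_congr rfl fun _ _ => by congr

theorem cnt_plus (m : ℕ) (a : F) : cnt (qPlus (m + 1) F) a + q ^ m =
    q ^ (2 * m + 1) + if a = 0 then q ^ (m + 1) else 0 := by
  have h1 : ∀ u : Fin (m + 1) → F, u ≠ 0 →
      (∑ w : Fin (m + 1) → F, if ∑ i, u i * w i = a then 1 else 0) = q ^ m := by
    intro u hu
    have := H1.card_dual_fiber (f := dotProductBilin F F u) (fun h => hu (by
      funext i
      simpa using LinearMap.congr_fun h (Pi.single i 1))) a
    rw [Nat.card_eq_fintype_card, Fintype.card_subtype, card_filter] at this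
    simpa [dotProduct] using this
  rw [cnt_eq, ← (Equiv.sumArrowEquivProdArrow _ _ F).symm.sum_comp, Fintype.sum_prod_type]
  change (∑ u : Fin (m + 1) → F, ∑ w : Fin (m + 1) → F, if ∑ i, u i * w i = a then 1 else 0) + _ = _
  rw [← add_sum_erase _ _ (mem_univ 0), sum_congr rfl fun u hu => h1 u (mem_erase.1 hu).1,
    sum_const, card_erase_of_mem (mem_univ _), card_univ, Fintype.card_fun, Fintype.card_fin,
    smul_eq_mul]
  have h2 : (q ^ (m + 1) - 1) * q ^ m + q ^ m = q ^ (2 * m + 1) := by
    rw [← add_one_mul, Nat.sub_add_cancel (Nat.one_le_pow _ _ Fintype.card_pos)]; ring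
  rw [add_assoc, h2, add_comm]
  by_cases ha : a = 0 <;> simp [ha, eq_comm]

theorem cnt_odd (m : ℕ) (a : F) : cnt (qOdd (m + 1) F) a + q ^ (m + 1) =
    q ^ (2 * m + 2) + q ^ (m + 1) * (univ.filter fun z : F => z ^ 2 = a).card := by
  rw [cnt_eq, ← (Equiv.sumArrowEquivProdArrow _ _ F).symm.sum_comp, Fintype.sum_prod_type,
    ← (Equiv.funUnique Unit F).symm.sum_comp]
  have h1 : ∀ z : F, (∑ w : Fin (m + 1) ⊕ Fin (m + 1) → F, if qOdd (m + 1) F
      ((Equiv.sumArrowEquivProdArrow _ _ F).symm ((Equiv.funUnique Unit F).symm z, w)) = a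
      then 1 else 0) + q ^ m = q ^ (2 * m + 1) + if z ^ 2 = a then q ^ (m + 1) else 0 := by
    intro z
    have := cnt_plus m (a - z ^ 2)
    rw [cnt_eq] at this
    simpa [qOdd_apply, qPlus_apply, eq_sub_iff_add_eq', sub_eq_zero, eq_comm (a := a)] using this
  have := sum_congr rfl fun z (_ : z ∈ (univ : Finset F)) => h1 z
  rw [sum_add_distrib, sum_add_distrib, ← sum_filter] at this
  simp only [sum_const, card_univ, smul_eq_mul] at this
  linear_combination this

theorem cnt_minus (m : ℕ) (a b c : F) : cnt (qMinus (m + 1) F a b) c + q ^ (m + 2) =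
    q ^ (2 * m + 3) + q ^ (m + 1) *
      (univ.filter fun z : Fin 2 → F => z 0 ^ 2 + a * z 0 * z 1 + b * z 1 ^ 2 = c).card := by
  rw [cnt_eq, ← (Equiv.sumArrowEquivProdArrow _ _ F).symm.sum_comp, Fintype.sum_prod_type_right]
  have h1 : ∀ z : Fin 2 → F, (∑ w : Fin (m + 1) ⊕ Fin (m + 1) → F, if qMinus (m + 1) F a b
      ((Equiv.sumArrowEquivProdArrow _ _ F).symm (w, z)) = c then 1 else 0) + q ^ m =
      q ^ (2 * m + 1) + if z 0 ^ 2 + a * z 0 * z 1 + b * z 1 ^ 2 = c then q ^ (m + 1) else 0 := by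
    intro z
    have := cnt_plus m (c - (z 0 ^ 2 + a * z 0 * z 1 + b * z 1 ^ 2))
    rw [cnt_eq] at this
    simp only [eq_sub_iff_add_eq, sub_eq_zero, eq_comm (a := c)] at this
    exact this
  have := sum_congr rfl fun z (_ : z ∈ (univ : Finset (Fin 2 → F))) => h1 z
  rw [sum_add_distrib, sum_add_distrib, ← sum_filter] at this
  simp only [sum_const, card_univ, smul_eq_mul, Fintype.card_fun, Fintype.card_fin] at this
  linear_combination this

section Conic

variable {a b : F} (hab : ∀ z₁ z₂ : F, z₁ ^ 2 + a * z₁ * z₂ + b * z₂ ^ 2 = 0 → z₁ = 0 ∧ z₂ = 0)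
include hab

theorem conic_zero :
    (univ.filter fun z : Fin 2 → F => z 0 ^ 2 + a * z 0 * z 1 + b * z 1 ^ 2 = 0).card = 1 := by
  rw [card_eq_one]
  refine ⟨0, ?_⟩
  ext z
  simp only [mem_filter, mem_univ, true_and, mem_singleton]
  constructor
  · intro h
    funext i
    fin_cases i
    · exact (hab _ _ h).1
    · exact (hab _ _ h).2
  · rintro rfl; simp

theorem conic_ge {c : F} (hc : c ≠ 0) :
    q + 1 ≤ (univ.filter fun z : Fin 2 → F => z 0 ^ 2 + a * z 0 * z 1 + b * z 1 ^ 2 = c).card := by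
  let H : (Fin 2 → F) →ₗ[F] (Fin 2 → F) →ₗ[F] F := Matrix.toBilin' !![1, a; 0, b]
  have hH : ∀ z, H z z = z 0 ^ 2 + a * z 0 * z 1 + b * z 1 ^ 2 := fun z => by
    simp [H, Matrix.toBilin'_apply, Fin.sum_univ_two]; ring
  have h1 : ∀ d, (univ.filter fun z : Fin 2 → F =>
      z 0 ^ 2 + a * z 0 * z 1 + b * z 1 ^ 2 = d).card ≤ q + 1 := by
    intro d
    have := H1.card_conic (by simp) H (fun p hp => by
      rw [hH] at hp
      funext i
      fin_cases i
      · exact (hab _ _ hp).1
      · exact (hab _ _ hp).2) (fun p hp h => hp (by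
        have hd := disc_ne_zero_of_aniso F hab
        have h0 := LinearMap.congr_fun h (Pi.single 0 1)
        have h1 := LinearMap.congr_fun h (Pi.single 1 1)
        simp [H, Matrix.toBilin'_apply, Fin.sum_univ_two] at h0 h1
        funext i
        fin_cases i
        · apply mul_left_cancel₀ hd
          simp only [Fin.zero_eta, Pi.zero_apply]
          linear_combination a * h1 - 2 * b * h0
        · apply mul_left_cancel₀ hd
          simp only [Fin.mk_one, Pi.zero_apply]
          linear_combination a * h0 - 2 * h1)) d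
    simpa only [Nat.card_eq_fintype_card, Fintype.card_subtype, hH] using this
  have h2 := card_eq_sum_card_fiberwise (s := (univ : Finset (Fin 2 → F))) (t := (univ : Finset F))
    (f := fun z => z 0 ^ 2 + a * z 0 * z 1 + b * z 1 ^ 2) (fun _ _ => mem_univ _)
  rw [← add_sum_erase _ _ (mem_univ 0), ← add_sum_erase _ _ (mem_erase.2 ⟨hc, mem_univ c⟩),
    conic_zero hab, card_univ, Fintype.card_fun, Fintype.card_fin] at h2
  have h3 := sum_le_card_nsmul ((univ.erase 0).erase c) _ _ fun d _ => h1 d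
  rw [card_erase_of_mem (mem_erase.2 ⟨hc, mem_univ c⟩), card_erase_of_mem (mem_univ _), card_univ,
    smul_eq_mul] at h3
  obtain ⟨r, hr⟩ : ∃ r, q = r + 2 := ⟨q - 2, by have := Fintype.one_lt_card (α := F); omega⟩
  rw [hr] at h2 h3 ⊢
  rw [show r + 2 - 1 - 1 = r by omega] at h3
  nlinarith

end Conic

end Cfsg.Agent.H4
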