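import Cfsg.Agent.H4.OE

/-!
# Local analysis of a subgroup of an orthogonal group through the radicals `Q_x`
-/

set_option autoImplicit false
set_option linter.unusedSectionVars false
set_option linter.unusedSimpArgs false
set_option linter.unnecessarySeqFocus false

namespace Cfsg.Agent.H4

open Cfsg.Agent.H6 Module

variable {F V : Type*} [Field F] [AddCommGroup V] [Module F V] {Q : QuadraticForm F V}

theorem E_of_ne {z : V} (hz : Q z ≠ 0) (v : V) : E Q z v = 1 := by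
  rw [E, dif_neg (fun h => hz h.1)]

/-- parameters of the Eichler transformations with centre `x` in `H` -/
def AA (H : Subgroup (OG Q)) (x : V) : AddSubgroup V where
  carrier := {v | pb Q x v = 0 ∧ E Q x v ∈ H}
  add_mem' {a b} ha hb := ⟨by rw [map_add, ha.1, hb.1, add_zero], by
    by_cases hx : Q x = 0
    · rw [E_add hx ha.1 hb.1]; exact mul_mem ha.2 hb.2
    · rw [E_of_ne hx]; exact one_mem _⟩
  zero_mem' := ⟨map_zero _, by rw [E_zero]; exact one_mem _⟩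
  neg_mem' {a} ha := ⟨by rw [map_neg, ha.1, neg_zero], by
    by_cases hx : Q x = 0
    · rw [E_neg hx ha.1]; exact inv_mem ha.2
    · rw [E_of_ne hx]; exact one_mem _⟩

theorem mem_AA {H : Subgroup (OG Q)} {x v : V} : v ∈ AA H x ↔ pb Q x v = 0 ∧ E Q x v ∈ H := Iff.rfl

/-- the largest subspace of `AA H x` -/
def A0 (H : Subgroup (OG Q)) (x : V) : Submodule F V where
  carrier := {v | ∀ c : F, c • v ∈ AA H x}
  add_mem' ha hb c := by rw [smul_add]; exact add_mem (ha c) (hb c)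
  zero_mem' c := by rw [smul_zero]; exact zero_mem _
  smul_mem' d v hv c := by rw [smul_smul]; exact hv _

theorem mem_A0 {H : Subgroup (OG Q)} {x v : V} : v ∈ A0 H x ↔ ∀ c : F, c • v ∈ AA H x := Iff.rfl

theorem A0_le {H : Subgroup (OG Q)} {x v : V} (h : v ∈ A0 H x) : v ∈ AA H x := by
  simpa using h 1

/-- the orthogonal complement of `A0 H x` -/
def DD (H : Subgroup (OG Q)) (x : V) : Submodule F V := (pb Q).orthogonal (A0 H x)

theorem mem_DD {H : Subgroup (OG Q)} {x d : V} : d ∈ DD H x ↔ ∀ a ∈ A0 H x, pb Q a d = 0 := Iff.rfl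

/-- `H'` is the conjugate of `H` by `g` -/
def Cj (g : OG Q) (H H' : Subgroup (OG Q)) : Prop := ∀ a, a ∈ H ↔ g * a * g⁻¹ ∈ H'

theorem Cj.of_mem {H : Subgroup (OG Q)} {g : OG Q} (hg : g ∈ H) : Cj g H H := fun a => by
  rw [mul_mem_cancel_right (inv_mem hg), mul_mem_cancel_left hg]

theorem Cj.AA {H H' : Subgroup (OG Q)} {g : OG Q} (h : Cj g H H') (x v : V) :
    v ∈ AA H x ↔ g.1 v ∈ AA H' (g.1 x) := by
  rw [mem_AA, mem_AA, OG_pb, h, E_conj]

theorem Cj.A0 {H H' : Subgroup (OG Q)} {g : OG Q} (h : Cj g H H') (x v : V) :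
    v ∈ A0 H x ↔ g.1 v ∈ A0 H' (g.1 x) := by
  simp only [mem_A0, ← map_smul, ← h.AA]

theorem Cj.DD {H H' : Subgroup (OG Q)} {g : OG Q} (h : Cj g H H') (x d : V) :
    d ∈ DD H x ↔ g.1 d ∈ DD H' (g.1 x) := by
  simp only [mem_DD]
  constructor
  · intro h1 a ha
    rw [← OG_apply_inv g a] at ha ⊢
    rw [OG_pb]
    exact h1 _ ((h.A0 _ _).2 ha)
  · intro h1 a ha
    rw [← OG_pb g]
    exact h1 _ ((h.A0 _ _).1 ha)

theorem mem_AA_smul {H : Subgroup (OG Q)} {x v : V} (hx : Q x = 0) {c : F} (hc : c ≠ 0) :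
    v ∈ AA H (c • x) ↔ c • v ∈ AA H x := by
  rw [mem_AA, mem_AA]
  simp only [map_smul, LinearMap.smul_apply, smul_eq_mul, mul_eq_zero, hc, false_or]
  exact and_congr_right fun h => by rw [E_smul hx h]

theorem A0_smul (H : Subgroup (OG Q)) {x : V} (hx : Q x = 0) {c : F} (hc : c ≠ 0) :
    A0 H (c • x) = A0 H x := by
  ext v
  simp only [mem_A0, mem_AA_smul hx hc, smul_smul]
  exact ⟨fun h d => by simpa [hc] using h (c⁻¹ * d), fun h d => h _⟩

theorem DD_smul (H : Subgroup (OG Q)) {x : V} (hx : Q x = 0) {c : F} (hc : c ≠ 0) :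
    DD H (c • x) = DD H x := by rw [DD, DD, A0_smul H hx hc]

theorem self_mem_A0 (H : Subgroup (OG Q)) {x : V} (hx : Q x = 0) : x ∈ A0 H x := fun c =>
  ⟨by simp [pb_sing hx], by rw [E_line hx]; exact one_mem _⟩

theorem self_mem_DD (H : Subgroup (OG Q)) (x : V) : x ∈ DD H x := fun a ha => by
  change pb Q a x = 0
  rw [pb_comm]; exact (A0_le ha).1

theorem DD_perp {H : Subgroup (OG Q)} {x d : V} (hx : Q x = 0) (h : d ∈ DD H x) : pb Q x d = 0 :=
  h x (self_mem_A0 H hx)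

theorem A0_swap {H : Subgroup (OG Q)} {x v : V} (hx : Q x = 0) (hv : Q v = 0) (h : v ∈ A0 H x) :
    x ∈ A0 H v := fun c => by
  have h1 := (A0_le h).1
  have h2 : pb Q v x = 0 := by rw [pb_comm, h1]
  refine ⟨by simp [h2], ?_⟩
  rw [← E_smul hv h2, E_swap (by rw [Q_smul, hv, mul_zero]) hx (by simp [h2]), ← neg_smul]
  exact (h (-c)).2

/-- the whole radical `Q_x` lies in `H` -/
def Full (H : Subgroup (OG Q)) (x : V) : Prop := ∀ v, pb Q x v = 0 → E Q x v ∈ H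

/-- `Q_x` meets `H` trivially -/
def Rg (H : Subgroup (OG Q)) (x : V) : Prop := ∀ v ∈ AA H x, v ∈ F ∙ x

theorem Full.mem_A0 {H : Subgroup (OG Q)} {x v : V} (h : Full H x) (hv : pb Q x v = 0) :
    v ∈ A0 H x := fun c => ⟨by simp [hv], h _ (by simp [hv])⟩

theorem Cj.full {H H' : Subgroup (OG Q)} {g : OG Q} (h : Cj g H H') {x : V} (hx : Full H x) :
    Full H' (g.1 x) := fun v hv => by
  rw [← OG_apply_inv g v] at hv ⊢
  rw [OG_pb] at hv
  exact ((h.AA x _).1 ⟨hv, hx _ hv⟩).2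

theorem Full.smul {H : Subgroup (OG Q)} {x : V} (h : Full H x) (hx : Q x = 0) {c : F}
    (hc : c ≠ 0) : Full H (c • x) := fun v hv => by
  have : pb Q x v = 0 := by simpa [hc] using hv
  rw [E_smul hx this]
  exact h _ (by simp [this])

theorem Cj.rg {H H' : Subgroup (OG Q)} {g : OG Q} (h : Cj g H H') {x : V} (hx : Rg H x) :
    Rg H' (g.1 x) := fun v hv => by
  rw [← OG_apply_inv g v] at hv ⊢
  obtain ⟨c, hc⟩ := Submodule.mem_span_singleton.1 (hx _ ((h.AA x _).2 hv))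
  rw [← hc, map_smul]
  exact Submodule.smul_mem _ _ (Submodule.mem_span_singleton_self _)

theorem Rg.smul {H : Subgroup (OG Q)} {x : V} (h : Rg H x) (hx : Q x = 0) {c : F}
    (hc : c ≠ 0) : Rg H (c • x) := fun v hv => by
  rw [Submodule.span_singleton_smul_eq hc.isUnit]
  have := Submodule.smul_mem _ c⁻¹ (h _ ((mem_AA_smul hx hc).1 hv))
  rwa [smul_smul, inv_mul_cancel₀ hc, one_smul] at this

theorem mem_pair {a b w : V} : w ∈ (F ∙ a) ⊔ (F ∙ b) ↔ ∃ c d : F, w = c • a + d • b := by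
  constructor
  · intro h
    obtain ⟨u, hu, v, hv, rfl⟩ := Submodule.mem_sup.1 h
    obtain ⟨c, rfl⟩ := Submodule.mem_span_singleton.1 hu
    obtain ⟨d, rfl⟩ := Submodule.mem_span_singleton.1 hv
    exact ⟨c, d, rfl⟩
  · rintro ⟨c, d, rfl⟩
    exact Submodule.add_mem_sup (Submodule.smul_mem _ _ (Submodule.mem_span_singleton_self _))
      (Submodule.smul_mem _ _ (Submodule.mem_span_singleton_self _))

/-- transitivity of `Q_x` on the points opposite to `x` -/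
theorem exists_E_move {x y y' : V} (hx : Q x = 0) (hy : Q y = 0) (hy' : Q y' = 0)
    (h : pb Q x y ≠ 0) (h' : pb Q x y' = pb Q x y) : ∃ v, pb Q x v = 0 ∧ (E Q x v).1 y = y' := by
  have h1 : pb Q x ((pb Q x y)⁻¹ • (y - y')) = 0 := by simp [h']
  refine ⟨(pb Q x y)⁻¹ • (y - y'), h1, ?_⟩
  rw [E_apply hx h1, Q_smul, Q_sub, hy, hy', pb_comm Q y x]
  simp only [map_smul, map_sub, pb_sing hy, smul_eq_mul]
  match_scalars <;> field_simp <;> ring

/-- The element `n_u`. -/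
theorem DD_of_nu {H : Subgroup (OG Q)} {x y u t : V} (hx : Q x = 0) (hy : Q y = 0)
    (hxy : pb Q x y ≠ 0) (h1 : u ∈ A0 H x) (h2 : u ∈ A0 H y) (hu : Q u ≠ 0) (ht : t ∈ DD H x)
    (hty : pb Q t y = 0) : t ∈ DD H y := by
  set y' := (pb Q x y)⁻¹ • y with hy'
  have hc : (pb Q x y)⁻¹ ≠ 0 := inv_ne_zero hxy
  have e1 : Q y' = 0 := by rw [hy', Q_smul, hy, mul_zero]
  have e2 : pb Q x y' = 1 := by simp [hy', hxy]
  have e3 : u ∈ A0 H y' := by rwa [hy', A0_smul H hy hc]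
  have hxu := (A0_le h1).1
  have hyu := (A0_le e3).1
  have hm : refl Q u * refl Q (Q u • x + y') ∈ H := by
    rw [← nE_eq hx e1 e2 hxu hyu hu]
    exact mul_mem (mul_mem (A0_le h1).2 (e3 _).2) (A0_le h1).2
  have h3 := ((Cj.of_mem hm).DD x t).1 ht
  have htx : pb Q t x = 0 := by rw [pb_comm]; exact DD_perp hx ht
  have htu : pb Q t u = 0 := by rw [pb_comm]; exact ht u h1
  have hty' : pb Q t y' = 0 := by simp [hy', hty]
  have h4 : Q (Q u • x + y') = Q u := by rw [Q_add, Q_smul, hx, e1]; simp [e2]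
  have e4 : (refl Q u * refl Q (Q u • x + y')).1 x = (-(Q u)⁻¹) • y' := by
    rw [OG_mul_apply, refl_apply (Q u • x + y'), h4]
    simp only [map_add, map_smul, pb_sing hx, e2, smul_zero, zero_add]
    rw [show x - (1 / Q u) • (Q u • x + y') = (-(Q u)⁻¹) • y' by
      match_scalars <;> field_simp <;> ring, map_smul, refl_of_orth hyu]
  rw [e4, OG_mul_apply, refl_of_orth (v := Q u • x + y') (by simp [htx, hty']), refl_of_orth htu,
    DD_smul H e1 (neg_ne_zero.2 (inv_ne_zero hu)), hy', DD_smul H hy hc] at h3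
  exact h3

section Fin

variable [Fintype F] [FiniteDimensional F V] (hB : (pb Q).Nondegenerate)
include hB

theorem mem_A0_of {H : Subgroup (OG Q)} {x v : V} (h : ∀ d ∈ DD H x, pb Q v d = 0) :
    v ∈ A0 H x := by
  rw [← orth_orth hB (A0 H x)]
  intro d hd
  change pb Q d v = 0
  rw [pb_comm]; exact h d hd

theorem full_of_DD {H : Subgroup (OG Q)} {x : V} (h : ∀ d ∈ DD H x, d ∈ F ∙ x) : Full H x :=
  fun v hv => (A0_le (mem_A0_of hB fun d hd => by
    obtain ⟨c, rfl⟩ := Submodule.mem_span_singleton.1 (h d hd)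
    simp [pb_comm Q v x, hv])).2

theorem Full.DD_le {H : Subgroup (OG Q)} {x d : V} (h : Full H x) (hd : d ∈ DD H x) :
    d ∈ F ∙ x := by
  rw [← orth_orth hB (F ∙ x)]
  intro a ha
  exact hd a (h.mem_A0 (by rw [pb_comm]; exact mem_orth_span.1 ha))

theorem exists_DD_of_not_full {H : Subgroup (OG Q)} {x : V} (h : ¬ Full H x) :
    ∃ d ∈ DD H x, d ∉ F ∙ x := by
  by_contra hc
  push Not at hc
  exact h (full_of_DD hB hc)

omit hB in
theorem DD_eq_pair {H : Subgroup (OG Q)} {x t : V} (h0 : x ≠ 0) (h : finrank F (DD H x) ≤ 2)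
    (ht : t ∈ DD H x) (htx : t ∉ F ∙ x) : DD H x = (F ∙ x) ⊔ F ∙ t := by
  symm
  refine Submodule.eq_of_le_of_finrank_le (sup_le
    ((Submodule.span_singleton_le_iff_mem _ _).2 (self_mem_DD H x))
    ((Submodule.span_singleton_le_iff_mem _ _).2 ht)) ?_
  rw [Submodule.finrank_sup_span_singleton htx, finrank_span_singleton h0]
  exact h

theorem exists_nu_small (hn : 7 ≤ finrank F V) {H : Subgroup (OG Q)} {x y : V} (hx : Q x = 0)
    (hxy : pb Q x y ≠ 0) (h1 : finrank F (DD H x) ≤ 2) (h2 : finrank F (DD H y) ≤ 2) :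
    ∃ u ∈ A0 H x, u ∈ A0 H y ∧ Q u ≠ 0 := by
  by_contra hc
  push Not at hc
  have hT : TotSing Q ((A0 H x ⊓ A0 H y) ⊔ F ∙ x) := by
    intro w hw
    obtain ⟨u, hu, v, hv, rfl⟩ := Submodule.mem_sup.1 hw
    obtain ⟨c, rfl⟩ := Submodule.mem_span_singleton.1 hv
    rw [Q_add, Q_smul, hx, hc u hu.1 hu.2]
    simp [pb_comm Q u x, (A0_le hu.1).1]
  have h3 := hT.two_mul_finrank_le hB
  rw [Submodule.finrank_sup_span_singleton (fun h => hxy (by
    rw [pb_comm]; exact (A0_le h.2).1))] at h3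
  have h4 := finrank_orth hB (A0 H x)
  have h5 := finrank_orth hB (A0 H y)
  have h6 := Submodule.finrank_sup_add_finrank_inf_eq (A0 H x) (A0 H y)
  have h7 := Submodule.finrank_le (A0 H x ⊔ A0 H y)
  unfold DD at h1 h2
  omega

theorem DD_small (hn : 7 ≤ finrank F V) {H : Subgroup (OG Q)} {x y t : V} (hx : Q x = 0)
    (hy : Q y = 0) (hxy : pb Q x y ≠ 0) (h1 : finrank F (DD H x) ≤ 2)
    (h2 : finrank F (DD H y) ≤ 2) (ht : t ∈ DD H x) (hty : pb Q t y = 0) : t ∈ DD H y := by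
  obtain ⟨u, h3, h4, h5⟩ := exists_nu_small hB hn hx hxy h1 h2
  exact DD_of_nu hx hy hxy h3 h4 h5 ht hty

omit hB in
theorem Full.move {H : Subgroup (OG Q)} {x y y' : V} (hx : Q x = 0) (hy : Q y = 0)
    (hy' : Q y' = 0) (h : pb Q x y ≠ 0) (h' : pb Q x y' ≠ 0) (h1 : Full H x) (h2 : Full H y) :
    Full H y' := by
  have hc : pb Q x y' / pb Q x y ≠ 0 := div_ne_zero h' h
  obtain ⟨v, hv, e⟩ := exists_E_move (y := (pb Q x y' / pb Q x y) • y) hx
    (by rw [Q_smul, hy, mul_zero]) hy' (by simp [h, h']) (by simp [h])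
  rw [← e]
  exact (Cj.of_mem (h1 v hv)).full (h2.smul hy hc)

theorem exists_opp_both (hn : 7 ≤ finrank F V) {x z : V} (hx0 : x ≠ 0) (hz0 : z ≠ 0) :
    ∃ y, Q y = 0 ∧ pb Q x y ≠ 0 ∧ pb Q z y ≠ 0 := by
  obtain ⟨a, ha, -, -, h1⟩ := exists_sing2 hB hn (a := 0) (b := 0) (t := x) (by simpa using hx0)
  by_cases h2 : pb Q z a = 0
  swap
  · exact ⟨a, ha, h1, h2⟩
  have : z ∉ (F ∙ x) ⊔ F ∙ a ∨ z ∈ (F ∙ x) ⊔ F ∙ a := (em _).symm
  rcases this with h | h
  · obtain ⟨b, hb, h3, h4, h5⟩ := exists_sing2 hB hn h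
    refine ⟨a + b, by rw [Q_add, ha, hb, pb_comm, h4]; simp, ?_, ?_⟩
    · rwa [map_add, pb_comm Q x b, h3, add_zero]
    · rwa [map_add, h2, zero_add]
  · obtain ⟨c, d, rfl⟩ := mem_pair.1 h
    have hc : c = 0 := by simpa [pb_sing ha, h1] using h2
    subst hc
    have hd : d ≠ 0 := by rintro rfl; simp at hz0
    obtain ⟨e, f, h3, h4, h5, h6, h7, h8, h9⟩ := exists_hyp2 hB hn x a
    obtain ⟨s, hs, hs'⟩ := exists_partner hB ha (by rintro rfl; simp at h1)
    by_cases h10 : pb Q x s = 0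
    · have hsa : pb Q s a = 1 := by rw [pb_comm, hs']
      set s' := s - pb Q s f • e - pb Q s e • f with hs''
      have g1 : pb Q s' e = 0 := by simp [hs'', pb_sing h3, pb_comm Q f e, h5]
      have g2 : pb Q s' f = 0 := by simp [hs'', pb_sing h4, h5]
      have g3 : pb Q s' a = 1 := by simp [hs'', h7, h9, hsa]
      have g4 : pb Q s' x = 0 := by simp [hs'', h6, h8, pb_comm Q s x, h10]
      refine ⟨a + s' + (e + (-(Q (a + s'))) • f), ?_, ?_, ?_⟩
      · rw [Q_add, Q_hyp h3 h4 h5]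
        simp [g1, g2, pb_comm Q a, h7, h9]
      · simp [pb_comm Q x, g4, h6, h8]
        rwa [pb_comm]
      · simp [pb_comm Q a, g3, h7, h9, pb_sing ha, hd]
    · exact ⟨s, hs, h10, by simp [hs', hd]⟩

theorem le_of_full (hn : 7 ≤ finrank F V) {H : Subgroup (OG Q)} {x y : V} (hx : Q x = 0)
    (hy : Q y = 0) (h : pb Q x y ≠ 0) (h1 : Full H x) (h2 : Full H y) :
    commutator (OG Q) ≤ H := by
  refine commutator_le_of_E hB hn H fun z v => ?_
  by_cases hh : Q z = 0 ∧ pb Q z v = 0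
  swap
  · rw [E, dif_neg hh]; exact one_mem _
  by_cases hz0 : z = 0
  · subst hz0
    have : E Q 0 v = 1 := OG_ext fun w => by rw [E_apply hh.1 hh.2]; simp
    rw [this]; exact one_mem _
  obtain ⟨y', hy', h3, h4⟩ := exists_opp_both hB hn (x := x) (by rintro rfl; simp at h) hz0
  have h5 := Full.move hx hy hy' h h3 h1 h2
  exact Full.move hy' hx hh.1 (by rwa [pb_comm]) (by rwa [pb_comm]) h5 h1 v hh.2

theorem mem_DD_of_sing {H : Subgroup (OG Q)} {z t : V} (hz : Q z = 0) (hz0 : z ≠ 0)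
    (h2 : finrank F (DD H z) ≤ 2) (ht : t ∈ DD H z) (htz : t ∉ F ∙ z) (hQ : Q t = 0)
    (hf : ¬ Full H t) : z ∈ A0 H t ∧ z ∈ DD H t := by
  have hD := DD_eq_pair hz0 h2 ht htz
  have hzt := DD_perp hz ht
  have hA : ∀ v, pb Q v z = 0 → pb Q v t = 0 → v ∈ A0 H z := fun v h1 h2 =>
    mem_A0_of hB fun d hd => by
      rw [hD] at hd
      obtain ⟨a, b, rfl⟩ := mem_pair.1 hd
      simp [h1, h2]
  have h3 : z ∈ A0 H t := A0_swap hz hQ (hA t (by rw [pb_comm, hzt]) (pb_sing hQ))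
  refine ⟨h3, ?_⟩
  obtain ⟨t2, ht2, ht2'⟩ := exists_DD_of_not_full hB hf
  by_cases h4 : t2 ∈ (F ∙ z) ⊔ F ∙ t
  · obtain ⟨a, b, rfl⟩ := mem_pair.1 h4
    have ha : a ≠ 0 := by
      rintro rfl
      exact ht2' (by simpa using Submodule.smul_mem _ b (Submodule.mem_span_singleton_self t))
    have := Submodule.smul_mem _ a⁻¹ (Submodule.sub_mem _ ht2
      (Submodule.smul_mem _ b (self_mem_DD H t)))
    simpa [smul_smul, ha] using this
  · obtain ⟨v, hv, hv'⟩ := exists_orth_ne hB h4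
    rw [mem_orth_pair] at hv
    have h5 := A0_le (hA v hv.1 hv.2)
    have h6 := ((Cj.of_mem h5.2).DD t t2).1 ht2
    rw [E_fix hz h5.1 (by rw [pb_comm, hzt]) (by rw [pb_comm, hv.2]),
      E_perp hz h5.1 (by rw [pb_comm]; exact ht2 z h3)] at h6
    have := Submodule.smul_mem _ (pb Q t2 v)⁻¹ (Submodule.sub_mem _ h6 ht2)
    simpa [smul_smul, hv'] using this

theorem exists_nonsing_type (hn : 7 ≤ finrank F V) {H : Subgroup (OG Q)}
    (hf : ∀ x, Q x = 0 → x ≠ 0 → ¬ Full H x)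
    (hs : ∀ x, Q x = 0 → x ≠ 0 → Rg H x ∨ finrank F (DD H x) ≤ 2) {x : V} (hx : Q x = 0)
    (hx0 : x ≠ 0) (hr : ¬ Rg H x) :
    ∃ z z' v, Q z = 0 ∧ Q z' = 0 ∧ pb Q z z' = 1 ∧ Q v ≠ 0 ∧ v ∈ DD H z ∧ v ∈ DD H z' ∧
      finrank F (DD H z) ≤ 2 ∧ finrank F (DD H z') ≤ 2 := by
  have h2 := (hs x hx hx0).resolve_left hr
  obtain ⟨t, ht, htx⟩ := exists_DD_of_not_full hB (hf x hx hx0)
  have hD := DD_eq_pair hx0 h2 ht htx
  obtain ⟨z, z', hz, hz', hzz, h3, h4, h5, h6⟩ := exists_hyp2 hB hn x t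
  have hz'z : pb Q z' z = 1 := by rw [pb_comm, hzz]
  have key : ∀ z z', Q z = 0 → pb Q z z' = 1 → pb Q z x = 0 → pb Q z t = 0 → pb Q z' x = 0 →
      z ≠ 0 ∧ finrank F (DD H z) ≤ 2 := by
    intro z z' hz hzz h3 h4 h5
    have hz0 : z ≠ 0 := by rintro rfl; simp at hzz
    refine ⟨hz0, (hs z hz hz0).resolve_left fun h => ?_⟩
    have : z ∈ A0 H x := mem_A0_of hB fun d hd => by
      rw [hD] at hd
      obtain ⟨a, b, rfl⟩ := mem_pair.1 hd
      simp [h3, h4]
    obtain ⟨c, rfl⟩ := Submodule.mem_span_singleton.1 (h x (A0_le (A0_swap hx hz this)))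
    rw [map_smul, pb_comm, hzz] at h5
    exact hx0 (by simp [show c = 0 by simpa using h5])
  obtain ⟨hz0, d1⟩ := key z z' hz hzz h3 h4 h5
  obtain ⟨hz0', d2⟩ := key z' z hz' hz'z h5 h6 h3
  obtain ⟨d, hd, hdz⟩ := exists_DD_of_not_full hB (hf z hz hz0)
  set v := d - pb Q d z' • z with hv
  have hv1 : v ∈ DD H z := Submodule.sub_mem _ hd (Submodule.smul_mem _ _ (self_mem_DD H z))
  have hv2 : pb Q v z' = 0 := by simp [hv, hzz]
  have hv3 : v ∈ DD H z' := DD_small hB hn hz hz' (by rw [hzz]; exact one_ne_zero) d1 d2 hv1 hv2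
  have hv4 : v ∉ F ∙ z := fun h => hdz (by
    have := Submodule.add_mem _ h (Submodule.smul_mem _ (pb Q d z')
      (Submodule.mem_span_singleton_self z))
    simpa [hv] using this)
  have hvz : pb Q z v = 0 := DD_perp hz hv1
  have hv5 : v ∉ F ∙ z' := fun h => by
    obtain ⟨c, hc⟩ := Submodule.mem_span_singleton.1 h
    rw [← hc, map_smul, hzz] at hvz
    apply hv4
    rw [← hc, show c = 0 by simpa using hvz, zero_smul]
    exact Submodule.zero_mem _
  refine ⟨z, z', v, hz, hz', hzz, fun hQ => ?_, hv1, hv3, d1, d2⟩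
  have hv0 : v ≠ 0 := fun h => hv4 (by rw [h]; exact Submodule.zero_mem _)
  obtain ⟨a1, -⟩ := mem_DD_of_sing hB hz hz0 d1 hv1 hv4 hQ (hf v hQ hv0)
  obtain ⟨-, a2⟩ := mem_DD_of_sing hB hz' hz0' d2 hv3 hv5 hQ (hf v hQ hv0)
  have := a2 z a1
  rw [hzz] at this
  exact one_ne_zero this

theorem not_all_small (hn : 7 ≤ finrank F V) {H : Subgroup (OG Q)}
    (hs : ∀ x, Q x = 0 → x ≠ 0 → finrank F (DD H x) ≤ 2) {z z' v : V} (hz : Q z = 0)
    (hz' : Q z' = 0) (hzz : pb Q z z' = 1) (hv : Q v ≠ 0) (h1 : v ∈ DD H z) (h2 : v ∈ DD H z') :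
    False := by
  have hzv := DD_perp hz h1
  have hzv' := DD_perp hz' h2
  have hz'z : pb Q z' z = 1 := by rw [pb_comm, hzz]
  have hvz : pb Q v z = 0 := by rw [pb_comm, hzv]
  have hvz' : pb Q v z' = 0 := by rw [pb_comm, hzv']
  -- a vector `w` orthogonal to `z, z'`, nonsingular, not orthogonal to `v`, not in the line of `v`
  obtain ⟨w, s, hw1, hw2, hw3, hw4, hs1, hs2, hs3, hs4⟩ : ∃ w s, pb Q w z = 0 ∧ pb Q w z' = 0 ∧
      Q w ≠ 0 ∧ pb Q w v ≠ 0 ∧ pb Q s z = 0 ∧ pb Q s z' = 0 ∧ pb Q s v = 0 ∧ pb Q s w ≠ 0 := by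
    obtain ⟨b, -, hb1, hb2, hb3⟩ := exists_sing2 hB hn (a := z) (b := z') (t := v) (fun h => by
      obtain ⟨c, d, e⟩ := mem_pair.1 h
      have e1 := hvz
      have e2 := hvz'
      rw [e] at e1 e2
      simp [pb_sing hz, pb_sing hz', hzz, hz'z] at e1 e2
      rw [e, e1, e2] at hv
      simp at hv)
    obtain ⟨e, he, f, hf, h3, h4, h5⟩ := exists_hyp hB (((F ∙ z) ⊔ F ∙ z') ⊔ F ∙ v) (by
      have a1 := finrank_sup_line_le ((F ∙ z) ⊔ F ∙ z') v
      have a2 := finrank_pair_le (F := F) z z'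
      have a3 : finrank F ↥((((F ∙ z) ⊔ F ∙ z') ⊔ F ∙ v) ⊓
          (pb Q).orthogonal (((F ∙ z) ⊔ F ∙ z') ⊔ F ∙ v)) ≤ finrank F (F ∙ v) := by
        refine Submodule.finrank_mono fun u hu => ?_
        obtain ⟨u1, hu1, u2, hu2, rfl⟩ := Submodule.mem_sup.1 hu.1
        obtain ⟨c, d, rfl⟩ := mem_pair.1 hu1
        obtain ⟨a, rfl⟩ := Submodule.mem_span_singleton.1 hu2
        have := (Submodule.mem_inf.1 hu).2
        rw [orth_sup, Submodule.mem_inf, mem_orth_pair] at this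
        obtain ⟨⟨e1, e2⟩, -⟩ := this
        simp [pb_sing hz, pb_sing hz', hzz, hz'z, hvz, hvz'] at e1 e2
        simpa [e1, e2] using hu2
      have := finrank_line_le (F := F) v
      omega)
    rw [orth_sup, Submodule.mem_inf, mem_orth_pair, mem_orth_span] at he hf
    have hfe : pb Q f e = 1 := by rw [pb_comm, h5]
    set b' := b - pb Q b f • e - pb Q b e • f with hb'
    have g1 : pb Q b' e = 0 := by simp [hb', pb_sing h3, hfe]
    have g2 : pb Q b' f = 0 := by simp [hb', pb_sing h4, h5]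
    refine ⟨b' + (e + (1 - Q b') • f), f, ?_, ?_, ?_, ?_, hf.1.1, hf.1.2, hf.2, ?_⟩
    · simp [hb', hb1, he.1.1, hf.1.1]
    · simp [hb', hb2, he.1.2, hf.1.2]
    · rw [Q_add, Q_hyp h3 h4 h5]; simp [g1, g2]
    · simp [hb', he.2, hf.2, pb_comm Q b v, hb3]
    · simp [pb_comm Q f b', g2, hfe, pb_sing h4]
  set y := z - Q w • z' + w with hy
  have hyQ : Q y = 0 := by
    rw [hy, Q_add, Q_sub, Q_smul, hz, hz']
    simp [hzz, pb_comm Q z w, pb_comm Q z' w, hw1, hw2]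
  have hzy : pb Q z y = -Q w := by simp [hy, pb_sing hz, hzz, pb_comm Q z w, hw1]
  have hz'y : pb Q z' y = 1 := by simp [hy, pb_sing hz', hz'z, pb_comm Q z' w, hw2]
  have hvy : pb Q v y = pb Q w v := by simp [hy, hvz, hvz', pb_comm Q v w]
  have hy0 : y ≠ 0 := by intro h; rw [h] at hz'y; simp at hz'y
  have hz0 : z ≠ 0 := by rintro rfl; simp at hzz
  have hz0' : z' ≠ 0 := by rintro rfl; simp at hzz
  have m1 : z + (Q w / pb Q w v) • v ∈ DD H y := DD_small hB hn hz hyQ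
    (by rw [hzy]; exact neg_ne_zero.2 hw3) (hs z hz hz0) (hs y hyQ hy0)
    (Submodule.add_mem _ (self_mem_DD H z) (Submodule.smul_mem _ _ h1))
    (by simp [hzy, hvy, hw4])
  have m2 : z' - (1 / pb Q w v) • v ∈ DD H y := DD_small hB hn hz' hyQ
    (by rw [hz'y]; exact one_ne_zero) (hs z' hz' hz0') (hs y hyQ hy0)
    (Submodule.sub_mem _ (self_mem_DD H z') (Submodule.smul_mem _ _ h2))
    (by simp [hz'y, hvy, hw4])
  have hsy : pb Q s y = pb Q s w := by simp [hy, hs1, hs2]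
  have n1 : z + (Q w / pb Q w v) • v ∉ F ∙ y := fun h => by
    obtain ⟨c, hc⟩ := Submodule.mem_span_singleton.1 h
    have e1 := congrArg (pb Q s) hc
    have e2 := congrArg (pb Q z') hc
    simp [hsy, hs1, hs3, hs4] at e1
    simp [e1, hz'z, hzv'] at e2
  rw [DD_eq_pair hy0 (hs y hyQ hy0) m1 n1] at m2
  obtain ⟨c, d, e⟩ := mem_pair.1 m2
  have e1 := congrArg (pb Q s) e
  simp [hsy, hs1, hs2, hs3, hs4] at e1
  have e2 := congrArg (pb Q z) e
  simp [e1, hzz, hzv, pb_sing hz] at e2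

theorem full_unique (hn : 7 ≤ finrank F V) {H : Subgroup (OG Q)} (hH : ¬ commutator (OG Q) ≤ H)
    (hs : ∀ x, Q x = 0 → x ≠ 0 → Rg H x ∨ finrank F (DD H x) ≤ 2) {x x' : V} (hx : Q x = 0)
    (hx' : Q x' = 0) (hx0 : x ≠ 0) (h1 : Full H x) (h2 : Full H x') : x' ∈ F ∙ x := by
  by_contra hc
  have hx'0 : x' ≠ 0 := by rintro rfl; exact hc (Submodule.zero_mem _)
  have hc' : x ∉ (F ∙ x') ⊔ F ∙ x' := fun h => by
    rw [sup_idem] at h
    obtain ⟨c, rfl⟩ := Submodule.mem_span_singleton.1 h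
    have : c ≠ 0 := by rintro rfl; simp at hx0
    rw [Submodule.span_singleton_smul_eq this.isUnit] at hc
    exact hc (Submodule.mem_span_singleton_self _)
  have hxx : pb Q x x' = 0 := by
    by_contra h
    exact hH (le_of_full hB hn hx hx' h h1 h2)
  obtain ⟨y, hy, h3, -, h4⟩ := exists_sing2 hB hn hc'
  have hy0 : y ≠ 0 := by rintro rfl; simp at h4
  have h5 : x' ∈ A0 H y := A0_swap hx' hy (h2.mem_A0 (by rw [pb_comm, h3]))
  have h6 : finrank F (DD H y) ≤ 2 := (hs y hy hy0).resolve_left fun h => by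
    obtain ⟨c, rfl⟩ := Submodule.mem_span_singleton.1 (h x' (A0_le h5))
    have : c = 0 := by simpa [h4] using hxx
    simp [this] at hx'0
  have h7 : finrank F (DD H x) ≤ 2 :=
    (Submodule.finrank_mono (fun d hd => h1.DD_le hB hd)).trans
      ((finrank_line_le x).trans (by norm_num))
  refine hH (le_of_full hB hn hx hy h4 h1 (full_of_DD hB fun d hd => ?_))
  have h8 := h1.DD_le hB (DD_small hB hn hy hx (by rwa [pb_comm]) h6 h7
    (Submodule.sub_mem _ hd (Submodule.smul_mem _ (pb Q d x / pb Q x y) (self_mem_DD H y)))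
    (by simp [pb_comm Q y x, h4]))
  obtain ⟨c, hc⟩ := Submodule.mem_span_singleton.1 h8
  have h9 := congrArg (pb Q y) hc
  simp [DD_perp hy hd, pb_sing hy, pb_comm Q y x, h4] at h9
  rw [h9, zero_smul, eq_comm, sub_eq_zero] at hc
  rw [hc]
  exact Submodule.smul_mem _ _ (Submodule.mem_span_singleton_self _)

end Fin

end Cfsg.Agent.H4
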