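import Cfsg.Agent.H4.OLoc

/-!
# Local analysis, part 2: invariant subgroups, large totally singular types
-/

set_option autoImplicit false
set_option linter.unusedSectionVars false
set_option linter.unusedSimpArgs false
set_option linter.unnecessarySeqFocus false

namespace Cfsg.Agent.H4

open Cfsg.Agent.H6 Module

variable {F V : Type*} [Field F] [AddCommGroup V] [Module F V] {Q : QuadraticForm F V}

theorem E_sub_mem {T : AddSubgroup V} {z v t : V} (hz : Q z = 0) (hv : pb Q z v = 0) (ht : t ∈ T)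
    (h : (E Q z v).1 t ∈ T) : pb Q t v • z - pb Q t z • (v + Q v • z) ∈ T := by
  have := T.sub_mem h ht
  rw [E_apply hz hv] at this
  convert this using 1
  abel

/-- torus element of a hyperbolic plane -/
noncomputable def tor (Q : QuadraticForm F V) (x y : V) (c : F) : OG Q :=
  refl Q (x + y) * refl Q (c • x + y)

theorem tor_apply {x y : V} (hx : Q x = 0) (hy : Q y = 0) (hxy : pb Q x y = 1) {c : F}
    (hc : c ≠ 0) (w : V) : (tor Q x y c).1 w =
      w + ((c⁻¹ - 1) * pb Q w y) • x + ((c - 1) * pb Q w x) • y := by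
  have h1 : Q (c • x + y) = c := by rw [Q_add, Q_smul, hx, hy]; simp [hxy]
  have h2 : Q (x + y) = 1 := by rw [Q_add, hx, hy]; simp [hxy]
  have h3 : pb Q y x = 1 := by rw [pb_comm, hxy]
  rw [tor, OG_mul_apply, refl_apply, refl_apply, h1, h2]
  simp only [map_sub, map_add, map_smul, LinearMap.sub_apply, LinearMap.add_apply,
    LinearMap.smul_apply, smul_eq_mul, pb_sing hx, pb_sing hy, hxy, h3]
  match_scalars <;> field_simp <;> ring

section Fin

variable [Fintype F] [FiniteDimensional F V] (hB : (pb Q).Nondegenerate)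
include hB

theorem tor_mem {x y : V} (hx : Q x = 0) (hy : Q y = 0) (hxy : pb Q x y = 1) {c : F}
    (hc : c ≠ 0) (h : IsSquare c) : tor Q x y c ∈ commutator (OG Q) := by
  have h1 : Q (c • x + y) = c := by rw [Q_add, Q_smul, hx, hy]; simp [hxy]
  have h2 : Q (x + y) = 1 := by rw [Q_add, hx, hy]; simp [hxy]
  exact refl_mul_refl_mem hB (by rw [h2]; exact one_ne_zero) (by rwa [h1]) (by
    rwa [h1, h2, one_mul])

theorem exists_pb_ne (S : Submodule F V) (h : finrank F V < 2 * finrank F S) :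
    ∃ v ∈ S, ∃ v' ∈ S, pb Q v v' ≠ 0 := by
  by_contra hc
  push Not at hc
  have h1 : S ≤ (pb Q).orthogonal S := fun v hv w hw => hc w hw v hv
  have h2 := Submodule.finrank_mono h1
  have h3 := finrank_orth hB S
  omega

omit hB in
theorem mem_orth_triple {a b c w : V} :
    w ∈ (pb Q).orthogonal (((F ∙ a) ⊔ F ∙ b) ⊔ F ∙ c) ↔
      pb Q w a = 0 ∧ pb Q w b = 0 ∧ pb Q w c = 0 := by
  rw [orth_sup, Submodule.mem_inf, mem_orth_pair, mem_orth_span, and_assoc]

theorem finrank_orth_triple (a b c : V) :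
    finrank F V ≤ finrank F ((pb Q).orthogonal (((F ∙ a) ⊔ F ∙ b) ⊔ F ∙ c)) + 3 := by
  have := finrank_orth hB (((F ∙ a) ⊔ F ∙ b) ⊔ F ∙ c)
  have := finrank_sup_line_le ((F ∙ a) ⊔ F ∙ b) c
  have := finrank_pair_le (F := F) a b
  omega

theorem inv_step (hn : 7 ≤ finrank F V) {T : AddSubgroup V} {x t z t' : V} (hz : Q z = 0)
    (ht' : t' ∈ T) (hc : pb Q t' z ≠ 0)
    (h : ∀ v, pb Q v x = 0 → pb Q v t = 0 → pb Q v z = 0 → (E Q z v).1 t' ∈ T) :
    (∀ c : F, c • z ∈ T) ∧ ∀ v, pb Q v x = 0 → pb Q v t = 0 → pb Q v z = 0 → v ∈ T := by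
  have key : ∀ v, pb Q v x = 0 → pb Q v t = 0 → pb Q v z = 0 →
      pb Q t' v • z - pb Q t' z • (v + Q v • z) ∈ T := fun v h1 h2 h3 =>
    E_sub_mem hz (by rw [pb_comm, h3]) ht' (h v h1 h2 h3)
  obtain ⟨v, hv, v', hv', hvv⟩ := exists_pb_ne hB _ (show finrank F V < 2 * finrank F
    ((pb Q).orthogonal (((F ∙ x) ⊔ F ∙ t) ⊔ F ∙ z)) by
      have := finrank_orth_triple hB x t z; omega)
  rw [mem_orth_triple] at hv hv'
  have h1 : ∀ c : F, c • z ∈ T := by
    intro c
    set a := c / (pb Q t' z * pb Q v v') with ha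
    have := T.sub_mem (T.add_mem (key (a • v) (by simp [hv.1]) (by simp [hv.2.1]) (by simp [hv.2.2]))
      (key v' hv'.1 hv'.2.1 hv'.2.2)) (key (a • v + v') (by simp [hv.1, hv'.1])
        (by simp [hv.2.1, hv'.2.1]) (by simp [hv.2.2, hv'.2.2]))
    convert this using 1
    rw [Q_add]
    simp only [map_add, map_smul, LinearMap.smul_apply, smul_eq_mul, ha]
    match_scalars <;> field_simp <;> ring
  refine ⟨h1, fun w h2 h3 h4 => ?_⟩
  have := T.sub_mem (h1 (pb Q t' ((pb Q t' z)⁻¹ • w) - pb Q t' z * Q ((pb Q t' z)⁻¹ • w)))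
    (key ((pb Q t' z)⁻¹ • w) (by simp [h2]) (by simp [h3]) (by simp [h4]))
  convert this using 1
  match_scalars <;> field_simp <;> ring

theorem inv_perp (hn : 7 ≤ finrank F V) {T : AddSubgroup V} {x t t' : V} (ht' : t' ∈ T)
    (hc : t' ∉ (F ∙ x) ⊔ F ∙ t)
    (h : ∀ z v s, Q z = 0 → pb Q z x = 0 → pb Q z t = 0 → pb Q v x = 0 → pb Q v t = 0 →
      pb Q v z = 0 → s ∈ T → (E Q z v).1 s ∈ T) :
    ∀ w, pb Q w x = 0 → pb Q w t = 0 → w ∈ T := by
  obtain ⟨z, hz, h1, h2, h3⟩ := exists_sing2 hB hn hc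
  obtain ⟨h4, h5⟩ := inv_step hB hn (x := x) (t := t) hz ht' h3
    fun v a b c => h z v t' hz h1 h2 a b c ht'
  intro w hw1 hw2
  by_cases h6 : z ∈ (F ∙ x) ⊔ F ∙ t
  · obtain ⟨a, b, e⟩ := mem_pair.1 h6
    exact h5 w hw1 hw2 (by rw [e]; simp [hw1, hw2])
  · obtain ⟨z', hz', h7, h8, h9⟩ := exists_sing2 hB hn h6
    have hzT : z ∈ T := by simpa using h4 1
    obtain ⟨-, h10⟩ := inv_step hB hn (x := x) (t := t) hz' hzT h9
      fun v a b c => h z' v z hz' h7 h8 a b c hzT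
    have := T.add_mem (h10 (w - (pb Q w z' / pb Q z z') • z) (by simp [hw1, h1])
      (by simp [hw2, h2]) (by simp [h9])) (h4 (pb Q w z' / pb Q z z'))
    simpa using this

theorem le_of_ts (hn : 7 ≤ finrank F V) {H : Subgroup (OG Q)}
    (hT : ∀ x, Q x = 0 → x ≠ 0 → TotSing Q (DD H x))
    (hP : ∀ x y t, Q x = 0 → Q y = 0 → pb Q x y ≠ 0 → t ∈ DD H x → pb Q t y = 0 → t ∈ DD H y) :
    commutator (OG Q) ≤ H := by
  have key : ∀ x y, Q x = 0 → Q y = 0 → pb Q x y = 1 → Full H x := by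
    intro x y hx hy hxy
    have hyx : pb Q y x = 1 := by rw [pb_comm, hxy]
    have hx0 : x ≠ 0 := by rintro rfl; simp at hxy
    refine full_of_DD hB fun d hd => ?_
    by_contra hdx
    set t := d - pb Q d y • x with ht
    have h1 : t ∈ DD H x := Submodule.sub_mem _ hd (Submodule.smul_mem _ _ (self_mem_DD H x))
    have h2 : pb Q t y = 0 := by simp [ht, hxy]
    have h3 : t ∈ DD H y := hP x y t hx hy (by rw [hxy]; exact one_ne_zero) h1 h2
    have h4 : pb Q x t = 0 := DD_perp hx h1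
    have h4' : pb Q t x = 0 := by rw [pb_comm, h4]
    have h2' : pb Q y t = 0 := by rw [pb_comm, h2]
    have h5 : Q t = 0 := hT x hx hx0 t h1
    have h6 : t ∉ (F ∙ x) ⊔ F ∙ y := fun h => by
      obtain ⟨a, b, e⟩ := mem_pair.1 h
      have e1 := h2
      have e2 := h4'
      rw [e] at e1 e2
      simp [pb_sing hx, pb_sing hy, hxy, hyx] at e1 e2
      rw [e1, e2, zero_smul, zero_smul, add_zero, ht, sub_eq_zero] at e
      exact hdx (by rw [e]; exact Submodule.smul_mem _ _ (Submodule.mem_span_singleton_self _))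
    obtain ⟨s, hs, hs'⟩ := exists_orth_ne hB h6
    rw [mem_orth_pair] at hs
    set z0 := x + y + (pb Q t s)⁻¹ • s with hz0
    set z := z0 - Q z0 • t with hz
    have a1 : pb Q t z0 = 1 := by simp [hz0, h4', h2, hs']
    have a2 : pb Q x z = 1 := by simp [hz, hz0, pb_sing hx, hxy, pb_comm Q x s, hs.1, h4]
    have a3 : pb Q y z = 1 := by simp [hz, hz0, pb_sing hy, hyx, pb_comm Q y s, hs.2, h2']
    have a4 : pb Q t z = 1 := by simp [hz, a1, pb_sing h5]
    have a5 : Q z = 0 := by rw [hz, Q_sub, Q_smul, h5]; simp [pb_comm Q z0 t, a1]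
    have b1 := hP x z (x - t) hx a5 (by rw [a2]; exact one_ne_zero)
      (Submodule.sub_mem _ (self_mem_DD H x) h1) (by simp [a2, a4])
    have b2 := hP y z (y - t) hy a5 (by rw [a3]; exact one_ne_zero)
      (Submodule.sub_mem _ (self_mem_DD H y) h3) (by simp [a3, a4])
    have := (hT z a5 (by intro h; rw [h] at a2; simp at a2)).pb_eq b1 b2
    simp [hxy, h4, h2, pb_sing h5] at this
  obtain ⟨x, y, hx, hy, hxy, -⟩ := exists_hyp2 hB hn 0 0
  exact le_of_full hB hn hx hy (by rw [hxy]; exact one_ne_zero) (key x y hx hy hxy)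
    (key y x hy hx (by rw [pb_comm, hxy]))

theorem exists_nu_seven (h7 : finrank F V = 7) {D D' : Submodule F V} (hD : TotSing Q D)
    (hD' : TotSing Q D') (h3 : finrank F D' = 3) :
    ∃ u ∈ (pb Q).orthogonal D, u ∈ (pb Q).orthogonal D' ∧ Q u ≠ 0 := by
  have hmax : ∀ s ∈ (pb Q).orthogonal D', Q s = 0 → s ∈ D' := by
    intro s hs hQ
    by_contra hc
    have hT : TotSing Q (D' ⊔ F ∙ s) := by
      intro w hw
      obtain ⟨u, hu, v, hv, rfl⟩ := Submodule.mem_sup.1 hw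
      obtain ⟨c, rfl⟩ := Submodule.mem_span_singleton.1 hv
      have : pb Q u s = 0 := hs u hu
      rw [Q_add, Q_smul, hQ, hD' u hu]
      simp [this]
    have := hT.two_mul_finrank_le hB
    rw [Submodule.finrank_sup_span_singleton hc] at this
    omega
  obtain ⟨a, ha, ha'⟩ := exists_mem_not_mem (S := D') (T := (pb Q).orthogonal D') (by
    have := finrank_orth hB D'; omega)
  have hQ : Q a ≠ 0 := fun h => ha' (hmax a ha h)
  have h1 : a ∈ (pb Q).orthogonal D ⊔ D' := by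
    rw [← orth_orth hB ((pb Q).orthogonal D ⊔ D'), orth_sup, orth_orth hB]
    intro s hs
    exact ha s (hmax s hs.2 (hD s hs.1))
  obtain ⟨u, hu, d, hd, rfl⟩ := Submodule.mem_sup.1 h1
  have h2 : u ∈ (pb Q).orthogonal D' := by
    have := Submodule.sub_mem _ ha (hD'.le_orth hd)
    simpa using this
  refine ⟨u, hu, h2, fun h => hQ ?_⟩
  have : pb Q d u = 0 := h2 d hd
  rw [Q_add, h, hD' d hd, pb_comm, this]; simp

theorem le_of_seven (h7 : finrank F V = 7) {H : Subgroup (OG Q)}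
    (hT : ∀ x, Q x = 0 → x ≠ 0 → TotSing Q (DD H x)) : commutator (OG Q) ≤ H := by
  refine le_of_ts hB (by omega) hT fun x y t hx hy hxy ht hty => ?_
  have hx0 : x ≠ 0 := by rintro rfl; simp at hxy
  have hy0 : y ≠ 0 := by rintro rfl; simp at hxy
  have h1 := (hT x hx hx0).two_mul_finrank_le hB
  have h2 := (hT y hy hy0).two_mul_finrank_le hB
  by_cases h3 : finrank F (DD H y) = 3
  · obtain ⟨u, h4, h5, h6⟩ := exists_nu_seven hB h7 (hT x hx hx0) (hT y hy hy0) h3
    rw [DD, orth_orth hB] at h4 h5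
    exact DD_of_nu hx hy hxy h4 h5 h6 ht hty
  by_cases h3' : finrank F (DD H x) = 3
  · obtain ⟨u, h4, h5, h6⟩ := exists_nu_seven hB h7 (hT y hy hy0) (hT x hx hx0) h3'
    rw [DD, orth_orth hB] at h4 h5
    exact DD_of_nu hx hy hxy h5 h4 h6 ht hty
  exact DD_small hB (by omega) hx hy hxy (by omega) (by omega) ht hty

section Max

variable {H : Subgroup (OG Q)}
  (hT : ∀ x, Q x = 0 → x ≠ 0 → TotSing Q (DD H x) ∧ 2 * finrank F (DD H x) = finrank F V)
include hT

theorem A0_eq_DD {x : V} (hx : Q x = 0) (hx0 : x ≠ 0) : A0 H x = DD H x := by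
  rw [← (hT x hx hx0).1.orth_eq hB (hT x hx hx0).2, DD, orth_orth hB]

theorem DD_symm {x t : V} (hx : Q x = 0) (hx0 : x ≠ 0) (ht : t ∈ DD H x) (ht0 : t ≠ 0) :
    x ∈ DD H t := by
  have hQ := (hT x hx hx0).1 t ht
  rw [← A0_eq_DD hB hT hQ ht0]
  exact A0_swap hx hQ (by rwa [A0_eq_DD hB hT hx hx0])

theorem DD_disj {x y t : V} (hx : Q x = 0) (hy : Q y = 0) (hxy : pb Q x y ≠ 0) (h1 : t ∈ DD H x)
    (h2 : t ∈ DD H y) : t = 0 := by
  by_contra ht0
  have hx0 : x ≠ 0 := by rintro rfl; simp at hxy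
  have hy0 : y ≠ 0 := by rintro rfl; simp at hxy
  exact hxy ((hT t ((hT x hx hx0).1 t h1) ht0).1.pb_eq (DD_symm hB hT hx hx0 h1 ht0)
    (DD_symm hB hT hy hy0 h2 ht0))

theorem DD_inter (hn : 7 ≤ finrank F V) {x t d : V} (hx : Q x = 0) (hx0 : x ≠ 0) (ht : t ∈ DD H x)
    (htx : t ∉ F ∙ x) (h1 : d ∈ DD H x) (h2 : d ∈ DD H t) : d ∈ (F ∙ x) ⊔ F ∙ t := by
  by_contra hc
  have hQ := (hT x hx hx0).1 t ht
  have ht0 : t ≠ 0 := by rintro rfl; exact htx (Submodule.zero_mem _)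
  have hxtd : x ∉ (F ∙ t) ⊔ F ∙ d := fun h => by
    obtain ⟨a, b, e⟩ := mem_pair.1 h
    by_cases hb : b = 0
    · subst hb
      have ha : a ≠ 0 := by rintro rfl; simp at e; exact hx0 e
      apply htx
      rw [e, zero_smul, add_zero, Submodule.span_singleton_smul_eq ha.isUnit]
      exact Submodule.mem_span_singleton_self _
    · exact hc (mem_pair.2 ⟨b⁻¹, -(b⁻¹ * a), by
        rw [e]; match_scalars <;> field_simp <;> ring⟩)
  obtain ⟨y, hy, h3, h4, h5⟩ := exists_sing2 hB hn hxtd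
  have hy0 : y ≠ 0 := by rintro rfl; simp at h5
  have h6 : d ∈ AA H t := A0_le (by rwa [A0_eq_DD hB hT hQ ht0])
  have h7 : t ∉ DD H y := fun h => ht0 (DD_disj hB hT hx hy h5 ht h)
  obtain ⟨y', hy', h8⟩ := exists_orth_ne hB h7
  rw [(hT y hy hy0).1.orth_eq hB (hT y hy hy0).2] at hy'
  have h9 := ((Cj.of_mem h6.2).DD y y').1 hy'
  rw [E_fix hQ h6.1 h3 h4] at h9
  have h10 := E_sub_mem (T := (DD H y).toAddSubgroup) hQ h6.1 hy' h9
  rw [(hT x hx hx0).1 d h1, zero_smul, add_zero] at h10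
  have h11 := DD_disj hB hT hx hy h5
    (Submodule.sub_mem _ (Submodule.smul_mem _ _ ht) (Submodule.smul_mem _ _ h1)) h10
  rw [pb_comm] at h8
  exact hc (mem_pair.2 ⟨0, pb Q y' d / pb Q y' t, by
    rw [zero_smul, zero_add, div_eq_inv_mul, ← smul_smul, sub_eq_zero.1 h11, smul_smul,
      inv_mul_cancel₀ h8, one_smul]⟩)

theorem not_max_of_tor (hn : 7 ≤ finrank F V) {x t a b v : V} (hx : Q x = 0) (hx0 : x ≠ 0)
    (ht : t ∈ DD H x) (htx : t ∉ F ∙ x) (ha : Q a = 0) (hb : Q b = 0) (hab : pb Q a b = 1)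
    (h1 : pb Q x a = 0) (h2 : pb Q x b = 0) (h3 : pb Q t a = 0) (h4 : pb Q t b = 0)
    (hv : pb Q x v = 0) {c : F} (hc0 : c ≠ 0) (hc1 : c ≠ 1) (hg : E Q x v * tor Q a b c ∈ H) :
    False := by
  set g := E Q x v * tor Q a b c with hgd
  have hxt := DD_perp hx ht
  have hba : pb Q b a = 1 := by rw [pb_comm, hab]
  have hax : pb Q a x = 0 := by rw [pb_comm, h1]
  have hbx : pb Q b x = 0 := by rw [pb_comm, h2]
  have gx : g.1 x = x := by
    rw [hgd, OG_mul_apply, tor_apply ha hb hab hc0, h1, h2]; simp [E_self hx hv]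
  have gt : g.1 t = t + pb Q t v • x := by
    rw [hgd, OG_mul_apply, tor_apply ha hb hab hc0, h3, h4]
    simp [E_perp hx hv (by rw [pb_comm, hxt] : pb Q t x = 0)]
  have gw : ∀ w, pb Q w x = 0 → ∃ e : F, g.1 w =
      w + ((c⁻¹ - 1) * pb Q w b) • a + ((c - 1) * pb Q w a) • b + e • x := fun w hw =>
    ⟨_, by rw [hgd, OG_mul_apply, tor_apply ha hb hab hc0, E_perp hx hv (by simp [hw, hax, hbx])]⟩
  have key : ∀ j : ℕ, (g ^ j).1 x = x ∧ (g ^ j).1 t = t + ((j : F) * pb Q t v) • x ∧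
      ∀ w, pb Q w x = 0 → ∃ e : F, (g ^ j).1 w =
        w + (((c ^ j)⁻¹ - 1) * pb Q w b) • a + ((c ^ j - 1) * pb Q w a) • b + e • x := by
    intro j
    induction j with
    | zero => exact ⟨by simp, by simp, fun w _ => ⟨0, by simp⟩⟩
    | succ j ih =>
      refine ⟨by rw [pow_succ', OG_mul_apply, ih.1, gx], ?_, fun w hw => ?_⟩
      · rw [pow_succ', OG_mul_apply, ih.2.1, map_add, map_smul, gx, gt]
        push_cast
        module
      · obtain ⟨e, he⟩ := ih.2.2 w hw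
        obtain ⟨e', he'⟩ := gw (w + (((c ^ j)⁻¹ - 1) * pb Q w b) • a +
          ((c ^ j - 1) * pb Q w a) • b) (by simp [hw, hax, hbx])
        refine ⟨e' + e, ?_⟩
        rw [pow_succ', OG_mul_apply, he, map_add, he', map_smul, gx]
        simp only [map_add, map_smul, LinearMap.add_apply, LinearMap.smul_apply, smul_eq_mul,
          pb_sing ha, pb_sing hb, hab, hba]
        have := pow_ne_zero j hc0
        match_scalars <;> field_simp <;> ring
  obtain ⟨k1, k2, k3⟩ := key (ringChar F)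
  rw [ringChar.Nat.cast_ringChar, zero_mul, zero_smul, add_zero] at k2
  have hp : Fact (ringChar F).Prime := ⟨CharP.char_is_prime F _⟩
  have hν : c ^ ringChar F ≠ 1 := fun h => hc1 (by
    apply frobenius_inj F (ringChar F)
    rw [frobenius_def, h, map_one])
  have hν0 := pow_ne_zero (ringChar F) hc0
  generalize c ^ ringChar F = ν at k3 hν hν0
  have hm : g ^ ringChar F ∈ H := pow_mem hg _
  have main : ∀ s, Q s = 0 → s ≠ 0 → x ∈ DD H s → (g ^ ringChar F).1 s = s →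
      a ∈ DD H s ∨ b ∈ DD H s := by
    intro s hs hs0 hxs hgs
    have hts := hT s hs hs0
    have : ∃ w ∈ DD H s, pb Q w a ≠ 0 ∨ pb Q w b ≠ 0 := by
      by_contra hc
      push Not at hc
      have e1 : a ∈ DD H s := by
        rw [← hts.1.orth_eq hB hts.2]; exact fun w hw => (hc w hw).1
      have e2 : b ∈ DD H s := by
        rw [← hts.1.orth_eq hB hts.2]; exact fun w hw => (hc w hw).2
      rw [hts.1.pb_eq e1 e2] at hab
      exact zero_ne_one hab
    obtain ⟨w, hw, hw'⟩ := this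
    obtain ⟨e, he⟩ := k3 w (hts.1.pb_eq hw hxs)
    have h5 := ((Cj.of_mem hm).DD s w).1 hw
    rw [hgs, he] at h5
    have h6 : ((ν⁻¹ - 1) * pb Q w b) • a + ((ν - 1) * pb Q w a) • b ∈ DD H s := by
      have := Submodule.sub_mem _ (Submodule.sub_mem _ h5 hw) (Submodule.smul_mem _ e hxs)
      convert this using 1
      abel
    have h7 := hts.1 _ h6
    rw [Q_add, Q_smul, Q_smul, ha, hb] at h7
    simp only [map_smul, LinearMap.smul_apply, hab, smul_eq_mul, mul_zero, zero_add, mul_one,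
      mul_eq_zero] at h7
    have n1 : ν - 1 ≠ 0 := sub_ne_zero.2 hν
    have n2 : ν⁻¹ - 1 ≠ 0 := sub_ne_zero.2 (by simpa using hν)
    by_cases h8 : pb Q w a = 0
    · left
      have h9 := hw'.resolve_left (by simpa using h8)
      have := Submodule.smul_mem _ ((ν⁻¹ - 1) * pb Q w b)⁻¹ h6
      rw [h8, mul_zero, zero_smul, add_zero, smul_smul, inv_mul_cancel₀ (mul_ne_zero n2 h9),
        one_smul] at this
      exact this
    · right
      have h9 : pb Q w b = 0 := by simpa [n1, n2, h8] using h7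
      have := Submodule.smul_mem _ ((ν - 1) * pb Q w a)⁻¹ h6
      rw [h9, mul_zero, zero_smul, zero_add, smul_smul, inv_mul_cancel₀ (mul_ne_zero n1 h8),
        one_smul] at this
      exact this
  have hQt := (hT x hx hx0).1 t ht
  have ht0 : t ≠ 0 := by rintro rfl; exact htx (Submodule.zero_mem _)
  have hm' : x + t ∈ DD H x := Submodule.add_mem _ (self_mem_DD H x) ht
  have hn' : x + t ∉ F ∙ x := fun h => htx (by
    simpa using Submodule.sub_mem _ h (Submodule.mem_span_singleton_self x))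
  have hQ' := (hT x hx hx0).1 _ hm'
  have h0' : x + t ≠ 0 := by intro h; rw [h] at hn'; exact hn' (Submodule.zero_mem _)
  have hxt' := DD_symm hB hT hx hx0 ht ht0
  have hm'' : x + t ∈ DD H t := Submodule.add_mem _ hxt' (self_mem_DD H t)
  have hn'' : x + t ∉ F ∙ t := fun h => by
    have := Submodule.sub_mem _ h (Submodule.mem_span_singleton_self t)
    obtain ⟨e, he⟩ := Submodule.mem_span_singleton.1 this
    have he0 : e ≠ 0 := by rintro rfl; simp at he; exact hx0 he.symm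
    apply htx
    rw [add_sub_cancel_right] at he
    rw [← he, Submodule.span_singleton_smul_eq he0.isUnit]
    exact Submodule.mem_span_singleton_self _
  have c1 := main x hx hx0 (self_mem_DD H x) k1
  have c2 := main t hQt ht0 hxt' k2
  have c3 := main (x + t) hQ' h0' (DD_symm hB hT hx hx0 hm' h0') (by rw [map_add, k1, k2])
  have fin : ∀ s s' d d' : V, pb Q d d' = 1 → pb Q s d' = 0 → pb Q s' d' = 0 →
      d ∉ (F ∙ s) ⊔ F ∙ s' := by
    intro s s' d d' e1 e2 e3 h
    obtain ⟨i, j, rfl⟩ := mem_pair.1 h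
    simp [e2, e3] at e1
  have f1 : pb Q (x + t) a = 0 := by simp [h1, h3]
  have f2 : pb Q (x + t) b = 0 := by simp [h2, h4]
  rcases c1 with c1 | c1 <;> rcases c2 with c2 | c2 <;> rcases c3 with c3 | c3
  · exact fin _ _ _ _ hab h2 h4 (DD_inter hB hT hn hx hx0 ht htx c1 c2)
  · exact fin _ _ _ _ hab h2 h4 (DD_inter hB hT hn hx hx0 ht htx c1 c2)
  · exact fin _ _ _ _ hab h2 f2 (DD_inter hB hT hn hx hx0 hm' hn' c1 c3)
  · exact fin _ _ _ _ hba h3 f1 (DD_inter hB hT hn hQt ht0 hm'' hn'' c2 c3)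
  · exact fin _ _ _ _ hab h4 f2 (DD_inter hB hT hn hQt ht0 hm'' hn'' c2 c3)
  · exact fin _ _ _ _ hba h1 f1 (DD_inter hB hT hn hx hx0 hm' hn' c1 c3)
  · exact fin _ _ _ _ hba h1 h3 (DD_inter hB hT hn hx hx0 ht htx c1 c2)
  · exact fin _ _ _ _ hba h1 h3 (DD_inter hB hT hn hx hx0 ht htx c1 c2)

end Max

end Fin

end Cfsg.Agent.H4
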