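import Cfsg.Agent.H4.OReg

/-!
# The minimal degree of `Ω(V)` under numerical hypotheses
-/

set_option autoImplicit false
set_option linter.unusedSectionVars false
set_option linter.unusedSimpArgs false
set_option linter.unnecessarySeqFocus false

namespace Cfsg.Agent.H4

open Cfsg.Agent.H6 Module MulAction Finset

variable {F V : Type*} [Field F] [AddCommGroup V] [Module F V] {Q : QuadraticForm F V}
variable [Fintype F] [Fintype V] [FiniteDimensional F V] {X : Type*} [Fintype X]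
  [MulAction (OG Q) X]

local notation "q" => Fintype.card F
local notation "n" => finrank F V

open Classical in
/-- nonzero singular vectors -/
noncomputable def Sg (Q : QuadraticForm F V) : Finset V := univ.filter fun v => Q v = 0 ∧ v ≠ 0

theorem mem_Sg {v : V} : v ∈ Sg Q ↔ Q v = 0 ∧ v ≠ 0 := by simp [Sg]

/-- the numerical hypotheses -/
structure NumHyp (Q : QuadraticForm F V) (N c0 c1 w B : ℕ) : Prop where
  cl0 : ∀ x t, Q x = 0 → x ≠ 0 → pb Q x t = 0 → t ∉ F ∙ x → Q t = 0 → c0 ≤ (Cl Q x t).card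
  cl1 : ∀ x t, Q x = 0 → x ≠ 0 → pb Q x t = 0 → Q t ≠ 0 → c1 ≤ (Cl Q x t).card
  wi : ∀ D, TotSing Q D → finrank F D ≤ w
  h1 : 4 ≤ q → q * N ≤ ringChar F * c1
  h2 : q ≤ 3 → N ≤ c0 + c1
  h3 : q = 3 → N ≤ 2 * c1
  h4 : q = 2 → Even n ∧ 3 * N ≤ 8 * c1
  h5 : ∀ d, 2 ≤ d → d + 1 ≤ w → d + 6 ≤ n → N * (q ^ d - 1) ≤ q ^ (n - 5) * c0
  h6 : ∀ e, 3 ≤ e → e ≤ w → e + 4 = n →
    N ≤ 2 * c0 ∧ B * (q * (q ^ e - q)) ≤ c0 * (q + 1) * q ^ e ∧ q * N ≤ q * B + c1
  h7 : n = 8 → 4 ≤ w → q * N ≤ q * B + c0 ∧ N * (Sg Q).card ≤ B * (Sg Q).card + N * (q ^ 4 - 1) ∧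
    q ^ 4 - 1 < (Sg Q).card ∧ N ≤ 2 * B ∧ (4 ≤ q ∨ N ≤ B)
  h8 : N * (q - 1) ≤ (Sg Q).card
  h9 : N * (q - 1) ≤ q ^ (n - 2) * (q - 1) + c1
  h10 : N ≤ 2 * q ^ (n - 2)

theorem not_mem_line {x t : V} (hx : Q x = 0) (ht : Q t ≠ 0) : t ∉ F ∙ x := fun h => by
  obtain ⟨c, rfl⟩ := Submodule.mem_span_singleton.1 h
  exact ht (by rw [Q_smul, hx, mul_zero])

theorem small_cases (hq : q ≤ 3) (c : F) : c = 0 ∨ c = 1 ∨ c = -1 := by
  by_cases hc : c = 0
  · exact Or.inl hc
  right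
  have h1 := FiniteField.pow_card_sub_one_eq_one _ hc
  have : 1 < q := Fintype.one_lt_card
  rw [← mul_self_eq_one_iff]
  rcases (by omega : q = 2 ∨ q = 3) with h | h <;> rw [h] at h1
  · rw [show c = 1 by simpa using h1, mul_one]
  · rw [← sq]; exact h1

theorem ringChar_eq (hq : q ≤ 3) : ringChar F = q := by
  have : 1 < q := Fintype.one_lt_card
  have hp : (ringChar F).Prime := CharP.char_is_prime F _
  have h : ringChar F ∣ q := (CharP.cast_eq_zero_iff F (ringChar F) _).1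
    (FiniteField.cast_card_eq_zero F)
  rcases (by omega : q = 2 ∨ q = 3) with h1 | h1 <;> rw [h1] at h ⊢
  · exact (Nat.prime_dvd_prime_iff_eq hp Nat.prime_two).1 h
  · exact (Nat.prime_dvd_prime_iff_eq hp Nat.prime_three).1 h

theorem card_Tp_le (x : V) (ω : X) :
    Nat.card (Tp Q x ω) ≤ q ^ finrank F (DD (stabilizer (OG Q) ω) x) := by
  rw [← card_sub]
  exact AddSubgroup.card_le_of_le fun a ha => TT_le_DD ha

theorem not_le_stab {ω0 ω : X} (hH : ¬ commutator (OG Q) ≤ stabilizer (OG Q) ω0)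
    (h : ω ∈ Orb Q ω0) : ¬ commutator (OG Q) ≤ stabilizer (OG Q) ω := fun h' => by
  obtain ⟨g, hg, rfl⟩ := mem_Orb.1 h
  have : g⁻¹ • g • ω0 = g • ω0 := h' (inv_mem hg)
  rw [inv_smul_smul] at this
  exact hH (this ▸ h')

theorem DD_cj (g : OG Q) (ω : X) (x : V) : DD (stabilizer (OG Q) (g • ω)) (g.1 x) =
    (DD (stabilizer (OG Q) ω) x).map (g.1 : V →ₗ[F] V) := by
  ext d
  rw [Submodule.mem_map_equiv, (cj_stab g ω).DD, LinearEquiv.apply_symm_apply]

variable (hB : (pb Q).Nondegenerate) (hn : 7 ≤ finrank F V)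
include hB

theorem DD_le_TT {H : Subgroup (OG Q)} {x : V} (h : ∀ s ∈ TT H x, ∀ c : F, c • s ∈ TT H x) :
    ∀ d ∈ DD H x, d ∈ TT H x :=
  DD_le_of_TT hB (U := { (TT H x) with smul_mem' := fun c s hs => h s hs c }) fun _ ht => ht

theorem rg_card {x : V} (hx : Q x = 0) (hx0 : x ≠ 0) {ω : X} (h : Rg (stabilizer (OG Q) ω) x) :
    q ^ (n - 2) ≤ (Qo Q x ω).card := by
  have h1 := card_Tp_le_Qo hB hx hx0 ω
  have h2 : Nat.card ((pb Q).orthogonal (F ∙ x)).toAddSubgroup ≤ Nat.card (Tp Q x ω) :=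
    AddSubgroup.card_le_of_le fun a ha => h.mem_TT (mem_orth_span.1 ha)
  have h3 := finrank_orth hB (F ∙ x)
  rw [finrank_span_singleton hx0] at h3
  rw [card_sub] at h2
  refine Nat.le_of_mul_le_mul_left ((le_trans ?_ h2).trans h1) Fintype.card_pos
  obtain ⟨y, -, hy⟩ := exists_partner hB hx hx0
  have h4 := Submodule.finrank_le ((F ∙ x) ⊔ F ∙ y)
  rw [Submodule.finrank_sup_span_singleton (fun h => by
    obtain ⟨c, rfl⟩ := Submodule.mem_span_singleton.1 h
    simp [pb_sing hx] at hy), finrank_span_singleton hx0] at h4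
  rw [← pow_succ']
  exact Nat.pow_le_pow_right Fintype.card_pos (by omega)

theorem card_full_ge {H : Subgroup (OG Q)} (hn : n = 8) (hH : ¬ commutator (OG Q) ≤ H)
    (h : ∀ x, Q x = 0 → x ≠ 0 → Full H x ∨ (TotSing Q (DD H x) ∧ finrank F (DD H x) = 4))
    {x : V} (hx : Q x = 0) (hx0 : x ≠ 0) (hf : Full H x) [DecidablePred (Full H)] :
    q ^ 4 - 1 ≤ ((Sg Q).filter (Full H)).card := by
  classical
  obtain ⟨y, hy, hxy⟩ := exists_partner hB hx hx0
  have hy0 : y ≠ 0 := by rintro rfl; simp at hxy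
  have hA : ∀ s, TotSing Q (DD H s) → finrank F (DD H s) = 4 → A0 H s = DD H s := fun s h1 h2 => by
    rw [← h1.orth_eq hB (by omega), DD, orth_orth hB]
  obtain ⟨h1, h2⟩ := (h y hy hy0).resolve_left fun h =>
    hH (le_of_full hB (by omega) hx hy (by rw [hxy]; exact one_ne_zero) hf h)
  have key : ∀ t ∈ DD H y, pb Q t x = 0 → t ≠ 0 → Full H t := by
    intro t ht htx ht0
    refine (h t (h1 t ht) ht0).resolve_right fun h3 => ?_
    have e1 := A0_swap hy (h1 t ht) (by rwa [hA y h1 h2])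
    have e2 := A0_swap hx (h1 t ht) (hf.mem_A0 (by rw [pb_comm, htx]))
    rw [hA t h3.1 h3.2] at e1 e2
    rw [h3.1.pb_eq e2 e1] at hxy
    exact zero_ne_one hxy
  have h3 := finrank_inf_perp (Q := Q) (DD H y) x
  have h4 : finrank F ↥((DD H y ⊓ (pb Q).orthogonal (F ∙ x)) ⊔ F ∙ x) =
      finrank F ↥(DD H y ⊓ (pb Q).orthogonal (F ∙ x)) + 1 :=
    Submodule.finrank_sup_span_singleton fun h => by
      rw [pb_comm, DD_perp hy h.1] at hxy
      exact zero_ne_one hxy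
  calc q ^ 4 - 1 ≤ q ^ finrank F ↥((DD H y ⊓ (pb Q).orthogonal (F ∙ x)) ⊔ F ∙ x) - 1 :=
        Nat.sub_le_sub_right (Nat.pow_le_pow_right Fintype.card_pos (by omega)) _
    _ = ((univ.filter (· ∈ (DD H y ⊓ (pb Q).orthogonal (F ∙ x)) ⊔ F ∙ x)).erase 0).card := by
        rw [card_erase_of_mem (by simp), ← Module.card_eq_pow_finrank, Fintype.card_subtype]
    _ ≤ _ := by
        refine card_le_card fun u hu => ?_
        obtain ⟨hu0, hu⟩ := mem_erase.1 hu
        obtain ⟨t, ht, v, hv, rfl⟩ := Submodule.mem_sup.1 (mem_filter.1 hu).2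
        obtain ⟨c, rfl⟩ := Submodule.mem_span_singleton.1 hv
        have htx := mem_orth_span.1 ht.2
        have hQ := h1 t ht.1
        refine mem_filter.2 ⟨mem_Sg.2 ⟨by rw [Q_add, Q_smul, hQ, hx]; simp [htx], hu0⟩, ?_⟩
        by_cases hc : c = 0
        · subst hc
          simp only [zero_smul, add_zero] at hu0 ⊢
          exact key t ht.1 htx hu0
        by_cases ht0 : t = 0
        · subst ht0
          rw [zero_add]
          exact hf.smul hx hc
        have hty : pb Q t (c⁻¹ • y) = 0 := by rw [map_smul, pb_comm, DD_perp hy ht.1, smul_zero]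
        have := ((Cj.of_mem (key t ht.1 htx ht0 _ hty)).full hf).smul (by rw [OG_Q, hx]) hc
        rw [E_perp hQ hty (by rw [pb_comm, htx]), map_smul, hxy, smul_add, smul_smul] at this
        simpa [hc, add_comm] using this

include hn

variable {N c0 c1 w B : ℕ} (hN : NumHyp Q N c0 c1 w B) {ω0 : X} (hK : (Orb Q ω0).card < N)
include hN hK

theorem trichotomy {ω : X} (hω : ω ∈ Orb Q ω0) {x : V} (hx : Q x = 0) (hx0 : x ≠ 0) :
    Rg (stabilizer (OG Q) ω) x ∨ finrank F (DD (stabilizer (OG Q) ω) x) ≤ 2 ∨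
      TotSing Q (DD (stabilizer (OG Q) ω) x) := by
  classical
  by_contra hc
  rw [not_or, not_or] at hc
  obtain ⟨t, ht, hQ⟩ : ∃ t ∈ Tp Q x ω, Q t ≠ 0 := by
    by_contra h
    push Not at h
    exact hc.2.2 (ts_of_TT hB h)
  have hm : ∀ s ∈ Tp Q x ω, s ∉ F ∙ x → ringChar F ≤ mm Q x ω s := fun s hs hsx => by
    by_contra h
    rcases small_or_rg hB hn hx hx0 hs hsx (not_le.1 h) with h | h
    · exact hc.1 h
    · exact hc.2.1 h
  have hY := card_le_card (Yo_subset (x := x) hω)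
  have htx := not_mem_line hx hQ
  have hxt := TT_perp hx ht
  have k1 := hN.cl1 x t hx hx0 hxt hQ
  have k2 := hm t ht htx
  have hq : 1 < q := Fintype.one_lt_card
  by_cases h4 : 4 ≤ q
  · have := one_class' hB hn hx hx0 hxt htx ω
    have := hN.h1 h4
    have := Nat.mul_le_mul k1 k2
    nlinarith
  have h3 : q ≤ 3 := by omega
  rw [ringChar_eq h3] at hm k2
  by_cases hs : ∃ s ∈ Tp Q x ω, s ∉ F ∙ x ∧ s ∉ Cl Q x t
  · obtain ⟨s, hs, hsx, hst⟩ := hs
    have hxs := TT_perp hx hs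
    have k3 := two_class hB hn hx hx0 hxt htx hxs hsx hst ω
    have k4 := hm s hs hsx
    have k5 := Nat.mul_le_mul k1 k2
    by_cases hQs : Q s = 0
    · have k6 := Nat.mul_le_mul (hN.cl0 x s hx hx0 hxs hsx hQs) k4
      have := hN.h2 h3
      nlinarith
    · have k6 := Nat.mul_le_mul (hN.cl1 x s hx hx0 hxs hQs) k4
      have := hN.h3 (by
        by_contra h
        have h2 : q = 2 := by omega
        exact hst (mem_Cl.2 ⟨hxs, hsx, 1, one_ne_zero, by
          rw [eq_one_of_card_two h2 hQ, eq_one_of_card_two h2 hQs]; simp⟩))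
      nlinarith
  push Not at hs
  have hQ' : ∀ s ∈ Tp Q x ω, s ∉ F ∙ x → Q s = Q t := fun s h1 h2 => by
    obtain ⟨-, -, c, hc, e⟩ := mem_Cl.1 (hs s h1 h2)
    rcases small_cases h3 c with h | h | h <;> simp_all
  rcases (by omega : q = 2 ∨ q = 3) with h2 | h2
  · have hD := DD_le_TT hB (H := stabilizer (OG Q) ω) (x := x) fun s hs c => by
      rcases small_cases h3 c with rfl | rfl | rfl <;> simp [hs]
    have d3 : finrank F (DD (stabilizer (OG Q) ω) x) = 3 := by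
      by_contra h
      obtain ⟨C, hC⟩ := (F ∙ x).exists_isCompl
      have e1 := Submodule.finrank_add_eq_of_isCompl hC
      have e2 := Submodule.finrank_sup_add_finrank_inf_eq C (DD (stabilizer (OG Q) ω) x)
      have e3 := Submodule.finrank_le (C ⊔ DD (stabilizer (OG Q) ω) x)
      rw [finrank_span_singleton hx0] at e1
      obtain ⟨z, hz, hz0, hzQ⟩ := exists_sing_of_three Q (C ⊓ DD (stabilizer (OG Q) ω) x) (by omega)
      refine hQ (hzQ ▸ (hQ' z (hD z hz.2) fun h => hz0 ?_).symm)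
      simpa using hC.disjoint.le_bot (⟨h, hz.1⟩ : z ∈ (F ∙ x) ⊓ C)
    obtain ⟨hev, k3⟩ := hN.h4 h2
    have k4 := mm_ge hB hn hx ht (by omega)
    have k5 := one_class hB hn hx hx0 hxt htx ω (card_Tp_le x ω) (j := 1)
      (by rw [one_mul]; exact card_Tp_le_fib hB hn hx hx0 ω)
    rw [d3, h2] at k4 k5
    have k6 : 2 ^ 8 ≤ 2 ^ n := Nat.pow_le_pow_right (by norm_num) (by
      obtain ⟨r, hr⟩ := hev; omega)
    have k7 := Nat.mul_le_mul k1 (show 4 ≤ mm Q x ω t by omega)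
    rw [one_mul] at k5
    omega
  · obtain ⟨s, hs, h⟩ := exists_TT_not_mem hB (H := stabilizer (OG Q) ω) (x := x)
      (U := (F ∙ x) ⊔ F ∙ t) (by have := finrank_pair_le (F := F) x t; omega)
    have m : ∀ c : F, c • t ∈ (F ∙ x) ⊔ F ∙ t := fun c => mem_pair.2 ⟨0, c, by simp⟩
    have e1 := hQ' s hs fun h' => h (Submodule.mem_sup_left h')
    have e2 := hQ' (s + t) (add_mem hs ht) fun h' => h (by
      simpa using Submodule.add_mem _ (Submodule.mem_sup_left h') (m (-1)))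
    have e3 := hQ' (s - t) (sub_mem hs ht) fun h' => h (by
      simpa using Submodule.add_mem _ (Submodule.mem_sup_left h') (m 1))
    rw [Q_add] at e2
    rw [Q_sub] at e3
    have h3 : (3 : F) = 0 := by
      have := FiniteField.cast_card_eq_zero F
      rw [h2] at this
      exact_mod_cast this
    exact hQ (by linear_combination Q t * h3 - e2 - e3 + 2 * e1)

theorem ts_dim {ω : X} (hω : ω ∈ Orb Q ω0) {x : V} (hx : Q x = 0) (hx0 : x ≠ 0)
    (hT : TotSing Q (DD (stabilizer (OG Q) ω) x)) (h3 : 3 ≤ finrank F (DD (stabilizer (OG Q) ω) x)) :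
    finrank F (DD (stabilizer (OG Q) ω) x) + 4 = n := by
  by_contra hc
  have h1 := hT.two_mul_finrank_le hB
  obtain ⟨s, hs, hsx⟩ := exists_TT_not_mem hB (H := stabilizer (OG Q) ω) (x := x) (U := F ∙ x)
    (by rw [finrank_span_singleton hx0]; omega)
  have hxs := TT_perp hx hs
  have k1 := hN.cl0 x s hx hx0 hxs hsx (hT s (TT_le_DD hs))
  have k4 := mm_ge hB hn hx hs h3
  have k5 := one_class hB hn hx hx0 hxs hsx ω (card_Tp_le x ω) (j := 1)
    (by rw [one_mul]; exact card_Tp_le_fib hB hn hx hx0 ω)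
  have k6 := hN.wi _ hT
  have hY := (card_le_card (Yo_subset (x := x) hω)).trans_lt hK
  generalize finrank F (DD (stabilizer (OG Q) ω) x) = e at *
  obtain ⟨d, rfl⟩ : ∃ d, e = d + 1 := ⟨e - 1, by omega⟩
  have k7 := hN.h5 d (by omega) k6 (by omega)
  obtain ⟨r, hr⟩ : ∃ r, n = d + 6 + r := ⟨n - (d + 6), by omega⟩
  have hq : 1 < q := Fintype.one_lt_card
  rw [hr] at k4 k7
  rw [show d + 6 + r - 5 = d + 1 + r by omega] at k7
  generalize q = a at *
  have k8 : a ^ (r + 2) ≤ mm Q x ω s := by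
    refine Nat.le_of_mul_le_mul_left (le_of_eq_of_le ?_ k4) (by positivity)
    ring
  have k9 : 1 < a ^ d := Nat.one_lt_pow (by omega) hq
  obtain ⟨u, hu⟩ : ∃ u, a ^ d = u + 1 := ⟨a ^ d - 1, by omega⟩
  have e1 : a ^ (d + 1) - a = a * u := by rw [pow_succ', hu, mul_add, mul_one, Nat.add_sub_cancel]
  rw [e1] at k5
  rw [hu, Nat.add_sub_cancel] at k7
  have : a * a * (N * u) ≤ a * a * ((Yo Q x ω).card * u) :=
    calc a * a * (N * u) ≤ a * a * (a ^ (d + 1 + r) * c0) := by gcongr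
      _ = 1 * c0 * a ^ (r + 2) * a ^ (d + 1) := by ring
      _ ≤ 1 * (Cl Q x s).card * mm Q x ω s * a ^ (d + 1) := by gcongr
      _ ≤ _ := k5
      _ = _ := by ring
  have := Nat.le_of_mul_le_mul_right (Nat.le_of_mul_le_mul_left this (by positivity))
    (by omega : 0 < u)
  omega

theorem bt_sub {ω : X} (hω : ω ∈ Orb Q ω0) {x : V} (hx : Q x = 0) (hx0 : x ≠ 0)
    (hT : TotSing Q (DD (stabilizer (OG Q) ω) x)) (h3 : 3 ≤ finrank F (DD (stabilizer (OG Q) ω) x)) :
    ∀ d ∈ DD (stabilizer (OG Q) ω) x, d ∈ Tp Q x ω := by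
  refine DD_le_TT hB fun s hs c => ?_
  by_contra hc
  have h4 := ts_dim hB hn hN hK hω hx hx0 hT h3
  have hsx : s ∉ F ∙ x := fun h => by
    obtain ⟨a, rfl⟩ := Submodule.mem_span_singleton.1 h
    exact hc (by rw [smul_smul]; exact line_mem_TT _ _ _)
  have hxs := TT_perp hx hs
  have k1 := hN.cl0 x s hx hx0 hxs hsx (hT s (TT_le_DD hs))
  have k4 := mm_ge2 hB hn hx hs hc h3
  have k5 := one_class' hB hn hx hx0 hxs hsx ω
  have k6 := (hN.h6 _ h3 (hN.wi _ hT) h4).1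
  have hY := (card_le_card (Yo_subset (x := x) hω)).trans_lt hK
  have hq : 1 < q := Fintype.one_lt_card
  rw [← h4] at k4
  have k8 : 2 * q ≤ mm Q x ω s := by
    refine Nat.le_of_mul_le_mul_left (le_of_eq_of_le ?_ k4) (by positivity)
    ring
  have := Nat.mul_le_mul k1 k8
  nlinarith

theorem bt_card {ω : X} (hω : ω ∈ Orb Q ω0) {x : V} (hx : Q x = 0) (hx0 : x ≠ 0)
    (hT : TotSing Q (DD (stabilizer (OG Q) ω) x)) (h3 : 3 ≤ finrank F (DD (stabilizer (OG Q) ω) x))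
    {j : ℕ} (hj : j * Nat.card (Tp Q x ω) ≤ q * (fib Q x ω).card) : j * B ≤ (Yo Q x ω).card := by
  have h4 := ts_dim hB hn hN hK hω hx hx0 hT h3
  obtain ⟨s, hs, hsx⟩ := exists_TT_not_mem hB (H := stabilizer (OG Q) ω) (x := x) (U := F ∙ x)
    (by rw [finrank_span_singleton hx0]; omega)
  have hxs := TT_perp hx hs
  have k1 := hN.cl0 x s hx hx0 hxs hsx (hT s (TT_le_DD hs))
  have k4 := mm_BT hB hn hx hs hT h3 h4 fun ω' h => bt_sub hB hn hN hK (Yo_subset hω h) hx hx0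
    (ts_DD_Yo hx h hT) (by rwa [finrank_DD_Yo hx h])
  have k5 := one_class hB hn hx hx0 hxs hsx ω (card_Tp_le x ω) hj
  have k6 := (hN.h6 _ h3 (hN.wi _ hT) h4).2.1
  have hq : 1 < q := Fintype.one_lt_card
  have k7 : q ^ 1 < q ^ finrank F (DD (stabilizer (OG Q) ω) x) := Nat.pow_lt_pow_right hq (by omega)
  rw [pow_one] at k7
  refine Nat.le_of_mul_le_mul_right (c := q * (q ^ finrank F (DD (stabilizer (OG Q) ω) x) - q))
    ?_ (Nat.mul_pos (by omega) (by omega))
  calc _ = j * (B * (q * (q ^ finrank F (DD (stabilizer (OG Q) ω) x) - q))) := by ring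
    _ ≤ j * (c0 * (q + 1) * q ^ finrank F (DD (stabilizer (OG Q) ω) x)) := by gcongr
    _ ≤ j * ((Cl Q x s).card * mm Q x ω s * q ^ finrank F (DD (stabilizer (OG Q) ω) x)) := by
      gcongr
    _ = _ := by ring
    _ ≤ _ := k5
    _ = _ := by ring

variable (hH : ¬ commutator (OG Q) ≤ stabilizer (OG Q) ω0)
include hH

theorem no_bt {ω : X} (hω : ω ∈ Orb Q ω0) {x : V} (hx : Q x = 0) (hx0 : x ≠ 0)
    (hT : TotSing Q (DD (stabilizer (OG Q) ω) x)) (h3 : 3 ≤ finrank F (DD (stabilizer (OG Q) ω) x)) :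
    False := by
  classical
  have h4 := ts_dim hB hn hN hK hω hx hx0 hT h3
  have h5 := hT.two_mul_finrank_le hB
  have hw := hN.wi _ hT
  have k1 := bt_card hB hn hN hK hω hx hx0 hT h3 (j := 1)
    (by rw [one_mul]; exact card_Tp_le_fib hB hn hx hx0 ω)
  have k2 := (hN.h6 _ h3 hw h4).2.2
  have hq : 1 < q := Fintype.one_lt_card
  have hY := (card_le_card (Yo_subset (x := x) hω)).trans_lt hK
  have hoth : ∀ ω' ∈ Orb Q ω0, ω' ∉ Yo Q x ω → ∀ t ∈ Tp Q x ω', t ∉ F ∙ x →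
      q * B + (Cl Q x t).card < q * N := by
    intro ω' h1 h2 t ht htx
    have e1 := Yo_add hω h1 h2
    have e2 := one_class' hB hn hx hx0 (TT_perp hx ht) htx ω'
    have e3 := Nat.mul_le_mul_left (Cl Q x t).card (one_le_mm ht)
    nlinarith
  by_cases h7 : n = 7
  · obtain ⟨x', hx', hx0', h⟩ : ∃ x', Q x' = 0 ∧ x' ≠ 0 ∧
        ¬ TotSing Q (DD (stabilizer (OG Q) ω) x') := by
      by_contra hc
      push Not at hc
      exact not_le_stab hH hω (le_of_seven hB h7 hc)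
    obtain ⟨g, hg, rfl⟩ := witt1 hB hn hx0' hx0 (by rw [hx, hx'])
    have h6 : ¬ TotSing Q (DD (stabilizer (OG Q) (g • ω)) (g.1 x')) := fun h' => h fun d hd => by
      rw [← OG_Q g]
      exact h' _ (((cj_stab g ω).DD _ _).1 hd)
    obtain ⟨t, ht, hQ⟩ : ∃ t ∈ Tp Q (g.1 x') (g • ω), Q t ≠ 0 := by
      by_contra h
      push Not at h
      exact h6 (ts_of_TT hB h)
    have := hoth _ (smul_mem_Orb hω hg) (fun h => h6 (ts_DD_Yo hx h hT)) t ht (not_mem_line hx hQ)
    have := hN.cl1 _ t hx hx0 (TT_perp hx ht) hQ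
    omega
  have h8 : n = 8 := by omega
  have d4 : finrank F (DD (stabilizer (OG Q) ω) x) = 4 := by omega
  obtain ⟨k3, k4, k5, k6, k7⟩ := hN.h7 h8 (by omega)
  have hA : ∀ ω' ∈ Orb Q ω0, ω' ∈ Yo Q x ω ∨ Full (stabilizer (OG Q) ω') x := by
    intro ω' h1
    by_contra hc
    rw [not_or] at hc
    obtain ⟨t, ht, htx⟩ := exists_TT_of_not_full hB hc.2
    have := hoth ω' h1 hc.1 t ht htx
    by_cases hQ : Q t = 0
    · have := hN.cl0 _ t hx hx0 (TT_perp hx ht) htx hQ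
      omega
    · have := hN.cl1 _ t hx hx0 (TT_perp hx ht) hQ
      omega
  have hA' : ∀ ω' ∈ Orb Q ω0, ∀ x', Q x' = 0 → x' ≠ 0 → Full (stabilizer (OG Q) ω') x' ∨
      (TotSing Q (DD (stabilizer (OG Q) ω') x') ∧ finrank F (DD (stabilizer (OG Q) ω') x') = 4) := by
    intro ω' h1 x' hx' hx0'
    obtain ⟨g, hg, rfl⟩ := witt1 hB hn hx0 hx0' (by rw [hx, hx'])
    rcases hA _ (smul_mem_Orb h1 (inv_mem hg)) with h | h
    · right
      rw [← smul_inv_smul g ω', DD_cj, LinearEquiv.finrank_map_eq, finrank_DD_Yo hx h]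
      refine ⟨?_, d4⟩
      rintro _ ⟨d, hd, rfl⟩
      exact (OG_Q g d).trans (ts_DD_Yo hx h hT d hd)
    · left
      simpa using (cj_stab g _).full h
  by_cases hF : ∃ ω1 ∈ Orb Q ω0, ∃ x1, Q x1 = 0 ∧ x1 ≠ 0 ∧ Full (stabilizer (OG Q) ω1) x1
  · obtain ⟨ω1, h1, x1, hx1, hx1', hf⟩ := hF
    have e1 : (Orb Q ω0).card * (q ^ 4 - 1) ≤ (Sg Q).card *
        ((Orb Q ω0).filter fun ω' => Full (stabilizer (OG Q) ω') x).card := by
      refine Finset.card_mul_le_card_mul (fun ω' x' => Full (stabilizer (OG Q) ω') x')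
        (fun ω' h => ?_) fun x' h => ?_
      · obtain ⟨g, hg, rfl⟩ := mem_Orb.1 h
        obtain ⟨g1, hg1, rfl⟩ := mem_Orb.1 h1
        have := (cj_stab (g * g1⁻¹) _).full hf
        rw [mul_smul, inv_smul_smul] at this
        exact card_full_ge hB h8 (not_le_stab hH h) (hA' _ h) (by rw [OG_Q, hx1])
          (by simpa using hx1') this
      · obtain ⟨g, hg, rfl⟩ := witt1 hB hn (mem_Sg.1 h).2 hx0 (by rw [hx, (mem_Sg.1 h).1])
        refine card_le_card_of_injOn (fun a => g • a) (fun a ha => ?_)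
          fun a _ b _ h => by simpa using h
        simp only [bipartiteBelow, coe_filter, Set.mem_ofPred_eq] at ha ⊢
        exact ⟨smul_mem_Orb ha.1 hg, (cj_stab g _).full ha.2⟩
    have e2 : ((Orb Q ω0).filter fun ω' => Full (stabilizer (OG Q) ω') x).card +
        (Yo Q x ω).card ≤ (Orb Q ω0).card := by
      rw [← card_union_of_disjoint]
      · exact card_le_card (union_subset (filter_subset _ _) (Yo_subset hω))
      · rw [Finset.disjoint_left]
        intro a h1 h2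
        have := (Submodule.finrank_mono fun d hd => (mem_filter.1 h1).2.DD_le hB hd).trans
          (finrank_line_le x)
        rw [finrank_DD_Yo hx h2] at this
        omega
    obtain ⟨r, hr⟩ : ∃ r, (Sg Q).card = q ^ 4 - 1 + r + 1 := ⟨(Sg Q).card - (q ^ 4 - 1) - 1, by omega⟩
    rw [hr] at k4 e1
    generalize q ^ 4 - 1 = a at *
    nlinarith
  push Not at hF
  have hT' : ∀ x', Q x' = 0 → x' ≠ 0 → TotSing Q (DD (stabilizer (OG Q) ω) x') ∧
      2 * finrank F (DD (stabilizer (OG Q) ω) x') = n := fun x' h1 h2 => by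
    have := (hA' ω hω x' h1 h2).resolve_left (hF ω hω x' h1 h2)
    exact ⟨this.1, by omega⟩
  have hq4 : 4 ≤ q := k7.resolve_right (by omega)
  obtain ⟨t, ht, htx⟩ := exists_mem_not_mem (S := F ∙ x) (T := DD (stabilizer (OG Q) ω) x)
    (by rw [finrank_span_singleton hx0]; omega)
  obtain ⟨a, ha, hat⟩ := exists_mem_not_mem (S := (F ∙ x) ⊔ F ∙ t)
    (T := DD (stabilizer (OG Q) ω) x) (by have := finrank_pair_le (F := F) x t; omega)
  obtain ⟨b0, hb0, b1, b2, b3⟩ := exists_sing2 hB hn hat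
  set b := (pb Q a b0)⁻¹ • b0 with hbd
  have hb : Q b = 0 := by rw [hbd, Q_smul, hb0, mul_zero]
  have hab : pb Q a b = 1 := by simp [hbd, b3]
  have hxb : pb Q x b = 0 := by simp [hbd, pb_comm Q x b0, b1]
  have htb : pb Q t b = 0 := by simp [hbd, pb_comm Q t b0, b2]
  have hQa := hT a ha
  have hxa := DD_perp hx ha
  obtain ⟨μ, -, hμ⟩ := Finset.exists_mem_notMem_of_card_lt_card (s := {0, 1, -1})
    (t := (univ : Finset F)) (lt_of_le_of_lt card_le_three (by rw [card_univ]; omega))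
  simp only [mem_insert, mem_singleton, not_or] at hμ
  have hc : μ * μ ≠ 0 := mul_ne_zero hμ.1 hμ.1
  have hc1 : μ * μ ≠ 1 := by rw [Ne, mul_self_eq_one_iff]; tauto
  have hg : Pg x (tor Q a b (μ * μ)) (1 : F) := ⟨tor_mem hB hQa hb hab hc ⟨μ, rfl⟩, one_ne_zero, by
    rw [tor_apply hQa hb hab hc, hxa, hxb]; simp⟩
  have hgY := smul_mem_Yo (self_mem_Yo x ω) hg
  have hfib : tor Q a b (μ * μ) • ω ∈ fib Q x ω := by
    refine mem_filter.2 ⟨hgY, AddSubgroup.eq_of_le_of_card_ge ?_ (card_Tp hx hgY).ge⟩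
    rw [Tp_smul hx hg]
    rintro _ ⟨v, hv, rfl⟩
    refine bt_sub hB hn hN hK hω hx hx0 hT h3 _ ?_
    rw [twm_apply, inv_one, one_smul, tor_apply hQa hb hab hc, hT.pb_eq (TT_le_DD hv) ha,
      mul_zero, zero_smul, add_zero]
    exact Submodule.add_mem _ (TT_le_DD hv) (Submodule.smul_mem _ _ ha)
  by_cases hQo : tor Q a b (μ * μ) • ω ∈ Qo Q x ω
  · obtain ⟨v, hv, e⟩ := mem_Qo.1 hQo
    refine not_max_of_tor hB hT' hn hx hx0 ht htx hQa hb hab hxa hxb (hT.pb_eq ht ha) htb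
      (v := -v) (by simp [hv]) hc hc1 ?_
    rw [mem_stabilizer_iff, mul_smul, ← e, E_neg hx hv, inv_smul_smul]
  · have := bt_card hB hn hN hK hω hx hx0 hT h3 (two_card_Tp_le_fib hB hn hx hx0 hfib hQo)
    omega

theorem main_false : False := by
  classical
  have hq : 1 < q := Fintype.one_lt_card
  have hs : ∀ ω ∈ Orb Q ω0, ∀ x, Q x = 0 → x ≠ 0 →
      Rg (stabilizer (OG Q) ω) x ∨ finrank F (DD (stabilizer (OG Q) ω) x) ≤ 2 := by
    intro ω hω x hx hx0
    rcases trichotomy hB hn hN hK hω hx hx0 with h | h | h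
    · exact Or.inl h
    · exact Or.inr h
    · right
      by_contra h3
      exact no_bt hB hn hN hK hH hω hx hx0 h (by omega)
  by_cases hF : ∃ ω1 ∈ Orb Q ω0, ∃ x1, Q x1 = 0 ∧ x1 ≠ 0 ∧ Full (stabilizer (OG Q) ω1) x1
  · obtain ⟨ω1, h1, x1, hx1, hx1', hf⟩ := hF
    have e1 : (Sg Q).card * 1 ≤ (Orb Q ω0).card * (q - 1) := by
      refine Finset.card_mul_le_card_mul (fun x' ω' => Full (stabilizer (OG Q) ω') x')
        (fun x' h => ?_) fun ω' h => ?_
      · obtain ⟨g, hg, rfl⟩ := witt1 hB hn hx1' (mem_Sg.1 h).2 (by rw [hx1, (mem_Sg.1 h).1])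
        exact card_pos.2 ⟨g • ω1, mem_filter.2 ⟨smul_mem_Orb h1 hg, (cj_stab g _).full hf⟩⟩
      · rcases ((Sg Q).bipartiteBelow (fun x' ω' => Full (stabilizer (OG Q) ω') x')
          ω').eq_empty_or_nonempty with h0 | ⟨x, hx⟩
        · rw [h0]; simp
        · obtain ⟨h2, h3⟩ := mem_filter.1 hx
          rw [mem_Sg] at h2
          rw [← card_line (F := F) h2.2, ← card_erase_of_mem (a := 0) (by simp)]
          refine card_le_card fun a ha => ?_
          obtain ⟨h4, h5⟩ := mem_filter.1 ha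
          rw [mem_Sg] at h4
          exact mem_erase.2 ⟨h4.2, mem_filter.2 ⟨mem_univ _, full_unique hB hn (not_le_stab hH h)
            (hs ω' h) h2.1 h4.1 h2.2 h3 h5⟩⟩
    have := Nat.le_of_mul_le_mul_right (hN.h8.trans (by simpa using e1)) (by omega : 0 < q - 1)
    omega
  push Not at hF
  by_cases hR : ∀ ω ∈ Orb Q ω0, ∀ x, Q x = 0 → x ≠ 0 → Rg (stabilizer (OG Q) ω) x
  · refine reg_false hB hn hR (fun x hx hx0 ω h1 ω' h2 => ?_) fun h => (hN.h4 h).1
    by_contra hc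
    have e1 := rg_card hB hx hx0 (hR ω h1 x hx hx0)
    have e2 := rg_card hB hx hx0 (hR ω' h2 x hx hx0)
    have e3 : ∀ ω ∈ Orb Q ω0, Qo Q x ω ⊆ Orb Q ω0 := fun ω h a ha => by
      obtain ⟨v, -, rfl⟩ := mem_Qo.1 ha
      exact smul_mem_Orb h (E_mem hB hn _ _)
    have e4 := card_le_card (union_subset (e3 ω h1) (e3 ω' h2))
    rw [card_union_of_disjoint (Qo_disj hx hc)] at e4
    have := hN.h10
    omega
  push Not at hR
  obtain ⟨ω1, h1, x1, hx1, hx1', hr⟩ := hR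
  obtain ⟨z, z', v, hz, hz', hzz, hv, h2, h3, h4, h5⟩ :=
    exists_nonsing_type hB hn (hF ω1 h1) (hs ω1 h1) hx1 hx1' hr
  refine not_all_small hB hn (fun x2 hx2 hx2' => (hs ω1 h1 x2 hx2 hx2').resolve_left fun h6 => ?_)
    hz hz' hzz hv h2 h3
  have hz0 : z ≠ 0 := by rintro rfl; simp at hzz
  obtain ⟨g, hg, e⟩ := witt1 hB hn hx2' hz0 (by rw [hz, hx2])
  have h7 := (cj_stab g _).rg h6
  rw [e] at h7
  have h8 := smul_mem_Orb h1 hg
  have e1 := (rg_card hB hz hz0 h7).trans (card_le_card ((Qo_subset_fib hB hn hz (ω := g • ω1)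
    (by simp [fib, self_mem_Yo])).trans (filter_subset _ _)))
  obtain ⟨t, ht, htz⟩ := exists_TT_of_not_full hB (hF ω1 h1 z hz hz0)
  have hQ : Q t ≠ 0 := by
    have := TT_le_DD ht
    rw [DD_eq_pair hz0 h4 h2 (not_mem_line hz hv)] at this
    obtain ⟨a, b, rfl⟩ := mem_pair.1 this
    have hb : b ≠ 0 := by
      rintro rfl
      exact htz (by simpa using Submodule.smul_mem _ a (Submodule.mem_span_singleton_self z))
    rw [Q_add, Q_smul, Q_smul, hz]
    simpa [DD_perp hz h2, hb] using hv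
  have e2 := one_class hB hn hz hz0 (TT_perp hz ht) htz ω1 ((card_Tp_le z ω1).trans
    (Nat.pow_le_pow_right Fintype.card_pos h4)) (j := 1)
    (by rw [one_mul]; exact card_Tp_le_fib hB hn hz hz0 ω1)
  have e3 := Nat.mul_le_mul (hN.cl1 z t hz hz0 (TT_perp hz ht) hQ) (one_le_mm ht)
  have e4 := Yo_add (x := z) h8 h1 fun h => by
    have h9 := rg_Yo hz h h7
    have h10 : (pb Q).orthogonal (F ∙ z) ≤ DD (stabilizer (OG Q) ω1) z := fun a ha =>
      TT_le_DD (h9.mem_TT (mem_orth_span.1 ha))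
    have := Submodule.finrank_mono h10
    have := finrank_orth hB (F ∙ z)
    rw [finrank_span_singleton hz0] at this
    omega
  have e5 := hN.h9
  obtain ⟨r, hr⟩ : ∃ r, q = r + 1 := ⟨q - 1, by omega⟩
  rw [hr] at e2 e5 e1 hq
  rw [Nat.add_sub_cancel] at e5
  rw [show (r + 1) ^ 2 - (r + 1) = (r + 1) * r by
    rw [sq, mul_add (r + 1), mul_one, Nat.add_sub_cancel]] at e2
  have e6 : c1 ≤ (Yo Q z ω1).card * r := by
    refine Nat.le_of_mul_le_mul_right (c := (r + 1) ^ 2) ?_ (by positivity)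
    calc c1 * (r + 1) ^ 2 ≤ 1 * (Cl Q z t).card * mm Q z ω1 t * (r + 1) ^ 2 := by
          rw [one_mul]; gcongr; simpa using e3
      _ ≤ _ := e2
      _ = _ := by ring
  have e7 : N * r ≤ (Orb Q ω0).card * r := by nlinarith
  have := Nat.le_of_mul_le_mul_right e7 (by omega)
  omega

omit hK in
theorem le_card_Orb : N ≤ (Orb Q ω0).card := by
  by_contra h
  exact main_false hB hn hN (not_le.1 h) hH

end Cfsg.Agent.H4
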