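import Cfsg.Agent.H4.OCnt

/-!
# Lower bounds for multiplicities
-/

set_option autoImplicit false
set_option linter.unusedSectionVars false
set_option linter.unusedSimpArgs false
set_option linter.unnecessarySeqFocus false

namespace Cfsg.Agent.H4

open Cfsg.Agent.H6 Module MulAction Finset

variable {F V : Type*} [Field F] [AddCommGroup V] [Module F V] {Q : QuadraticForm F V}
variable [Fintype F] [Fintype V] [FiniteDimensional F V] {X : Type*} [Fintype X]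
  [MulAction (OG Q) X]

theorem DD_Pg {x : V} (hx : Q x = 0) {g : OG Q} {c : F} (hg : Pg x g c) (ω : X) :
    DD (stabilizer (OG Q) (g • ω)) x = (DD (stabilizer (OG Q) ω) x).map (g.1 : V →ₗ[F] V) := by
  ext d
  rw [Submodule.mem_map_equiv, (cj_stab g ω).DD, hg.2.2, DD_smul _ hx hg.2.1,
    LinearEquiv.apply_symm_apply]

theorem finrank_DD_Yo {x : V} (hx : Q x = 0) {ω ω' : X} (h : ω' ∈ Yo Q x ω) :
    finrank F (DD (stabilizer (OG Q) ω') x) = finrank F (DD (stabilizer (OG Q) ω) x) := by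
  obtain ⟨g, c, hg, rfl⟩ := mem_Yo.1 h
  rw [DD_Pg hx hg, LinearEquiv.finrank_map_eq]

theorem ts_DD_Yo {x : V} (hx : Q x = 0) {ω ω' : X} (h : ω' ∈ Yo Q x ω)
    (ht : TotSing Q (DD (stabilizer (OG Q) ω) x)) : TotSing Q (DD (stabilizer (OG Q) ω') x) := by
  obtain ⟨g, c, hg, rfl⟩ := mem_Yo.1 h
  rw [DD_Pg hx hg]
  rintro _ ⟨d, hd, rfl⟩
  exact (OG_Q g d).trans (ht d hd)

theorem rg_Yo {x : V} (hx : Q x = 0) {ω ω' : X} (h : ω' ∈ Yo Q x ω)
    (ht : Rg (stabilizer (OG Q) ω) x) : Rg (stabilizer (OG Q) ω') x := by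
  obtain ⟨g, c, hg, rfl⟩ := mem_Yo.1 h
  have := ((cj_stab g ω).rg ht).smul (by rw [OG_Q, hx]) (inv_ne_zero hg.2.1)
  rwa [hg.2.2, smul_smul, inv_mul_cancel₀ hg.2.1, one_smul] at this

theorem two_mul_card_le {S T : AddSubgroup V} (h : S ≤ T) {a : V} (h1 : a ∈ T) (h2 : a ∉ S) :
    2 * Nat.card S ≤ Nat.card T := by
  obtain ⟨k, hk⟩ := AddSubgroup.card_dvd_of_le h
  have h0 : 0 < Nat.card T := Nat.card_pos
  have : k ≠ 1 := by
    rintro rfl
    exact h2 (by rwa [AddSubgroup.eq_of_le_of_card_ge h (by omega)])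
  have : k ≠ 0 := by rintro rfl; omega
  rw [hk, mul_comm]
  exact Nat.mul_le_mul_left _ (by omega)

theorem card_sub (U : Submodule F V) : Nat.card U.toAddSubgroup = Fintype.card F ^ finrank F U := by
  classical
  rw [← Module.card_eq_pow_finrank, ← Nat.card_eq_fintype_card]
  rfl

open Classical in
/-- types in the orbit of the group `E z v` -/
noncomputable def OO (Q : QuadraticForm F V) [MulAction (OG Q) X] (x s z : V) (ω : X) :
    Finset (AddSubgroup V) :=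
  (univ.filter fun v => pb Q v x = 0 ∧ pb Q v s = 0 ∧ pb Q v z = 0).image
    fun v => Tp Q x (E Q z v • ω)

variable (hB : (pb Q).Nondegenerate) (hn : 7 ≤ finrank F V)
include hB hn

theorem mem_Tp_E {x z v : V} (hx : Q x = 0) (hz : Q z = 0) (h1 : pb Q z x = 0) (h2 : pb Q v x = 0)
    (h3 : pb Q v z = 0) (ω : X) (t : V) :
    t ∈ Tp Q x ω ↔ (E Q z v).1 t ∈ Tp Q x (E Q z v • ω) := by
  simpa [twm_apply] using mem_Tp_smul hx (Pg.E hB hn hz (by rw [pb_comm, h3])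
    (by rw [pb_comm, h1]) (by rw [pb_comm, h2])) ω t

theorem E_inv_of_eq {x z v v' : V} (hx : Q x = 0) (hz : Q z = 0) (h1 : pb Q z x = 0)
    (h2 : pb Q v x = 0) (h3 : pb Q v z = 0) (h4 : pb Q v' x = 0) (h5 : pb Q v' z = 0) {ω : X}
    (h : Tp Q x (E Q z v • ω) = Tp Q x (E Q z v' • ω)) {t : V} (ht : t ∈ Tp Q x ω) :
    (E Q z (v - v')).1 t ∈ Tp Q x ω := by
  rw [mem_Tp_E hB hn hx hz h1 h4 h5, ← OG_mul_apply, ← E_add hz (by rw [pb_comm, h5])
    (by simp [pb_comm Q z, h3, h5]), add_sub_cancel, ← h, ← mem_Tp_E hB hn hx hz h1 h2 h3]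
  exact ht

open Classical in
theorem OO_subset {x s z : V} (hx : Q x = 0) (hz : Q z = 0) (h1 : pb Q z x = 0)
    (h2 : pb Q z s = 0) {ω : X} (hs : s ∈ Tp Q x ω) {T : AddSubgroup V} (h : T ∈ OO Q x s z ω) :
    (∃ ω' ∈ Yo Q x ω, T = Tp Q x ω') ∧ s ∈ T ∧ (z ∈ T ↔ z ∈ Tp Q x ω) := by
  obtain ⟨v, hv, rfl⟩ := mem_image.1 h
  obtain ⟨-, h3, h4, h5⟩ := mem_filter.1 hv
  have h6 : pb Q z v = 0 := by rw [pb_comm, h5]
  refine ⟨⟨_, smul_mem_Yo (self_mem_Yo x ω) (Pg.E hB hn hz h6 (by rw [pb_comm, h1])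
    (by rw [pb_comm, h3])), rfl⟩, ?_, ?_⟩
  · have := (mem_Tp_E hB hn hx hz h1 h3 h5 ω s).1 hs
    rwa [E_fix hz h6 (by rw [pb_comm, h2]) (by rw [pb_comm, h4])] at this
  · rw [mem_Tp_E hB hn hx hz h1 h3 h5 ω z, E_self hz h6]

theorem OO_le_mm {x s z : V} (hx : Q x = 0) (hz : Q z = 0) (h1 : pb Q z x = 0)
    (h2 : pb Q z s = 0) {ω : X} (hs : s ∈ Tp Q x ω) : (OO Q x s z ω).card ≤ mm Q x ω s := by
  classical
  refine card_le_card fun T hT => ?_
  obtain ⟨⟨ω', h3, rfl⟩, h4, -⟩ := OO_subset hB hn hx hz h1 h2 hs hT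
  exact mem_filter.2 ⟨mem_image_of_mem _ h3, h4⟩

theorem OO_bound {x s z t : V} (hx : Q x = 0) (hz : Q z = 0) (h1 : pb Q z x = 0) {ω : X}
    (ht : t ∈ Tp Q x ω) (htz : pb Q t z ≠ 0) :
    Fintype.card F ^ finrank F V ≤ Fintype.card F ^ 4 *
      Nat.card ↥(Tp Q x ω ⊓ ((pb Q).orthogonal (F ∙ z)).toAddSubgroup) * (OO Q x s z ω).card := by
  classical
  have e1 : (univ.filter fun v => pb Q v x = 0 ∧ pb Q v s = 0 ∧ pb Q v z = 0).card =
      Fintype.card F ^ finrank F ((pb Q).orthogonal (((F ∙ x) ⊔ F ∙ s) ⊔ F ∙ z)) := by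
    rw [← Module.card_eq_pow_finrank, Fintype.card_subtype]
    congr 1
    ext v
    rw [mem_filter, mem_filter, mem_orth_triple]
  have e2 := finrank_orth_triple hB x s z
  have e3 : (univ.filter fun v => pb Q v x = 0 ∧ pb Q v s = 0 ∧ pb Q v z = 0).card ≤
      (Fintype.card F * Nat.card ↥(Tp Q x ω ⊓ ((pb Q).orthogonal (F ∙ z)).toAddSubgroup)) *
        (OO Q x s z ω).card := by
    refine Finset.card_le_mul_card_image _ _ fun b hb => ?_
    obtain ⟨v, hv, rfl⟩ := mem_image.1 hb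
    rw [Nat.card_eq_fintype_card, Fintype.card_subtype, ← card_univ (α := F), ← card_product]
    refine card_le_card_of_injOn (fun a => (pb Q t (a - v) - pb Q t z * Q (a - v),
      pb Q t (a - v) • z - pb Q t z • ((a - v) + Q (a - v) • z))) (fun a ha => ?_)
      fun a _ b _ h => ?_
    · simp only [coe_filter, mem_filter, mem_univ, true_and, Set.mem_ofPred_eq, coe_product,
        Set.mem_prod, coe_univ, Set.mem_univ] at ha hv ⊢
      have h3 : pb Q z (a - v) = 0 := by simp [pb_comm Q z, ha.1.2.2, hv.2.2]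
      refine ⟨E_sub_mem hz h3 ht
        (E_inv_of_eq hB hn hx hz h1 ha.1.1 ha.1.2.2 hv.1 hv.2.2 ha.2 ht), ?_⟩
      change _ ∈ (pb Q).orthogonal (F ∙ z)
      rw [mem_orth_span, pb_comm]
      simp only [map_sub, map_add, map_smul, pb_sing hz, h3, smul_zero, add_zero, sub_zero]
    · simp only [Prod.mk.injEq] at h
      have : pb Q t z • (a - b) = 0 := by
        have e : pb Q t z • (a - b) = ((pb Q t (a - v) - pb Q t z * Q (a - v)) -
            (pb Q t (b - v) - pb Q t z * Q (b - v))) • z -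
            ((pb Q t (a - v) • z - pb Q t z • ((a - v) + Q (a - v) • z)) -
              (pb Q t (b - v) • z - pb Q t z • ((b - v) + Q (b - v) • z))) := by module
        rw [e, h.1, h.2]; simp
      simpa [htz, sub_eq_zero] using this
  calc _ ≤ Fintype.card F ^ (finrank F ((pb Q).orthogonal (((F ∙ x) ⊔ F ∙ s) ⊔ F ∙ z)) + 3) :=
        Nat.pow_le_pow_right Fintype.card_pos e2
    _ = Fintype.card F ^ 3 * _ := by rw [pow_add, mul_comm, ← e1]
    _ ≤ Fintype.card F ^ 3 * _ := Nat.mul_le_mul_left _ e3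
    _ = _ := by ring

omit hB hn in
theorem finrank_inf_lt {D : Submodule F V} {t z : V} (ht : t ∈ D) (htz : pb Q t z ≠ 0) :
    finrank F ↥(D ⊓ (pb Q).orthogonal (F ∙ z)) + 1 ≤ finrank F D :=
  Submodule.finrank_lt_finrank_of_lt (lt_of_le_of_ne inf_le_left fun h => htz (by
    rw [← h] at ht; exact mem_orth_span.1 ht.2))

theorem OO_bound' {x s z t : V} (hx : Q x = 0) (hz : Q z = 0) (h1 : pb Q z x = 0) {ω : X}
    (ht : t ∈ Tp Q x ω) (htz : pb Q t z ≠ 0) :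
    Fintype.card F ^ finrank F V ≤
      Fintype.card F ^ (finrank F (DD (stabilizer (OG Q) ω) x) + 3) * (OO Q x s z ω).card := by
  refine (OO_bound hB hn (s := s) hx hz h1 ht htz).trans (Nat.mul_le_mul_right _ ?_)
  have h2 := finrank_inf_lt (TT_le_DD ht) htz
  have h3 : Nat.card ↥(Tp Q x ω ⊓ ((pb Q).orthogonal (F ∙ z)).toAddSubgroup) ≤
      Nat.card (DD (stabilizer (OG Q) ω) x ⊓ (pb Q).orthogonal (F ∙ z)).toAddSubgroup :=
    AddSubgroup.card_le_of_le fun a ha => ⟨TT_le_DD ha.1, ha.2⟩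
  rw [card_sub] at h3
  refine (Nat.mul_le_mul_left _ h3).trans ?_
  rw [← pow_add]
  exact Nat.pow_le_pow_right Fintype.card_pos (by omega)

theorem mm_ge {x s : V} (hx : Q x = 0) {ω : X} (hs : s ∈ Tp Q x ω)
    (h3 : 3 ≤ finrank F (DD (stabilizer (OG Q) ω) x)) : Fintype.card F ^ finrank F V ≤
      Fintype.card F ^ (finrank F (DD (stabilizer (OG Q) ω) x) + 3) * mm Q x ω s := by
  obtain ⟨t, ht, h⟩ := exists_TT_not_mem hB (U := (F ∙ x) ⊔ F ∙ s)
    (lt_of_lt_of_le (Nat.lt_succ_of_le (finrank_pair_le x s)) h3)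
  obtain ⟨z, hz, h4, h5, h6⟩ := exists_sing2 hB hn h
  exact (OO_bound' hB hn (s := s) hx hz h4 ht h6).trans
    (Nat.mul_le_mul_left _ (OO_le_mm hB hn hx hz h4 h5 hs))

theorem mm_ge2 {x s : V} (hx : Q x = 0) {ω : X} (hs : s ∈ Tp Q x ω) {c : F}
    (hc : c • s ∉ Tp Q x ω) (h3 : 3 ≤ finrank F (DD (stabilizer (OG Q) ω) x)) :
    2 * Fintype.card F ^ finrank F V ≤
      Fintype.card F ^ (finrank F (DD (stabilizer (OG Q) ω) x) + 3) * mm Q x ω s := by
  obtain ⟨t, ht, h⟩ := exists_TT_not_mem hB (U := (F ∙ x) ⊔ F ∙ s)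
    (lt_of_lt_of_le (Nat.lt_succ_of_le (finrank_pair_le x s)) h3)
  obtain ⟨z, hz, h4, h5, h6⟩ := exists_sing2 hB hn h
  have h7 := OO_bound hB hn (s := s) hx hz h4 ht h6
  have h8 := OO_le_mm hB hn hx hz h4 h5 hs
  have h2 := finrank_inf_lt (TT_le_DD ht) h6
  have h9 : 2 * Nat.card ↥(Tp Q x ω ⊓ ((pb Q).orthogonal (F ∙ z)).toAddSubgroup) ≤
      Nat.card (DD (stabilizer (OG Q) ω) x ⊓ (pb Q).orthogonal (F ∙ z)).toAddSubgroup :=
    two_mul_card_le (a := c • s) (fun a ha => ⟨TT_le_DD ha.1, ha.2⟩)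
      ⟨Submodule.smul_mem _ _ (TT_le_DD hs), Submodule.smul_mem _ _
        (mem_orth_span.2 (by rw [pb_comm, h5]))⟩ fun h => hc h.1
  rw [card_sub] at h9
  calc _ ≤ 2 * _ := Nat.mul_le_mul_left _ h7
    _ = Fintype.card F ^ 4 * (2 * Nat.card ↥(Tp Q x ω ⊓
      ((pb Q).orthogonal (F ∙ z)).toAddSubgroup)) * (OO Q x s z ω).card := by ring
    _ ≤ Fintype.card F ^ 4 * Fintype.card F ^ finrank F
      ↥(DD (stabilizer (OG Q) ω) x ⊓ (pb Q).orthogonal (F ∙ z)) * mm Q x ω s := by gcongr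
    _ ≤ _ := by
      rw [← pow_add]
      exact Nat.mul_le_mul_right _ (Nat.pow_le_pow_right Fintype.card_pos (by omega))

theorem inv_of_mm_lt {x s z v : V} (hx : Q x = 0) {ω : X} (hs : s ∈ Tp Q x ω)
    (hm : mm Q x ω s < ringChar F) (hz : Q z = 0) (h1 : pb Q z x = 0) (h2 : pb Q z s = 0)
    (h3 : pb Q v x = 0) (h4 : pb Q v s = 0) (h5 : pb Q v z = 0) {t : V} (ht : t ∈ Tp Q x ω) :
    (E Q z v).1 t ∈ Tp Q x ω := by
  classical
  have hp : (ringChar F).Prime := CharP.char_is_prime F _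
  have key : ∀ i j : ℕ, i < j → j < ringChar F →
      Tp Q x (E Q z ((j : F) • v) • ω) = Tp Q x (E Q z ((i : F) • v) • ω) →
      (E Q z v).1 t ∈ Tp Q x ω := by
    intro i j hij hj h
    obtain ⟨d, rfl⟩ : ∃ d, j = i + d := ⟨j - i, by omega⟩
    have h6 : ∀ t ∈ Tp Q x ω, (E Q z ((d : F) • v)).1 t ∈ Tp Q x ω := fun t ht => by
      have := E_inv_of_eq hB hn hx hz h1 (by simp [h3]) (by simp [h5]) (by simp [h3])
        (by simp [h5]) h ht
      rwa [← sub_smul, Nat.cast_add, add_sub_cancel_left] at this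
    have h7 : ∀ k : ℕ, (E Q z (((k * d : ℕ) : F) • v)).1 t ∈ Tp Q x ω := by
      intro k
      induction k with
      | zero => simpa [E_zero] using ht
      | succ k ih =>
        rw [add_mul, one_mul, add_comm, Nat.cast_add, add_smul,
          E_add hz (by simp [pb_comm Q z v, h5]) (by simp [pb_comm Q z v, h5])]
        exact h6 _ ih
    obtain ⟨k, -, hk⟩ := Nat.exists_mul_mod_eq_one_of_coprime
      (Nat.coprime_of_lt_prime (by omega : d ≠ 0) (by omega : d < ringChar F) hp).symm hp.one_lt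
    have := h7 k
    rwa [mul_comm, ← Nat.div_add_mod (d * k) (ringChar F), hk, Nat.cast_add, Nat.cast_mul,
      ringChar.Nat.cast_ringChar, zero_mul, zero_add, Nat.cast_one, one_smul] at this
  obtain ⟨i, hi, j, hj, hij, e⟩ := Finset.exists_ne_map_eq_of_card_lt_of_maps_to
    (s := range (ringChar F)) (t := OO Q x s z ω)
    (by rw [card_range]; exact (OO_le_mm hB hn hx hz h1 h2 hs).trans_lt hm)
    (f := fun j : ℕ => Tp Q x (E Q z ((j : F) • v) • ω))
    (fun j _ => mem_coe.2 (mem_image_of_mem _ (by simp [h3, h4, h5])))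
  rcases lt_or_gt_of_ne hij with h | h
  · exact key i j h (mem_range.1 hj) e.symm
  · exact key j i h (mem_range.1 hi) e

theorem small_or_rg {x s : V} (hx : Q x = 0) (hx0 : x ≠ 0) {ω : X} (hs : s ∈ Tp Q x ω)
    (hsx : s ∉ F ∙ x) (hm : mm Q x ω s < ringChar F) :
    Rg (stabilizer (OG Q) ω) x ∨ finrank F (DD (stabilizer (OG Q) ω) x) ≤ 2 := by
  by_cases h3 : finrank F (DD (stabilizer (OG Q) ω) x) ≤ 2
  · exact Or.inr h3
  left
  have key : ∀ s ∈ Tp Q x ω, mm Q x ω s < ringChar F →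
      ∀ w, pb Q w x = 0 → pb Q w s = 0 → w ∈ Tp Q x ω := by
    intro s hs hm
    obtain ⟨t, ht, h⟩ := exists_TT_not_mem hB (H := stabilizer (OG Q) ω) (x := x)
      (U := (F ∙ x) ⊔ F ∙ s) (by have := finrank_pair_le (F := F) x s; omega)
    exact inv_perp hB hn ht h fun z v t hz h1 h2 h3 h4 h5 ht =>
      inv_of_mm_lt hB hn hx hs hm hz h1 h2 h3 h4 h5 ht
  obtain ⟨e, f, h1, h2, h4, h5, h6, h7, h8⟩ := exists_hyp2 hB hn x s
  have h9 : e + Q s • f ∈ Tp Q x ω := key s hs hm _ (by simp [h5, h7]) (by simp [h6, h8])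
  have h10 : pb Q x (e + Q s • f) = 0 := by simp [pb_comm Q x, h5, h7]
  have h11 : pb Q f (e + Q s • f) = 1 := by simp [pb_comm Q f e, h4, pb_sing h2]
  have h12 := key _ h9 ((mm_le_of_Cl hB hn hx hx0 h10 (fun h => by
    obtain ⟨c, hc⟩ := Submodule.mem_span_singleton.1 h
    rw [← hc] at h11
    simp [h7] at h11) (mem_Cl.2 ⟨TT_perp hx hs, hsx, 1, one_ne_zero, by
      rw [Q_hyp h1 h2 h4]; ring⟩) ω).trans_lt hm)
  refine rg_of_TT hB fun w hw => ?_
  have := add_mem (h12 (w - pb Q w (e + Q s • f) • f) (by simp [hw, h7])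
    (by rw [map_sub, map_smul, LinearMap.sub_apply, LinearMap.smul_apply, h11]; simp))
    (key s hs hm (pb Q w (e + Q s • f) • f) (by simp [h7]) (by simp [h8]))
  rwa [sub_add_cancel] at this

theorem mm_BT {x s : V} (hx : Q x = 0) {ω : X} (hs : s ∈ Tp Q x ω)
    (hT : TotSing Q (DD (stabilizer (OG Q) ω) x))
    (h3 : 3 ≤ finrank F (DD (stabilizer (OG Q) ω) x))
    (h4 : finrank F (DD (stabilizer (OG Q) ω) x) + 4 = finrank F V)
    (hsub : ∀ ω' ∈ Yo Q x ω, ∀ d ∈ DD (stabilizer (OG Q) ω') x, d ∈ Tp Q x ω') :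
    Fintype.card F + 1 ≤ mm Q x ω s := by
  classical
  have hq : 1 < Fintype.card F := Fintype.one_lt_card
  have key : ∀ ω' ∈ Yo Q x ω, ∀ z t, Q z = 0 → pb Q z x = 0 → t ∈ Tp Q x ω' → pb Q t z ≠ 0 →
      Fintype.card F ≤ (OO Q x s z ω').card := by
    intro ω' h z t hz h1 ht htz
    have := OO_bound' hB hn (s := s) hx hz h1 ht htz
    rw [finrank_DD_Yo hx h, ← h4, pow_succ] at this
    exact Nat.le_of_mul_le_mul_left this (by positivity)
  obtain ⟨t, ht, h⟩ := exists_TT_not_mem hB (U := (F ∙ x) ⊔ F ∙ s)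
    (lt_of_lt_of_le (Nat.lt_succ_of_le (finrank_pair_le x s)) h3)
  obtain ⟨z, hz, h5, h6, h7⟩ := exists_sing2 hB hn h
  obtain ⟨T', hT', hne⟩ := Finset.exists_mem_ne
    (hq.trans_le (key ω (self_mem_Yo x ω) z t hz h5 ht h7)) (Tp Q x ω)
  obtain ⟨⟨ω', h8, rfl⟩, h9, -⟩ := OO_subset hB hn hx hz h5 h6 hs hT'
  obtain ⟨z', h10, h11⟩ : ∃ z' ∈ Tp Q x ω, z' ∉ Tp Q x ω' := by
    by_contra hc
    push Not at hc
    exact hne (AddSubgroup.eq_of_le_of_card_ge hc (card_Tp hx h8).le).symm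
  have hz' : Q z' = 0 := hT _ (TT_le_DD h10)
  have h12 : pb Q z' x = 0 := by rw [pb_comm]; exact TT_perp hx h10
  have h13 : pb Q z' s = 0 := hT.pb_eq (TT_le_DD h10) (TT_le_DD hs)
  obtain ⟨t', h14, h15⟩ : ∃ t' ∈ Tp Q x ω', pb Q t' z' ≠ 0 := by
    by_contra hc
    push Not at hc
    have hT' := ts_DD_Yo hx h8 hT
    have hT2 : TotSing Q (DD (stabilizer (OG Q) ω') x ⊔ F ∙ z') := by
      intro w hw
      obtain ⟨u, hu, v, hv, rfl⟩ := Submodule.mem_sup.1 hw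
      obtain ⟨c, rfl⟩ := Submodule.mem_span_singleton.1 hv
      rw [Q_add, Q_smul, hz', hT' u hu]
      simp [hc u (hsub ω' h8 u hu)]
    have := hT2.two_mul_finrank_le hB
    have h16 := hT.two_mul_finrank_le hB
    rw [Submodule.finrank_sup_span_singleton (fun h => h11 (hsub ω' h8 _ h)),
      finrank_DD_Yo hx h8] at this
    omega
  refine (Nat.add_le_add_right (key ω' h8 z' t' hz' h12 h14 h15) 1).trans ?_
  rw [← card_insert_of_notMem (a := Tp Q x ω) fun h =>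
    h11 ((OO_subset hB hn hx hz' h12 h13 h9 h).2.2.1 h10)]
  refine card_le_card fun T hT => ?_
  rcases mem_insert.1 hT with rfl | hT
  · exact mem_filter.2 ⟨mem_image_of_mem _ (self_mem_Yo x ω), hs⟩
  · obtain ⟨⟨ω'', h16, rfl⟩, h17, -⟩ := OO_subset hB hn hx hz' h12 h13 h9 hT
    exact mem_filter.2 ⟨mem_image_of_mem _ (by rwa [← Yo_eq h8]), h17⟩

end Cfsg.Agent.H4
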