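import Cfsg.Agent.H4.OMult

/-!
# No action with all radicals regular
-/

set_option autoImplicit false
set_option linter.unusedSectionVars false
set_option linter.unusedSimpArgs false
set_option linter.unnecessarySeqFocus false

namespace Cfsg.Agent.H4

open Cfsg.Agent.H6 Module MulAction Finset

variable {F V : Type*} [Field F] [AddCommGroup V] [Module F V] {Q : QuadraticForm F V}
variable [Fintype F] [Fintype V] [FiniteDimensional F V] {X : Type*} [Fintype X]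
  [MulAction (OG Q) X]

theorem E_red {x y v : V} (hx : Q x = 0) (hxy : pb Q x y = 1) (hv : pb Q x v = 0) :
    ∃ v', pb Q v' x = 0 ∧ pb Q v' y = 0 ∧ E Q x v = E Q x v' := by
  refine ⟨v + (-pb Q v y) • x, by simp [pb_comm Q v x, hv, pb_sing hx], by simp [hxy], ?_⟩
  rw [E_add hx hv (by simp [pb_sing hx]), E_line hx, mul_one]

theorem nd_sup {U : Submodule F V} (hU : ∀ u ∈ U, u ∈ (pb Q).orthogonal U → u = 0) {e f : V}
    (he : e ∈ (pb Q).orthogonal U) (hf : f ∈ (pb Q).orthogonal U) (h1 : pb Q e e = 0)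
    (h2 : pb Q f f = 0) (h3 : pb Q e f = 1) :
    ∀ u ∈ U ⊔ ((F ∙ e) ⊔ F ∙ f), u ∈ (pb Q).orthogonal (U ⊔ ((F ∙ e) ⊔ F ∙ f)) → u = 0 := by
  intro w hw hw'
  obtain ⟨u, hu, v, hv, rfl⟩ := Submodule.mem_sup.1 hw
  obtain ⟨a, b, rfl⟩ := mem_pair.1 hv
  rw [orth_sup, Submodule.mem_inf, mem_orth_pair] at hw'
  obtain ⟨h4, h5, h6⟩ := hw'
  have e1 : pb Q u e = 0 := he u hu
  have e2 : pb Q u f = 0 := hf u hu
  simp [e1, e2, h1, h2, h3, pb_comm Q f e] at h5 h6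
  subst h5 h6
  simpa using hU u hu (by simpa using h4)

theorem finrank_sup_pair_le (U : Submodule F V) (e f : V) :
    finrank F ↥(U ⊔ ((F ∙ e) ⊔ F ∙ f)) ≤ finrank F U + 2 := by
  have := Submodule.finrank_add_le_finrank_add_finrank U ((F ∙ e) ⊔ F ∙ f)
  have := finrank_pair_le (F := F) e f
  omega

variable (hB : (pb Q).Nondegenerate) (hn : 7 ≤ finrank F V)
include hB

theorem exists_mvS_eq (S : Submodule F V) (hS : ∀ S' < S, ∃ v ∈ S, v ∉ S' ∧ Q v ≠ 0) :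
    ∃ β : OG Q, mvS β = S := by
  have key : ∀ k ≤ finrank F S, ∃ β : OG Q, mvS β ≤ S ∧ finrank F (mvS β) = k := by
    intro k
    induction k with
    | zero => exact fun _ => ⟨1, by rw [mvS_one]; exact bot_le, by rw [mvS_one, finrank_bot]⟩
    | succ k ih =>
      intro hk
      obtain ⟨β, h1, h2⟩ := ih (by omega)
      obtain ⟨v, h3, h4, h5⟩ := hS _ (lt_of_le_of_ne h1 fun h => by rw [h] at h2; omega)
      refine ⟨β * refl Q v, ?_, ?_⟩
      · rw [mvS_mul_refl_of_notMem hB β h5 h4]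
        exact sup_le h1 ((Submodule.span_singleton_le_iff_mem _ _).2 h3)
      · rw [mvS_mul_refl_of_notMem hB β h5 h4, Submodule.finrank_sup_span_singleton h4, h2]
  obtain ⟨β, h1, h2⟩ := key _ le_rfl
  exact ⟨β, Submodule.eq_of_le_of_finrank_eq h1 h2⟩

include hn

theorem exists_frame : ∃ x y e1 f1 e2 f2 r r' : V, (Q x = 0 ∧ Q y = 0 ∧ pb Q x y = 1) ∧
    (Q e1 = 0 ∧ Q f1 = 0 ∧ pb Q e1 f1 = 1) ∧ (Q e2 = 0 ∧ Q f2 = 0 ∧ pb Q e2 f2 = 1) ∧
    (pb Q e1 x = 0 ∧ pb Q e1 y = 0 ∧ pb Q f1 x = 0 ∧ pb Q f1 y = 0) ∧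
    (pb Q e2 x = 0 ∧ pb Q e2 y = 0 ∧ pb Q f2 x = 0 ∧ pb Q f2 y = 0) ∧
    (pb Q e2 e1 = 0 ∧ pb Q e2 f1 = 0 ∧ pb Q f2 e1 = 0 ∧ pb Q f2 f1 = 0) ∧ Q r ≠ 0 ∧ pb Q r r' = 1 ∧
    (pb Q r x = 0 ∧ pb Q r y = 0 ∧ pb Q r e1 = 0 ∧ pb Q r f1 = 0 ∧ pb Q r e2 = 0 ∧ pb Q r f2 = 0) ∧
    (pb Q r' x = 0 ∧ pb Q r' y = 0 ∧ pb Q r' e1 = 0 ∧ pb Q r' f1 = 0 ∧ pb Q r' e2 = 0 ∧
      pb Q r' f2 = 0) := by
  obtain ⟨x, y, hx, hy, hxy, -⟩ := exists_hyp2 hB hn 0 0
  obtain ⟨e1, f1, h1, h2, h3, h4, h5, h6, h7⟩ := exists_hyp2 hB hn x y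
  have n0 : ∀ u ∈ (⊥ : Submodule F V), u ∈ (pb Q).orthogonal ⊥ → u = 0 := fun u hu _ => by
    simpa using hu
  have n1 := nd_sup n0 (e := x) (f := y) (by simp) (by simp) (pb_sing hx) (pb_sing hy) hxy
  have d1 := finrank_sup_pair_le (⊥ : Submodule F V) x y
  rw [finrank_bot, bot_sup_eq] at d1
  rw [bot_sup_eq] at n1
  have n2 := nd_sup n1 (mem_orth_pair.2 ⟨h4, h5⟩) (mem_orth_pair.2 ⟨h6, h7⟩) (pb_sing h1)
    (pb_sing h2) h3
  have d2 := finrank_sup_pair_le ((F ∙ x) ⊔ F ∙ y) e1 f1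
  obtain ⟨e2, he2, f2, hf2, g1, g2, g3⟩ := exists_hyp hB (((F ∙ x) ⊔ F ∙ y) ⊔ ((F ∙ e1) ⊔ F ∙ f1))
    (by
      have : (((F ∙ x) ⊔ F ∙ y) ⊔ ((F ∙ e1) ⊔ F ∙ f1)) ⊓
          (pb Q).orthogonal (((F ∙ x) ⊔ F ∙ y) ⊔ ((F ∙ e1) ⊔ F ∙ f1)) = ⊥ :=
        (Submodule.eq_bot_iff _).2 fun u hu => n2 u hu.1 hu.2
      rw [this, finrank_bot]; omega)
  have n3 := nd_sup n2 he2 hf2 (pb_sing g1) (pb_sing g2) g3
  have d3 := finrank_sup_pair_le (((F ∙ x) ⊔ F ∙ y) ⊔ ((F ∙ e1) ⊔ F ∙ f1)) e2 f2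
  have d4 := finrank_orth hB ((((F ∙ x) ⊔ F ∙ y) ⊔ ((F ∙ e1) ⊔ F ∙ f1)) ⊔ ((F ∙ e2) ⊔ F ∙ f2))
  set U := (((F ∙ x) ⊔ F ∙ y) ⊔ ((F ∙ e1) ⊔ F ∙ f1)) ⊔ ((F ∙ e2) ⊔ F ∙ f2) with hU
  obtain ⟨r, hr, hr'⟩ : ∃ r ∈ (pb Q).orthogonal U, Q r ≠ 0 := by
    by_contra hc
    push Not at hc
    obtain ⟨a, ha, ha'⟩ := exists_mem_not_mem (S := ⊥) (T := (pb Q).orthogonal U)
      (by rw [finrank_bot]; omega)
    have := TotSing.le_orth hc ha
    rw [orth_orth hB] at this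
    exact ha' (by simpa using n3 a this ha)
  obtain ⟨s, hs, hs'⟩ := exists_orth_ne hB (U := U) (t := r) fun h => hr' (by simp [n3 r h hr])
  have hs2 := Submodule.smul_mem _ (pb Q r s)⁻¹ hs
  simp only [hU, orth_sup, Submodule.mem_inf, mem_orth_span] at hr hs2 he2 hf2
  exact ⟨x, y, e1, f1, e2, f2, r, (pb Q r s)⁻¹ • s, ⟨hx, hy, hxy⟩, ⟨h1, h2, h3⟩, ⟨g1, g2, g3⟩,
    ⟨h4, h5, h6, h7⟩, ⟨he2.1.1, he2.1.2, hf2.1.1, hf2.1.2⟩, ⟨he2.2.1, he2.2.2, hf2.2.1, hf2.2.2⟩,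
    hr', by simp [hs'], ⟨hr.1.1.1, hr.1.1.2, hr.1.2.1, hr.1.2.2, hr.2.1, hr.2.2⟩,
    ⟨hs2.1.1.1, hs2.1.1.2, hs2.1.2.1, hs2.1.2.2, hs2.2.1, hs2.2.2⟩⟩

variable {ω0 : X} (hR : ∀ ω ∈ Orb Q ω0, ∀ x, Q x = 0 → x ≠ 0 → Rg (stabilizer (OG Q) ω) x)
  (hT : ∀ x, Q x = 0 → x ≠ 0 → ∀ ω ∈ Orb Q ω0, ∀ ω' ∈ Orb Q ω0, ω' ∈ Qo Q x ω)
include hR hT

theorem unique_fix {x y : V} (hx : Q x = 0) (hxy : pb Q x y = 1) {g : OG Q}
    (hg : g ∈ commutator (OG Q)) {l : F} (hl : l ≠ 0) (h1 : g.1 x = l • x) (h2 : g.1 y = l⁻¹ • y)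
    (h3 : ∀ v, pb Q v x = 0 → pb Q v y = 0 → l • g.1 v = v → v = 0) :
    ∃ ω ∈ Orb Q ω0, g • ω = ω ∧ ∀ ω' ∈ Orb Q ω0, g • ω' = ω' → ω' = ω := by
  have hx0 : x ≠ 0 := by rintro rfl; simp at hxy
  have p1 : ∀ v, pb Q (l • g.1 v) x = pb Q v x := fun v => by
    rw [← OG_pb g v x, h1]; simp
  have p2 : ∀ v, pb Q v y = 0 → pb Q (l • g.1 v) y = 0 := fun v hv => by
    rw [← OG_pb g v y, h2] at hv
    simpa [hl] using hv
  have p3 : ∀ v (ω : X), pb Q v x = 0 → g • E Q x v • ω = E Q x (l • g.1 v) • g • ω := by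
    intro v ω hv
    rw [← E_smul hx (by rw [pb_comm]; simpa [hl, hv] using p1 v), ← h1, ← E_conj]
    simp [mul_smul]
  let W := (pb Q).orthogonal ((F ∙ x) ⊔ F ∙ y)
  let φ : W →ₗ[F] W := (LinearMap.id - l • (g.1 : V →ₗ[F] V)).restrict fun v hv => by
    rw [mem_orth_pair] at hv ⊢
    have := p1 v
    have := p2 v hv.2
    simp_all
  have hφ : Function.Injective φ := by
    rw [injective_iff_map_eq_zero]
    intro v hv
    have h4 := mem_orth_pair.1 v.2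
    exact Subtype.ext (h3 v h4.1 h4.2 (sub_eq_zero.1 (congrArg Subtype.val hv)).symm)
  obtain ⟨u, hu, e⟩ := mem_Qo.1 (hT x hx hx0 ω0 (self_mem_Orb _) _
    (smul_mem_Orb (self_mem_Orb _) hg))
  obtain ⟨u', h4, h5, h6⟩ := E_red hx hxy hu
  obtain ⟨v, hv⟩ := (LinearMap.injective_iff_surjective.1 hφ) ⟨u', mem_orth_pair.2 ⟨h4, h5⟩⟩
  have h7 := mem_orth_pair.1 v.2
  have h8 : v.1 - l • g.1 v = u' := congrArg Subtype.val hv
  refine ⟨E Q x v • ω0, smul_mem_Orb (self_mem_Orb _) (E_mem hB hn _ _), ?_, fun ω' h9 h10 => ?_⟩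
  · rw [p3 _ _ h7.1, ← e, h6, ← mul_smul, ← E_add hx (by rw [pb_comm, p1, h7.1])
      (by rw [pb_comm, h4]), ← h8, add_sub_cancel]
  · have h11 : g • E Q x v • ω0 = E Q x v • ω0 := by
      rw [p3 _ _ h7.1, ← e, h6, ← mul_smul, ← E_add hx (by rw [pb_comm, p1, h7.1])
        (by rw [pb_comm, h4]), ← h8, add_sub_cancel]
    have h12 := smul_mem_Orb (self_mem_Orb ω0) (E_mem hB hn x v)
    generalize E Q x v • ω0 = ω at h11 h12
    obtain ⟨w, hw, rfl⟩ := mem_Qo.1 (hT x hx hx0 ω h12 _ h9)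
    obtain ⟨w', g1, g2, g3⟩ := E_red hx hxy hw
    rw [g3] at h10 ⊢
    rw [p3 _ _ g1, h11] at h10
    have g4 : pb Q x (l • g.1 w') = 0 := by rw [pb_comm, p1, g1]
    have g5 : pb Q x w' = 0 := by rw [pb_comm, g1]
    obtain ⟨c, hc⟩ := Submodule.mem_span_singleton.1 (hR ω h12 x hx hx0 (-w' + l • g.1 w')
      ⟨by rw [map_add, map_neg, g4, g5]; simp, by
        rw [mem_stabilizer_iff, E_add hx (by simp [g5]) g4, mul_smul, h10, E_neg hx g5,
          inv_smul_smul]⟩)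
    have g6 := congrArg (fun a => pb Q a y) hc
    simp only [map_add, map_neg, LinearMap.add_apply, LinearMap.neg_apply, p2 _ g2, g2] at g6
    have : c = 0 := by simpa [hxy] using g6
    rw [this, zero_smul] at hc
    rw [h3 w' g1 g2 (neg_add_eq_zero.1 hc.symm).symm, E_zero, one_smul]

theorem no_comm {x y : V} (hx : Q x = 0) (hxy : pb Q x y = 1) {g : OG Q}
    (hg : g ∈ commutator (OG Q)) {l : F} (hl : l ≠ 0) (h1 : g.1 x = l • x) (h2 : g.1 y = l⁻¹ • y)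
    (h3 : ∀ v, pb Q v x = 0 → pb Q v y = 0 → l • g.1 v = v → v = 0) {e v : V} (he : Q e = 0)
    (he0 : e ≠ 0) (hev : pb Q e v = 0) (hv : v ∉ F ∙ e) (h4 : g.1 e = e) (h5 : g.1 v = v) :
    False := by
  obtain ⟨ω, h6, h7, h8⟩ := unique_fix hB hn hR hT hx hxy hg hl h1 h2 h3
  have := E_conj g e v
  rw [h4, h5, mul_inv_eq_iff_eq_mul] at this
  exact hv (hR ω h6 e he he0 v ⟨hev, h8 _ (smul_mem_Orb h6 (E_mem hB hn _ _))
    (by rw [← mul_smul, this, mul_smul, h7])⟩)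

theorem reg_four (hq : 4 ≤ Fintype.card F) : False := by
  classical
  obtain ⟨x, y, e1, f1, e2, f2, r, r', ⟨hx, hy, hxy⟩, ⟨a1, a2, a3⟩, ⟨b1, b2, b3⟩,
    ⟨c1, c2, c3, c4⟩, ⟨d1, d2, d3, d4⟩, ⟨g1, g2, g3, g4⟩, -⟩ := exists_frame hB hn
  obtain ⟨μ, -, hμ⟩ := Finset.exists_mem_notMem_of_card_lt_card (s := {0, 1, -1})
    (t := (univ : Finset F)) (lt_of_le_of_lt card_le_three (by rw [card_univ]; omega))
  simp only [mem_insert, mem_singleton, not_or] at hμ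
  have hc : μ * μ ≠ 0 := mul_ne_zero hμ.1 hμ.1
  have hc1 : μ * μ ≠ 1 := by rw [Ne, mul_self_eq_one_iff]; tauto
  refine no_comm hB hn hR hT hx hxy (tor_mem hB hx hy hxy hc ⟨μ, rfl⟩) (inv_ne_zero hc) ?_ ?_ ?_
    a1 (by rintro rfl; simp at a3) (v := e2) (by rw [pb_comm, g1]) (fun h => ?_) ?_ ?_
  · rw [tor_apply hx hy hxy hc, hxy, pb_sing hx]; module
  · rw [tor_apply hx hy hxy hc, pb_comm Q y x, hxy, pb_sing hy, inv_inv]; module
  · intro v h1 h2 h3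
    rw [tor_apply hx hy hxy hc, h1, h2] at h3
    have : ((μ * μ)⁻¹ - 1) • v = 0 := by rw [sub_smul, one_smul, sub_eq_zero]; simpa using h3
    exact (smul_eq_zero.1 this).resolve_left (sub_ne_zero.2 (by rwa [Ne, inv_eq_one]))
  · obtain ⟨c, rfl⟩ := Submodule.mem_span_singleton.1 h
    simp [pb_comm Q e1 f2, g3] at b3
  · rw [tor_apply hx hy hxy hc, c1, c2]; simp
  · rw [tor_apply hx hy hxy hc, d1, d2]; simp

theorem reg_three (hq : Fintype.card F = 3) : False := by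
  classical
  have h3 : (3 : F) = 0 := by
    have := FiniteField.cast_card_eq_zero F
    rw [hq] at this
    exact_mod_cast this
  obtain ⟨x, y, e1, f1, e2, f2, r, r', ⟨hx, hy, hxy⟩, ⟨a1, a2, a3⟩, ⟨b1, b2, b3⟩,
    ⟨c1, c2, c3, c4⟩, ⟨d1, d2, d3, d4⟩, ⟨g1, g2, g3, g4⟩, hr, -,
    ⟨r1, r2, r3, r4, r5, r6⟩, -⟩ := exists_frame hB hn
  have hm : (-1 : F) ≠ 0 := neg_ne_zero.2 one_ne_zero
  have key : ∀ a b : V, Q a = -1 → Q b = 1 → pb Q a b ≠ 0 → pb Q x a = 0 → pb Q y a = 0 →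
      pb Q x b = 0 → pb Q y b = 0 → pb Q e2 a = 0 → pb Q e2 b = 0 →
      pb Q (e1 - Q r • f1) a = 0 → pb Q (e1 - Q r • f1) b = 0 → False := by
    intro a b ha hb hab k1 k2 k3 k4 k5 k6 k7 k8
    have q1 : Q (x + y) = 1 := by rw [Q_add, hx, hy]; simp [hxy]
    have q2 : Q ((-1 : F) • x + y) = -1 := by rw [Q_add, Q_smul, hx, hy]; simp [hxy]
    have hfix : ∀ w, pb Q w a = 0 → pb Q w b = 0 → (refl Q a * refl Q b).1 w = w := fun w h1 h2 => by
      rw [OG_mul_apply, refl_of_orth h2, refl_of_orth h1]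
    refine no_comm hB hn hR hT hx hxy (g := tor Q x y (-1) * (refl Q a * refl Q b)) ?_ hm ?_ ?_ ?_
      b1 (by rintro rfl; simp at b3) (v := e1 - Q r • f1) (by simp [g1, g2]) (fun h => ?_) ?_ ?_
    · have m1 := refl_mul_refl_mem hB (u := (-1 : F) • x + y) (v := a) (by rwa [q2])
        (by rwa [ha]) (by rw [q2, ha]; exact ⟨_, rfl⟩)
      have m2 := refl_mul_refl_mem hB (u := x + y) (v := b) (by rw [q1]; exact one_ne_zero)
        (by rw [hb]; exact one_ne_zero) (by rw [q1, hb]; exact ⟨_, rfl⟩)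
      have := mul_mem ((inferInstance : (commutator (OG Q)).Normal).conj_mem _ m1
        (refl Q (x + y))) m2
      simpa only [tor, mul_assoc, inv_mul_cancel_left] using this
    · rw [OG_mul_apply, hfix x k1 k3, tor_apply hx hy hxy hm, hxy, pb_sing hx, inv_neg_one]; module
    · rw [OG_mul_apply, hfix y k2 k4, tor_apply hx hy hxy hm, pb_comm Q y x, hxy, pb_sing hy,
        inv_neg_one]; module
    · intro v h1 h2 h4
      rw [OG_mul_apply, tor_apply hx hy hxy hm, OG_mul_apply, refl_apply, refl_apply, ha, hb] at h4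
      simp only [map_sub, map_smul, LinearMap.sub_apply, LinearMap.smul_apply, h1, h2,
        pb_comm Q a x, pb_comm Q a y, pb_comm Q b x, pb_comm Q b y, k1, k2, k3, k4, smul_eq_mul,
        mul_zero, sub_zero, zero_smul, add_zero, div_one, pb_comm Q b a] at h4
      have h5 := congrArg (fun w => pb Q w a) h4
      have h6 := congrArg (fun w => pb Q w b) h4
      simp only [map_sub, map_smul, LinearMap.sub_apply, LinearMap.smul_apply, smul_eq_mul,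
        pb_self, ha, hb, pb_comm Q b a, div_neg, div_one] at h5 h6
      have h7 : pb Q v b = 0 := by
        have : pb Q v b * pb Q a b = 0 := by linear_combination -h5
        exact (mul_eq_zero.1 this).resolve_right hab
      have h8 : pb Q v a = 0 := by
        have : pb Q v a * pb Q a b = 0 := by rw [h7] at h6; linear_combination -h6
        exact (mul_eq_zero.1 this).resolve_right hab
      rw [h7, h8] at h4
      have h9 : (2 : F) • v = 0 := by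
        rw [two_smul]; nth_rewrite 1 [← h4]; simp
      exact (smul_eq_zero.1 h9).resolve_left fun h => one_ne_zero (by linear_combination h3 - h)
    · obtain ⟨c, hc⟩ := Submodule.mem_span_singleton.1 h
      have := congrArg (fun w => pb Q w f1) hc
      simp [g2, a3, pb_sing a2] at this
    · rw [OG_mul_apply, hfix _ k5 k6, tor_apply hx hy hxy hm, d1, d2]; simp
    · rw [OG_mul_apply, hfix _ k7 k8, tor_apply hx hy hxy hm]; simp [c1, c2, c3, c4]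
  have q1 : Q (e1 + Q r • f1) = Q r := Q_hyp a1 a2 a3 _
  have q2 : pb Q (e1 + Q r • f1) r = 0 := by simp [pb_comm Q _ r, r3, r4]
  have q3 : Q (e1 + Q r • f1 + r) = -Q r := by
    rw [Q_add, q1, q2]; linear_combination Q r * h3
  have q4 : pb Q (e1 + Q r • f1) (e1 + Q r • f1 + r) ≠ 0 := by
    rw [map_add, q2, pb_self, q1, add_zero]
    exact mul_ne_zero (fun h => one_ne_zero (by linear_combination h3 - h)) hr
  have q5 : pb Q (e1 - Q r • f1) (e1 + Q r • f1) = 0 := by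
    simp [pb_sing a1, pb_sing a2, a3, pb_comm Q f1 e1]
  have q6 : pb Q (e1 - Q r • f1) (e1 + Q r • f1 + r) = 0 := by
    rw [map_add, q5]; simp [pb_comm Q _ r, r3, r4]
  have := FiniteField.pow_card_sub_one_eq_one _ hr
  rw [hq, show 3 - 1 = 2 from rfl, sq, mul_self_eq_one_iff] at this
  rcases this with h | h
  · exact key _ _ (by rw [q3, h]) (by rw [q1, h]) (by rwa [pb_comm])
      (by simp [pb_comm Q x, c1, c3, r1]) (by simp [pb_comm Q y, c2, c4, r2])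
      (by simp [pb_comm Q x, c1, c3]) (by simp [pb_comm Q y, c2, c4])
      (by simp [g1, g2, pb_comm Q e2 r, r5]) (by simp [g1, g2]) q6 q5
  · exact key _ _ (by rw [q1, h]) (by rw [q3, h, neg_neg]) q4
      (by simp [pb_comm Q x, c1, c3]) (by simp [pb_comm Q y, c2, c4])
      (by simp [pb_comm Q x, c1, c3, r1]) (by simp [pb_comm Q y, c2, c4, r2])
      (by simp [g1, g2]) (by simp [g1, g2, pb_comm Q e2 r, r5]) q5 q6

omit hB hn hR hT in
theorem eq_one_of_card_two (hq : Fintype.card F = 2) {c : F} (hc : c ≠ 0) : c = 1 := by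
  have := FiniteField.pow_card_sub_one_eq_one _ hc
  rwa [hq, show 2 - 1 = 1 from rfl, pow_one] at this

theorem reg_two_aux (hq : Fintype.card F = 2) (hev : Even (finrank F V))
    {x y a1 a2 r1 r2 a4 p1 p2 : V} {k : F} (hx : Q x = 0) (hy : Q y = 0) (hxy : pb Q x y = 1)
    (q1 : Q a1 = 1) (q2 : Q a2 = 1) (q3 : Q r1 = 1) (q4 : Q a4 = 1) (e4 : a4 = r2 + k • a2)
    (q5 : Q p1 = 1) (q6 : Q p2 = 1) (b1 : pb Q a1 a2 = 1) (b2 : pb Q r1 r2 = 1)
    (b3 : pb Q p1 p2 = 1) (c1 : pb Q a1 x = 0) (c2 : pb Q a1 y = 0) (c3 : pb Q a2 x = 0)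
    (c4 : pb Q a2 y = 0) (d1 : pb Q r1 x = 0) (d2 : pb Q r1 y = 0) (d3 : pb Q r1 a1 = 0)
    (d4 : pb Q r1 a2 = 0) (d5 : pb Q r2 x = 0) (d6 : pb Q r2 y = 0) (d7 : pb Q r2 a1 = 0)
    (d8 : pb Q r2 a2 = 0)
    (m1 : p1 ∈ (pb Q).orthogonal ((((F ∙ x) ⊔ F ∙ y) ⊔ ((F ∙ a1) ⊔ F ∙ a2)) ⊔ ((F ∙ r1) ⊔ F ∙ r2)))
    (m2 : p2 ∈ (pb Q).orthogonal ((((F ∙ x) ⊔ F ∙ y) ⊔ ((F ∙ a1) ⊔ F ∙ a2)) ⊔ ((F ∙ r1) ⊔ F ∙ r2))) :
    False := by
  classical
  have h2 : (2 : F) = 0 := by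
    have := FiniteField.cast_card_eq_zero F
    rw [hq] at this
    exact_mod_cast this
  have : CharP F 2 := CharTwo.of_one_ne_zero_of_two_eq_zero one_ne_zero h2
  have hs : ∀ v, pb Q v v = 0 := fun v => by rw [pb_self, h2, zero_mul]
  have n0 : ∀ u ∈ (⊥ : Submodule F V), u ∈ (pb Q).orthogonal ⊥ → u = 0 := fun u hu _ => by
    simpa using hu
  have n1 := nd_sup n0 (e := x) (f := y) (by simp) (by simp) (hs _) (hs _) hxy
  rw [bot_sup_eq] at n1
  have n2 := nd_sup n1 (mem_orth_pair.2 ⟨c1, c2⟩) (mem_orth_pair.2 ⟨c3, c4⟩) (hs _) (hs _) b1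
  have n3 := nd_sup n2 (e := r1) (f := r2)
    (by simp only [orth_sup, Submodule.mem_inf, mem_orth_span]; tauto)
    (by simp only [orth_sup, Submodule.mem_inf, mem_orth_span]; tauto) (hs _) (hs _) b2
  set U := (((F ∙ x) ⊔ F ∙ y) ⊔ ((F ∙ a1) ⊔ F ∙ a2)) ⊔ ((F ∙ r1) ⊔ F ∙ r2) with hU
  have hmem : ∀ v, v ∈ (pb Q).orthogonal U ↔ ((pb Q v x = 0 ∧ pb Q v y = 0) ∧ pb Q v a1 = 0 ∧
      pb Q v a2 = 0) ∧ pb Q v r1 = 0 ∧ pb Q v r2 = 0 := fun v => by
    simp only [hU, orth_sup, Submodule.mem_inf, mem_orth_span]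
  obtain ⟨β, hβ⟩ := exists_mvS_eq hB ((pb Q).orthogonal U) fun S' hS' => by
    by_contra hc
    push Not at hc
    have k1 : ∀ v ∈ (pb Q).orthogonal U, Q v = 1 → v ∈ S' := fun v hv h => by
      by_contra h'
      rw [hc v hv h'] at h
      exact zero_ne_one h
    obtain ⟨w, hw, hw'⟩ := SetLike.exists_of_lt hS'
    have k2 : ∀ p ∈ (pb Q).orthogonal U, Q p = 1 → pb Q w p ≠ 0 := fun p hp h e => hw' (by
      have := Submodule.sub_mem _ (k1 _ (Submodule.add_mem _ hw hp)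
        (by rw [Q_add, hc w hw hw', h, e]; simp)) (k1 p hp h)
      simpa using this)
    refine k2 _ (Submodule.add_mem _ m1 m2) (by rw [Q_add, q5, q6, b3]; linear_combination h2) ?_
    rw [map_add, eq_one_of_card_two hq (k2 _ m1 q5), eq_one_of_card_two hq (k2 _ m2 q6)]
    linear_combination h2
  have hfx : fxS β = U := by rw [← orth_mvS hB, hβ, orth_orth hB]
  have hf : ∀ v, (∀ w ∈ (pb Q).orthogonal U, pb Q w v = 0) → β.1 v = v := fun v h => by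
    rw [← mem_fxS, ← orth_mvS hB, hβ]; exact h
  have f1 : β.1 x = x := hf _ fun w hw => ((hmem w).1 hw).1.1.1
  have f2 : β.1 y = y := hf _ fun w hw => ((hmem w).1 hw).1.1.2
  have f3 : β.1 a1 = a1 := hf _ fun w hw => ((hmem w).1 hw).1.2.1
  have f4 : β.1 a2 = a2 := hf _ fun w hw => ((hmem w).1 hw).1.2.2
  have f5 : β.1 r1 = r1 := hf _ fun w hw => ((hmem w).1 hw).2.1
  have f6 : β.1 a4 = a4 := hf _ fun w hw => by
    rw [e4]; simp [((hmem w).1 hw).2.2, ((hmem w).1 hw).1.2.2]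
  have cm : ∀ (g : OG Q) (a : V), g.1 a = a → Commute g (refl Q a) := fun g a h => by
    have := conj_refl g a
    rwa [h, mul_inv_eq_iff_eq_mul] at this
  have b4 : pb Q a4 a2 = 0 := by rw [e4]; simp [d8, hs]
  set τ := refl Q a1 * refl Q r1 with hτ
  set σ := refl Q a2 * refl Q a4 with hσ
  have hττ : τ * τ = 1 := by
    rw [hτ, (cm _ _ (refl_of_orth d3)).symm.mul_mul_mul_comm, refl_mul_self, refl_mul_self, mul_one]
  have hσσ : σ * σ = 1 := by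
    rw [hσ, (cm _ _ (refl_of_orth b4)).symm.mul_mul_mul_comm, refl_mul_self, refl_mul_self, mul_one]
  have cτ : Commute β τ := (cm β _ f3).mul_right (cm β _ f5)
  have cσ : Commute β σ := (cm β _ f4).mul_right (cm β _ f6)
  have mτ : τ ∈ commutator (OG Q) := refl_mul_refl_mem hB (by rw [q1]; exact one_ne_zero)
    (by rw [q3]; exact one_ne_zero) (by rw [q1, q3]; exact ⟨_, rfl⟩)
  have mσ : σ ∈ commutator (OG Q) := refl_mul_refl_mem hB (by rw [q2]; exact one_ne_zero)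
    (by rw [q4]; exact one_ne_zero) (by rw [q2, q4]; exact ⟨_, rfl⟩)
  have aτ : ∀ v, τ.1 v = v - pb Q v r1 • r1 - pb Q v a1 • a1 := fun v => by
    rw [hτ, OG_mul_apply, refl_apply, refl_apply, q1, q3]; simp [d3]
  have aσ : ∀ v, σ.1 v = v - pb Q v a4 • a4 - pb Q v a2 • a2 := fun v => by
    rw [hσ, OG_mul_apply, refl_apply, refl_apply, q2, q4]; simp [b4]
  have gx : (τ * σ * β).1 x = x := by
    rw [OG_mul_apply, OG_mul_apply, f1, aσ, aτ, e4]
    simp [pb_comm Q x, c1, c3, d1, d5]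
  have gy : (τ * σ * β).1 y = y := by
    rw [OG_mul_apply, OG_mul_apply, f2, aσ, aτ, e4]
    simp [pb_comm Q y, c2, c4, d2, d6]
  have fpf : ∀ v, pb Q v x = 0 → pb Q v y = 0 → (τ * σ * β).1 v = v → v = 0 := by
    intro v h3 h4 h5
    have h6 : σ.1 (β.1 v) = τ.1 v := by
      conv_rhs => rw [← h5, ← OG_mul_apply, ← mul_assoc, ← mul_assoc, hττ, one_mul]
      rfl
    have h7 := sub_mem_mvS β v
    rw [hβ, hmem] at h7
    have h8 : pb Q (β.1 v) a4 = pb Q v a4 := by conv_lhs => rw [← f6, OG_pb]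
    have h9 : pb Q (β.1 v) a2 = pb Q v a2 := by conv_lhs => rw [← f4, OG_pb]
    rw [aσ, aτ, h8, h9] at h6
    have h10 : v - β.1 v = pb Q v r1 • r1 + pb Q v a1 • a1 - pb Q v a4 • a4 - pb Q v a2 • a2 := by
      rw [← sub_eq_zero] at h6 ⊢
      rw [← neg_eq_zero, ← h6]
      abel
    have i1 : pb Q a4 r1 = 1 := by rw [e4]; simp [pb_comm Q _ r1, b2, d4]
    have i2 : pb Q a4 r2 = 0 := by rw [e4]; simp [hs, pb_comm Q a2 r2, d8]
    have i3 : pb Q v a4 = pb Q v r2 + k * pb Q v a2 := by rw [e4]; simp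
    rw [h10] at h7
    obtain ⟨⟨-, j1, j2⟩, j3, j4⟩ := h7
    simp [hs, i1, pb_comm Q a1 r1, pb_comm Q a2 r1, d3, d4] at j3
    simp [i2, b2, pb_comm Q a1 r2, pb_comm Q a2 r2, d7, d8] at j4
    simp [j3, j4, hs, pb_comm Q a2 a1, b1] at j1
    simp [j3, j4, hs, b1] at j2
    rw [j1, j2, j3, j4] at h10
    refine n3 v ?_ ((hmem v).2 ⟨⟨⟨h3, h4⟩, j2, j1⟩, j4, by rw [j3, j1] at i3; simpa using i3.symm⟩)
    rw [← hfx, mem_fxS]
    exact (sub_eq_zero.1 (by simpa using h10)).symm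
  have hx0 : x ≠ 0 := by rintro rfl; simp at hxy
  have mg : τ * σ * β ∈ commutator (OG Q) := by
    have e1 : fxS (τ * σ * β) = (F ∙ x) ⊔ F ∙ y := by
      ext w
      rw [mem_fxS, mem_pair]
      constructor
      · intro h
        have := fpf (w - pb Q w y • x - pb Q w x • y) (by simp [hs, pb_comm Q y x, hxy])
          (by simp [hs, hxy]) (by rw [map_sub, map_sub, map_smul, map_smul, h, gx, gy])
        exact ⟨pb Q w y, pb Q w x, by rw [← sub_eq_zero, ← this]; abel⟩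
      · rintro ⟨c, d, rfl⟩
        rw [map_add, map_smul, map_smul, gx, gy]
    have e2 := finrank_mvS_add (τ * σ * β)
    rw [e1, Submodule.finrank_sup_span_singleton (fun h => by
      obtain ⟨c, rfl⟩ := Submodule.mem_span_singleton.1 h
      simp [hs] at hxy), finrank_span_singleton hx0] at e2
    rw [mem_commutator_char_two hB (bigEnough hn)]
    rw [← e2, Nat.even_add] at hev
    exact hev.2 (by norm_num)
  have mβ : β ∈ commutator (OG Q) := by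
    have := mul_mem (inv_mem (mul_mem mτ mσ)) mg
    rwa [inv_mul_cancel_left] at this
  obtain ⟨ω, h6, h7, h8⟩ := unique_fix hB hn hR hT hx hxy mg one_ne_zero (by rw [gx, one_smul])
    (by rw [gy, inv_one, one_smul]) (by simpa using fpf)
  have h9 : β • ω = ω := h8 _ (smul_mem_Orb h6 mβ) (by
    rw [← mul_smul, ← ((cτ.mul_right cσ).mul_right (Commute.refl β)).eq, mul_smul, h7])
  have h10 : τ • σ • ω = ω := by rwa [mul_smul _ β, h9, mul_smul τ σ] at h7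
  have h11 : σ • τ • ω = ω := by
    have : τ • ω = σ • ω := by
      conv_lhs => rw [← h10, ← mul_smul, hττ, one_smul]
    rw [this, ← mul_smul, hσσ, one_smul]
  have h12 : τ • ω = ω := h8 _ (smul_mem_Orb h6 mτ) (by
    rw [mul_smul _ β, ← mul_smul β, cτ.eq, mul_smul τ β, h9, mul_smul τ σ, h11])
  have z1 : Q (a1 - r1) = 0 := by rw [Q_sub, q1, q3, pb_comm, d3]; linear_combination h2
  have z2 : pb Q (a1 - r1) a1 = 0 := by simp [hs, d3]
  have z3 : pb Q (a1 - r1) r2 = -1 := by simp [pb_comm Q a1 r2, d7, b2]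
  obtain ⟨c, hc⟩ := Submodule.mem_span_singleton.1 (hR ω h6 _ z1
    (by intro h; rw [h] at z3; simp at z3) a1 ⟨z2, by
      rw [E_eq_refl z1 z2 (by rw [q1]; exact one_ne_zero), q1, one_smul, sub_sub_cancel]
      exact h12⟩)
  have := congrArg (fun w => pb Q w r2) hc
  simp only [map_smul, LinearMap.smul_apply, z3, pb_comm Q a1 r2, d7] at this
  rw [show c = 0 by simpa using this, zero_smul] at hc
  rw [← hc] at q1
  simp at q1

theorem reg_two (hq : Fintype.card F = 2) (hev : Even (finrank F V)) : False := by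
  have h2 : (2 : F) = 0 := by
    have := FiniteField.cast_card_eq_zero F
    rw [hq] at this
    exact_mod_cast this
  have h11 : (1 : F) + 1 = 0 := by linear_combination h2
  obtain ⟨x, y, e1, f1, e2, f2, r, r', ⟨hx, hy, hxy⟩, ⟨a1, a2, a3⟩, ⟨b1, b2, b3⟩,
    ⟨c1, c2, c3, c4⟩, ⟨d1, d2, d3, d4⟩, ⟨g1, g2, g3, g4⟩, hr, hrr,
    ⟨r1, r2, r3, r4, r5, r6⟩, ⟨s1, s2, s3, s4, s5, s6⟩⟩ := exists_frame hB hn
  have hs : ∀ v, pb Q v v = 0 := fun v => by rw [pb_self, h2, zero_mul]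
  have a3' : pb Q f1 e1 = 1 := by rw [pb_comm, a3]
  have b3' : pb Q f2 e2 = 1 := by rw [pb_comm, b3]
  have g1' : pb Q e1 e2 = 0 := by rw [pb_comm, g1]
  have g2' : pb Q f1 e2 = 0 := by rw [pb_comm, g2]
  have g3' : pb Q e1 f2 = 0 := by rw [pb_comm, g3]
  have g4' : pb Q f1 f2 = 0 := by rw [pb_comm, g4]
  have q2 : Q (e2 + f2 + f1) = 1 := by simp [Q_add, *]
  refine reg_two_aux hB hn hR hT hq hev (a1 := e2 + f2 + e1) (a2 := e2 + f2 + f1) (r1 := r)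
    (r2 := r') (k := 1 + Q r') (p1 := e1 + f1 + e2) (p2 := e1 + f1 + f2) hx hy hxy
    (by simp [Q_add, *]) q2 (eq_one_of_card_two hq hr) ?_ rfl (by simp [Q_add, *])
    (by simp [Q_add, *]) (by simp [*]) hrr (by simp [*]) (by simp [*]) (by simp [*]) (by simp [*])
    (by simp [*]) r1 r2 (by simp [*]) (by simp [*]) s1 s2 (by simp [*]) (by simp [*]) ?_ ?_
  · rw [Q_add, Q_smul, q2]
    by_cases h : Q r' = 0
    · simp [*]
    · simp [eq_one_of_card_two hq h, h11]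
  · simp only [orth_sup, Submodule.mem_inf, mem_orth_span]
    simp [pb_comm Q _ r, pb_comm Q _ r', *]
  · simp only [orth_sup, Submodule.mem_inf, mem_orth_span]
    simp [pb_comm Q _ r, pb_comm Q _ r', *]

theorem reg_false (hev : Fintype.card F = 2 → Even (finrank F V)) : False := by
  have : 1 < Fintype.card F := Fintype.one_lt_card
  by_cases h2 : Fintype.card F = 2
  · exact reg_two hB hn hR hT h2 (hev h2)
  by_cases h3 : Fintype.card F = 3
  · exact reg_three hB hn hR hT h3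
  exact reg_four hB hn hR hT (by omega)

end Cfsg.Agent.H4
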