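import Cfsg.Agent.H4.Ore1

/-! Commutators in special linear groups: cyclic blocks, and the field with two elements. -/

set_option autoImplicit false

namespace Cfsg.Agent.H4

open Module Polynomial

universe u v

section general

variable {F : Type u} [Field F]
variable {V : Type v} [AddCommGroup V] [Module F V] [Module.Finite F V]
variable {W : Type*} [AddCommGroup W] [Module F W] [Module.Finite F W]

theorem monic_quad (τ δ : F) : (X ^ 2 - C τ * X + C δ : F[X]).Monic := by monicity!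

theorem natDegree_quad (τ δ : F) : (X ^ 2 - C τ * X + C δ : F[X]).natDegree = 2 := by
  compute_degree!

theorem irreducible_quad {τ δ : F} (h : ∀ x : F, x ^ 2 - τ * x + δ ≠ 0) :
    Irreducible (X ^ 2 - C τ * X + C δ : F[X]) :=
  irreducible_of_degree_le_three_of_not_isRoot (by rw [natDegree_quad]; simp) fun x => by
    simpa using h x

theorem det_of_charpoly_eq {f : End F V} {σ : F[X]} {r k : ℕ} (hV : finrank F V = k + r)
    (h : f.charpoly = σ * (X - C 1) ^ k) : LinearMap.det f = (-1) ^ r * σ.coeff 0 := by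
  rw [det_eq_charpoly, h, hV, mul_coeff_zero, coeff_zero_eq_eval_zero (_ ^ _)]
  simp only [eval_pow, eval_sub, eval_X, eval_C, zero_sub, pow_add]
  have : (-1 : F) ^ k * (-1) ^ k = 1 := by rw [← mul_pow]; simp
  linear_combination (-1) ^ r * σ.coeff 0 * this

theorem comm_cyc [Finite F] {σ : F[X]} {r : ℕ} (hr : 0 < r) (hm : σ.Monic) (hd : σ.natDegree = r)
    (hs : Squarefree σ) (hσ : σ.eval 1 ≠ 0) (hσ0 : σ.coeff 0 ≠ 0) (hB : PBase.{u, v} σ r)
    (hV : r < finrank F V) {g : End F V} {a : V} (hg : IsCyc g a) (hdet : LinearMap.det g = 1)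
    (ε : F) : Comm g ((-1) ^ r * σ.coeff 0) ε := by
  obtain ⟨k, hk⟩ : ∃ k, finrank F V = k + 1 + r := ⟨finrank F V - 1 - r, by omega⟩
  obtain ⟨Y, a1, a2, a3, a4⟩ := pp_main hr hσ hσ0 hB hk hg (by rw [hdet]; exact one_ne_zero)
    (hm.mul ((monic_X_sub_C 1).pow (k + 1))) (by
      rw [hm.natDegree_mul ((monic_X_sub_C 1).pow _), natDegree_pow, natDegree_X_sub_C, hd, hk]
      omega) (by rw [hdet, mul_one])
  rw [← det_of_charpoly_eq hk a1]
  exact comm_of_reg hs hσ (by omega) a1 a2 a3 a4 ε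

theorem comm_tri [Finite F] {g₁ Y₁ : End F V} {g₂ Y₂ : End F W} (hg : LinearMap.det g₁ ≠ 0)
    {σ : F[X]} (hs : Squarefree σ) (hσ : σ.eval 1 ≠ 0) (hd : 0 < σ.natDegree) {k : ℕ}
    (h1 : Y₁.charpoly * Y₂.charpoly = σ * (X - C 1) ^ k)
    (h2 : (g₁ * Y₁).charpoly * (g₂ * Y₂).charpoly = σ * (X - C 1) ^ k)
    (r1 : Reg Y₁) (r2 : Reg Y₂) (r3 : Reg (g₁ * Y₁)) (r4 : Reg (g₂ * Y₂)) (ε : F) :
    Comm (g₁.prodMap g₂ : End F (V × W)) (LinearMap.det Y₁ * LinearMap.det Y₂) ε := by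
  have hu : IsUnit g₁ := (LinearMap.isUnit_iff_isUnit_det _).2 (isUnit_iff_ne_zero.2 hg)
  obtain ⟨gi, hgi⟩ := hu.exists_right_inv
  obtain ⟨Z, z1, z2⟩ : ∃ Z, Reg (tri Y₁ Z Y₂) ∧ Reg (tri (g₁ * Y₁) (g₁ ∘ₗ Z) (g₂ * Y₂)) := by
    have key : ∀ Λ : (W →ₗ[F] V) →ₗ[F] F, Λ ≠ 0 → ∃ Z : W →ₗ[F] V, Λ (g₁ ∘ₗ Z) ≠ 0 := by
      intro Λ h
      obtain ⟨Z, hZ⟩ := DFunLike.ne_iff.1 h
      exact ⟨gi ∘ₗ Z, by
        rwa [← LinearMap.comp_assoc, ← Module.End.mul_eq_comp, hgi, Module.End.one_eq_id,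
          LinearMap.id_comp]⟩
    rcases exists_link r1 r2 with h | ⟨Λ, l1, l2⟩ <;>
      rcases exists_link r3 r4 with h' | ⟨Λ', l3, l4⟩
    · exact ⟨0, h _, h' _⟩
    · obtain ⟨Z, hZ⟩ := key Λ' l3
      exact ⟨Z, h _, l4 _ hZ⟩
    · obtain ⟨Z, hZ⟩ := DFunLike.ne_iff.1 l1
      exact ⟨Z, l2 _ hZ, h' _⟩
    · obtain ⟨Z, hZ⟩ := key Λ' l3
      obtain ⟨Z', c1, c2⟩ := avoid_two (A := LinearMap.ker Λ)
        (B := LinearMap.ker (Λ' ∘ₗ LinearMap.llcomp F W V V g₁))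
        (fun h => l1 (LinearMap.ker_eq_top.1 h))
        (fun h => hZ (LinearMap.congr_fun (LinearMap.ker_eq_top.1 h) Z))
      exact ⟨Z', l2 _ c1, l4 _ c2⟩
  have e : (g₁.prodMap g₂ : End F (V × W)) * tri Y₁ Z Y₂ = tri (g₁ * Y₁) (g₁ ∘ₗ Z) (g₂ * Y₂) := by
    rw [← tri_zero, tri_mul]; simp
  rw [← det_tri Y₁ Z Y₂]
  exact comm_of_reg hs hσ hd (by rw [charpoly_tri, h1]) (by rw [e, charpoly_tri, h2]) z1
    (by rwa [e]) ε

theorem sim_prodMap_fin {m n : ℕ} {A : Matrix (Fin m) (Fin m) F} {B : Matrix (Fin n) (Fin n) F}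
    (M : Matrix (Fin (m + n)) (Fin (m + n)) F)
    (h : M.submatrix finSumFinEquiv finSumFinEquiv = Matrix.fromBlocks A 0 0 B) :
    Sim (LinearMap.prodMap (Matrix.toLin' A) (Matrix.toLin' B) : End F ((Fin m → F) × (Fin n → F)))
      (Matrix.toLin' M) := by
  refine (sim_prodMap_fromBlocks A B).trans ?_
  rw [← h]
  refine Sim.symm ⟨LinearEquiv.funCongrLeft F F finSumFinEquiv, fun v => ?_⟩
  ext i
  simp only [Matrix.toLin'_apply, Matrix.submatrix_mulVec_equiv]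
  simp [Function.comp_def, LinearMap.funLeft_apply]

end general

section two

variable {V : Type} [AddCommGroup V] [Module (ZMod 2) V] [Module.Finite (ZMod 2) V]

/-- The involution of `GL(2, 2)`. -/
noncomputable abbrev J2 : End (ZMod 2) (Fin 2 → ZMod 2) := Matrix.toLin' !![0, 1; 1, 0]

theorem sqfree2 : Squarefree (X ^ 2 - C 1 * X + C 1 : (ZMod 2)[X]) :=
  (irreducible_quad (by decide)).squarefree

theorem comm2_cyc {f : End (ZMod 2) V} {a : V} (h : IsCyc f a) (hd : LinearMap.det f = 1) :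
    Comm f 1 1 ∨ Sim f J2 := by
  rcases Nat.lt_trichotomy (finrank (ZMod 2) V) 2 with h1 | h1 | h1
  · left
    obtain rfl : f = 1 := by
      rcases Nat.lt_succ_iff_lt_or_eq.1 h1 with h2 | h2
      · have := Module.finrank_zero_iff.1 (Nat.lt_one_iff.1 h2)
        exact Subsingleton.elim _ _
      · exact eq_one_of_finrank_eq_one h2 hd
    exact comm_one
  · obtain ⟨τ, hτ⟩ := h.sim_two h1
    rw [hd] at hτ
    fin_cases τ
    · exact Or.inr hτ
    · exact Or.inl (Comm.of_sim (comm_toLin' !![1, 1; 1, 0] !![1, 1; 0, 1] (by decide +kernel)) hτ)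
  · left
    simpa using comm_cyc two_pos (monic_quad _ _) (natDegree_quad _ _) sqfree2 (by simp) (by simp)
      (pBase_two 1 one_ne_zero) h1 h hd 1

theorem comm2_J_cyc {f : End (ZMod 2) V} {a : V} (h : IsCyc f a) (hd : LinearMap.det f = 1)
    (hV : 0 < finrank (ZMod 2) V) :
    Comm (J2.prodMap f : End (ZMod 2) ((Fin 2 → ZMod 2) × V)) 1 1 := by
  rcases Nat.lt_trichotomy (finrank (ZMod 2) V) 2 with h1 | h1 | h1
  · have h2 := sim_one_dim f (by omega)
    rw [hd] at h2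
    exact (comm_toLin' !![0, 1, 0; 1, 0, 0; 1, 1, 1] !![1, 0, 1; 0, 1, 1; 1, 0, 0]
      (by decide +kernel)).of_sim (((Sim.refl _).prodMap h2).trans
        (sim_prodMap_fin !![0, 1, 0; 1, 0, 0; 0, 0, 1] (by decide +kernel)))
  · obtain ⟨τ, hτ⟩ := h.sim_two h1
    rw [hd] at hτ
    fin_cases τ
    · exact (comm_toLin' !![1, 1, 0, 1; 0, 0, 1, 1; 1, 0, 0, 1; 0, 1, 0, 1]
        !![1, 1, 0, 1; 1, 1, 0, 0; 0, 1, 0, 0; 1, 1, 1, 1]
        (by decide +kernel)).of_sim (((Sim.refl _).prodMap hτ).trans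
          (sim_prodMap_fin !![0, 1, 0, 0; 1, 0, 0, 0; 0, 0, 0, 1; 0, 0, 1, 0] (by decide +kernel)))
    · exact (comm_toLin' !![1, 1, 0, 0; 1, 1, 0, 1; 0, 1, 1, 0; 0, 0, 1, 1]
        !![1, 0, 0, 1; 1, 1, 1, 0; 0, 0, 1, 0; 1, 0, 0, 0]
        (by decide +kernel)).of_sim (((Sim.refl _).prodMap hτ).trans
          (sim_prodMap_fin !![0, 1, 0, 0; 1, 0, 0, 0; 0, 0, 0, 1; 0, 0, 1, 1] (by decide +kernel)))
  · obtain ⟨k, hk⟩ : ∃ k, finrank (ZMod 2) V = k + 1 + 2 := ⟨finrank (ZMod 2) V - 3, by omega⟩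
    obtain ⟨Y, a1, a2, a3, a4⟩ := pp_main two_pos (by simp) (by simp) (pBase_two 1 one_ne_zero)
      hk h (by rw [hd]; exact one_ne_zero) ((monic_X_sub_C 1).pow (k + 1 + 2))
      (by rw [natDegree_pow, natDegree_X_sub_C, hk, mul_one])
      (by simp [hd, coeff_zero_eq_eval_zero])
    have c1 : LinearMap.charpoly (Matrix.toLin' (!![1, 1; 0, 1] : Matrix (Fin 2) (Fin 2) (ZMod 2)))
        = (X - C 1) ^ 2 := by
      rw [Matrix.charpoly_toLin', Matrix.charpoly_fin_two, Matrix.trace_fin_two,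
        Matrix.det_fin_two]
      simp
      ring
    have c2 : J2 * Matrix.toLin' (!![1, 1; 0, 1] : Matrix (Fin 2) (Fin 2) (ZMod 2)) =
        Matrix.toLin' !![0, 1; 1, 1] := by
      rw [Module.End.mul_eq_comp, ← Matrix.toLin'_mul]
      congr 1
      decide +kernel
    have c3 : LinearMap.charpoly (Matrix.toLin' (!![0, 1; 1, 1] : Matrix (Fin 2) (Fin 2) (ZMod 2)))
        = X ^ 2 - C 1 * X + C 1 := by
      rw [Matrix.charpoly_toLin', Matrix.charpoly_fin_two, Matrix.trace_fin_two,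
        Matrix.det_fin_two]
      simp
    have := comm_tri (g₁ := J2) (g₂ := f) (Y₁ := Matrix.toLin' !![1, 1; 0, 1]) (Y₂ := Y)
      (by rw [LinearMap.det_toLin']; decide +kernel) sqfree2 (by simp) (by rw [natDegree_quad]; simp)
      (k := k + 1 + 2) (by rw [c1, a1]; ring) (by rw [c2, c3, a2])
      (reg_of_span ![1, 0] (by decide +kernel)) a3
      (by rw [c2]; exact reg_of_span 0 (by decide +kernel)) a4 1
    rwa [det_of_charpoly_eq hk a1, LinearMap.det_toLin', Matrix.det_fin_two,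
      coeff_zero_eq_eval_zero, show ∀ a b : ZMod 2, a = 1 → b = 1 → a * b = 1 by decide] at this
    · simp
    · simp

theorem comm2_JJJ : Comm (J2.prodMap (J2.prodMap J2 : End (ZMod 2) (_ × _)) :
    End (ZMod 2) (_ × _)) 1 1 :=
  (comm_toLin' !![0, 1, 1, 1, 1, 1; 0, 0, 0, 1, 1, 1; 1, 1, 1, 1, 0, 1; 0, 0, 1, 1, 0, 0;
      0, 1, 0, 1, 1, 0; 0, 1, 1, 0, 1, 1]
    !![1, 0, 1, 0, 1, 1; 0, 0, 1, 0, 0, 0; 0, 1, 1, 0, 1, 0; 1, 1, 0, 1, 1, 0; 0, 1, 0, 1, 0, 0;
      0, 0, 1, 1, 0, 1] (by decide +kernel)).of_sim (((Sim.refl _).prodMap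
      (sim_prodMap_fin !![0, 1, 0, 0; 1, 0, 0, 0; 0, 0, 0, 1; 0, 0, 1, 0] (by decide +kernel))).trans
      (sim_prodMap_fin !![0, 1, 0, 0, 0, 0; 1, 0, 0, 0, 0, 0; 0, 0, 0, 1, 0, 0; 0, 0, 1, 0, 0, 0;
        0, 0, 0, 0, 0, 1; 0, 0, 0, 0, 1, 0] (by decide +kernel)))

theorem isCyc_J2 : IsCyc J2 ![1, 0] := isCyc_iff.2 fun S h1 h2 => by
  have h3 := h2 _ h1
  rw [eq_top_iff]
  intro v _
  have : v = v 0 • ![1, 0] + v 1 • J2 ![1, 0] := by
    ext i; fin_cases i <;> simp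
  rw [this]
  exact S.add_mem (S.smul_mem _ h1) (S.smul_mem _ h3)

theorem comm2_main (n : ℕ) : ∀ {V : Type} [AddCommGroup V] [Module (ZMod 2) V]
    [Module.Finite (ZMod 2) V], finrank (ZMod 2) V = n → ∀ f : End (ZMod 2) V,
    LinearMap.det f = 1 → (Comm f 1 1 ∨ Sim f J2) ∧
      (0 < n → Comm (J2.prodMap f : End (ZMod 2) ((Fin 2 → ZMod 2) × V)) 1 1) := by
  induction n using Nat.strong_induction_on with
  | _ n ih =>
  intro V _ _ _ hV f hd
  rcases Nat.eq_zero_or_pos n with rfl | hn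
  · have := Module.finrank_zero_iff.1 hV
    obtain rfl : f = 1 := Subsingleton.elim _ _
    exact ⟨Or.inl comm_one, fun h => absurd h (lt_irrefl _)⟩
  obtain ⟨φ, h1, h2, k, A, hs⟩ := exists_split_cyc f (hV ▸ hn)
  have := finite_adjoinRoot h1.ne_zero
  have h3 := hs.finrank_eq
  rw [finrank_prod, finrank_adjoinRoot, hV, finrank_fin_fun] at h3
  have h4 := hs.det_eq
  rw [hd, det_prodMap'] at h4
  obtain ⟨d1, d2⟩ := (show ∀ a b : ZMod 2, 1 = a * b → a = 1 ∧ b = 1 by decide) _ _ h4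
  obtain ⟨i1, i2⟩ := ih k (by omega) (finrank_fin_fun _) (Matrix.toLin' A) d2
  have b1 := comm2_cyc (isCyc_mulX φ) d1
  have b2 := comm2_J_cyc (isCyc_mulX φ) d1 (by rwa [finrank_adjoinRoot])
  have dJ : LinearMap.det J2 = 1 := by rw [LinearMap.det_toLin']; decide +kernel
  constructor
  · rcases i1 with i1 | i1
    · rcases b1 with b1 | b1
      · exact Or.inl (by simpa using (b1.prodMap i1).of_sim hs)
      · rcases Nat.eq_zero_or_pos k with rfl | hk
        · exact Or.inr (hs.trans ((sim_prodMap_subsingleton _ _).trans b1))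
        · exact Or.inl ((i2 hk).of_sim (hs.trans (b1.prodMap (Sim.refl _))))
    · exact Or.inl (b2.of_sim (hs.trans (((Sim.refl _).prodMap i1).trans (sim_prodMap_comm _ _))))
  · intro _
    refine Comm.of_sim ?_ ((Sim.refl _).prodMap hs)
    rcases i1 with i1 | i1
    · simpa using (b2.prodMap i1).of_sim (sim_prodMap_assoc _ _ _).symm
    · rcases b1 with b1 | b1
      · have := ((comm2_J_cyc isCyc_J2 dJ (by simp)).prodMap b1).of_sim
          (sim_prodMap_assoc _ _ _).symm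
        rw [mul_one] at this
        exact this.of_sim ((Sim.refl _).prodMap (((Sim.refl _).prodMap i1).trans
          (sim_prodMap_comm _ _)))
      · exact comm2_JJJ.of_sim ((Sim.refl _).prodMap (b1.prodMap i1))

theorem comm_of_two (hV : 3 ≤ finrank (ZMod 2) V) {f : End (ZMod 2) V}
    (hd : LinearMap.det f = 1) : Comm f 1 1 :=
  (comm2_main _ rfl f hd).1.resolve_right fun h => by
    have := h.finrank_eq
    rw [finrank_fin_fun] at this
    omega

end two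

end Cfsg.Agent.H4
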