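import Cfsg.Agent.H4.Ore2

/-! Commutators in special linear groups: the field with three elements. -/

set_option autoImplicit false

namespace Cfsg.Agent.H4

open Module Polynomial

variable {V : Type} [AddCommGroup V] [Module (ZMod 3) V] [Module.Finite (ZMod 3) V]
variable {W : Type} [AddCommGroup W] [Module (ZMod 3) W] [Module.Finite (ZMod 3) W]

theorem comm3_21 (τ : ZMod 3) :
    Comm (LinearMap.prodMap (Matrix.toLin' !![0, - -1; 1, τ]) (Matrix.toLin' !![-1]) :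
      End (ZMod 3) ((Fin 2 → ZMod 3) × (Fin 1 → ZMod 3))) (-1) 1 ∧
    Comm (LinearMap.prodMap (Matrix.toLin' !![0, - -1; 1, τ]) (Matrix.toLin' !![-1]) :
      End (ZMod 3) ((Fin 2 → ZMod 3) × (Fin 1 → ZMod 3))) 1 1 := by
  fin_cases τ
  · have hs := sim_prodMap_fin (F := ZMod 3) (A := !![0, - -1; 1, 0]) (B := !![-1])
      !![0, 1, 0; 1, 0, 0; 0, 0, 2] (by decide +kernel)
    exact ⟨(comm_toLin' !![0, 2, 0; 1, 2, 2; 2, 1, 2]
      !![0, 1, 2; 1, 0, 1; 0, 0, 1] (by decide +kernel)).of_sim hs,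
      (comm_toLin' !![1, 0, 1; 1, 2, 0; 1, 2, 2]
      !![2, 1, 0; 2, 2, 1; 0, 2, 1] (by decide +kernel)).of_sim hs⟩
  · have hs := sim_prodMap_fin (F := ZMod 3) (A := !![0, - -1; 1, 1]) (B := !![-1])
      !![0, 1, 0; 1, 1, 0; 0, 0, 2] (by decide +kernel)
    exact ⟨(comm_toLin' !![2, 0, 1; 1, 2, 1; 0, 1, 2]
      !![1, 2, 1; 1, 2, 0; 2, 0, 1] (by decide +kernel)).of_sim hs,
      (comm_toLin' !![0, 2, 1; 1, 2, 2; 0, 2, 2]
      !![2, 2, 2; 1, 2, 1; 0, 1, 2] (by decide +kernel)).of_sim hs⟩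
  · have hs := sim_prodMap_fin (F := ZMod 3) (A := !![0, - -1; 1, 2]) (B := !![-1])
      !![0, 1, 0; 1, 2, 0; 0, 0, 2] (by decide +kernel)
    exact ⟨(comm_toLin' !![0, 0, 1; 1, 0, 1; 1, 1, 2]
      !![0, 1, 1; 0, 1, 0; 1, 0, 1] (by decide +kernel)).of_sim hs,
      (comm_toLin' !![1, 1, 2; 2, 2, 0; 1, 2, 2]
      !![2, 1, 2; 2, 1, 0; 0, 1, 1] (by decide +kernel)).of_sim hs⟩

theorem comm3_22 (τ τ' : ZMod 3) :
    Comm (LinearMap.prodMap (Matrix.toLin' !![0, - -1; 1, τ]) (Matrix.toLin' !![0, - -1; 1, τ']) :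
      End (ZMod 3) ((Fin 2 → ZMod 3) × (Fin 2 → ZMod 3))) (-1) 1 ∧
    Comm (LinearMap.prodMap (Matrix.toLin' !![0, - -1; 1, τ]) (Matrix.toLin' !![0, - -1; 1, τ']) :
      End (ZMod 3) ((Fin 2 → ZMod 3) × (Fin 2 → ZMod 3))) 1 1 := by
  fin_cases τ <;> fin_cases τ'
  · have hs := sim_prodMap_fin (F := ZMod 3) (A := !![0, - -1; 1, 0]) (B := !![0, - -1; 1, 0])
      !![0, 1, 0, 0; 1, 0, 0, 0; 0, 0, 0, 1; 0, 0, 1, 0] (by decide +kernel)
    exact ⟨(comm_toLin' !![1, 0, 1, 2; 0, 2, 2, 1; 1, 2, 0, 1; 2, 2, 2, 0]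
      !![2, 1, 2, 1; 2, 1, 1, 0; 1, 1, 1, 1; 0, 1, 2, 2] (by decide +kernel)).of_sim hs,
      (comm_toLin' !![1, 0, 1, 2; 0, 2, 1, 1; 2, 0, 0, 1; 0, 2, 2, 0]
      !![2, 2, 0, 1; 0, 0, 1, 0; 1, 2, 2, 0; 1, 1, 2, 0] (by decide +kernel)).of_sim hs⟩
  · have hs := sim_prodMap_fin (F := ZMod 3) (A := !![0, - -1; 1, 0]) (B := !![0, - -1; 1, 1])
      !![0, 1, 0, 0; 1, 0, 0, 0; 0, 0, 0, 1; 0, 0, 1, 1] (by decide +kernel)
    exact ⟨(comm_toLin' !![2, 1, 0, 1; 0, 1, 1, 1; 0, 0, 1, 1; 2, 1, 0, 0]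
      !![2, 1, 2, 2; 1, 2, 1, 2; 0, 2, 1, 2; 1, 1, 1, 1] (by decide +kernel)).of_sim hs,
      (comm_toLin' !![2, 1, 2, 2; 0, 2, 2, 0; 2, 1, 0, 1; 0, 2, 1, 2]
      !![0, 1, 0, 2; 2, 0, 1, 0; 1, 0, 1, 2; 1, 2, 2, 0] (by decide +kernel)).of_sim hs⟩
  · have hs := sim_prodMap_fin (F := ZMod 3) (A := !![0, - -1; 1, 0]) (B := !![0, - -1; 1, 2])
      !![0, 1, 0, 0; 1, 0, 0, 0; 0, 0, 0, 1; 0, 0, 1, 2] (by decide +kernel)
    exact ⟨(comm_toLin' !![1, 1, 1, 0; 2, 0, 1, 1; 1, 0, 2, 1; 1, 2, 1, 1]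
      !![0, 2, 1, 0; 0, 2, 0, 0; 1, 2, 1, 2; 1, 0, 1, 1] (by decide +kernel)).of_sim hs,
      (comm_toLin' !![0, 2, 0, 0; 2, 0, 1, 0; 1, 0, 0, 0; 2, 0, 1, 2]
      !![2, 2, 1, 0; 1, 1, 1, 1; 1, 0, 0, 0; 1, 1, 0, 0] (by decide +kernel)).of_sim hs⟩
  · have hs := sim_prodMap_fin (F := ZMod 3) (A := !![0, - -1; 1, 1]) (B := !![0, - -1; 1, 0])
      !![0, 1, 0, 0; 1, 1, 0, 0; 0, 0, 0, 1; 0, 0, 1, 0] (by decide +kernel)
    exact ⟨(comm_toLin' !![2, 2, 0, 1; 1, 0, 0, 0; 0, 2, 1, 2; 0, 1, 1, 1]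
      !![0, 0, 2, 2; 1, 1, 0, 1; 2, 0, 2, 0; 1, 1, 0, 2] (by decide +kernel)).of_sim hs,
      (comm_toLin' !![1, 1, 0, 0; 1, 2, 2, 1; 1, 1, 2, 0; 0, 0, 0, 2]
      !![2, 0, 0, 0; 1, 1, 1, 2; 1, 2, 1, 0; 2, 0, 0, 1] (by decide +kernel)).of_sim hs⟩
  · have hs := sim_prodMap_fin (F := ZMod 3) (A := !![0, - -1; 1, 1]) (B := !![0, - -1; 1, 1])
      !![0, 1, 0, 0; 1, 1, 0, 0; 0, 0, 0, 1; 0, 0, 1, 1] (by decide +kernel)
    exact ⟨(comm_toLin' !![2, 1, 0, 1; 2, 1, 0, 0; 0, 2, 0, 0; 0, 2, 2, 0]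
      !![0, 2, 1, 0; 1, 2, 0, 1; 1, 0, 2, 2; 2, 2, 0, 0] (by decide +kernel)).of_sim hs,
      (comm_toLin' !![1, 1, 2, 1; 1, 2, 0, 2; 2, 2, 1, 0; 0, 0, 2, 1]
      !![1, 0, 0, 0; 1, 2, 2, 0; 2, 2, 2, 1; 1, 0, 1, 0] (by decide +kernel)).of_sim hs⟩
  · have hs := sim_prodMap_fin (F := ZMod 3) (A := !![0, - -1; 1, 1]) (B := !![0, - -1; 1, 2])
      !![0, 1, 0, 0; 1, 1, 0, 0; 0, 0, 0, 1; 0, 0, 1, 2] (by decide +kernel)
    exact ⟨(comm_toLin' !![0, 0, 1, 0; 0, 1, 1, 0; 2, 0, 0, 0; 0, 1, 2, 1]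
      !![2, 1, 0, 2; 0, 0, 1, 2; 2, 2, 1, 2; 0, 1, 2, 1] (by decide +kernel)).of_sim hs,
      (comm_toLin' !![0, 2, 2, 2; 1, 2, 1, 1; 0, 0, 2, 0; 2, 0, 2, 0]
      !![0, 1, 2, 0; 2, 1, 2, 2; 1, 0, 1, 2; 1, 2, 2, 0] (by decide +kernel)).of_sim hs⟩
  · have hs := sim_prodMap_fin (F := ZMod 3) (A := !![0, - -1; 1, 2]) (B := !![0, - -1; 1, 0])
      !![0, 1, 0, 0; 1, 2, 0, 0; 0, 0, 0, 1; 0, 0, 1, 0] (by decide +kernel)
    exact ⟨(comm_toLin' !![1, 2, 2, 0; 2, 2, 1, 1; 0, 2, 1, 1; 2, 1, 0, 2]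
      !![1, 0, 2, 0; 1, 2, 2, 2; 0, 1, 0, 2; 0, 1, 2, 0] (by decide +kernel)).of_sim hs,
      (comm_toLin' !![1, 1, 1, 1; 2, 0, 2, 2; 2, 2, 2, 1; 0, 2, 1, 0]
      !![1, 0, 0, 1; 1, 0, 2, 1; 2, 0, 1, 1; 1, 1, 0, 0] (by decide +kernel)).of_sim hs⟩
  · have hs := sim_prodMap_fin (F := ZMod 3) (A := !![0, - -1; 1, 2]) (B := !![0, - -1; 1, 1])
      !![0, 1, 0, 0; 1, 2, 0, 0; 0, 0, 0, 1; 0, 0, 1, 1] (by decide +kernel)
    exact ⟨(comm_toLin' !![2, 1, 1, 1; 1, 2, 1, 2; 2, 0, 1, 1; 0, 1, 2, 1]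
      !![0, 0, 0, 2; 2, 2, 0, 2; 0, 1, 2, 1; 1, 2, 0, 1] (by decide +kernel)).of_sim hs,
      (comm_toLin' !![2, 0, 0, 0; 2, 2, 1, 0; 1, 1, 2, 2; 2, 0, 1, 2]
      !![0, 0, 2, 1; 2, 0, 0, 1; 0, 2, 0, 0; 2, 0, 1, 2] (by decide +kernel)).of_sim hs⟩
  · have hs := sim_prodMap_fin (F := ZMod 3) (A := !![0, - -1; 1, 2]) (B := !![0, - -1; 1, 2])
      !![0, 1, 0, 0; 1, 2, 0, 0; 0, 0, 0, 1; 0, 0, 1, 2] (by decide +kernel)
    exact ⟨(comm_toLin' !![0, 1, 0, 2; 0, 0, 1, 2; 1, 1, 1, 2; 0, 0, 2, 2]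
      !![2, 0, 2, 1; 2, 1, 2, 2; 0, 0, 1, 2; 0, 0, 1, 0] (by decide +kernel)).of_sim hs,
      (comm_toLin' !![2, 1, 0, 0; 0, 0, 0, 2; 0, 0, 2, 0; 2, 2, 1, 2]
      !![0, 1, 1, 1; 0, 1, 2, 0; 2, 0, 0, 2; 1, 1, 1, 1] (by decide +kernel)).of_sim hs⟩

theorem comm3_11 :
    Comm (LinearMap.prodMap (Matrix.toLin' !![-1]) (Matrix.toLin' !![-1]) :
      End (ZMod 3) ((Fin 1 → ZMod 3) × (Fin 1 → ZMod 3))) (-1) 1 :=
  (comm_toLin' !![0, 1; 2, 0] !![0, 2; 2, 0] (by decide +kernel)).of_sim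
    (sim_prodMap_fin !![2, 0; 0, 2] (by decide +kernel))

omit [Module.Finite (ZMod 3) V] in
theorem Comm.of_neg_neg {f : End (ZMod 3) V} (h : Comm f (-1) (-1)) : Comm f (-1) 1 := by
  simpa using h.move_right

omit [Module.Finite (ZMod 3) V] in
theorem Comm.of_one_neg {f : End (ZMod 3) V} (h : Comm f 1 (-1)) : Comm f (-1) 1 :=
  Comm.of_neg_neg (by simpa using h.move_left)

omit [Module.Finite (ZMod 3) V] in
theorem Comm.one_neg {f : End (ZMod 3) V} (h : Comm f (-1) 1) : Comm f 1 (-1) := by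
  simpa using h.move_right.move_left

theorem Comm.prod3 {f : End (ZMod 3) V} {g : End (ZMod 3) W} (h : Comm f (-1) 1)
    (h' : Comm g (-1) 1) : Comm (f.prodMap g : End (ZMod 3) (V × W)) (-1) 1 ∧
      Comm (f.prodMap g : End (ZMod 3) (V × W)) 1 1 :=
  ⟨Comm.of_neg_neg (by simpa using h.prodMap h'.one_neg), by simpa using h.prodMap h'⟩

theorem comm3_cyc {f : End (ZMod 3) V} {a : V} (h : IsCyc f a) (hd : LinearMap.det f = 1)
    (hV : 0 < finrank (ZMod 3) V) :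
    Comm f (-1) 1 ∧ (3 ≤ finrank (ZMod 3) V → Comm f 1 1) := by
  constructor
  · rcases Nat.lt_or_ge 1 (finrank (ZMod 3) V) with h1 | h1
    · simpa using comm_cyc one_pos (monic_X_sub_C (-1)) (natDegree_X_sub_C _)
        (irreducible_X_sub_C _).squarefree (by simp; decide) (by simp) (pBase_one (by decide))
        h1 h hd 1
    · have h2 : finrank (ZMod 3) V = 1 := by omega
      obtain rfl := eq_one_of_finrank_eq_one h2 hd
      exact ⟨1, (-1 : ZMod 3) • 1, map_one _, by rw [LinearMap.det_smul, h2]; simp, by simp⟩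
  · intro h1
    simpa using comm_cyc two_pos (monic_quad 0 1) (natDegree_quad _ _)
      (irreducible_quad (by decide)).squarefree (by simp; decide) (by simp)
      (pBase_two 0 one_ne_zero) h1 h hd 1

theorem comm3_big {f : End (ZMod 3) V} {a : V} (h : IsCyc f a) (hd : LinearMap.det f = -1)
    (hV : 3 ≤ finrank (ZMod 3) V) {g : End (ZMod 3) W} {b : W} (h' : IsCyc g b)
    (hd' : LinearMap.det g = -1) (hW : 0 < finrank (ZMod 3) W) (ε : ZMod 3) :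
    Comm (f.prodMap g : End (ZMod 3) (V × W)) 1 ε := by
  obtain ⟨k, hk⟩ : ∃ k, finrank (ZMod 3) V = k + 1 + 2 := ⟨finrank (ZMod 3) V - 3, by omega⟩
  have hm := monic_quad (F := ZMod 3) (-1) (-1)
  have hi : Irreducible (X ^ 2 - C (-1) * X + C (-1) : (ZMod 3)[X]) := irreducible_quad (by decide)
  obtain ⟨Y, a1, a2, a3, a4⟩ := pp_main two_pos (by simp) (by simp)
    (pBase_two (-1) (neg_ne_zero.2 one_ne_zero)) hk h (by rw [hd]; decide)
    ((hm.mul (monic_X_sub_C (-1))).mul ((monic_X_sub_C 1).pow k))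
    (by rw [(hm.mul (monic_X_sub_C (-1))).natDegree_mul ((monic_X_sub_C 1).pow k),
      hm.natDegree_mul (monic_X_sub_C (-1)), natDegree_quad, natDegree_pow, natDegree_X_sub_C,
      natDegree_X_sub_C, hk]; omega)
    (by simp [hd, coeff_zero_eq_eval_zero, pow_succ])
  obtain ⟨j, Z, hj, b1, b2, b3, b4⟩ : ∃ (j : ℕ) (Z : End (ZMod 3) W), finrank (ZMod 3) W = j + 1 ∧
      Z.charpoly = (X - C (-1)) * (X - C 1) ^ j ∧ (g * Z).charpoly = (X - C 1) ^ (j + 1) ∧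
      Reg Z ∧ Reg (g * Z) := by
    rcases Nat.lt_or_ge 1 (finrank (ZMod 3) W) with h1 | h1
    · obtain ⟨j, hj⟩ : ∃ j, finrank (ZMod 3) W = j + 1 + 1 := ⟨finrank (ZMod 3) W - 2, by omega⟩
      obtain ⟨Z, hZ⟩ := pp_main one_pos (by simp; decide) (by simp)
        (pBase_one (neg_ne_zero.2 one_ne_zero)) hj h' (by rw [hd']; decide)
        ((monic_X_sub_C 1).pow (j + 1 + 1)) (by rw [natDegree_pow, natDegree_X_sub_C, hj, mul_one])
        (by simp [hd', coeff_zero_eq_eval_zero, pow_succ])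
      exact ⟨_, Z, hj, hZ⟩
    · have h2 : finrank (ZMod 3) W = 1 := by omega
      have h3 : g * ((-1 : ZMod 3) • 1) = (1 : ZMod 3) • 1 := by
        rw [one_smul]
        exact eq_one_of_finrank_eq_one h2 (by rw [map_mul, LinearMap.det_smul, h2, hd']; simp)
      exact ⟨0, (-1 : ZMod 3) • 1, h2, by rw [charpoly_smul_one_of_finrank h2]; simp,
        by rw [h3, charpoly_smul_one_of_finrank h2]; simp, reg_of_finrank_le_one h1 _,
        reg_of_finrank_le_one h1 _⟩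
  have := comm_tri (g₁ := f) (g₂ := g) (Y₁ := Y) (Y₂ := Z) (by rw [hd]; decide)
    (σ := (X ^ 2 - C (-1) * X + C (-1)) * (X - C (-1))) (squarefree_mul_iff.2
      ⟨(isCoprime_of_ne hm hi (monic_X_sub_C _) (irreducible_X_sub_C _) fun h => by
        have := congrArg natDegree h
        rw [natDegree_quad, natDegree_X_sub_C] at this
        omega).isRelPrime, hi.squarefree, (irreducible_X_sub_C _).squarefree⟩)
    (by simp; decide) (by rw [hm.natDegree_mul (monic_X_sub_C (-1)), natDegree_quad]; omega)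
    (k := k + 1 + j) (by rw [a1, b1]; ring) (by rw [a2, b2]; ring) a3 b3 a4 b4 ε
  rw [det_of_charpoly_eq hk a1, det_of_charpoly_eq hj b1] at this
  simpa using this

theorem comm3_pair {f : End (ZMod 3) V} {a : V} (h : IsCyc f a) (hd : LinearMap.det f = -1)
    (hV : 0 < finrank (ZMod 3) V) {g : End (ZMod 3) W} {b : W} (h' : IsCyc g b)
    (hd' : LinearMap.det g = -1) (hW : 0 < finrank (ZMod 3) W) :
    Comm (f.prodMap g : End (ZMod 3) (V × W)) (-1) 1 ∧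
      (3 ≤ finrank (ZMod 3) V + finrank (ZMod 3) W →
        Comm (f.prodMap g : End (ZMod 3) (V × W)) 1 1) := by
  by_cases h1 : 3 ≤ finrank (ZMod 3) V
  · exact ⟨(comm3_big h hd h1 h' hd' hW _).of_one_neg, fun _ => comm3_big h hd h1 h' hd' hW _⟩
  by_cases h2 : 3 ≤ finrank (ZMod 3) W
  · exact ⟨(comm3_big h' hd' h2 h hd hV _).of_one_neg.of_sim (sim_prodMap_comm _ _),
      fun _ => (comm3_big h' hd' h2 h hd hV _).of_sim (sim_prodMap_comm _ _)⟩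
  obtain h3 | h3 : finrank (ZMod 3) V = 1 ∨ finrank (ZMod 3) V = 2 := by omega
  all_goals obtain h4 | h4 : finrank (ZMod 3) W = 1 ∨ finrank (ZMod 3) W = 2 := by omega
  · have s1 := sim_one_dim f h3
    have s2 := sim_one_dim g h4
    rw [hd] at s1
    rw [hd'] at s2
    exact ⟨comm3_11.of_sim (s1.prodMap s2), fun h => by omega⟩
  · have s1 := sim_one_dim f h3
    obtain ⟨τ, s2⟩ := h'.sim_two h4
    rw [hd] at s1
    rw [hd'] at s2
    have s3 := (sim_prodMap_comm _ _).trans (s2.prodMap s1)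
    exact ⟨(comm3_21 τ).1.of_sim s3, fun _ => (comm3_21 τ).2.of_sim s3⟩
  · obtain ⟨τ, s1⟩ := h.sim_two h3
    have s2 := sim_one_dim g h4
    rw [hd] at s1
    rw [hd'] at s2
    exact ⟨(comm3_21 τ).1.of_sim (s1.prodMap s2), fun _ => (comm3_21 τ).2.of_sim (s1.prodMap s2)⟩
  · obtain ⟨τ, s1⟩ := h.sim_two h3
    obtain ⟨τ', s2⟩ := h'.sim_two h4
    rw [hd] at s1
    rw [hd'] at s2
    exact ⟨(comm3_22 τ τ').1.of_sim (s1.prodMap s2),
      fun _ => (comm3_22 τ τ').2.of_sim (s1.prodMap s2)⟩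

theorem comm3_main (n : ℕ) : ∀ {V : Type} [AddCommGroup V] [Module (ZMod 3) V]
    [Module.Finite (ZMod 3) V], finrank (ZMod 3) V = n → 0 < n → ∀ f : End (ZMod 3) V,
    LinearMap.det f = 1 → Comm f (-1) 1 ∧ (3 ≤ n → Comm f 1 1) := by
  induction n using Nat.strong_induction_on with
  | _ n ih =>
  intro V _ _ _ hV hn f hd
  -- a unit and a complement
  have key : ∀ {U : Type} [AddCommGroup U] [Module (ZMod 3) U] [Module.Finite (ZMod 3) U]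
      (u : End (ZMod 3) U) (k : ℕ) (A : Matrix (Fin k) (Fin k) (ZMod 3)),
      Sim f (u.prodMap (Matrix.toLin' A) : End (ZMod 3) (U × (Fin k → ZMod 3))) →
      0 < finrank (ZMod 3) U → LinearMap.det u = 1 →
      Comm u (-1) 1 ∧ (3 ≤ finrank (ZMod 3) U → Comm u 1 1) →
      Comm f (-1) 1 ∧ (3 ≤ n → Comm f 1 1) := by
    intro U _ _ _ u k A hs hU hu hc
    have h3 := hs.finrank_eq
    rw [finrank_prod, hV, finrank_fin_fun] at h3
    have h4 := hs.det_eq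
    rw [hd, det_prodMap', hu, one_mul] at h4
    rcases Nat.eq_zero_or_pos k with rfl | hk
    · have s := hs.trans (sim_prodMap_subsingleton _ _)
      exact ⟨hc.1.of_sim s, fun h => (hc.2 (by omega)).of_sim s⟩
    · have := hc.1.prod3 (ih k (by omega) (finrank_fin_fun _) hk _ h4.symm).1
      exact ⟨this.1.of_sim hs, fun _ => this.2.of_sim hs⟩
  obtain ⟨φ, h1, h2, k, A, hs⟩ := exists_split_cyc f (hV ▸ hn)
  have := finite_adjoinRoot h1.ne_zero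
  have h2' : 0 < finrank (ZMod 3) (AdjoinRoot φ) := by rwa [finrank_adjoinRoot]
  have h4 := hs.det_eq
  rw [hd, det_prodMap'] at h4
  rcases (show ∀ a b : ZMod 3, 1 = a * b → a = 1 ∨ (a = -1 ∧ b = -1) by decide) _ _ h4 with
    d1 | ⟨d1, d2⟩
  · exact key _ k A hs h2' d1 (comm3_cyc (isCyc_mulX φ) d1 h2')
  · obtain ⟨ψ, e0, e1, e2, k', A', hs'⟩ := exists_split_cyc' (Matrix.toLin' A) (by rw [d2]; decide)
    have := finite_adjoinRoot e1.ne_zero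
    have e2' : 0 < finrank (ZMod 3) (AdjoinRoot ψ) := by rwa [finrank_adjoinRoot]
    have e4 := hs'.det_eq
    rw [d2, det_prodMap'] at e4
    have e5 := (show ∀ a b : ZMod 3, -1 = a * b → a ≠ 1 → a = -1 by decide) _ _ e4 e0
    refine key _ k' A' (hs.trans (((Sim.refl _).prodMap hs').trans (sim_prodMap_assoc _ _ _).symm))
      (by rw [finrank_prod]; omega) (by rw [det_prodMap', d1, e5]; decide) ?_
    rw [finrank_prod]
    exact comm3_pair (isCyc_mulX φ) d1 h2' (isCyc_mulX ψ) e5 e2'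

theorem comm_of_three (hV : 3 ≤ finrank (ZMod 3) V) {f : End (ZMod 3) V}
    (hd : LinearMap.det f = 1) : Comm f 1 1 :=
  (comm3_main _ rfl (by omega) f hd).2 hV

end Cfsg.Agent.H4
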