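import Cfsg.Agent.H5.TA3

/-! Common lemmas for the pieces II and III of the doubly transitive configuration. -/

set_option autoImplicit false
set_option linter.unusedSectionVars false
set_option linter.style.haveILetI false

namespace Cfsg.Agent.H4.PA

open Cfsg.Agent.H5.TA Subgroup MulAction

/-- A finite field has at most one automorphism of order two. -/
theorem aut_uniq {F : Type} [Field F] [Finite F] [CharP F 2] (τ τ' : F ≃+* F) (h : ∀ x, τ (τ x) = x)
    (h' : ∀ x, τ' (τ' x) = x) (h1 : ∃ x, τ x ≠ x) (h1' : ∃ x, τ' x ≠ x) (x : F) : τ x = τ' x := by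
  classical
  letI : Algebra (ZMod 2) F := ZMod.algebra F 2
  let f : (F ≃+* F) → (F ≃ₐ[ZMod 2] F) := fun σ => AlgEquiv.ofRingEquiv (f := σ) fun c => by
    have : (σ : F →+* F).comp (algebraMap (ZMod 2) F) = algebraMap (ZMod 2) F := RingHom.ext_zmod _ _
    exact DFunLike.congr_fun this c
  have hf : ∀ σ x, f σ x = σ x := fun _ _ => rfl
  haveI := Fintype.ofFinite (F ≃ₐ[ZMod 2] F)
  have hc := IsCyclic.card_pow_eq_one_le (α := F ≃ₐ[ZMod 2] F) (n := 2) two_pos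
  by_contra k
  have sub : ({1, f τ, f τ'} : Finset (F ≃ₐ[ZMod 2] F)) ⊆ Finset.univ.filter fun a => a ^ 2 = 1 := by
    intro a ha
    simp only [Finset.mem_insert, Finset.mem_singleton] at ha
    simp only [Finset.mem_filter, Finset.mem_univ, true_and]
    rcases ha with rfl | rfl | rfl
    · simp
    · ext y; simp [pow_two, hf, h]
    · ext y; simp [pow_two, hf, h']
  have := (Finset.card_le_card sub).trans hc
  rw [Finset.card_eq_three.2 ⟨1, f τ, f τ', ?_, ?_, ?_, rfl⟩] at this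
  · omega
  · obtain ⟨y, hy⟩ := h1
    exact fun e => hy (by rw [← hf, ← e]; rfl)
  · obtain ⟨y, hy⟩ := h1'
    exact fun e => hy (by rw [← hf, ← e]; rfl)
  · exact fun e => k (by rw [← hf, e, hf])

/-- The trace of an involutory automorphism is onto the fixed field. -/
theorem trace_surj {F : Type} [Field F] (h2 : (2 : F) = 0) (τ : F ≃+* F) (h : ∀ x, τ (τ x) = x) (h1 : ∃ x, τ x ≠ x)
    {c : F} (hc : τ c = c) : ∃ x, τ x + x = c := by
  obtain ⟨y, hy⟩ := h1
  have hd : τ y + y ≠ 0 := fun e => hy (by linear_combination e - y * h2)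
  refine ⟨c * y / (τ y + y), ?_⟩
  rw [map_div₀, map_mul, map_add, h, hc, add_comm y]
  field_simp

variable {G : Type*} [Group G] [Finite G] {N : Subgroup G} {F K : Type} [Field F] [Field K] {m i : ℕ}

omit [Finite G] in
theorem conj_of_odd {t u : G} (ht : t * t = 1) (hu : u * u = 1) (h : Odd (orderOf (t * u))) :
    ∃ k : ℕ, (t * u) ^ k * t * ((t * u) ^ k)⁻¹ = u := by
  obtain ⟨k, hk⟩ := h
  have ti : t⁻¹ = t := inv_eq_of_mul_eq_one_right ht
  have ui : u⁻¹ = u := inv_eq_of_mul_eq_one_right hu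
  have e1 : t * (t * u) * t⁻¹ = (t * u)⁻¹ := by rw [mul_inv_rev, ti, ui, ← mul_assoc, ht, one_mul]
  have e2 : t * (t * u) ^ k * t⁻¹ = ((t * u) ^ k)⁻¹ := by rw [← conj_pow, e1, inv_pow]
  have e3 : (t * u) ^ k * (t * u) ^ k * (t * u) = 1 := by
    rw [← pow_add, ← pow_succ, ← two_mul, ← hk, pow_orderOf_eq_one]
  refine ⟨k, ?_⟩
  have e4 : (t * u) ^ k * t = t * ((t * u) ^ k)⁻¹ := by
    rw [← e2, ti, ← mul_assoc, ← mul_assoc, ht, one_mul]
  rw [e4, mul_assoc, ← mul_inv_rev, eq_inv_of_mul_eq_one_left e3, inv_inv, ← mul_assoc, ht, one_mul]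

/-- An involution normalising `S` and centralising `ζ 1` acts as a field automorphism. -/
theorem SL1 (R : R0 N F K m i) {g : G} (hN : g ∈ Nm N) (h : Commute g (R.ζ 1)) :
    ∃ τ : F ≃+* F, ∀ x, g * R.ζ x * g⁻¹ = R.ζ (τ x) := by
  obtain ⟨c, τ, -, e⟩ := R.SL hN (R.Nm_of_comm hN (R.ζ_mem 1) (R.iv_ζ one_ne_zero).2.1 h)
  have := e 1
  rw [h.eq, mul_inv_cancel_right, map_one, mul_one] at this
  refine ⟨τ, fun x => ?_⟩
  rw [e, ← R.ζ_inj this, one_mul]

theorem ττ (R : R0 N F K m i) {g : G} (hg : g * g = 1) {τ : F ≃+* F} (h : ∀ x, g * R.ζ x * g⁻¹ = R.ζ (τ x))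
    (x : F) : τ (τ x) = x := R.ζ_inj (by
  rw [← h, ← h]
  calc _ = (g * g) * R.ζ x * (g * g)⁻¹ := by group
    _ = _ := by rw [hg]; simp)

/-- An involution which is `S` times a centralising element is `Z` times a centralising element. -/
theorem mem_Z_of_Cn (R : R0 N F K m i) {z s : G} (hz : z * z = 1) (hs : s ∈ R.S) (h : s * z ∈ Cn N) : s ∈ R.Z := by
  have h1 : s * (s * z) = s * z * s := mem_Cn.1 h s (R.S_le hs)
  have h2 : s * z * (s * z) = s * s := by
    calc s * z * (s * z) = (s * z * s) * z := by group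
      _ = s * s * (z * z) := by rw [← h1]; group
      _ = _ := by rw [hz, mul_one]
  exact (R.sq_eq_one hs).1 (R.center (R.S_le (mul_mem hs hs)) (h2 ▸ mul_mem h h))

omit [Finite G] in
theorem θ_ne (R : R0 N F K m i) (h3 : i = 3) : ∃ t ∈ R.T, R.θ (R.ψ t) ≠ R.ψ t := by
  rcases R.typ with k | k | k
  · omega
  · omega
  obtain ⟨t, ht, h1, h2⟩ := k.2.2.2.2
  haveI := R.charK
  refine ⟨t, ht, fun e => h1 ?_⟩
  have := R.hν (R.ψ t)
  rw [h2, map_one, e] at this
  exact CharTwo.sq_injective (by simp only; rw [pow_two, ← this, one_pow])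

omit [Finite G] in
theorem scal_one (R : R0 N F K m i) (h1 : i ≠ 1) {z : G} (hz : z * z = 1) (hg : z ∈ Nm R.S) {l : K}
    (h : ∀ s ∈ R.S, R.ω (z * s * z⁻¹) = l * R.ω s) : l = 1 := by
  obtain ⟨s, hs, e⟩ := R.ω_surj h1 1
  have a := h _ (Nm_conj hg hs)
  rw [h s hs, show z * (z * s * z⁻¹) * z⁻¹ = (z * z) * s * (z * z)⁻¹ by group, hz, one_mul, inv_one, mul_one, e] at a
  haveI := R.charK
  exact CharTwo.sq_injective (by simp only; linear_combination -a)

/-- An involution centralising `T` modulo `S` is inner. -/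
theorem KL (R : R0 N F K m i) {z : G} (hz : z * z = 1) (hN : z ∈ Nm N) (hg : z ∈ Nm R.S)
    (h : ∀ t ∈ R.T, z * t * z⁻¹ * t⁻¹ ∈ R.S) : ∃ c ∈ R.Z, c * z ∈ Cn N := by
  have hZ : ∀ x, z * R.ζ x * z⁻¹ = R.ζ x := by
    obtain ⟨L, -, hL⟩ := R.exists_LZ hg
    have key : ∀ x, L x = x * L 1 := fun x => by
      by_cases hx : x = 0
      · simp [hx]
      obtain ⟨t, ht, rfl⟩ := R.χ_surj x hx
      refine R.ζ_inj ?_
      have e1 : R.ζ (R.ν (R.ψ t)) = t * R.ζ 1 * t⁻¹ := by rw [R.ζ_conj t ht, mul_one]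
      rw [← hL, e1, ← R.ζ_conj t ht, ← hL]
      have e2 := R.Z_comm (R.Z_norm (R.T_le_Nm ht) (R.Z_norm hg (R.ζ_mem_Z 1))) (h t ht)
      calc z * (t * R.ζ 1 * t⁻¹) * z⁻¹
          = (z * t * z⁻¹ * t⁻¹) * (t * (z * R.ζ 1 * z⁻¹) * t⁻¹) * (z * t * z⁻¹ * t⁻¹)⁻¹ := by group
        _ = _ := by rw [← e2]; group
    have e : L (L 1) = 1 := R.ζ_inj (by
      rw [← hL, ← hL]
      calc _ = (z * z) * R.ζ 1 * (z * z)⁻¹ := by group
        _ = _ := by rw [hz]; simp)
    rw [key] at e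
    haveI := R.charF
    have e1 : L 1 = 1 := CharTwo.sq_injective (by simp only; rw [pow_two, e, one_pow])
    intro x
    rw [hL, key, e1, mul_one]
  have : ∃ s ∈ R.S, s * z ∈ Cn N := by
    by_cases h3 : i = 3
    · obtain ⟨l, hl, k | k⟩ := R.W_cases hg hZ
      · refine R.FA hN hg hZ fun s hs => ?_
        rw [k s hs, scal_one R (by omega) hz hg k, one_mul]
      · exfalso
        obtain ⟨t, ht, e⟩ := θ_ne R h3
        obtain ⟨s, hs, e1⟩ := R.ω_surj (by omega) 1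
        have a1 := k _ (R.T_norm t ht s hs)
        have a2 := R.T_norm t ht _ (Nm_conj hg hs)
        rw [show z * (t * s * t⁻¹) * z⁻¹ = (z * t * z⁻¹ * t⁻¹) * (t * (z * s * z⁻¹) * t⁻¹) * (z * t * z⁻¹ * t⁻¹)⁻¹ by group,
          R.conj_S (h t ht) a2, R.ω_mul _ (R.ζ_mem _) _ a2, R.ω_ζ, zero_add, R.ω_conj t ht _ (Nm_conj hg hs), k s hs,
          R.ω_conj t ht s hs, e1, map_one, mul_one, mul_one] at a1
        have hl0 : l ≠ 0 := fun e0 => by rw [e0, R.ν_zero] at hl; exact zero_ne_one hl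
        exact e (mul_left_cancel₀ hl0 (by rw [← a1, mul_comm]))
    · exact R.FA' h3 hN hZ
  obtain ⟨s, hs, e⟩ := this
  exact ⟨s, mem_Z_of_Cn R hz hs e, e⟩

variable {Ω : Type*} [Finite Ω] [MulAction G Ω] (C : Cfg G Ω F K m i)

theorem cjN (g : G) (x : Ω) : cj g (C.N x) = C.N (g • x) := by
  ext n
  rw [mem_cj]
  constructor
  · intro h
    have := C.eqv g x _ h
    rwa [show g * (g⁻¹ * n * g) * g⁻¹ = n by group] at this
  · intro h
    have := C.eqv g⁻¹ _ _ h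
    rwa [inv_smul_smul, inv_inv] at this

theorem conj_N {g n : G} {x : Ω} : g * n * g⁻¹ ∈ C.N (g • x) ↔ n ∈ C.N x := by rw [← cjN, conj_mem_cj]

theorem nmN {g : G} {x : Ω} (h : g • x = x) : g ∈ Nm (C.N x) := cj_eq_iff.1 (by rw [cjN, h])

theorem iv_cj {g t : G} {x : Ω} (h : Iv (C.N x) t) : Iv (C.N (g • x)) (g * t * g⁻¹) := h.conj (C.eqv g x t h.1)

omit [Finite G] [Finite Ω] in
theorem conj_fix {g t : G} {y : Ω} (h : t • y = y) : (g * t * g⁻¹) • g • y = g • y := by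
  rw [mul_smul, inv_smul_smul, mul_smul, h]

omit [Finite G] [Finite Ω] in
theorem conj_fix' {g t : G} {y : Ω} (hg : g • y = y) (h : t • y = y) : (g * t * g⁻¹) • y = y := by
  have := conj_fix (g := g) h
  rwa [hg] at this

/-- `N x` moves every other point. -/
theorem N_moves {x y : Ω} (h : x ≠ y) : ¬ ∀ n ∈ C.N x, n • y = y := fun k => by
  obtain ⟨R⟩ := C.loc x
  refine (R.iv_ζ one_ne_zero).2.1 (C.faith _ fun p => ?_)
  by_cases e : p = x
  · rw [e]; exact C.fix x _ (R.S_le (R.ζ_mem 1))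
  obtain ⟨g, g1, g2⟩ := C.two x y x p h (Ne.symm e)
  have := conj_fix (g := g) (k _ (Nm_conj' (nmN C g1) (R.S_le (R.ζ_mem 1))))
  rwa [g2, show g * (g⁻¹ * R.ζ 1 * g) * g⁻¹ = R.ζ 1 by group] at this

/-- A centralising element fixing the fixed points of one `Z` is trivial. -/
theorem PHI {b : Ω} (hA : ∀ y, y ≠ b → ∃ R : R0 (C.N b) F K m i, ∀ z ∈ R.Z, z • y = y) (R : R0 (C.N b) F K m i)
    {g : G} (hg : g ∈ Cn (C.N b)) (h : ∀ p : Ω, (∀ z ∈ R.Z, z • p = p) → g • p = p) : g = 1 := by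
  refine C.faith g fun y => ?_
  by_cases e : y = b
  · exact h y fun z hz => e ▸ C.fix b z (R.S_le (R.Z_le hz))
  obtain ⟨R', h'⟩ := hA y e
  obtain ⟨n, hn, e1⟩ := R.exists_smul_pt R'.pt
  have e2 : R'.Z = cj n R.Z :=
    ((R.cj n (cj_eq_iff.2 (le_Nm hn))).Z_eq (congrArg Subtype.val e1)).trans (R.cj_Z _ _)
  have e3 : g • n⁻¹ • y = n⁻¹ • y := h _ fun z hz => by
    have := h' (n * z * n⁻¹) (by rw [e2, conj_mem_cj]; exact hz)
    rw [mul_smul, mul_smul] at this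
    exact eq_inv_smul_iff.2 this
  rw [← mul_smul, ← mem_Cn.1 hg _ (inv_mem hn), mul_smul] at e3
  exact smul_left_cancel _ e3

end Cfsg.Agent.H4.PA
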