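import Cfsg.Agent.H4.PA

/-! Piece III: if every `N a ⊓ N b` has even order, each involution of `N a` fixing `b` lies in `N b`. -/

set_option autoImplicit false
set_option linter.unusedSectionVars false
set_option linter.style.haveILetI false

namespace Cfsg.Agent.H4.PA

open Cfsg.Agent.H5.TA Subgroup MulAction

variable {G Ω : Type*} [Group G] [Finite G] [Finite Ω] [MulAction G Ω] {F K : Type} [Field F] [Field K] {m i : ℕ}
  (C : Cfg G Ω F K m i)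

/-- Non-commuting involutions of `N x` fixing `y` lie in `N y` together. -/
theorem ncomm_mem {x y : Ω} {t u : G} (ht : Iv (C.N x) t) (hu : Iv (C.N x) u) (ty : t • y = y) (uy : u • y = y)
    (h : ¬ Commute t u) (hy : t ∈ C.N y) : u ∈ C.N y := by
  obtain ⟨R⟩ := C.loc x
  obtain ⟨k, e⟩ := conj_of_odd ht.2.2 hu.2.2 (R.odd_prod ht hu h)
  have : (t * u) ^ k ∈ stabilizer G y := pow_mem (mul_mem ty uy) k
  exact e ▸ Nm_conj (nmN C this) hy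

section
variable (h1 : ∀ a b, a ≠ b → ∃ t, Iv (C.N a) t ∧ t ∈ C.N b)
  (hb : ∀ x y, x ≠ y → ∃ u, Iv (C.N x) u ∧ u • y = y ∧ u ∉ C.N y)
include h1 hb

theorem step1 {x y : Ω} (h : x ≠ y) {t : G} (ht : Iv (C.N x) t) (ty : t • y = y) (R : R0 (C.N x) F K m i)
    (hR : t ∈ R.S) {v : G} (hv : Iv (C.N x) v) (vy : v • y = y) : v ∈ R.Z := by
  obtain ⟨e, he, ey⟩ := h1 x y h
  obtain ⟨u, hu, uy, un⟩ := hb x y h
  have eu : Commute e u := by
    by_contra k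
    exact un (ncomm_mem C he hu (C.fix y e ey) uy k ey)
  have key : ∀ v, Iv (C.N x) v → v • y = y → Commute v e := fun v hv vy => by
    by_contra k
    have v1 := ncomm_mem C he hv (C.fix y e ey) vy (fun c => k c.symm) ey
    exact un (ncomm_mem C hv hu vy uy (fun c => k (R.comm_trans hv hu he c eu.symm)) v1)
  exact R.iv_mem_Z_of_comm hv hR ht.2.1 (R.comm_trans hv he ht (key v hv vy) (key t ht ty).symm)

theorem caseA (hA : ∀ x y, y ≠ x → ∃ R : R0 (C.N x) F K m i, ∀ z ∈ R.Z, z • y = y) {a b : Ω} (hab : a ≠ b) :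
    False := by
  have fixZ : ∀ x (R : R0 (C.N x) F K m i) (z : G), z ∈ R.Z → z ≠ 1 → ∀ p : Ω, z • p = p →
      ∀ z' ∈ R.Z, z' • p = p := fun x R z hz z1 p hp z' hz' => by
    by_cases e : p = x
    · exact e ▸ C.fix x z' (R.S_le (R.Z_le hz'))
    obtain ⟨R', h'⟩ := hA x p e
    have := step1 C h1 hb (Ne.symm e) (R'.iv_ζ one_ne_zero) (h' _ (R'.ζ_mem_Z 1)) R' (R'.ζ_mem 1)
      ⟨R.S_le (R.Z_le hz), z1, R.Z_sq hz⟩ hp
    exact h' z' (R.Z_eq (R.S_eq_of_mem (R.Z_le hz) (R'.Z_le this) z1) ▸ hz')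
  obtain ⟨t, ht, tb⟩ := h1 a b hab
  obtain ⟨z, hz, zb, zn⟩ := hb a b hab
  obtain ⟨R, rfl⟩ := (C.loc a).some.exists_at ht
  obtain ⟨R', e'⟩ := (C.loc b).some.exists_at (u := R.ζ 1) ⟨tb, ht.2⟩
  have inZ : ∀ v, Iv (C.N a) v → v • b = b → v ∈ R.Z := fun v hv vb =>
    step1 C h1 hb hab ht (C.fix b _ tb) R (R.ζ_mem 1) hv vb
  have zZ := inZ z hz zb
  have Φ : ∀ p : Ω, (∀ c ∈ R'.Z, c • p = p) → z • p = p := fun p hp =>
    fixZ a R _ (R.ζ_mem_Z 1) ht.2.1 p (e' ▸ hp _ (R'.ζ_mem_Z 1)) z zZ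
  have Φa : ∀ c ∈ R'.Z, c • a = a :=
    fixZ b R' _ (R'.ζ_mem_Z 1) (R'.iv_ζ one_ne_zero).2.1 a (e' ▸ C.fix a _ ht.1)
  have zN := nmN C zb
  have zS : z ∈ Nm R'.S := R'.Nm_of_comm zN (R'.ζ_mem 1) (R'.iv_ζ one_ne_zero).2.1
    (e' ▸ R.Z_comm zZ (R.ζ_mem 1))
  obtain ⟨c, hc, hg⟩ := KL R' hz.2.2 zN zS fun h hh => by
    have hN := R'.T_le hh
    have hS := R'.T_le_Nm hh
    have a1 : (h * z * h⁻¹) • a = a := by
      have := Φ (h⁻¹ • a) fun c hc => by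
        have := Φa _ (R'.Z_norm hS hc)
        rw [mul_smul, mul_smul] at this
        exact eq_inv_smul_iff.2 this
      rw [mul_smul, mul_smul, this, smul_inv_smul]
    have a2 : (h * z * h⁻¹) • b = b := conj_fix' (C.fix b h hN) zb
    have a3 := inZ _ (hz.conj (Nm_conj (nmN C a1) hz.1)) (conj_fix' a2 zb)
    have a4 : (z * h * z⁻¹ * h⁻¹) ^ 2 = z * (h * z * h⁻¹ * z * (h * z * h⁻¹)⁻¹) := by
      simp only [mul_inv_rev, inv_inv, hz.inv, pow_two, mul_assoc]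
    refine R'.mem_S_of_two (mul_mem (Nm_conj zN hN) (inv_mem hN))
      (mul_mem (mul_mem (mul_mem zS hS) (inv_mem zS)) (inv_mem hS)) (k := 2) ?_
    rw [show 2 ^ 2 = 2 * 2 from rfl, pow_mul, a4, pow_two]
    exact R.Z_sq (mul_mem zZ a3)
  have := PHI C (hA b) R' hg fun p hp => by rw [mul_smul, Φ p hp, hp c hc]
  exact zn ((eq_inv_of_mul_eq_one_right this) ▸ inv_mem (R'.S_le (R'.Z_le hc)))

variable (hB : ∀ x y, y ≠ x → ∀ R : R0 (C.N x) F K m i, ¬ ∀ z ∈ R.Z, z • y = y)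
include hB

omit h1 hb in
theorem B1 {a b : Ω} {u : G} (hu : Iv (C.N b) u) (un : u ∉ C.N a) (R : R0 (C.N a) F K m i) :
    ¬ ∀ z ∈ R.Z, Commute z u := fun k => by
  have act : ∀ {x : Ω} (R : R0 (C.N x) F K m i), (∀ z ∈ R.Z, Commute z u) →
      (Odd (Nat.card {p : Ω // u ∈ C.N p}) ↔ u ∈ C.N x) := fun {x} R k => by
    letI : MulAction R.Z {p : Ω // u ∈ C.N p} :=
      { smul := fun z p => ⟨(z : G) • p.1, by
          have := C.eqv z p.1 u p.2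
          rwa [(k z z.2).eq, mul_inv_cancel_right] at this⟩
        one_smul := fun p => Subtype.ext (one_smul G p.1)
        mul_smul := fun z z' p => Subtype.ext (mul_smul (z : G) (z' : G) p.1) }
    have hP : IsPGroup 2 R.Z := R.isPGroup_S.to_le R.Z_le
    have hf : ∀ p ∈ fixedPoints R.Z {p : Ω // u ∈ C.N p}, p.1 = x := fun p hp => by
      by_contra e
      exact hB x p e R fun z hz => congrArg Subtype.val (hp ⟨z, hz⟩)
    constructor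
    · intro ho
      obtain ⟨p, hp⟩ := hP.nonempty_fixed_point_of_prime_not_dvd_card _ ho.not_two_dvd_nat
      exact hf p hp ▸ p.2
    · intro hx
      have h2 := hP.card_modEq_card_fixedPoints {p : Ω // u ∈ C.N p}
      have h3 : Nat.card (fixedPoints R.Z {p : Ω // u ∈ C.N p}) = 1 := by
        rw [Nat.card_eq_one_iff_exists]
        exact ⟨⟨⟨x, hx⟩, fun z => Subtype.ext (C.fix x z (R.S_le (R.Z_le z.2)))⟩,
          fun p => Subtype.ext (Subtype.ext (hf p.1 p.2))⟩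
      rw [h3] at h2
      exact Nat.odd_iff.2 h2
  obtain ⟨R', e⟩ := (C.loc b).some.exists_at hu
  exact un ((act R k).1 ((act R' fun z hz => R'.Z_comm hz (e ▸ R'.ζ_mem 1)).2 hu.1))

theorem B2a {a b : Ω} (hab : a ≠ b) (R : R0 (C.N a) F K m i) (tb : R.ζ 1 ∈ C.N b) {u : G} (hu : Iv (C.N b) u)
    (ua : u • a = a) (un : u ∉ C.N a) : ∃ τ : F ≃+* F, (∀ x, u * R.ζ x * u⁻¹ = R.ζ (τ x)) ∧ (∀ x, τ (τ x) = x) ∧
      ∃ x, τ x ≠ x := by
  have ht := R.iv_ζ one_ne_zero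
  obtain ⟨R', e'⟩ := (C.loc b).some.exists_at (u := R.ζ 1) ⟨tb, ht.2⟩
  have := step1 C h1 hb hab.symm (t := R.ζ 1) ⟨tb, ht.2⟩ (C.fix a _ ht.1) R' (e' ▸ R'.ζ_mem 1) hu ua
  obtain ⟨τ, hτ⟩ := SL1 R (nmN C ua) (R'.Z_comm this (e' ▸ R'.ζ_mem 1))
  refine ⟨τ, hτ, ττ R hu.2.2 hτ, ?_⟩
  by_contra k
  push Not at k
  refine B1 C hB hu un R ?_
  rintro _ ⟨x, rfl⟩
  exact (mul_inv_eq_iff_eq_mul.1 ((hτ x).trans (by rw [k]))).symm

theorem B2 {a b : Ω} (hab : a ≠ b) {u u' : G} (hu : Iv (C.N b) u) (ua : u • a = a) (un : u ∉ C.N a)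
    (hu' : Iv (C.N b) u') (ua' : u' • a = a) (un' : u' ∉ C.N a) : u * u' ∈ C.N a := by
  obtain ⟨t, ht, tb⟩ := h1 a b hab
  obtain ⟨R, rfl⟩ := (C.loc a).some.exists_at ht
  obtain ⟨τ, a1, a2, a3⟩ := B2a C h1 hb hB hab R tb hu ua un
  obtain ⟨τ', b1, b2, b3⟩ := B2a C h1 hb hB hab R tb hu' ua' un'
  haveI := R.finF
  haveI := R.charF
  have e := aut_uniq τ τ' a2 b2 a3 b3
  by_cases h0 : u * u' = 1
  · exact h0 ▸ one_mem _
  by_contra k
  obtain ⟨R', e'⟩ := (C.loc b).some.exists_at hu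
  have c := step1 C h1 hb hab.symm hu ua R' (e' ▸ R'.ζ_mem 1) hu' ua'
  refine B1 C hB (u := u * u') ⟨mul_mem hu.1 hu'.1, h0, R'.Z_sq (mul_mem (e' ▸ R'.ζ_mem_Z 1) c)⟩ k R ?_
  rintro _ ⟨x, rfl⟩
  refine (mul_inv_eq_iff_eq_mul.1 ?_ : Commute (u * u') (R.ζ x)).symm
  calc u * u' * R.ζ x * (u * u')⁻¹ = u * (u' * R.ζ x * u'⁻¹) * u⁻¹ := by group
    _ = _ := by rw [b1, a1, e, b2]

theorem caseB {a b : Ω} (hab : a ≠ b) : False := by
  obtain ⟨t, ht, tb⟩ := h1 a b hab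
  obtain ⟨u, hu, ua, un⟩ := hb b a hab.symm
  obtain ⟨R, rfl⟩ := (C.loc a).some.exists_at ht
  obtain ⟨τ, a1, a2, a3⟩ := B2a C h1 hb hB hab R tb hu ua un
  have inZ : ∀ v, Iv (C.N a) v → v • b = b → v ∈ R.Z := fun v hv vb =>
    step1 C h1 hb hab ht (C.fix b _ tb) R (R.ζ_mem 1) hv vb
  obtain ⟨R', e'⟩ := (C.loc b).some.exists_at hu
  have Eu : ∀ x, R.ζ x ∈ C.N b → τ x = x := fun x hx => by
    by_cases h0 : x = 0
    · rw [h0, map_zero]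
    have := step1 C h1 hb hab.symm hu ua R' (e' ▸ R'.ζ_mem 1) ⟨hx, (R.iv_ζ h0).2⟩ (C.fix a _ (R.iv_ζ h0).1)
    refine R.ζ_inj ?_
    rw [← a1, ← R'.Z_comm this (e' ▸ R'.ζ_mem 1), mul_inv_cancel_right]
  have B3 : ∃ x, R.ζ x • b ≠ b ∧ R.ζ (τ x + x) ∈ C.N b := by
    by_contra k
    push Not at k
    have k' : ∀ x, R.ζ (τ x + x) ∈ C.N b → R.ζ x • b = b := fun x hx => by
      by_contra e
      exact k x e hx
    obtain ⟨x0, h0⟩ := trace_surj R.twoF τ a2 a3 (map_one τ)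
    have n0 : τ x0 ≠ x0 := fun e => by rw [e, R.addF] at h0; exact zero_ne_one h0
    have x00 : x0 ≠ 0 := fun e => n0 (by rw [e, map_zero])
    have key : ∀ y, τ y = y → R.ζ y ∈ C.N b := fun y hy => by
      by_contra yn
      have y0 : y ≠ 0 := fun e => yn (by rw [e, R.ζ_zero]; exact one_mem _)
      have := B2 C h1 hb hB hab.symm (R.iv_ζ y0) (k' y (by rw [hy, R.addF, R.ζ_zero]; exact one_mem _)) yn
        (R.iv_ζ x00) (k' x0 (h0 ▸ tb)) (fun e => n0 (Eu x0 e))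
      rw [← R.ζ_add] at this
      have := Eu _ this
      rw [map_add, hy] at this
      exact n0 (add_left_cancel this)
    refine hB a b hab.symm R ?_
    rintro _ ⟨x, rfl⟩
    exact k' x (key _ (by rw [map_add, a2, add_comm]))
  obtain ⟨x, hy, he⟩ := B3
  have zN := R.S_le (R.ζ_mem x)
  have e1 : R.ζ x * u * (R.ζ x)⁻¹ = u * R.ζ (τ x + x) := by
    rw [R.ζ_add, ← a1, hu.inv, R.ζ_inv, ← mul_assoc, ← mul_assoc, ← mul_assoc, hu.2.2, one_mul]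
  obtain ⟨g, g1, g2⟩ := C.two b a b (R.ζ x • b) hab.symm (Ne.symm hy)
  have sub : {v | Iv (C.N b) v ∧ v ∈ C.N a} ⊂ {v | Iv (C.N b) v ∧ v ∈ C.N (R.ζ x • b)} := by
    refine ⟨fun v hv => ⟨hv.1, ?_⟩, fun k => ?_⟩
    · have := C.eqv (R.ζ x) b v hv.1.1
      rwa [← R.Z_comm (inZ v ⟨hv.2, hv.1.2⟩ (C.fix b v hv.1.1)) (R.ζ_mem x), mul_inv_cancel_right] at this
    · have := (k (a := R.ζ x * u * (R.ζ x)⁻¹) ⟨hu.conj (e1 ▸ mul_mem hu.1 he), C.eqv _ b u hu.1⟩).2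
      exact un ((mul_mem_cancel_left zN).1 ((mul_mem_cancel_right (inv_mem zN)).1 this))
  have lt := Set.ncard_lt_ncard sub (Set.toFinite _)
  have le : {v | Iv (C.N b) v ∧ v ∈ C.N (R.ζ x • b)}.ncard ≤ {v | Iv (C.N b) v ∧ v ∈ C.N a}.ncard := by
    refine Set.ncard_le_ncard_of_injOn (fun v => g⁻¹ * v * g⁻¹⁻¹) (fun v hv => ⟨?_, ?_⟩)
      (fun v _ v' _ e => mul_left_cancel (mul_right_cancel e)) (Set.toFinite _)
    · exact hv.1.conj (Nm_conj (inv_mem (nmN C g1)) hv.1.1)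
    · have := C.eqv g⁻¹ _ v hv.2
      rwa [← g2, inv_smul_smul] at this
  omega

end

theorem pieceIII (h1 : ∀ a b, a ≠ b → ∃ t, Iv (C.N a) t ∧ t ∈ C.N b) :
    ∀ a b t, Iv (C.N a) t → t • b = b → t ∈ C.N b := by
  intro a b u hu ub
  by_contra un
  have hab : a ≠ b := fun e => un (e ▸ hu.1)
  have hb : ∀ x y, x ≠ y → ∃ u, Iv (C.N x) u ∧ u • y = y ∧ u ∉ C.N y := fun x y h => by
    obtain ⟨g, rfl, rfl⟩ := C.two a b x y hab h
    exact ⟨_, iv_cj C hu, conj_fix ub, fun k => un ((conj_N C).1 k)⟩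
  by_cases hB : ∀ x y, y ≠ x → ∀ R : R0 (C.N x) F K m i, ¬ ∀ z ∈ R.Z, z • y = y
  · exact caseB C h1 hb hB hab
  push Not at hB
  obtain ⟨x, y, h, R, hR⟩ := hB
  refine caseA C h1 hb (fun x' y' h' => ?_) hab
  obtain ⟨g, rfl, rfl⟩ := C.two x y x' y' h.symm h'.symm
  refine ⟨R.cj g (cjN C g x), fun z hz => ?_⟩
  rw [R.cj_Z, mem_cj] at hz
  have := conj_fix (g := g) (hR _ hz)
  rwa [show g * (g⁻¹ * z * g) * g⁻¹ = z by group] at this

end Cfsg.Agent.H4.PA
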