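import Cfsg.Agent.H4.PA

/-! Piece II: the case `|N a ⊓ G_b|` even, `|N a ⊓ N b|` odd does not occur. -/

set_option autoImplicit false
set_option linter.unusedSectionVars false
set_option linter.style.haveILetI false

namespace Cfsg.Agent.H4.PA

open Cfsg.Agent.H5.TA Subgroup MulAction

variable {G : Type*} [Group G] [Finite G] {F K : Type} [Field F] [Field K] {m i : ℕ}

theorem exists_iv_pow {g : G} (h : ¬ Odd (orderOf g)) : ∃ n, g ^ n ≠ 1 ∧ g ^ n * g ^ n = 1 := by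
  obtain ⟨n, hn⟩ := Nat.not_odd_iff_even.1 h
  have h0 := orderOf_pos g
  exact ⟨n, fun e => absurd (Nat.le_of_dvd (by omega) (orderOf_dvd_of_pow_eq_one e)) (by omega),
    by rw [← pow_add, ← hn, pow_orderOf_eq_one]⟩

section loc
variable {N : Subgroup G} (R : R0 N F K m i)
include R

/-- A field with an involutory automorphism fixing only `0` and `1` has at most four elements. -/
theorem m_eq_two (τ : F ≃+* F) (h : ∀ x, τ (τ x) = x) (h1 : ∀ x, τ x = x → x = 0 ∨ x = 1) : m = 2 := by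
  haveI := R.finF
  let f : F →+ F := τ.toAddMonoidHom + AddMonoidHom.id F
  have hf : ∀ x, f x = τ x + x := fun _ => rfl
  have a : ∀ A : AddSubgroup F, (∀ x ∈ A, τ x = x) → Nat.card A ≤ 2 := fun A hA => by
    have : (A : Set F) ⊆ {0, 1} := fun x hx => h1 x (hA x hx)
    exact (Set.ncard_le_ncard this (Set.toFinite _)).trans (Set.ncard_pair zero_ne_one).le
  have k1 := a f.ker fun x hx => by
    have : τ x + x = 0 := hx
    linear_combination this - R.addF x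
  have k2 := a f.range (by
    rintro _ ⟨x, rfl⟩
    rw [hf, map_add, h, add_comm])
  have k3 : Nat.card F = Nat.card f.range * Nat.card f.ker := by
    rw [AddSubgroup.card_eq_card_quotient_mul_card_addSubgroup f.ker,
      Nat.card_congr (QuotientAddGroup.quotientKerEquivRange f).toEquiv]
  have k4 : 2 ^ m ≤ 2 ^ 2 := by rw [← R.cardF, k3]; exact Nat.mul_le_mul k2 k1
  have := (Nat.pow_le_pow_iff_right one_lt_two).1 k4
  have := R.hm
  omega

/-- On a field with four elements every automorphism is an involution. -/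
theorem aut_four (hm : m = 2) (τ : F ≃+* F) (x : F) : τ (τ x) = x := by
  haveI := R.finF
  haveI := Fintype.ofFinite F
  have hc : Fintype.card F = 4 := by rw [← Nat.card_eq_fintype_card, R.cardF, hm]; rfl
  have h4 : ∀ y : F, y ^ 4 = y := fun y => hc ▸ FiniteField.pow_card y
  by_cases h0 : x = 0
  · simp [h0]
  by_cases h1 : x = 1
  · simp [h1]
  have e : x ^ 2 + x + 1 = 0 := mul_left_cancel₀ (mul_ne_zero h0 (sub_ne_zero.2 h1)) (by linear_combination h4 x)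
  have e' := congrArg τ e
  rw [map_add, map_add, map_pow, map_one, map_zero] at e'
  have : (τ x - x) * (τ x - (x + 1)) = 0 := by
    linear_combination e' + e - (τ x * x + τ x + 1) * R.twoF
  rcases mul_eq_zero.1 this with k | k
  · rw [sub_eq_zero.1 k, sub_eq_zero.1 k]
  · rw [sub_eq_zero.1 k, map_add, sub_eq_zero.1 k, map_one]
    linear_combination R.twoF

/-- An involution acting on `Z` as a non-trivial field automorphism centralises an element of order four. -/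
theorem exists_cent (h1 : i ≠ 1) {z : G} (hz : z * z = 1) (hg : z ∈ Nm R.S) {τ : F ≃+* F}
    (hτ : ∀ x, z * R.ζ x * z⁻¹ = R.ζ (τ x)) (h : ∃ x, τ x ≠ x) : ∃ s ∈ R.S, s ∉ R.Z ∧ z * s * z⁻¹ = s := by
  have zz : ∀ s, z * (z * s * z⁻¹) * z⁻¹ = s := fun s => by
    rw [show z * (z * s * z⁻¹) * z⁻¹ = (z * z) * s * (z * z)⁻¹ by group, hz]; simp
  obtain ⟨s, hs, h0, e⟩ : ∃ s ∈ R.S, R.ω s ≠ 0 ∧ R.ω (z * s * z⁻¹) = R.ω s := by
    obtain ⟨s, hs, e⟩ := R.ω_surj h1 1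
    by_cases k : R.ω (z * s * z⁻¹) = R.ω s
    · exact ⟨s, hs, e ▸ one_ne_zero, k⟩
    have h2 := Nm_conj hg hs
    refine ⟨_, mul_mem h2 hs, fun e0 => k ?_, ?_⟩
    · rw [R.ω_mul _ h2 _ hs] at e0
      linear_combination e0 - R.addK (R.ω s)
    · rw [← conj_mul, zz, R.ω_mul _ hs _ h2, R.ω_mul _ h2 _ hs, add_comm]
  obtain ⟨φ, hφ⟩ := (R.ω_eq_iff (Nm_conj hg hs) hs).1 e
  have e1 : τ φ = φ := by
    have := zz s
    rw [hφ, ← conj_mul, hτ, hφ, ← mul_assoc, ← R.ζ_add, mul_eq_right, R.ζ_eq_one] at this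
    linear_combination this - R.addF φ
  obtain ⟨x, hx⟩ := trace_surj R.twoF τ (ττ R hz hτ) h e1
  refine ⟨_, mul_mem (R.ζ_mem x) hs, fun k => h0 ((R.ω_eq_zero hs).2 ((mul_mem_cancel_left (R.ζ_mem_Z x)).1 k)), ?_⟩
  rw [← conj_mul, hτ, hφ, ← mul_assoc, ← R.ζ_add, ← hx]
  congr 2
  linear_combination R.addF (τ x)

/-- In type `L₂` such an involution fixes a second point. -/
theorem exists_pt2 (h1 : i = 1) {z : G} (hz : z * z = 1) (hN : z ∈ Nm N) (hg : z ∈ Nm R.S) {τ : F ≃+* F}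
    (hτ : ∀ x, z * R.ζ x * z⁻¹ = R.ζ (τ x)) (h : ∃ x, τ x ≠ x) :
    ∃ p : Pt N F K m i, p ≠ R.pt ∧ (⟨z, hN⟩ : Nm N) • p = p := by
  obtain ⟨s, hs, e⟩ := R.exists_fix' hN hg
  obtain ⟨φ, rfl⟩ : s ∈ R.Z := R.S_eq_Z h1 ▸ hs
  have zi : z⁻¹ = z := inv_eq_of_mul_eq_one_right hz
  have e1 : τ φ = φ := by
    have a : nm (R.S_le (R.ζ_mem (φ + τ φ))) = (nm (R.S_le hs) * ⟨z, hN⟩) * (nm (R.S_le hs) * ⟨z, hN⟩) :=
      Subtype.ext (by
        change R.ζ (φ + τ φ) = R.ζ φ * z * (R.ζ φ * z)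
        rw [R.ζ_add, ← hτ, zi]; group)
    by_contra k
    refine R.pt'_ne (R.S_fix (R.ζ_mem (φ + τ φ)) (fun e0 => k ?_) (by rw [a, mul_smul, e, e]))
    linear_combination R.ζ_eq_one.1 e0 - R.addF φ
  obtain ⟨x, hx⟩ := trace_surj R.twoF τ (ττ R hz hτ) h e1
  refine ⟨_, R.S_smul_ne (R.ζ_mem x), ?_⟩
  have a : (⟨z, hN⟩ : Nm N) * nm (R.S_le (R.ζ_mem x)) = nm (R.S_le (R.ζ_mem x)) * (nm (R.S_le hs) * ⟨z, hN⟩) :=
    Subtype.ext (by
      change z * R.ζ x = R.ζ x * (R.ζ φ * z)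
      rw [← mul_assoc, ← R.ζ_add, ← hx, show x + (τ x + x) = τ x by linear_combination R.addF x, ← hτ]; group)
  rw [← mul_smul, a, mul_smul, e]

/-- An involution normalising `S` centralises an involution of `S`. -/
theorem exists_iv_cent {z : G} (hz : z * z = 1) (hg : z ∈ Nm R.S) : ∃ u ∈ R.Z, u ≠ 1 ∧ Commute z u := by
  have zi : z⁻¹ = z := inv_eq_of_mul_eq_one_right hz
  by_cases k : z * R.ζ 1 * z⁻¹ = R.ζ 1
  · exact ⟨_, R.ζ_mem_Z 1, (R.iv_ζ one_ne_zero).2.1, mul_inv_eq_iff_eq_mul.1 k⟩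
  have h2 := R.Z_norm hg (R.ζ_mem_Z 1)
  refine ⟨_, mul_mem h2 (R.ζ_mem_Z 1), fun e => k (by rw [eq_inv_of_mul_eq_one_left e, R.ζ_inv]),
    mul_inv_eq_iff_eq_mul.1 ?_⟩
  rw [← conj_mul, R.Z_comm h2 (R.ζ_mem 1), show z * (z * R.ζ 1 * z⁻¹) * z⁻¹ = (z * z) * R.ζ 1 * (z * z)⁻¹ by group, hz]
  simp

/-- In type `L₂` the centraliser of an involution is elementary abelian. -/
theorem cent_sq (h1 : i = 1) {v g : G} (hv : Iv N v) (hg : g ∈ N) (h : Commute g v) : g * g = 1 := by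
  obtain ⟨R', rfl⟩ := R.exists_at hv
  obtain ⟨s, hs, t, ht, rfl⟩ := (R'.mem_B hg).1 (R'.mem_B_of_comm hg (R'.ζ_mem 1) hv.2.1 h)
  have e : t * R'.ζ 1 * t⁻¹ = R'.ζ 1 := by
    calc _ = s⁻¹ * (s * t * R'.ζ 1 * (s * t)⁻¹) * s := by group
      _ = _ := by rw [h.eq, mul_inv_cancel_right, mul_assoc, R'.ζ_comm 1 s hs, inv_mul_cancel_left]
  rw [R'.ψ_inj t ht (R'.ν_inj (by omega) ((R'.T_cent ht (R'.ζ_mem 1) hv.2.1 e).trans R'.ν_one.symm)), mul_one]
  exact R'.Z_sq (R'.S_eq_Z h1 ▸ hs)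

/-- An element of odd order inverted by an element of `S` does not normalise `S`. -/
theorem inv_moves {d u : G} (hd : d ∈ N) (ho : Odd (orderOf d)) (h1 : d ≠ 1) (hu : u ∈ R.S)
    (h : u * d * u⁻¹ = d⁻¹) : d ∉ Nm R.S := fun k => by
  have : d ^ 2 ^ 1 = d * u⁻¹ * d⁻¹ * u := by
    have : d * u⁻¹ * d⁻¹ * u = d * (u⁻¹ * (u * d * u⁻¹) * u) := by rw [h]; group
    rw [this, pow_one, pow_two]; group
  exact h1 (eq_one_of_odd_two ho (R.pow_four (R.mem_S_of_pow hd k (this ▸ mul_mem (Nm_conj k (inv_mem hu)) hu))))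

end loc

omit [Finite G] in
theorem fix_of_sq {X : Type*} [MulAction G X] {d : G} (ho : Odd (orderOf d)) {p : X} (h : (d * d) • p = p) :
    d • p = p := by
  obtain ⟨k, hk⟩ := ho
  have : (d * d) ^ (k + 1) ∈ stabilizer G p := pow_mem h _
  rwa [← pow_two, ← pow_mul, show 2 * (k + 1) = 2 * k + 1 + 1 by ring, pow_succ, ← hk, pow_orderOf_eq_one,
    one_mul] at this

omit [Finite G] in
theorem six_le {X : Type*} [Finite X] [MulAction G X] {d z : G} (ho : Odd (orderOf d)) (h : z * d * z⁻¹ = d⁻¹)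
    {p q : X} (hpq : p ≠ q) (zp : z • p = p) (zq : z • q = q) (dp : d • p ≠ p) (dq : d • q ≠ q) :
    6 ≤ Nat.card X := by
  have a : ∀ k : ℤ, d ^ k • p ≠ q := fun k e => by
    have e1 : z * d ^ k * z⁻¹ = (d ^ k)⁻¹ := by rw [← conj_zpow, h, inv_zpow]
    have e2 : (d ^ k)⁻¹ • p = q := by rw [← e1, mul_smul, mul_smul, inv_smul_eq_iff.2 zp.symm, e, zq]
    have e3 : Odd (orderOf (d ^ k)) := ho.of_dvd_nat (orderOf_dvd_of_mem_zpowers ⟨k, rfl⟩)
    have := fix_of_sq e3 (p := q) (by rw [mul_smul, ← e2, smul_inv_smul, e, e2])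
    exact hpq (smul_left_cancel _ (e.trans this.symm))
  have b : ∀ p : X, d • p ≠ p → Function.Injective fun j : Fin 3 => d ^ (j : ℕ) • p := fun p dp => by
    have d2 : (d * d) • p ≠ p := fun e => dp (fix_of_sq ho e)
    have d3 : (d * d) • p ≠ d • p := fun e => dp (smul_left_cancel d (by rwa [← mul_smul]))
    intro j j' e
    fin_cases j <;> fin_cases j' <;>
      simp only [pow_zero, pow_one, pow_two, one_smul, Fin.zero_eta, Fin.mk_one, Fin.reduceFinMk] at e ⊢ <;>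
      first | rfl | exact absurd e dp | exact absurd e.symm dp | exact absurd e d2 | exact absurd e.symm d2 |
        exact absurd e d3 | exact absurd e.symm d3
  have c : Function.Injective (Sum.elim (fun j : Fin 3 => d ^ (j : ℕ) • p) fun j : Fin 3 => d ^ (j : ℕ) • q) :=
    (b p dp).sumElim (b q dq) fun j j' e => a (-(j' : ℕ) + (j : ℕ)) (by
      rw [zpow_add, zpow_neg, zpow_natCast, zpow_natCast, mul_smul, e, inv_smul_smul])
  simpa using Nat.card_le_card_of_injective _ c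

end Cfsg.Agent.H4.PA
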