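import Cfsg.Agent.H4.PC

/-! Piece II: the case `|N a ⊓ G_b|` even, `|N a ⊓ N b|` odd does not occur. -/

set_option autoImplicit false
set_option linter.unusedSectionVars false
set_option linter.style.haveILetI false

namespace Cfsg.Agent.H4.PA

open Cfsg.Agent.H5.TA Subgroup MulAction

variable {G Ω : Type*} [Group G] [Finite G] [Finite Ω] [MulAction G Ω] {F K : Type} [Field F] [Field K] {m i : ℕ}
  (C : Cfg G Ω F K m i) (h2 : ∀ a b t, a ≠ b → Iv (C.N a) t → t ∉ C.N b)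
include h2

theorem fix_of_comm {a : Ω} {t g : G} (ht : Iv (C.N a) t) (h : Commute g t) : g • a = a := by
  by_contra k
  have := C.eqv g a t ht.1
  rw [h.eq, mul_inv_cancel_right] at this
  exact h2 a _ t (Ne.symm k) ht this

theorem odd_D {a b : Ω} (hab : a ≠ b) {g : G} (ga : g ∈ C.N a) (gb : g ∈ C.N b) : Odd (orderOf g) := by
  by_contra k
  obtain ⟨n, e⟩ := exists_iv_pow k
  exact h2 a b _ hab ⟨pow_mem ga n, e⟩ (pow_mem gb n)

theorem exists_comm {a b : Ω} (hab : a ≠ b) {t t' : G} (ht : Iv (C.N a) t) (tb : t • b = b) (ht' : Iv (C.N b) t')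
    (ta : t' • a = a) : ∃ u, Iv (C.N b) u ∧ Commute t u := by
  have da : (t * t') ^ 2 ∈ C.N a := by
    have := mul_mem ht.1 (Nm_conj (nmN C ta) ht.1)
    rwa [ht'.inv, ← mul_assoc, ← mul_assoc, mul_assoc (t * t'), ← pow_two] at this
  have db : (t * t') ^ 2 ∈ C.N b := by
    have := mul_mem (Nm_conj (nmN C tb) ht'.1) ht'.1
    rwa [ht.inv, mul_assoc (t * t'), ← pow_two] at this
  obtain ⟨k, hk⟩ := odd_D C h2 hab da db
  have e0 := pow_orderOf_eq_one ((t * t') ^ 2)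
  rw [hk, ← pow_mul, mul_comm, pow_mul, pow_two] at e0
  have e1 : t * (t * t') * t⁻¹ = (t * t')⁻¹ := by rw [mul_inv_rev, ht.inv, ht'.inv, ← mul_assoc, ht.2.2, one_mul]
  have e2 : t * (t * t') ^ (2 * k + 1) * t⁻¹ = (t * t') ^ (2 * k + 1) := by
    rw [← conj_pow, e1, inv_pow, inv_eq_of_mul_eq_one_right e0]
  have c : Commute t ((t * t') ^ (2 * k + 1)) := mul_inv_eq_iff_eq_mul.1 e2
  have e3 : t * (t * t') ^ (2 * k + 1) = t' * ((t * t') ^ 2) ^ k := by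
    rw [pow_succ', pow_mul, ← mul_assoc, ← mul_assoc, ht.2.2, one_mul]
  refine ⟨t * (t * t') ^ (2 * k + 1), ⟨e3 ▸ mul_mem ht'.1 (pow_mem db k), fun e => ?_, ?_⟩,
    (Commute.refl t).mul_right c⟩
  · rw [e3] at e
    exact h2 b a t' hab.symm ht' (eq_inv_of_mul_eq_one_left e ▸ inv_mem (pow_mem da k))
  · rw [(Commute.mul_mul_mul_comm c.symm t _), ht.2.2, e0, one_mul]

/-- Elements of `S` fixing `b` commute with the elements of `N b` normalising `S`. -/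
theorem comm_TT {a b : Ω} (hab : a ≠ b) (R : R0 (C.N a) F K m i) {s g : G} (hs : s ∈ R.S) (sb : s • b = b)
    (gb : g ∈ C.N b) (hg : g ∈ Nm R.S) : Commute s g := by
  have a1 : s * (g * s⁻¹ * g⁻¹) ∈ R.S := mul_mem hs (Nm_conj hg (inv_mem hs))
  have a2 : s * (g * s⁻¹ * g⁻¹) ∈ C.N b := by
    have := mul_mem (Nm_conj (nmN C sb) gb) (inv_mem gb)
    rwa [show s * g * s⁻¹ * g⁻¹ = s * (g * s⁻¹ * g⁻¹) by group] at this
  have := eq_one_of_odd_two (odd_D C h2 hab (R.S_le a1) a2) (R.pow_four a1)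
  calc s * g = s * (g * s⁻¹ * g⁻¹) * (g * s) := by group
    _ = g * s := by rw [this, one_mul]

section
variable {a b : Ω} (hab : a ≠ b) (R : R0 (C.N a) F K m i) (R' : R0 (C.N b) F K m i)
  (hc : Commute (R.ζ 1) (R'.ζ 1))
include hab hc

theorem comm_ST {s s' : G} (hs : s ∈ R.S) (sb : s • b = b) (hs' : s' ∈ R'.S) (sa : s' • a = a) : Commute s s' := by
  have z := R.iv_ζ one_ne_zero
  have z' := R'.iv_ζ one_ne_zero
  have c := comm_TT C h2 hab.symm R' hs' sa z.1 (R'.Nm_of_comm (nmN C (fix_of_comm C h2 z' hc)) (R'.ζ_mem 1) z'.2.1 hc)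
  exact comm_TT C h2 hab R hs sb (R'.S_le hs') (R.Nm_of_comm (nmN C sa) (R.ζ_mem 1) z.2.1 c)

/-- If `ζ 1` does not centralise `Z'` then it is the only involution of `Z` fixing `b`. -/
theorem only_one (h : ¬ ∀ y, Commute (R.ζ 1) (R'.ζ y)) {x : F} (hx : R.ζ x • b = b) : x = 0 ∨ x = 1 := by
  have z := R.iv_ζ one_ne_zero
  have z' := R'.iv_ζ one_ne_zero
  have zb := fix_of_comm C h2 z' hc
  have za := fix_of_comm C h2 z hc.symm
  have key : ∀ x, x ≠ 0 → R.ζ x • b = b → ∃ τ : F ≃+* F, (∀ y, R.ζ x * R'.ζ y * (R.ζ x)⁻¹ = R'.ζ (τ y)) ∧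
      (∀ y, τ (τ y) = y) ∧ ∃ y, τ y ≠ y := fun x h0 hx => by
    obtain ⟨τ, hτ⟩ := SL1 R' (nmN C hx) (comm_ST C h2 hab R R' hc (R.ζ_mem x) hx (R'.ζ_mem 1) za)
    refine ⟨τ, hτ, ττ R' (R.ζ_sq x) hτ, ?_⟩
    by_contra k
    push Not at k
    refine h fun y => comm_ST C h2 hab R R' hc (R.ζ_mem 1) zb (R'.ζ_mem y) (fix_of_comm C h2 (R.iv_ζ h0) ?_)
    exact (mul_inv_eq_iff_eq_mul.1 ((hτ y).trans (by rw [k])) : Commute (R.ζ x) (R'.ζ y)).symm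
  by_contra k
  push Not at k
  have k1 : x + 1 ≠ 0 := fun e => k.2 (by linear_combination e - R.twoF)
  obtain ⟨τ, a1, a2, a3⟩ := key x k.1 hx
  obtain ⟨τ', b1, b2, b3⟩ := key 1 one_ne_zero zb
  obtain ⟨τ'', c1, -, y, c3⟩ := key (x + 1) k1 (by rw [R.ζ_add, mul_smul, zb, hx])
  haveI := R.finF
  haveI := R.charF
  refine c3 (R'.ζ_inj ?_)
  rw [← c1, R.ζ_add, show R.ζ x * R.ζ 1 * R'.ζ y * (R.ζ x * R.ζ 1)⁻¹ =
    R.ζ x * (R.ζ 1 * R'.ζ y * (R.ζ 1)⁻¹) * (R.ζ x)⁻¹ by group, b1, a1, aut_uniq τ τ' a2 b2 a3 b3, b2]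

theorem sym_cent (h : ∀ y, Commute (R.ζ 1) (R'.ζ y)) (x : F) : Commute (R'.ζ 1) (R.ζ x) := by
  by_contra k
  obtain ⟨y, y0, y1⟩ := R.exists_F
  rcases only_one C h2 hab.symm R' R hc.symm (fun e => k (e x))
    (fix_of_comm C h2 (R.iv_ζ one_ne_zero) (h y).symm) with e | e
  exacts [y0 e, y1 e]

/-- In the centralising case `S'` fixes `a`. -/
theorem S_fix_of_cent (h : ∀ y, Commute (R.ζ 1) (R'.ζ y)) : ∀ s ∈ R'.S, s • a = a := by
  have zb : ∀ x, R.ζ x • b = b := fun x =>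
    fix_of_comm C h2 (R'.iv_ζ one_ne_zero) (sym_cent C h2 hab R R' hc h x).symm
  have za : ∀ y, R'.ζ y • a = a := fun y => fix_of_comm C h2 (R.iv_ζ one_ne_zero) (h y).symm
  have c : ∀ x y, R.ζ x * R'.ζ y * (R.ζ x)⁻¹ = R'.ζ y := fun x y =>
    mul_inv_eq_iff_eq_mul.2 (comm_ST C h2 hab R R' hc (R.ζ_mem x) (zb x) (R'.ζ_mem y) (za y))
  have nS : ∀ x, R.ζ x ∈ Nm R'.S := fun x => R'.Nm_of_mem (nmN C (zb x)) (R'.ζ_mem 1) (R'.iv_ζ one_ne_zero).2.1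
    (by rw [c]; exact R'.ζ_mem 1)
  obtain ⟨x, h0, s, hs, e⟩ : ∃ x, x ≠ 0 ∧ ∃ s ∈ R'.S, s * R.ζ x ∈ Cn (C.N b) := by
    by_cases h3 : i = 3
    swap
    · exact ⟨1, one_ne_zero, R'.FA' h3 (nmN C (zb 1)) (c 1)⟩
    by_contra k
    have key : ∀ x, x ≠ 0 → ∃ l, l ≠ 0 ∧ ∀ s ∈ R'.S, R'.ω (R.ζ x * s * (R.ζ x)⁻¹) = l * R'.θ (R'.ω s) := fun x h0 => by
      obtain ⟨l, hl, e | e⟩ := R'.W_cases (nS x) (c x)
      · refine (k ⟨x, h0, R'.FA (nmN C (zb x)) (nS x) (c x) fun s hs => ?_⟩).elim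
        rw [e s hs, scal_one R' (by omega) (R.ζ_sq x) (nS x) e, one_mul]
      · exact ⟨l, fun e0 => by rw [e0, R'.ν_zero] at hl; exact zero_ne_one hl, e⟩
    obtain ⟨y, y0, y1⟩ := R.exists_F
    obtain ⟨l1, -, e1⟩ := key y y0
    obtain ⟨l2, -, e2⟩ := key 1 one_ne_zero
    obtain ⟨l3, h3', e3⟩ := key (y + 1) fun e => y1 (by linear_combination e - R.twoF)
    have e4 : ∀ v, l3 * R'.θ v = l1 * R'.θ l2 * v := fun v => by
      obtain ⟨s, hs, rfl⟩ := R'.ω_surj (by omega) v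
      rw [← e3 s hs, R.ζ_add, show R.ζ y * R.ζ 1 * s * (R.ζ y * R.ζ 1)⁻¹ =
        R.ζ y * (R.ζ 1 * s * (R.ζ 1)⁻¹) * (R.ζ y)⁻¹ by group, e1 _ (Nm_conj (nS 1) hs), e2 s hs, map_mul, R'.θθ h3,
        mul_assoc]
    obtain ⟨t, -, ht⟩ := θ_ne R' h3
    have e5 := e4 1
    rw [map_one, mul_one, mul_one] at e5
    exact ht (mul_left_cancel₀ h3' (by rw [e4, e5]))
  have hz := mem_Z_of_Cn R' (R.ζ_sq x) hs e
  intro s' hs'
  refine fix_of_comm C h2 (R.iv_ζ h0) (mul_left_cancel (a := s) ?_)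
  rw [← mul_assoc, R'.Z_comm hz hs', mul_assoc, mem_Cn.1 e s' (R'.S_le hs'), mul_assoc]

theorem case_cent (h : ∀ y, Commute (R.ζ 1) (R'.ζ y)) : False := by
  have Sa := S_fix_of_cent C h2 hab R R' hc h
  have Sb := S_fix_of_cent C h2 hab.symm R' R hc.symm (sym_cent C h2 hab R R' hc h)
  have hA : ∀ x y, y ≠ x → ∃ R : R0 (C.N x) F K m i, ∀ s ∈ R.S, s • y = y := fun x y e => by
    obtain ⟨g, rfl, rfl⟩ := C.two a b x y hab e.symm
    refine ⟨R.cj g (cjN C g a), fun z hz => ?_⟩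
    rw [R.cj_S, mem_cj] at hz
    have := conj_fix (g := g) (Sb _ hz)
    rwa [show g * (g⁻¹ * z * g) * g⁻¹ = z by group] at this
  have hB : ∀ x y, y ≠ x → ∀ R : R0 (C.N x) F K m i, (∀ s ∈ R.S, s • y = y) → ∀ g : G, g • x = x → g • y = y →
      g ∈ Nm R.S := fun x y e R hR g gx gy => by
    by_contra k
    exact N_moves C e.symm (R.G1 (M := stabilizer G y) hR gy (nmN C gx) k)
  have z := R.iv_ζ one_ne_zero
  have z' := R'.iv_ζ one_ne_zero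
  obtain ⟨c, hc1, hg⟩ := R'.inner_of_S (nmN C (Sb _ (R.ζ_mem 1))) fun s hs =>
    mul_inv_eq_iff_eq_mul.2 (comm_ST C h2 hab R R' hc (R.ζ_mem 1) (Sb _ (R.ζ_mem 1)) hs (Sa s hs))
  obtain ⟨c', hc1', hg'⟩ := R.inner_of_S (nmN C (Sa _ (R'.ζ_mem 1))) fun s hs =>
    mul_inv_eq_iff_eq_mul.2 (comm_ST C h2 hab R R' hc hs (Sb s hs) (R'.ζ_mem 1) (Sa _ (R'.ζ_mem 1))).symm
  have c1 : c' ≠ 1 := fun e => by
    rw [e, one_mul] at hg'
    exact N_moves C hab fun n hn => fix_of_comm C h2 z' (mem_Cn.1 hg' n hn)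
  have := PHI C (fun y e => (hA b y e).imp fun R k z hz => k z (R.Z_le hz)) R' hg fun p hp => by
    rw [mul_smul]
    suffices k : R.ζ 1 • p = p by rw [k, hp c hc1]
    by_cases e : p = a
    · exact e ▸ C.fix a _ z.1
    obtain ⟨R2, k2⟩ := hA a p e
    have a1 := hB a p e R2 k2 _ (Sa _ (R'.ζ_mem 1)) (hp _ (R'.ζ_mem_Z 1))
    have a2 : c' ∈ R2.S := R2.mem_S_of_two (R.S_le (R.Z_le hc1'))
      ((mul_mem_cancel_right a1).1 (Cn_le_Nm (centralizer_le R2.S_le hg'))) (R.pow_four (R.Z_le hc1'))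
    exact k2 _ (R.S_eq_of_mem (R.Z_le hc1') a2 c1 ▸ R.ζ_mem 1)
  exact h2 a b _ hab z (eq_inv_of_mul_eq_one_right this ▸ inv_mem (R'.S_le (R'.Z_le hc1)))

end

theorem inv_D (h1 : i = 1) {a b : Ω} (hab : a ≠ b) {z d : G} (hz : Iv (C.N a) z) (zb : z • b = b) (da : d ∈ C.N a)
    (db : d ∈ C.N b) : z * d * z⁻¹ = d⁻¹ := by
  have e : (z * d) ^ 2 = z * d * z⁻¹ * d := by rw [hz.inv, pow_two, mul_assoc (z * d)]
  have a1 : (z * d) ^ 2 ∈ C.N b := e ▸ mul_mem (Nm_conj (nmN C zb) db) db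
  have a2 := mul_mem hz.1 da
  obtain ⟨k, hk⟩ := odd_D C h2 hab (pow_mem a2 2) a1
  have e0 := pow_orderOf_eq_one ((z * d) ^ 2)
  rw [hk, ← pow_mul, mul_comm, pow_mul, pow_two] at e0
  have hv : Iv (C.N a) ((z * d) ^ (2 * k + 1)) := ⟨pow_mem a2 _, fun e1 => h2 a b z hab hz (by
    rw [pow_succ, pow_mul] at e1
    have : z * d ∈ C.N b := eq_inv_of_mul_eq_one_right e1 ▸ inv_mem (pow_mem a1 k)
    exact (mul_mem_cancel_right db).1 this), e0⟩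
  have := cent_sq (C.loc a).some h1 hv a2 (Commute.self_pow _ _)
  rw [← pow_two, e] at this
  exact eq_inv_of_mul_eq_one_left this

theorem case_L (h1 : i = 1) (hm : m = 2) {a b : Ω} (hab : a ≠ b) {z : G} (hz : Iv (C.N a) z) (zb : z • b = b)
    (R1 R2 : R0 (C.N b) F K m i) (hne : R2.pt ≠ R1.pt) (z1 : z ∈ Nm R1.S) (z2 : z ∈ Nm R2.S) : False := by
  obtain ⟨u1, a1, a2, a3⟩ := exists_iv_cent R1 hz.2.2 z1
  obtain ⟨u2, b1, b2, b3⟩ := exists_iv_cent R2 hz.2.2 z2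
  have i1 : Iv (C.N b) u1 := ⟨R1.S_le (R1.Z_le a1), a2, R1.Z_sq a1⟩
  have i2 : Iv (C.N b) u2 := ⟨R2.S_le (R2.Z_le b1), b2, R2.Z_sq b1⟩
  have f1 := fix_of_comm C h2 hz a3.symm
  have f2 := fix_of_comm C h2 hz b3.symm
  have nc : ¬ Commute u1 u2 := fun k => hne (Subtype.ext (R1.S_eq_of_mem (R1.Z_le a1)
    (R2.Z_le (R2.iv_mem_Z_of_comm i1 (R2.Z_le b1) b2 k)) a2))
  by_cases hD : ∀ d, d ∈ C.N a → d ∈ C.N b → d = 1
  · have hD' : ∀ x y, x ≠ y → ∀ d, d ∈ C.N x → d ∈ C.N y → d = 1 := fun x y e d dx dy => by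
      obtain ⟨g, rfl, rfl⟩ := C.two x y a b e hab
      exact conj_eq_one_iff.1 (hD _ (C.eqv g x d dx) (C.eqv g y d dy))
    obtain ⟨g, g1, g2⟩ := C.two b a a b hab.symm hab
    have j1 : Iv (C.N a) (g * u1 * g⁻¹) := g1 ▸ iv_cj C i1
    have j2 : Iv (C.N a) (g * u2 * g⁻¹) := g1 ▸ iv_cj C i2
    have nc' : ¬ Commute (g * u1 * g⁻¹) (g * u2 * g⁻¹) := fun k => nc (by
      have := k.eq
      rw [conj_mul, conj_mul] at this
      exact mul_left_cancel (mul_right_cancel this))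
    have o := (C.loc a).some.odd_prod j1 j2 nc'
    set d := g * u1 * g⁻¹ * (g * u2 * g⁻¹) with hd
    have dN : d ∈ C.N a := mul_mem j1.1 j2.1
    have db : d • b = b := by
      rw [hd, mul_smul, ← g2, conj_fix f2, conj_fix f1]
    have d1 : d * d ≠ 1 := fun e => nc' (by
      have := eq_one_of_odd_two o (k := 1) (by rw [pow_one, pow_two, e])
      rw [eq_inv_of_mul_eq_one_left this]
      exact (Commute.refl _).inv_left)
    have cu : ∀ u, u ∈ C.N b → u • a = a → Commute d u := fun u ub ua => by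
      have := hD (d * u * d⁻¹ * u⁻¹) (by
        have := mul_mem dN (Nm_conj (nmN C ua) (inv_mem dN))
        rwa [show d * (u * d⁻¹ * u⁻¹) = d * u * d⁻¹ * u⁻¹ by group] at this)
        (mul_mem (Nm_conj (nmN C db) ub) (inv_mem ub))
      exact mul_inv_eq_iff_eq_mul.1 (mul_inv_eq_one.1 this)
    obtain ⟨R3, e3⟩ := R1.exists_at i1
    have e4 : R3.pt = R1.pt := Subtype.ext (R1.S_eq_of_mem (R1.Z_le a1) (e3 ▸ R3.ζ_mem 1) a2)
    obtain ⟨R4, e5, e6, e7⟩ := R3.exists_pt' (e4 ▸ hne)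
    obtain ⟨τ, hτ⟩ := SL1 R4 (nmN C db) (by rw [e6, e3]; exact cu u1 i1.1 f1)
    have n2 : d ∈ Nm R2.S := R2.Nm_of_comm (nmN C db) (R2.Z_le b1) b2 (cu u2 i2.1 f2)
    have cen : d * d ∈ Cn (C.N b) := R4.cen_of_S (g := ⟨d * d, mul_mem (nmN C db) (nmN C db)⟩)
      (e7 ▸ R2.fix_pt.2 (mul_mem n2 n2)) (by
        rw [R4.S_eq_Z h1]
        rintro _ ⟨x, rfl⟩
        change d * d * R4.ζ x * (d * d)⁻¹ = _
        rw [show d * d * R4.ζ x * (d * d)⁻¹ = d * (d * R4.ζ x * d⁻¹) * d⁻¹ by group, hτ, hτ, aut_four R4 hm])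
    refine N_moves C hab.symm fun n hn => ?_
    by_contra k
    have := C.eqv n a _ (mul_mem dN dN)
    rw [mem_Cn.1 cen n hn, mul_inv_cancel_right] at this
    exact d1 (hD' _ _ k _ this (mul_mem dN dN))
  · push Not at hD
    obtain ⟨d, da, db, d1⟩ := hD
    have o := odd_D C h2 hab da db
    have := six_le (G := Nm (C.N b)) (X := Pt (C.N b) F K m i) (d := nm db) (z := ⟨z, nmN C zb⟩)
      (by rwa [← orderOf_coe]) (Subtype.ext (inv_D C h2 h1 hab hz zb da db)) hne (R2.fix_pt.2 z2) (R1.fix_pt.2 z1)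
      (mt R2.fix_pt.1 (inv_moves R2 db o d1 (R2.Z_le b1) (inv_D C h2 h1 hab.symm i2 f2 db da)))
      (mt R1.fix_pt.1 (inv_moves R1 db o d1 (R1.Z_le a1) (inv_D C h2 h1 hab.symm i1 f1 db da)))
    rw [R1.card_Pt, hm, h1] at this
    omega

omit h2 in
include C in
theorem exists_ne [Nonempty Ω] : ∃ a b : Ω, a ≠ b := by
  by_contra k
  push Not at k
  obtain ⟨a⟩ := ‹Nonempty Ω›
  exact ((C.loc a).some.iv_ζ one_ne_zero).2.1 (C.faith _ fun x => k _ _)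

omit h2 in
theorem pieceII [Nonempty Ω] (h1 : ∀ a b, a ≠ b → ∃ t, Iv (C.N a) t ∧ t • b = b)
    (h2 : ∀ a b t, a ≠ b → Iv (C.N a) t → t ∉ C.N b) : False := by
  obtain ⟨a, b, hab⟩ := exists_ne C
  obtain ⟨t, z, zb⟩ := h1 a b hab
  obtain ⟨t', ht', ta⟩ := h1 b a hab.symm
  obtain ⟨u, z', hc⟩ := exists_comm C h2 hab z zb ht' ta
  obtain ⟨R, rfl⟩ := (C.loc a).some.exists_at z
  obtain ⟨R', rfl⟩ := (C.loc b).some.exists_at z'
  by_cases h : ∀ y, Commute (R.ζ 1) (R'.ζ y)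
  · exact case_cent C h2 hab R R' hc h
  have h' : ¬ ∀ x, Commute (R'.ζ 1) (R.ζ x) := fun k => h (sym_cent C h2 hab.symm R' R hc.symm k)
  obtain ⟨τ, hτ⟩ := SL1 R' (nmN C zb) hc
  have hτ1 : ∃ x, τ x ≠ x := by
    by_contra k
    push Not at k
    exact h fun y => mul_inv_eq_iff_eq_mul.1 ((hτ y).trans (by rw [k]))
  have hm : m = 2 := m_eq_two R' τ (ττ R' z.2.2 hτ) fun x hx => only_one C h2 hab.symm R' R hc.symm h'
    (fix_of_comm C h2 z (mul_inv_eq_iff_eq_mul.1 ((hτ x).trans (by rw [hx])) : Commute (R.ζ 1) (R'.ζ x)).symm)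
  have zS := R'.Nm_of_comm (nmN C zb) (R'.ζ_mem 1) z'.2.1 hc
  by_cases i1 : i = 1
  · obtain ⟨⟨_, R2, rfl⟩, hp, e⟩ := exists_pt2 R' i1 z.2.2 (nmN C zb) zS hτ hτ1
    exact case_L C h2 i1 hm hab z zb R' R2 hp zS (smul_eq_iff.1 e)
  obtain ⟨s, hs, sZ, e⟩ := exists_cent R' i1 z.2.2 zS hτ hτ1
  have c : Commute s (R.ζ 1) := (mul_inv_eq_iff_eq_mul.1 e : Commute (R.ζ 1) s).symm
  have sa := fix_of_comm C h2 z c
  obtain ⟨x, hx⟩ := R'.sq_mem hs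
  obtain ⟨σ, hσ⟩ := SL1 R (nmN C sa) c
  rcases only_one C h2 hab.symm R' R hc.symm h' (x := x) (by rw [hx, mul_smul, sa, sa]) with k | k
  · exact sZ ((R'.sq_eq_one hs).1 (by rw [← hx, k, R'.ζ_zero]))
  refine h' fun y => mul_inv_eq_iff_eq_mul.1 ?_
  rw [← k, hx, show s * s * R.ζ y * (s * s)⁻¹ = s * (s * R.ζ y * s⁻¹) * s⁻¹ by group, hσ, hσ, aut_four R hm]

end Cfsg.Agent.H4.PA
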