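import Cfsg.Agent.H1.TV3

/-! The torus on a line in case IV.2. -/

set_option autoImplicit false
set_option linter.unusedSectionVars false
set_option linter.style.haveILetI false

namespace Cfsg.Agent.H4.PA

open Cfsg.Agent.H5.TA Cfsg.Agent.H1.TV Subgroup MulAction
open scoped Pointwise

variable {G Ω : Type*} [Group G] [Finite G] [Finite Ω] [MulAction G Ω] {F K : Type} [Field F] [Field K] {m i : ℕ}

theorem T_zpow {N : Subgroup G} (R : R0 N F K m i) {h h' : G} (hh : h ∈ R.T) (hh' : h' ∈ R.T)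
    (e : h ^ orderOf h' = 1) : ∃ k : ℕ, h = h' ^ k := by
  have o : orderOf (R.ψ h') = orderOf h' := by
    have := orderOf_injective R.ψh R.ψh_inj ⟨h', hh'⟩
    rw [← orderOf_units, ← Subgroup.orderOf_coe] at this
    exact this
  haveI : NeZero (orderOf (R.ψ h')) := ⟨o ▸ (orderOf_pos h').ne'⟩
  obtain ⟨k, -, hk⟩ := (IsPrimitiveRoot.orderOf (R.ψ h')).eq_pow_of_pow_eq_one (ξ := R.ψ h)
    (by rw [o, ← R.ψ_pow hh, e, R.ψ_one])
  exact ⟨k, R.ψ_eq hh (pow_mem hh' k) (by rw [R.ψ_pow hh', hk])⟩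

theorem m_eq_two' {N : Subgroup G} (R : R0 N F K m i) (L : F →+ F) (h : ∀ x, L (L x) = x)
    (h1 : ∀ x y, L x = x → L y = y → x ≠ 0 → y ≠ 0 → x = y) : m = 2 := by
  haveI := R.finF
  let f : F →+ F := L + AddMonoidHom.id F
  have hf : ∀ x, f x = L x + x := fun _ => rfl
  obtain ⟨c, hc⟩ : ∃ c, ∀ x, L x = x → x = 0 ∨ x = c := by
    by_cases k : ∃ c, L c = c ∧ c ≠ 0
    · obtain ⟨c, k1, k2⟩ := k
      exact ⟨c, fun x hx => or_iff_not_imp_left.2 fun e => h1 x c hx k1 e k2⟩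
    · exact ⟨0, fun x hx => Or.inl (by_contra fun e => k ⟨x, hx, e⟩)⟩
  have a : ∀ A : AddSubgroup F, (∀ x ∈ A, L x = x) → Nat.card A ≤ 2 := fun A hA => by
    have : (A : Set F) ⊆ {0, c} := fun x hx => hc x (hA x hx)
    exact (Set.ncard_le_ncard this (Set.toFinite _)).trans ((Set.ncard_insert_le _ _).trans (by simp))
  have k1 := a f.ker fun x hx => by
    have : L x + x = 0 := hx
    linear_combination this - R.addF x
  have k2 := a f.range (by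
    rintro _ ⟨x, rfl⟩
    rw [hf, map_add, h, add_comm])
  have k3 : Nat.card F = Nat.card f.range * Nat.card f.ker := by
    rw [AddSubgroup.card_eq_card_quotient_mul_card_addSubgroup f.ker,
      Nat.card_congr (QuotientAddGroup.quotientKerEquivRange f).toEquiv]
  have k4 : 2 ^ m ≤ 2 ^ 2 := by rw [← R.cardF, k3]; exact Nat.mul_le_mul k2 k1
  have := (Nat.pow_le_pow_iff_right one_lt_two).1 k4
  have := R.hm
  omega

variable {C : Cfg G Ω F K m i} (H : H2 C) {e : Ω} (R : R0 (C.N e) F K m i)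
include H

theorem T_fixL {h : G} (hh : h ∈ R.T) {b : Ω} (hb : b ∈ L Ω R) (ne : e ≠ b) (k : h • b = b) :
    ∀ c ∈ L Ω R, h • c = c := fun c hc => by
  rcases eq_or_ne e c with rfl | n
  · exact C.fix e h (R.T_le hh)
  obtain ⟨g, g1, rfl⟩ := C.two e b e c ne n
  have gS := H.Nm_of R g1 (H.smul_eq (ln_L R) ne (mem_L R) hb (g1.symm ▸ mem_L R) hc)
  obtain ⟨s, hs, t, ht, e1⟩ := (R.mem_B (Nm_conj (C.nm g1) (R.T_le hh))).1
    (mul_mem (mul_mem gS (R.T_le_Nm hh)) (inv_mem gS))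
  have tc : t • g • b = g • b := by
    have := (cj_fix (g := g)).2 k
    rw [e1, mul_smul] at this
    exact (eq_inv_smul_iff.2 this).trans (H.S_on R (inv_mem hs) hc)
  obtain ⟨s', hs', e2⟩ := R.pow_st hs ht (orderOf t)
  rw [← e1, conj_pow, pow_orderOf_eq_one, mul_one] at e2
  obtain ⟨n, rfl⟩ := T_zpow R hh ht (R.S_inf_T (by
    have := Nm_conj' gS (e2 ▸ hs')
    rwa [show g⁻¹ * (g * h ^ orderOf t * g⁻¹) * g = h ^ orderOf t by group] at this) (pow_mem hh _))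
  exact (pow_mem (show t ∈ stabilizer G (g • b) from tc) n :)

theorem torus_B (hκ : 2 < (L Ω R).ncard) {h : G} (hh : h ∈ R.T) {b : Ω} (hb : b ∈ L Ω R) (ne : e ≠ b)
    (k : h • b = b) : R.ν (R.ψ h) = 1 := by
  have f1 := T_fixL H R hh hb ne k
  obtain ⟨n, hn⟩ := T_zpow R (R.w_norm' hh) hh (by
    rw [show R.w⁻¹ * h * R.w = R.w⁻¹ * h * R.w⁻¹⁻¹ by group, conj_pow, pow_orderOf_eq_one]; simp)
  have f2 : ∀ c ∈ R.w • L Ω R, h • c = c := by
    rintro _ ⟨c, hc, rfl⟩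
    have : (R.w⁻¹ * h * R.w) • c = c := hn ▸ (pow_mem (show h ∈ stabilizer G c from f1 c hc) n :)
    rwa [mul_smul, mul_smul, inv_smul_eq_iff] at this
  have lw := (ln_L R).smul R.w
  have ew : e ∈ R.w • L Ω R := ⟨e, mem_L R, C.fix e _ R.w_mem⟩
  have nw : R.w • L Ω R ≠ L Ω R := fun e1 => R.w_not_mem (H.Nm_of' R e1)
  obtain ⟨c1, c2, h1, h2, n12⟩ : ∃ c1 c2, c1 ∈ (R.w • L Ω R) \ {e} ∧ c2 ∈ (R.w • L Ω R) \ {e} ∧ c1 ≠ c2 := by
    refine (Set.one_lt_ncard_iff (Set.toFinite _)).1 ?_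
    rw [Set.ncard_sdiff_singleton_of_mem ew, Set.ncard_smul_set]
    omega
  have out : ∀ c, c ∈ (R.w • L Ω R) \ {e} → c ∉ L Ω R := fun c hc k =>
    nw (H.uq lw (ln_L R) (Ne.symm hc.2) ew hc.1 (mem_L R) k)
  have bc : ∀ c, c ∈ (R.w • L Ω R) \ {e} → b ≠ c := fun c hc k => out c hc (k ▸ hb)
  obtain ⟨k1, a1, a2, a3⟩ := H.ex (bc c1 h1)
  obtain ⟨k2, b1, b2, b3⟩ := H.ex (bc c2 h2)
  have hk1 : h • k1 = k1 := H.smul_eq a1 (bc c1 h1) a2 a3 (k.symm ▸ a2) ((f2 c1 h1.1).symm ▸ a3)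
  have hk2 : h • k2 = k2 := H.smul_eq b1 (bc c2 h2) b2 b3 (k.symm ▸ b2) ((f2 c2 h2.1).symm ▸ b3)
  have n1 : k1 ≠ L Ω R := fun e1 => out c1 h1 (e1 ▸ a3)
  obtain ⟨s, hs, e1⟩ := H.S_tr' R hb a1 b1 a2 b2 n1 fun e1 => out c2 h2 (e1 ▸ b3)
  have s1 : s ≠ 1 := fun e2 => by
    rw [e2, one_smul] at e1
    subst e1
    exact nw (H.uq lw (ln_L R) ne ew (H.uq a1 lw n12 a3 b3 h1.1 h2.1 ▸ a2) (mem_L R) hb)
  have := H.S_semi' R hb a1 a2 n1 (mul_mem (inv_mem hs) (R.T_norm h hh s hs)) (by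
    rw [mul_smul, mul_smul, mul_smul, inv_smul_eq_iff.2 hk1.symm, e1, hk2, ← e1, inv_smul_smul])
  exact R.T_cent hh hs s1 (inv_mul_eq_one.1 this).symm

theorem torus_map (hκ : 2 < (L Ω R).ncard) {b : Ω} (hb : b ∈ L Ω R) (ne : e ≠ b) :
    ∃ f : F → L Ω R, Function.Injective f ∧ ∀ x, (f x : Ω) = e ∨ ∃ h ∈ R.T, h • b = f x := by
  classical
  choose t ht ht' using R.χ_surj
  have mem : ∀ c hc, t c hc • b ∈ L Ω R := fun c hc => smul_mem_of (H.L_Nm R (R.T_le_Nm (ht c hc))) hb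
  have ne' : ∀ c hc, t c hc • b ≠ e := fun c hc k =>
    ne (smul_left_cancel _ ((C.fix e _ (R.T_le (ht c hc))).trans k.symm))
  refine ⟨fun c => if hc : c = 0 then ⟨e, mem_L R⟩ else ⟨_, mem c hc⟩, fun x y k => ?_, fun x => ?_⟩
  · by_cases hx : x = 0 <;> by_cases hy : y = 0 <;> simp only [hx, hy, dif_pos, dif_neg, not_false_iff] at k
    · rw [hx, hy]
    · exact (ne' y hy (congrArg Subtype.val k).symm).elim
    · exact (ne' x hx (congrArg Subtype.val k)).elim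
    have := torus_B H R hκ (mul_mem (inv_mem (ht y hy)) (ht x hx)) hb ne
      (by rw [mul_smul, show t x hx • b = t y hy • b from congrArg Subtype.val k, inv_smul_smul])
    rw [R.ψ_mul _ (inv_mem (ht y hy)) _ (ht x hx), R.ψ_inv (ht y hy), R.ν_mul, ht'] at this
    have e2 := R.ν_mul (R.ψ (t y hy)) (R.ψ (t y hy))⁻¹
    rw [mul_inv_cancel₀ (R.ψ_ne _ (ht y hy)), R.ν_one, ht'] at e2
    linear_combination y * this + x * e2
  · by_cases hx : x = 0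
    · exact Or.inl (by simp [hx])
    · exact Or.inr ⟨_, ht x hx, by simp [hx]⟩

theorem torus_B1 (hκ : 2 < (L Ω R).ncard) : 2 ^ m ≤ (L Ω R).ncard := by
  obtain ⟨b, hb, ne⟩ := H.two (ln_L R) (mem_L R)
  obtain ⟨f, hf, -⟩ := torus_map H R hκ hb ne
  exact R.cardF ▸ Nat.card_le_card_of_injective f hf

theorem torus_B2 (hκ : (L Ω R).ncard = 2 ^ m) : ∀ b ∈ L Ω R, ∀ c ∈ L Ω R, e ≠ b → e ≠ c → ∃ h ∈ R.T, h • b = c := by
  intro b hb c hc ne nc
  obtain ⟨f, hf, h⟩ := torus_map H R (by have := R.four_le; omega) hb ne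
  obtain ⟨x, hx⟩ := ((Nat.bijective_iff_injective_and_card f).2 ⟨hf, R.cardF.trans hκ.symm⟩).2 ⟨c, hc⟩
  rcases h x with k | k <;> rw [hx] at k
  exacts [(nc k.symm).elim, k]

theorem torus_C (hκ : (L Ω R).ncard = 2) : m = 2 := by
  obtain ⟨b, hb, ne⟩ := H.two (ln_L R) (mem_L R)
  obtain ⟨d, hd⟩ := C.exists_sw ne
  have k : d • L Ω R = L Ω R :=
    H.smul_eq (ln_L R) ne (mem_L R) hb (hd.2.symm ▸ hb) ((hd.symm C).2.symm ▸ mem_L R)
  obtain ⟨y, hy⟩ := hd.1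
  have pair : ∀ l : Set Ω, l.ncard = 2 → ∀ p ∈ l, ∀ u ∈ l, ∀ v ∈ l, u ≠ p → v ≠ p → u = v := fun l hl => by
    obtain ⟨a, b, -, rfl⟩ := Set.ncard_eq_two.1 hl
    rintro p (rfl | rfl) u (rfl | rfl) v (rfl | rfl) h1 h2 <;> first | rfl | exact (h1 rfl).elim | exact (h2 rfl).elim
  have h2 : (fixedBy Ω d).ncard = 2 := (H.ncard_eq ⟨y, d, hy, rfl⟩ (ln_L R)).trans hκ
  have yd : y ∈ fixedBy Ω d := C.fix y d hy.1
  have yL : y ∉ L Ω R := fun yl => by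
    by_cases e1 : y = e
    · exact ne ((e1 ▸ yd : e ∈ fixedBy Ω d).symm.trans hd.2)
    · rw [pair _ hκ e (mem_L R) y yl b hb e1 ne.symm] at yd
      exact ne ((hd.symm C).2.symm.trans yd)
  obtain ⟨A, -, hA⟩ := R.exists_LZ (H.Nm_of' R k)
  refine m_eq_two' R A (fun x => R.ζ_inj (by rw [← hA, ← hA, conj_conj hd.sq])) fun x x' hx hx' x0 x0' => ?_
  have key : ∀ x, A x = x → x ≠ 0 → R.ζ x • y ∈ fixedBy Ω d ∧ R.ζ x • y ≠ y := fun x hx x0 =>
    ⟨by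
      have := mul_inv_eq_iff_eq_mul.1 ((hA x).trans (by rw [hx]) : d * R.ζ x * d⁻¹ = R.ζ x)
      rw [mem_fixedBy, ← mul_smul, this, mul_smul, show d • y = y from yd],
    fun e1 => (R.iv_ζ x0).2.1 (H.S_off R (R.ζ_mem x) yL e1)⟩
  have := pair _ h2 y yd _ (key x hx x0).1 _ (key x' hx' x0').1 (key x hx x0).2 (key x' hx' x0').2
  have e1 := H.S_off R (mul_mem (inv_mem (R.ζ_mem x')) (R.ζ_mem x)) yL (by rw [mul_smul, this, inv_smul_smul])
  exact R.ζ_inj (inv_mul_eq_one.1 e1).symm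

end Cfsg.Agent.H4.PA
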