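import Cfsg.Agent.H3.AT7
import Cfsg.Agent.H8.RootTables

/-! Involutions of the Levi factor over the field with two elements fix two collinear root vectors. -/

set_option autoImplicit false
set_option linter.unusedSectionVars false

namespace Cfsg.Agent.H4.PT

open Cfsg.Lie Matrix Finset Cfsg.Agent.H8 Cfsg.Agent.H7 Cfsg.Agent.H9.AH Cfsg.Agent.H3.AT

theorem conj_into {G : Type*} [Group G] [Finite G] {L U : Subgroup G} (hU : IsPGroup 2 U) (hUL : U ≤ L)
    (hn : ∀ g ∈ L, (∀ u ∈ U, g * u * g⁻¹ ∈ U) → g ∈ U) {l : G} (hl : l ∈ L) (h2 : l * l = 1) :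
    ∃ k ∈ L, k⁻¹ * l * k ∈ U := by
  obtain ⟨P, hP⟩ := (hU.comap_subtype (K := L)).exists_le_sylow
  have e : (P : Subgroup L) ≤ U.comap L.subtype := by
    by_contra hne
    have hnil : Group.IsNilpotent (P : Subgroup L) := P.isPGroup'.isNilpotent
    have hlt : (U.comap L.subtype).subgroupOf P < ⊤ := by
      rw [lt_top_iff_ne_top, Ne, Subgroup.subgroupOf_eq_top]
      exact hne
    obtain ⟨g, hg1, hg2⟩ := SetLike.exists_of_lt (Group.normalizerCondition_of_isNilpotent _ hlt)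
    exact hg2 (hn _ g.1.2 fun u hu => (Subgroup.mem_normalizer_iff.1 hg1 ⟨⟨u, hUL hu⟩, hP hu⟩).1 hu)
  have hz : IsPGroup 2 (Subgroup.zpowers (⟨l, hl⟩ : L)) := by
    rintro ⟨_, k, rfl⟩
    refine ⟨1, Subtype.ext ?_⟩
    have : (⟨l, hl⟩ : L) ^ 2 = 1 := Subtype.ext (by simpa [pow_two] using h2)
    change ((⟨l, hl⟩ : L) ^ k) ^ 2 ^ 1 = 1
    rw [pow_one, ← _root_.zpow_natCast, ← _root_.zpow_mul, mul_comm, _root_.zpow_mul, _root_.zpow_natCast, this,
      _root_.one_zpow]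
  obtain ⟨Q, hQ⟩ := hz.exists_le_sylow
  obtain ⟨g, rfl⟩ := MulAction.exists_smul_eq L P Q
  have := hQ (Subgroup.mem_zpowers _)
  rw [Sylow.coe_subgroup_smul, Subgroup.mem_pointwise_smul_iff_inv_smul_mem] at this
  exact ⟨g, g.2, by simpa [Subgroup.mem_subgroupOf] using e this⟩

variable {D : ChevalleyDatum} {K : Type*} [Field K] [CharP K 2] [hD : RootFacts D] [hM : MatFacts D]
  [hC : ChainFacts D] [hN : NFacts D] [hS : SLFacts D] {θ α β γ δ : ℕ} [Finite (D.group K)]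

theorem ul_step {u : D.group K} (hθ : θ < D.nroots) (hu : u ∈ UL D K θ) {s : ℕ} (hs : s < D.nroots) (e : A D θ s = 1)
    (Y : Submodule K (D.Idx → K)) (hY : ∀ r < D.nroots, A D θ r = 1 → s < r → bas D K r ∈ Y) :
    ac D K u (bas D K s) + bas D K s ∈ Y := by
  have h8 := add_mem (LL.lp (UL_LL hθ hu) (e_Lv hs e)) (e_Lv (φ := lv D θ) hs e)
  have h10 := UU_RG (UL_UU hu) _ _ (e_Ge hs le_rfl)
  generalize ac D K u (bas D K s) + bas D K s = v at h8 h10
  rw [decomp v]
  refine add_mem (Submodule.sum_mem _ fun i _ => ?_) (Submodule.sum_mem _ fun r _ => ?_)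
  · rw [h8 _ (by simp [wtI]), zero_smul]; exact zero_mem _
  · by_cases h : v (Sum.inr r) = 0
    · rw [h, zero_smul]; exact zero_mem _
    have h11 : lv D θ (wtI D (Sum.inr r)) = 1 := by_contra fun e' => h (h8 _ e')
    have h13 := not_lt.1 fun e' => h (h10 _ e')
    simp only [wtI, Sum.elim_inr, lv_wt, ordL_wt] at h11 h13
    exact Y.smul_mem _ (hY r r.2 h11 ((ordv_lt_iff hs r.2).1 (by omega)))

theorem conj_UL [Finite K] (hK : ∀ t : K, t = 0 ∨ t = 1) (h : Sit (⊤ : Subgroup (D.group K)) (MonoidHom.id _) 1 θ α)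
    {l : D.group K} (hl : l ∈ LL D K θ) (h2 : l * l = 1) : ∃ k ∈ LL D K θ, k⁻¹ * l * k ∈ UL D K θ := by
  have hx := H7.isChev_xg (D := D) (F := K)
  refine conj_into ((hx.toIsFaith.isPGroup_UU 2).to_le UL_UU) (UL_LL h.hθ) (fun g hg hn => ?_) hl h2
  obtain ⟨w, e, u, hu, n, hn', hw, u', hu', rfl⟩ := h.lbru ⟨trivial, hg⟩
  have h1 : ∀ s < D.nroots, n * xg D K s 1 * n⁻¹ = xg D K (w s) 1 := fun s hs => (h.nrep_e trivial hw hs rfl).2.2
  have h3 : w = 1 := eq_one_of_pos hw.mem_W fun r hr => by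
    have hw' := W_lt hw.mem_W hr.1
    by_cases e1 : A D θ r = 0
    · refine pos_of_not_neg hw' fun k => hx.toIsFaith.x_ne_one hw' one_ne_zero
        (hx.toIsFaith.eq_one_of_UU_VV (UL_UU (θ := θ) ?_) (x_mem_VV _ k 1))
      have h4 : xg D K r 1 ∈ UL D K θ := x_mem_XS (S := {r | D.IsPosRoot r ∧ A D θ r = 0}) ⟨hr, e1⟩ 1
      have k1 : u ∈ UL D K θ := hu.2
      have k2 : u' ∈ UL D K θ := hu'.2
      have := hn _ (mul_mem (mul_mem (inv_mem k2) h4) k2)
      have := mul_mem (mul_mem (inv_mem k1) this) k1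
      rw [← h1 r hr.1]
      convert this using 1
      group
    · have := h.dom r hr
      exact h.qpos _ ⟨hw', by rw [← e, A_W hw.mem_W]; omega⟩
  subst h3
  have : n = 1 := hx.eq_one_of_commute (H7.GG_xg.ge (Subgroup.mem_top n)) fun r t => by
    by_cases hr : r < D.nroots
    · rcases hK t with rfl | rfl
      · rw [st.zero]; exact Commute.one_right _
      · exact mul_inv_eq_iff_eq_mul.1 (h1 r hr)
    · rw [st.out r (not_lt.1 hr)]; exact Commute.one_right _
  rw [this, mul_one]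
  exact mul_mem hu.2 hu'.2

theorem hpl [Finite K] (hK : ∀ t : K, t = 0 ∨ t = 1) (h : Sit (⊤ : Subgroup (D.group K)) (MonoidHom.id _) 1 θ α)
    (hβ : β < D.nroots) (hγ : γ < D.nroots) (e1 : A D θ β = 1) (e2 : A D θ γ = 1)
    (t1 : ∀ r < D.nroots, A D θ r = 1 → β < r → r = α) (t2 : ∀ r < D.nroots, A D θ r = 1 → γ < r → r = α ∨ r = β)
    (a1 : A D γ β = 1) (a2 : A D α γ = 1) (a3 : A D α β = 1) {m : D.group K} (hm : m ∈ LL D K θ)
    (m1 : ac D K m (bas D K α) = bas D K α) (m2 : ac D K m (bas D K β) = bas D K (refl D δ α)) :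
    ∀ l ∈ ⊤ ⊓ LL D K θ, l * l = 1 → ∃ k ∈ ⊤ ⊓ LL D K θ, k⁻¹ * l * k ∈ Fx (bas D K α) ∧
      k⁻¹ * l * k ∈ Fx (bas D K (refl D δ α)) := by
  intro l hl h2
  obtain ⟨k, hk, hu⟩ := conj_UL hK h hl.2 h2
  have h3 : k⁻¹ * l * k * (k⁻¹ * l * k) = 1 := by
    calc _ = k⁻¹ * (l * l) * k := by group
      _ = 1 := by rw [h2]; group
  have f1 := mem_Fx.1 (UL_Fx h.hα h.αdom hu)
  obtain ⟨c, hc⟩ := Submodule.mem_span_singleton.1 (ul_step h.hθ hu hβ e1 (K ∙ bas D K α) fun r hr e e' =>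
    t1 r hr e e' ▸ Submodule.mem_span_singleton_self _)
  obtain ⟨b, a, hab⟩ := Submodule.mem_span_pair.1 (ul_step h.hθ hu hγ e2 (Submodule.span K {bas D K α, bas D K β})
    fun r hr e e' => Submodule.subset_span (by rcases t2 r hr e e' with rfl | rfl <;> simp))
  obtain ⟨k', hk', g1, g2⟩ : ∃ k' ∈ LL D K θ, ac D K k' (bas D K α) = bas D K α ∧
      ac D K (k⁻¹ * l * k) (ac D K k' (bas D K β)) = ac D K k' (bas D K β) := by
    generalize k⁻¹ * l * k = u at *
    have f2 : ac D K u (bas D K β) = bas D K β + c • bas D K α := by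
      rw [hc, add_comm (ac D K u _), ← add_assoc, vadd, zero_add]
    have f3 : ac D K u (bas D K γ) = bas D K γ + (b • bas D K α + a • bas D K β) := by
      rw [hab, add_comm (ac D K u _), ← add_assoc, vadd, zero_add]
    rcases hK c with rfl | rfl
    · exact ⟨1, one_mem _, ac_one _, by rw [ac_one, f2, zero_smul, add_zero]⟩
    have f4 := congrArg (ac D K u) f3
    rw [← ac_mul, h3, ac_one, map_add, map_add, map_smul, map_smul, f1, f2, f3] at f4
    have a0 : a = 0 := smul_e_inj h.hα (by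
      rw [zero_smul]
      rw [one_smul, smul_add] at f4
      linear_combination (exp := 1) -f4 - vadd (b • bas D K α) - vadd (a • bas D K β))
    have hη := refl_lt γ hβ
    have w1 : wt D β = wt D (refl D γ β) + wt D γ := by rw [wt_refl_one a1]; simp
    have l1 := A_add (a := θ) w1
    have l2 := A_add (a := α) w1
    have l3 := A_add (a := β) w1
    rw [A_self hβ, A_symm β γ] at l3
    have l4 : A D (refl D γ β) α = 0 := by rw [A_symm]; omega
    have l5 : refl D (refl D γ β) β = γ := wt_inj (refl_lt _ hβ) hγ (by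
      rw [wt_refl_one (by rw [A_symm]; omega), w1]; simp)
    have l6 : refl D (refl D γ β) α = α := wt_inj (refl_lt _ h.hα) h.hα (by rw [wt_refl, l4]; simp)
    refine ⟨xg D K (refl D γ β) b * nn D K (refl D γ β), mul_mem (x_LL h.hθ hη (by omega) b) (nn_LL h.hθ hη (by omega)),
      by rw [ac_mul, nn_e hη h.hα, l6, x_nonneg hη h.hα l4.ge], ?_⟩
    rw [ac_mul, nn_e hη hβ, l5, x_sum hη hγ hβ w1, map_add, map_smul, f3, f2, a0, zero_smul, add_zero, one_smul, smul_add]
    linear_combination (exp := 1) vadd (b • bas D K α)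
  have hk2 : k * k' * m⁻¹ ∈ LL D K θ := mul_mem (mul_mem hk hk') (inv_mem hm)
  refine ⟨k * k' * m⁻¹, ⟨trivial, hk2⟩, ?_⟩
  rw [show (k * k' * m⁻¹)⁻¹ * l * (k * k' * m⁻¹) = m * (k'⁻¹ * ((k⁻¹ * l * k) * (k' * m⁻¹))) by group]
  generalize k⁻¹ * l * k = u at *
  refine ⟨mul_mem m1 (mul_mem (inv_mem (show k' ∈ Fx _ from g1)) (mul_mem f1 (mul_mem g1
    (inv_mem (show m ∈ Fx _ from m1))))), ?_⟩
  rw [mem_Fx, ac_mul, ac_mul, ac_mul, ac_mul, ← m2, ac_inv_ac, g2, ac_inv_ac]

omit hM hC hN hS in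
theorem refl_of_pk {TW TC r s k : ℕ} (hT : chkTables D TW TC = true) (hr : r < D.nroots) (hs : s < D.nroots)
    (hk : k < D.nroots)
    (h : allTo D.rank (fun i => decide (pk TW D.rank k i = pk TW D.rank s i - pkA D TW TC r s * pk TW D.rank r i)) = true) :
    refl D r s = k := wt_inj (W_lt (refl_mem r) hs) hk (funext fun i => by
  simp only [allTo_iff, decide_eq_true_eq] at h
  rw [wt_refl, Pi.sub_apply, Pi.smul_apply, wt_eq_pk hT hs, wt_eq_pk hT hr, wt_eq_pk hT hk, A_eq_pk hT hr hs,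
    h i i.2, smul_eq_mul])

theorem hpl_E7 [MatFacts chevE7] [ChainFacts chevE7] [NFacts chevE7] [SLFacts chevE7] [Finite (chevE7.group K)]
    [Finite K] (hK : ∀ t : K, t = 0 ∨ t = 1)
    (h : Sit (⊤ : Subgroup (chevE7.group K)) (MonoidHom.id _) 1 125 124) :
    ∀ l ∈ ⊤ ⊓ LL chevE7 K 125, l * l = 1 → ∃ k ∈ ⊤ ⊓ LL chevE7 K 125, k⁻¹ * l * k ∈ Fx (bas chevE7 K 124) ∧
      k⁻¹ * l * k ∈ Fx (bas chevE7 K (refl chevE7 92 124)) := by
  have lt : ∀ r, r < 126 → r < chevE7.nroots := fun r hr => hr.trans_eq (by decide +kernel)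
  have lt' : ∀ r, r < chevE7.nroots → r < 126 := fun r hr => hr.trans_eq (by decide +kernel)
  have a : ∀ r s c, r < 126 → s < 126 → pkA chevE7 twE7 tcE7 r s = c → A chevE7 r s = c := fun r s c hr hs e =>
    (A_eq_pk tablesE7 (lt r hr) (lt s hs)).trans e
  have t : ∀ r < chevE7.nroots, A chevE7 125 r = 1 → r ≠ 125 := fun r hr e k => by
    rw [k, A_self (lt 125 (by omega))] at e; omega
  have r1 : refl chevE7 54 124 = 124 :=
    refl_of_pk tablesE7 (lt _ (by omega)) (lt _ (by omega)) (lt _ (by omega)) (by decide +kernel)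
  have r2 : refl chevE7 43 124 = 124 :=
    refl_of_pk tablesE7 (lt _ (by omega)) (lt _ (by omega)) (lt _ (by omega)) (by decide +kernel)
  have r3 : refl chevE7 54 123 = 120 :=
    refl_of_pk tablesE7 (lt _ (by omega)) (lt _ (by omega)) (lt _ (by omega)) (by decide +kernel)
  have r4 : refl chevE7 43 120 = 109 :=
    refl_of_pk tablesE7 (lt _ (by omega)) (lt _ (by omega)) (lt _ (by omega)) (by decide +kernel)
  have r5 : refl chevE7 92 124 = 109 :=
    refl_of_pk tablesE7 (lt _ (by omega)) (lt _ (by omega)) (lt _ (by omega)) (by decide +kernel)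
  refine hpl hK h (β := 123) (γ := 122) (lt _ (by omega)) (lt _ (by omega))
    (a _ _ _ (by omega) (by omega) (by decide +kernel)) (a _ _ _ (by omega) (by omega) (by decide +kernel))
    (fun r hr e k => by have := t r hr e; have := lt' r hr; omega)
    (fun r hr e k => by have := t r hr e; have := lt' r hr; omega)
    (a _ _ _ (by omega) (by omega) (by decide +kernel)) (a _ _ _ (by omega) (by omega) (by decide +kernel))
    (a _ _ _ (by omega) (by omega) (by decide +kernel)) (m := nn chevE7 K 43 * nn chevE7 K 54)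
    (mul_mem (nn_LL h.hθ (lt _ (by omega)) (a _ _ _ (by omega) (by omega) (by decide +kernel)))
      (nn_LL h.hθ (lt _ (by omega)) (a _ _ _ (by omega) (by omega) (by decide +kernel)))) ?_ ?_
  · rw [ac_mul, nn_e (lt _ (by omega)) (lt _ (by omega)), r1, nn_e (lt _ (by omega)) (lt _ (by omega)), r2]
  · rw [ac_mul, nn_e (lt _ (by omega)) (lt _ (by omega)), r3, nn_e (lt _ (by omega)) (lt _ (by omega)), r4, r5]

end Cfsg.Agent.H4.PT
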