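import Cfsg.Agent.H5.Gen2
import Cfsg.Agent.H4.GenT2

/-!
# Generation of symplectic and unitary groups by regular unipotent elements: the calculus
-/

set_option autoImplicit false
set_option linter.unusedSectionVars false
set_option linter.unusedSimpArgs false
set_option linter.unnecessarySeqFocus false
set_option linter.unusedVariables false

namespace Cfsg.Agent.H4

open H5 H6 H6.OF

variable {K V : Type*} [Field K] [AddCommGroup V] [Module K V] {O : OF K V} {H : Subgroup O.U}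
  {e v w x y : V} {α β c : K}

/-- the Eichler transformation lies in `H` -/
def InH (H : Subgroup O.U) (e v : V) (α : K) : Prop := O.Ok e v α ∧ O.T e v α ∈ H

namespace InH

theorem congr {v' : V} {α' : K} (h : InH H e v α) (h1 : v = v') (h2 : α = α') : InH H e v' α' :=
  h1 ▸ h2 ▸ h

theorem conj (h : InH H e v α) {g : O.U} (hg : g ∈ H) : InH H (g • e) (g • v) α :=
  ⟨h.1.map g, h.1.conj_T g ▸ mul_mem (mul_mem hg h.2) (inv_mem hg)⟩

theorem add (h : InH H e v α) (h' : InH H e w β) : InH H e (v + w) (α + β - O.η * O.B w v) :=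
  ⟨h.1.add h'.1, h.1.T_mul h'.1 ▸ mul_mem h.2 h'.2⟩

theorem inv (h : InH H e v α) : InH H e (-v) (O.η * O.σ α) := ⟨h.1.inv, h.1.T_inv ▸ inv_mem h.2⟩

theorem zero (he : O.Λ e 0) : InH H e 0 0 := ⟨Ok.zero he, by rw [T_zero]; exact one_mem H⟩

theorem diff (h : InH H e w α) {g : O.U} (hg : g ∈ H) (h1 : g • e = e) (h2 : g • w = w + y) :
    InH H e y (O.η * O.B w y) := by
  have := h.conj hg
  rw [h1, h2] at this
  refine (this.add h.inv).congr (by abel) ?_
  simp only [map_neg, LinearMap.neg_apply, map_add]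
  linear_combination O.η * O.max h.1.mem - α * O.ηη

theorem sub0 (h : InH H e v α) (h' : InH H e v β) : InH H e 0 (α - β) := by
  refine (h.add h'.inv).congr (by abel) ?_
  simp only [map_neg, LinearMap.neg_apply]
  linear_combination O.η * O.max h'.1.mem - β * O.ηη

theorem add0 (h : InH H e v α) (h' : InH H e 0 β) : InH H e v (α + β) :=
  (h.add h').congr (add_zero _) (by simp)

theorem comm (h : InH H e v α) (h' : InH H e w β) : InH H e 0 (O.η * O.B v w - O.η * O.B w v) :=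
  ((h.add h').sub0 ((h'.add h).congr (add_comm _ _) rfl)).congr rfl (by ring)

theorem self (h : InH H e (c • e) 0) : InH H e 0 (c - O.η * O.σ c) := by
  have h1 : O.Ok e 0 (c - O.η * O.σ c) := ⟨h.1.sing, by simp, O.min c⟩
  refine ⟨h1, (U_ext fun z => ?_ : O.T e (c • e) 0 = O.T e 0 (c - O.η * O.σ c)) ▸ h.2⟩
  rw [h.1.T_smul, h1.T_smul]
  simp only [map_smulₛₗ, smul_eq_mul, map_zero]
  module

theorem swap (h : InH H e (c • x) 0) (hx : O.Λ x 0) (h1 : O.B x e = 0) :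
    InH H x ((-(O.η * O.σ c)) • e) 0 :=
  ⟨ok_line hx h.1.sing (O.B_eq_zero_comm h1) _, T_swap h.1.sing hx h1 c ▸ h.2⟩

theorem r2 (h : InH H e w α) (h' : InH H x 0 c) (hx : O.B e x = 0) :
    InH H e ((c * O.B w x) • x) (-c * (O.B w x * O.σ (O.B w x))) := by
  refine (h.diff h'.2 (by simp [h'.1.T_smul, hx]) (by simp [h'.1.T_smul])).congr rfl ?_
  have := O.max h'.1.mem
  simp only [map_zero, zero_add, map_smulₛₗ, map_mul, smul_eq_mul] at this ⊢
  linear_combination O.η * O.σ (O.B w x) * O.B w x * this - c * O.σ (O.B w x) * O.B w x * O.ηη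

end InH

/-- all long root elements with centre `e` lie in `H` -/
def ZF (H : Subgroup O.U) (e : V) : Prop := ∀ c, O.Λ 0 c → InH H e 0 c

theorem Λ_sub (h : O.Λ v α) (h' : O.Λ v β) : O.Λ 0 (β - α) :=
  Λ_congr (O.add h' (OF.inv h)) (by abel) (by
    simp only [map_neg, LinearMap.neg_apply]
    linear_combination O.η * O.max h - α * O.ηη)

theorem ZF.of (hZ : ZF H e) (h : InH H e v α) (h' : O.Λ v β) : InH H e v β :=
  (h.add0 (hZ _ (Λ_sub h.1.mem h'))).congr rfl (by ring)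

/-- The additive group of scalars `s` with `T e (s • v) _ ∈ H`. -/
def SS (H : Subgroup O.U) {e : V} (he : O.Λ e 0) (v : V) : AddSubgroup K where
  carrier := {s | ∃ α, InH H e (s • v) α}
  add_mem' := fun ⟨_, h⟩ ⟨_, h'⟩ => ⟨_, (h.add h').congr (add_smul _ _ _).symm rfl⟩
  zero_mem' := ⟨0, (InH.zero he).congr (zero_smul _ _).symm rfl⟩
  neg_mem' := fun ⟨_, h⟩ => ⟨_, h.inv.congr (neg_smul _ _).symm rfl⟩

theorem mul_mem_of_gens {A : AddSubgroup K} {l : K} (h : ∀ s ∈ A, l * s ∈ A) {P : K → Prop}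
    (hl : ∀ R : Subring K, l ∈ R → ∀ t, P t → t ∈ R) {t s : K} (ht : P t) (hs : s ∈ A) :
    t * s ∈ A :=
  hl { carrier := {t | ∀ s ∈ A, t * s ∈ A}
       mul_mem' := fun a b s hs => mul_assoc _ _ s ▸ a _ (b s hs)
       one_mem' := fun s hs => (one_mul s).symm ▸ hs
       add_mem' := fun a b s hs => (add_mul _ _ s).symm ▸ add_mem (a s hs) (b s hs)
       zero_mem' := fun s _ => (zero_mul s).symm ▸ zero_mem A
       neg_mem' := fun a s hs => (neg_mul _ s).symm ▸ neg_mem (a s hs) } h t ht s hs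

/-- A pair of opposite regular unipotent elements. -/
structure Chn (J u : O.U) (a : ℤ → V) (n : ℕ) (s : K) : Prop where
  two : 2 ≤ n
  nd : ∀ x, (∀ y, O.B x y = 0) → x = 0
  hJ : ∀ k, J • a k = a (k + 1)
  sing0 : O.Λ (a 0) 0
  orth0 : ∀ k : ℤ, -n < k → k < n → O.B (a k) (a 0) = 0
  nz : O.B (a n) (a 0) ≠ 0
  u0 : u • a 0 = a 0
  u1 : u • a 1 = a 1 + s • a 0
  uk : ∀ k : ℤ, 1 ≤ k → k + 1 < n → u • a (k + 1) = a (k + 1) + a k
  cyc : ∀ M : Submodule K V, (∀ v ∈ M, u • v ∈ M) → a (1 - n) ∈ M → ∀ v, O.B v (a 0) = 0 → v ∈ M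

namespace Chn

variable {J u : O.U} {a : ℤ → V} {n : ℕ} {s : K} (C : Chn J u a n s)
include C

theorem zp (m k : ℤ) : J ^ m • a k = a (k + m) := by
  induction m using Int.induction_on generalizing k with
  | zero => simp
  | succ m ih => rw [zpow_add_one, mul_smul, C.hJ, ih]; congr 1; ring
  | pred m ih =>
    rw [zpow_sub_one, mul_smul, show J⁻¹ • a k = a (k - 1) by
      rw [inv_smul_eq_iff, C.hJ, sub_add_cancel], ih]
    congr 1; ring

theorem sing (k : ℤ) : O.Λ (a k) 0 := by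
  rw [← zero_add k, ← C.zp, Λ_U]; exact C.sing0

theorem B_eq (i j : ℤ) : O.B (a i) (a j) = O.B (a (i - j)) (a 0) := by
  rw [← B_U (J ^ j) (a (i - j)), C.zp, C.zp, sub_add_cancel, zero_add]

theorem orth {i j : ℤ} (h1 : j - n < i) (h2 : i < j + n) : O.B (a i) (a j) = 0 := by
  rw [C.B_eq, C.orth0] <;> omega

theorem B_n {i j : ℤ} (h : i = j + n) : O.B (a i) (a j) = O.B (a n) (a 0) := by
  rw [C.B_eq, h, add_sub_cancel_left]

theorem B_n' {i j : ℤ} (h : j = i + n) : O.B (a i) (a j) = O.η * O.σ (O.B (a n) (a 0)) := by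
  rw [O.herm, C.B_n h]

variable (hJ : J ∈ H)
include hJ

theorem shift {i j : ℤ} (h : InH H (a i) (c • a j) α) {i' j' : ℤ} (e : j' - i' = j - i) :
    InH H (a i') (c • a j') α := by
  have := h.conj (zpow_mem hJ (i' - i))
  rwa [U_smul, C.zp, C.zp, add_sub_cancel, show j + (i' - i) = j' by omega] at this

theorem shift0 {i : ℤ} (h : InH H (a i) 0 α) (j : ℤ) : InH H (a j) 0 α := by
  have := h.conj (zpow_mem hJ (j - i))
  rwa [U_zero, C.zp, add_sub_cancel] at this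

theorem up {k : ℤ} (h1 : 0 < k) (h2 : k < n) {t : K} (h : InH H (a 0) (t • a k) α)
    (hc : InH H (a 0) 0 c) : InH H (a 0) ((c * t * O.B (a n) (a 0)) • a (k - n))
      (-c * (t * O.B (a n) (a 0) * O.σ (t * O.B (a n) (a 0)))) := by
  have := h.r2 (C.shift0 hJ hc (k - n)) (C.orth (by omega) (by omega))
  simp only [map_smul, LinearMap.smul_apply, smul_eq_mul, C.B_n (sub_add_cancel k n).symm] at this
  rwa [mul_assoc]

theorem down {k : ℤ} (h1 : k < 0) (h2 : -n < k) {t : K} (h : InH H (a 0) (t • a k) α)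
    (hc : InH H (a 0) 0 c) : InH H (a 0) ((c * t * (O.η * O.σ (O.B (a n) (a 0)))) • a (k + n))
      (-c * (t * (O.η * O.σ (O.B (a n) (a 0))) * O.σ (t * (O.η * O.σ (O.B (a n) (a 0)))))) := by
  have := h.r2 (C.shift0 hJ hc (k + n)) (C.orth (by omega) (by omega))
  simp only [map_smul, LinearMap.smul_apply, smul_eq_mul, C.B_n' (rfl : k + n = _)] at this
  rwa [mul_assoc]

theorem swap {k : ℤ} (h1 : -n < k) (h2 : k < n) {t : K} (h : InH H (a 0) (t • a k) 0) :
    InH H (a 0) ((-(O.η * O.σ t)) • a (-k)) 0 :=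
  C.shift hJ (h.swap (C.sing k) (C.orth0 k h1 h2)) (by ring)

theorem one_gens (hc : InH H (a 0) 0 c) {P : K → Prop} (hl : ∀ R : Subring K,
    c ^ 2 * (O.η * (O.B (a n) (a 0) * O.σ (O.B (a n) (a 0)))) ∈ R → ∀ t, P t → t ∈ R)
    {t κ : K} (ht : P t) (h : κ ∈ SS H C.sing0 (a 1)) : t * κ ∈ SS H C.sing0 (a 1) := by
  have := C.two
  refine mul_mem_of_gens (fun s hs => ?_) hl ht h
  obtain ⟨_, hs⟩ := hs
  refine ⟨_, (C.down hJ (by omega) (by omega) (C.up hJ one_pos (by omega) hs hc) hc).congr ?_ rfl⟩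
  rw [sub_add_cancel]
  congr 1; ring

variable (hu : u ∈ H)
include hu

theorem fin (hZ : ZF H (a 0)) (h : ∀ t : K, ∃ α, InH H (a 0) (t • a (1 - n)) α) (x : V) :
    Rad H x := by
  have h1 : Rad H (a 0) := fun v α hv => by
    obtain ⟨β, hβ⟩ := C.cyc
      { carrier := {v | ∀ t : K, ∃ α, InH H (a 0) (t • v) α}
        add_mem' := fun h h' t => let ⟨_, h⟩ := h t; let ⟨_, h'⟩ := h' t
          ⟨_, (h.add h').congr (smul_add _ _ _).symm rfl⟩
        zero_mem' := fun t => ⟨0, (InH.zero C.sing0).congr (smul_zero _).symm rfl⟩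
        smul_mem' := fun c v h t => (h (t * c)).imp fun _ h => h.congr (mul_smul _ _ _) rfl }
      (fun v h t => (h t).imp fun _ h => by simpa [C.u0] using h.conj hu) h v hv.perp 1
    exact (hZ.of (hβ.congr (one_smul _ _) rfl) hv.mem).2
  refine Rad.all C.nd C.sing0 (C.sing n) C.nz h1
    (h1.map (zpow_mem hJ (-n)) one_ne_zero (by rw [C.zp]; simp)) x

theorem fin1 (hZ : ZF H (a 0)) (hc : O.Λ 0 c) (c0 : c ≠ 0) (h : ∀ t, t ∈ SS H C.sing0 (a 1))
    (x : V) : Rad H x := by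
  have := C.two
  have := C.nz
  refine C.fin hJ hu hZ (fun t => ?_) x
  obtain ⟨_, h1⟩ := h (t / (c * O.B (a n) (a 0)))
  exact ⟨_, (C.up hJ one_pos (by omega) h1 (hZ c hc)).congr (by congr 1; field_simp) rfl⟩

omit hJ in
theorem long {t : K} (h : t ∈ SS H C.sing0 (a 1)) :
    InH H (a 0) 0 (t * s - O.η * O.σ (t * s)) := by
  obtain ⟨_, h⟩ := h
  have := C.two
  refine InH.self ((h.diff hu C.u0 (y := (t * s) • a 0) (by simp [C.u1, mul_smul])).congr rfl ?_)
  simp [C.orth0 1 (by omega) (by omega)]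

omit hJ in
theorem lower {t : K} (k : ℕ) (hk : k + 1 < n) (h : t ∈ SS H C.sing0 (a (k + 1))) :
    t ∈ SS H C.sing0 (a 1) := by
  induction k with
  | zero => simpa using h
  | succ k ih =>
    obtain ⟨_, h⟩ := h
    refine ih (by omega) ⟨_, h.diff hu C.u0 ?_⟩
    push_cast
    rw [U_smul, C.uk _ (by omega) (by omega), smul_add]

theorem main_odd {κ : K} (h : κ ∈ SS H C.sing0 (a 1)) (c0 : κ * s - O.η * O.σ (κ * s) ≠ 0)
    (hl : ∀ R : Subring K, (κ * s - O.η * O.σ (κ * s)) ^ 2 *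
      (O.η * (O.B (a n) (a 0) * O.σ (O.B (a n) (a 0)))) ∈ R → ∀ t, O.σ t = t → t ∈ R)
    (hA : ∀ A : AddSubgroup K, (∀ t, O.σ t = t → t * κ ∈ A) →
      (∀ c, O.Λ 0 c → ∀ t ∈ A, c * O.σ t * O.σ (O.B (a n) (a 0)) ∈ A) → ∀ t, t ∈ A) (x : V) :
    Rad H x := by
  have h2 := C.two
  have h1 := C.long hu h
  have h3 : ∀ t, O.σ t = t → t * κ ∈ SS H C.sing0 (a 1) := fun t ht => C.one_gens hJ h1 hl ht h
  have hZ : ZF H (a 0) := fun c hc => by
    have e1 := O.max hc
    have e2 := O.max h1.1.mem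
    simp only [map_zero, zero_add] at e1 e2
    have e3 : O.σ (c / (κ * s - O.η * O.σ (κ * s))) = c / (κ * s - O.η * O.σ (κ * s)) := by
      rw [map_div₀, eq_neg_of_add_eq_zero_right e1, eq_neg_of_add_eq_zero_right e2, neg_div_neg_eq,
        mul_div_mul_left _ _ O.η_ne]
    refine (C.long hu (h3 _ e3)).congr rfl ?_
    rw [mul_assoc, map_mul O.σ (c / _), e3]
    field_simp
  refine C.fin1 hJ hu hZ h1.1.mem c0 (hA _ h3 fun c hc t ⟨_, ht⟩ => ?_) x
  have h4 := C.down hJ (by omega) (by omega)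
    (C.swap hJ (by omega) (by omega) (hZ.of ht (smul_zero' t (C.sing 1)))) (hZ c hc)
  refine neg_mem_iff.1 (C.lower hu (n - 2) (by omega) ⟨_, h4.congr ?_ rfl⟩)
  congr 1
  · linear_combination -c * O.σ t * O.σ (O.B (a n) (a 0)) * O.ηη
  · congr 1; omega

section two

variable (hσ : ∀ t, O.σ t = t) (hη : O.η = -1) (hsq : ∀ z : K, ∃ y, z = -y ^ 2)
include hσ hη hsq

theorem two_fin (hc : InH H (a 0) 0 c) (c0 : c ≠ 0) (h1 : ∀ t, t ∈ SS H C.sing0 (a 1))
    (h2 : ∀ t, t ∈ SS H C.sing0 (a (-1))) (x : V) : Rad H x := by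
  have n2 := C.two
  have b0 := C.nz
  refine C.fin1 hJ hu (fun c' hc' => ?_) hc.1.mem c0 h1 x
  by_cases e0 : c' = 0
  · exact e0 ▸ InH.zero C.sing0
  by_cases e1 : c' = c
  · exact e1 ▸ hc
  have k1 : ∀ t : K, ∃ α, InH H (a 0) (t • a (1 - n)) α := fun t => by
    obtain ⟨_, h⟩ := h1 (t / (c * O.B (a n) (a 0)))
    exact ⟨_, (C.up hJ one_pos (by omega) h hc).congr (by congr 1; field_simp) rfl⟩
  have k2 : ∀ y : K, InH H (a 0) (y • a 1) (-y ^ 2 / c) := fun y => by
    obtain ⟨_, h⟩ := k1 (-y / (c * O.B (a n) (a 0)))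
    refine (C.down hJ (by omega) (by omega) h hc).congr ?_ ?_
    · rw [sub_add_cancel, hσ, hη]; congr 1; field_simp
    · simp only [hσ, hη]; field_simp
  have k3 : ∀ y : K, InH H (a 1) (y • a 0) (-y ^ 2 / c) := fun y => by
    obtain ⟨_, h⟩ := h2 (-y / (c * O.B (a n) (a 0)) ^ 2)
    refine (C.shift hJ (C.up hJ (by omega) (by omega) (C.down hJ (by omega) (by omega) h hc) hc)
      (i' := 1) (j' := 0) (by ring)).congr ?_ ?_
    · rw [hσ, hη]; congr 1; field_simp
    · simp only [hσ, hη]; field_simp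
  have k4 : ∀ z r : K, InH H (a 0) ((z * r) • a 1) (-z * r ^ 2) := fun z r => by
    obtain ⟨y, hy⟩ := hsq (z * c)
    obtain ⟨_, h⟩ := k1 (-r / O.B (a n) (a 0))
    have o1 : O.B (a 0) (a 1) = 0 := C.orth (by omega) (by omega)
    have o2 : O.B (a (1 - n)) (a 0) = 0 := C.orth (by omega) (by omega)
    have o3 : O.B (a (1 - n)) (a 1) = -O.B (a n) (a 0) := by
      rw [C.B_n' (by ring), hσ, hη, neg_one_mul]
    have o4 := B_self C.sing0
    have e : -y ^ 2 / c = z := by rw [← hy]; field_simp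
    refine (h.diff (mul_mem (k3 y).2 (k2 y).inv.2) (y := (z * r) • a 1) ?_ ?_).congr rfl ?_
    · rw [mul_smul, (k2 y).inv.1.T_smul, (k3 y).1.T_smul]
      simp [o1, o4]
    · rw [mul_smul, (k2 y).inv.1.T_smul, (k3 y).1.T_smul]
      simp only [o1, o2, o3, o4, map_add, map_smul,
        map_smulₛₗ, LinearMap.add_apply, LinearMap.smul_apply, smul_eq_mul, hσ, hη, map_neg, e]
      match_scalars <;> field_simp <;> ring
    · simp only [o3, map_smul, map_smulₛₗ, LinearMap.smul_apply, smul_eq_mul, hσ, hη]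
      field_simp
  have e2 : c' - c ≠ 0 := sub_ne_zero.2 e1
  refine ((k4 (c' * c / (c' - c)) 1).sub0 ((k4 (c ^ 2 / (c' - c)) (c' / c)).congr
    (by congr 1; field_simp) rfl)).congr rfl ?_
  field_simp
  ring

theorem main_two (hn : n = 2) (hc : InH H (a 0) 0 c) (c0 : c ≠ 0)
    (hl : Gens (-(c * O.B (a n) (a 0)) ^ 2)) {κ : K} (k0 : κ ≠ 0) (h : κ ∈ SS H C.sing0 (a 1))
    (x : V) : Rad H x := by
  have b0 := C.nz
  have h1 : ∀ t, t ∈ SS H C.sing0 (a 1) := fun t => by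
    simpa [k0] using C.one_gens hJ hc (P := fun _ => True) (fun R hR t _ => (hl R (by
      convert hR using 1; rw [hσ, hη]; ring)).ge trivial) (t := t / κ) trivial h
  refine C.two_fin hJ hu hσ hη hsq hc c0 h1 (fun t => ?_) x
  obtain ⟨_, h⟩ := h1 (t / (c * O.B (a n) (a 0)))
  exact ⟨_, (C.up hJ one_pos (by omega) h hc).congr (by
    rw [show (1 : ℤ) - n = -1 by omega]; congr 1; field_simp) rfl⟩

omit hu hsq in
theorem r1 {j : ℤ} (h1 : 0 < j) (h2 : j < n) {t θ : K} (h : InH H (a 0) (t • a (-j)) α)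
    (h' : θ ∈ SS H C.sing0 (a 1)) :
    InH H (a 0) ((-(t * θ * O.B (a n) (a 0))) • a (n - 1 - j)) 0 := by
  obtain ⟨_, h'⟩ := h'
  have n2 := C.two
  have h3 := C.shift hJ h' (i' := n - 1) (j' := n) (by ring)
  have o1 : O.B (a j) (a (n - 1)) = 0 := C.orth (by omega) (by omega)
  have o2 : O.B (a j) (a n) = 0 := C.orth (by omega) (by omega)
  have o3 : O.B (a 0) (a (n - 1)) = 0 := C.orth (by omega) (by omega)
  have o4 : O.B (a 0) (a n) = -O.B (a n) (a 0) := by rw [C.B_n' (by ring), hσ, hη, neg_one_mul]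
  refine C.shift hJ (((C.shift hJ h (i' := j) (j' := 0) (by ring)).diff h3.2
    (y := (-(t * θ * O.B (a n) (a 0))) • a (n - 1)) (by simp [h3.1.T_smul, o1, o2]) ?_).congr rfl
    (by simp [o3])) (by ring)
  simp only [h3.1.T_smul, o3, o4, map_smul, map_smulₛₗ, LinearMap.smul_apply, smul_eq_mul, hσ, hη]
  module

theorem main_three (hn : 3 ≤ n) {θ r : K} (h : InH H (a 0) (θ • a (-1)) r) (r0 : r ≠ 0)
    (θ0 : θ ≠ 0) (h' : θ ∈ SS H C.sing0 (a 1)) (hl : Gens ((θ * O.B (a n) (a 0)) ^ 2)) (x : V) :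
    Rad H x := by
  have b0 := C.nz
  let E : AddSubgroup K :=
    { carrier := {t | InH H (a 0) (t • a (-1)) 0}
      add_mem' := fun h h' => (h.add h').congr (add_smul _ _ _).symm (by simp [B_self (C.sing _)])
      zero_mem' := (InH.zero C.sing0).congr (zero_smul _ _).symm rfl
      neg_mem' := fun h => h.inv.congr (neg_smul _ _).symm (by simp) }
  have k : ∀ t α, InH H (a 0) (t • a (-1)) α → (θ * O.B (a n) (a 0)) ^ 2 * t ∈ E := fun t α ht => by
    refine (C.swap hJ (by omega) (by omega) (C.r1 hJ hσ hη (j := n - 1 - 1) (by omega) (by omega)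
      (C.swap hJ (by omega) (by omega) (C.r1 hJ hσ hη one_pos (by omega) ht h')) h')).congr ?_ rfl
    simp only [hσ, hη]
    congr 1
    · ring
    · congr 1; ring
  have hE : ∀ t, t ∈ E := fun t => by
    have := mul_mem_of_gens (fun s hs => k s 0 hs) (P := fun _ => True)
      (fun R hR t _ => (hl R hR).ge trivial) (t := t / ((θ * O.B (a n) (a 0)) ^ 2 * θ)) trivial
      (k θ r h)
    rwa [div_mul_cancel₀ _ (by simp [θ0, b0])] at this
  refine C.two_fin hJ hu hσ hη hsq ((h.sub0 (hE θ)).congr rfl (sub_zero r)) r0 (fun t => ⟨0, ?_⟩)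
    (fun t => ⟨0, hE t⟩) x
  simpa [hσ, hη] using C.swap hJ (by omega) (by omega) (hE t)

end two

end Chn

end Cfsg.Agent.H4
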