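import Cfsg.Agent.H4.RG
import Cfsg.Agent.H4.GenT3
import Cfsg.Agent.H5.Cyc

/-!
# Generation of symplectic and unitary groups by regular unipotent elements: Jordan chains
-/

set_option autoImplicit false
set_option linter.unusedSectionVars false
set_option linter.unusedSimpArgs false
set_option linter.unnecessarySeqFocus false
set_option linter.unusedVariables false

namespace Cfsg.Agent.H4

open H5 H6 H6.OF Module

variable {K V : Type*} [Field K] [AddCommGroup V] [Module K V]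

/-- Jordan chain of a regular unipotent isometry -/
structure YCh {σ : K →+* K} (B : Sesq σ V) (f : End K V) (y : ℕ → V) (d : ℕ) (β : K) : Prop where
  hf : ∀ i, f (y i) = y i + y (i + 1)
  top : y d = 0
  g0 : ∀ i j, d ≤ i + j → B (y i) (y j) = 0
  g1 : ∀ i j, i + j + 1 = d → B (y i) (y j) = (-1) ^ j * β
  β0 : β ≠ 0
  span : ∀ M : Submodule K V, (∀ i, y i ∈ M) → ∀ v, v ∈ M

theorem li_of_tri {σ : K →+* K} {B : Sesq σ V} {m : ℕ} {v w : Fin m → V}
    (h1 : ∀ i j, j < i → B (v i) (w j) = 0) (h2 : ∀ i, B (v i) (w i) ≠ 0) :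
    LinearIndependent K v := by
  rw [Fintype.linearIndependent_iff]
  intro g hg j
  induction j using WellFoundedLT.induction with
  | ind j ih =>
    have := congrArg (fun x => B x (w j)) hg
    simp only [map_sum, map_smul, LinearMap.sum_apply, LinearMap.smul_apply, smul_eq_mul, map_zero,
      LinearMap.zero_apply] at this
    rw [Finset.sum_eq_single j (fun i _ hi => by
      rcases lt_or_gt_of_ne hi with h | h
      · rw [ih i h, zero_mul]
      · rw [h1 i j h, mul_zero]) (by simp)] at this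
    exact (mul_eq_zero.1 this).resolve_right (h2 j)

namespace YCh

variable {σ : K →+* K} {B : Sesq σ V} {f : End K V} {y : ℕ → V} {d : ℕ} {β : K}
  (Y : YCh B f y d β)
include Y

theorem g1' {i j : ℕ} (h : i + j + 1 = d) : B (y i) (y j) ≠ 0 := by
  rw [Y.g1 i j h]; simp [Y.β0]

theorem pow (k i : ℕ) : ((f - 1) ^ k) (y i) = y (i + k) := by
  induction k with
  | zero => rfl
  | succ k ih => rw [pow_succ', End.mul_apply, ih]; simp [Y.hf, add_assoc]

theorem ext {W : Type*} [AddCommGroup W] [Module K W] {g g' : V →ₗ[K] W}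
    (h : ∀ i, g (y i) = g' (y i)) : g = g' :=
  LinearMap.ext (Y.span (LinearMap.eqLocus g g') h)

theorem eq_zero {i : ℕ} (h : d ≤ i) : y i = 0 := by
  obtain ⟨k, rfl⟩ := Nat.exists_eq_add_of_le h
  rw [← Y.pow, Y.top, map_zero]

theorem ru {n : ℕ} (h : d = n + 1) : RU f n :=
  ⟨⟨d, Y.ext fun i => by rw [Y.pow, Y.eq_zero (by omega)]; rfl⟩, fun h0 => by
    have := Y.pow n 0
    rw [h0, zero_add] at this
    exact Y.g1' (i := n) (j := 0) h.symm (by rw [← this]; simp)⟩

theorem li : LinearIndependent K fun i : Fin d => y i :=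
  li_of_tri (B := B) (w := fun i : Fin d => y (d - 1 - i))
    (fun i j h => Y.g0 _ _ (by have := Fin.lt_def.1 h; omega)) fun i => Y.g1' (by omega)

theorem map (w : V ≃ₗ[K] V) (hw : ∀ x z, B (w x) (w z) = B x z) :
    YCh B (w.conj f) (fun i => w (y i)) d β where
  hf i := by simp [Y.hf]
  top := by simp [Y.top]
  g0 i j h := by rw [hw, Y.g0 i j h]
  g1 i j h := by rw [hw, Y.g1 i j h]
  β0 := Y.β0
  span M h v := by simpa using Y.span (M.comap (w : V →ₗ[K] V)) h (w.symm v)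

theorem step {m : ℕ} (hm : m < d) {v : V} (hv : v ∈ Submodule.span K (y '' Set.Ici m)) :
    ∃ c : K, v - c • y m ∈ Submodule.span K (y '' Set.Ici (m + 1)) ∧
      B v (y (d - 1 - m)) = c * B (y m) (y (d - 1 - m)) := by
  induction hv using Submodule.span_induction with
  | mem x hx =>
    obtain ⟨i, hi, rfl⟩ := hx
    rcases (show m ≤ i from hi).eq_or_lt with rfl | h
    · exact ⟨1, by simp, by simp⟩
    · exact ⟨0, by simpa using Submodule.subset_span (Set.mem_image_of_mem y (show i ∈ Set.Ici (m + 1) from h)),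
        by rw [Y.g0 _ _ (by omega)]; simp⟩
  | zero => exact ⟨0, by simp, by simp⟩
  | add x z _ _ h1 h2 =>
    obtain ⟨c, h1, h3⟩ := h1
    obtain ⟨c', h2, h4⟩ := h2
    exact ⟨c + c', by convert add_mem h1 h2 using 1; module, by simp [h3, h4, add_mul]⟩
  | smul a x _ h =>
    obtain ⟨c, h1, h2⟩ := h
    exact ⟨a * c, by convert Submodule.smul_mem _ a h1 using 1; module, by simp [h2, mul_assoc]⟩

theorem mem_one (hd : 1 ≤ d) {v : V} (hv : B v (y (d - 1)) = 0) :
    v ∈ Submodule.span K (y '' Set.Ici 1) := by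
  obtain ⟨c, h1, h2⟩ := Y.step hd (Y.span _ (fun i => Submodule.subset_span
    (Set.mem_image_of_mem y (show i ∈ Set.Ici 0 from i.zero_le))) v)
  rw [Nat.sub_zero, hv, eq_comm, mul_eq_zero] at h2
  simpa [h2.resolve_right (Y.g1' (by omega))] using h1

theorem nd {v : V} (hv : ∀ x, B v x = 0) : v = 0 := by
  have : ∀ m, m ≤ d → v ∈ Submodule.span K (y '' Set.Ici m) := fun m hm => by
    induction m with
    | zero => exact Y.span _ (fun i => Submodule.subset_span
        (Set.mem_image_of_mem y (show i ∈ Set.Ici 0 from i.zero_le))) v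
    | succ m ih =>
      obtain ⟨c, h1, h2⟩ := Y.step hm (ih (by omega))
      rw [hv, eq_comm, mul_eq_zero] at h2
      simpa [h2.resolve_right (Y.g1' (by omega))] using h1
  refine (Submodule.span_le (p := ⊥)).2 ?_ (this d le_rfl)
  rintro _ ⟨i, hi, rfl⟩
  exact Y.eq_zero hi

theorem cyc (hd : 2 ≤ d) {M : Submodule K V} (hM : ∀ v ∈ M, f v ∈ M) {v : V} (hv : v ∈ M)
    (h1 : B v (y (d - 1)) = 0) (h2 : B v (y (d - 2)) ≠ 0) {x : V} (hx : B x (y (d - 1)) = 0) :
    x ∈ M := by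
  obtain ⟨c, h3, h4⟩ := Y.step hd (Y.mem_one (by omega) h1)
  have c0 : c ≠ 0 := by rintro rfl; exact h2 (by simpa [show d - 2 = d - 1 - 1 by omega] using h4)
  have k1 : ∀ k, ∃ w ∈ M, w - c • y (k + 1) ∈ Submodule.span K (y '' Set.Ici (k + 2)) := by
    intro k
    induction k with
    | zero => exact ⟨v, hv, h3⟩
    | succ k ih =>
      obtain ⟨w, h5, h6⟩ := ih
      refine ⟨f w - w, sub_mem (hM w h5) h5, ?_⟩
      have := Submodule.mem_map_of_mem (f := f - 1) h6
      rw [Submodule.map_span] at this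
      convert Submodule.span_mono ?_ this using 1
      · simp [Y.hf]; abel
      · rintro _ ⟨_, ⟨i, hi, rfl⟩, rfl⟩
        exact ⟨i + 1, Nat.succ_le_succ hi, by simp [Y.hf]⟩
  have k2 : ∀ j k, d ≤ j + k → Submodule.span K (y '' Set.Ici (k + 1)) ≤ M := by
    intro j
    induction j with
    | zero =>
      intro k hk
      rw [Submodule.span_le]
      rintro _ ⟨i, hi, rfl⟩
      rw [Y.eq_zero (by have : k + 1 ≤ i := hi; omega)]
      exact zero_mem M
    | succ j ih =>
      intro k hk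
      have h5 := ih (k + 1) (by omega)
      rw [Submodule.span_le]
      rintro _ ⟨i, hi, rfl⟩
      rcases (show k + 1 ≤ i from hi).eq_or_lt with rfl | h
      · obtain ⟨w, h6, h7⟩ := k1 k
        simpa [c0] using M.smul_mem c⁻¹ (sub_mem h6 (h5 h7))
      · exact h5 (Submodule.subset_span (Set.mem_image_of_mem y h))
  exact k2 d 0 le_rfl (Y.mem_one (by omega) hx)

end YCh

variable {O : OF K V}

theorem comm_Q {u : O.U} {e w : V} {α : K} (h : O.Ok e w α) (hu : u • e = e) :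
    ∃ β, O.Ok e (w - u • w) β ∧ O.T e w α * u * (O.T e w α)⁻¹ * u⁻¹ = O.T e (w - u • w) β := by
  have h1 := h.map u
  have h2 := h.conj_T u
  rw [hu] at h1 h2
  rw [sub_eq_add_neg]
  refine ⟨_, h.add h1.inv, ?_⟩
  rw [← h.T_mul h1.inv, ← h1.T_inv, ← h2]
  group

theorem comm_Z (hσ : ∀ t, O.σ t = t) (hη : O.η = -1) (hΛ : ∀ v α, O.Λ v α) {u : O.U} {e a y : V}
    {s : K} (u0 : u • e = e) (u1 : u • a = a + s • e) (u2 : u • y = y + a) (h1 : O.B y e = 0)
    (h2 : O.B a e = 0) (ψ : K) : ∃ g : O.U,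
      g * u * g⁻¹ * u⁻¹ = O.T e 0 (s ^ 2 * ψ * (ψ * O.B a y - 1)) := by
  obtain ⟨θ, hθ⟩ : ∃ θ, θ = -ψ * s := ⟨_, rfl⟩
  have k1 : O.Ok e (θ • y) 0 := ⟨hΛ _ _, by simp [h1], hΛ _ _⟩
  have k2 : ∀ x c, O.Ok x 0 c := fun x c => ⟨hΛ _ _, by simp, hΛ _ _⟩
  refine ⟨O.T e (θ • y) 0 * O.T a 0 ψ, ?_⟩
  have k3 := k1.map u
  have k4 := k1.conj_T u
  rw [u0] at k3 k4
  have e1 : O.T e (θ • y) 0 * O.T a 0 ψ = O.T e 0 (s ^ 2 * ψ * (ψ * O.B a y - 1)) *
      (u * O.T e (θ • y) 0 * u⁻¹) * (u * O.T a 0 ψ * u⁻¹) := by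
    rw [k4, (k2 _ _).conj_T, U_zero]
    refine U_ext fun z => ?_
    rw [mul_smul, mul_smul, mul_smul, k1.T_smul, (k2 _ _).T_smul, (k2 _ _).T_smul, k3.T_smul,
      (k2 _ _).T_smul]
    simp only [U_smul, u1, u2, map_add, map_smul, map_smulₛₗ, LinearMap.add_apply, map_zero,
      LinearMap.smul_apply, smul_eq_mul, hσ, hη, h1, h2, B_self (hΛ _ _), O.B_eq_zero_comm h1,
      O.B_eq_zero_comm h2, LinearMap.zero_apply, hθ]
    module
  generalize O.T e (θ • y) 0 = A at e1 ⊢
  generalize O.T a 0 ψ = B at e1 ⊢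
  rw [mul_assoc, eq_comm, ← eq_mul_inv_iff_mul_eq] at e1
  rw [e1]
  group

end Cfsg.Agent.H4
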