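import Cfsg.Agent.H4.RG2

/-!
# Generation of symplectic and unitary groups by regular unipotent elements: models
-/

set_option autoImplicit false
set_option linter.unusedSectionVars false
set_option linter.unusedSimpArgs false
set_option linter.unnecessarySeqFocus false
set_option linter.unusedVariables false

namespace Cfsg.Agent.H4

open H5 H6 H6.OF Module Polynomial

variable {K V : Type*} [Field K] [AddCommGroup V] [Module K V] {O : OF K V}

/-- A regular unipotent isometry with a good vector -/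
structure Mod (J : O.U) (a : ℤ → V) (z : ℕ → V) (n d : ℕ) (β : K) : Prop where
  two : 2 ≤ n
  dn : 2 * n ≤ d
  hJ : ∀ k, J • a k = a (k + 1)
  sing0 : O.Λ (a 0) 0
  orth : ∀ i j : ℤ, j - n < i → i < j + n → O.B (a i) (a j) = 0
  nz : O.B (a n) (a 0) ≠ 0
  nz' : ∀ k, O.B (a k) (a (k + n)) = O.η * O.σ (O.B (a n) (a 0))
  Y : YCh O.B (J.1 : End K V) z d β

namespace Mod

variable {J : O.U} {a : ℤ → V} {z : ℕ → V} {n d : ℕ} {β s : K} (M : Mod J a z n d β)
include M

theorem ych (w : O.U) : YCh O.B ((w * J * w⁻¹).1 : End K V) (fun i => w • z i) d β := by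
  exact M.Y.map w.1 w.2.1

theorem chn {w : O.U} (s0 : s ≠ 0) (h0 : w • z (d - 1) = s • a 0)
    (h1 : ∀ k : ℕ, 1 ≤ k → k < n → w • z (d - 1 - k) = a k) : Chn J (w * J * w⁻¹) a n s := by
  have Y := M.ych w
  have n2 := M.two
  have dn := M.dn
  have hf : ∀ i, (w * J * w⁻¹) • w • z i = w • z i + w • z (i + 1) := Y.hf
  refine ⟨n2, fun x => M.Y.nd, M.hJ, M.sing0, fun k h h' => M.orth _ _ (by omega) (by omega), M.nz,
    ?_, ?_, fun k hk hk' => ?_, fun N hN h v hv => Y.cyc (by omega) hN h ?_ ?_ ?_⟩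
  · have := hf (d - 1)
    rwa [Nat.sub_add_cancel (by omega), M.Y.top, U_zero, add_zero, h0, U_smul,
      smul_right_inj s0] at this
  · have := hf (d - 1 - 1)
    rwa [Nat.sub_add_cancel (by omega), h0, h1 1 le_rfl (by omega)] at this
  · obtain ⟨k, rfl⟩ := Int.eq_ofNat_of_zero_le (show 0 ≤ k by omega)
    have := hf (d - 1 - (k + 1))
    rwa [show d - 1 - (k + 1) + 1 = d - 1 - k by omega, h1 _ (by omega) (by omega),
      h1 _ (by omega) (by omega)] at this
  · simp [h0, M.orth (1 - n) 0 (by omega) (by omega)]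
  · have := M.nz' (1 - n)
    rw [sub_add_cancel] at this
    rw [show d - 2 = d - 1 - 1 by omega, h1 1 le_rfl (by omega), Nat.cast_one, this]
    exact mul_ne_zero O.η_ne (O.σ_ne M.nz)
  · simp [h0, hv]

theorem li {N : ℕ} (hN : N ≤ 2 * n) (m : ℤ) {c : Fin N → K} (hc : ∀ i, c i ≠ 0) :
    LinearIndependent K fun i : Fin N => c i • a (i + m) :=
  li_of_tri (B := O.B) (w := fun i : Fin N => a (i + m + n))
    (fun i j h => by
      have := Fin.lt_def.1 h
      simp [M.orth (i + m) (j + m + n) (by omega) (by omega)])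
    fun i => by simp [M.nz', hc, O.η_ne, M.nz]

variable [FiniteDimensional K V] {ε c₀ : K} (hB : H5.Good O.B ε c₀)
include hB

theorem wittN {N : ℕ} (hN : N ≤ 2 * n) (m : ℤ) {r : ℕ → ℕ} (hr : ∀ i < N, r i < d)
    (hr' : ∀ i < N, ∀ j < N, r i = r j → i = j) {c : ℕ → K} (hc : ∀ i, c i ≠ 0)
    (h : ∀ i < N, ∀ j < N, O.B (c i • a (i + m)) (c j • a (j + m)) = O.B (z (r i)) (z (r j))) :
    ∃ w : V ≃ₗ[K] V, (∀ x y, O.B (w x) (w y) = O.B x y) ∧ ∀ i < N, w (z (r i)) = c i • a (i + m) :=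
  let ⟨w, h1, h2⟩ := witt hB hB rfl (M.Y.li.comp (fun i : Fin N => ⟨r i, hr i i.2⟩)
    fun i j h => Fin.ext (hr' i i.2 j j.2 (congrArg Fin.val h)))
    (M.li hN m (c := fun i => c i) fun i => hc i) fun i j => h i i.2 j j.2
  ⟨w, h1, fun i hi => h2 ⟨i, hi⟩⟩

theorem witt1 (s0 : s ≠ 0) : ∃ w : V ≃ₗ[K] V, (∀ x y, O.B (w x) (w y) = O.B x y) ∧
    w (z (d - 1)) = s • a 0 ∧ ∀ k : ℕ, 1 ≤ k → k < n → w (z (d - 1 - k)) = a k := by
  have n2 := M.two
  have dn := M.dn
  obtain ⟨w, h1, h2⟩ := M.wittN hB (N := n) (by omega) 0 (r := fun i => d - 1 - i)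
    (fun i hi => by omega) (fun i hi j hj h => by omega) (c := fun i => if i = 0 then s else 1)
    (fun i => by split_ifs <;> simp [s0]) fun i hi j hj => by
      simp [-ite_smul, M.orth i j (by omega) (by omega), M.Y.g0 (d - 1 - i) (d - 1 - j) (by omega)]
  exact ⟨w, h1, by simpa using h2 0 (by omega), fun k h h' => by
    simpa [show k ≠ 0 by omega] using h2 k h'⟩

theorem witt2 (hd : d = 2 * n) (hs : ∀ v, O.B v v = 0) (hσ : ∀ t, O.σ t = t) (hη : O.η = -1)
    (s0 : s ≠ 0) : ∃ (w : V ≃ₗ[K] V) (c : K), (∀ x y, O.B (w x) (w y) = O.B x y) ∧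
    w (z (d - 1)) = s • a 0 ∧ (∀ k : ℕ, 1 ≤ k → k < n → w (z (d - 1 - k)) = a k) ∧ c ≠ 0 ∧
    c * O.B (a n) (a 0) = -((-1) ^ n * β) ∧ w (z (n - 1)) = c • a (-1) := by
  have n2 := M.two
  have b0 := M.nz
  have β0 := M.Y.β0
  obtain ⟨c, hc⟩ : ∃ c, c = -((-1) ^ n * β) / O.B (a n) (a 0) := ⟨_, rfl⟩
  have c0 : c ≠ 0 := by simp [hc, b0, β0]
  have k1 : ∀ j < n + 1, O.B (c • a (-1))
      ((if j = 0 then c else if j = 1 then s else 1) • a (j + -1)) =
      O.B (z (n - 1)) (z (if j = 0 then n - 1 else d - j)) := fun j hj => by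
    by_cases h : j = 0
    · simp [h, hs]
    by_cases h' : j = n
    · have := M.nz' (-1)
      rw [add_comm] at this
      simp only [h', show n ≠ 0 by omega, show n ≠ 1 by omega, if_false, one_smul, map_smul,
        LinearMap.smul_apply, this, hσ, hη, hc, show d - n = n by omega, smul_eq_mul]
      rw [M.Y.g1 _ _ (by omega)]
      field_simp
    · simp [-ite_smul, h, M.orth (-1) (j + -1) (by omega) (by omega),
        M.Y.g0 (n - 1) (d - j) (by omega)]
  obtain ⟨w, h1, h2⟩ := M.wittN hB (N := n + 1) (by omega) (-1)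
    (r := fun i => if i = 0 then n - 1 else d - i) (fun i hi => by split_ifs <;> omega)
    (fun i hi j hj h => by split_ifs at h <;> omega)
    (c := fun i => if i = 0 then c else if i = 1 then s else 1)
    (fun i => by split_ifs <;> simp [s0, c0]) fun i hi j hj => by
      by_cases h : i = 0
      · simpa [-ite_smul, h] using k1 j hj
      by_cases h' : j = 0
      · rw [O.herm, O.herm (z _)]
        congr 2
        simpa [-ite_smul, h'] using k1 i hi
      simp [-ite_smul, h, h', M.orth (i + -1) (j + -1) (by omega) (by omega),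
        M.Y.g0 (d - i) (d - j) (by omega)]
  refine ⟨w, c, h1, by simpa using h2 1 (by omega), fun k h h' => ?_, c0,
    by rw [hc, div_mul_cancel₀ _ b0], by simpa using h2 0 (by omega)⟩
  simpa [show k ≠ 0 by omega, Nat.sub_sub, add_comm 1 k] using h2 (k + 1) (by omega)

end Mod

section alg

variable {σ : K →+* K} {A : Type*} [CommRing A] [Algebra K A] {ξ : Aˣ} {τ : A →+* A} {d : ℕ}

/-- A truncated polynomial algebra with involution -/
structure Alg (σ : K →+* K) (ξ : Aˣ) (τ : A →+* A) (d : ℕ) : Prop where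
  ττ : ∀ x, τ (τ x) = x
  τs : ∀ (c : K) x, τ (c • x) = σ c • τ x
  τξ : τ ξ = (ξ⁻¹ : Aˣ)
  nil : (ξ - 1 : A) ^ d = 0
  bas : ∀ m : ℤ, ∃ b : Basis (Fin d) K A, ∀ i, b i = (ξ ^ (i + m) : Aˣ)

theorem exists_alg (hσ : ∀ x, σ (σ x) = x) (d : ℕ) : ∃ (ξ : (AdjoinRoot ((X - C 1) ^ d : K[X]))ˣ)
    (τ : _ →+* _), Alg σ ξ τ d := by
  have hχ : ((X - C 1) ^ d : K[X]).Monic := (monic_X_sub_C 1).pow d
  obtain ⟨τ, h1, h2, h3⟩ := exists_adjoin_star (χ := (X - C 1) ^ d) hσ
    (by simp [coeff_zero_eq_eval_zero]) (c := (-1) ^ d) (by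
      have : (X - C 1 : K[X]).reverse = -(X - C 1) := by
        rw [sub_eq_add_neg, ← C_neg, reverse_add_C, ← one_mul X, reverse_mul_X, ← C_1, reverse_C]
        simp
      induction d with
      | zero => simpa using (reverse_C (1 : K)).symm
      | succ d ih =>
        rw [pow_succ, Polynomial.map_mul, ih ((monic_X_sub_C 1).pow d), reverse_mul_of_domain, this]
        simp [pow_succ]; ring)
  let ξ : (AdjoinRoot ((X - C 1) ^ d : K[X]))ˣ := ⟨_, _, (mul_comm _ _).trans h3, h3⟩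
  refine ⟨ξ, τ, h1, h2, rfl, ?_, fun m => ?_⟩
  · have := AdjoinRoot.mk_self (f := ((X - C 1) ^ d : K[X]))
    rwa [map_pow, map_sub, AdjoinRoot.mk_X, C_1, map_one] at this
  · refine ⟨(((AdjoinRoot.powerBasis' hχ).basis.reindex (finCongr (by simp [-map_one]))).map
      (Units.mulLeftLinearEquiv K _ (ξ ^ m))), fun i => ?_⟩
    rw [add_comm, zpow_add, zpow_natCast]
    simp [ξ, -map_zpow]

namespace Alg

variable (R : Alg σ ξ τ d)
include R

theorem τz (k : ℤ) : τ (ξ ^ k : Aˣ) = (ξ ^ (-k) : Aˣ) := by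
  have : Units.map (τ : A →* A) ξ = ξ⁻¹ := Units.ext R.τξ
  rw [zpow_neg, ← inv_zpow, ← this, ← map_zpow]
  rfl

theorem B_a (l : A →ₗ[K] K) (i j : ℤ) :
    traceForm' l τ R.τs (ξ ^ i : Aˣ) (ξ ^ j : Aˣ) = l (ξ ^ (i - j) : Aˣ) := by
  rw [traceForm'_apply, R.τz, ← Units.val_mul, ← zpow_add, sub_eq_add_neg]

theorem pres (l : A →ₗ[K] K) (x y : A) : traceForm' l τ R.τs (LinearMap.mulLeft K (ξ : A) x)
    (LinearMap.mulLeft K (ξ : A) y) = traceForm' l τ R.τs x y := by
  simp only [traceForm'_apply, LinearMap.mulLeft_apply, map_mul, R.τξ]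
  rw [mul_mul_mul_comm, Units.mul_inv, one_mul]

theorem top (k : ℤ) : (ξ ^ k : Aˣ) * (ξ - 1 : A) ^ (d - 1) = (ξ - 1 : A) ^ (d - 1) := by
  have h1 : (ξ : A) * (ξ - 1 : A) ^ (d - 1) = (ξ - 1 : A) ^ (d - 1) := by
    rcases d with _ | d
    · have := subsingleton_of_zero_eq_one (R.nil.symm.trans (pow_zero _))
      exact Subsingleton.elim _ _
    · rw [Nat.add_sub_cancel]; linear_combination R.nil
  induction k using Int.induction_on with
  | zero => simp
  | succ k ih => rw [zpow_add_one, Units.val_mul, mul_assoc, h1, ih]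
  | pred k ih =>
    rw [zpow_sub_one, Units.val_mul, mul_assoc, (Units.inv_mul_eq_iff_eq_mul _).2 h1.symm, ih]

theorem ych (l : A →ₗ[K] K) (h : l ((ξ - 1 : A) ^ (d - 1)) ≠ 0) :
    YCh (traceForm' l τ R.τs) (LinearMap.mulLeft K (ξ : A)) (fun i => (ξ - 1 : A) ^ i) d
      (l ((ξ - 1 : A) ^ (d - 1))) := by
  have h1 : ∀ i j : ℕ, (ξ - 1 : A) ^ i * τ ((ξ - 1) ^ j) =
      (-1 : K) ^ j • ((ξ ^ (-j : ℤ) : Aˣ) * (ξ - 1 : A) ^ (i + j)) := fun i j => by
    have : τ (ξ - 1) = (-1 : K) • ((ξ⁻¹ : Aˣ) * (ξ - 1 : A)) := by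
      simp [R.τξ, mul_sub]
    rw [map_pow, this, _root_.smul_pow, mul_pow, zpow_neg, zpow_natCast, ← inv_pow, Units.val_pow_eq_pow_val,
      mul_smul_comm, pow_add]
    congr 1; ring
  refine ⟨fun i => by simp [pow_succ]; ring, R.nil, fun i j hij => ?_, fun i j hij => ?_, h,
    fun M hM v => ?_⟩
  · rw [traceForm'_apply, h1, pow_eq_zero_of_le hij R.nil]; simp
  · rw [traceForm'_apply, h1, show i + j = d - 1 by omega, R.top]; simp
  · have : ∀ k i : ℕ, (ξ : A) ^ k * (ξ - 1) ^ i ∈ M := fun k => by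
      induction k with
      | zero => simpa using hM
      | succ k ih => exact fun i => by convert add_mem (ih i) (ih (i + 1)) using 1; ring
    obtain ⟨b, hb⟩ := R.bas 0
    refine (Submodule.span_le.2 ?_ : _ ≤ M) (b.mem_span v)
    rintro _ ⟨i, rfl⟩
    simpa [hb] using this i 0

omit R in
theorem binom (l : A →ₗ[K] K) (m : ℤ) (N : ℕ)
    (h : ∀ k : ℤ, m < k → k ≤ m + N → l (ξ ^ k : Aˣ) = 0) :
    l ((ξ ^ m : Aˣ) * (ξ - 1 : A) ^ (N + 1)) =
      l (ξ ^ (m + N + 1) : Aˣ) + (-1) ^ (N + 1) * l (ξ ^ m : Aˣ) := by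
  have h1 : ∀ (k c : ℕ) (e : ℕ), l ((ξ ^ m : Aˣ) * ((-1) ^ e * (ξ : A) ^ k * 1 ^ (N + 1 - k) * c)) =
      (-1) ^ e * c * l (ξ ^ (m + k) : Aˣ) := fun k c e => by
    rw [← smul_eq_mul ((-1) ^ e * c : K), ← map_smul, Algebra.smul_def, zpow_add, zpow_natCast]
    simp
    congr 1; ring
  rw [sub_pow, Finset.mul_sum, map_sum, Finset.sum_range_succ, Finset.sum_range_succ',
    Finset.sum_eq_zero fun i hi => by
      rw [h1, h _ (by omega) (by have := Finset.mem_range.1 hi; omega), mul_zero], h1, h1]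
  simp [← two_mul, add_comm, add_assoc]

theorem herm (l : A →ₗ[K] K) {η : K} (m : ℤ)
    (h : ∀ k : ℤ, m ≤ k → k < m + d → l (ξ ^ (-k) : Aˣ) = η * σ (l (ξ ^ k : Aˣ)))
    (x y : A) : traceForm' l τ R.τs y x = η * σ (traceForm' l τ R.τs x y) := by
  have : ∀ x, l (τ x) = η * σ (l x) := fun x => by
    obtain ⟨b, hb⟩ := R.bas m
    induction b.mem_span x using Submodule.span_induction with
    | mem x hx =>
      obtain ⟨i, rfl⟩ := hx
      rw [hb, R.τz, h _ (by omega) (by omega)]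
    | zero => simp
    | add x y _ _ hx hy => simp [hx, hy, mul_add]
    | smul c x _ hx => simp [R.τs, hx, mul_left_comm]
  rw [traceForm'_apply, traceForm'_apply, ← this, map_mul τ, R.ττ, mul_comm]

end Alg

end alg

end Cfsg.Agent.H4
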