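import Cfsg.Agent.H4.RG3
import Cfsg.Agent.H6.CSU4
import Cfsg.Agent.H5.CovB
import Cfsg.Agent.H6.FieldGen

/-!
# Generation of symplectic and unitary groups by three regular unipotent elements
-/

set_option autoImplicit false
set_option linter.unusedSectionVars false
set_option linter.unusedSimpArgs false
set_option linter.unnecessarySeqFocus false
set_option linter.unusedVariables false

namespace Cfsg.Agent.H4

open H5 H6 H6.OF Module Polynomial H1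

section gen

variable {K V : Type*} [Field K] [AddCommGroup V] [Module K V] {O : OF K V}
  {J u : O.U} {a : ℤ → V} {y : ℕ → V} {n d : ℕ} {β s : K}

theorem mem_of_conj {G : Type*} [Group G] {H : Subgroup G} {g u t : G} (hu : u ∈ H)
    (hg : g * u * g⁻¹ ∈ H) (h : g * u * g⁻¹ * u⁻¹ = t) : t ∈ H := h ▸ mul_mem hg (inv_mem hu)

variable (C : Chn J u a n s) (Y : YCh O.B (u.1 : End K V) y d β) (hd : 4 ≤ d) (s0 : s ≠ 0)
  (h0 : y (d - 1) = s • a 0) (h1 : y (d - 1 - 1) = a 1)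
include C Y hd s0 h0 h1

theorem perp_y {i : ℕ} (hi : 1 ≤ i) : O.B (y i) (a 0) = 0 := by
  simpa [h0, s0] using Y.g0 i (d - 1) (by omega)

theorem gen_odd : ∃ v α, O.Ok (a 0) v α ∧ ∀ H : Subgroup O.U, u ∈ H →
    O.T (a 0) v α * u * (O.T (a 0) v α)⁻¹ ∈ H → (1 : K) ∈ SS H C.sing0 (a 1) := by
  obtain ⟨α, hα⟩ := O.ex (-y (d - 3))
  have k : O.Ok (a 0) (-y (d - 3)) α :=
    ⟨C.sing0, by simp [perp_y C Y hd s0 h0 h1 (show 1 ≤ d - 3 by omega)], hα⟩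
  obtain ⟨γ, k1, k2⟩ := comm_Q k C.u0
  refine ⟨_, _, k, fun H hu hg => ⟨γ, InH.congr ⟨k1, mem_of_conj hu hg k2⟩ ?_ rfl⟩⟩
  have : u • y (d - 3) = _ := Y.hf _
  rw [U_neg, this, show d - 3 + 1 = d - 1 - 1 by omega, h1]
  simp

variable (hσ : ∀ t, O.σ t = t) (hη : O.η = -1) (hsq : ∀ z : K, ∃ y, z = -y ^ 2)
  (hΛ : ∀ v α, O.Λ v α) (h2 : (2 : K) = 0)
include hσ hη hsq hΛ h2

theorem gen_two (hn : n = 2) (hd' : d = 4) {ψ : K} (c0 : s ^ 2 * ψ * (ψ * -β - 1) ≠ 0)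
    (hl : Gens (-(s ^ 2 * ψ * (ψ * -β - 1) * O.B (a n) (a 0)) ^ 2)) :
    ∃ g : O.U, ∀ H : Subgroup O.U, J ∈ H → u ∈ H → g * u * g⁻¹ ∈ H → ∀ x, Rad H x := by
  subst hd'
  have β0 := Y.β0
  have hf : ∀ i, u • y i = y i + y (i + 1) := Y.hf
  have p := fun i hi => perp_y C Y hd s0 h0 h1 (i := i) hi
  have e1 : a 1 = y 2 := h1.symm
  have e0 : a 0 = s⁻¹ • y 3 := by rw [show y 3 = _ from h0, inv_smul_smul₀ s0]
  obtain ⟨g, hg⟩ := comm_Z hσ hη hΛ C.u0 C.u1 (y := y 1) (by rw [hf, e1]) (p 1 le_rfl)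
    (e1 ▸ p 2 (by omega)) ψ
  rw [e1, Y.g1 2 1 rfl, pow_one, neg_one_mul] at hg
  refine ⟨g, fun H hJ hu h => C.main_two hJ hu hσ hη hsq hn
    ⟨⟨hΛ _ _, by simp, hΛ _ _⟩, mem_of_conj hu h hg⟩ c0 hl (div_ne_zero s0 β0) ?_⟩
  have k : O.Ok (a 0) ((s / β) • a 1) (s ^ 2 * O.B (y 0) (y 2) / β ^ 2) :=
    ⟨hΛ _ _, by simp [e1, p 2], hΛ _ _⟩
  refine ⟨_, k, Set.mem_of_eq_of_mem (Eq.symm ?_) (mul_mem hu hu)⟩
  refine Subtype.ext (LinearEquiv.toLinearMap_injective (Y.ext fun i => ?_))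
  change (u * u) • y i = O.T _ _ _ • y i
  have t4 := Y.top
  have t5 := Y.eq_zero (i := 5) (by omega)
  rw [k.T_smul, mul_smul, hf, U_add, hf, hf, e1, e0]
  simp only [map_smulₛₗ, smul_eq_mul, hσ, hη]
  rcases i with _ | _ | _ | i
  · simp only [zero_add, Nat.reduceAdd, Y.g1 0 3 rfl]
    match_scalars <;> field_simp <;> grind
  · simp only [zero_add, Nat.reduceAdd, Y.g0 1 3 le_rfl, Y.g1 1 2 rfl]
    match_scalars <;> field_simp <;> grind
  · simp only [zero_add, Nat.reduceAdd, Y.g0 2 3 (by omega), Y.g0 2 2 le_rfl, t4]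
    match_scalars <;> field_simp <;> grind
  · simp [Y.g0 (i + 1 + 1 + 1) 3 (by omega), Y.g0 (i + 1 + 1 + 1) 2 (by omega),
      Y.eq_zero (i := i + 1 + 1 + 1 + 1) (by omega), Y.eq_zero (i := i + 1 + 1 + 1 + 1 + 1) (by omega)]

theorem gen_three (hn : 3 ≤ n) (hd' : d = 2 * n) (hk : y n = a (n - 1)) {c θ : K} (c0 : c ≠ 0)
    (h3 : y (n - 1) = c • a (-1)) (θ0 : θ ≠ 0) (hc : c * c = 1)
    (hl : Gens ((θ * O.B (a n) (a 0)) ^ 2)) :
    ∃ g : O.U, ∀ H : Subgroup O.U, J ∈ H → u ∈ H → g * u * g⁻¹ ∈ H → ∀ x, Rad H x := by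
  have hf : ∀ i, u • y i = y i + y (i + 1) := Y.hf
  have c1 : c = 1 := by
    have : (c - 1) ^ 2 = 0 := by linear_combination hc + (1 - c) * h2
    exact sub_eq_zero.1 (pow_eq_zero_iff two_ne_zero |>.1 this)
  rw [c1, one_smul] at h3
  have k : O.Ok (a 0) (-θ • y (n - 2)) 0 :=
    ⟨hΛ _ _, by simp [perp_y C Y hd s0 h0 h1 (show 1 ≤ n - 2 by omega)], hΛ _ _⟩
  obtain ⟨γ, k1, k2⟩ := comm_Q k C.u0
  rw [U_smul, hf, show n - 2 + 1 = n - 1 by omega, h3,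
    show -θ • y (n - 2) - -θ • (y (n - 2) + a (-1)) = θ • a (-1) by module] at k1 k2
  obtain ⟨g, hg⟩ := comm_Z hσ hη hΛ C.u0 C.u1 (y := a (1 + 1)) (C.uk 1 le_rfl (by omega))
    (C.orth0 _ (by omega) (by omega)) (C.orth0 _ (by omega) (by omega)) ((γ - 1) / s ^ 2)
  rw [C.orth (by omega) (by omega), show s ^ 2 * ((γ - 1) / s ^ 2) * ((γ - 1) / s ^ 2 * 0 - 1) =
    1 - γ by field_simp; ring] at hg
  have k3 : O.Ok (a 0) 0 (1 - γ) := ⟨hΛ _ _, by simp, hΛ _ _⟩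
  have k4 := k3.conj_T (O.T (a 0) (-θ • y (n - 2)) 0)
  rw [U_zero, show O.T (a 0) (-θ • y (n - 2)) 0 • a 0 = a 0 by
    rw [k.T_smul, B_self C.sing0, O.B_eq_zero_comm k.perp]; simp] at k4
  refine ⟨O.T (a 0) (-θ • y (n - 2)) 0 * g, fun H hJ hu h => ?_⟩
  have k5 : InH H (a 0) (θ • a (-1)) 1 := by
    refine InH.congr ⟨k3.add k1, mem_of_conj hu h ?_⟩ (zero_add _) (by simp)
    rw [← k3.T_mul k1, ← k2, ← k4, ← hg]
    group
  refine C.main_three hJ hu hσ hη hsq hn k5 one_ne_zero θ0 (C.lower hu (n - 2) (by omega)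
    ⟨_, k5.diff hu C.u0 ?_⟩) hl
  rw [U_smul, ← h3, hf, Nat.sub_add_cancel (by omega), hk, smul_add]
  congr 3; omega

end gen

theorem gens_neg_sq {F : Type*} [Field F] [Fintype F] {ζ : F} (h0 : ζ ≠ 0)
    (h : ∀ t : F, t ≠ 0 → ∃ k : ℕ, ζ ^ k = t) (h2 : (2 : F) ≠ 0) : Gens (-ζ ^ 2) := by
  refine gens_of_aeval ((aeval_surj_or _).resolve_right ?_)
  rintro ⟨r, d, hr, hd, hc, e⟩
  obtain ⟨r, rfl⟩ : ∃ s, r = s + 1 := ⟨r - 1, by omega⟩
  have h3 := FiniteField.odd_card_of_char_ne_two (ringChar_ne_two h2)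
  have h4 : Even r := by
    rw [hc, ← Nat.odd_iff, Nat.odd_pow_iff (by omega), Nat.odd_add_one, Nat.not_odd_iff_even] at h3
    exact h3
  rw [pow_succ, mul_eq_right₀ (by simpa using h0), h4.neg_pow, ← pow_mul] at e
  have h1 := card_le_of_pow_eq_one h (by omega) e
  have h2 : (r + 1) ^ 2 ≤ (r + 1) ^ d := Nat.pow_le_pow_right (by omega) hd
  nlinarith

theorem RU.mat {F V ι : Type*} [Field F] [AddCommGroup V] [Module F V] [Fintype ι] [DecidableEq ι]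
    {e : V ≃ₗ[F] (ι → F)} {A : Matrix ι ι F} {f : End F V} (h : Matrix.toLin' A = e.conj f) {n : ℕ}
    (hf : RU f n) : IsNilpotent (A - 1) ∧ (A - 1) ^ n ≠ 0 := by
  have : ∀ k, (A - 1) ^ k = 0 ↔ (f - 1) ^ k = 0 := fun k => by
    have := aeval_eq_zero_of_conj h ((X - 1) ^ k)
    rwa [map_pow, map_pow, map_sub, map_sub, aeval_X, aeval_X, map_one, map_one] at this
  exact ⟨hf.1.imp fun k => (this k).2, (this n).not.2 hf.2⟩

theorem closure_three {G G' : Type*} [Group G] [Group G'] (φ : G ≃* G') {u g h : G}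
    (H : ∀ H : Subgroup G, u ∈ H → g * u * g⁻¹ ∈ H → h * u * h⁻¹ ∈ H → H = ⊤) :
    Subgroup.closure ({φ u, φ g * φ u * (φ g)⁻¹, φ h * φ u * (φ h)⁻¹} : Set G') = ⊤ := by
  refine eq_top_iff.2 fun x _ => ?_
  obtain ⟨x, rfl⟩ := φ.surjective x
  refine Subgroup.mem_comap.1 ((H (Subgroup.comap φ.toMonoidHom _) ?_ ?_ ?_).ge (Subgroup.mem_top x)) <;>
    exact Subgroup.mem_comap.2 (Subgroup.subset_closure (by simp))

theorem sp_gen {F V : Type*} [Field F] [Fintype F] [AddCommGroup V] [Module F V]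
    [FiniteDimensional F V] {n : ℕ} (h22 : ¬ (n = 2 ∧ Fintype.card F = 2)) {B : Bil F V} {hB : IsSp B}
    {J : (ofSp hB).U} {a : ℤ → V} {z : ℕ → V} (M : Mod J a z n (2 * n) 1)
    (b1 : (ofSp hB).B (a n) (a 0) = 1) : ∃ u g h : (ofSp hB).U, RU (u.1 : End F V) (2 * n - 1) ∧
      ∀ H : Subgroup (ofSp hB).U, u ∈ H → g * u * g⁻¹ ∈ H → h * u * h⁻¹ ∈ H → H = ⊤ := by
  have hn := M.two
  suffices ∃ s, s ≠ 0 ∧ ∀ (w : (ofSp hB).U) (c : F) (C : Chn J (w * J * w⁻¹) a n s),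
      w • z (2 * n - 1) = s • a 0 → (∀ k : ℕ, 1 ≤ k → k < n → w • z (2 * n - 1 - k) = a k) → c ≠ 0 →
      c * c = 1 → w • z (n - 1) = c • a (-1) → ∃ g, ∀ H : Subgroup (ofSp hB).U,
      J ∈ H → w * J * w⁻¹ ∈ H → g * (w * J * w⁻¹) * g⁻¹ ∈ H → ∀ x, Rad H x by
    obtain ⟨s, s0, hs⟩ := this
    obtain ⟨w, c, w1, w2, w3, w4, w5, w6⟩ := M.witt2 hB.good rfl hB.alt ofSp_σ ofSp_η s0
    obtain ⟨g, hg⟩ := hs (spU hB ⟨w, w1⟩) c (M.chn s0 w2 w3) w2 w3 w4 (by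
      rw [b1, mul_one, mul_one] at w5
      rw [w5, neg_mul_neg, ← mul_pow]; simp) w6
    exact ⟨_, g, (spU hB ⟨w, w1⟩)⁻¹, (M.ych (spU hB ⟨w, w1⟩)).ru (by omega), fun H h1 h2 h3 =>
      ofSp_eq_top fun v c => hg H (by simpa [mul_assoc] using h3) h1 h2 v 0 c
        ⟨trivial, by simp, trivial⟩⟩
  obtain ⟨ζ, z0, z1⟩ := exists_prim (F := F)
  by_cases h2 : (2 : F) = 0
  · have : CharP F 2 := CharTwo.of_one_ne_zero_of_two_eq_zero one_ne_zero h2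
    have hsq : ∀ z : F, ∃ y, z = -y ^ 2 := fun z => by
      obtain ⟨y, hy⟩ := FiniteField.isSquare_of_char_two (ringChar.eq F 2) z
      exact ⟨y, by rw [hy, CharTwo.neg_eq, sq]⟩
    obtain ⟨θ, hθ⟩ := hsq ζ
    have θ0 : θ ≠ 0 := by rintro rfl; simp [hθ] at z0
    rcases hn.eq_or_lt with rfl | hn3
    · obtain ⟨ψ, ψ0, ψ1⟩ := exists_ne_zero_one F fun e => h22 ⟨rfl, e⟩
      have ψ2 : ψ * -1 - 1 ≠ 0 := fun e => ψ1 (by linear_combination e + ψ * h2)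
      obtain ⟨s, hs⟩ := hsq (θ / (ψ * (ψ * -1 - 1)))
      have s1 : s ^ 2 * ψ * (ψ * -1 - 1) = -θ := by
        rw [div_eq_iff (mul_ne_zero ψ0 ψ2)] at hs; linear_combination hs
      have s0 : s ≠ 0 := by rintro rfl; simp [θ0] at s1
      exact ⟨s, s0, fun w c C w2 w3 _ _ _ => gen_two C (M.ych w) le_rfl s0 w2 (w3 1 le_rfl one_lt_two)
        ofSp_σ ofSp_η hsq (fun _ _ => trivial) h2 rfl rfl (ψ := ψ) (by rw [s1]; simpa using θ0)
        (by rw [s1, b1, mul_one, neg_sq, ← hθ]; exact gens_of_prim z1)⟩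
    · refine ⟨1, one_ne_zero, fun w c C w2 w3 w4 w5 w6 => gen_three C (M.ych w) (by omega) one_ne_zero
        w2 (w3 1 le_rfl (by omega)) ofSp_σ ofSp_η hsq (fun _ _ => trivial) h2 hn3 rfl ?_ w4 w6 θ0 w5
        (by rw [b1, mul_one, ← CharTwo.neg_eq (θ ^ 2), ← hθ]; exact gens_of_prim z1)⟩
      have := w3 (n - 1) (by omega) (by omega)
      rwa [show 2 * n - 1 - (n - 1) = n by omega, Nat.cast_pred (by omega)] at this
  · refine ⟨ζ / 2, div_ne_zero z0 h2, fun w c C w2 w3 _ _ _ => ?_⟩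
    obtain ⟨v, α, -, h⟩ := gen_odd C (M.ych w) (by omega) (div_ne_zero z0 h2) w2 (w3 1 le_rfl (by omega))
    have e : 1 * (ζ / 2) - (ofSp hB).η * (ofSp hB).σ (1 * (ζ / 2)) = ζ := by
      rw [ofSp_η, ofSp_σ]; field_simp; ring
    refine ⟨_, fun H hJ hu hg => C.main_odd hJ hu (h H hu hg) (e.symm ▸ z0) (fun A hA t _ => ?_)
      fun A hA _ t => by simpa using hA t rfl⟩
    rw [e, b1, ofSp_η, ofSp_σ, mul_one, mul_one, mul_neg_one] at hA
    exact (gens_neg_sq z0 z1 h2 A hA).ge trivial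

theorem sp_three (F : Type*) [Field F] [Fintype F] {n : ℕ} (hn : 2 ≤ n)
    (h22 : ¬ (n = 2 ∧ Fintype.card F = 2)) : ∃ u g h : Matrix.symplecticGroup (Fin n) F,
      (IsNilpotent (u.1 - 1) ∧ (u.1 - 1) ^ (2 * n - 1) ≠ 0) ∧
      Subgroup.closure ({u, g * u * g⁻¹, h * u * h⁻¹} : Set (Matrix.symplecticGroup (Fin n) F)) = ⊤ := by
  obtain ⟨ξ, τ, R⟩ := exists_alg (σ := RingHom.id F) (fun _ => rfl) (2 * n)
  obtain ⟨b, hb⟩ := R.bas (1 - n)
  have := Module.Finite.of_basis b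
  obtain ⟨l, hl⟩ : ∃ l, l = b.coord ⟨2 * n - 1, by omega⟩ := ⟨_, rfl⟩
  have l0 : ∀ k : ℤ, -n < k → k < n → l (ξ ^ k).val = 0 := fun k h h' => by
    have := hb ⟨(k + n - 1).toNat, by omega⟩
    rw [show ((k + n - 1).toNat : ℤ) + (1 - n) = k by omega] at this
    rw [← this, hl, Basis.coord_apply, b.repr_self, Finsupp.single_eq_of_ne]
    simp only [ne_eq, Fin.mk.injEq]; omega
  have l1 : l (ξ ^ (n : ℤ)).val = 1 := by
    have := hb ⟨2 * n - 1, by omega⟩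
    rw [show ((2 * n - 1 : ℕ) : ℤ) + (1 - n) = n by omega] at this
    rw [← this, hl, Basis.coord_apply, b.repr_self, Finsupp.single_eq_same]
  have l2 : l (ξ ^ (-n : ℤ)).val = -1 := by
    have := Alg.binom l (-n) (2 * n - 1) fun k h h' => l0 k h (by omega)
    rw [Nat.sub_add_cancel (by omega), R.nil, show (-n : ℤ) + (2 * n - 1 : ℕ) + 1 = n by omega, l1]
      at this
    rw [mul_zero, map_zero, pow_mul, neg_one_sq, one_pow] at this
    linear_combination -this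
  have l3 : l ((ξ.val - 1) ^ (2 * n - 1)) = 1 := by
    have := Alg.binom l (1 - n) (2 * n - 2) fun k h h' => l0 k (by omega) (by omega)
    rwa [show 2 * n - 2 + 1 = 2 * n - 1 by omega, R.top, l0 (1 - n) (by omega) (by omega),
      show (1 - n : ℤ) + (2 * n - 2 : ℕ) + 1 = n by omega, l1, mul_zero, add_zero] at this
  have Y := R.ych l (l3.symm ▸ one_ne_zero)
  have sk := R.herm l (η := -1) (1 - n) fun k h h' => by
    rcases (show k ≤ n by omega).eq_or_lt with rfl | h2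
    · rw [l1, l2]; simp
    · rw [l0 k (by omega) h2, l0 (-k) (by omega) (by omega)]; simp
  have hB : IsSp (traceForm' l τ R.τs) := ⟨fun v => by
    induction b.mem_span v using Submodule.span_induction with
    | mem x hx =>
      obtain ⟨i, rfl⟩ := hx
      rw [hb, R.B_a, l0 _ (by omega) (by omega)]
    | zero => simp
    | add x y _ _ hx hy => simp [hx, hy, sk x y]
    | smul a x _ hx => simp [hx], fun _ => Y.nd⟩
  rw [l3] at Y
  have b1 : (ofSp hB).B (ξ ^ (n : ℤ)).val (ξ ^ (0 : ℤ)).val = 1 := by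
    rw [ofSp_B, R.B_a, sub_zero, l1]
  have M : Mod (O := ofSp hB) (spU hB (hB.isEps.toIsom _ (R.pres l))) (fun k => (ξ ^ k).val) _ n _ 1 :=
    ⟨hn, le_rfl, fun k => by rw [zpow_add_one, mul_comm (ξ ^ k)]; rfl, trivial,
      fun i j h h' => (R.B_a l i j).trans (l0 _ (by omega) (by omega)), b1.symm ▸ one_ne_zero,
      fun k => by rw [b1, ofSp_B, R.B_a, show k - (k + n) = -n by ring, l2]; simp [ofSp_η], Y⟩
  obtain ⟨u, g, h, h1, h2⟩ := sp_gen h22 M b1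
  obtain ⟨e, φ, -, -, h3⟩ := hB.exists_std (n := n) (by simpa using finrank_eq_card_basis b)
  exact ⟨_, _, _, RU.mat (h3 ((spU hB).symm u)) h1, closure_three ((spU hB).symm.trans φ) h2⟩

end Cfsg.Agent.H4
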