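import Cfsg.Agent.H4.RG4
import Cfsg.Agent.H1.MIU1

/-!
# Generation of unitary groups of odd dimension at least five by three regular unipotent elements
-/

set_option autoImplicit false
set_option linter.unusedSectionVars false
set_option linter.unusedSimpArgs false
set_option linter.unnecessarySeqFocus false
set_option linter.unusedVariables false

namespace Cfsg.Agent.H4

open H5 H6 H6.OF Module Polynomial H1

variable {F V : Type*} [Field F] [Fintype F] [AddCommGroup V] [Module F V] [FiniteDimensional F V]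
  {σ : F →+* F} {q : ℕ} {B : Sesq σ V}

theorem exists_suEquiv' (hU : UF σ q) (hB : IsEps B 1) {n : ℕ} (hn : finrank F V = n) :
    ∃ (e : V ≃ₗ[F] (Fin n → F)) (φ : SUb B ≃* SU n F q),
      ∀ g, Matrix.toLin' (φ g).1.1 = e.conj (g.1.1 : End F V) := by
  obtain ⟨e, φ, -, -, h⟩ := hU.exists_std hB hn
  have hd : ∀ g, (φ g).1.1.det = LinearMap.det (g.1 : V →ₗ[F] V) := fun g => by
    rw [← LinearMap.det_toLin', h, LinearEquiv.conj_apply, LinearMap.comp_assoc, LinearMap.det_conj]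
  let f : SU n F q →* SUb B := (φ.symm.toMonoidHom.comp (suToGU n F q)).codRestrict _ fun k =>
    (hd _).symm.trans (by simp)
  let ψ := MulEquiv.ofBijective f ⟨fun a b e =>
    suToGU_injective n (φ.symm.injective (congrArg Subtype.val e)), fun g => by
      obtain ⟨k, hk⟩ := exists_su_of_det (φ g.1) ((hd _).trans g.2)
      exact ⟨k, Subtype.ext (by simp [f, hk])⟩⟩
  refine ⟨e, ψ.symm, fun g => ?_⟩
  obtain ⟨k, rfl⟩ := ψ.surjective g
  rw [ψ.symm_apply_apply]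
  have := h (φ.symm (suToGU n F q k))
  rwa [φ.apply_symm_apply] at this

theorem su_top {hU : UF σ q} {hB : IsEps B 1} {H : Subgroup (SUb B)}
    (h : ∀ x, Rad (H.map (jB hU hB)) x) : H = ⊤ := su_eq_top hB hU _ fun x e μ hx => by
  rw [← Subgroup.mem_map_iff_mem (jB_inj (hU := hU) (hB := hB)), (jB_ei hx).2]
  exact h e _ _ (jB_ei hx).1

theorem exists_jB {hU : UF σ q} {hB : IsEps B 1} {e v : V} {α : F} (h : (ofSU hU hB).Ok e v α) :
    ∃ g, jB hU hB g = (ofSU hU hB).T e v α := by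
  have h1 : Adm B v e (-α) := ⟨B_self h.sing, h.perp, by
    rw [map_neg]; linear_combination -(ofSU_Λ _ _).mp h.mem⟩
  exact ⟨_, by simpa using (jB_ei h1).2⟩

theorem sub_ne_of_prim (hU : UF σ q) {ζ : F} (h : ∀ t : F, t ≠ 0 → ∃ k : ℕ, ζ ^ k = t) :
    ζ - σ ζ ≠ 0 := fun e => by
  obtain ⟨a, ha⟩ := hU.exists_ne
  obtain ⟨k, rfl⟩ := h a (by rintro rfl; simp at ha)
  exact ha (by rw [map_pow, ← sub_eq_zero.1 e])

theorem su_gen {hU : UF σ q} {hB : IsEps B 1} {n : ℕ} {J : SUb B} {a : ℤ → V} {z : ℕ → V} {β ζ : F}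
    (M : Mod (jB hU hB J) a z n (2 * n + 1) β) (z0 : ζ ≠ 0) (z1 : ∀ t : F, t ≠ 0 → ∃ k : ℕ, ζ ^ k = t)
    (b1 : B (a n) (a 0) = ζ / (ζ - σ ζ)) : ∃ u g h : SUb B, RU (u.1.1 : End F V) (2 * n) ∧
      ∀ H : Subgroup (SUb B), u ∈ H → g * u * g⁻¹ ∈ H → h * u * h⁻¹ ∈ H → H = ⊤ := by
  have hn := M.two
  have z2 := sub_ne_of_prim hU z1
  obtain ⟨w, w1, w2, w3⟩ := M.witt1 (hU.good hB) z0
  have d1 := Pres.det_norm hB (g := w) w1
  obtain ⟨r, r1, r2⟩ := exists_qr hB (M.Y.g1' (i := n) (j := n) (by omega))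
    (ζ := σ (LinearMap.det (w : End F V))) (by rw [hU.invol, mul_comm, d1])
  have r3 : ∀ j, n < j → r.1 (z j) = z j := fun j hj => by
    have : B (z j) (z n) = 0 := M.Y.g0 j n (by omega)
    simpa [this, isoAct_apply] using r2 (z j)
  let W : SUb B := ⟨⟨w, w1⟩ * r, by
    change LinearMap.det (isoAct B (_ * _)) = 1
    rw [map_mul, map_mul, r1]; exact d1⟩
  have W1 : ∀ j, n < j → jB hU hB W • z j = w (z j) := fun j hj => congrArg w (r3 j hj)
  have W2 : jB hU hB W • z (2 * n + 1 - 1) = ζ • a 0 := (W1 _ (by omega)).trans w2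
  have W3 : ∀ k : ℕ, 1 ≤ k → k < n → jB hU hB W • z (2 * n + 1 - 1 - k) = a k := fun k h h' =>
    (W1 _ (by omega)).trans (w3 k h h')
  have C := M.chn z0 W2 W3
  obtain ⟨v, α, k, h⟩ := gen_odd C (M.ych _) (by omega) z0 W2 (W3 1 le_rfl (by omega))
  obtain ⟨g, hg⟩ := exists_jB k
  refine ⟨W * J * W⁻¹, g, W⁻¹, (M.ych (jB hU hB W)).ru rfl, fun H h1 h2 h3 =>
    su_top (hU := hU) (hB := hB) ?_⟩
  have h4 : jB hU hB W * jB hU hB J * (jB hU hB W)⁻¹ ∈ H.map (jB hU hB) := ⟨_, h1, by simp⟩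
  have e : 1 * ζ - (ofSU hU hB).η * (ofSU hU hB).σ (1 * ζ) = ζ - σ ζ := by simp [ofSU_η, ofSU_σ]
  have z3 : σ (ζ - σ ζ) = -(ζ - σ ζ) := by simp [hU.invol]
  refine C.main_odd ⟨J, by simpa [mul_assoc] using h3, rfl⟩ h4 (h _ h4 ⟨_, h2, by simp [hg]⟩)
    (e.symm ▸ z2) (fun A hA t ht => ?_) fun A h5 h6 t => ?_
  · rw [e, ofSU_B, ofSU_η, ofSU_σ, b1, map_div₀, z3,
      show (ζ - σ ζ) ^ 2 * (1 * (ζ / (ζ - σ ζ) * (σ ζ / -(ζ - σ ζ)))) = -(ζ * σ ζ) by field_simp,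
      neg_mem_iff] at hA
    obtain ⟨x, rfl⟩ := hU.norm_surj ht
    by_cases x0 : x = 0
    · simp [x0]
    obtain ⟨k, rfl⟩ := z1 x x0
    rw [map_pow, ← mul_pow]
    exact pow_mem hA k
  · simp only [ofSU_σ, ofSU_B, mul_one, b1, ofSU_Λ0, map_div₀, z3] at h5 h6
    have h7 : ∀ y, σ y = y → y * σ ζ ∈ A := fun y hy => by
      convert h6 (-y * (ζ - σ ζ)) (by rw [map_mul, map_neg, hy, z3]; ring) 1 (h5 1 (map_one σ)) using 1
      rw [map_one]; field_simp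
    convert add_mem (h5 ((σ t * ζ - t * σ ζ - (σ t * σ ζ - t * σ ζ) - (σ t * ζ - t * ζ)) / (ζ - σ ζ))
      ?_) (h7 ((σ t - t) / (ζ - σ ζ)) ?_) using 1
    · field_simp; ring
    · rw [map_div₀, z3]; simp only [map_sub, map_mul, hU.invol]; field_simp; ring
    · rw [map_div₀, z3]; simp only [map_sub, map_mul, hU.invol]; field_simp; ring

theorem su_three (hU : UF σ q) {n : ℕ} (hn : 2 ≤ n) : ∃ u g h : SU (2 * n + 1) F q,
      (IsNilpotent (u.1.1 - 1) ∧ (u.1.1 - 1) ^ (2 * n) ≠ 0) ∧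
      Subgroup.closure ({u, g * u * g⁻¹, h * u * h⁻¹} : Set (SU (2 * n + 1) F q)) = ⊤ := by
  obtain ⟨ζ, z0, z1⟩ := exists_prim (F := F)
  have z2 := sub_ne_of_prim hU z1
  have z3 : σ (ζ - σ ζ) = -(ζ - σ ζ) := by simp [hU.invol]
  obtain ⟨ξ, τ, R⟩ := exists_alg hU.invol (2 * n + 1)
  obtain ⟨b, hb⟩ := R.bas (-n)
  have := Module.Finite.of_basis b
  obtain ⟨l, hl⟩ : ∃ l, l = (ζ / (ζ - σ ζ)) • b.coord ⟨2 * n, by omega⟩ +
    σ (ζ / (ζ - σ ζ)) • b.coord 0 := ⟨_, rfl⟩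
  have l0 : ∀ k : ℤ, -n < k → k < n → l (ξ ^ k).val = 0 := fun k h h' => by
    have := hb ⟨(k + n).toNat, by omega⟩
    rw [show ((k + n).toNat : ℤ) + -n = k by omega] at this
    rw [← this, hl]
    simp [Finsupp.single_apply, show (k + n).toNat ≠ 2 * n by omega, Fin.ext_iff,
      show ¬ k + n ≤ 0 by omega]
  have l1 : l (ξ ^ (n : ℤ)).val = ζ / (ζ - σ ζ) := by
    have := hb ⟨2 * n, by omega⟩
    rw [show ((2 * n : ℕ) : ℤ) + -n = n by omega] at this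
    rw [← this, hl]
    simp [Finsupp.single_apply, Fin.ext_iff, show n ≠ 0 by omega]
  have l2 : l (ξ ^ (-n : ℤ)).val = σ (ζ / (ζ - σ ζ)) := by
    have := hb 0
    rw [Fin.val_zero, Nat.cast_zero, zero_add] at this
    rw [← this, hl]
    simp [Finsupp.single_apply, Fin.ext_iff, show 0 ≠ 2 * n by omega]
  have l3 : l ((ξ.val - 1) ^ (2 * n + 1 - 1)) = 1 := by
    have := Alg.binom l (-n) (2 * n - 1) fun k h h' => l0 k (by omega) (by omega)
    rw [show 2 * n - 1 + 1 = 2 * n + 1 - 1 by omega, R.top, l2,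
      show (-n : ℤ) + (2 * n - 1 : ℕ) + 1 = n by omega, l1] at this
    rw [this, Nat.add_sub_cancel, pow_mul, neg_one_sq, one_pow, map_div₀, z3]
    field_simp; ring
  have Y := R.ych l (l3.symm ▸ one_ne_zero)
  have hB : IsEps (traceForm' l τ R.τs) 1 := ⟨hU.invol, R.herm l (-n) fun k h h' => by
    rcases (show k ≤ n by omega).eq_or_lt with rfl | h2
    · rw [l1, l2, one_mul]
    rcases h.eq_or_lt with rfl | h3
    · rw [neg_neg, l1, l2, hU.invol, one_mul]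
    · rw [l0 k h3 h2, l0 (-k) (by omega) (by omega)]; simp, fun _ => Y.nd⟩
  have M : Mod (jB hU hB ⟨hB.toIsom _ (R.pres l), (Y.ru rfl).det⟩) (fun k => (ξ ^ k).val) _ n _ _ :=
    ⟨hn, by omega, fun k => by rw [zpow_add_one, mul_comm (ξ ^ k)]; rfl, by
        rw [ofSU_Λ, R.B_a, l0 _ (by omega) (by omega)]; simp,
      fun i j h h' => (R.B_a l i j).trans (l0 _ (by omega) (by omega)), by
        rw [ofSU_B, R.B_a, sub_zero, l1]; exact div_ne_zero z0 z2,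
      fun k => by
        rw [ofSU_B, ofSU_B, R.B_a, R.B_a, sub_zero, show k - (k + n) = -n by ring, l1, l2, ofSU_η,
          ofSU_σ, one_mul], Y⟩
  obtain ⟨u, g, h, h1, h2⟩ := su_gen M z0 z1 (by rw [R.B_a, sub_zero, l1])
  obtain ⟨e, φ, h3⟩ := exists_suEquiv' hU hB (n := 2 * n + 1) (by simpa using finrank_eq_card_basis b)
  exact ⟨_, _, _, RU.mat (h3 u) h1, closure_three φ h2⟩

end Cfsg.Agent.H4
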