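import Cfsg.Agent.H4.RG5

/-!
# Generation of `SU₃(q)` by two regular unipotent elements
-/

set_option autoImplicit false
set_option linter.unusedSectionVars false
set_option linter.unusedSimpArgs false
set_option linter.unnecessarySeqFocus false
set_option linter.unusedVariables false

namespace Cfsg.Agent.H4

open H5 H6 H6.OF Module Polynomial H1

variable {F : Type*} [Field F] [Fintype F] {σ : F →+* F} {q : ℕ}

/-- The antidiagonal hermitian form in dimension three -/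
def B3 (σ : F →+* F) : Sesq σ (Fin 3 → F) :=
  LinearMap.mk₂'ₛₗ (RingHom.id F) σ (fun x y => x 0 * σ (y 2) + x 1 * σ (y 1) + x 2 * σ (y 0))
    (fun _ _ _ => by simp; ring) (fun _ _ _ => by simp; ring)
    (fun _ _ _ => by simp; ring) (fun _ _ _ => by simp; ring)

theorem B3_apply (x y : Fin 3 → F) :
    B3 σ x y = x 0 * σ (y 2) + x 1 * σ (y 1) + x 2 * σ (y 0) := rfl

theorem vec3_ext {x y : Fin 3 → F} (h0 : x 0 = y 0) (h1 : x 1 = y 1) (h2 : x 2 = y 2) : x = y := by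
  ext i; fin_cases i <;> assumption

variable (hU : UF σ q)
include hU

theorem eps3 : IsEps (B3 σ) 1 :=
  ⟨hU.invol, fun u v => by simp [B3_apply, hU.invol]; ring, fun u hu => vec3_ext
    (by simpa [B3_apply] using hu ![0, 0, 1]) (by simpa [B3_apply] using hu ![0, 1, 0])
    (by simpa [B3_apply] using hu ![1, 0, 0])⟩

/-- upper unipotent elements -/
noncomputable def up3 (a α : F) : SUb (B3 σ) := ei (eps3 hU) ![0, a, 0] ![1, 0, 0] (-α)

/-- lower unipotent elements -/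
noncomputable def lo3 (a α : F) : SUb (B3 σ) := ei (eps3 hU) ![0, a, 0] ![0, 0, 1] (-α)

variable {hU} {a α c δ : F}

omit hU in
theorem adm_up (h : a * σ a + α + σ α = 0) : Adm (B3 σ) ![0, a, 0] ![1, 0, 0] (-α) :=
  ⟨by simp [B3_apply], by simp [B3_apply], by simp [B3_apply]; linear_combination -h⟩

omit hU in
theorem adm_lo (h : a * σ a + α + σ α = 0) : Adm (B3 σ) ![0, a, 0] ![0, 0, 1] (-α) :=
  ⟨by simp [B3_apply], by simp [B3_apply], by simp [B3_apply]; linear_combination -h⟩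

theorem up3_apply (h : a * σ a + α + σ α = 0) (x y z : F) :
    suAct _ (up3 hU a α) ![x, y, z] = ![x + α * z - σ a * y, y + a * z, z] := by
  rw [up3, ei_apply _ (adm_up h)]
  refine vec3_ext ?_ ?_ ?_ <;> simp [B3_apply] <;> ring

theorem lo3_apply (h : a * σ a + α + σ α = 0) (x y z : F) :
    suAct _ (lo3 hU a α) ![x, y, z] = ![x, y + a * x, z + α * x - σ a * y] := by
  rw [lo3, ei_apply _ (adm_lo h)]
  refine vec3_ext ?_ ?_ ?_ <;> simp [B3_apply] <;> ring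

omit hU in
theorem su3_ext {g h : SUb (B3 σ)} (e : ∀ x y z, suAct _ g ![x, y, z] = suAct _ h ![x, y, z]) : g = h :=
  su_ext fun v => by
    rw [show v = ![v 0, v 1, v 2] from vec3_ext rfl rfl rfl]; exact e _ _ _

omit hU in
theorem det3 (f : End F (Fin 3 → F)) : LinearMap.det f =
    (Matrix.of fun i j => f (![![1, 0, 0], ![0, 1, 0], ![0, 0, 1]] j) i).det := by
  rw [← LinearMap.det_toMatrix']
  congr 1
  ext i j
  rw [LinearMap.toMatrix'_apply]
  refine congrFun (congrArg f ?_) i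
  fin_cases j <;> exact vec3_ext rfl rfl rfl

theorem exists_weyl {t : F} (ht : t ≠ 0) : ∃ g : SUb (B3 σ), ∀ x y z,
    suAct _ g ![x, y, z] = ![(σ t)⁻¹ * z, -(σ t / t) * y, t * x] := by
  have h1 : σ t ≠ 0 := (map_ne_zero σ).2 ht
  let f : End F (Fin 3 → F) :=
    { toFun v := ![(σ t)⁻¹ * v 2, -(σ t / t) * v 1, t * v 0]
      map_add' _ _ := vec3_ext (by simp; ring) (by simp; ring) (by simp; ring)
      map_smul' _ _ := vec3_ext (by simp; ring) (by simp; ring) (by simp; ring) }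
  refine ⟨⟨(eps3 hU).toIsom f fun x y => ?_, ?_⟩, fun x y z => rfl⟩
  · simp [f, B3_apply, hU.invol]; field_simp; ring
  · change LinearMap.det f = 1
    rw [det3, Matrix.det_fin_three]
    simp [f]; field_simp

theorem borel3 {g : SUb (B3 σ)} {l : F} (h : suAct _ g ![1, 0, 0] = ![l, 0, 0]) :
    l ≠ 0 ∧ ∃ y, suAct _ g ![0, 1, 0] = ![y, σ l / l, 0] := by
  have h1 := g.1.2 ![0, 1, 0] ![1, 0, 0]
  have h2 := g.1.2 ![0, 0, 1] ![1, 0, 0]
  have h3 := (det3 (suAct _ g)).symm.trans g.2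
  change B3 σ (suAct _ g _) (suAct _ g _) = _ at h1 h2
  rw [Matrix.det_fin_three] at h3
  simp [B3_apply, h] at h1 h2 h3
  have l0 : l ≠ 0 := by rintro rfl; simp at h2
  have h4 := h1.resolve_right l0
  refine ⟨l0, _, vec3_ext rfl ?_ h4⟩
  rw [h4] at h3
  simp only [Matrix.cons_val_one, Matrix.cons_val_zero]
  field_simp
  linear_combination σ l * h3 - l * (suAct _ g ![0, 1, 0] 1) * h2

theorem su3_conj (ha : a * σ a + α + σ α = 0) (hc : c * σ c + δ + σ δ = 0) (c0 : c ≠ 0) {t : F}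
    (t0 : t ≠ 0) (ht : c * t = -a * σ t ^ 2) : ∃ g, g * up3 hU a α * g⁻¹ = lo3 hU c δ := by
  obtain ⟨n, hn⟩ := exists_weyl (hU := hU) t0
  have h1 : σ t ≠ 0 := (map_ne_zero σ).2 t0
  have h2 : σ c ≠ 0 := (map_ne_zero σ).2 c0
  have ht' := congrArg σ ht
  simp only [map_mul, map_neg, map_pow, hU.invol] at ht'
  obtain ⟨s, hs⟩ := su_min (hU := hU) (hB := eps3 hU) (α := δ - t * σ t * α) (by
    rw [ofSU_Λ0]
    simp only [map_mul, map_sub, hU.invol]
    refine mul_left_cancel₀ (mul_ne_zero t0 h1) ?_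
    linear_combination t * σ t * hc - (t * σ t) ^ 2 * ha - σ c * σ t * ht + a * σ t ^ 2 * ht')
  obtain ⟨β, hβ⟩ := hU.trace_surj (c := -(s / σ c * σ (s / σ c))) (by rw [map_neg, hU.norm_fixed])
  have h3 : s / σ c * σ (s / σ c) + β + σ β = 0 := by linear_combination -hβ
  refine ⟨lo3 hU (s / σ c) β * n, mul_inv_eq_of_eq_mul (su3_ext fun x y z => ?_)⟩
  simp only [map_mul, End.mul_apply, up3_apply ha, hn, lo3_apply hc, lo3_apply h3, map_div₀, hU.invol]
  refine vec3_ext rfl ?_ ?_ <;> simp <;> field_simp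
  · linear_combination -z * σ c * ht
  · linear_combination -(c * t * z) * hs + z * σ s * ht - y * σ t * c * ht'

theorem su3_top {H : Subgroup (SUb (B3 σ))} (ha : a * σ a + α + σ α = 0) (a0 : a ≠ 0)
    (hu : up3 hU a α ∈ H) (hc : c * σ c + δ + σ δ = 0) (δ0 : δ ≠ 0) (hv : lo3 hU c δ ∈ H)
    {W : SUb (B3 σ)} (hW : W ∈ H) {l : F} (h : suAct _ W ![1, 0, 0] = ![l, 0, 0])
    (hl : Gens (σ l ^ 2 / l)) : H = ⊤ := by
  obtain ⟨l0, y, hy⟩ := borel3 (hU := hU) h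
  have he : (ofSU hU (eps3 hU)).Λ ![1, 0, 0] 0 := by simp [ofSU_Λ, B3_apply]
  have h1 : ∀ t, t ∈ SS (H.map (jB hU (eps3 hU))) he ![0, 1, 0] := fun t => by
    have := mul_mem_of_gens (A := SS (H.map (jB hU (eps3 hU))) he ![0, 1, 0]) (fun s ⟨β, hs, hs'⟩ => by
      have h2 : jB hU (eps3 hU) W • (![1, 0, 0] : Fin 3 → F) = l • ![1, 0, 0] :=
        h.trans (vec3_ext (by simp) (by simp) (by simp))
      have h3 := (Ok.of_smul l0 (h2 ▸ hs.map _))
      obtain ⟨h4, h5⟩ := h3.T_add_self (-(σ l * s * y))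
      have h6 : (ofSU hU (eps3 hU)).Ok ![1, 0, 0] 0 (1 * σ (-(σ l * s * y)) - -(σ l * s * y)) :=
        ⟨he, by simp, by simp [ofSU_Λ, hU.invol]⟩
      rw [map_zero, mul_zero, sub_zero] at h4
      refine ⟨_, InH.congr ⟨h4.add h6, ?_⟩ ?_ rfl⟩
      · rw [← h4.T_mul h6]
        exact h5 ▸ hs.conj_T' l0 h2 ▸ mul_mem (mul_mem ⟨W, hW, rfl⟩ hs') (inv_mem ⟨W, hW, rfl⟩)
      · rw [U_smul, jB_smul, hy, ofSU_σ]
        refine vec3_ext ?_ ?_ ?_ <;> simp <;> ring)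
      (P := fun _ => True) (fun R hR t _ => (hl R hR).ge trivial) (t := t / a) (s := a) trivial
      ⟨α, InH.congr ⟨(jB_ei (adm_up ha)).1, ⟨_, hu, (jB_ei (adm_up ha)).2⟩⟩
        (vec3_ext (by simp) (by simp) (by simp)) (neg_neg _)⟩
    rwa [div_mul_cancel₀ _ a0] at this
  have h2 : Rad (H.map (jB hU (eps3 hU))) ![1, 0, 0] := rad_of_perp (f := ![0, 0, 1]) he
    (by simp [ofSU_B, B3_apply]) (fun v v1 v2 => by
      obtain ⟨β, h3, h4⟩ := h1 (v 1)
      simp [ofSU_B, B3_apply] at v1 v2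
      rw [show v 1 • ![0, 1, 0] = v from vec3_ext (by simp [v2]) (by simp) (by simp [v1])] at h3 h4
      exact ⟨_, h4, β, h3, rfl⟩) fun β hβ => by
      obtain ⟨y, rfl⟩ := su_min hβ
      exact ⟨![0, y, 0], ![0, 1, 0], by simp [ofSU_B, B3_apply, ofSU_η]⟩
  refine su_top (hU := hU) (hB := eps3 hU) (Rad.all (eps3 hU).nondeg he
    ((Λ_U (jB hU _ (lo3 hU c δ)) _ _).2 he) ?_ h2
    (h2.map (inv_mem ⟨_, hv, rfl⟩) one_ne_zero (by simp)))
  simp [ofSU_B, jB_smul, lo3_apply hc, B3_apply, δ0]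

theorem up3_ru (ha : a * σ a + α + σ α = 0) (a0 : a ≠ 0) : RU (suAct _ (up3 hU a α)) 2 := by
  have h1 : ∀ x y z, (suAct _ (up3 hU a α) - 1) ![x, y, z] = ![α * z - σ a * y, a * z, 0] :=
    fun x y z => by
      rw [LinearMap.sub_apply, up3_apply ha]
      exact vec3_ext (by simp; ring) (by simp) (by simp)
  refine ⟨⟨3, LinearMap.ext fun v => ?_⟩, fun h => ?_⟩
  · rw [show v = ![v 0, v 1, v 2] from vec3_ext rfl rfl rfl]
    simp only [pow_succ, pow_zero, one_mul, End.mul_apply, h1]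
    exact vec3_ext (by simp) (by simp) (by simp)
  · have := congrFun (LinearMap.congr_fun h ![0, 0, 1]) 0
    simp only [pow_succ, pow_zero, one_mul, End.mul_apply, h1] at this
    simp [a0] at this

omit hU in
theorem gens_of_ne {ν : F} (h : ∀ r d : ℕ, 2 ≤ r → 2 ≤ d → Fintype.card F = r ^ d → ν ^ r ≠ ν) :
    Gens ν := gens_of_aeval ((aeval_surj_or _).resolve_right fun ⟨r, d, h1, h2, h3, h4⟩ =>
      h r d h1 h2 h3 h4)

omit hU in
theorem cl1 {G : Type*} [Group G] {x y : G} : x ∈ Subgroup.closure {x, y} :=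
  Subgroup.subset_closure (by simp)

omit hU in
theorem cl2 {G : Type*} [Group G] {x y : G} : y ∈ Subgroup.closure {x, y} :=
  Subgroup.subset_closure (by simp)

/-- two conjugate regular unipotent generators -/
def Gen2 (hU : UF σ q) : Prop := ∃ a α c δ t l : F, ∃ W ∈ Subgroup.closure {up3 hU a α, lo3 hU c δ},
  a * σ a + α + σ α = 0 ∧ c * σ c + δ + σ δ = 0 ∧ a ≠ 0 ∧ c ≠ 0 ∧ δ ≠ 0 ∧ t ≠ 0 ∧
  c * t = -a * σ t ^ 2 ∧ suAct _ W ![1, 0, 0] = ![l, 0, 0] ∧ Gens (σ l ^ 2 / l)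

theorem gen2_generic (h2 : q ≠ 2) (h5 : q ≠ 5) (h8 : q ≠ 8) : Gen2 hU := by
  obtain ⟨l, hl⟩ := hU.exists_prim
  have q2 := hU.two_le
  have l1 : l * σ l = 1 := by rw [hU.norm_eq, hl.pow_eq_one]
  obtain ⟨δ, δ0, hδ⟩ := hU.hilbert90 l1
  have l0 : l ≠ 0 := left_ne_zero_of_mul_eq_one l1
  have δ1 : σ δ ≠ 0 := (map_ne_zero σ).2 δ0
  have n0 : δ + σ δ ≠ 0 := fun e => by
    have := (hl.pow_eq_one_iff_dvd 2).1 (mul_left_cancel₀ δ1 (by
      linear_combination (l - 1) * e - (l - 1) * hδ))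
    have := Nat.le_of_dvd two_pos this
    omega
  obtain ⟨c, hc⟩ := hU.norm_surj (c := -(δ + σ δ)) (by simp [hU.invol, add_comm])
  have c0 : c ≠ 0 := by rintro rfl; simp at hc; exact n0 (by linear_combination hc)
  have c1 : σ c ≠ 0 := (map_ne_zero σ).2 c0
  have hc' : c * σ c + δ + σ δ = 0 := by linear_combination hc
  have ha : c * (c * σ c) / (δ * σ δ) * σ (c * (c * σ c) / (δ * σ δ)) +
      ((σ δ)⁻¹ - δ⁻¹ + (c * σ c) ^ 2 / (δ * σ δ * δ)) +
      σ ((σ δ)⁻¹ - δ⁻¹ + (c * σ c) ^ 2 / (δ * σ δ * δ)) = 0 := by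
    simp only [map_add, map_sub, map_mul, map_div₀, map_inv₀, map_pow, hU.invol]
    field_simp
    linear_combination (c * σ c) ^ 2 * hc
  refine ⟨_, _, c, δ, -(δ * σ δ) / (c * σ c), l, _, mul_mem (mul_mem cl2 cl1) cl2, ha, hc',
    by simp [c0, δ0], c0, δ0, by simp [c0, δ0], ?_, ?_, gens_of_ne fun r d hr hd hc e => ?_⟩
  · simp only [map_neg, map_mul, map_div₀, hU.invol]; field_simp
  · have : l = δ / σ δ := by rw [eq_div_iff δ1]; linear_combination -hδ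
    simp only [map_mul, End.mul_apply, up3_apply ha, lo3_apply hc', map_div₀, hU.invol, this]
    refine vec3_ext ?_ ?_ ?_ <;> simp <;> field_simp
    · ring
    · linear_combination c * δ * hc
    · linear_combination (δ - c * σ c) * hc
  · obtain ⟨r, rfl⟩ : ∃ s, r = s + 1 := ⟨r - 1, by omega⟩
    rw [eq_inv_of_mul_eq_one_right l1, pow_succ _ r, mul_eq_right₀ (by simp [l0]),
      show l⁻¹ ^ 2 / l = (l ^ 3)⁻¹ by field_simp, inv_pow, inv_eq_one, ← pow_mul,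
      hl.pow_eq_one_iff_dvd] at e
    rw [hU.card] at hc
    rcases hd.eq_or_lt with rfl | hd
    · obtain rfl := Nat.pow_left_injective two_ne_zero hc
      have h1 : r + 1 + 1 ∣ 6 := by
        simpa [show 3 * (r + 1 + 1) - 3 * r = 6 by omega] using
          Nat.dvd_sub (Dvd.intro_left 3 rfl) e
      have := Nat.le_of_dvd (by omega) h1
      have : r ≤ 4 := by omega
      interval_cases r <;> omega
    · have h1 := Nat.le_of_dvd (by omega) e
      have h3 : (r + 1) ^ 3 ≤ q ^ 2 := hc ▸ Nat.pow_le_pow_right (by omega) hd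
      have h4 : q ^ 2 ≤ (3 * r - 1) ^ 2 := Nat.pow_le_pow_left (by omega) 2
      have h6 : r < 9 := by
        have : q ^ 2 ≤ (3 * r) ^ 2 := Nat.pow_le_pow_left (by omega) 2
        nlinarith
      have h7 : r = 3 := by interval_cases r <;> omega
      subst h7
      have : 8 ≤ q := by nlinarith
      omega

omit hU in
theorem gen2_five (hU : UF σ 5) : Gen2 hU := by
  have h5 : (5 : F) = 0 := by simpa using hU.cast_q
  obtain ⟨ω, w1, w2⟩ : ∃ ω, σ ω = -ω ∧ ω ^ 2 = 2 := by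
    obtain ⟨x, x0, hx⟩ := hU.exists_trace_zero
    have : (x ^ 2 - 2) * ((2 * x) ^ 2 - 2) = 0 := mul_left_cancel₀ x0 (by
      have := hU.apply x
      grind)
    rcases mul_eq_zero.1 this with h | h
    · exact ⟨x, hx, sub_eq_zero.1 h⟩
    · exact ⟨2 * x, by rw [map_mul, hx, map_ofNat, mul_neg], sub_eq_zero.1 h⟩
  have ha : 1 * σ 1 + (2 + 4 * ω) + σ (2 + 4 * ω) = 0 := by
    simp only [map_add, map_mul, map_ofNat, map_one, w1]; grind
  have hc : 2 * ω * σ (2 * ω) + (4 + 4 * ω) + σ (4 + 4 * ω) = 0 := by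
    simp only [map_add, map_mul, map_ofNat, map_one, w1]; grind
  have k : ∀ {x : F} (y : F), x * y = 1 → x ≠ 0 := fun y h => left_ne_zero_of_mul_eq_one h
  refine ⟨_, _, _, _, 3 * ω, 1 + 2 * ω, _, mul_mem (mul_mem (mul_mem cl2 cl2) cl1) cl2, ha, hc,
    one_ne_zero, k (4 * ω) (by grind), k (1 - ω) (by grind), k ω (by grind), ?_, ?_,
    gens_of_ne fun r d hr hd hc e => ?_⟩
  · simp only [map_add, map_mul, map_ofNat, map_one, w1]; grind
  · simp only [map_mul, End.mul_apply, up3_apply ha, lo3_apply hc, map_ofNat, map_one, w1]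
    refine vec3_ext ?_ ?_ ?_ <;> simp <;> grind
  · have h1 : σ (1 + 2 * ω) ^ 2 / (1 + 2 * ω) = ω := by
      simp only [map_add, map_mul, map_ofNat, map_one, w1]
      rw [div_eq_iff (k (2 + ω) (by grind))]; grind
    have h3 : r ^ 2 ≤ 5 ^ 2 := hU.card ▸ hc ▸ Nat.pow_le_pow_right (by omega) hd
    have h4 : r ∣ 5 ^ 2 := hU.card ▸ hc ▸ dvd_pow_self r (by omega)
    have h6 : r ≤ 5 := by nlinarith
    obtain rfl : r = 5 := by interval_cases r <;> omega
    rw [h1] at e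
    exact k (x := 3 * ω) ω (by grind) (by grind)

omit hU in
theorem gen2_eight (hU : UF σ 8) : Gen2 hU := by
  have h2 : (2 : F) = 0 := pow_eq_zero_iff three_ne_zero |>.1 (by
    simpa [show (8 : F) = 2 ^ 3 by norm_num] using hU.cast_q)
  obtain ⟨ζ, hζ⟩ := hU.exists_gen
  have z0 := hζ.pow_eq_one
  obtain ⟨ρ, r1⟩ : ∃ ρ : F, ρ ^ 2 + ρ + 1 = 0 := ⟨ζ ^ 21, mul_left_cancel₀ (sub_ne_zero.2
    (hζ.pow_ne_one_of_pos_of_lt (l := 21) (by omega) (by omega))) (by linear_combination z0)⟩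
  obtain ⟨η, e1⟩ : ∃ η : F, η ^ 3 + η + 1 = 0 := by
    have : ((ζ ^ 9) ^ 3 + ζ ^ 9 + 1) * (((ζ ^ 9) ^ 6) ^ 3 + (ζ ^ 9) ^ 6 + 1) = 0 :=
      mul_left_cancel₀ (sub_ne_zero.2 (hζ.pow_ne_one_of_pos_of_lt (l := 9) (by omega) (by omega))) (by
        have : (ζ ^ 9) ^ 7 = 1 := by linear_combination z0
        generalize ζ ^ 9 = x at this
        clear * - this h2
        grind)
    exact (mul_eq_zero.1 this).elim (fun h => ⟨_, h⟩) fun h => ⟨_, h⟩
  have r2 : σ ρ = ρ + 1 := by rw [hU.apply]; clear * - r1 h2; grind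
  have e2 : σ η = η := by rw [hU.apply]; clear * - e1 h2; grind
  clear z0 hζ ζ
  have ha : 1 * σ 1 + (1 + η + η ^ 2 + ρ) + σ (1 + η + η ^ 2 + ρ) = 0 := by
    simp only [map_add, map_mul, map_pow, map_one, r2, e2]; grind
  have hc : η * ρ * σ (η * ρ) + (η + η ^ 2 * ρ) + σ (η + η ^ 2 * ρ) = 0 := by
    simp only [map_add, map_mul, map_pow, map_one, r2, e2]; grind
  have k : ∀ {x : F} (y : F), x * y = 1 → x ≠ 0 := fun y h => left_ne_zero_of_mul_eq_one h
  have k1 : η * ρ ≠ 0 := k (1 + η ^ 2 + (1 + η ^ 2) * ρ) (by clear * - h2 r1 e1; grind)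
  have k2 : η + η ^ 2 * ρ ≠ 0 := k (η + η ^ 2 + η ^ 2 * ρ) (by clear * - h2 r1 e1; grind)
  have k3 : η + η ^ 2 ≠ 0 := k (1 + η) (by clear * - h2 r1 e1; grind)
  refine ⟨_, _, _, _, η ^ 2 + (1 + η) * ρ, η + (1 + η + η ^ 2) * ρ, _, mul_mem (mul_mem (mul_mem
    (mul_mem (mul_mem cl2 cl1) cl2) cl1) cl1) cl2, ha, hc, one_ne_zero,
    k1, k2, k (1 + η + η * ρ) (by clear * - h2 r1 e1; grind), ?_, ?_, gens_of_ne fun r d hr hd hc e => ?_⟩
  · simp only [map_add, map_mul, map_pow, map_one, r2, e2]; clear * - h2 r1 e1; grind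
  · simp only [map_mul, End.mul_apply, up3_apply ha, lo3_apply hc, map_one, r2, e2]
    refine vec3_ext ?_ ?_ ?_ <;> simp <;> clear * - h2 r1 e1 <;> grind
  · have h1 : σ (η + (1 + η + η ^ 2) * ρ) ^ 2 / (η + (1 + η + η ^ 2) * ρ) = (η + η ^ 2) * ρ := by
      simp only [map_add, map_mul, map_pow, map_one, r2, e2]
      rw [div_eq_iff (k (1 + η + η ^ 2 + (η + η ^ 2) * ρ) (by clear * - h2 r1 e1; grind))]
      clear * - h2 r1 e1; grind
    have h3 : r ^ 2 ≤ 8 ^ 2 := hU.card ▸ hc ▸ Nat.pow_le_pow_right (by omega) hd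
    have h4 : r ∣ 8 ^ 2 := hU.card ▸ hc ▸ dvd_pow_self r (by omega)
    have h6 : r ≤ 8 := by nlinarith
    rw [h1] at e
    obtain rfl | rfl | rfl : r = 2 ∨ r = 4 ∨ r = 8 := by interval_cases r <;> omega
    exacts [k2 (by clear * - h2 r1 e1 e; grind), k1 (by clear * - h2 r1 e1 e; grind),
      k3 (by clear * - h2 r1 e1 e; grind)]

theorem su3_two (hq : 3 ≤ q) : ∃ u g : SU 3 F q,
      (IsNilpotent (u.1.1 - 1) ∧ (u.1.1 - 1) ^ 2 ≠ 0) ∧
      Subgroup.closure ({u, g * u * g⁻¹} : Set (SU 3 F q)) = ⊤ := by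
  obtain ⟨a, α, c, δ, t, l, W, hW, ha, hc, a0, c0, δ0, t0, ht, h1, h2⟩ : Gen2 hU := by
    by_cases h5 : q = 5
    · subst h5; exact gen2_five hU
    by_cases h8 : q = 8
    · subst h8; exact gen2_eight hU
    exact gen2_generic (by omega) h5 h8
  obtain ⟨g, hg⟩ := su3_conj (hU := hU) ha hc c0 t0 ht
  obtain ⟨e, φ, h3⟩ := exists_suEquiv' hU (eps3 hU) (n := 3) (by simp)
  refine ⟨_, φ g, RU.mat (h3 _) (up3_ru (hU := hU) ha a0), ?_⟩
  have := closure_three φ (u := up3 hU a α) (g := g) (h := g) fun H k1 k2 _ =>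
    su3_top ha a0 k1 hc δ0 (hg ▸ k2) ((Subgroup.closure_le H).2 (by
      rintro _ (rfl | rfl)
      exacts [k1, hg ▸ k2]) hW) h1 h2
  rwa [Set.pair_eq_singleton] at this

end Cfsg.Agent.H4
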