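import Cfsg.Agent.H5.TA0
import Cfsg.Agent.H2.SzGen

/-! Rank one data for `L₂(q)` and `Sz(q)`, `q` even. -/

set_option autoImplicit false

namespace Cfsg.Agent.H4.RI

open Cfsg.Agent.H5.TA Cfsg.Agent.H2 Matrix
open scoped MatrixGroups

theorem R0_equiv {X Y : Type*} [Group X] [Group Y] {F K : Type} [Field F] [Field K] {m i : ℕ}
    (R : R0 (⊤ : Subgroup X) F K m i) (f : X →* Y) (hf : Function.Bijective f) : Nonempty (R0 (⊤ : Subgroup Y) F K m i) :=
  ⟨Subgroup.map_top_of_surjective f hf.2 ▸ R.map f hf.1⟩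

section Sz

open Suz

/-- The data of the Suzuki group. -/
noncomputable def szR (F : Type) [Field F] (n : ℕ) [hF : SzF F n] : R0 (⊤ : Subgroup (Sz F n)) F F (2 * n + 1) 2 :=
  have e1 : ∀ a b : F, mat (u n a b) 0 1 = a := fun a b => by simp [mat_u, uM]
  have e2 : ∀ k : Fˣ, mat (h n k) 1 1 = k := fun k => by simp [mat_h, hM]
  { S := Qp (inf F n)
    T := (hHom n).range
    w := w F n
    ζ := u n 0
    ω := fun g => mat g 0 1
    ψ := fun g => th n (mat g 1 1)
    ν := fun a => a * th n a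
    ι := RingHom.id F
    θ := thHom F n
    cardF := hF.card
    hm := by have := hF.pos; omega
    finK := finite F n
    S_le := le_top
    T_le := le_top
    w_mem := trivial
    ζ_add := fun x y => (u_zero_mul x y).symm
    ζ_inj := fun _ _ e => (u_inj e).2
    ζ_mem := fun x => u_mem_Qp 0 x
    ζ_comm := fun x s hs => by
      obtain ⟨a, b, rfl⟩ := mem_Qp_inf.1 hs
      exact u_zero_comm x a b
    ω_mul := fun s hs s' hs' => by
      obtain ⟨a, b, rfl⟩ := mem_Qp_inf.1 hs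
      obtain ⟨c, d, rfl⟩ := mem_Qp_inf.1 hs'
      simp only [u_mul, e1]
    ω_ker := fun s hs => by
      obtain ⟨a, b, rfl⟩ := mem_Qp_inf.1 hs
      simp only [e1]
      exact ⟨fun e => ⟨b, by rw [e]⟩, fun ⟨_, e⟩ => (u_inj e).1⟩
    sq := fun s hs => by
      obtain ⟨a, b, rfl⟩ := mem_Qp_inf.1 hs
      rw [← pow_two, u_sq, e1, mul_comm]
    hν := fun _ => rfl
    T_norm := by
      rintro _ ⟨k, rfl⟩ s hs
      obtain ⟨a, b, rfl⟩ := mem_Qp_inf.1 hs
      exact mem_Qp_inf.2 ⟨_, _, h_conj_u k a b⟩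
    ω_conj := by
      rintro _ ⟨k, rfl⟩ s hs
      obtain ⟨a, b, rfl⟩ := mem_Qp_inf.1 hs
      change mat (h n k * u n a b * (h n k)⁻¹) 0 1 = th n (mat (h n k) 1 1) * _
      rw [h_conj_u, e1, e1, e2]
    ζ_conj := by
      rintro _ ⟨k, rfl⟩ x
      change h n k * u n 0 x * (h n k)⁻¹ = u n 0 (th n (mat (h n k) 1 1) * th n (th n (mat (h n k) 1 1)) * x)
      rw [h_conj_u, e2, th_th, mul_zero]
    ψ_mul := by
      rintro _ ⟨k, rfl⟩ _ ⟨l, rfl⟩
      change th n (mat (h n k * h n l) 1 1) = th n (mat (h n k) 1 1) * th n (mat (h n l) 1 1)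
      rw [← h_mul, e2, e2, e2, Units.val_mul, th_mul]
    ψ_ne := by
      rintro _ ⟨k, rfl⟩
      change th n (mat (h n k) 1 1) ≠ 0
      rw [e2]; exact th_ne_zero n k.ne_zero
    ψ_inj := by
      rintro _ ⟨k, rfl⟩ e
      change th n (mat (h n k) 1 1) = 1 at e
      rw [e2] at e
      exact h_eq_one_iff.2 (Units.ext (th_eq_one e))
    χ_surj := fun c hc => by
      have := finite F n
      have hi : Function.Injective fun k : Fˣ => Units.mk0 (th n (k : F) * (k : F) ^ 2)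
          (mul_ne_zero (th_ne_zero n k.ne_zero) (pow_ne_zero 2 k.ne_zero)) := fun k l e => by
        have e := congrArg Units.val e
        simp only [Units.val_mk0] at e
        have := th_mul_sq_eq_one (m := n) (k := (k : F) / l) (by
          rw [th_div, div_pow, div_mul_div_comm, e, div_self (mul_ne_zero (th_ne_zero n l.ne_zero) (pow_ne_zero 2 l.ne_zero))])
        exact Units.ext ((div_eq_one_iff_eq l.ne_zero).1 this)
      obtain ⟨k, hk⟩ := Finite.surjective_of_injective hi (Units.mk0 c hc)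
      refine ⟨_, ⟨k, rfl⟩, ?_⟩
      change th n (mat (h n k) 1 1) * th n (th n (mat (h n k) 1 1)) = c
      rw [e2, th_th]
      exact congrArg Units.val hk
    w_norm := by
      rintro _ ⟨k, rfl⟩
      refine ⟨k⁻¹, ?_⟩
      change h n k⁻¹ = w F n * h n k * (w F n)⁻¹
      rw [w_mul_h, mul_inv_cancel_right]
    bruhat := fun g _ => by
      rcases Suz.bruhat g with ⟨a, b, k, rfl⟩ | ⟨a, b, c, d, k, rfl⟩
      · exact .inl ⟨_, u_mem_Qp a b, _, ⟨k, rfl⟩, rfl⟩
      · exact .inr ⟨_, u_mem_Qp a b, _, u_mem_Qp c d, _, ⟨k, rfl⟩, rfl⟩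
    ti := by
      rintro s hs s' hs' _ ⟨k, rfl⟩ e
      by_contra h1
      have h2 : (w F n * s * (w F n)⁻¹) • inf F n = inf F n := by
        rw [e, mul_smul]
        exact (congrArg _ (h_smul_inf k)).trans hs'.1
      have h3 := eq_of_mem_Qp_fix (conj_mem_Qp_smul (w F n) hs) (by simpa using h1) h2
      rw [w_smul_inf] at h3
      exact pt_ne_inf 0 0 h3.symm
    gen := fun M h1 h2 => by
      have h3 : w F n * u n 0 1 * (w F n)⁻¹ ≠ 1 := by simp [u_eq_one_iff]
      refine (eq_top_of_Qp_le h1 (h2 _ (u_mem_Qp 0 1)) fun e => ?_).ge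
      have h4 := eq_of_mem_Qp_fix (conj_mem_Qp_smul (w F n) (u_mem_Qp 0 1)) h3 e
      rw [w_smul_inf] at h4
      exact pt_ne_inf 0 0 h4.symm
    typ := .inr (.inl ⟨rfl, odd_two_mul_add_one n, fun a => ⟨_, u_mem_Qp a 0, e1 a 0⟩, Function.surjective_id,
      th_th n⟩) }

theorem instSz {F : Type} [Field F] [Fintype F] {m : ℕ} (h : Fintype.card F = 2 ^ m) (hm : 2 ≤ m) (ho : Odd m) :
    ∃ (F' K : Type) (_ : Field F') (_ : Field K),
      Nonempty (R0 (⊤ : Subgroup (Cfsg.Lie.Sz F (2 ^ ((m + 1) / 2)))) F' K m 2) := by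
  obtain ⟨n, rfl⟩ := ho
  have := SzF.of_fintype (m := n) (by omega) h
  rw [show (2 * n + 1 + 1) / 2 = n + 1 by omega]
  exact ⟨F, F, _, _, R0_equiv (szR F n) (equivLie F n).toMonoidHom (equivLie F n).bijective⟩

end Sz

section L2

variable {F : Type} [Field F]

/-- Upper unitriangular matrix. -/
def up (x : F) : SL(2, F) := ⟨!![1, x; 0, 1], by simp [det_fin_two]⟩

/-- Lower unitriangular matrix. -/
def lo (x : F) : SL(2, F) := ⟨!![1, 0; x, 1], by simp [det_fin_two]⟩

/-- Diagonal matrix. -/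
def dg (k : Fˣ) : SL(2, F) := ⟨!![(k : F), 0; 0, (k : F)⁻¹], by simp [det_fin_two]⟩

/-- Weyl element. -/
def ww (F : Type) [Field F] : SL(2, F) := ⟨!![0, 1; -1, 0], by simp [det_fin_two]⟩

theorem ext2 {g h : SL(2, F)} (h1 : g 0 0 = h 0 0) (h2 : g 0 1 = h 0 1) (h3 : g 1 0 = h 1 0) (h4 : g 1 1 = h 1 1) :
    g = h := by
  ext i j
  fin_cases i <;> fin_cases j <;> assumption

theorem det2 (g : SL(2, F)) : g 0 0 * g 1 1 - g 0 1 * g 1 0 = 1 := by
  have := g.det_coe
  rwa [det_fin_two] at this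

theorem mul2 (g h : SL(2, F)) (i j : Fin 2) : (g * h) i j = g i 0 * h 0 j + g i 1 * h 1 j := by
  simp [Matrix.mul_apply, Fin.sum_univ_two]

theorem up_mul (x y : F) : up (x + y) = up x * up y := by
  apply ext2 <;> simp only [mul2] <;> simp [up, add_comm]

theorem dg_mul (k l : Fˣ) : dg (k * l) = dg k * dg l := by
  apply ext2 <;> simp only [mul2] <;> simp [dg, mul_comm]

/-- The unitriangular group. -/
def upH (F : Type) [Field F] : Multiplicative F →* SL(2, F) := MonoidHom.mk' (fun x => up x.toAdd) fun _ _ => up_mul _ _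

/-- The torus. -/
def dgH (F : Type) [Field F] : Fˣ →* SL(2, F) := MonoidHom.mk' dg dg_mul

theorem dg_up (k : Fˣ) (x : F) : dg k * up x * (dg k)⁻¹ = up ((k : F) * k * x) := by
  rw [mul_inv_eq_iff_eq_mul]
  apply ext2 <;> simp only [mul2] <;> simp [dg, up]
  field_simp

theorem bruhat2 (g : SL(2, F)) : (∃ x k, g = up x * dg k) ∨ ∃ x y k, g = up x * ww F * (up y * dg k) := by
  have hd := det2 g
  by_cases h : g 1 0 = 0
  · have h0 : g 0 0 ≠ 0 := fun e => by simp [e, h] at hd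
    refine .inl ⟨g 0 1 * g 0 0, Units.mk0 _ h0, ?_⟩
    apply ext2 <;> simp only [mul2] <;> simp [dg, up, h, h0]
    field_simp
    linear_combination hd + g 0 1 * h
  · refine .inr ⟨g 0 0 / g 1 0, g 1 0 * g 1 1, Units.mk0 _ (neg_ne_zero.2 h), ?_⟩
    apply ext2 <;> simp only [mul2] <;> simp [dg, up, ww] <;> field_simp
    linear_combination -hd

/-- The data of `SL₂(q)`. -/
noncomputable def slR (F : Type) [Field F] [Finite F] {m : ℕ} (h : Nat.card F = 2 ^ m) (hm : 2 ≤ m) (h2 : (2 : F) = 0) :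
    R0 (⊤ : Subgroup SL(2, F)) F F m 1 :=
  have e0 : up (0 : F) = 1 := (upH F).map_one
  have hs : ∀ x y : F, x * x = y * y → x = y := fun x y e => by
    have : (x - y) ^ 2 = 0 := by linear_combination e + (y * y - x * y) * h2
    exact sub_eq_zero.1 (pow_eq_zero_iff two_ne_zero |>.1 this)
  { S := (upH F).range
    T := (dgH F).range
    w := ww F
    ζ := up
    ω := fun _ => 0
    ψ := fun g => g 0 0
    ν := fun a => a * a
    ι := RingHom.id F
    θ := RingHom.id F
    cardF := h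
    hm := hm
    finK := inferInstance
    S_le := le_top
    T_le := le_top
    w_mem := trivial
    ζ_add := up_mul
    ζ_inj := fun x y e => by simpa [up] using congrArg (fun g : SL(2, F) => g 0 1) e
    ζ_mem := fun x => ⟨.ofAdd x, rfl⟩
    ζ_comm := by
      rintro x _ ⟨y, rfl⟩
      change up x * up y.toAdd = up y.toAdd * up x
      rw [← up_mul, ← up_mul, add_comm]
    ω_mul := by simp
    ω_ker := by
      rintro _ ⟨y, rfl⟩
      exact ⟨fun _ => ⟨_, rfl⟩, fun _ => rfl⟩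
    sq := by
      rintro _ ⟨y, rfl⟩
      change up y.toAdd * up y.toAdd = _
      rw [← up_mul, ← two_mul, h2, zero_mul, zero_mul]
    hν := fun _ => rfl
    T_norm := by
      rintro _ ⟨k, rfl⟩ _ ⟨y, rfl⟩
      exact ⟨.ofAdd _, (dg_up k _).symm⟩
    ω_conj := by simp
    ζ_conj := by
      rintro _ ⟨k, rfl⟩ x
      exact dg_up k x
    ψ_mul := by
      rintro _ ⟨k, rfl⟩ _ ⟨l, rfl⟩
      rw [← map_mul]
      simp [dgH, dg]
    ψ_ne := by
      rintro _ ⟨k, rfl⟩
      simp [dgH, dg]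
    ψ_inj := by
      rintro _ ⟨k, rfl⟩ e
      rw [show k = 1 from Units.ext (by simpa [dgH, dg] using e), map_one]
    χ_surj := fun c hc => by
      obtain ⟨k, hk⟩ := Finite.surjective_of_injective (f := fun x : F => x * x) hs c
      exact ⟨_, ⟨Units.mk0 k (by rintro rfl; exact hc (by simpa using hk.symm)), rfl⟩, by simpa [dgH, dg] using hk⟩
    w_norm := by
      rintro _ ⟨k, rfl⟩
      refine ⟨k⁻¹, ?_⟩
      rw [eq_mul_inv_iff_mul_eq]
      apply ext2 <;> simp only [mul2] <;> simp [dgH, dg, ww]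
    bruhat := fun g _ => by
      rcases bruhat2 g with ⟨x, k, rfl⟩ | ⟨x, y, k, rfl⟩
      · exact .inl ⟨_, ⟨.ofAdd x, rfl⟩, _, ⟨k, rfl⟩, rfl⟩
      · exact .inr ⟨_, ⟨.ofAdd x, rfl⟩, _, ⟨.ofAdd y, rfl⟩, _, ⟨k, rfl⟩, rfl⟩
    ti := by
      rintro _ ⟨x, rfl⟩ _ ⟨y, rfl⟩ _ ⟨k, rfl⟩ e
      rw [mul_inv_eq_iff_eq_mul] at e
      change ww F * up x.toAdd = up y.toAdd * dg k * ww F at e
      have := congrArg (fun g : SL(2, F) => g 1 1) e
      simp only [mul2] at this
      simp [dg, ww, up] at this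
      rw [this, map_one]
    gen := fun M h1 h3 => by
      have hu : ∀ x, up x ∈ M := fun x => h1 ⟨.ofAdd x, rfl⟩
      have hl : ∀ x, ww F * up x * (ww F)⁻¹ ∈ M := fun x => h3 _ ⟨.ofAdd x, rfl⟩
      have hn : ∀ k : Fˣ, dg k * ww F ∈ M := fun k => by
        have e : ww F * up (k : F)⁻¹ * (ww F)⁻¹ = lo (-(k : F)⁻¹) := by
          rw [mul_inv_eq_iff_eq_mul]
          apply ext2 <;> simp only [mul2] <;> simp [ww, up, lo]
        have : dg k * ww F = up (k : F) * (ww F * up (k : F)⁻¹ * (ww F)⁻¹) * up (k : F) := by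
          rw [e]
          apply ext2 <;> simp only [mul2] <;> simp [dg, ww, up, lo]
        exact this ▸ mul_mem (mul_mem (hu _) (hl _)) (hu _)
      have hw : ww F ∈ M := by simpa [show dg (1 : Fˣ) = 1 from (dgH F).map_one] using hn 1
      have hd : ∀ k : Fˣ, dg k ∈ M := fun k => by simpa using mul_mem (hn k) (inv_mem hw)
      intro g _
      rcases bruhat2 g with ⟨x, k, rfl⟩ | ⟨x, y, k, rfl⟩
      · exact mul_mem (hu _) (hd _)
      · exact mul_mem (mul_mem (hu _) hw) (mul_mem (hu _) (hd _))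
    typ := .inl ⟨rfl, fun _ _ => rfl, Function.surjective_id, fun _ => rfl⟩ }

theorem instL2 {F : Type} [Field F] [Fintype F] {m : ℕ} (h : Fintype.card F = 2 ^ m) (hm : 2 ≤ m) :
    ∃ (F' K : Type) (_ : Field F') (_ : Field K),
      Nonempty (R0 (⊤ : Subgroup (Matrix.ProjectiveSpecialLinearGroup (Fin 2) F)) F' K m 1) := by
  have h2 : (2 : F) = 0 := by
    have := FiniteField.cast_card_eq_zero F
    rw [h, Nat.cast_pow] at this
    exact_mod_cast pow_eq_zero_iff (by omega) |>.1 this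
  refine ⟨F, F, _, _, R0_equiv (slR F (by rw [Nat.card_eq_fintype_card, h]) hm h2) (QuotientGroup.mk' _)
    ⟨?_, QuotientGroup.mk'_surjective _⟩⟩
  rw [injective_iff_map_eq_one]
  intro g hg
  have hc := Subgroup.mem_center_iff.1 ((QuotientGroup.eq_one_iff g).1 hg)
  have e1 := congrArg (fun g : SL(2, F) => g 0 0) (hc (up 1))
  have e2 := congrArg (fun g : SL(2, F) => g 0 1) (hc (up 1))
  have e3 := congrArg (fun g : SL(2, F) => g 0 0) (hc (ww F))
  have hd := det2 g
  simp only [mul2] at e1 e2 e3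
  simp [up, ww] at e1 e2 e3
  have e4 : g 0 0 = g 1 1 := by linear_combination -e2
  have e5 : g 0 1 = 0 := by rw [e1] at e3; simpa using e3
  have e6 : g 0 0 = 1 := by
    have : (g 0 0 - 1) ^ 2 = 0 := by
      rw [← e4, e1] at hd
      linear_combination hd + (1 - g 0 0) * h2
    exact sub_eq_zero.1 (pow_eq_zero_iff two_ne_zero |>.1 this)
  apply ext2 <;> simp [e1, e5, e6, ← e4]

end L2

end Cfsg.Agent.H4.RI
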