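import Cfsg.Agent.H3.Nilp

/-! Direct decompositions of Sylow 2-subgroups of alternating groups. -/

set_option autoImplicit false

namespace Cfsg.Agent.H4

open Equiv Equiv.Perm Subgroup H3
open scoped Pointwise

variable {α : Type*} [DecidableEq α] [Fintype α]

theorem sd_exists_res (P : Sylow 2 (Perm α)) (U : Finset α)
    (hU : ∀ g ∈ (P : Subgroup (Perm α)), ∀ x ∈ U, g x ∈ U) {g : Perm α} (hg : g ∈ (P : Subgroup (Perm α))) :
    ∃ r ∈ (P : Subgroup (Perm α)), (∀ x ∈ U, r x = g x) ∧ ∀ x, x ∉ U → r x = x := by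
  have hU' : ∀ g ∈ (P : Subgroup (Perm α)), ∀ x, g x ∈ U ↔ x ∈ U := fun g hg x =>
    apply_mem_iff_of_invariant hU hg x
  let K : Subgroup (Perm α) :=
    { carrier := {k | (∃ h ∈ (P : Subgroup (Perm α)), ∀ x ∈ U, k x = h x) ∧
        ∃ h ∈ (P : Subgroup (Perm α)), ∀ x, x ∉ U → k x = h x}
      one_mem' := ⟨⟨1, one_mem _, fun _ _ => rfl⟩, ⟨1, one_mem _, fun _ _ => rfl⟩⟩
      mul_mem' := by
        rintro a b ⟨⟨a1, ha1, ha1'⟩, a2, ha2, ha2'⟩ ⟨⟨b1, hb1, hb1'⟩, b2, hb2, hb2'⟩
        refine ⟨⟨a1 * b1, mul_mem ha1 hb1, fun x hx => ?_⟩, a2 * b2, mul_mem ha2 hb2, fun x hx => ?_⟩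
        · rw [Perm.mul_apply, Perm.mul_apply, hb1' x hx, ha1' _ ((hU' _ hb1 x).2 hx)]
        · rw [Perm.mul_apply, Perm.mul_apply, hb2' x hx, ha2' _ (fun e => hx ((hU' _ hb2 x).1 e))]
      inv_mem' := by
        rintro a ⟨⟨a1, ha1, ha1'⟩, a2, ha2, ha2'⟩
        refine ⟨⟨a1⁻¹, inv_mem ha1, fun x hx => ?_⟩, a2⁻¹, inv_mem ha2, fun x hx => ?_⟩
        · rw [Perm.inv_eq_iff_eq, ha1' _ ((hU' _ (inv_mem ha1) x).2 hx)]; simp
        · rw [Perm.inv_eq_iff_eq, ha2' _ (fun e => hx ((hU' _ (inv_mem ha2) x).1 e))]; simp }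
  obtain ⟨N, hN⟩ := IsPGroup.iff_card.1 P.isPGroup'
  have hpow : ∀ h ∈ (P : Subgroup (Perm α)), h ^ 2 ^ N = 1 := fun h hh => by
    have := pow_card_eq_one' (x := (⟨h, hh⟩ : (P : Subgroup (Perm α))))
    rw [hN] at this
    exact congrArg Subtype.val this
  have hK : IsPGroup 2 K := by
    rintro ⟨k, ⟨a1, ha1, ha1'⟩, a2, ha2, ha2'⟩
    refine ⟨N, Subtype.ext ?_⟩
    change k ^ 2 ^ N = 1
    ext x
    by_cases hx : x ∈ U
    · have : ∀ j : ℕ, (k ^ j) x = (a1 ^ j) x := by
        intro j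
        induction j with
        | zero => rfl
        | succ j ih =>
          rw [pow_succ', pow_succ', Perm.mul_apply, Perm.mul_apply, ih,
            ha1' _ ((hU' _ (pow_mem ha1 j) x).2 hx)]
      rw [this, hpow _ ha1]
    · have : ∀ j : ℕ, (k ^ j) x = (a2 ^ j) x := by
        intro j
        induction j with
        | zero => rfl
        | succ j ih =>
          rw [pow_succ', pow_succ', Perm.mul_apply, Perm.mul_apply, ih,
            ha2' _ (fun e => hx ((hU' _ (pow_mem ha2 j) x).1 e))]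
      rw [this, hpow _ ha2]
  have hPK : (P : Subgroup (Perm α)) ≤ K := fun h hh => ⟨⟨h, hh, fun _ _ => rfl⟩, h, hh, fun _ _ => rfl⟩
  have e := P.is_maximal' hK hPK
  have h1 : ∀ x ∈ U, ofSubtype (g.subtypePerm (hU' g hg)) x = g x := fun x hx =>
    ofSubtype_subtypePerm_of_mem (hU' g hg) hx
  have h2 : ∀ x, x ∉ U → ofSubtype (g.subtypePerm (hU' g hg)) x = x := fun x hx =>
    ofSubtype_subtypePerm_of_not_mem (hU' g hg) hx
  refine ⟨_, ?_, h1, h2⟩
  rw [← e]
  exact ⟨⟨g, hg, h1⟩, 1, one_mem _, h2⟩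

theorem sd_orb_eq_of_card (P : Sylow 2 (Perm α)) {x y : α}
    (hc : (orbFin (P : Subgroup (Perm α)) x).card = (orbFin (P : Subgroup (Perm α)) y).card)
    (h2 : 2 ≤ (orbFin (P : Subgroup (Perm α)) y).card) : y ∈ orbFin (P : Subgroup (Perm α)) x := by
  by_contra hy
  set O1 := orbFin (P : Subgroup (Perm α)) x with hO1
  set O2 := orbFin (P : Subgroup (Perm α)) y with hO2
  have hdis : ∀ z, z ∈ O1 → z ∉ O2 := fun z h1 h2 => hy (by
    rw [hO1, ← orbFin_eq_of_mem h1, orbFin_eq_of_mem h2]; exact self_mem_orbFin _ _)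
  obtain ⟨σ, hσ, hσ'⟩ := exists_even_map (s := O1 ∪ O2) Finset.subset_union_left
    Finset.subset_union_right hc h2
  have hσ2 : ∀ z, σ z ∈ O1 ↔ z ∈ O2 := by
    intro z
    constructor
    · intro h
      by_contra h3
      by_cases h4 : z ∈ O1
      · exact hdis _ h ((hσ' z).2 h4)
      · rw [hσ.2 z (by simp [h3, h4])] at h
        exact h4 h
    · intro h
      have h3 := AltOn_apply_mem hσ (x := z) (by simp [h])
      simp only [Finset.coe_union, Set.mem_union, Finset.mem_coe] at h3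
      exact h3.resolve_right fun h4 => hdis _ ((hσ' z).1 h4) h
  have s1 : σ • O1 = O2 := by
    ext z
    rw [Finset.mem_smul_finset]
    exact ⟨by rintro ⟨w, hw, rfl⟩; exact (hσ' w).2 hw,
      fun h => ⟨σ⁻¹ z, (hσ' _).1 (by simpa using h), by simp⟩⟩
  have s2 : σ • O2 = O1 := by
    ext z
    rw [Finset.mem_smul_finset]
    exact ⟨by rintro ⟨w, hw, rfl⟩; exact (hσ2 w).2 hw,
      fun h => ⟨σ⁻¹ z, (hσ2 _).1 (by simpa using h), by simp⟩⟩
  have hne : O1 ≠ O2 := fun e => hy (by rw [e]; exact self_mem_orbFin _ _)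
  have hle : (P : Subgroup (Perm α)) ≤ MulAction.stabilizer (Perm α) (O1, O2) := by
    intro g hg
    have key : ∀ z, g • orbFin (P : Subgroup (Perm α)) z = orbFin (P : Subgroup (Perm α)) z := by
      intro z
      ext w
      rw [Finset.mem_smul_finset]
      exact ⟨by rintro ⟨v, hv, rfl⟩; exact apply_mem_orbFin hg hv,
        fun h => ⟨g⁻¹ w, apply_mem_orbFin (inv_mem hg) h, by simp⟩⟩
    exact Prod.ext (key x) (key y)
  have hodd : ¬ 2 ∣ (MulAction.stabilizer (Perm α) (O1, O2)).index := fun h =>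
    P.not_dvd_index (h.trans (index_dvd_of_le hle))
  rw [MulAction.index_stabilizer, ← Nat.card_coe_set_eq] at hodd
  have hsw : ∀ q ∈ MulAction.orbit (Perm α) (O1, O2), q.swap ∈ MulAction.orbit (Perm α) (O1, O2) := by
    rintro _ ⟨g, rfl⟩
    refine ⟨g * σ, ?_⟩
    simp only [mul_smul, Prod.smul_mk, s1, s2, Prod.swap_prod_mk]
  classical
  let τ : Perm (MulAction.orbit (Perm α) (O1, O2)) :=
    ⟨fun q => ⟨q.1.swap, hsw _ q.2⟩, fun q => ⟨q.1.swap, hsw _ q.2⟩, fun _ => rfl, fun _ => rfl⟩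
  have := Fintype.ofFinite (MulAction.orbit (Perm α) (O1, O2))
  rw [Nat.card_eq_fintype_card] at hodd
  obtain ⟨⟨q, g, rfl⟩, hq⟩ := exists_fixed_point_of_prime (p := 2) (n := 1) hodd (σ := τ) (by ext1 q; rfl)
  have h3 : g • O2 = g • O1 := congrArg (fun q : MulAction.orbit (Perm α) (O1, O2) => q.1.1) hq
  exact hne (smul_left_cancel g h3).symm

theorem sd_dvd_card (P : Subgroup (Perm α)) (d : ℕ) (X : Finset α) :
    (∀ g ∈ P, ∀ x ∈ X, g x ∈ X) → (∀ x ∈ X, d ∣ (orbFin P x).card) → d ∣ X.card := by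
  induction X using Finset.strongInduction with
  | H X ih =>
  intro hX hd
  rcases X.eq_empty_or_nonempty with rfl | ⟨x, hx⟩
  · simp
  have hsub := orbFin_subset hX hx
  have h1 := ih (X \ orbFin P x) (Finset.sdiff_ssubset hsub ⟨x, self_mem_orbFin _ _⟩)
    (sdiff_orb_invariant hX x) (fun y hy => hd y (Finset.mem_sdiff.1 hy).1)
  rw [← Finset.card_sdiff_add_card_eq_card hsub]
  exact dvd_add h1 (hd x hx)

/-- same pair -/
def PR (t : Perm α) (x y : α) : Prop := y = x ∨ y = t x

section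
variable {P : Subgroup (Perm α)} {t : Perm α}

omit [Fintype α] in
theorem PR.symm (h : Match P t) {x y : α} (e : PR t x y) : PR t y x := by
  rcases e with rfl | rfl
  · exact Or.inl rfl
  · exact Or.inr (h.sq x).symm

omit [Fintype α] in
theorem PR.trans (h : Match P t) {x y z : α} (e : PR t x y) (e' : PR t y z) : PR t x z := by
  rcases e with rfl | rfl
  · exact e'
  · rcases e' with rfl | rfl
    · exact Or.inr rfl
    · exact Or.inl (h.sq x)

omit [Fintype α] in
theorem PR.map (h : Match P t) {g : Perm α} (hg : g ∈ P) {x y : α} (e : PR t x y) : PR t (g x) (g y) := by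
  rcases e with rfl | rfl
  · exact Or.inl rfl
  · exact Or.inr (h.comm g hg x)

omit [Fintype α] in
theorem PR.swap_eq (h : Match P t) {x y : α} (e : PR t x y) : swap y (t y) = swap x (t x) := by
  rcases e with rfl | rfl
  · rfl
  · rw [h.sq, swap_comm]

omit [Fintype α] in
theorem PR.swap_apply (h : Match P t) {x y : α} (e : PR t x y) : swap x (t x) y = t y := by
  rw [← e.swap_eq h, swap_apply_left]

omit [Fintype α] in
theorem swap_apply_of_not_PR {x y : α} (e : ¬ PR t x y) : swap x (t x) y = y :=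
  swap_apply_of_ne_of_ne (fun h => e (Or.inl h)) (fun h => e (Or.inr h))

omit [Fintype α] in
theorem PR.t_right (h : Match P t) {x y : α} : PR t x (t y) ↔ PR t x y :=
  ⟨fun e => e.trans h (Or.inr (h.sq y).symm), fun e => e.trans h (Or.inr rfl)⟩

theorem PR.mem_orb (h : Match P t) {x y : α} (e : PR t x y) : y ∈ orbFin P x := by
  rcases e with rfl | rfl
  · exact self_mem_orbFin _ _
  · exact h.t_mem_orbFin x

omit [Fintype α] in
theorem sd_moved (h : Match P t) {g : Perm α} (hg : g ∈ P) {x : α} (hx : t x ≠ x) : t (g x) ≠ g x := by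
  rw [← h.comm g hg]; exact fun e => hx (g.injective e)

omit [Fintype α] in
theorem sd_conj (h : Match P t) {g : Perm α} (hg : g ∈ P) (x : α) :
    g * swap x (t x) * g⁻¹ = swap (g x) (t (g x)) := by
  rw [← swap_apply_apply, h.comm g hg]

theorem sd_mem_of_four (h : Match P t) (K : Subgroup (Perm α))
    (hK : ∀ x y, t x ≠ x → y ∈ orbFin P x → swap x (t x) * swap y (t y) ∈ K) (n : ℕ) :
    ∀ g : Perm α, g.support.card = n → (∀ x, PR t x (g x)) →
      (∀ x, 4 ∣ ((orbFin P x).filter fun y => g y ≠ y).card) → g ∈ K := by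
  induction n using Nat.strong_induction_on with
  | _ n ih =>
  intro g hn hg h4
  by_cases h1 : g = 1
  · rw [h1]; exact one_mem _
  obtain ⟨x, hx⟩ : ∃ x, g x ≠ x := by
    by_contra hc
    push Not at hc
    exact h1 (Equiv.ext hc)
  have hmv : ∀ z, g z ≠ z → g z = t z ∧ t z ≠ z ∧ g (t z) ≠ t z := by
    intro z hz
    have e := (hg z).resolve_left hz
    refine ⟨e, e ▸ hz, fun e2 => hz ?_⟩
    rw [e, g.injective (e2.trans e.symm)]
  have hmv' : ∀ z w, g z ≠ z → PR t z w → g w ≠ w := by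
    rintro z w hz (rfl | rfl)
    exacts [hz, (hmv z hz).2.2]
  obtain ⟨y, hy, hy'⟩ : ∃ y ∈ (orbFin P x).filter fun y => g y ≠ y, y ∉ ({x, t x} : Finset α) := by
    by_contra hc
    push Not at hc
    have h2 := Finset.card_le_card (show ((orbFin P x).filter fun y => g y ≠ y) ⊆ {x, t x} from hc)
    have h3 : ({x, t x} : Finset α).card ≤ 2 := Finset.card_le_two
    have h5 := Nat.le_of_dvd (Finset.card_pos.2 ⟨x, by simp [hx, self_mem_orbFin]⟩) (h4 x)
    omega
  obtain ⟨hy1, hy2⟩ := Finset.mem_filter.1 hy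
  have hxy : ¬ PR t x y := by simpa [PR] using hy'
  set g' := swap x (t x) * swap y (t y) * g with hg'
  have e1 : ∀ z, PR t x z ∨ PR t y z → g' z = z := by
    rintro z (hz | hz)
    · rw [hg', Perm.mul_apply, Perm.mul_apply, (hmv z (hmv' x z hx hz)).1,
        swap_apply_of_not_PR (fun e => hxy (hz.trans h (((PR.t_right h).1 e).symm h))),
        ((PR.t_right h).2 hz).swap_apply h, h.sq]
    · rw [hg', Perm.mul_apply, Perm.mul_apply, (hmv z (hmv' y z hy2 hz)).1,
        ((PR.t_right h).2 hz).swap_apply h, h.sq,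
        swap_apply_of_not_PR (fun e => hxy (e.trans h (hz.symm h)))]
  have e2 : ∀ z, ¬ (PR t x z ∨ PR t y z) → g' z = g z := by
    intro z hz
    push Not at hz
    rw [hg', Perm.mul_apply, Perm.mul_apply,
      swap_apply_of_not_PR (fun e => hz.2 (e.trans h ((hg z).symm h))),
      swap_apply_of_not_PR (fun e => hz.1 (e.trans h ((hg z).symm h)))]
  have hS : ({x, t x, y, t y} : Finset α).card = 4 := by
    have a1 := (hmv x hx).2.1
    have a2 := (hmv y hy2).2.1
    have a3 : ¬ PR t x (t y) := fun e => hxy ((PR.t_right h).1 e)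
    simp only [PR, not_or] at hxy a3
    rw [Finset.card_eq_four]
    exact ⟨x, t x, y, t y, a1.symm, Ne.symm hxy.1, Ne.symm a3.1, Ne.symm hxy.2, Ne.symm a3.2, a2.symm, rfl⟩
  have hmem : ∀ z, z ∈ ({x, t x, y, t y} : Finset α) ↔ PR t x z ∨ PR t y z := by
    intro z; simp [PR, or_assoc]
  have hg'K : g' ∈ K := by
    refine ih g'.support.card ?_ g' rfl (fun z => ?_) (fun z => ?_)
    · rw [← hn]
      apply Finset.card_lt_card
      refine ⟨fun z hz => ?_, fun hc => ?_⟩
      · rw [mem_support] at hz ⊢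
        rwa [← e2 z (fun e => hz (e1 z e))]
      · exact mem_support.1 (hc (mem_support.2 hx)) (e1 x (Or.inl (Or.inl rfl)))
    · by_cases hz : PR t x z ∨ PR t y z
      · exact Or.inl (e1 z hz)
      · rw [e2 z hz]; exact hg z
    · have : ((orbFin P z).filter fun y => g' y ≠ y) =
          ((orbFin P z).filter fun y => g y ≠ y) \ {x, t x, y, t y} := by
        ext w
        simp only [Finset.mem_filter, Finset.mem_sdiff, hmem]
        by_cases hw : PR t x w ∨ PR t y w
        · simp [hw, e1 w hw]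
        · simp [hw, e2 w hw]
      rw [this]
      by_cases hz : x ∈ orbFin P z
      · rw [Finset.card_sdiff_of_subset, hS]
        · exact Nat.dvd_sub (h4 z) dvd_rfl
        · intro w hw
          rw [hmem] at hw
          rw [Finset.mem_filter, ← orbFin_eq_of_mem hz]
          rcases hw with hw | hw
          · exact ⟨hw.mem_orb h, hmv' x w hx hw⟩
          · exact ⟨orbFin_eq_of_mem hy1 ▸ hw.mem_orb h, hmv' y w hy2 hw⟩
      · rw [Finset.sdiff_eq_self_of_disjoint]
        · exact h4 z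
        · rw [Finset.disjoint_left]
          intro w hw hw2
          rw [hmem] at hw2
          apply hz
          rw [← orbFin_eq_of_mem (Finset.mem_filter.1 hw).1]
          rcases hw2 with hw2 | hw2
          · exact (hw2.symm h).mem_orb h
          · rw [orbFin_eq_of_mem (hw2.mem_orb h), orbFin_eq_of_mem hy1]; exact self_mem_orbFin _ _
  have : g = (swap x (t x) * swap y (t y))⁻¹ * g' := by rw [hg']; group
  rw [this]
  exact mul_mem (inv_mem (hK x y (hmv x hx).2.1 hy1)) hg'K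

/-- an element acting on each orbit as `1` or `t` -/
theorem sd_mem_of_orb (h : Match P t) (h4 : ∀ x, t x ≠ x → 4 ∣ (orbFin P x).card) (K : Subgroup (Perm α))
    (hK : ∀ x y, t x ≠ x → y ∈ orbFin P x → swap x (t x) * swap y (t y) ∈ K) {g : Perm α}
    (hg : ∀ x, (∀ y ∈ orbFin P x, g y = y) ∨ ∀ y ∈ orbFin P x, g y = t y) : g ∈ K := by
  refine sd_mem_of_four h K hK _ g rfl (fun x => ?_) (fun x => ?_)
  · exact (hg x).imp (fun e => e x (self_mem_orbFin _ _)) (fun e => e x (self_mem_orbFin _ _))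
  · by_cases hx : t x = x
    · rw [Finset.filter_eq_empty_iff.2]
      · simp
      · intro y hy
        obtain ⟨k, hk, rfl⟩ := mem_orbFin.1 hy
        rw [h.apply_fixed hx hk]
        rcases hg x with e | e <;> simp [e x (self_mem_orbFin _ _), hx]
    · rcases hg x with e | e
      · rw [Finset.filter_eq_empty_iff.2]
        · simp
        · intro y hy; simp [e y hy]
      · rw [Finset.filter_true_of_mem]
        · exact h4 x hx
        · intro y hy
          rw [e y hy]
          obtain ⟨k, hk, rfl⟩ := mem_orbFin.1 hy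
          exact sd_moved h hk hx

end

end Cfsg.Agent.H4
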