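import Cfsg.Agent.H4.SD1

/-! Direct decompositions of Sylow 2-subgroups of alternating groups, II. -/

set_option autoImplicit false

namespace Cfsg.Agent.H4

open Equiv Equiv.Perm Subgroup H3

variable {α : Type*} [DecidableEq α] [Fintype α]

structure Dcp (P S1 S2 : Subgroup (Perm α)) : Prop where
  m1 : ∀ a ∈ S1, a ∈ P ∧ sign a = 1
  m2 : ∀ a ∈ S2, a ∈ P ∧ sign a = 1
  cm : ∀ a ∈ S1, ∀ b ∈ S2, a * b = b * a
  dj : ∀ a ∈ S1, a ∈ S2 → a = 1
  gen : ∀ g ∈ P, sign g = 1 → ∃ a ∈ S1, ∃ b ∈ S2, g = a * b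
  n1 : S1 ≠ ⊥
  n2 : S2 ≠ ⊥

section
variable {P S1 S2 : Subgroup (Perm α)} {t : Perm α}

theorem Dcp.symm (D : Dcp P S1 S2) : Dcp P S2 S1 where
  m1 := D.m2
  m2 := D.m1
  cm := fun a ha b hb => (D.cm b hb a ha).symm
  dj := fun a ha hb => D.dj a hb ha
  gen := fun g hg hs => by
    obtain ⟨a, ha, b, hb, e⟩ := D.gen g hg hs
    exact ⟨b, hb, a, ha, e.trans (D.cm a ha b hb)⟩
  n1 := D.n2
  n2 := D.n1

theorem Dcp.cm' (D : Dcp P S1 S2) {a b : Perm α} (ha : a ∈ S1) (hb : b ∈ S2) (x : α) : a (b x) = b (a x) :=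
  congrArg (fun g : Perm α => g x) (D.cm a ha b hb)

theorem Dcp.exists_central (D : Dcp P S1 S2) (hP : IsPGroup 2 P) :
    ∃ z ∈ S1, z ≠ 1 ∧ ∀ g ∈ P, sign g = 1 → ∀ x, z (g x) = g (z x) := by
  have h1 : IsPGroup 2 S1 := hP.to_le fun a ha => (D.m1 a ha).1
  have : Nontrivial S1 := (nontrivial_iff_ne_bot S1).2 D.n1
  have := h1.center_nontrivial
  obtain ⟨⟨⟨z, hz⟩, hz'⟩, hne⟩ := exists_ne (1 : center S1)
  refine ⟨z, hz, fun e => hne (Subtype.ext (Subtype.ext e)), fun g hg hs x => ?_⟩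
  obtain ⟨a, ha, b, hb, rfl⟩ := D.gen g hg hs
  have h2 : a * z = z * a := congrArg Subtype.val (mem_center_iff.1 hz' ⟨a, ha⟩)
  rw [Perm.mul_apply, Perm.mul_apply, ← D.cm' hz hb, ← Perm.mul_apply z a, ← h2, Perm.mul_apply]

theorem sd_central_PR (h : Match P t) (hn : 6 ≤ Fintype.card α) {z : Perm α} (hz : z ∈ P)
    (hc : ∀ g ∈ P, sign g = 1 → ∀ x, z (g x) = g (z x)) (x : α) : PR t x (z x) := by
  by_cases hx : t x = x
  · exact Or.inl (h.apply_fixed hx hz)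
  by_contra hc'
  obtain ⟨y, hy, hy'⟩ := h.exists_moved {x, t x, z x, t (z x)} (by
    have : ({x, t x, z x, t (z x)} : Finset α).card ≤ 4 := Finset.card_le_four
    omega)
  simp only [Finset.mem_insert, Finset.mem_singleton, not_or] at hy
  have a1 : ¬ PR t y x := fun e => (not_or.2 ⟨hy.1, hy.2.1⟩) (e.symm h)
  have a2 : ¬ PR t y (z x) := fun e => (not_or.2 hy.2.2) (e.symm h)
  obtain ⟨d1, d2⟩ := h.dbl_mem hx hy'
  have := hc _ d1 d2 x
  rw [Perm.mul_apply, Perm.mul_apply, swap_apply_of_not_PR a1, swap_apply_of_not_PR a2,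
    swap_apply_of_not_PR hc', swap_apply_left, h.comm z hz] at this
  exact sd_moved h hz hx this

theorem not_dcp_of_center (h : Match P t) (hP : IsPGroup 2 P) (hn : 6 ≤ Fintype.card α) (x0 x1 : α)
    (hcov : ∀ y, t y ≠ y → y ∈ orbFin P x1 ∨ PR t x0 y) : ¬ Dcp P S1 S2 := by
  intro D
  have key : ∀ g ∈ P, sign g = 1 → (∀ x, PR t x (g x)) → (∀ y ∈ orbFin P x1, g y = y) → g = 1 := by
    intro g hg hs h1 h2
    have h3 : ∀ y, ¬ PR t x0 y → g y = y := by
      intro y hy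
      by_cases hy' : t y = y
      · exact h.apply_fixed hy' hg
      · exact h2 y ((hcov y hy').resolve_right hy)
    by_cases h0 : g x0 = x0
    · ext y
      by_cases hy : PR t x0 y
      · rcases hy with rfl | rfl
        · exact h0
        · rw [h.comm g hg, h0]; rfl
      · exact h3 y hy
    · exfalso
      have h4 := (h1 x0).resolve_left h0
      have : g = swap x0 (t x0) := by
        ext y
        by_cases hy : PR t x0 y
        · rw [hy.swap_apply h]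
          rcases hy with rfl | rfl
          · exact h4
          · rw [h.comm g hg, h4]
        · rw [h3 y hy, swap_apply_of_not_PR hy]
      rw [this, sign_swap (fun e => h0 (h4.trans e.symm))] at hs
      exact absurd hs (by decide)
  have key2 : ∀ z ∈ P, sign z = 1 → z ≠ 1 → (∀ g ∈ P, sign g = 1 → ∀ x, z (g x) = g (z x)) →
      ∀ y ∈ orbFin P x1, z y = t y := by
    intro z hz hs h1 hc
    have h2 := sd_central_PR h hn hz hc
    have h3 : ∀ y ∈ orbFin P x1, ∃ g ∈ P, sign g = 1 ∧ g x1 = y := fun y hy =>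
      h.even_of_exists (by omega) (mem_orbFin.1 hy)
    rcases h2 x1 with e | e
    · refine absurd (key z hz hs h2 fun y hy => ?_) h1
      obtain ⟨g, hg, hg', rfl⟩ := h3 y hy
      rw [hc g hg hg', e]
    · intro y hy
      obtain ⟨g, hg, hg', rfl⟩ := h3 y hy
      rw [hc g hg hg', e, h.comm g hg]
  obtain ⟨z1, a1, b1, c1⟩ := D.exists_central hP
  obtain ⟨z2, a2, b2, c2⟩ := D.symm.exists_central hP
  obtain ⟨p1, s1⟩ := D.m1 z1 a1
  obtain ⟨p2, s2⟩ := D.m2 z2 a2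
  have k1 := key2 z1 p1 s1 b1 c1
  have k2 := key2 z2 p2 s2 b2 c2
  have : z1⁻¹ * z2 = 1 := by
    refine key _ (mul_mem (inv_mem p1) p2) (by simp [s1, s2]) (fun x => ?_) (fun y hy => ?_)
    · have e1 := sd_central_PR h hn p2 c2 x
      have e2 := sd_central_PR h hn p1 c1 (z1⁻¹ (z2 x))
      simp only [Perm.coe_inv, apply_symm_apply] at e2
      exact e1.trans h (e2.symm h)
    · rw [Perm.mul_apply, k2 y hy, ← k1 y hy]; simp
  rw [inv_mul_eq_one] at this
  exact b1 (D.dj z1 a1 (by rw [this]; exact a2))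

theorem Dcp.comm_mem (D : Dcp P S1 S2) {a d : Perm α} (ha : a ∈ S1) (hd : d ∈ P) (hs : sign d = 1) :
    a * d * a⁻¹ * d⁻¹ ∈ S1 := by
  obtain ⟨s1, h1, s2, h2, rfl⟩ := D.gen d hd hs
  have : a * (s1 * s2) * a⁻¹ * (s1 * s2)⁻¹ = a * s1 * a⁻¹ * s1⁻¹ := by
    rw [show a * (s1 * s2) * a⁻¹ * (s1 * s2)⁻¹ = a * s1 * (s2 * a⁻¹) * s2⁻¹ * s1⁻¹ by group,
      ← D.cm _ (inv_mem ha) _ h2]
    group
  rw [this]
  exact mul_mem (mul_mem (mul_mem ha h1) (inv_mem ha)) (inv_mem h1)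

theorem not_PR_of_orb (h : Match P t) {x z w : α} (hz : z ∉ orbFin P x) (hw : w ∈ orbFin P x) : ¬ PR t z w :=
  fun e => hz (by rw [← orbFin_eq_of_mem hw]; exact (e.symm h).mem_orb h)

theorem Dcp.key (D : Dcp P S1 S2) (h : Match P t) {x z : α} (hx : t x ≠ x) (hz : t z ≠ z)
    (hxz : z ∉ orbFin P x) {a b : Perm α} (ha : a ∈ S1) (hb : b ∈ S2) (h1 : ¬ PR t x (a x))
    (h2 : ¬ PR t x (b x)) : PR t (a x) (b x) := by
  obtain ⟨d1, d2⟩ := h.dbl_mem hx hz
  have hc := D.comm_mem ha d1 d2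
  have pa := (D.m1 a ha).1
  have pb := (D.m2 b hb).1
  have e : a * (swap x (t x) * swap z (t z)) * a⁻¹ * (swap x (t x) * swap z (t z))⁻¹ =
      swap (a x) (t (a x)) * swap (a z) (t (a z)) * swap z (t z) * swap x (t x) := by
    rw [← sd_conj h pa, ← sd_conj h pa]; simp [mul_assoc]
  rw [e] at hc
  have haz : a z ∉ orbFin P x := fun e => hxz ((apply_mem_orbFin_iff pa).1 e)
  have h3 := D.cm' hc hb x
  have m1 := h.t_mem_orbFin x
  have m2 : b x ∈ orbFin P x := apply_mem_orbFin pb (self_mem_orbFin _ _)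
  simp only [Perm.mul_apply, swap_apply_left] at h3
  rw [swap_apply_of_not_PR h2, swap_apply_of_not_PR (not_PR_of_orb h hxz m2),
    swap_apply_of_not_PR (not_PR_of_orb h haz m2), swap_apply_of_not_PR (not_PR_of_orb h hxz m1),
    swap_apply_of_not_PR (not_PR_of_orb h haz m1),
    swap_apply_of_not_PR (x := a x) (y := t x) (fun e => h1 (((PR.t_right h).1 e).symm h)),
    h.comm b pb] at h3
  by_contra h4
  rw [swap_apply_of_not_PR h4] at h3
  exact sd_moved h pb hx h3.symm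

theorem Dcp.dich (D : Dcp P S1 S2) (h : Match P t) {x z : α} (hx : t x ≠ x) (hz : t z ≠ z)
    (hxz : z ∉ orbFin P x) : (∀ a ∈ S1, PR t x (a x)) ∨ ∀ b ∈ S2, PR t x (b x) := by
  by_contra hc
  push Not at hc
  obtain ⟨⟨a, ha, h1⟩, b, hb, h2⟩ := hc
  have pa := (D.m1 a ha).1
  have pb := (D.m2 b hb).1
  obtain ⟨d1, d2⟩ := h.dbl_mem hx hz
  obtain ⟨s1, hs1, s2, hs2, e⟩ := D.gen _ d1 d2
  have p1 := (D.m1 s1 hs1).1
  have p2 := (D.m2 s2 hs2).1
  have hcomm : a (s1 x) = s1 (a x) := by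
    have k1 := D.key h hx hz hxz ha hb h1 h2
    have k1' := k1.symm h
    have c1 := D.cm' ha hb x
    have c2 := D.cm' hs1 hb x
    by_cases h3 : PR t x (s1 x)
    · rcases h3 with h3 | h3 <;> rcases k1' with k | k <;>
        simp only [k, h3, c2, h.comm _ pa, h.comm _ p1, h.comm _ pb, h.sq]
    · have k2 := (D.key h hx hz hxz hs1 hb h3 h2).symm h
      rcases k2 with h3 | h3 <;> rcases k1' with k | k <;>
        simp only [k, h3, c1, c2, h.comm _ pa, h.comm _ p1, h.comm _ pb, h.sq]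
  have hw : a ((swap x (t x) * swap z (t z)) (s2⁻¹ x)) = (swap x (t x) * swap z (t z)) (a (s2⁻¹ x)) := by
    rw [e, Perm.mul_apply, Perm.mul_apply, ← D.cm' ha hs2]
    simpa using hcomm
  have m1 : s2⁻¹ x ∈ orbFin P x := apply_mem_orbFin (inv_mem p2) (self_mem_orbFin _ _)
  have m2 := apply_mem_orbFin pa m1
  have hmv := sd_moved h (inv_mem p2) hx
  rw [Perm.mul_apply, Perm.mul_apply, swap_apply_of_not_PR (not_PR_of_orb h hxz m1),
    swap_apply_of_not_PR (not_PR_of_orb h hxz m2)] at hw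
  by_cases h3 : PR t x (s2⁻¹ x)
  · rw [h3.swap_apply h, swap_apply_of_not_PR (fun e => h1 (e.trans h ((h3.map h pa).symm h)))] at hw
    exact hmv (a.injective hw)
  · have k := D.key h hx hz hxz ha (inv_mem hs2) h1 h3
    have k2 : PR t x (a (a x)) := by
      by_contra h4
      have k3 := D.key h hx hz hxz (mul_mem ha ha) hb h4 h2
      have k4 := (D.key h hx hz hxz ha hb h1 h2).trans h (k3.symm h)
      have k5 := k4.map h (inv_mem pa)
      simp only [Perm.coe_inv, symm_apply_apply, Perm.mul_apply] at k5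
      exact h1 k5
    rw [swap_apply_of_not_PR h3, (k2.trans h (k.map h pa)).swap_apply h] at hw
    exact sd_moved h pa hmv hw.symm

theorem Dcp.orb (D : Dcp P S1 S2) (h : Match P t) (hn : 4 ≤ Fintype.card α) {x : α}
    (hx : ∀ b ∈ S2, PR t x (b x)) {b : Perm α} (hb : b ∈ S2) :
    (∀ y ∈ orbFin P x, b y = y) ∨ ∀ y ∈ orbFin P x, b y = t y := by
  have pb := (D.m2 b hb).1
  have h3 : ∀ y ∈ orbFin P x, ∃ a ∈ S1, PR t (a x) y := by
    intro y hy
    obtain ⟨g, hg, hs, rfl⟩ := h.even_of_exists hn (mem_orbFin.1 hy)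
    obtain ⟨a, ha, b', hb', rfl⟩ := D.gen g hg hs
    exact ⟨a, ha, (hx b' hb').map h (D.m1 a ha).1⟩
  refine (hx b hb).imp (fun e y hy => ?_) (fun e y hy => ?_)
  · obtain ⟨a, ha, rfl | rfl⟩ := h3 y hy
    · rw [← D.cm' ha hb, e]
    · rw [h.comm b pb, ← D.cm' ha hb, e]
  · obtain ⟨a, ha, rfl | rfl⟩ := h3 y hy
    · rw [← D.cm' ha hb, e, h.comm a (D.m1 a ha).1]
    · rw [h.comm b pb, ← D.cm' ha hb, e, h.comm a (D.m1 a ha).1]

end

section
variable {P : Sylow 2 (Perm α)} {S1 S2 : Subgroup (Perm α)} {t : Perm α}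

theorem Dcp.not_all (D : Dcp (P : Subgroup (Perm α)) S1 S2) (h : Match (P : Subgroup (Perm α)) t)
    (hn : 4 ≤ Fintype.card α) (h4 : ∀ x, t x ≠ x → 4 ∣ (orbFin (P : Subgroup (Perm α)) x).card)
    (h2 : ∀ x, t x ≠ x → ∃ z, t z ≠ z ∧ z ∉ orbFin (P : Subgroup (Perm α)) x) :
    ∃ x, t x ≠ x ∧ ¬ ∀ b ∈ S2, PR t x (b x) := by
  by_contra hc
  push Not at hc
  have hc' : ∀ x, ∀ b ∈ S2, PR t x (b x) := fun x b hb => by
    by_cases hx : t x = x
    · exact Or.inl (h.apply_fixed hx (D.m2 b hb).1)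
    · exact hc x hx b hb
  apply D.n2
  rw [eq_bot_iff_forall]
  intro b hb
  refine D.dj b (sd_mem_of_orb h h4 S1 (fun x y hx hy => ?_) fun x => D.orb h hn (hc' x) hb) hb
  obtain ⟨z, hz, hxz⟩ := h2 x hx
  obtain ⟨g, hg, rfl⟩ := mem_orbFin.1 hy
  obtain ⟨r, hr, r1, r2⟩ := sd_exists_res P _ (orb_invariant _ x) hg
  obtain ⟨g', hg', hs, e1, e2⟩ : ∃ g' ∈ (P : Subgroup (Perm α)), sign g' = 1 ∧ g' x = g x ∧ PR t z (g' z) := by
    rcases Int.units_eq_one_or (sign r) with s | s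
    · exact ⟨r, hr, s, r1 x (self_mem_orbFin _ _), Or.inl (r2 z hxz)⟩
    · refine ⟨r * swap z (t z), mul_mem hr (h.swap_mem z), by rw [map_mul, s, sign_swap hz.symm]; simp, ?_, ?_⟩
      · rw [Perm.mul_apply, swap_apply_of_not_PR (not_PR_of_orb h hxz (self_mem_orbFin _ _)),
          r1 x (self_mem_orbFin _ _)]
      · rw [Perm.mul_apply, swap_apply_left, h.comm r hr, r2 z hxz]; exact Or.inr rfl
  obtain ⟨a, ha, b', hb', rfl⟩ := D.gen g' hg' hs
  have pa := (D.m1 a ha).1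
  obtain ⟨d1, d2⟩ := h.dbl_mem hx hz
  have hc := D.comm_mem ha d1 d2
  have e : a * (swap x (t x) * swap z (t z)) * a⁻¹ * (swap x (t x) * swap z (t z))⁻¹ =
      swap (a x) (t (a x)) * swap (a z) (t (a z)) * swap z (t z) * swap x (t x) := by
    rw [← sd_conj h pa, ← sd_conj h pa]; simp [mul_assoc]
  have k1 : PR t (a x) (g x) := e1 ▸ (hc' x b' hb').map h pa
  have k2 : PR t z (a z) := e2.trans h (((hc' z b' hb').map h pa).symm h)
  rw [e, k2.swap_eq h, ← k1.swap_eq h, mul_assoc (swap _ _), swap_mul_self, mul_one] at hc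
  simpa using inv_mem hc

theorem not_dcp_of_orbits (h : Match (P : Subgroup (Perm α)) t)
    (hn : 4 ≤ Fintype.card α) (h4 : ∀ x, t x ≠ x → 4 ∣ (orbFin (P : Subgroup (Perm α)) x).card)
    (h2 : ∀ x, t x ≠ x → ∃ z, t z ≠ z ∧ z ∉ orbFin (P : Subgroup (Perm α)) x) :
    ¬ Dcp (P : Subgroup (Perm α)) S1 S2 := by
  classical
  intro D
  obtain ⟨y, hy, hy'⟩ := D.not_all h hn h4 h2
  obtain ⟨x, hx, hx'⟩ := D.symm.not_all h hn h4 h2
  have dich : ∀ w, (∀ a ∈ S1, PR t w (a w)) ∨ ∀ b ∈ S2, PR t w (b w) := fun w => by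
    by_cases hw : t w = w
    · exact Or.inl fun a ha => Or.inl (h.apply_fixed hw (D.m1 a ha).1)
    · obtain ⟨z, hz, hz'⟩ := h2 w hw
      exact D.dich h hw hz hz'
  let U : Finset α := Finset.univ.filter fun w => ∀ b ∈ S2, PR t w (b w)
  have hU : ∀ w, w ∈ U ↔ ∀ b ∈ S2, PR t w (b w) := fun w => by simp [U]
  have hUo : ∀ w ∈ U, ∀ v ∈ orbFin (P : Subgroup (Perm α)) w, v ∈ U := by
    intro w hw v hv
    rw [hU] at hw ⊢
    intro b hb
    exact (D.orb h hn hw hb).imp (fun e => e v hv) (fun e => e v hv)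
  have hUo' : ∀ w, w ∉ U → ∀ v ∈ orbFin (P : Subgroup (Perm α)) w, v ∉ U := fun w hw v hv e =>
    hw (hUo v e w (by rw [orbFin_eq_of_mem hv]; exact self_mem_orbFin _ _))
  have hUi : ∀ g ∈ (P : Subgroup (Perm α)), ∀ w ∈ U, g w ∈ U := fun g hg w hw =>
    hUo w hw _ (apply_mem_orbFin hg (self_mem_orbFin _ _))
  have hxU : x ∈ U := (hU x).2 ((dich x).resolve_left hx')
  have hyU : y ∉ U := fun e => hy' ((hU y).1 e)
  obtain ⟨d1, d2⟩ := h.dbl_mem hx hy
  obtain ⟨s1, hs1, s2, hs2, e⟩ := D.gen _ d1 d2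
  obtain ⟨p1, q1⟩ := D.m1 s1 hs1
  obtain ⟨p2, q2⟩ := D.m2 s2 hs2
  obtain ⟨r1, hr1, a1, b1⟩ := sd_exists_res P U hUi p1
  obtain ⟨r2, hr2, a2, b2⟩ := sd_exists_res P U hUi p2
  have hA : ∀ x y, t x ≠ x → y ∈ orbFin (P : Subgroup (Perm α)) x →
      swap x (t x) * swap y (t y) ∈ alternatingGroup α := by
    intro x y hx hy
    obtain ⟨k, hk, rfl⟩ := mem_orbFin.1 hy
    exact (h.dbl_mem hx (sd_moved h hk hx)).2
  have k2 : r2 ∈ alternatingGroup α := by
    refine sd_mem_of_orb h h4 _ hA fun w => ?_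
    by_cases hw : w ∈ U
    · exact (D.orb h hn ((hU w).1 hw) hs2).imp (fun e v hv => by rw [a2 v (hUo w hw v hv), e v hv])
        (fun e v hv => by rw [a2 v (hUo w hw v hv), e v hv])
    · exact Or.inl fun v hv => b2 v (hUo' w hw v hv)
  have k1 : r1⁻¹ * s1 ∈ alternatingGroup α := by
    refine sd_mem_of_orb h h4 _ hA fun w => ?_
    by_cases hw : w ∈ U
    · refine Or.inl fun v hv => ?_
      rw [Perm.mul_apply, ← a1 v (hUo w hw v hv)]; simp
    · have h3 : ∀ v ∈ orbFin (P : Subgroup (Perm α)) w, (r1⁻¹ * s1) v = s1 v := by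
        intro v hv
        rw [Perm.mul_apply, Perm.inv_eq_iff_eq, b1 _ (hUo' w hw _ (apply_mem_orbFin p1 hv))]
      exact (D.symm.orb h hn ((dich w).resolve_right fun e => hw ((hU w).2 e)) hs1).imp
        (fun e v hv => by rw [h3 v hv, e v hv]) (fun e v hv => by rw [h3 v hv, e v hv])
  have e2 : r1 * r2 = swap x (t x) := by
    ext w
    by_cases hw : w ∈ U
    · have := congrArg (fun g : Perm α => g w) e
      simp only [Perm.mul_apply] at this
      rw [Perm.mul_apply, a2 w hw, a1 _ (hUi _ p2 w hw), ← this,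
        swap_apply_of_not_PR (x := y) (fun e => hyU (hUo w hw y ((e.symm h).mem_orb h)))]
    · rw [Perm.mul_apply, b2 w hw, b1 w hw,
        swap_apply_of_not_PR (fun e => hw (hUo x hxU w (e.mem_orb h)))]
  rw [mem_alternatingGroup] at k1 k2
  have := congrArg sign e2
  rw [map_mul, sign_inv, q1, mul_one] at k1
  rw [map_mul, k1, k2, sign_swap hx.symm] at this
  exact absurd this (by decide)

end

end Cfsg.Agent.H4
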