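import Cfsg.Agent.H4.SD2

/-! Direct decompositions of Sylow 2-subgroups of alternating groups, III. -/

set_option autoImplicit false

namespace Cfsg.Agent.H4

open Equiv Equiv.Perm Subgroup H3

variable {α : Type*} [DecidableEq α] [Fintype α]
variable {P : Sylow 2 (Perm α)} {t : Perm α}

theorem sd_card_mv (h : Match (P : Subgroup (Perm α)) t) :
    ∃ f ≤ 1, Fintype.card α = (Finset.univ.filter fun x => t x ≠ x).card + f := by
  refine ⟨(Finset.univ.filter fun x => ¬ t x ≠ x).card, Finset.card_le_one.2 fun a ha b hb => ?_, ?_⟩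
  · simp only [Finset.mem_filter, not_not] at ha hb
    exact h.fix a b ha.2 hb.2
  · rw [Finset.card_filter_add_card_filter_not, Finset.card_univ]

theorem sd_mv_inv (h : Match (P : Subgroup (Perm α)) t) :
    ∀ g ∈ (P : Subgroup (Perm α)), ∀ x ∈ Finset.univ.filter fun x => t x ≠ x,
      g x ∈ Finset.univ.filter fun x => t x ≠ x := by
  intro g hg x hx
  simp only [Finset.mem_filter, Finset.mem_univ, true_and] at hx ⊢
  exact sd_moved h hg hx

theorem sd_orb_size (h : Match (P : Subgroup (Perm α)) t) {x : α} (hx : t x ≠ x) :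
    ∃ k, (orbFin (P : Subgroup (Perm α)) x).card = 2 ^ (k + 1) := by
  obtain ⟨k, hk⟩ := card_orbFin_pow P.isPGroup' x
  have : 1 < (orbFin (P : Subgroup (Perm α)) x).card :=
    Finset.one_lt_card.2 ⟨_, h.t_mem_orbFin x, _, self_mem_orbFin _ _, hx⟩
  rcases k with _ | k
  · omega
  · exact ⟨k, hk⟩

theorem sd_two_or_four (h : Match (P : Subgroup (Perm α)) t) {x : α} (hx : t x ≠ x) :
    (orbFin (P : Subgroup (Perm α)) x).card = 2 ∨ 4 ∣ (orbFin (P : Subgroup (Perm α)) x).card := by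
  obtain ⟨k, hk⟩ := sd_orb_size h hx
  rcases k with _ | k
  · exact Or.inl hk
  · exact Or.inr ⟨2 ^ k, by rw [hk]; ring⟩

theorem sd_PR_of_two (h : Match (P : Subgroup (Perm α)) t) {x y : α} (hx : t x ≠ x)
    (h2 : (orbFin (P : Subgroup (Perm α)) x).card = 2) (hy : y ∈ orbFin (P : Subgroup (Perm α)) x) :
    PR t x y := by
  have : ({x, t x} : Finset α) = orbFin (P : Subgroup (Perm α)) x := by
    apply Finset.eq_of_subset_of_card_le
    · intro w hw
      exact PR.mem_orb h (by simpa [PR] using hw)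
    · rw [h2, Finset.card_pair hx.symm]
  rw [← this] at hy
  simpa [PR] using hy

theorem sd_struct (h : Match (P : Subgroup (Perm α)) t) :
    ((Fintype.card α % 4 = 0 ∨ Fintype.card α % 4 = 1) ∧
      ∀ x, t x ≠ x → 4 ∣ (orbFin (P : Subgroup (Perm α)) x).card) ∨
    ((Fintype.card α % 4 = 2 ∨ Fintype.card α % 4 = 3) ∧ ∃ x0, t x0 ≠ x0 ∧
      (orbFin (P : Subgroup (Perm α)) x0).card = 2 ∧
      ((Finset.univ.filter fun x => t x ≠ x) \ orbFin (P : Subgroup (Perm α)) x0).card =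
        4 * (Fintype.card α / 4)) := by
  obtain ⟨f, hf, hn⟩ := sd_card_mv h
  by_cases h4 : ∀ x, t x ≠ x → 4 ∣ (orbFin (P : Subgroup (Perm α)) x).card
  · have := sd_dvd_card _ 4 _ (sd_mv_inv h) fun x hx => h4 x (by simpa using hx)
    exact Or.inl ⟨by omega, h4⟩
  · push Not at h4
    obtain ⟨x0, hx0, h4⟩ := h4
    have h2 := (sd_two_or_four h hx0).resolve_right h4
    have h3 := sd_dvd_card _ 4 _ (sdiff_orb_invariant (sd_mv_inv h) x0) fun x hx => by
      simp only [Finset.mem_sdiff, Finset.mem_filter, Finset.mem_univ, true_and] at hx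
      exact (sd_two_or_four h hx.1).resolve_left fun e =>
        hx.2 (sd_orb_eq_of_card P (h2.trans e.symm) e.ge)
    have h5 := Finset.card_sdiff_add_card_eq_card (orbFin_subset (sd_mv_inv h) (x := x0) (by simpa using hx0))
    exact Or.inr ⟨by omega, x0, hx0, h2, by omega⟩

theorem sd_single (h : Match (P : Subgroup (Perm α)) t) (M : Finset α)
    (hM : ∀ g ∈ (P : Subgroup (Perm α)), ∀ x ∈ M, g x ∈ M) (hmv : ∀ x ∈ M, t x ≠ x) {r : ℕ}
    (hr : M.card = 2 ^ r) : ∃ x1, ∀ y ∈ M, y ∈ orbFin (P : Subgroup (Perm α)) x1 := by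
  obtain ⟨x1, hx1, hmin⟩ := M.exists_min_image (fun x => (orbFin (P : Subgroup (Perm α)) x).card)
    (Finset.card_pos.1 (by rw [hr]; positivity))
  refine ⟨x1, ?_⟩
  by_contra hc
  push Not at hc
  obtain ⟨y, hy, hy'⟩ := hc
  obtain ⟨k, hk⟩ := sd_orb_size h (hmv x1 hx1)
  have h3 := sd_dvd_card _ (2 ^ (k + 2)) _ (sdiff_orb_invariant hM x1) fun x hx => by
    obtain ⟨a, b⟩ := Finset.mem_sdiff.1 hx
    obtain ⟨j, hj⟩ := sd_orb_size h (hmv x a)
    have h1 := hmin x a
    have h2 : j ≠ k := by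
      rintro rfl
      exact b (sd_orb_eq_of_card P (hk.trans hj.symm) (by rw [hj, pow_succ]; have := Nat.two_pow_pos j; omega))
    simp only [hk, hj] at h1
    have := (Nat.pow_le_pow_iff_right (by norm_num)).1 h1
    rw [hj]
    exact pow_dvd_pow _ (by omega)
  have h5 := Finset.card_sdiff_add_card_eq_card (orbFin_subset hM hx1)
  have h6 : 0 < (M \ orbFin (P : Subgroup (Perm α)) x1).card :=
    Finset.card_pos.2 ⟨y, Finset.mem_sdiff.2 ⟨hy, hy'⟩⟩
  rw [hk, hr] at h5
  have h7 : k + 1 < r := (Nat.pow_lt_pow_iff_right (a := 2) (by norm_num)).1 (by omega)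
  have h8 : 2 ^ (k + 2) ∣ 2 ^ r := pow_dvd_pow _ h7
  rw [← h5] at h8
  have := Nat.le_of_dvd (by positivity) ((Nat.dvd_add_right h3).1 h8)
  have := (Nat.pow_le_pow_iff_right (by norm_num)).1 this
  omega

theorem exists_dcp (h : Match (P : Subgroup (Perm α)) t) {x0 x1 x2 : α} (h0 : t x0 ≠ x0) (h1 : t x1 ≠ x1)
    (h2 : t x2 ≠ x2) (c0 : (orbFin (P : Subgroup (Perm α)) x0).card = 2)
    (h10 : x1 ∉ orbFin (P : Subgroup (Perm α)) x0) (h20 : x2 ∉ orbFin (P : Subgroup (Perm α)) x0)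
    (h21 : x2 ∉ orbFin (P : Subgroup (Perm α)) x1) : ∃ S1 S2, Dcp (P : Subgroup (Perm α)) S1 S2 := by
  set O1 := orbFin (P : Subgroup (Perm α)) x1 with hO1
  set O0 := orbFin (P : Subgroup (Perm α)) x0 with hO0
  have hdis : ∀ w, w ∈ O1 → w ∉ O0 := fun w a b => h10 (by
    rw [hO0, ← orbFin_eq_of_mem b, orbFin_eq_of_mem a]; exact self_mem_orbFin _ _)
  have hPR : ∀ w, w ∈ O0 ↔ PR t x0 w := fun w => ⟨sd_PR_of_two h h0 c0, fun e => e.mem_orb h⟩
  have hact : ∀ g ∈ (P : Subgroup (Perm α)), (∀ w ∈ O0, g w = w) ∨ ∀ w ∈ O0, g w = t w := by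
    intro g hg
    refine ((hPR _).1 (apply_mem_orbFin hg (self_mem_orbFin _ _))).imp (fun e w hw => ?_) (fun e w hw => ?_)
    · rcases (hPR w).1 hw with rfl | rfl
      · exact e
      · rw [h.comm g hg, e]
    · rcases (hPR w).1 hw with rfl | rfl
      · exact e
      · rw [h.comm g hg, e]
  have hsw : ∀ w, w ∉ O0 → swap x0 (t x0) w = w := fun w hw =>
    swap_apply_of_not_PR fun e => hw ((hPR w).2 e)
  refine ⟨P ⊓ alternatingGroup α ⊓ SymOn (O1 ∪ O0), P ⊓ alternatingGroup α ⊓ SymOn O1ᶜ,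
    fun a ha => ha.1, fun a ha => ha.1, fun a ha b hb => ?_, fun a ha hb => ?_, fun g hg hs => ?_, ?_, ?_⟩
  · ext w
    rw [Perm.mul_apply, Perm.mul_apply]
    by_cases w1 : w ∈ O1
    · rw [hb.2 w (by simpa using w1), hb.2 _ (by simpa using apply_mem_orbFin ha.1.1 w1)]
    · by_cases w0 : w ∈ O0
      · have w0' : t w ∈ O0 := (hPR _).2 ((PR.t_right h).2 ((hPR w).1 w0))
        rcases hact a ha.1.1 with e | e <;> rcases hact b hb.1.1 with e' | e' <;>
          simp only [e w w0, e' w w0, e _ w0', e' _ w0']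
      · rw [ha.2 w (by simp [w1, w0]), ha.2 (b w) (by
          simpa [hO1, hO0, apply_mem_orbFin_iff hb.1.1] using And.intro w1 w0)]
  · have h3 : ∀ w, w ∉ O0 → a w = w := fun w hw => by
      by_cases w1 : w ∈ O1
      · exact hb.2 w (by simpa using w1)
      · exact ha.2 w (by simp [w1, hw])
    rcases hact a ha.1.1 with e | e
    · ext w
      by_cases hw : w ∈ O0
      exacts [e w hw, h3 w hw]
    · have : a = swap x0 (t x0) := by
        ext w
        by_cases hw : w ∈ O0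
        · rw [e w hw, ((hPR w).1 hw).swap_apply h]
        · rw [h3 w hw, hsw w hw]
      have h4 := mem_alternatingGroup.1 ha.1.2
      rw [this, sign_swap h0.symm] at h4
      exact absurd h4 (by decide)
  · obtain ⟨r, hr, r1, r2⟩ := sd_exists_res P O1 (orb_invariant _ x1) hg
    obtain ⟨a, ha, hs', e1, e2⟩ : ∃ a ∈ (P : Subgroup (Perm α)), sign a = 1 ∧ (∀ w ∈ O1, a w = g w) ∧
        ∀ w, w ∉ O1 ∪ O0 → a w = w := by
      rcases Int.units_eq_one_or (sign r) with s | s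
      · exact ⟨r, hr, s, r1, fun w hw => r2 w fun e => hw (by simp [e])⟩
      · refine ⟨r * swap x0 (t x0), mul_mem hr (h.swap_mem _), by rw [map_mul, s, sign_swap h0.symm]; simp,
          fun w hw => ?_, fun w hw => ?_⟩
        · rw [Perm.mul_apply, hsw w (hdis w hw), r1 w hw]
        · simp only [Finset.mem_union, not_or] at hw
          rw [Perm.mul_apply, hsw w hw.2, r2 w hw.1]
    refine ⟨a, ⟨⟨ha, hs'⟩, e2⟩, a⁻¹ * g, ⟨⟨(P : Subgroup (Perm α)).mul_mem (inv_mem ha) hg, by simp [hs, hs']⟩, fun w hw => ?_⟩,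
      by group⟩
    rw [Perm.mul_apply, ← e1 w (by simpa using hw)]; simp
  · intro e
    have : swap x1 (t x1) * swap x0 (t x0) ∈ (P : Subgroup (Perm α)) ⊓ alternatingGroup α ⊓ SymOn (O1 ∪ O0) :=
      ⟨h.dbl_mem h1 h0, fun w hw => by
        simp only [Finset.mem_union, not_or] at hw
        rw [Perm.mul_apply, hsw w hw.2, swap_apply_of_not_PR fun e => hw.1 (e.mem_orb h)]⟩
    rw [e, mem_bot] at this
    have := congrArg (fun g : Perm α => g x1) this
    simp only [Perm.mul_apply, hsw x1 h10, swap_apply_left, Perm.one_apply] at this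
    exact h1 this
  · intro e
    have : swap x2 (t x2) * swap x0 (t x0) ∈ (P : Subgroup (Perm α)) ⊓ alternatingGroup α ⊓ SymOn O1ᶜ :=
      ⟨h.dbl_mem h2 h0, fun w hw => by
        simp only [Finset.mem_compl, not_not] at hw
        rw [Perm.mul_apply, hsw w (hdis w hw), swap_apply_of_not_PR (not_PR_of_orb h h21 hw)]⟩
    rw [e, mem_bot] at this
    have := congrArg (fun g : Perm α => g x2) this
    simp only [Perm.mul_apply, hsw x2 h20, swap_apply_left, Perm.one_apply] at this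
    exact h2 this

theorem dcp_iff (P : Sylow 2 (Perm α)) (hn : 6 ≤ Fintype.card α) :
    (∃ S1 S2, Dcp (P : Subgroup (Perm α)) S1 S2) ↔
      ((Fintype.card α % 4 = 2 ∨ Fintype.card α % 4 = 3) ∧ ∀ r : ℕ, 4 * (Fintype.card α / 4) ≠ 2 ^ r) := by
  obtain ⟨t, h⟩ := exists_match P
  rcases sd_struct h with ⟨a, h4⟩ | ⟨a, x0, h0, c0, cM⟩
  · refine iff_of_false ?_ (by omega)
    rintro ⟨S1, S2, D⟩
    by_cases h2 : ∀ x, t x ≠ x → ∃ z, t z ≠ z ∧ z ∉ orbFin (P : Subgroup (Perm α)) x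
    · exact not_dcp_of_orbits h (by omega) h4 h2 D
    · push Not at h2
      obtain ⟨x, -, hx⟩ := h2
      exact not_dcp_of_center h P.isPGroup' hn x x (fun y hy => Or.inl (hx y hy)) D
  · have hM := sdiff_orb_invariant (sd_mv_inv h) x0
    set M := (Finset.univ.filter fun x => t x ≠ x) \ orbFin (P : Subgroup (Perm α)) x0 with hMdef
    have hM' : ∀ x, x ∈ M ↔ t x ≠ x ∧ x ∉ orbFin (P : Subgroup (Perm α)) x0 := by simp [hMdef]
    constructor
    · rintro ⟨S1, S2, D⟩
      refine ⟨a, fun r hr => ?_⟩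
      obtain ⟨x1, hx1⟩ := sd_single h M hM (fun x hx => ((hM' x).1 hx).1) (cM.trans hr)
      refine not_dcp_of_center h P.isPGroup' hn x0 x1 (fun y hy => ?_) D
      by_cases e : y ∈ orbFin (P : Subgroup (Perm α)) x0
      · exact Or.inr (sd_PR_of_two h h0 c0 e)
      · exact Or.inl (hx1 y ((hM' y).2 ⟨hy, e⟩))
    · rintro ⟨-, hr⟩
      obtain ⟨x1, hx1⟩ : M.Nonempty := Finset.card_pos.1 (by omega)
      obtain ⟨x2, hx2, hx2'⟩ : ∃ x2 ∈ M, x2 ∉ orbFin (P : Subgroup (Perm α)) x1 := by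
        by_contra hc
        push Not at hc
        obtain ⟨k, hk⟩ := card_orbFin_pow P.isPGroup' x1
        have : M = orbFin (P : Subgroup (Perm α)) x1 := Finset.Subset.antisymm hc (orbFin_subset hM hx1)
        exact hr k (by rw [← cM, this, hk])
      exact exists_dcp h h0 ((hM' _).1 hx1).1 ((hM' _).1 hx2).1 c0 ((hM' _).1 hx1).2 ((hM' _).1 hx2).2 hx2'

theorem exists_split_of_four {G : Type*} [Group G] (Q : Subgroup G) (hc : Nat.card Q = 4)
    (h2 : ∀ g ∈ Q, g * g = 1) : ∃ S1 S2 : Subgroup G, S1 ≠ ⊥ ∧ S2 ≠ ⊥ ∧ S1 ≤ Q ∧ S2 ≤ Q ∧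
      (∀ a ∈ S1, ∀ b ∈ S2, a * b = b * a) ∧ S1 ⊓ S2 = ⊥ ∧ S1 ⊔ S2 = Q := by
  have : Finite Q := Nat.finite_of_card_ne_zero (by omega)
  have hcomm : ∀ a ∈ Q, ∀ b ∈ Q, a * b = b * a := fun a ha b hb => by
    have h1 := h2 _ (mul_mem ha hb)
    calc a * b = a * b * (b * b) * (a * a) := by rw [h2 a ha, h2 b hb]; simp
      _ = b * a := by
        rw [show a * b * (b * b) * (a * a) = a * b * b * (b * a) * a by group, ← mul_assoc,
          mul_assoc a b b, h2 b hb, mul_one, mul_assoc (a * b) a a, h2 a ha, mul_one,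
          eq_inv_of_mul_eq_one_left h1, mul_inv_rev, ← eq_inv_of_mul_eq_one_left (h2 a ha),
          ← eq_inv_of_mul_eq_one_left (h2 b hb)]
  have hz : ∀ a ∈ Q, a ≠ 1 → Nat.card (zpowers a) = 2 := fun a ha h1 => by
    rw [Nat.card_zpowers]
    exact orderOf_eq_prime (by rw [pow_two]; exact h2 a ha) h1
  have hQ : Q ≠ ⊥ := fun e => by rw [e] at hc; simp at hc
  obtain ⟨⟨a, ha⟩, ha1⟩ := ne_bot_iff_exists_ne_one.1 hQ
  have ha1' : a ≠ 1 := fun e => ha1 (Subtype.ext e)
  have hlt : zpowers a < Q := lt_of_le_of_ne (zpowers_le.2 ha) fun e => by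
    have := hz a ha ha1'
    rw [e] at this; omega
  obtain ⟨b, hb, hba⟩ := SetLike.exists_of_lt hlt
  have hb1 : b ≠ 1 := fun e => hba (e ▸ one_mem _)
  have hd : zpowers a ⊓ zpowers b = ⊥ := by
    have : Finite (zpowers b) := Nat.finite_of_card_ne_zero (by rw [hz b hb hb1]; omega)
    have h1 := card_dvd_of_le (inf_le_right : zpowers a ⊓ zpowers b ≤ _)
    rw [hz b hb hb1] at h1
    rcases (Nat.dvd_prime Nat.prime_two).1 h1 with e | e
    · exact card_eq_one.1 e
    · have := eq_of_le_of_card_ge (inf_le_right : zpowers a ⊓ zpowers b ≤ _) (by rw [e, hz b hb hb1])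
      exact absurd ((this.ge (mem_zpowers b)).1) hba
  refine ⟨zpowers a, zpowers b, by simpa using ha1', by simpa using hb1, hlt.le, zpowers_le.2 hb,
    fun x hx y hy => hcomm x (hlt.le hx) y (zpowers_le.2 hb hy), hd, ?_⟩
  have hle : zpowers a ⊔ zpowers b ≤ Q := sup_le hlt.le (zpowers_le.2 hb)
  have h1 := card_dvd_of_le hle
  have h3 := card_dvd_of_le (le_sup_left : zpowers a ≤ zpowers a ⊔ zpowers b)
  have : Finite (zpowers a ⊔ zpowers b : Subgroup G) := Finite.of_injective _ (inclusion_injective hle)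
  rw [hc] at h1
  rw [hz a ha ha1'] at h3
  apply eq_of_le_of_card_ge hle
  have h5 : Nat.card (zpowers a ⊔ zpowers b : Subgroup G) ≠ 2 := fun e => hba
    ((eq_of_le_of_card_ge (le_sup_left : zpowers a ≤ zpowers a ⊔ zpowers b) (by rw [e, hz a ha ha1'])).ge
      ((le_sup_right : zpowers b ≤ _) (mem_zpowers b)))
  have h6 := Nat.le_of_dvd (by norm_num) h1
  rw [hc]
  generalize Nat.card (zpowers a ⊔ zpowers b : Subgroup G) = m at *
  interval_cases m <;> omega

end Cfsg.Agent.H4
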