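import Cfsg.Agent.H7.TT0

/-! Two-transitive actions of the linear groups: orbit counting and arithmetic. -/

set_option autoImplicit false
set_option linter.unusedSectionVars false

namespace Cfsg.Agent.H4.TL

open MulAction Cfsg.Agent.H7

theorem card_of_orbits {H Y : Type*} [Group H] [MulAction H Y] [Finite Y] {r : ℕ}
    (h : ∀ y : Y, Nat.card (orbit H y) = r) : Nat.card Y = Nat.card (orbitRel.Quotient H Y) * r := by
  classical
  have := Fintype.ofFinite (orbitRel.Quotient H Y)
  rw [Nat.card_congr (selfEquivSigmaOrbits H Y), Nat.card_sigma]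
  simp [h]

variable {G Ω : Type*} [Group G] [MulAction G Ω] [Finite Ω]

theorem dvd_card_inv (T : Subgroup G) {r : ℕ} (h : ∀ ω : Ω, Nat.card (orbit T ω) = r) (S : Set Ω)
    (hS : ∀ t ∈ T, ∀ ω ∈ S, t • ω ∈ S) : r ∣ Nat.card S := by
  let S' : SubMulAction T Ω := ⟨S, fun t _ hx => hS t t.2 _ hx⟩
  have := card_of_orbits (H := T) (Y := S') (r := r) fun y => by
    rw [← h y, ← SubMulAction.val_image_orbit, Nat.card_image_of_injective Subtype.val_injective]
  exact Dvd.intro_left _ this.symm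

theorem card_orbit_conj {T T' : Subgroup G} (g : G) (h : ∀ t, t ∈ T ↔ g * t * g⁻¹ ∈ T') (ω : Ω) :
    Nat.card (orbit T ω) = Nat.card (orbit T' (g • ω)) := by
  refine Nat.card_congr ((toPerm g).subtypeEquiv fun x => ?_)
  constructor
  · rintro ⟨t, rfl⟩
    exact ⟨⟨_, (h t).1 t.2⟩, by simp [Subgroup.smul_def, mul_smul]⟩
  · rintro ⟨t, ht⟩
    refine ⟨⟨g⁻¹ * t * g, (h _).2 (by simp [mul_assoc])⟩, ?_⟩
    simp only [Subgroup.smul_def, toPerm_apply] at ht ⊢
    rw [mul_smul, mul_smul, ht, inv_smul_smul]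

theorem count_orb (hT : TT G Ω) {X : Type*} [Finite X] [MulAction G X] (T : X → Subgroup G)
    (hE : ∀ (g : G) x t, t ∈ T x → g * t * g⁻¹ ∈ T (g • x)) {r : ℕ} (hr : ∀ x (ω : Ω), Nat.card (orbit (T x) ω) = r) :
    ∃ l, l * (Nat.card Ω - 1) = Nat.card X * (r - 1) := by
  classical
  have := Fintype.ofFinite Ω
  have := Fintype.ofFinite X
  have := hT.nt
  obtain ⟨a, b, hab⟩ := exists_pair_ne Ω
  let R : X → Ω → Prop := fun x y => y ∈ orbit (T x) a
  have key : ∀ (g : G) x y, g • a = a → R x y → R (g • x) (g • y) := by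
    rintro g x y hg ⟨t, rfl⟩
    refine ⟨⟨_, hE g x t t.2⟩, ?_⟩
    simp only [Subgroup.smul_def, mul_smul]
    rw [show g⁻¹ • a = a by rw [inv_smul_eq_iff, hg]]
  refine ⟨(Finset.univ.bipartiteBelow R b).card, ?_⟩
  have := Finset.card_mul_eq_card_mul (s := Finset.univ) (t := Finset.univ.erase a) R (m := r - 1)
    (n := (Finset.univ.bipartiteBelow R b).card) (fun x _ => ?_) (fun y hy => ?_)
  · rw [Finset.card_erase_of_mem (Finset.mem_univ _), Finset.card_univ, Finset.card_univ] at this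
    rw [Nat.card_eq_fintype_card, Nat.card_eq_fintype_card, this, mul_comm]
  · rw [← hr x a, Nat.card_eq_fintype_card, Fintype.card_subtype,
      ← Finset.card_erase_of_mem (a := a) (by simp)]
    congr 1
    ext y
    simp [R, Finset.bipartiteAbove]
  · obtain ⟨g, h1, h2⟩ := hT.move a y a b (Finset.ne_of_mem_erase hy).symm hab
    refine Finset.card_bij' (fun x _ => g • x) (fun x _ => g⁻¹ • x) (fun x hx => ?_) (fun x hx => ?_)
      (fun _ _ => by simp) (fun _ _ => by simp)
    · simp only [Finset.mem_bipartiteBelow, Finset.mem_univ, true_and] at hx ⊢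
      exact h2 ▸ key g x y h1 hx
    · simp only [Finset.mem_bipartiteBelow, Finset.mem_univ, true_and] at hx ⊢
      have := key g⁻¹ x b (by rw [inv_smul_eq_iff, h1]) hx
      rwa [← h2, inv_smul_smul] at this

theorem fix_count (T : Subgroup G) [Finite T] (hc : ∀ t ∈ T, ∀ t' ∈ T, t ≠ 1 → t' ≠ 1 → ∃ g, g * t * g⁻¹ = t')
    (hcomm : ∀ t ∈ T, ∀ t' ∈ T, t * t' = t' * t) {r s b : ℕ} (hr : ∀ ω : Ω, Nat.card (orbit T ω) = r)
    (hs : Nat.card T = r * s) (hb : Nat.card Ω = b * r) (h1 : 1 < r) : r * s - 1 ∣ b * (s - 1) := by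
  classical
  have := Fintype.ofFinite T
  have h0 : 0 < r * s := hs ▸ Nat.card_pos
  have hs0 : 0 < s := Nat.pos_of_mul_pos_left h0
  have : Nontrivial T := Finite.one_lt_card_iff_nontrivial.1 (by rw [hs]; nlinarith)
  obtain ⟨t, ht⟩ := exists_ne (1 : T)
  have hB := burnside_nat (G := T) Ω
  have h2 := card_of_orbits hr
  rw [hb] at h2
  rw [← Nat.eq_of_mul_eq_mul_right (by omega) h2, ← Finset.add_sum_erase _ _ (Finset.mem_univ 1),
    Finset.sum_congr rfl (g := fun _ => Nat.card (fixedBy Ω (t : G)))] at hB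
  · obtain ⟨f, hf⟩ := dvd_card_inv T hr (fixedBy Ω (t : G)) fun u hu ω hω => by
      rw [mem_fixedBy] at hω ⊢
      rw [← mul_smul, hcomm _ t.2 _ hu, mul_smul, hω]
    rw [Finset.sum_const, Finset.card_erase_of_mem (Finset.mem_univ _), Finset.card_univ, ← Nat.card_eq_fintype_card,
      hs, hf, fixedBy_one_eq_univ, Nat.card_univ, hb, smul_eq_mul] at hB
    refine ⟨f, Nat.eq_of_mul_eq_mul_right (show 0 < r by omega) ?_⟩
    obtain ⟨s, rfl⟩ : ∃ k, s = k + 1 := ⟨s - 1, by omega⟩
    rw [Nat.add_sub_cancel]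
    nlinarith
  · intro u hu
    obtain ⟨g, hg⟩ := hc t t.2 u u.2 (by simpa using ht) (by simpa using Finset.ne_of_mem_erase hu)
    rw [← card_fixedBy_conj g, hg]
    rfl

/-- A group all of whose elements outside a small trivially acting set have the same number of fixed points. -/
theorem triv_of_fix {A Y : Type*} [Group A] [Finite A] [MulAction A Y] [Finite Y] (W : Set A)
    (hW : ∀ a ∈ W, ∀ y : Y, a • y = y) (h1 : W.Nonempty) (hc : W.ncard * Nat.card Y < Nat.card A)
    (hf : ∀ a ∉ W, ∀ a' ∉ W, Nat.card (fixedBy Y a) = Nat.card (fixedBy Y a')) (a : A) (y : Y) : a • y = y := by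
  classical
  by_cases ha : a ∈ W
  · exact hW a ha y
  have := Fintype.ofFinite A
  have hB := burnside_nat (G := A) Y
  rw [← Finset.sum_filter_add_sum_filter_not _ (· ∈ W), Finset.sum_congr rfl (g := fun _ => Nat.card Y),
    Finset.sum_congr (s₁ := Finset.univ.filter fun x => ¬ x ∈ W) rfl (g := fun _ => Nat.card (fixedBy Y a))] at hB
  · have h2 : W.ncard = (Finset.univ.filter (· ∈ W)).card := by
      rw [← Set.ncard_coe_finset]; congr 1; ext; simp
    have h3 := Finset.card_filter_add_card_filter_not (s := (Finset.univ : Finset A)) (· ∈ W)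
    rw [Finset.card_univ, ← Nat.card_eq_fintype_card, ← h2] at h3
    rw [Finset.sum_const, Finset.sum_const, ← h2, smul_eq_mul, smul_eq_mul] at hB
    have h4 : Nat.card (fixedBy Y a) ≤ Nat.card Y := Finite.card_subtype_le _
    have h5 : 0 < W.ncard := (Set.ncard_pos (Set.toFinite W)).2 h1
    have h6 : Nat.card Y ≤ Nat.card (fixedBy Y a) := by
      by_contra h7
      obtain ⟨c, hc'⟩ : ∃ c, Nat.card Y = Nat.card (fixedBy Y a) + (c + 1) :=
        ⟨Nat.card Y - Nat.card (fixedBy Y a) - 1, by omega⟩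
      have h8 : Nat.card A ∣ W.ncard * (c + 1) := by
        refine (Nat.dvd_add_right (Dvd.intro (Nat.card (fixedBy Y a)) rfl)).1 ?_
        refine Dvd.intro_left (Nat.card (orbitRel.Quotient A Y)) ?_
        rw [← hB, hc', ← h3]; ring
      have := Nat.le_of_dvd (by positivity) h8
      nlinarith
    have : fixedBy Y a = Set.univ := by
      refine Set.eq_of_subset_of_ncard_le (Set.subset_univ _) ?_
      rwa [Set.ncard_univ, ← Nat.card_coe_set_eq]
    have h1 : y ∈ fixedBy Y a := this ▸ Set.mem_univ y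
    exact h1
  · intro u hu
    exact hf u (Finset.mem_filter.1 hu).2 a ha
  · intro u hu
    rw [Set.eq_univ_of_forall (s := fixedBy Y u) (hW u (Finset.mem_filter.1 hu).2), Nat.card_univ]

/-- The action of a normalising subgroup on the orbits. -/
@[reducible] def blAct (T P : Subgroup G) (hP : ∀ g ∈ P, ∀ t ∈ T, g * t * g⁻¹ ∈ T) :
    MulAction P (orbitRel.Quotient T Ω) where
  smul u := Quotient.map' ((u : G) • ·) fun a b ⟨y, hy⟩ =>
    ⟨⟨_, hP u u.2 _ y.2⟩, by simp [← hy, Subgroup.smul_def, mul_smul]⟩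
  one_smul a := Quotient.inductionOn' a fun a => congrArg Quotient.mk'' (one_smul G a)
  mul_smul u v a := Quotient.inductionOn' a fun a => congrArg Quotient.mk'' (mul_smul (u : G) (v : G) a)

theorem blAct_mk (T P : Subgroup G) (hP : ∀ g ∈ P, ∀ t ∈ T, g * t * g⁻¹ ∈ T) (u : P) (ω : Ω) :
    letI := blAct (Ω := Ω) T P hP
    u • (Quotient.mk'' ω : orbitRel.Quotient T Ω) = Quotient.mk'' ω ↔ (u : G) • ω ∈ orbit T ω :=
  ⟨fun h => Quotient.exact' h, fun h => Quotient.sound' h⟩

theorem arith {q Q θ r s b l : ℤ} (hq : 2 ≤ q) (hθ : Q = 1 + (q - 1) * θ) (hQ : q * q ≤ Q) (hQ' : q ∣ Q)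
    (hrs : Q = r * s) (hr : 2 ≤ r) (hs : 1 ≤ s) (hb : 1 ≤ b) (hd : q ∣ r ∨ r ∣ q)
    (hl : l * (b * r - 1) = (1 + q * θ) * (r - 1)) (hv : 1 + q * θ < b * r) (hf : Q - 1 ∣ b * (s - 1)) :
    s = 1 ∧ b = q := by
  have hθ1 : q + 1 ≤ θ := by
    by_contra h
    nlinarith
  have hl0 : 0 < l := by
    by_contra h
    nlinarith [mul_pos (show 0 < 1 + q * θ by nlinarith) (show 0 < r - 1 by omega)]
  have hl1 : l ≤ r - 1 := by
    by_contra h
    nlinarith [mul_pos (show 0 < 1 + q * θ by nlinarith) (show 0 < r - 1 by omega)]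
  obtain ⟨u, hu⟩ : ∃ u, u = (l * (q - 1) + 1) * b - b - q * Q + q * s + 1 := ⟨_, rfl⟩
  have hx : u * r = l * (q - 1) + 1 := by
    rw [hu]
    linear_combination (q - 1) * hl - q * (r - 1) * hθ - q * hrs
  have hu0 : 0 < u := by
    by_contra h
    nlinarith
  have hu1 : u < q := by
    by_contra h
    nlinarith
  have hm : (u * r - 1) * b = q * s * (r - 1) + u - 1 := by
    rw [hx]
    linear_combination -hu + q * hrs
  obtain ⟨m, hm'⟩ : Q - 1 ∣ b * (r - 1) := by
    have : b * (r - 1) = (Q - 1) * b - r * (b * (s - 1)) := by rw [hrs]; ring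
    rw [this]
    exact dvd_sub (dvd_mul_right _ _) (hf.mul_left r)
  rcases hs.eq_or_lt with rfl | hs2
  · refine ⟨rfl, ?_⟩
    rw [mul_one] at hrs
    subst hrs
    have h1 : Q * (u * b - q) = b - q + u - 1 := by linear_combination hm
    have h2 : u * b - q = 0 := by
      rcases lt_trichotomy (u * b - q) 0 with h | h | h
      · nlinarith
      · exact h
      · nlinarith [mul_nonneg (show 0 ≤ u - 1 by omega) (show 0 ≤ b - 1 by omega)]
    rw [h2] at h1
    have h3 : (u - 1) * (b - 1) = 0 := by linear_combination h2 + h1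
    rcases mul_eq_zero.1 h3 with h | h <;> omega
  exfalso
  rcases hd with ⟨c, hc⟩ | ⟨c, hc⟩
  · have hm0 : 0 < m := (fun h1 h2 => (pos_iff_pos_of_mul_pos h1).1 (lt_of_le_of_ne h2 fun e => by rw [← e, zero_mul] at h1; exact lt_irrefl _ h1)) (hm' ▸ mul_pos (show 0 < b by omega) (show 0 < r - 1 by omega))
      (show 0 ≤ Q - 1 by nlinarith)
    obtain ⟨k, hk⟩ := hQ'
    have h1 : (u * r - 1) * (Q - 1) * m = (r - 1) * (q * s * (r - 1) + u - 1) := by
      rw [← hm]; linear_combination -(u * r - 1) * hm'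
    have h2 : q ∣ m + u - 1 := by
      refine ⟨s * (r - 1) ^ 2 + c * (u - 1) - (u * c * (Q - 1) - k) * m, ?_⟩
      linear_combination h1 + ((u - 1) - u * (Q - 1) * m) * hc + m * hk
    have h3 := Int.le_of_dvd (by omega) h2
    have h4 : q * s * (r - 1) + u - 1 < q * (Q - 1) := by nlinarith
    have h5 : 0 ≤ q * s * (r - 1) + u - 1 := by
      have := mul_pos (mul_pos (show 0 < q by omega) (show 0 < s by omega)) (show 0 < r - 1 by omega)
      omega
    have h6 : 0 < u * r - 1 := by nlinarith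
    have h7 : (u * r - 1) * (Q - 1) * (m * u) < (u * r - 1) * (Q - 1) * q := by
      calc _ = (u * (r - 1)) * (q * s * (r - 1) + u - 1) := by rw [← mul_assoc, h1]; ring
        _ ≤ (u * r - 1) * (q * s * (r - 1) + u - 1) := mul_le_mul_of_nonneg_right (by nlinarith) h5
        _ < (u * r - 1) * (q * (Q - 1)) := mul_lt_mul_of_pos_left h4 h6
        _ = _ := by ring
    have h8 := lt_of_mul_lt_mul_left h7 (mul_pos h6 (by nlinarith)).le
    nlinarith [mul_nonneg (show 0 ≤ u - 1 by omega) (show 0 ≤ q - u by omega)]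
  · have h1 : r ∣ l - 1 := ⟨l * b - 1 - q * θ + c * θ, by linear_combination -hl + θ * hc⟩
    have h2 : l = 1 := by
      by_contra h
      have := Int.le_of_dvd (by omega) h1
      omega
    subst h2
    have h3 : b = 1 + c * θ * (r - 1) := by
      refine mul_right_cancel₀ (show r ≠ 0 by omega) ?_
      linear_combination hl + θ * (r - 1) * hc
    have h4 : θ ∣ r - 1 := ⟨(q - 1) * m - c * (r - 1) ^ 2, by linear_combination hm' - (r - 1) * h3 + m * hθ⟩
    have := Int.le_of_dvd (by omega) h4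
    have := Int.le_of_dvd (by omega) (Dvd.intro _ hc.symm)
    omega

end Cfsg.Agent.H4.TL
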