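import Cfsg.Agent.H4.TL1

/-! Two-transitive actions of the linear groups: transvection groups. -/

set_option autoImplicit false
set_option linter.unusedSectionVars false

namespace Cfsg.Agent.H4.TL

open MulAction Cfsg.Agent.H7 Cfsg.Agent.H1 Module
open scoped LinearAlgebra.Projectivization

variable {F : Type*} [Field F] [Fintype F] {E : Type*} [AddCommGroup E] [Module F E] [FiniteDimensional F E]

/-- Transvections with a given centre. -/
def Tv (F : Type*) [Field F] {E : Type*} [AddCommGroup E] [Module F E] [FiniteDimensional F E] (v : E) :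
    Subgroup (SpecialLinearGroup F E) where
  carrier := {g | ∃ f : Dual F E, f v = 0 ∧ g = tv v f}
  mul_mem' := by
    rintro _ _ ⟨f, h, rfl⟩ ⟨f', h', rfl⟩
    exact ⟨f + f', by simp [h, h'], (tv_add_right h h').symm⟩
  one_mem' := ⟨0, rfl, (tv_zero_right v).symm⟩
  inv_mem' := by
    rintro _ ⟨f, h, rfl⟩
    exact ⟨-f, by simp [h], tv_inv h⟩

theorem tv_inv' {w : E} {f : Dual F E} (h : f w = 0) : (tv w f)⁻¹ = tv (-w) f := by
  rw [inv_eq_iff_mul_eq_one, ← tv_add_left h (by simp [h]), add_neg_cancel, tv_zero_left]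

/-- Transvections with a given axis. -/
def Ax (f : Dual F E) : Subgroup (SpecialLinearGroup F E) where
  carrier := {g | ∃ w : E, f w = 0 ∧ g = tv w f}
  mul_mem' := by
    rintro _ _ ⟨w, h, rfl⟩ ⟨w', h', rfl⟩
    exact ⟨w + w', by simp [h, h'], (tv_add_left h h').symm⟩
  one_mem' := ⟨0, map_zero _, (tv_zero_left f).symm⟩
  inv_mem' := by
    rintro _ ⟨w, h, rfl⟩
    exact ⟨-w, by simp [h], tv_inv' h⟩

theorem tv_inj_right {v : E} (hv : v ≠ 0) {f f' : Dual F E} (h : f v = 0) (h' : f' v = 0) (e : tv v f = tv v f') :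
    f = f' := by
  ext x
  have := congrArg (slAct · x) e
  simp only [tv_apply h, tv_apply h', add_right_inj] at this
  exact smul_left_injective F hv this

theorem tv_inj_left {f : Dual F E} (hf : f ≠ 0) {w w' : E} (h : f w = 0) (h' : f w' = 0) (e : tv w f = tv w' f) :
    w = w' := by
  obtain ⟨x, hx⟩ := DFunLike.ne_iff.1 hf
  have := congrArg (slAct · x) e
  simp only [tv_apply h, tv_apply h', add_right_inj] at this
  exact smul_right_injective E hx this

theorem card_sub (W : Submodule F E) : Nat.card W = Fintype.card F ^ finrank F W := by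
  rw [Module.natCard_eq_pow_finrank (K := F), Nat.card_eq_fintype_card]

theorem card_Tv {v : E} (hv : v ≠ 0) : Nat.card (Tv F v) = Fintype.card F ^ (finrank F E - 1) := by
  rw [← finrank_ann (F := F) hv, Nat.add_sub_cancel, ← card_sub]
  refine (Nat.card_eq_of_bijective (fun f : ann F v => (⟨tv v f.1, f.1, f.2, rfl⟩ : Tv F v)) ⟨fun f f' e => ?_, ?_⟩).symm
  · exact Subtype.ext (tv_inj_right hv f.2 f'.2 (congrArg Subtype.val e))
  · rintro ⟨_, f, h, rfl⟩
    exact ⟨⟨f, h⟩, rfl⟩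

theorem card_Ax {f : Dual F E} (hf : f ≠ 0) : Nat.card (Ax f) = Fintype.card F ^ (finrank F E - 1) := by
  rw [← finrank_ker_dual hf, Nat.add_sub_cancel, ← card_sub]
  refine (Nat.card_eq_of_bijective (fun w : LinearMap.ker f => (⟨tv w.1 f, w.1, w.2, rfl⟩ : Ax f))
    ⟨fun w w' e => ?_, ?_⟩).symm
  · exact Subtype.ext (tv_inj_left hf w.2 w'.2 (congrArg Subtype.val e))
  · rintro ⟨_, w, h, rfl⟩
    exact ⟨⟨w, h⟩, rfl⟩

theorem conj_tv (g : SpecialLinearGroup F E) {w : E} {f : Dual F E} (h : f w = 0) :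
    g * tv w f * g⁻¹ = tv (slAct g w) (slDual g f) := by
  rw [tv_conj g h, mul_inv_cancel_right]

theorem Tv_conj {g t : SpecialLinearGroup F E} {v w : E} {c : F} (h : slAct g v = c • w) (ht : t ∈ Tv F v) :
    g * t * g⁻¹ ∈ Tv F w := by
  obtain ⟨f, hf, rfl⟩ := ht
  by_cases hc : c = 0
  · have : v = 0 := by rw [← act_inv_apply slAct g v, h, hc, zero_smul, map_zero]
    rw [this, tv_zero_left, mul_one, mul_inv_cancel]
    exact one_mem _
  have h1 : slDual g f w = 0 := by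
    have := slDual_slAct g f v
    rw [h, map_smul, hf, smul_eq_mul] at this
    exact (mul_eq_zero.1 this).resolve_left hc
  rw [conj_tv g hf, h, tv_smul h1]
  exact ⟨_, by simp [h1], rfl⟩

theorem rep_smul (g : SpecialLinearGroup F E) (x : ℙ F E) : ∃ c : F, c ≠ 0 ∧ slAct g x.rep = c • (g • x).rep := by
  have h : Projectivization.mk F (g • x.rep) ((smul_ne_zero_iff_ne g).mpr x.rep_nonzero) =
      Projectivization.mk F (g • x).rep (g • x).rep_nonzero := by
    rw [← Projectivization.smul_mk g x.rep_nonzero, Projectivization.mk_rep, Projectivization.mk_rep]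
  obtain ⟨c, hc⟩ := (Projectivization.mk_eq_mk_iff F _ _ _ _).1 h
  exact ⟨c, c.ne_zero, hc.symm⟩

theorem Tv_comm {v : E} {t t' : SpecialLinearGroup F E} (h : t ∈ Tv F v) (h' : t' ∈ Tv F v) : t * t' = t' * t := by
  obtain ⟨f, hf, rfl⟩ := h
  obtain ⟨f', hf', rfl⟩ := h'
  rw [← tv_add_right hf hf', add_comm, tv_add_right hf' hf]

theorem exists_ann_two (h3 : 3 ≤ finrank F E) (v w : E) : ∃ f : Dual F E, f ≠ 0 ∧ f v = 0 ∧ f w = 0 := by
  obtain ⟨z, -, hz⟩ := exists_not_mem_of_finrank_lt (S := (F ∙ v) ⊔ F ∙ w) (T := ⊤) (by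
    have := finrank_sup_span_le (F ∙ v) w
    have := finrank_span_le (F := F) v
    rw [finrank_top]; omega)
  obtain ⟨f, h1, h2⟩ := sep_vec _ _ hz
  exact ⟨f, fun e => by simp [e] at h1, h2 _ (Submodule.mem_sup_left (Submodule.mem_span_singleton_self v)),
    h2 _ (Submodule.mem_sup_right (Submodule.mem_span_singleton_self w))⟩

variable {Ω : Type*} [Finite Ω] [MulAction (SpecialLinearGroup F E) Ω]

theorem card_orbit_free {G : Type*} [Group G] [MulAction G Ω] (T : Subgroup G) (ω : Ω)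
    (h : ∀ t ∈ T, t • ω = ω → t = 1) : Nat.card (orbit T ω) = Nat.card T := by
  refine (Nat.card_eq_of_bijective (fun t : T => (⟨t • ω, mem_orbit ω t⟩ : orbit T ω)) ⟨fun t t' e => ?_, ?_⟩).symm
  · have e' : (t : G) • ω = (t' : G) • ω := congrArg Subtype.val e
    have := h _ (mul_mem (inv_mem t'.2) t.2) (by rw [mul_smul, e', inv_smul_smul])
    exact Subtype.ext (inv_mul_eq_one.1 this).symm
  · rintro ⟨_, t, rfl⟩
    exact ⟨t, rfl⟩

/-- No transvection fixes a point. -/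
def Free (F E Ω : Type*) [Field F] [AddCommGroup E] [Module F E] [FiniteDimensional F E]
    [MulAction (SpecialLinearGroup F E) Ω] : Prop :=
  ∀ (w : E) (f : Dual F E) (ω : Ω), f w = 0 → tv w f • ω = ω → tv w f = 1

theorem card_of_blocks (h3 : 3 ≤ finrank F E) (hT : TT (SpecialLinearGroup F E) Ω) (hF : Free F E Ω)
    (h : ∀ v : E, v ≠ 0 → ∀ (w : E) (f : Dual F E), f v = 0 → f w = 0 → ∀ ω : Ω, tv w f • ω ∈ orbit (Tv F v) ω) :
    Nat.card Ω = Fintype.card F ^ (finrank F E - 1) := by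
  have c1 : ∀ v : E, v ≠ 0 → ∀ ω : Ω, Nat.card (orbit (Tv F v) ω) = Fintype.card F ^ (finrank F E - 1) :=
    fun v hv ω => by
    rw [card_orbit_free, card_Tv hv]
    rintro _ ⟨f, h1, rfl⟩
    exact hF _ _ _ h1
  have c2 : ∀ v : E, v ≠ 0 → ∀ f : Dual F E, f ≠ 0 → f v = 0 → ∀ ω : Ω, orbit (Ax f) ω = orbit (Tv F v) ω :=
    fun v hv f hf h1 ω => by
    refine Set.eq_of_subset_of_ncard_le ?_ ?_
    · rintro _ ⟨⟨_, w, h2, rfl⟩, rfl⟩
      exact h v hv w f h1 h2 ω
    · rw [← Nat.card_coe_set_eq, ← Nat.card_coe_set_eq, c1 v hv, card_orbit_free, card_Ax hf]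
      rintro _ ⟨w, h2, rfl⟩
      exact hF _ _ _ h2
  have : Nontrivial E := Module.nontrivial_of_finrank_pos (R := F) (by omega)
  obtain ⟨v, hv⟩ := exists_ne (0 : E)
  let H : Subgroup (SpecialLinearGroup F E) :=
    { carrier := {g | ∀ ω : Ω, g • ω ∈ orbit (Tv F v) ω}
      mul_mem' := fun {a b} ha hb ω => by
        rw [mul_smul]
        exact (orbit_eq_iff.2 (hb ω)) ▸ ha _
      one_mem' := fun ω => by simp
      inv_mem' := fun {a} ha ω => mem_orbit_symm.1 (by simpa using ha (a⁻¹ • ω)) }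
  have hH : H = ⊤ := eq_top_of_tv H fun w f h1 ω => by
    by_cases hw : w = 0
    · rw [hw, tv_zero_left, one_smul]; exact mem_orbit_self ω
    obtain ⟨g, h2, h4, h5⟩ := exists_ann_two h3 v w
    rw [← c2 v hv g h2 h4, c2 w hw g h2 h5]
    exact ⟨⟨_, f, h1, rfl⟩, rfl⟩
  have := hT.nt
  obtain ⟨ω⟩ : Nonempty Ω := inferInstance
  rw [← c1 v hv ω, Set.eq_univ_of_forall (s := orbit (Tv F v) ω) fun y => ?_, Nat.card_univ]
  obtain ⟨g, rfl⟩ := hT.trans ω y
  exact (hH ▸ Subgroup.mem_top g : g ∈ H) ω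

theorem stab_norm (v : E) : ∀ g ∈ actStab (slAct (F := F) (E := E)) v, ∀ t ∈ Tv F v, g * t * g⁻¹ ∈ Tv F v :=
  fun _ hg _ ht => Tv_conj (c := 1) (by rw [one_smul]; exact hg) ht

theorem tv_mem_stab {v w : E} {f : Dual F E} (h1 : f v = 0) (h2 : f w = 0) : tv w f ∈ actStab slAct v := by
  rw [mem_actStab, tv_apply h2, h1, zero_smul, add_zero]

theorem blocks_big (h4 : 4 ≤ finrank F E) {v : E} (hv : v ≠ 0)
    (hb : Nat.card (orbitRel.Quotient (Tv F v) Ω) = Fintype.card F) (w : E) (f : Dual F E) (h1 : f v = 0)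
    (h2 : f w = 0) (ω : Ω) : tv w f • ω ∈ orbit (Tv F v) ω := by
  by_cases hf : f = 0
  · rw [hf, tv_zero_right, one_smul]; exact mem_orbit_self ω
  let _ := blAct (Ω := Ω) (Tv F v) _ (stab_norm v)
  have : Finite E := Module.finite_of_finite F
  let φ : Multiplicative (LinearMap.ker f) →* actStab (slAct (F := F) (E := E)) v :=
    MonoidHom.mk' (fun u => ⟨tv u.toAdd.1 f, tv_mem_stab h1 u.toAdd.2⟩) fun u u' =>
      Subtype.ext (tv_add_left u.toAdd.2 u'.toAdd.2)
  let _ := MulAction.compHom (orbitRel.Quotient (Tv F v) Ω) φ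
  have hk := finrank_ker_dual hf
  have := triv_of_fix (A := Multiplicative (LinearMap.ker f)) (Y := orbitRel.Quotient (Tv F v) Ω)
    {u | u.toAdd.1 ∈ F ∙ v} (fun u hu y => ?_) ⟨1, (F ∙ v).zero_mem⟩ ?_ (fun u hu u' hu' => ?_)
    (Multiplicative.ofAdd ⟨w, h2⟩) (Quotient.mk'' ω)
  · exact (blAct_mk _ _ (stab_norm v) (φ _) ω).1 this
  · induction y using Quotient.inductionOn' with | h y =>
    obtain ⟨c, hc⟩ := Submodule.mem_span_singleton.1 hu
    refine (blAct_mk _ _ (stab_norm v) (φ u) y).2 ⟨⟨tv v (c • f), _, by simp [h1], rfl⟩, ?_⟩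
    change tv v (c • f) • y = tv u.toAdd.1 f • y
    rw [← hc, tv_smul h1]
  · have e1 : {u : Multiplicative (LinearMap.ker f) | u.toAdd.1 ∈ F ∙ v}.ncard ≤ Fintype.card F := by
      rw [← Nat.card_coe_set_eq, ← pow_one (Fintype.card F), ← finrank_span_singleton (K := F) hv, ← card_sub]
      exact Nat.card_le_card_of_injective (fun u => ⟨u.1.toAdd.1, u.2⟩) fun u u' e =>
        Subtype.ext (Multiplicative.toAdd.injective (Subtype.ext (Subtype.mk.inj e)))
    rw [hb, Nat.card_congr Multiplicative.toAdd, card_sub]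
    calc _ ≤ Fintype.card F ^ 2 := by rw [sq]; exact Nat.mul_le_mul_right _ e1
      _ < _ := Nat.pow_lt_pow_right Fintype.one_lt_card (by omega)
  · obtain ⟨g, hg, e⟩ := move_vec (actStab slAct v ⊓ actStab slDual f) (F ∙ v) (LinearMap.ker f)
      (fun a ha f' h5 h6 => ⟨tv_mem_stab (h6 v (Submodule.mem_span_singleton_self v)) h5, mem_actStab.2 (by
        rw [slDual_tv h5, LinearMap.mem_ker.1 ha, zero_smul, sub_zero])⟩)
      hu hu' (sub_mem u'.toAdd.2 u.toAdd.2) (by have := finrank_span_le (F := F) v; omega)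
    have : φ u' = ⟨g, hg.1⟩ * φ u * ⟨g, hg.1⟩⁻¹ := Subtype.ext (by
      change tv u'.toAdd.1 f = g * tv u.toAdd.1 f * g⁻¹
      rw [conj_tv g u.toAdd.2, e, mem_actStab.1 hg.2])
    change Nat.card (fixedBy _ (φ u)) = Nat.card (fixedBy _ (φ u'))
    rw [this, card_fixedBy_conj]

theorem pow_five {w w' : E} {f f' : Dual F E} (h1 : f w = 0) (h2 : f' w' = 0) (h3 : f w' = 1) (h4 : f' w = 1)
    {c : F} (hc : c ^ 2 + c + 1 = 0) (h0 : (2 : F) = 0) : (tv w (c • f) * tv w' f') ^ 5 = 1 := by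
  have h5 : (c • f) w = 0 := by simp [h1]
  refine sl_ext fun x => ?_
  simp only [pow_succ, pow_zero, one_mul, act_mul_apply, tv_apply h5, tv_apply h2, map_add, map_smul, h1, h2, h3, h4,
    LinearMap.smul_apply, smul_eq_mul, map_one, Module.End.one_apply]
  match_scalars <;> grind

theorem blocks_four (hq : Fintype.card F = 4) {v : E}
    (hb : Nat.card (orbitRel.Quotient (Tv F v) Ω) = Fintype.card F) (w : E) (f : Dual F E) (h1 : f v = 0)
    (h2 : f w = 0) (ω : Ω) : tv w f • ω ∈ orbit (Tv F v) ω := by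
  classical
  by_cases hf : f = 0
  · rw [hf, tv_zero_right, one_smul]; exact mem_orbit_self ω
  by_cases hw : w ∈ F ∙ v
  · obtain ⟨c, rfl⟩ := Submodule.mem_span_singleton.1 hw
    rw [tv_smul h1]
    exact ⟨⟨_, _, by simp [h1], rfl⟩, rfl⟩
  let _ := blAct (Ω := Ω) (Tv F v) _ (stab_norm v)
  obtain ⟨f', h3, h4⟩ := sep_vec _ _ hw
  replace h4 := h4 v (Submodule.mem_span_singleton_self v)
  obtain ⟨z, hz⟩ := DFunLike.ne_iff.1 hf
  replace hz : f z ≠ 0 := hz
  obtain ⟨w', h5, h6⟩ : ∃ w', f w' = 1 ∧ f' w' = 0 :=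
    ⟨(f z)⁻¹ • (z - f' z • w), by simp [h2, hz], by simp [h3]⟩
  have h0 : (2 : F) = 0 := by
    have := FiniteField.cast_card_eq_zero F
    rw [hq] at this
    exact pow_eq_zero_iff (two_ne_zero (α := ℕ)) |>.1 (by rw [← this]; norm_num)
  obtain ⟨c, hc⟩ : ∃ c : F, c ^ 2 + c + 1 = 0 := by
    obtain ⟨c, -, hc⟩ := Finset.exists_mem_notMem_of_card_lt_card (s := ({0, 1} : Finset F)) (t := Finset.univ)
      (by rw [Finset.card_univ, hq]; exact lt_of_le_of_lt Finset.card_le_two (by norm_num))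
    simp only [Finset.mem_insert, Finset.mem_singleton, not_or] at hc
    have := FiniteField.pow_card c
    rw [hq] at this
    exact ⟨c, mul_left_cancel₀ (mul_ne_zero hc.1 (sub_ne_zero.2 hc.2)) (by linear_combination this)⟩
  let φ := toPermHom (actStab (slAct (F := F) (E := E)) v) (orbitRel.Quotient (Tv F v) Ω)
  have key : ∀ (c : F) (hc : c ^ 2 + c + 1 = 0),
      φ ⟨tv w (c • f), tv_mem_stab (by simp [h1]) (by simp [h2])⟩ * φ ⟨tv w' f', tv_mem_stab h4 h6⟩ = 1 := by
    intro c hc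
    rw [← map_mul]
    have gen : ∀ a, a ^ 5 = 1 → φ a = 1 := fun a ha => by
      have e1 : φ a ^ 5 = 1 := by rw [← map_pow, ha, map_one]
      have e2 := pow_card_eq_one' (x := φ a)
      rw [Nat.card_perm, hb, hq, show Nat.factorial 4 = 24 from rfl] at e2
      simpa using pow_gcd_eq_one.2 ⟨e1, e2⟩
    exact gen _ (Subtype.ext (pow_five h2 h6 h5 h3 hc h0))
  have k1 := key c hc
  have k2 := key (c + 1) (by linear_combination hc + (c + 1) * h0)
  have k3 : φ ⟨tv w f, tv_mem_stab h1 h2⟩ = 1 := by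
    refine mul_left_cancel (a := φ ⟨tv w (c • f), tv_mem_stab (by simp [h1]) (by simp [h2])⟩) ?_
    rw [← map_mul, mul_one, eq_inv_of_mul_eq_one_left k1, ← eq_inv_of_mul_eq_one_left k2]
    refine congrArg φ (Subtype.ext ?_)
    change tv w (c • f) * tv w f = tv w ((c + 1) • f)
    rw [add_smul, one_smul, tv_add_right (by simp [h2]) h2]
  exact (blAct_mk _ _ (stab_norm v) ⟨tv w f, tv_mem_stab h1 h2⟩ ω).1 (DFunLike.congr_fun k3 (Quotient.mk'' ω))

end Cfsg.Agent.H4.TL
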