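import Cfsg.Agent.H4.TL2

/-! Two-transitive actions of the linear groups: homologies, and the groups of dimension at least three. -/

set_option autoImplicit false
set_option linter.unusedSectionVars false

namespace Cfsg.Agent.H4.TL

open MulAction Cfsg.Agent.H7 Cfsg.Agent.H1 Module
open scoped LinearAlgebra.Projectivization

variable {F : Type*} [Field F] [Fintype F] {E : Type*} [AddCommGroup E] [Module F E] [FiniteDimensional F E]

/-- Homologies. -/
def Hm (a b : F) (g : SpecialLinearGroup F E) (v : E) (e : Dual F E) : Prop :=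
  e v = 1 ∧ ∀ x, slAct g x = b • x + ((a - b) * e x) • v

section
variable {a b : F} {g g' : SpecialLinearGroup F E} {v : E} {e e' : Dual F E}

theorem exists_Hm (h3 : finrank F E = 3) (hab : a * b ^ 2 = 1) (h : e v = 1) : ∃ g, Hm a b g v e := by
  have hb : b ≠ 0 := by rintro rfl; simp at hab
  obtain ⟨g, hg⟩ := exists_SL_of_det (b • LinearMap.transvection (((a - b) / b) • e) v) (by
    rw [LinearMap.det_smul, LinearMap.transvection.det, h3, LinearMap.smul_apply, h, smul_eq_mul]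
    field_simp
    linear_combination hab)
  refine ⟨g, h, fun x => ?_⟩
  rw [hg, LinearMap.smul_apply, LinearMap.transvection.apply, LinearMap.smul_apply, smul_eq_mul]
  match_scalars <;> field_simp

theorem Hm.pow (h : Hm a b g v e) (k : ℕ) : Hm (a ^ k) (b ^ k) (g ^ k) v e := by
  refine ⟨h.1, fun x => ?_⟩
  induction k with
  | zero => simp
  | succ k ih =>
    rw [pow_succ' g, act_mul_apply, ih, h.2]
    simp only [map_add, map_smul, h.1, smul_eq_mul]
    module

theorem Hm.conj (h : Hm a b g v e) (k : SpecialLinearGroup F E) {w : E} {c : F} (hk : slAct k v = c • w) :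
    Hm a b (k * g * k⁻¹) w (c • slDual k e) := by
  refine ⟨by rw [LinearMap.smul_apply, ← map_smul, ← hk, slDual_slAct, h.1], fun x => ?_⟩
  rw [act_mul_apply, act_mul_apply, h.2, map_add, map_smul, map_smul, act_apply_inv, hk, LinearMap.smul_apply,
    slDual_apply, smul_eq_mul]
  module

theorem Hm.div (h : Hm a b g v e) (h' : Hm a b g' v e') (ha : a ≠ 0) :
    g' = g * tv v (((a - b) / a) • (e' - e)) := by
  refine sl_ext fun x => ?_
  rw [act_mul_apply, tv_apply (by simp [h.1, h'.1]), h.2, h'.2]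
  simp only [map_add, map_smul, h.1, smul_eq_mul, LinearMap.smul_apply, LinearMap.sub_apply]
  match_scalars
  · rfl
  · field_simp
    ring

end

theorem no_polarity (h3 : 3 ≤ finrank F E) (l : E → Dual F E) (h0 : l 0 = 0) (h1 : ∀ v, v ≠ 0 → l v v ≠ 0)
    (h2 : ∀ v w, l v w = 0 → l w v = 0) : False := by
  classical
  have : Finite E := Module.finite_of_finite F
  have := Fintype.ofFinite E
  let A : Matrix E E F := Matrix.of fun v w => if l v w = 0 then 1 else 0
  have hA : A ^ 2 = 0 := by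
    ext v w
    have e1 : ∀ z, A v z * A z w = if z ∈ LinearMap.ker (l v) ⊓ LinearMap.ker (l w) then 1 else 0 := fun z => by
      simp only [A, Matrix.of_apply, Submodule.mem_inf, LinearMap.mem_ker, show l z w = 0 ↔ l w z = 0 from ⟨h2 _ _, h2 _ _⟩]
      by_cases e : l v z = 0 <;> by_cases e' : l w z = 0 <;> simp [e, e']
    rw [sq, Matrix.mul_apply, Finset.sum_congr rfl fun z _ => e1 z, Finset.sum_boole, ← Fintype.card_subtype,
      ← Nat.card_eq_fintype_card, card_sub, Nat.cast_pow, FiniteField.cast_card_eq_zero, Matrix.zero_apply, zero_pow]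
    have hk : ∀ f : Dual F E, finrank F E ≤ finrank F (LinearMap.ker f) + 1 := fun f => by
      by_cases hf : f = 0
      · rw [hf, LinearMap.ker_zero, finrank_top]; omega
      · exact (finrank_ker_dual hf).ge
    have := Submodule.finrank_sup_add_finrank_inf_eq (LinearMap.ker (l v)) (LinearMap.ker (l w))
    have := Submodule.finrank_le (LinearMap.ker (l v) ⊔ LinearMap.ker (l w))
    have := hk (l v)
    have := hk (l w)
    omega
  have := (Matrix.isNilpotent_trace_of_isNilpotent ⟨2, hA⟩).eq_zero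
  rw [Matrix.trace, Finset.sum_eq_single 0 (fun v _ hv => by simp [A, h1 v hv]) (by simp)] at this
  simp [A, h0] at this

variable {Ω : Type*} [Finite Ω] [MulAction (SpecialLinearGroup F E) Ω]

theorem move_of_proj (hK : ∀ (ω : Ω) (x y : ℙ F E), ∃ g : SpecialLinearGroup F E, g • ω = ω ∧ g • x = y) (ω : Ω)
    {v w : E} (hv : v ≠ 0) (hw : w ≠ 0) : ∃ (g : SpecialLinearGroup F E) (c : F), g • ω = ω ∧ c ≠ 0 ∧ slAct g v = c • w := by
  obtain ⟨g, h1, h2⟩ := hK ω (Projectivization.mk F v hv) (Projectivization.mk F w hw)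
  rw [Projectivization.smul_mk] at h2
  obtain ⟨c, hc⟩ := (Projectivization.mk_eq_mk_iff F _ _ _ _).1 h2
  exact ⟨g, c, h1, c.ne_zero, hc.symm⟩

theorem no_homology (h3 : finrank F E = 3) (hF : Free F E Ω)
    (hK : ∀ (ω : Ω) (x y : ℙ F E), ∃ g : SpecialLinearGroup F E, g • ω = ω ∧ g • x = y) {b : F} (hb : b ^ 3 ≠ 1)
    {r k : ℕ} (hr : r.Prime) (hk : b ^ r ^ k = 1) (hn : ¬ r ∣ Nat.card Ω) : False := by
  classical
  have := Fact.mk hr
  have hb0 : b ≠ 0 := by
    rintro rfl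
    rw [zero_pow (pow_pos hr.pos k).ne'] at hk
    exact zero_ne_one hk
  obtain ⟨a, ha⟩ : ∃ a, a = (b ^ 2)⁻¹ := ⟨_, rfl⟩
  have hab : a * b ^ 2 = 1 := by rw [ha]; field_simp
  have ha0 : a ≠ 0 := by rintro rfl; simp at hab
  have hne : a - b ≠ 0 := fun e => hb (by linear_combination hab - b ^ 2 * e)
  have : Nontrivial E := Module.nontrivial_of_finrank_pos (R := F) (by omega)
  obtain ⟨v0, hv0⟩ := exists_ne (0 : E)
  obtain ⟨e0, he0, -⟩ := sep_vec (F := F) ⊥ v0 (by simpa using hv0)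
  obtain ⟨g0, hg0⟩ := exists_Hm h3 hab he0
  have h1 : g0 ^ r ^ k = 1 := sl_ext fun x => by
    rw [(hg0.pow _).2, ha, inv_pow, ← pow_mul, mul_comm 2, pow_mul, hk]; simp
  have h2 : IsPGroup r (Subgroup.zpowers g0) := by
    rintro ⟨_, i, rfl⟩
    refine ⟨k, Subtype.ext ?_⟩
    change (g0 ^ i) ^ r ^ k = 1
    rw [← zpow_natCast, ← zpow_mul, mul_comm i, zpow_mul, zpow_natCast, h1, one_zpow]
  obtain ⟨ω, hω⟩ := h2.nonempty_fixed_point_of_prime_not_dvd_card Ω hn
  replace hω : g0 • ω = ω := hω ⟨g0, Subgroup.mem_zpowers g0⟩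
  have hfix : ∀ {k g : SpecialLinearGroup F E}, k • ω = ω → g • ω = ω → (k * g * k⁻¹) • ω = ω := fun hk hg => by
    rw [mul_smul, mul_smul, inv_smul_eq_iff.2 hk.symm, hg, hk]
  have hex : ∀ v : E, v ≠ 0 → ∃ g e, g • ω = ω ∧ Hm a b g v e := fun v hv => by
    obtain ⟨k, c, h4, -, h5⟩ := move_of_proj hK ω hv0 hv
    exact ⟨_, _, hfix h4 hω, hg0.conj k h5⟩
  choose! g l h4 h5 using hex
  have huniq : ∀ v, v ≠ 0 → ∀ g' e, g' • ω = ω → Hm a b g' v e → e = l v := fun v hv g' e h6 h7 => by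
    have h8 : (((a - b) / a) • (e - l v)) v = 0 := by simp [h7.1, (h5 v hv).1]
    have h9 := hF v _ ω h8 (by
      rw [(h5 v hv).div h7 ha0, mul_smul, ← eq_inv_smul_iff, inv_smul_eq_iff.2 (h4 v hv).symm] at h6
      exact h6)
    have := tv_inj_right hv h8 rfl (h9.trans (tv_zero_right v).symm)
    exact sub_eq_zero.1 ((smul_eq_zero.1 this).resolve_left (div_ne_zero hne ha0))
  refine no_polarity h3.ge (fun v => if v = 0 then 0 else l v) (by simp) (fun v hv => by simp [hv, (h5 v hv).1])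
    fun v w h6 => ?_
  by_cases hv : v = 0
  · simp [hv]
  by_cases hw : w = 0
  · simp [hw]
  simp only [hv, hw, if_false] at h6 ⊢
  have h7 := huniq w hw _ _ (hfix (h4 v hv) (h4 w hw))
    ((h5 w hw).conj (g v) (w := w) (c := b) (by rw [(h5 v hv).2, h6]; simp))
  have h8 := DFunLike.congr_fun h7 (slAct (g v) v)
  rw [LinearMap.smul_apply, slDual_slAct, (h5 v hv).2, (h5 v hv).1, map_add, map_smul, map_smul] at h8
  simp only [smul_eq_mul] at h8
  exact (mul_eq_zero.1 (show (a - b) * l w v = 0 by linear_combination -h8)).resolve_left hne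

theorem exists_b (h2 : Fintype.card F ≠ 2) (h4 : Fintype.card F ≠ 4) :
    ∃ (b : F) (r k : ℕ), b ^ 3 ≠ 1 ∧ r.Prime ∧ b ^ r ^ k = 1 ∧ ¬ r ∣ Fintype.card F := by
  classical
  have hq : 1 < Fintype.card F := Fintype.one_lt_card
  have h : ¬ Fintype.card F - 1 ∣ 3 := fun h => by
    have := (Nat.dvd_prime Nat.prime_three).1 h
    omega
  rw [Nat.dvd_iff_prime_pow_dvd_dvd] at h
  push Not at h
  obtain ⟨r, k, hr, h1, h3⟩ := h
  obtain ⟨γ, hγ⟩ := IsCyclic.exists_ofOrder_eq_natCard (α := Fˣ)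
  rw [Nat.card_eq_fintype_card, Fintype.card_units] at hγ
  have h5 : orderOf (γ ^ (orderOf γ / r ^ k)) = r ^ k := orderOf_pow_orderOf_div (by omega) (hγ ▸ h1)
  refine ⟨(γ ^ (orderOf γ / r ^ k) : Fˣ), r, k, fun e => h3 ?_, hr, ?_, fun e => ?_⟩
  · rw [← h5]
    exact orderOf_dvd_of_pow_eq_one (Units.ext (by simpa using e))
  · have := pow_orderOf_eq_one (γ ^ (orderOf γ / r ^ k))
    rw [h5] at this
    rw [← Units.val_pow_eq_pow_val, this, Units.val_one]
  · have hk : k ≠ 0 := by rintro rfl; simp at h3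
    have := (Nat.dvd_sub_iff_right hq.le e).1 ((dvd_pow_self r hk).trans h1)
    exact hr.not_dvd_one this

theorem num42 {n r : ℕ} (h1 : 8 ≤ n) (h2 : n < 15) (h3 : 1 < r) (h4 : n - 1 ∣ 15 * (r - 1)) (h5 : r ∣ n) (h6 : r ∣ 8) :
    n = 8 := by
  have := Nat.le_of_dvd (by norm_num) h6
  interval_cases r <;> interval_cases n <;> simp_all

theorem sl_main (h3 : 3 ≤ finrank F E) (hT : TT (SpecialLinearGroup F E) Ω)
    (hmin : Nat.card (ℙ F E) ≤ Nat.card Ω ∨ finrank F E = 4 ∧ Fintype.card F = 2) :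
    Nat.card Ω = Nat.card (ℙ F E) ∨ (finrank F E = 4 ∨ finrank F E = 3) ∧ Fintype.card F = 2 ∧ Nat.card Ω = 8 := by
  classical
  have : Finite E := Module.finite_of_finite F
  have := finite_SL (F := F) (E := E)
  have : Nontrivial E := Module.nontrivial_of_finrank_pos (R := F) (by omega)
  have hq : 1 < Fintype.card F := Fintype.one_lt_card
  obtain ⟨d, hd⟩ : ∃ d, finrank F E = d + 3 := ⟨finrank F E - 3, by omega⟩
  have hP : Nat.card (ℙ F E) = 1 + Fintype.card F * ∑ i ∈ Finset.range (d + 2), Fintype.card F ^ i := by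
    rw [Projectivization.card_of_finrank F E hd, Finset.sum_range_succ', Finset.mul_sum, Nat.card_eq_fintype_card]
    simp [pow_succ', add_comm]
  have hX : TT (SpecialLinearGroup F E) (ℙ F E) := by
    refine ⟨Finite.one_lt_card_iff_nontrivial.1 ?_, fun a b c d h1 h2 => is_two_pretransitive_iff.1 inferInstance h1 h2⟩
    rw [hP, lt_add_iff_pos_right, Finset.sum_range_succ']
    positivity
  refine (hT.compare hX).elim (fun hK => ?_) fun h => .inl h.1
  by_cases hn : Nat.card Ω = Nat.card (ℙ F E)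
  · exact .inl hn
  right
  have := hT.nt
  have := hT.pre
  obtain ⟨ω0⟩ : Nonempty Ω := inferInstance
  obtain ⟨v0, hv0⟩ := exists_ne (0 : E)
  obtain ⟨r, hr⟩ : ∃ r, r = Nat.card (orbit (Tv F v0) ω0) := ⟨_, rfl⟩
  have horb : ∀ v : E, v ≠ 0 → ∀ ω : Ω, Nat.card (orbit (Tv F v) ω) = r := fun v hv ω => by
    obtain ⟨g, rfl⟩ := hT.trans ω0 ω
    have h1 : slAct g v0 ≠ 0 := fun e => hv0 (by rw [← act_inv_apply slAct g v0, e, map_zero])
    obtain ⟨k, c, h2, h4, h5⟩ := move_of_proj hK (g • ω0) h1 hv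
    rw [hr, ← h2, ← mul_smul]
    refine (card_orbit_conj (k * g) (fun t => ⟨Tv_conj (by rw [act_mul_apply, h5]), fun ht => ?_⟩) ω0).symm
    have := Tv_conj (g := (k * g)⁻¹) (w := v0) (c := c⁻¹) (by
      rw [eq_inv_smul_iff₀ h4, ← map_smul, ← h5, ← act_mul_apply slAct k, act_inv_apply]) ht
    simpa [mul_assoc] using this
  have hst : ∀ v : E, v ≠ 0 → ∀ ω : Ω, Fintype.card F ^ (d + 2) = r * Nat.card (stabilizer (Tv F v) ω) := fun v hv ω => by
    rw [← horb v hv ω, ← Nat.card_prod, ← Nat.card_congr (orbitProdStabilizerEquivGroup (Tv F v) ω).symm, card_Tv hv, hd]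
    rfl
  obtain ⟨s, hs⟩ : ∃ s, s = Nat.card (stabilizer (Tv F v0) ω0) := ⟨_, rfl⟩
  have hrs := hs ▸ hst v0 hv0 ω0
  have hr1 : 1 < r := by
    by_contra h
    have h1 : stabilizer (SpecialLinearGroup F E) ω0 = ⊤ := eq_top_of_tv _ fun w f hf => by
      by_cases hw : w = 0
      · rw [hw, tv_zero_left]; exact one_mem _
      have := (Finite.card_le_one_iff_subsingleton.1 ((horb w hw ω0).trans_le (not_lt.1 h))).elim
        ⟨_, mem_orbit ω0 (⟨_, f, hf, rfl⟩ : Tv F w)⟩ ⟨_, mem_orbit_self ω0⟩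
      exact congrArg Subtype.val this
    obtain ⟨g, hg⟩ := hT.exists_ne_smul ω0
    exact hg (h1 ▸ Subgroup.mem_top g : g ∈ stabilizer _ ω0)
  obtain ⟨l, hl⟩ := count_orb hT (fun x : ℙ F E => Tv F x.rep) (fun g x t ht => Tv_conj (rep_smul g x).choose_spec.2 ht)
    fun x ω => horb _ x.rep_nonzero ω
  obtain ⟨b, hb⟩ : ∃ b, b = Nat.card (orbitRel.Quotient (Tv F v0) Ω) := ⟨_, rfl⟩
  have hnb := hb ▸ card_of_orbits (horb v0 hv0)
  have hf := fix_count (Tv F v0) (by
      rintro _ ⟨f, h1, rfl⟩ _ ⟨f', h2, rfl⟩ h4 h5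
      exact tv_isConj h3 h1 h2 hv0 hv0 (fun e => h4 (e ▸ tv_zero_right v0)) fun e => h5 (e ▸ tv_zero_right v0))
    (fun _ h _ h' => Tv_comm h h') (horb v0 hv0) (s := s) (by rw [card_Tv hv0, hd, ← hrs]; rfl) hnb hr1
  have hs0 : 0 < s := hs ▸ Nat.card_pos
  have hb0 : 0 < b := Nat.pos_of_mul_pos_right (hnb ▸ Nat.card_pos)
  rcases lt_or_gt_of_ne hn with hlt | hgt
  · obtain ⟨h1, h2⟩ := hmin.resolve_left (by omega)
    refine ⟨.inl h1, h2, ?_⟩
    have h4 := card_ge_pow (F := F) (E := E) hT.two_le h3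
    obtain rfl : d = 1 := by omega
    rw [h2] at hP hrs
    rw [h2, h1] at h4
    norm_num [Finset.sum_range_succ] at hP hrs h4
    rw [hP] at hl hlt
    have h6 : Nat.card Ω - 1 ∣ 15 * (r - 1) := Dvd.intro_left _ hl
    have h7 : r ∣ Nat.card Ω := Dvd.intro_left _ hnb.symm
    have h8 : r ∣ 8 := Dvd.intro _ hrs.symm
    exact num42 h4 hlt hr1 h6 h7 h8
  obtain ⟨p, hp⟩ := CharP.exists F
  obtain ⟨e, hp', he⟩ := FiniteField.card F p
  have hgeom := Nat.geomSum_eq hq (d + 2)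
  have hdv : Fintype.card F ∣ r ∨ r ∣ Fintype.card F := by
    obtain ⟨i, -, rfl⟩ := (Nat.dvd_prime_pow hp').1 (show r ∣ p ^ (e * (d + 2)) by
      rw [pow_mul, ← he, hrs]; exact dvd_mul_right _ _)
    rw [he]
    exact (le_total (e : ℕ) i).imp (pow_dvd_pow p) (pow_dvd_pow p)
  obtain ⟨h1, h2⟩ := arith (q := Fintype.card F) (Q := Fintype.card F ^ (d + 2))
    (θ := (∑ i ∈ Finset.range (d + 2), Fintype.card F ^ i : ℕ)) (r := r) (s := s) (b := b) (l := l) (by omega)
    (by push_cast; rw [mul_comm, geom_sum_mul]; ring)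
    (by rw [← sq]; exact pow_le_pow_right₀ (by omega) (by omega)) (dvd_pow_self _ (by omega)) (by exact_mod_cast hrs)
    (by omega) (by omega) (by omega) (by exact_mod_cast hdv)
    (by rw [hnb, hP] at hl; zify [hr1.le, show 1 ≤ b * r from Nat.mul_pos hb0 (by omega)] at hl ⊢; exact hl)
    (by rw [hnb, hP] at hgt; exact_mod_cast hgt)
    (by rw [← hrs] at hf; zify [hs0, show 1 ≤ Fintype.card F ^ (d + 2) from Nat.pow_pos (by omega)] at hf; exact hf)
  replace h1 : s = 1 := by exact_mod_cast h1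
  replace h2 : b = Fintype.card F := by exact_mod_cast h2
  rw [h1, mul_one] at hrs
  have hF : Free F E Ω := fun w f ω h4 h5 => by
    by_cases hw : w = 0
    · rw [hw, tv_zero_left]
    have h6 := hst w hw ω
    rw [hrs, left_eq_mul₀ (by omega), Subgroup.card_eq_one] at h6
    have h7 : (⟨_, f, h4, rfl⟩ : Tv F w) ∈ stabilizer (Tv F w) ω := h5
    rw [h6] at h7
    exact congrArg Subtype.val h7
  have hbl : ∀ v : E, v ≠ 0 → Nat.card (orbitRel.Quotient (Tv F v) Ω) = Fintype.card F := fun v hv => by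
    have := card_of_orbits (horb v hv)
    rw [hnb, h2] at this
    exact (Nat.eq_of_mul_eq_mul_right (by omega) this).symm
  have hno : ¬ ∀ v : E, v ≠ 0 → ∀ (w : E) (f : Dual F E), f v = 0 → f w = 0 → ∀ ω : Ω,
      tv w f • ω ∈ orbit (Tv F v) ω := fun h => by
    have := card_of_blocks h3 hT hF h
    rw [hnb, hd, h2, show d + 3 - 1 = d + 2 from rfl, hrs] at this
    nlinarith
  obtain rfl : d = 0 := by
    by_contra h
    exact hno fun v hv => blocks_big (by omega) hv (hbl v hv)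
  by_cases h4 : Fintype.card F = 4
  · exact (hno fun v hv => blocks_four h4 (hbl v hv)).elim
  by_cases h5 : Fintype.card F = 2
  · exact ⟨.inr hd, h5, by rw [hnb, h2, ← hrs, h5]; rfl⟩
  obtain ⟨c, t, k, h6, h7, h8, h9⟩ := exists_b h5 h4
  refine (no_homology hd hF hK h6 h7 h8 fun h => h9 (h7.dvd_of_dvd_pow (n := 3) ?_)).elim
  rwa [hnb, h2, ← hrs, ← pow_succ'] at h

end Cfsg.Agent.H4.TL
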