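import Cfsg.Agent.H1.OmGen
import Cfsg.Agent.H7.TT4

/-! Witt frames of a quadratic space and the block entries of endomorphisms. -/

set_option autoImplicit false
set_option linter.unusedSectionVars false

namespace Cfsg.Agent.H4.TO

open Module H6 H1 Finset

variable {F : Type*} [Field F] {E : Type*} [AddCommGroup E] [Module F E] [FiniteDimensional F E]

/-- admissible indices -/
def ok (r : ℕ) (a : ℤ) : Prop := a ≠ 0 ∧ -(r : ℤ) ≤ a ∧ a ≤ r

theorem ok_neg {r : ℕ} {a : ℤ} : ok r (-a) ↔ ok r a := by unfold ok; omega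

/-- hyperbolic frames -/
structure Fr (Q : QuadraticForm F E) where
  r : ℕ
  e : ℤ → E
  sing : ∀ a, Q (e a) = 0
  one : ∀ a, ok r a → pb Q (e a) (e (-a)) = 1
  zero : ∀ a b, a + b ≠ 0 → pb Q (e a) (e b) = 0
  nok : ∀ a, ¬ ok r a → e a = 0

namespace Fr

variable {Q : QuadraticForm F E} (T : Fr Q)

/-- the index set -/
noncomputable def I : Finset ℤ := Icc (-(T.r : ℤ)) T.r

/-- rank one projections -/
def q (a : ℤ) : End F E := (pb Q (T.e (-a))).smulRight (T.e a)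

/-- the projections -/
noncomputable def p (a : ℤ) : End F E := if a = 0 then 1 - ∑ b ∈ T.I, T.q b else T.q a

/-- maximality -/
def An : Prop := ∀ v, (∀ a, pb Q (T.e a) v = 0) → Q v = 0 → v = 0

theorem e0 : T.e 0 = 0 := T.nok 0 fun h => h.1 rfl

theorem q_apply (a : ℤ) (v : E) : T.q a v = pb Q (T.e (-a)) v • T.e a := rfl

theorem p_apply {a : ℤ} (h : a ≠ 0) (v : E) : T.p a v = pb Q (T.e (-a)) v • T.e a := by
  rw [p, if_neg h, q_apply]

theorem mem_I {a : ℤ} (h : ok T.r a) : a ∈ T.I := mem_Icc.2 h.2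

theorem e_ne {a : ℤ} (h : ok T.r a) : T.e a ≠ 0 := fun h0 => by simpa [h0] using T.one a h

theorem ok_of_ne {a : ℤ} (h : T.e a ≠ 0) : ok T.r a := by_contra fun h1 => h (T.nok a h1)

theorem pb_p0 (a : ℤ) (v : E) : pb Q (T.e a) (T.p 0 v) = 0 := by
  by_cases h : ok T.r a
  swap
  · simp [T.nok a h]
  rw [p, if_pos rfl, LinearMap.sub_apply, LinearMap.sum_apply, map_sub, map_sum,
    sum_eq_single_of_mem (-a) (T.mem_I (ok_neg.2 h))]
  · simp [q_apply, T.one a h]
  · intro b _ hb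
    simp [q_apply, T.zero a b (by omega)]

theorem p0_of_orth {v : E} (h : ∀ a, pb Q (T.e a) v = 0) : T.p 0 v = v := by
  simp [p, LinearMap.sum_apply, q_apply, h]

theorem sum_p : ∑ a ∈ T.I, T.p a = 1 := by
  have h0 : (0 : ℤ) ∈ T.I := mem_Icc.2 ⟨by omega, by omega⟩
  have h1 : T.q 0 = 0 := by ext v; simp [q_apply, e0]
  rw [← add_sum_erase _ _ h0, sum_congr rfl fun a ha => show T.p a = T.q a from if_neg (ne_of_mem_erase ha),
    sum_erase _ h1, p, if_pos rfl, sub_add_cancel]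

theorem sum_p_apply (v : E) : ∑ a ∈ T.I, T.p a v = v := by
  rw [← LinearMap.sum_apply, sum_p]; rfl

theorem p_nok {a : ℤ} (h : ¬ ok T.r a) (h0 : a ≠ 0) : T.p a = 0 := by
  ext v; simp [T.p_apply h0, T.nok a h]

theorem p_e (a : ℤ) : T.p a (T.e a) = T.e a := by
  by_cases h : ok T.r a
  · have := T.one _ (ok_neg.2 h)
    rw [neg_neg] at this
    rw [T.p_apply h.1, this, one_smul]
  · simp [T.nok a h]

theorem pb_p (a : ℤ) (x y : E) : pb Q (T.p a x) y = pb Q x (T.p (-a) y) := by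
  by_cases h : a = 0
  · subst h
    have : ∀ x y, pb Q (T.p 0 x) y = pb Q (T.p 0 x) (T.p 0 y) := fun x y => by
      nth_rewrite 3 [p]
      simp [LinearMap.sum_apply, q_apply, pb_comm Q (T.p 0 x), pb_p0]
    rw [this, neg_zero, pb_comm Q x, this y, pb_comm]
  · simp [T.p_apply h, T.p_apply (neg_ne_zero.2 h), pb_comm Q x, mul_comm]

theorem p_e_ne {a b : ℤ} (h : a ≠ b) : T.p a (T.e b) = 0 := by
  by_cases h0 : a = 0
  · subst h0
    by_cases hb : ok T.r b
    · have := T.p_e b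
      rw [T.p_apply hb.1] at this
      rw [p, if_pos rfl, LinearMap.sub_apply, LinearMap.sum_apply, sum_eq_single_of_mem b (T.mem_I hb),
        q_apply, this]
      · simp
      · intro c _ hc
        simp [q_apply, T.zero (-c) b (by omega)]
    · simp [T.nok b hb]
  · simp [T.p_apply h0, T.zero (-a) b (by omega)]

theorem p_p_ne {a b : ℤ} (h : a ≠ b) (v : E) : T.p a (T.p b v) = 0 := by
  by_cases hb : b = 0
  · subst hb
    simp [T.p_apply h, pb_p0]
  · simp [T.p_apply hb, T.p_e_ne h]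

theorem p_p (a : ℤ) (v : E) : T.p a (T.p a v) = T.p a v := by
  by_cases h : a = 0
  · subst h
    exact T.p0_of_orth fun a => T.pb_p0 a v
  · simp [T.p_apply h v, p_e]

theorem p_mul_ne {a b : ℤ} (h : a ≠ b) : T.p a * T.p b = 0 := LinearMap.ext (T.p_p_ne h)

theorem p_mul (a : ℤ) : T.p a * T.p a = T.p a := LinearMap.ext (T.p_p a)

theorem p_ne {a : ℤ} (h : ok T.r a) : T.p a ≠ 0 := fun h0 => T.e_ne h (by rw [← T.p_e a, h0]; rfl)

theorem sup_iff {a : ℤ} : T.p a ≠ 0 ↔ ok T.r a ∨ (a = 0 ∧ T.p 0 ≠ 0) := by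
  refine ⟨fun h => ?_, fun h => h.elim T.p_ne fun h => h.1 ▸ h.2⟩
  by_cases h0 : a = 0
  · exact .inr ⟨h0, h0 ▸ h⟩
  · exact .inl (by_contra fun h1 => h (T.p_nok h1 h0))

theorem sup_neg {a : ℤ} : T.p (-a) ≠ 0 ↔ T.p a ≠ 0 := by
  rw [T.sup_iff (a := a), T.sup_iff (a := -a), ok_neg, neg_eq_zero]

theorem p_eq_zero {a : ℤ} (h : a ≠ 0) {v : E} : T.p a v = 0 ↔ pb Q (T.e (-a)) v = 0 := by
  by_cases h1 : ok T.r a
  · simp [T.p_apply h, T.e_ne h1]
  · simp [T.p_apply h, T.nok a h1, T.nok (-a) (mt ok_neg.1 h1)]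

theorem eq_of_p {x y : E} (h : ∀ a, T.p a x = T.p a y) : x = y := by
  rw [← T.sum_p_apply x, ← T.sum_p_apply y]
  exact sum_congr rfl fun a _ => h a

theorem eq_p {v : E} {a : ℤ} (h : ∀ c, c ≠ a → T.p c v = 0) : T.p a v = v :=
  T.eq_of_p fun c => by
    by_cases e : c = a
    · rw [e, p_p]
    · rw [T.p_p_ne e, h c e]

theorem Q_sum (f : ℤ → E) (s : Finset ℤ) (h1 : ∀ a, Q (f a) = 0) (h2 : ∀ a b, pb Q (f a) (f b) = 0) :
    Q (∑ a ∈ s, f a) = 0 := by
  induction s using Finset.induction with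
  | empty => simp
  | insert a s ha ih => rw [sum_insert ha, Q_add, ih, h1, map_sum]; simp [h2]

theorem Q_p {a : ℤ} (h : a ≠ 0) (v : E) : Q (T.p a v) = 0 := by rw [T.p_apply h, Q_smul, T.sing, mul_zero]

theorem pb_pp {a b : ℤ} (h : a + b ≠ 0) (x y : E) : pb Q (T.p a x) (T.p b y) = 0 := by
  rw [pb_p, T.p_p_ne (by omega), map_zero]

theorem exists_pair {y : E} (h : Q y ≠ 0) : ∃ c, T.p c y ≠ 0 ∧ T.p (-c) y ≠ 0 := by
  by_contra hn
  push Not at hn
  refine h (T.sum_p_apply y ▸ Q_sum _ _ (fun a => ?_) fun a b => ?_)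
  · by_cases h0 : a = 0
    · subst h0
      by_cases h1 : T.p 0 y = 0
      · simp [h1]
      · exact absurd (hn 0 h1) h1
    · exact T.Q_p h0 y
  · by_cases e : a + b = 0
    · obtain rfl : b = -a := by omega
      by_cases h1 : T.p a y = 0
      · simp [h1]
      · simp [hn a h1]
    · exact T.pb_pp e y y

theorem exists_other {v : E} (hv : Q v = 0) {a : ℤ} (h0 : a ≠ 0) (h1 : T.p a v ≠ 0) (h2 : T.p (-a) v ≠ 0) :
    ∃ c, c ≠ a ∧ c ≠ -a ∧ T.p c v ≠ 0 ∧ T.p (-c) v ≠ 0 := by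
  have k : ∀ c, T.p c (v - T.p a v - T.p (-a) v) ≠ 0 → c ≠ a ∧ c ≠ -a ∧ T.p c v ≠ 0 := fun c hc => by
    refine ⟨?_, ?_, fun e => hc ?_⟩
    · rintro rfl
      simp [p_p, T.p_p_ne (show c ≠ -c by omega)] at hc
    · rintro rfl
      simp [p_p, T.p_p_ne (show -a ≠ a by omega)] at hc
    · have : ∀ d, T.p c (T.p d v) = 0 := fun d => by
        by_cases e' : c = d
        · rw [← e', p_p, e]
        · exact T.p_p_ne e' v
      simp [e, this]
  obtain ⟨c, h3, h4⟩ := T.exists_pair (y := v - T.p a v - T.p (-a) v) (by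
    have e1 : pb Q v (T.p a v) = pb Q (T.p (-a) v) (T.p a v) := by rw [pb_p, neg_neg, p_p]
    have e2 : pb Q v (T.p (-a) v) = pb Q (T.p a v) (T.p (-a) v) := by rw [pb_p, p_p]
    have e3 : pb Q (T.p (-a) v) (T.p a v) ≠ 0 := by
      have ha : ok T.r a := by_contra fun h => h1 (by simp [T.p_nok h h0])
      rw [Ne, T.p_eq_zero h0] at h1
      rw [Ne, T.p_eq_zero (neg_ne_zero.2 h0)] at h2
      have := T.one _ (ok_neg.2 ha)
      rw [neg_neg] at this h2
      simp [T.p_apply h0, T.p_apply (neg_ne_zero.2 h0), this, h1, h2]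
    rw [Q_sub, Q_sub, hv, T.Q_p h0, T.Q_p (neg_ne_zero.2 h0), map_sub, LinearMap.sub_apply, e1, e2]
    simpa using e3)
  exact ⟨c, (k c h3).1, (k c h3).2.1, (k c h3).2.2, (k _ h4).2.2⟩

variable (hB : (pb Q).Nondegenerate)
include hB

theorem exists_pb {a : ℤ} (h : T.p a ≠ 0) : ∃ x y, pb Q (T.p a x) (T.p (-a) y) = 1 := by
  obtain ⟨v, hv⟩ := DFunLike.ne_iff.1 h
  obtain ⟨y, -, hy⟩ := exists_dual hB ⊥ (u := T.p a v) hv
  exact ⟨v, y, by rw [← pb_p, p_p, hy]⟩

theorem extend {v : E} (h1 : ∀ a, pb Q (T.e a) v = 0) (h2 : Q v = 0) (h3 : v ≠ 0) :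
    ∃ T' : Fr Q, T'.r = T.r + 1 := by
  obtain ⟨y, -, hy⟩ := exists_dual hB ⊥ (u := v) h3
  obtain ⟨v', h4, hh⟩ := exists_hyp_of (Q := Q) (Y := LinearMap.range (T.p 0)) (p := v) (z := T.p 0 y)
    ⟨v, T.p0_of_orth h1⟩ ⟨y, rfl⟩ h2 (by rw [← neg_zero, ← pb_p, T.p0_of_orth h1, hy]; simp)
  have h5 : ∀ a, pb Q (T.e a) v' = 0 := fun a => by obtain ⟨z, rfl⟩ := h4; exact T.pb_p0 a z
  refine ⟨⟨T.r + 1, fun a => if a = T.r + 1 then v else if a = -(T.r + 1) then v' else T.e a, fun a => ?_,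
    fun a ha => ?_, fun a b hab => ?_, fun a ha => ?_⟩, rfl⟩
  · split_ifs
    exacts [h2, hh.r, T.sing a]
  · unfold ok at ha
    split_ifs <;> first | omega | exact hh.lr | exact hh.rl | exact T.one a (by unfold ok; omega)
  · split_ifs <;> first | omega | simp only [hh.ll, hh.rr, h1, h5, pb_comm Q v (T.e _), pb_comm Q v' (T.e _),
      T.zero a b hab]
  · unfold ok at ha
    rw [if_neg (by omega), if_neg (by omega), T.nok a (by unfold ok; omega)]

end Fr

theorem exists_fr [Finite F] {Q : QuadraticForm F E} (hB : (pb Q).Nondegenerate) (h7 : 7 ≤ finrank F E) :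
    ∃ T : Fr Q, T.An ∧ 3 ≤ T.r ∧ (T.p 0 = 0 → 4 ≤ T.r) := by
  classical
  obtain ⟨T, hT⟩ : ∃ T : Fr Q, T.An := by
    by_contra hn
    have h1 : ∀ k, ∃ T : Fr Q, T.r = k := fun k => by
      induction k with
      | zero => exact ⟨⟨0, 0, by simp, fun a h => by unfold ok at h; omega, by simp, by simp⟩, rfl⟩
      | succ k ih =>
        obtain ⟨T, rfl⟩ := ih
        have : ¬ T.An := fun h => hn ⟨T, h⟩
        simp only [Fr.An, not_forall] at this
        obtain ⟨v, h1, h2, h3⟩ := this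
        exact T.extend hB h1 h2 h3
    have : Finite E := Module.finite_of_finite F
    obtain ⟨T, hT⟩ := h1 (Nat.card E + 1)
    have := Nat.card_le_card_of_injective (fun i : Fin T.r => T.e (i + 1)) fun i j hij => by
      have h2 := T.one (i + 1) (by unfold ok; omega)
      simp only at hij
      rw [hij] at h2
      exact Fin.ext (by_contra fun h3 => by
        rw [T.zero _ _ (by omega)] at h2; exact zero_ne_one h2)
    simp at this; omega
  let X := Submodule.span F (((T.I.erase 0).image T.e : Finset E) : Set E)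
  have h1 : finrank F X ≤ 2 * T.r := by
    refine (finrank_span_finset_le_card _).trans (card_image_le.trans ?_)
    rw [Fr.I, card_erase_of_mem (mem_Icc.2 ⟨by omega, by omega⟩), Int.card_Icc]; omega
  have h2 := finrank_oc hB X
  have h3 : ∀ v ∈ oc Q X, ∀ a, pb Q (T.e a) v = 0 := fun v hv a => by
    by_cases h : ok T.r a
    · exact hv _ (Submodule.subset_span (by simpa using ⟨a, ⟨T.mem_I h, h.1⟩, rfl⟩))
    · simp [T.nok a h]
  have h4 : finrank F (oc Q X) ≤ 2 := by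
    by_contra h
    obtain ⟨v, h5, h6, h7⟩ := exists_sing_not_mem Q (Y := oc Q X) (R := ⊥) bot_le (by rw [finrank_bot]; omega)
    exact h6 (hT v (h3 v h5) h7)
  refine ⟨T, hT, by omega, fun h => ?_⟩
  have : oc Q X = ⊥ := eq_bot_iff.2 fun v hv => by rw [← T.p0_of_orth (h3 v hv), h]; simp
  rw [this, finrank_bot] at h2
  omega

end Cfsg.Agent.H4.TO
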