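import Mathlib

/-! Combinatorics of the relative root systems of types `B` and `D` on the index set `-r, …, r`. -/

set_option autoImplicit false
set_option linter.unusedVariables false
set_option linter.unusedSectionVars false

namespace Cfsg.Agent.H4.TO

variable (d : Prop) [Decidable d]

/-- supported indices -/
def su (r : ℕ) (a : ℤ) : Prop := -(r : ℤ) ≤ a ∧ a ≤ r ∧ (d → a ≠ 0)

/-- fundamental coweights -/
def ta (s a : ℤ) : ℤ :=
  if d ∧ s = 1 ∧ (a = 1 ∨ a = -1) then -a else if s < a then 1 else if a < -s then -1 else 0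

/-- head of a simple root -/
def rx (s : ℤ) : ℤ := if d ∧ s = 0 then 2 else s + 1

/-- tail of a simple root -/
def ry (s : ℤ) : ℤ := if d ∧ s = 0 then -1 else s

/-- signed transpositions -/
def sw (x y a : ℤ) : ℤ :=
  if a = x then y else if a = y then x else if a = -x then -y else if a = -y then -x else a

/-- simple reflections -/
def sg (s : ℤ) : ℤ → ℤ := sw (rx d s) (if s = 0 then -1 else s)

theorem sg_cases (s : ℤ) : (d ∧ s = 0 ∧ rx d s = 2 ∧ ry d s = -1 ∧ sg d s = sw 2 (-1)) ∨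
    (¬ d ∧ s = 0 ∧ rx d s = 1 ∧ ry d s = 0 ∧ sg d s = sw 1 (-1)) ∨
    (s ≠ 0 ∧ rx d s = s + 1 ∧ ry d s = s ∧ sg d s = sw (s + 1) s) := by
  unfold sg rx ry
  by_cases h : s = 0 <;> by_cases h' : d <;> simp [h, h']

variable {d} {r : ℕ} {s t a b : ℤ}

theorem ta_neg (hs : 0 ≤ s) (a : ℤ) : ta d s (-a) = -ta d s a := by unfold ta; grind

theorem ta_mono (hs : 0 ≤ s) (h : b ≤ a) (h1 : d → a ≠ 0) (h2 : d → b ≠ 0) (h3 : d → a = 1 → b ≠ -1) :
    ta d s b ≤ ta d s a := by unfold ta; grind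

theorem sg_sg (hs : 0 ≤ s) (a : ℤ) : sg d s (sg d s a) = a := by
  rcases sg_cases d s with ⟨-, -, -, -, h⟩ | ⟨-, -, -, -, h⟩ | ⟨_, -, -, h⟩ <;> rw [h] <;> unfold sw <;> grind (splits := 30)

theorem sg_neg (hs : 0 ≤ s) (a : ℤ) : sg d s (-a) = -sg d s a := by
  rcases sg_cases d s with ⟨-, -, -, -, h⟩ | ⟨-, -, -, -, h⟩ | ⟨_, -, -, h⟩ <;> rw [h] <;> unfold sw <;> grind (splits := 30)

theorem ta_sg (hs : 0 ≤ s) (ht : 0 ≤ t) (h : t ≠ s) (a : ℤ) : ta d t (sg d s a) = ta d t a := by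
  rcases sg_cases d s with ⟨_, _, -, -, h⟩ | ⟨_, _, -, -, h⟩ | ⟨_, -, -, h⟩ <;> rw [h] <;> unfold sw ta <;>
    grind (splits := 30)

theorem sg_xy (hs : 0 ≤ s) : sg d s (rx d s) < sg d s (ry d s) := by
  rcases sg_cases d s with ⟨_, _, h1, h2, h⟩ | ⟨_, _, h1, h2, h⟩ | ⟨_, h1, h2, h⟩ <;> rw [h, h1, h2] <;> unfold sw <;>
    grind (splits := 30)

theorem ry_lt (s : ℤ) : ry d s < rx d s := by unfold rx ry; split_ifs <;> omega

theorem rx_ne (hs : 0 ≤ s) : rx d s ≠ -ry d s := by unfold rx ry; split_ifs <;> omega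

theorem su_rx (hs : 0 ≤ s) (hr : s < r) (h2 : 2 ≤ r) : su d r (rx d s) := by unfold su rx; grind

theorem su_ry (hs : 0 ≤ s) (hr : s < r) : su d r (ry d s) := by unfold su ry; grind

theorem ta_xy (hs : 0 ≤ s) (ht : 0 ≤ t) (h : ta d t (rx d s) ≠ ta d t (ry d s)) : t = s := by
  revert h; unfold ta rx ry; grind

theorem exists_ta (ha : su d r a) (hb : su d r b) (h1 : a ≠ b) (h2 : a ≠ -b) :
    ∃ s : ℕ, s < r ∧ ta d s a ≠ ta d s b := by
  unfold su at ha hb
  by_cases h0 : ta d (0 : ℕ) a = ta d (0 : ℕ) b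
  · refine ⟨min a.natAbs b.natAbs, by omega, ?_⟩
    have : ((min a.natAbs b.natAbs : ℕ) : ℤ) = min (max a (-a)) (max b (-b)) := by omega
    rw [this]
    revert h0
    unfold ta; grind (splits := 40)
  · exact ⟨0, by omega, h0⟩

theorem up {f : ℤ → ℤ} {l m : ℤ} (h : l ≤ m) (h1 : ∀ s, l ≤ s → s < m → f s ≤ f (s + 1)) : f l ≤ f m := by
  induction m, h using Int.leInduction with
  | base => rfl
  | succ m h ih => exact (ih fun s h2 h3 => h1 s h2 (by omega)).trans (h1 m h (by omega))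

theorem chain_aux {f : ℤ → ℤ} (hf : ∀ a, f (-a) = -f a) (ha : su d r a) (hb : su d r b) (h1 : b < a) (h2 : -b < a)
    (h : ∀ s : ℤ, 0 ≤ s → s < r → ta d s a ≠ ta d s b → f (ry d s) ≤ f (rx d s)) : f b ≤ f a := by
  unfold su at ha hb
  have h0 : f 0 = 0 := by have := hf 0; rw [neg_zero] at this; omega
  have k : ∀ s, 0 ≤ s → (d → s ≠ 0) → ¬ (s = 1 ∧ b = -1 ∧ d) → s < a → b ≤ s → f s ≤ f (s + 1) :=
    fun s e1 e2 e5 e3 e4 => by
    have := h s e1 (by omega) (by unfold ta; grind)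
    rwa [rx, ry, if_neg fun e => e2 e.1 e.2, if_neg fun e => e2 e.1 e.2] at this
  by_cases hb0 : 0 ≤ b
  · exact up h1.le fun s e1 e2 => k s (by omega) (by grind) (by omega) e2 e1
  have hb' := hf b
  by_cases hd : d
  · have k0 := h 0 le_rfl (by omega) (by unfold ta; grind)
    rw [rx, ry, if_pos ⟨hd, rfl⟩, if_pos ⟨hd, rfl⟩] at k0
    have k1 : f 2 ≤ f a := up (by omega) fun s e1 e2 => k s (by omega) (by omega) (by omega) e2 (by omega)
    by_cases e : b = -1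
    · rw [e]; omega
    have k2 : f 2 ≤ f (-b) := up (by omega) fun s e1 e2 => k s (by omega) (by omega) (by omega) (by omega) (by omega)
    have k3 : f 1 ≤ f 2 := k 1 (by omega) (by omega) (by omega) (by omega) (by omega)
    have := hf 1
    omega
  · have k1 : f 0 ≤ f a := up (by omega) fun s e1 e2 => k s e1 (by tauto) (by tauto) e2 (by omega)
    have k2 : f 0 ≤ f (-b) := up (by omega) fun s e1 e2 => k s e1 (by tauto) (by tauto) (by omega) (by omega)
    omega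

theorem su_neg (h : su d r a) : su d r (-a) := by unfold su at *; grind

theorem chain {f : ℤ → ℤ} (hf : ∀ a, f (-a) = -f a) (ha : su d r a) (hb : su d r b) (h1 : b < a) (h2 : a ≠ -b)
    (h : ∀ s : ℤ, 0 ≤ s → s < r → ta d s a ≠ ta d s b → f (ry d s) ≤ f (rx d s)) : f b ≤ f a := by
  by_cases h3 : -b < a
  · exact chain_aux hf ha hb h1 h3 h
  have := chain_aux hf (su_neg hb) (su_neg ha) (by omega) (by omega) fun s e1 e2 e3 => h s e1 e2 (by
    rw [ta_neg e1, ta_neg e1] at e3; omega)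
  rw [hf, hf] at this
  omega

theorem rigid_aux {f : ℤ → ℤ} (hf : ∀ a, f (-a) = -f a) (h1 : f 1 ≠ 0) (h2 : 2 ≤ r) (hr : f r ≤ r)
    (h : ∀ s : ℤ, 0 ≤ s → s < r → f (ry d s) < f (rx d s)) :
    (∀ k : ℤ, 2 ≤ k → k ≤ r → f k = k) ∧ (f 1 = 1 ∨ (d ∧ f 1 = -1)) := by
  have h0 : f 0 = 0 := by have := hf 0; rw [neg_zero] at this; omega
  have k : ∀ s : ℤ, 1 ≤ s → s < r → f s < f (s + 1) := fun s e1 e2 => by
    have := h s (by omega) e2
    rwa [rx, ry, if_neg (by omega), if_neg (by omega)] at this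
  have k0 := h 0 le_rfl (by omega)
  have k1 := k 1 le_rfl (by omega)
  have e1 := hf 1
  have k2 : 2 ≤ f 2 := by unfold rx ry at k0; grind
  have k3 : ∀ m : ℤ, 2 ≤ m → m ≤ r → f m = m := fun m e1 e2 => by
    have a1 : f 2 - 2 ≤ f m - m := up (f := fun s => f s - s) e1 fun s e3 e4 => by
      have := k s (by omega) (by omega); omega
    have a2 : f m - m ≤ f r - r := up (f := fun s => f s - s) e2 fun s e3 e4 => by
      have := k s (by omega) (by omega); omega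
    omega
  refine ⟨k3, ?_⟩
  have := k3 2 le_rfl (by omega)
  unfold rx ry at k0; grind

theorem ta_top (hs : 0 ≤ s) (hr : s < r) (h3 : 3 ≤ r) (h4 : d → 4 ≤ r) :
    ta d s r ≠ ta d s (1 - r) ∧ ta d s (sg d s r) ≠ ta d s (sg d s (1 - r)) := by
  rcases sg_cases d s with ⟨_, _, -, -, h⟩ | ⟨_, _, -, -, h⟩ | ⟨_, -, -, h⟩ <;> rw [h] <;> unfold sw ta <;>
    grind (splits := 30)

end Cfsg.Agent.H4.TO
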