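import Cfsg.Agent.H4.TO1
import Cfsg.Agent.H4.TO2

/-! Triangular subgroups of `Ω`, monomial elements, Eichler transformations. -/

set_option autoImplicit false
set_option linter.unusedSectionVars false

namespace Cfsg.Agent.H4.TO.Fr

open Module H6 H1 Finset

variable {F : Type*} [Field F] {E : Type*} [AddCommGroup E] [Module F E] [FiniteDimensional F E]
  {Q : QuadraticForm F E} (T : Fr Q)

/-- nonzero block entries -/
def Z (x : End F E) (a b : ℤ) : Prop := T.p a * x * T.p b ≠ 0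

/-- triangular endomorphisms -/
def Tr (k : ℤ) (x : End F E) : Prop := ∀ a b, T.Z x a b → b + k ≤ a

/-- monomial elements -/
def Rp (n : Om Q) (w : ℤ → ℤ) : Prop := ∀ b, oA Q n * T.p b = T.p (w b) * oA Q n

variable {T} {x y : End F E} {a b c : ℤ} {g h n m u : Om Q} {w : ℤ → ℤ}

theorem Z_iff : T.Z x a b ↔ ∃ v, T.p a (x (T.p b v)) ≠ 0 := DFunLike.ne_iff

theorem Z.left (h : T.Z x a b) : T.p a ≠ 0 := fun e => h (by simp [e])

theorem Z.right (h : T.Z x a b) : T.p b ≠ 0 := fun e => h (by simp [e])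

theorem Z.of_e (h : T.p a (x (T.e b)) ≠ 0) : T.Z x a b := Z_iff.2 ⟨T.e b, by rwa [p_e]⟩

theorem Z.at_e (h : T.Z x a b) (hb : b ≠ 0) : T.p a (x (T.e b)) ≠ 0 := fun e => by
  obtain ⟨v, hv⟩ := Z_iff.1 h
  simp [T.p_apply hb v, e] at hv

theorem ent_mul (x y : End F E) (a b : ℤ) :
    T.p a * (x * y) * T.p b = ∑ c ∈ T.I, T.p a * x * T.p c * (T.p c * y * T.p b) := by
  calc _ = T.p a * x * (∑ c ∈ T.I, T.p c * T.p c) * y * T.p b := by simp only [p_mul, sum_p, mul_one, mul_assoc]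
    _ = _ := by simp only [mul_sum, sum_mul, mul_assoc]

theorem Z.mul (h : T.Z (x * y) a b) : ∃ c, T.Z x a c ∧ T.Z y c b := by
  rw [Z, ent_mul] at h
  obtain ⟨c, -, hc⟩ := exists_ne_zero_of_sum_ne_zero h
  exact ⟨c, left_ne_zero_of_mul hc, right_ne_zero_of_mul hc⟩

theorem Z.one (h : T.Z 1 a b) : a = b := by_contra fun e => h (by rw [mul_one, T.p_mul_ne e])

theorem Z.add (h : T.Z (x + y) a b) : T.Z x a b ∨ T.Z y a b := by
  by_contra hn
  simp only [Z, not_or, not_not] at hn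
  exact h (by rw [mul_add, add_mul, hn.1, hn.2, add_zero])

theorem Z_neg : T.Z (-x) a b ↔ T.Z x a b := by simp [Z]

theorem Z_sub_one (h : a ≠ b) : T.Z (x - 1) a b ↔ T.Z x a b := by
  simp [Z, mul_sub, sub_mul, T.p_mul_ne h]

theorem eq_zero_of_Z (h : ∀ a b, ¬ T.Z x a b) : x = 0 := by
  calc x = (∑ a ∈ T.I, T.p a) * x * ∑ b ∈ T.I, T.p b := by simp [sum_p]
    _ = 0 := by
      simp only [sum_mul, mul_sum]
      exact sum_eq_zero fun b _ => sum_eq_zero fun a _ => not_not.1 (h a b)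

theorem oA_inv_apply (g : Om Q) (v : E) : oA Q g⁻¹ (oA Q g v) = v := by
  rw [← End.mul_apply, ← map_mul, inv_mul_cancel, map_one]; rfl

theorem oA_apply_inv (g : Om Q) (v : E) : oA Q g (oA Q g⁻¹ v) = v := by
  simpa only [inv_inv] using oA_inv_apply g⁻¹ v

theorem oA_ne {v : E} (g : Om Q) (h : v ≠ 0) : oA Q g v ≠ 0 := fun e => h (by
  rw [← oA_inv_apply g v, e, map_zero])

theorem pb_inv (g : Om Q) (v v' : E) : pb Q (oA Q g⁻¹ v) v' = pb Q v (oA Q g v') := by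
  rw [← oA_pb g, oA_apply_inv]

theorem Z.inv (hB : (pb Q).Nondegenerate) (h : T.Z (oA Q g⁻¹) a b) : T.Z (oA Q g) (-b) (-a) := by
  obtain ⟨v, hv⟩ := Z_iff.1 h
  obtain ⟨y, -, hy⟩ := exists_dual hB ⊥ hv
  refine Z_iff.2 ⟨y, fun e => ?_⟩
  rw [pb_p, pb_inv, pb_p, e] at hy
  simp at hy

theorem Tr.mul {k l : ℤ} (h1 : T.Tr k x) (h2 : T.Tr l y) : T.Tr (k + l) (x * y) := fun a b h => by
  obtain ⟨c, h3, h4⟩ := h.mul
  have := h1 _ _ h3
  have := h2 _ _ h4
  omega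

theorem Tr.add {k : ℤ} (h1 : T.Tr k x) (h2 : T.Tr k y) : T.Tr k (x + y) := fun a b h =>
  h.add.elim (h1 a b) (h2 a b)

theorem Tr.of_sub (h : T.Tr 1 (x - 1)) : T.Tr 0 x := fun a b h1 => by
  by_cases e : a = b
  · omega
  · have := h a b ((Z_sub_one e).2 h1); omega

theorem su_iff [Decidable (T.p 0 = 0)] : T.p a ≠ 0 ↔ su (T.p 0 = 0) T.r a := by
  rw [sup_iff]; unfold ok su; grind

theorem Tr.pow (h : T.Tr 1 x) (k : ℕ) : T.Tr k (x ^ k) := by
  induction k with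
  | zero => exact fun a b h => by simpa using h.one.ge
  | succ k ih => simpa [pow_succ] using ih.mul h

theorem Tr.nil (h : T.Tr 1 x) : x ^ (2 * T.r + 1) = 0 := eq_zero_of_Z fun a b h1 => by
  classical
  have := h.pow _ a b h1
  have h2 := su_iff.1 h1.left
  have h3 := su_iff.1 h1.right
  unfold su at h2 h3
  omega

section
variable (hB : (pb Q).Nondegenerate)

variable (T) in
/-- the Borel subgroup -/
def B : Subgroup (Om Q) where
  carrier := {g | T.Tr 0 (oA Q g)}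
  mul_mem' h1 h2 := by simpa using Tr.mul h1 h2
  one_mem' a b h := by simpa using (Z.one (by simpa using h)).ge
  inv_mem' h a b h1 := by have := h _ _ (h1.inv hB); omega

variable (T) in
/-- its unipotent radical -/
def U : Subgroup (Om Q) where
  carrier := {g | T.Tr 1 (oA Q g - 1)}
  mul_mem' {g h} h1 h2 := by
    have := (Tr.mul h1 (Tr.of_sub h2)).add (k := 1) h2
    rwa [sub_mul, one_mul, sub_add_sub_cancel, ← map_mul] at this
  one_mem' a b h := (h (by simp)).elim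
  inv_mem' {g} h a b h1 := by
    have h2 : T.Tr 0 (oA Q g⁻¹) := (T.B hB).inv_mem (Tr.of_sub h)
    have := h2.mul h a b (by rwa [mul_sub, ← map_mul, inv_mul_cancel, map_one, mul_one, ← Z_neg, neg_sub])
    omega

variable (T) in
/-- the opposite Borel subgroup -/
def Um : Set (Om Q) := {g | ∀ a b, T.Z (oA Q g) a b → a ≤ b}

theorem Um_mul (h1 : g ∈ T.Um) (h2 : h ∈ T.Um) : g * h ∈ T.Um := fun a b h => by
  obtain ⟨c, h3, h4⟩ := Z.mul (by rwa [map_mul] at h)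
  exact (h1 _ _ h3).trans (h2 _ _ h4)

variable {hB}

theorem mem_B : g ∈ T.B hB ↔ ∀ a b, T.Z (oA Q g) a b → b ≤ a := by
  change T.Tr 0 _ ↔ _
  simp [Tr]

theorem mem_U : g ∈ T.U hB ↔ ∀ a b, T.Z (oA Q g - 1) a b → b < a := Iff.rfl

theorem U_le : T.U hB ≤ T.B hB := fun _ h => Tr.of_sub h

theorem conj_sub (g u : Om Q) : oA Q (g * u * g⁻¹) - 1 = oA Q g * (oA Q u - 1) * oA Q g⁻¹ := by
  rw [mul_sub, sub_mul, mul_one, ← map_mul, ← map_mul, ← map_mul, mul_inv_cancel, map_one]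

theorem conj_U (hg : g ∈ T.B hB) (hu : u ∈ T.U hB) : g * u * g⁻¹ ∈ T.U hB := by
  have := (Tr.mul hg hu).mul ((T.B hB).inv_mem hg)
  rwa [← conj_sub] at this

theorem B_diag (hg : g ∈ T.B hB) (ha : T.p a ≠ 0) : T.Z (oA Q g) a a := by
  obtain ⟨c, h1, h2⟩ := Z.mul (T := T) (x := oA Q g) (y := oA Q g⁻¹) (a := a) (b := a) (by
    rwa [← map_mul, mul_inv_cancel, map_one, Z, mul_one, p_mul])
  have h3 := mem_B.1 hg _ _ h1
  have h4 := mem_B.1 ((T.B hB).inv_mem hg) _ _ h2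
  rwa [show c = a by omega] at h1

/-- entries at `(a, -a)` -/
theorem B_anti (hg : g ∈ T.B hB) (h0 : a ≠ 0) (h : T.Z (oA Q g) a (-a)) :
    ∃ c, c ≠ a ∧ c ≠ -a ∧ T.Z (oA Q g) c (-a) ∧ T.Z (oA Q g) (-c) (-a) := by
  obtain ⟨c, h1, h2, h3, h4⟩ := T.exists_other (v := oA Q g (T.e (-a))) (by rw [oA_Q, T.sing]) h0
    (h.at_e (by omega)) ((B_diag hg h.right).at_e (by omega))
  exact ⟨c, h1, h2, .of_e h3, .of_e h4⟩

theorem B_not (hg : g ∈ T.B hB) (hd : T.p 0 = 0) : ¬ T.Z (oA Q g) 1 (-1) := fun h => by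
  obtain ⟨c, h1, h2, h3, h4⟩ := B_anti hg one_ne_zero h
  have := mem_B.1 hg _ _ h3
  have := mem_B.1 hg _ _ h4
  obtain rfl : c = 0 := by omega
  exact h3.left hd

end

theorem Rp.mul {w' : ℤ → ℤ} (h1 : T.Rp n w) (h2 : T.Rp m w') : T.Rp (n * m) (fun a => w (w' a)) := fun b => by
  rw [map_mul, mul_assoc, h2, ← mul_assoc, h1, mul_assoc]

theorem Rp.inv {w' : ℤ → ℤ} (h1 : T.Rp n w) (h : ∀ a, w (w' a) = a) : T.Rp n⁻¹ w' := fun b => by
  have := h1 (w' b)
  rw [h] at this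
  calc _ = oA Q n⁻¹ * (T.p b * oA Q n) * oA Q n⁻¹ := by
        rw [mul_assoc, mul_assoc, ← map_mul, mul_inv_cancel, map_one, mul_one]
    _ = _ := by rw [← this, ← mul_assoc, ← map_mul, inv_mul_cancel, map_one, one_mul]

theorem Rp_one : T.Rp 1 fun a => a := fun b => by simp

theorem oA_mul_eq_zero : oA Q n * x = 0 ↔ x = 0 := (Group.isUnit n).map (oA Q) |>.mul_right_eq_zero

theorem mul_oA_eq_zero : x * oA Q n = 0 ↔ x = 0 := (Group.isUnit n).map (oA Q) |>.mul_left_eq_zero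

theorem Rp.sup (h : T.Rp n w) : T.p (w a) ≠ 0 ↔ T.p a ≠ 0 := by
  rw [Ne, ← mul_oA_eq_zero (n := n), ← h, oA_mul_eq_zero]

theorem Rp.Z_left (h : T.Rp n w) : T.Z (oA Q n * x) (w a) b ↔ T.Z x a b := by
  rw [Z, ← mul_assoc, ← h, mul_assoc, mul_assoc, Ne, oA_mul_eq_zero, ← mul_assoc]; rfl

theorem Rp.Z_right (h : T.Rp n w) : T.Z (x * oA Q n) a b ↔ T.Z x a (w b) := by
  rw [Z, mul_assoc, mul_assoc, h, ← mul_assoc, ← mul_assoc, Ne, mul_oA_eq_zero]; rfl

theorem Rp.Z_conj (h : T.Rp n w) : T.Z (oA Q n⁻¹ * x * oA Q n) a b ↔ T.Z x (w a) (w b) := by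
  rw [h.Z_right, ← h.Z_left, ← mul_assoc, ← map_mul, mul_inv_cancel, map_one, one_mul]

theorem Rp.eq (h : T.Rp n w) (h1 : T.Z (oA Q n) a b) : a = w b := by
  rw [← one_mul (oA Q n), h.Z_right] at h1
  exact h1.one

theorem Rp.unique {w' : ℤ → ℤ} (h : T.Rp n w) (h' : T.Rp n w') (ha : T.p a ≠ 0) : w a = w' a := by
  refine h'.eq ?_
  rw [← mul_one (oA Q n), h.Z_left, Z, mul_one, p_mul]
  exact ha

theorem Rp.at_e (h : T.Rp n w) (h0 : w a ≠ 0) : ∃ c : F, oA Q n (T.e a) = c • T.e (w a) := by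
  have := LinearMap.congr_fun (h a) (T.e a)
  rw [End.mul_apply, End.mul_apply, p_e, T.p_apply h0] at this
  exact ⟨_, this⟩

theorem Rp_of {w : Equiv.Perm ℤ} (h1 : ∀ t, ok T.r t → ∃ c : F, oA Q n (T.e t) = c • T.e (w t))
    (h2 : ∀ t, ¬ ok T.r t → w t = t) : T.Rp n w := by
  have key : ∀ d v, T.p (w d) (oA Q n (T.p d v)) = oA Q n (T.p d v) := fun d v => by
    by_cases hd : ok T.r d
    · obtain ⟨c, hc⟩ := h1 d hd
      simp [T.p_apply hd.1, hc, p_e]
    by_cases h0 : d = 0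
    swap
    · simp [T.p_nok hd h0]
    rw [h2 d hd, h0]
    refine T.p0_of_orth fun t => ?_
    by_cases ht : ok T.r t
    swap
    · simp [T.nok t ht]
    have h3 : ok T.r (w.symm t) := by_contra fun h => by
      have := h2 _ h
      rw [Equiv.apply_symm_apply] at this
      exact h (this ▸ ht)
    obtain ⟨c, hc⟩ := h1 _ h3
    have h4 := oA_pb n (T.e (w.symm t)) (T.p 0 v)
    rw [T.pb_p0, hc, Equiv.apply_symm_apply] at h4
    have : c ≠ 0 := by rintro rfl; exact oA_ne n (T.e_ne h3) (by simpa using hc)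
    simpa [this] using h4
  intro b
  ext v
  rw [End.mul_apply, End.mul_apply]
  conv_rhs => rw [← T.sum_p_apply v, map_sum, map_sum]
  by_cases hb : b ∈ T.I
  · rw [sum_eq_single_of_mem b hb fun d _ hd => by rw [← key, T.p_p_ne (w.injective.ne hd.symm)], key]
  · have : T.p b = 0 := T.p_nok (fun h => hb (T.mem_I h)) (by rintro rfl; exact hb (mem_Icc.2 ⟨by omega, by omega⟩))
    rw [sum_eq_zero fun d hd => by rw [← key, T.p_p_ne (w.injective.ne (by rintro rfl; exact hb hd))], this]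
    simp

variable (H : OH Q)

theorem Z_ez {y : E} (hy : pb Q (T.e a) y = 0) {c d : ℤ} (h : T.Z (oA Q (H.ez (T.e a) y) - 1) c d) :
    (c = a ∧ T.p (-d) y ≠ 0) ∨ (d = -a ∧ (T.p c y ≠ 0 ∨ c = a ∧ ∃ k, T.p k y ≠ 0 ∧ T.p (-k) y ≠ 0)) := by
  obtain ⟨v, hv⟩ := Z_iff.1 h
  rw [LinearMap.sub_apply, H.ez_apply (T.sing a) hy, pb_p, pb_p] at hv
  by_contra hn
  apply hv
  by_cases e1 : c = a <;> by_cases e2 : d = -a
  · simp only [e1, e2, true_and, not_or, not_not, neg_neg] at hn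
    have : Q y = 0 := by_contra fun h => hn.2.2 (T.exists_pair h)
    simp [e1, e2, hn.1, this]
  · simp only [e1, e2, true_and, false_and, or_false, not_not] at hn
    simp [hn, T.p_e_ne (show -d ≠ a by omega)]
  · simp only [e1, e2, true_and, false_and, or_false, false_or, not_not] at hn
    simp [hn, T.p_e_ne e1]
  · simp [T.p_e_ne e1, T.p_e_ne (show -d ≠ a by omega)]

theorem pb_e_of {y : E} (h : T.p (-a) y = 0) : pb Q (T.e a) y = 0 := by
  rw [← T.p_e a, pb_p, h, map_zero]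

theorem ez_U {y : E} (hy : ∀ c, T.p c y ≠ 0 → -a < c) : H.ez (T.e a) y ∈ T.U H.nd := fun c d h => by
  rcases Z_ez H (pb_e_of (by_contra fun e => (hy _ e).false)) h with ⟨rfl, h1⟩ | ⟨rfl, h1 | ⟨rfl, k, h1, h2⟩⟩
  · have := hy _ h1; omega
  · have := hy _ h1; omega
  · have := hy _ h1; have := hy _ h2; omega

theorem ez_Um {y : E} (hy : ∀ c, T.p c y ≠ 0 → c < -a) : H.ez (T.e a) y ∈ T.Um := fun c d h => by
  by_cases e : c = d
  · exact e.le
  rcases Z_ez H (pb_e_of (by_contra fun e => (hy _ e).false)) ((Z_sub_one e).2 h) with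
    ⟨rfl, h1⟩ | ⟨rfl, h1 | ⟨rfl, k, h1, h2⟩⟩
  · have := hy _ h1; omega
  · have := hy _ h1; omega
  · have := hy _ h1; have := hy _ h2; omega

theorem ez_to {f v : E} (hf : Q f = 0) (hv : Q v = 0) {f' : E} (h1 : Q f' = 0) (h2 : pb Q f f' = 1) {c : F}
    (hc : c ≠ 0) (h3 : pb Q f v = c) : oA Q (H.ez f (-c⁻¹ • (v - c • f'))) (c • f') = v := by
  rw [H.ez_apply hf (by simp [h2, h3])]
  simp only [Q_smul, Q_sub, map_smul, map_sub, LinearMap.smul_apply, pb_sing h1, pb_comm Q f' f, h2, hv, h1,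
    pb_comm Q f' v, smul_eq_mul]
  match_scalars <;> field_simp <;> ring

end Cfsg.Agent.H4.TO.Fr
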