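import Cfsg.Agent.H4.TO3

/-! The Weyl group and the relative root system of `Ω`. -/

set_option autoImplicit false
set_option linter.unusedSectionVars false
set_option linter.unusedSimpArgs false

namespace Cfsg.Agent.H4.TO.Fr

open Module H6 H1 Finset

variable {F : Type*} [Field F] {E : Type*} [AddCommGroup E] [Module F E] [FiniteDimensional F E]
  {Q : QuadraticForm F E} (T : Fr Q)

/-- the Weyl group -/
def W : Subgroup (Equiv.Perm ℤ) where
  carrier := {w | (∀ a, w (-a) = -w a) ∧ (∀ a, ¬ ok T.r a → w a = a) ∧ ∃ n : Om Q, T.Rp n w}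
  mul_mem' := fun ⟨h1, h2, n, h3⟩ ⟨k1, k2, m, k3⟩ =>
    ⟨fun a => by simp [h1, k1], fun a h => by simp [h2 a h, k2 a h], n * m, h3.mul k3⟩
  one_mem' := ⟨fun _ => rfl, fun _ _ => rfl, 1, Rp_one⟩
  inv_mem' := fun {w} ⟨h1, h2, n, h3⟩ => ⟨fun a => w.injective (by simp [h1]),
    fun a h => w.injective (by simp [h2 a h]), n⁻¹, h3.inv (by simp)⟩

instance [Finite F] : Finite T.W := by
  have := finite_Om (Q := Q)
  refine Finite.of_injective (fun w : T.W => w.2.2.2.choose) fun w w' e => Subtype.ext (Equiv.ext fun a => ?_)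
  by_cases h : ok T.r a
  · have h1 := w.2.2.2.choose_spec
    simp only at e
    rw [e] at h1
    exact h1.unique w'.2.2.2.choose_spec (T.p_ne h)
  · rw [w.2.2.1 a h, w'.2.2.1 a h]

/-- the roots -/
def Ph : Type := {γ : ℤ × ℤ // T.p γ.1 ≠ 0 ∧ T.p γ.2 ≠ 0 ∧ γ.1 ≠ γ.2 ∧ γ.1 ≠ -γ.2}

instance : Finite T.Ph := by
  classical
  refine ((T.I ×ˢ T.I).finite_toSet.subset fun γ h => ?_ : Set.Finite {γ : ℤ × ℤ | _}).to_subtype
  have h1 := su_iff.1 h.1
  have h2 := su_iff.1 h.2.1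
  exact mem_coe.2 (mem_product.2 ⟨mem_Icc.2 ⟨h1.1, h1.2.1⟩, mem_Icc.2 ⟨h2.1, h2.2.1⟩⟩)

variable {T}

theorem W_sup (w : T.W) {a : ℤ} : T.p (w.1 a) ≠ 0 ↔ T.p a ≠ 0 := w.2.2.2.choose_spec.sup

instance : MulAction T.W T.Ph where
  smul w γ := ⟨(w.1 γ.1.1, w.1 γ.1.2), (W_sup w).2 γ.2.1, (W_sup w).2 γ.2.2.1, w.1.injective.ne γ.2.2.2.1,
    by rw [← w.2.1]; exact w.1.injective.ne γ.2.2.2.2⟩
  one_smul _ := rfl
  mul_smul _ _ _ := rfl

theorem smul_val (w : T.W) (γ : T.Ph) : (w • γ).1 = (w.1 γ.1.1, w.1 γ.1.2) := rfl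

theorem refl_e {a : ℤ} (ha : ok T.r a) {s : F} (hs : s ≠ 0) :
    Q (T.e a + s • T.e (-a)) = s ∧ (refl Q (T.e a + s • T.e (-a))).1 (T.e a) = -s • T.e (-a) ∧
    (refl Q (T.e a + s • T.e (-a))).1 (T.e (-a)) = -s⁻¹ • T.e a ∧
    ∀ t, t ≠ a → t ≠ -a → (refl Q (T.e a + s • T.e (-a))).1 (T.e t) = T.e t := by
  have h1 := T.one a ha
  have h : Q (T.e a + s • T.e (-a)) = s := by simp [Q_add, Q_smul, T.sing, h1]
  refine ⟨h, ?_, ?_, fun t h2 h3 => refl_of_orth ?_⟩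
  · simp [refl_apply, h, h1, pb_sing (T.sing _), hs]
  · simp [refl_apply, h, h1, pb_sing (T.sing _), pb_comm Q (T.e (-a)) (T.e a), smul_smul, hs]
  · simp [T.zero t a (by omega), T.zero t (-a) (by omega)]

theorem dick_diag (H : OH Q) (hN : BigEnough F E) (hd : T.p 0 = 0) (k : ℕ) : ∀ g : OG Q, (∀ t, ∃ c : F, g.1 (T.e t) = c • T.e t) →
    (∀ t : ℤ, k < t.natAbs → g.1 (T.e t) = T.e t) → dick H.nd hN g = 1 := by
  induction k with
  | zero =>
    intro g _ h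
    rw [show g = 1 from OG_ext fun v => ?_, map_one]
    rw [← T.sum_p_apply v, map_sum, map_sum]
    refine sum_congr rfl fun a _ => ?_
    by_cases h0 : a = 0
    · simp [h0, hd]
    · simp [T.p_apply h0, h a (by simpa using h0)]
  | succ k ih =>
    intro g h1 h2
    by_cases ha : ok T.r (k + 1)
    swap
    · refine ih g h1 fun t ht => ?_
      by_cases e : k + 1 < t.natAbs
      · exact h2 t e
      · rw [T.nok t (by unfold ok at *; omega), map_zero]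
    obtain ⟨c, hc⟩ := h1 (k + 1)
    obtain ⟨c', hc'⟩ := h1 (-(k + 1))
    have h3 : c * c' = 1 := by
      have := OG_pb g (T.e (k + 1)) (T.e (-(k + 1)))
      rw [hc, hc', map_smul, map_smul, LinearMap.smul_apply, T.one _ ha] at this
      simpa [mul_comm] using this
    have h4 : c' ≠ 0 := right_ne_zero_of_mul_eq_one h3
    obtain ⟨a1, a2, a3, a4⟩ := refl_e ha (one_ne_zero (α := F))
    obtain ⟨b1, b2, b3, b4⟩ := refl_e ha h4
    have key : ∀ t, (refl Q (T.e (k + 1) + (1 : F) • T.e (-(k + 1))) * refl Q (T.e (k + 1) + c' • T.e (-(k + 1))) * g).1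
        (T.e t) = if t = k + 1 ∨ t = -(k + 1) then T.e t else g.1 (T.e t) := fun t => by
      rw [OG_mul_apply, OG_mul_apply]
      split_ifs with e
      · rcases e with rfl | rfl
        · rw [hc, map_smul, b2, map_smul, map_smul, a3, smul_smul, smul_smul]; simp [h3]
        · rw [hc', map_smul, b3, map_smul, map_smul, a2, smul_smul, smul_smul]; simp [h4]
      · obtain ⟨d, hd⟩ := h1 t
        rw [hd, map_smul, b4 t (by omega) (by omega), map_smul, a4 t (by omega) (by omega)]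
    have := ih _ (fun t => by rw [key]; split_ifs; exacts [⟨1, by simp⟩, h1 t])
      fun t ht => by rw [key]; split_ifs; exacts [rfl, h2 t (by omega)]
    rwa [map_mul, map_mul, dick_refl _ _ (by rw [a1]; simp), dick_refl _ _ (by rwa [b1]), neg_mul_neg, mul_one,
      one_mul] at this

theorem no_flip (H : OH Q) (hd : T.p 0 = 0) (h1 : ok T.r 1) (w : T.W) (h2 : ∀ k : ℤ, 2 ≤ k → k ≤ T.r → w.1 k = k) :
    w.1 1 ≠ -1 := fun h3 => by
  obtain ⟨k1, k2, n, hn⟩ := w.2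
  obtain ⟨a1, a2, a3, a4⟩ := refl_e h1 (one_ne_zero (α := F))
  have hN : BigEnough F E := .inl H.big
  have := dick_diag H hN hd T.r (n.1 * refl Q (T.e 1 + (1 : F) • T.e (-1))) (fun t => ?_) fun t ht => by
    rw [T.nok t (by unfold ok; omega), map_zero]
  · rw [map_mul, dick_refl _ _ (by rw [a1]; simp),
      Abelianization.commutator_subset_ker (dick H.nd hN) n.2] at this
    exact absurd this (by decide)
  rw [OG_mul_apply]
  by_cases e1 : t = 1
  · obtain ⟨c, hc⟩ := hn.at_e (a := -1) (by rw [k1, h3]; simp)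
    rw [k1, h3, neg_neg, oA_apply] at hc
    exact ⟨_, by rw [e1, a2, map_smul, hc, smul_smul]⟩
  by_cases e2 : t = -1
  · obtain ⟨c, hc⟩ := hn.at_e (a := 1) (by rw [h3]; simp)
    rw [h3, oA_apply] at hc
    exact ⟨_, by rw [e2, a3, map_smul, hc, smul_smul]⟩
  rw [a4 t e1 e2]
  by_cases ht : ok T.r t
  · have : w.1 t = t := by
      have := h2 t
      have := h2 (-t)
      have := k1 t
      unfold ok at ht
      omega
    have h := hn.at_e (a := t) (by rw [this]; exact ht.1)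
    rwa [this] at h
  · exact ⟨0, by simp [T.nok t ht]⟩

theorem sw_real (H : OH Q) {x y : ℤ} (hx : ok T.r x) (hy : ok T.r y) (h1 : x ≠ y) (h2 : x ≠ -y) :
    ∃ n : Om Q, ∀ t, ∃ c : F, oA Q n (T.e t) = c • T.e (sw x y t) := by
  have e1 := T.one x hx
  have e2 := T.one y hy
  have e3 := T.zero x (-y) (by omega)
  have e4 := T.zero y (-x) (by omega)
  have e5 := T.zero x y (by omega)
  have e6 := T.zero (-x) (-y) (by omega)
  have k := fun v => H.ez_apply (T.sing x) e3 v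
  have k' := fun v => H.ez_apply (T.sing y) (y := -T.e (-x)) (by simp [e4]) v
  refine ⟨H.ez (T.e x) (T.e (-y)) * H.ez (T.e y) (-T.e (-x)) * H.ez (T.e x) (T.e (-y)), fun t => ?_⟩
  simp only [map_mul, End.mul_apply]
  have s := fun a => pb_sing (T.sing a)
  unfold sw
  split_ifs with a1 a2 a3 a4
  · exact ⟨-1, by simp [a1, k, k', Q_neg, T.sing, s, pb_comm Q (T.e y) (T.e x), *]⟩
  · exact ⟨1, by simp [a2, k, k', Q_neg, T.sing, s, pb_comm Q (T.e y) (T.e x), *]⟩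
  · exact ⟨-1, by simp [a3, k, k', Q_neg, T.sing, s, pb_comm Q (T.e (-x)) (T.e x), pb_comm Q (T.e (-y)) (T.e y),
      pb_comm Q (T.e (-y)) (T.e x), pb_comm Q (T.e (-x)) (T.e y), pb_comm Q (T.e (-y)) (T.e (-x)), *]⟩
  · exact ⟨1, by simp [a4, k, k', Q_neg, T.sing, s, pb_comm Q (T.e (-x)) (T.e x), pb_comm Q (T.e (-y)) (T.e y),
      pb_comm Q (T.e (-y)) (T.e x), pb_comm Q (T.e (-x)) (T.e y), pb_comm Q (T.e (-y)) (T.e (-x)), *]⟩
  · exact ⟨1, by simp [k, k', T.zero t x (by omega), T.zero t y (by omega), T.zero t (-x) (by omega),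
      T.zero t (-y) (by omega)]⟩

theorem flip_real (H : OH Q) (hA : T.An) (hd : T.p 0 ≠ 0) (h1 : ok T.r 1) :
    ∃ n : Om Q, ∀ t, ∃ c : F, oA Q n (T.e t) = c • T.e (sw 1 (-1) t) := by
  obtain ⟨v, hv⟩ := DFunLike.ne_iff.1 hd
  have h2 : Q (T.p 0 v) ≠ 0 := fun h => hv (hA _ (fun a => T.pb_p0 a v) h)
  obtain ⟨a1, a2, a3, a4⟩ := refl_e h1 h2
  refine ⟨⟨_, refl_mul_refl_mem H.nd h2 a1⟩, fun t => ?_⟩
  have k : ∀ t, (refl Q (T.p 0 v)).1 (T.e t) = T.e t := fun t => refl_of_orth (T.pb_p0 t v)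
  rw [oA_apply, OG_mul_apply]
  unfold sw
  split_ifs with b1 b2 b3
  · exact ⟨_, by rw [b1, a2, map_smul, k]⟩
  · exact ⟨_, by rw [b2, a3, map_smul, k]⟩
  · omega
  · exact ⟨1, by rw [a4 t b1 b2, k, one_smul]⟩

open Classical in
theorem sg_mem (H : OH Q) (hA : T.An) (h2 : 2 ≤ T.r) (s : Fin T.r) :
    Function.Involutive.toPerm _ (sg_sg (d := T.p 0 = 0) (Int.natCast_nonneg s)) ∈ T.W := by
  have hs := s.2
  have h0 : ∀ a, ¬ ok T.r a → sg (T.p 0 = 0) s a = a := fun a ha => by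
    rcases sg_cases (T.p 0 = 0) s with ⟨-, _, -, -, h⟩ | ⟨-, _, -, -, h⟩ | ⟨_, -, -, h⟩ <;> rw [h] <;> unfold sw <;>
      unfold ok at ha <;> split_ifs <;> omega
  refine ⟨sg_neg (Int.natCast_nonneg s), h0, ?_⟩
  suffices ∃ n : Om Q, ∀ t, ∃ c : F, oA Q n (T.e t) = c • T.e (sg (T.p 0 = 0) s t) from
    this.imp fun n hn => Rp_of (fun t _ => hn t) h0
  rcases sg_cases (T.p 0 = 0) s with ⟨-, _, -, -, h⟩ | ⟨hd, _, -, -, h⟩ | ⟨_, -, -, h⟩ <;> rw [h]
  · exact sw_real H (by unfold ok; omega) (by unfold ok; omega) (by omega) (by omega)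
  · exact flip_real H hA hd (by unfold ok; omega)
  · exact sw_real H (by unfold ok; omega) (by unfold ok; omega) (by omega) (by omega)

open Classical in
theorem ta_le {s a b : ℤ} (hs : 0 ≤ s) (ha : T.p a ≠ 0) (hb : T.p b ≠ 0) (h : b ≤ a) (h1 : a ≠ -b) :
    ta (T.p 0 = 0) s b ≤ ta (T.p 0 = 0) s a :=
  ta_mono hs h (su_iff.1 ha).2.2 (su_iff.1 hb).2.2 fun _ _ => by omega

open Classical in
/-- the relative root system -/
noncomputable def rs (H : OH Q) (hA : T.An) (h2 : 2 ≤ T.r) : H7.RS T.W T.Ph (Fin T.r) where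
  pos γ := γ.1.2 < γ.1.1
  neg γ := ⟨γ.1.swap, γ.2.2.1, γ.2.1, γ.2.2.2.1.symm, fun h => γ.2.2.2.2 (by simp at h; omega)⟩
  sp s γ := ta (T.p 0 = 0) s γ.1.1 ≠ ta (T.p 0 = 0) s γ.1.2
  α s := ⟨(rx (T.p 0 = 0) s, ry (T.p 0 = 0) s), su_iff.2 (su_rx (by omega) (by omega) h2),
    su_iff.2 (su_ry (by omega) (by omega)), (ry_lt _).ne', rx_ne (by omega)⟩
  σ s := ⟨_, sg_mem H hA h2 s⟩
  smul_neg _ _ := rfl
  pos_neg γ := by have := γ.2.2.2.1; simp; omega
  sp_neg _ _ := ne_comm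
  sp_ne γ := by
    obtain ⟨s, h1, h3⟩ := exists_ta (su_iff.1 γ.2.1) (su_iff.1 γ.2.2.1) γ.2.2.2.1 γ.2.2.2.2
    exact ⟨⟨s, h1⟩, h3⟩
  α_pos _ := ry_lt _
  sp_α s t h := Fin.ext (by have := ta_xy (by omega) (by omega) h; omega)
  σσ s := Subtype.ext (Equiv.ext (sg_sg (by omega)))
  σ_α s := (sg_xy (by omega)).not_gt
  sp_σ s t γ h := by
    change ta _ t (sg _ s _) ≠ ta _ t (sg _ s _) ↔ _
    rw [ta_sg (by omega) (by omega) (by omega), ta_sg (by omega) (by omega) (by omega)]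
  σ_pos s t γ h1 h3 h4 := by
    by_contra h5
    have γ' := ((⟨_, sg_mem H hA h2 s⟩ : T.W) • γ).2
    have h6 := ta_le (s := t) (by omega) γ'.2.1 γ'.1 (not_lt.1 h5) (by have := γ'.2.2.2; omega)
    change ta _ t (sg _ s _) ≤ ta _ t (sg _ s _) at h6
    rw [ta_sg (by omega) (by omega) (by omega), ta_sg (by omega) (by omega) (by omega)] at h6
    exact h4 (h6.antisymm (ta_le (by omega) γ.2.1 γ.2.2.1 h1.le γ.2.2.2.2))
  conv w γ h1 h3 := (chain w.2.1 (su_iff.1 γ.2.1) (su_iff.1 γ.2.2.1) h1 γ.2.2.2.2 fun s e1 e2 e3 => by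
    lift s to ℕ using e1
    exact (h3 ⟨s, by omega⟩ e3).le).lt_of_ne (w • γ).2.2.2.1.symm
  conv' w γ h1 h3 := by
    have := chain (f := fun a => -w.1 a) (fun a => by rw [w.2.1]) (su_iff.1 γ.2.1) (su_iff.1 γ.2.2.1) h1 γ.2.2.2.2
      fun s e1 e2 e3 => by
        lift s to ℕ using e1
        exact neg_le_neg (not_lt.1 (h3 ⟨s, by omega⟩ e3))
    exact not_lt.2 (neg_le_neg_iff.1 this)
  rigid w h := by
    have h0 : w.1 0 = 0 := w.2.2.1 0 fun h => h.1 rfl
    obtain ⟨h3, h4⟩ := rigid_aux (d := T.p 0 = 0) w.2.1 (h0 ▸ w.1.injective.ne one_ne_zero) h2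
      (su_iff.1 ((W_sup w).2 (T.p_ne (by unfold ok; omega)))).2.1 fun s e1 e2 => by
        lift s to ℕ using e1
        exact h ⟨s, by omega⟩
    have h5 : w.1 1 = 1 := h4.resolve_right fun h => no_flip H h.1 (by unfold ok; omega) w h3 h.2
    refine Subtype.ext (Equiv.ext fun a => ?_)
    by_cases ha : ok T.r a
    · have := h3 a
      have := h3 (-a)
      have := w.2.1 a
      have := w.2.1 1
      change w.1 a = a
      unfold ok at ha
      by_cases a = 1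
      · simp [*]
      by_cases a = -1
      · simp [*]
      omega
    · exact w.2.2.1 a ha

end Cfsg.Agent.H4.TO.Fr
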