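import Cfsg.Agent.H4.TO4

/-! The sharp Bruhat decomposition of `Ω`. -/

set_option autoImplicit false
set_option linter.unusedSectionVars false

namespace Cfsg.Agent.H4.TO.Fr

open Module H6 H1 Finset

variable {F : Type*} [Field F] {E : Type*} [AddCommGroup E] [Module F E] [FiniteDimensional F E]
  {Q : QuadraticForm F E} {T : Fr Q}

theorem mono_W {g : Om Q} (h : ∀ t, ok T.r t → ∃ j, ∃ c : F, oA Q g (T.e t) = c • T.e j) :
    ∃ w : T.W, T.Rp g w.1 := by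
  classical
  choose! j c hc using h
  have h1 : ∀ t, ok T.r t → ok T.r (j t) := fun t ht => T.ok_of_ne fun e => oA_ne g (T.e_ne ht) (by simp [hc t ht, e])
  have h2 : ∀ t t', ok T.r t → ok T.r t' → (t + t' = 0 ↔ j t + j t' = 0) := fun t t' ht ht' => by
    have k := oA_pb g (T.e t) (T.e t')
    rw [hc t ht, hc t' ht'] at k
    constructor
    · intro e
      obtain rfl : t' = -t := by omega
      by_contra e'
      simp [T.zero _ _ e', T.one t ht] at k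
    · intro e
      by_contra e'
      have k1 : c t ≠ 0 := fun e => oA_ne g (T.e_ne ht) (by simp [hc t ht, e])
      have k2 : c t' ≠ 0 := fun e => oA_ne g (T.e_ne ht') (by simp [hc t' ht', e])
      simp [T.zero _ _ e', show j t' = -j t by omega, T.one _ (h1 t ht), k1, k2] at k
  have h3 : ∀ t, ok T.r t → j (-t) = -j t := fun t ht => by
    have := (h2 t (-t) ht (ok_neg.2 ht)).1 (by omega); omega
  have h4 : Set.BijOn j {t | ok T.r t} {t | ok T.r t} :=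
    ((T.I.finite_toSet.subset fun t ht => T.mem_I ht).injOn_iff_bijOn_of_mapsTo h1).1 fun t ht t' ht' e => by
      have := (h2 t (-t') ht (ok_neg.2 ht')).2 (by rw [h3 t' ht']; omega); omega
  let f : ℤ → ℤ := fun t => if ok T.r t then j t else t
  have h5 : Function.Bijective f := by
    constructor
    · intro t t' e
      simp only [f] at e
      split_ifs at e with a b b
      · exact h4.injOn a b e
      · exact absurd (e ▸ h1 t a) b
      · exact absurd (e ▸ h1 t' b) a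
      · exact e
    · intro t
      by_cases a : ok T.r t
      · obtain ⟨t', b, e⟩ := h4.surjOn a
        exact ⟨t', (if_pos b).trans e⟩
      · exact ⟨t, if_neg a⟩
  have h6 : ∀ t, ¬ ok T.r t → Equiv.ofBijective f h5 t = t := fun t ht => if_neg ht
  have h7 : T.Rp g (Equiv.ofBijective f h5) := Rp_of (fun t ht => ⟨c t, by simp [f, ht, hc t ht]⟩) h6
  refine ⟨⟨_, fun a => ?_, h6, g, h7⟩, h7⟩
  by_cases ha : ok T.r a <;> simp [f, ha, ok_neg, h3]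

theorem exists_low (hA : T.An) {v : E} (h0 : v ≠ 0) (hv : Q v = 0) :
    ∃ j, ok T.r j ∧ T.p j v ≠ 0 ∧ ∀ c, T.p c v ≠ 0 → j ≤ c := by
  classical
  have hI : ∀ c, T.p c v ≠ 0 → c ∈ T.I := fun c hc => by
    have := su_iff.1 (show T.p c ≠ 0 from fun e => hc (by simp [e]))
    exact mem_Icc.2 ⟨this.1, this.2.1⟩
  obtain ⟨j, h1, h2⟩ := (T.I.filter fun c => T.p c v ≠ 0).exists_min_image id (by
    obtain ⟨c, h1⟩ := exists_ne_zero_of_sum_ne_zero ((T.sum_p_apply v).trans_ne h0)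
    exact ⟨c, mem_filter.2 h1⟩)
  have h3 : ∀ c, T.p c v ≠ 0 → j ≤ c := fun c hc => h2 c (mem_filter.2 ⟨hI c hc, hc⟩)
  have h4 := (mem_filter.1 h1).2
  refine ⟨j, (T.sup_iff.1 fun e => h4 (by simp [e])).resolve_right ?_, h4, h3⟩
  rintro ⟨rfl, -⟩
  refine h4 (hA _ (fun a => T.pb_p0 a v) ?_)
  have k : ∀ c, T.p c (v - T.p 0 v) ≠ 0 → 0 < c := fun c hc => by
    have e : c ≠ 0 := by rintro rfl; simp [p_p] at hc
    have := h3 c (by simpa [T.p_p_ne e] using hc)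
    omega
  have h5 : Q (v - T.p 0 v) = 0 := by_contra fun e => by
    obtain ⟨c, k1, k2⟩ := T.exists_pair e
    have := k _ k1
    have := k _ k2
    omega
  have := Q_add Q (T.p 0 v) (v - T.p 0 v)
  rw [add_sub_cancel, hv, h5, pb_p] at this
  simpa [p_p] using this.symm

theorem inv_fix {g : Om Q} {v v' : E} (h : oA Q g v = v') : oA Q g⁻¹ v' = v := by rw [← h, oA_inv_apply]

theorem bruhat_aux (H : OH Q) (hA : T.An) (k : ℕ) : ∀ g : Om Q,
    (∀ t, ok T.r t → k < t.natAbs → ∃ j, ∃ c : F, oA Q g (T.e t) = c • T.e j) →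
    ∃ (w : T.W) (n u b : Om Q), T.Rp n w.1 ∧ u ∈ T.U H.nd ∧ n⁻¹ * u * n ∈ T.Um ∧ b ∈ T.U H.nd ∧ g = u * n * b ∧
      ∀ t : ℤ, k < t.natAbs → oA Q n (T.e t) = oA Q g (T.e t) := by
  induction k with
  | zero =>
    intro g hg
    obtain ⟨w, hw⟩ := mono_W fun t ht => hg t ht (by have := ht.1; omega)
    exact ⟨w, g, 1, 1, hw, one_mem _, fun a b h => (Z.one (by simpa using h)).le, one_mem _, by simp, fun _ _ => rfl⟩
  | succ k ih =>
  intro g hg
  obtain ⟨i, hi⟩ : ∃ i : ℤ, i = k + 1 := ⟨_, rfl⟩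
  by_cases ha : ok T.r i
  swap
  · obtain ⟨w, n, u, b, h1, h2, h3, h4, h5, h6⟩ := ih g fun t ht h => hg t ht (by unfold ok at *; omega)
    exact ⟨w, n, u, b, h1, h2, h3, h4, h5, fun t ht => h6 t (by omega)⟩
  obtain ⟨v, hv⟩ : ∃ v, v = oA Q g (T.e i) := ⟨_, rfl⟩
  have hv0 : Q v = 0 := by rw [hv, oA_Q, T.sing]
  obtain ⟨j, hj, h1, h2⟩ := exists_low hA (hv ▸ oA_ne g (T.e_ne ha)) hv0
  obtain ⟨c, hc⟩ : ∃ c, pb Q (T.e (-j)) v = c := ⟨_, rfl⟩
  have hc0 : c ≠ 0 := hc ▸ mt (T.p_eq_zero hj.1).2 h1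
  have hj' : pb Q (T.e (-j)) (T.e j) = 1 := by rw [pb_comm, T.one j hj]
  obtain ⟨y, hy⟩ : ∃ y, y = -c⁻¹ • (v - c • T.e j) := ⟨_, rfl⟩
  have hy0 : pb Q (T.e (-j)) y = 0 := by simp [hy, hc, hj']
  have h3 : H.ez (T.e (-j)) y ∈ T.U H.nd := ez_U H fun d hd => by
    have e : d ≠ j := by rintro rfl; exact hd ((T.p_eq_zero hj.1).2 hy0)
    have := h2 d fun e' => hd (by simp [hy, e', T.p_e_ne e])
    omega
  have h4 : oA Q (H.ez (T.e (-j)) y) (c • T.e j) = v := hy ▸ ez_to H (T.sing _) hv0 (T.sing _) hj' hc0 hc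
  have k0 : ∀ t : ℤ, k + 1 < t.natAbs → pb Q (oA Q g (T.e t)) v = 0 := fun t ht => by
    rw [hv, oA_pb, T.zero _ _ (by omega)]
  have k1 : ∀ t : ℤ, k + 1 < t.natAbs → ok T.r t → ∃ j', ∃ c : F, j' ≠ -j ∧ oA Q g (T.e t) = c • T.e j' :=
    fun t ht ht' => by
    obtain ⟨j', c', e⟩ := hg t ht' ht
    refine ⟨j', c', ?_, e⟩
    rintro rfl
    have := k0 t ht
    rw [e] at this
    exact oA_ne g (T.e_ne ht') (by simpa [e, hc, hc0] using Or.inl (by simpa [hc, hc0] using this))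
  have k2 : ∀ t : ℤ, k + 1 < t.natAbs → pb Q (oA Q g (T.e t)) (T.e (-j)) = 0 ∧ pb Q (oA Q g (T.e t)) y = 0 :=
    fun t ht => by
    by_cases ht' : ok T.r t
    swap
    · simp [T.nok t ht']
    obtain ⟨j1, c1, e1, e2⟩ := k1 t ht ht'
    obtain ⟨j2, c2, e3, e4⟩ := k1 (-t) (by omega) (ok_neg.2 ht')
    have e5 := oA_pb g (T.e t) (T.e (-t))
    rw [e2, e4, T.one t ht'] at e5
    have e6 : j1 + j2 = 0 := by_contra fun e => by simp [T.zero _ _ e] at e5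
    refine ⟨by simp [e2, T.zero j1 (-j) (by omega)], ?_⟩
    rw [hy, map_smul, map_sub, k0 t ht]
    simp [e2, T.zero j1 j (by omega)]
  obtain ⟨g1, hg1⟩ : ∃ g1, g1 = (H.ez (T.e (-j)) y)⁻¹ * g := ⟨_, rfl⟩
  have k3 : oA Q g1 (T.e i) = c • T.e j := by rw [hg1, map_mul, End.mul_apply, ← hv, inv_fix h4]
  have k4 : ∀ t : ℤ, k + 1 < t.natAbs → oA Q g1 (T.e t) = oA Q g (T.e t) := fun t ht => by
    rw [hg1, map_mul, End.mul_apply, inv_fix (H.ez_fix (T.sing _) hy0 (k2 t ht).1 (k2 t ht).2)]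
  obtain ⟨v', hv'⟩ : ∃ v', v' = oA Q g1⁻¹ (T.e (-j)) := ⟨_, rfl⟩
  have l0 : ∀ x, pb Q x v' = pb Q (oA Q g1 x) (T.e (-j)) := fun x => by rw [hv', pb_comm, pb_inv, pb_comm]
  have l1 : pb Q (T.e i) v' = c := by simp [l0, k3, T.one j hj]
  obtain ⟨y', hy'⟩ : ∃ y', y' = -c⁻¹ • (v' - c • T.e (-i)) := ⟨_, rfl⟩
  have l2 : pb Q (T.e i) y' = 0 := by simp [hy', l1, T.one i ha]
  have l3 : ∀ t : ℤ, k + 1 < t.natAbs → pb Q (T.e t) y' = 0 := fun t ht => by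
    simp [hy', l0, k4 t ht, (k2 t ht).1, T.zero t (-i) (by omega)]
  have l4 : H.ez (T.e i) y' ∈ T.U H.nd := ez_U H fun d hd => by_contra fun e => hd (by
    rw [T.p_eq_zero (by omega)]
    by_cases e' : -d = i
    · rw [e', l2]
    · exact l3 _ (by omega))
  have l5 : oA Q (H.ez (T.e i) y') (c • T.e (-i)) = v' :=
    hy' ▸ ez_to H (T.sing _) (by rw [hv', oA_Q, T.sing]) (T.sing _) (T.one i ha) hc0 l1
  obtain ⟨g2, hg2⟩ : ∃ g2, g2 = g1 * H.ez (T.e i) y' := ⟨_, rfl⟩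
  have m1 : oA Q g2 (T.e i) = c • T.e j := by
    rw [hg2, map_mul, End.mul_apply, H.ez_fix (T.sing _) l2 (pb_sing (T.sing _)) l2, k3]
  have m2 : oA Q g2 (c • T.e (-i)) = T.e (-j) := by rw [hg2, map_mul, End.mul_apply, l5, hv', oA_apply_inv]
  have m3 : oA Q g2 (T.e (-i)) = c⁻¹ • T.e (-j) := by rw [← m2, map_smul, inv_smul_smul₀ hc0]
  have m4 : ∀ t : ℤ, k + 1 < t.natAbs → oA Q g2 (T.e t) = oA Q g (T.e t) := fun t ht => by
    rw [hg2, map_mul, End.mul_apply, H.ez_fix (T.sing _) l2 (T.zero _ _ (by omega)) (l3 t ht), k4 t ht]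
  obtain ⟨w, n, u, b, n1, n2, n3, n4, n5, n6⟩ := ih g2 fun t ht h => by
    by_cases e1 : t = i
    · exact ⟨_, _, e1 ▸ m1⟩
    by_cases e2 : t = -i
    · exact ⟨_, _, e2 ▸ m3⟩
    rw [m4 t (by omega)]
    exact hg t ht (by omega)
  refine ⟨w, n, H.ez (T.e (-j)) y * u, b * (H.ez (T.e i) y')⁻¹, n1, mul_mem h3 n2, ?_, mul_mem n4 (inv_mem l4), ?_,
    fun t ht => by rw [n6 t (by omega), m4 t ht]⟩
  swap
  · rw [show g = H.ez (T.e (-j)) y * g2 * (H.ez (T.e i) y')⁻¹ by rw [hg2, hg1]; group, n5]; group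
  have n7 : ∀ d, i ≤ d → pb Q (T.e (-d)) (oA Q n⁻¹ y) = 0 := fun d hd => by
    rw [pb_comm, pb_inv, pb_comm, n6 _ (by omega)]
    by_cases e : d = i
    · simp [e, m3, hy0]
    · rw [m4 _ (by omega), (k2 _ (by omega)).2]
  have n8 : oA Q n⁻¹ (T.e (-j)) = c • T.e (-i) := inv_fix (by rw [map_smul, n6 _ (by omega), ← map_smul, m2])
  rw [show n⁻¹ * (H.ez (T.e (-j)) y * u) * n = n⁻¹ * H.ez (T.e (-j)) y * n * (n⁻¹ * u * n) by group, H.ez_conj,
    inv_mul_cancel_right, n8, H.ez_smul (T.sing _) (n7 i le_rfl)]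
  refine Um_mul (ez_Um H fun d hd => by_contra fun e => hd ?_) n3
  rw [T.p_eq_zero (by omega), map_smul, n7 d (by omega), smul_zero]

theorem bruhat (H : OH Q) (hA : T.An) (g : Om Q) : ∃ (w : T.W) (n u b : Om Q),
    T.Rp n w.1 ∧ u ∈ T.U H.nd ∧ n⁻¹ * u * n ∈ T.Um ∧ b ∈ T.U H.nd ∧ g = u * n * b := by
  obtain ⟨w, n, u, b, h1, h2, h3, h4, h5, -⟩ := bruhat_aux H hA T.r g fun t ht h => by unfold ok at ht; omega
  exact ⟨w, n, u, b, h1, h2, h3, h4, h5⟩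

end Cfsg.Agent.H4.TO.Fr
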