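import Cfsg.Agent.H1.URe

/-! Rank 3 actions of unitary groups: not every isotropic point is the centre of a transvection fixing `ω`. -/

set_option autoImplicit false
set_option linter.unusedSectionVars false

namespace Cfsg.Agent.H4.UT

open Module H5 Matrix Cfsg.Agent.H1 Cfsg.Agent.H1.UR
open scoped Classical

variable {F : Type*} [Field F] {σ : F →+* F} {E : Type*} [AddCommGroup E] [Module F E]
  [FiniteDimensional F E] {B : Sesq σ E} (hB : IsEps B 1) [Fintype F] [Fintype E] {q : ℕ} (hU : UF σ q)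
variable {X : Type*} [MulAction (SUb B) X] [Fintype X] {adj : X → X → Prop} {ω : X}

include hU in
theorem card_A_le {u : E} (u0 : u ≠ 0) (hu : B u u = 0) (h : ¬ XX hB ω u) :
    Nat.card ((uD hB hu).A ω) ≤ q ^ finrank F E := by
  have := card_uA_sq hB hU hu u0 h
  rw [two_mul, pow_add] at this
  exact Nat.mul_self_le_mul_self_iff.1 this

include hU in
theorem T1 (hs : Sit B adj ω) (hn : 6 ≤ finrank F E)
    (h : ∀ v, v ≠ 0 → B v v = 0 → ∃ c, c ≠ 0 ∧ σ c = -c ∧ ut hB v c • ω = ω) : False := by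
  obtain ⟨u, u0, hu, hx⟩ : ∃ u, u ≠ 0 ∧ B u u = 0 ∧ ¬ XX hB ω u := by
    by_contra hc
    push Not at hc
    refine hs.not_full hB hU (by omega) fun e c he hc' => ?_
    by_cases e0 : e = 0
    · rw [show ut hB e c = 1 from su_ext fun z => by rw [ut_apply hB he hc']; simp [e0], one_smul]
    · exact hc e e0 he c hc'
  have hq := hU.two_le
  have k1 : ∀ w, B w w = 0 → B w u = 0 → ∃ l : F, l ≠ 0 ∧ l • w ∈ (uD hB hu).A ω := fun w hw hwu => by
    by_cases hm : w ∈ F ∙ u
    · obtain ⟨a, rfl⟩ := Submodule.mem_span_singleton.1 hm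
      exact ⟨1, one_ne_zero, by simpa using smul_mem_uA hB hu ω a⟩
    choose c c0 c1 c2 using fun ν : F => h (w + ν • u)
      (fun e => hm (Submodule.mem_span_singleton.2 ⟨-ν, by rw [neg_smul, neg_eq_iff_add_eq_zero, add_comm, e]⟩))
      (by simp [hw, hwu, hu, hB.refl hwu])
    obtain ⟨ν, ν', h1, h2⟩ : ∃ ν ν', ν ≠ ν' ∧ c ν = c ν' := by
      by_contra hc
      have := Nat.card_le_card_of_injective (fun ν => (⟨c ν, c1 ν⟩ : {x : F // σ x = -x})) fun ν ν' e =>
        by_contra fun e' => hc ⟨ν, ν', e', congrArg Subtype.val e⟩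
      rw [card_trace_zero hU, Nat.card_eq_fintype_card, hU.card] at this
      nlinarith
    obtain ⟨a1, a2⟩ := ut_line hB hu hw hwu (c1 ν) ν
    obtain ⟨b1, b2⟩ := ut_line hB hu hw hwu (c1 ν) ν'
    have h3 := (c2 ν).trans (c2 ν').symm
    rw [← h2, b2, a2, mul_smul (ut hB w _), mul_smul (ut hB w _), smul_left_cancel_iff] at h3
    refine ⟨-(c ν * σ ν) + c ν * σ ν', fun e => h1 (σ.injective (mul_left_cancel₀ (c0 ν) (neg_add_eq_zero.1 e))), ?_⟩
    rw [add_smul, neg_smul]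
    exact ⟨_, (uD hB hu).adm_add ((uD hB hu).adm_neg a1) b1, by
      rw [← (uD hB hu).x_mul ((uD hB hu).adm_neg a1) b1, ← (uD hB hu).x_inv a1, mul_smul, inv_smul_eq_iff]
      exact h3.symm⟩
  choose! l l0 l1 using k1
  obtain ⟨s, hs'⟩ : ∃ s, finrank F E = s + 4 + 2 := ⟨finrank F E - 6, by omega⟩
  have d1 := hB.finrank_perp (F ∙ u)
  rw [finrank_span_singleton u0] at d1
  have k2 := card_iso_sub hB hU (S := perp B (F ∙ u)) (r := 1) (s := s + 4)
    (by rw [hB.perp_perp, inf_eq_right.2 (span_le_perp.2 hu), finrank_span_singleton u0]) (by omega)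
  have k3 := Nat.card_le_card_of_injective (α := (Finset.univ.filter fun v => v ∈ perp B (F ∙ u) ∧ B v v = 0))
    (β := F × (uD hB hu).A ω) (fun w => (l w, ⟨l w • w, l1 _ (Finset.mem_filter.1 w.2).2.2
      (mem_perp_one.1 (Finset.mem_filter.1 w.2).2.1)⟩)) fun w w' e => by
      simp only [Prod.mk.injEq, Subtype.mk.injEq] at e
      rw [← e.1] at e
      exact Subtype.ext (smul_right_injective E (l0 _ (Finset.mem_filter.1 w.2).2.2
        (mem_perp_one.1 (Finset.mem_filter.1 w.2).2.1)) e.2)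
  rw [Nat.card_prod, Nat.card_eq_fintype_card, Fintype.card_coe, Nat.card_eq_fintype_card (α := F), hU.card] at k3
  replace k3 := k3.trans (Nat.mul_le_mul_left _ (card_A_le hB hU u0 hu hx))
  have k4 : -(q : ℤ) ^ (s + 4) ≤ (-q) ^ (s + 4) := neg_le_of_abs_le (by simp [abs_pow])
  rw [hs'] at k3
  zify at k3 hq
  generalize ((Finset.univ.filter fun v => v ∈ perp B (F ∙ u) ∧ B v v = 0).card : ℤ) = N at k2 k3
  have k5 : (q : ℤ) ^ 4 ≤ q ^ (s + 4) := pow_le_pow_right₀ (by omega) (by omega)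
  rw [two_mul, pow_add (q : ℤ) (s + 4) (s + 4), pow_one] at k2
  rw [pow_add (q : ℤ) (s + 4)] at k3
  generalize (q : ℤ) ^ (s + 4) = A at *
  generalize (-(q : ℤ)) ^ (s + 4) = A' at *
  have k6 : N = q * (A * A + A' * (q - 1)) := mul_left_cancel₀ (show (q : ℤ) ≠ 0 by omega) (by rw [k2]; ring)
  have k7 : A * A + A' * (q - 1) ≤ q ^ 3 * A := le_of_mul_le_mul_left (by nlinarith) (show (0 : ℤ) < q by omega)
  have k8 : (q : ℤ) ^ 3 + q ≤ q ^ 4 := by nlinarith [mul_nonneg (show (0 : ℤ) ≤ q - 2 by omega) (pow_pos (show (0 : ℤ) < q by omega) 3).le, sq_nonneg (q : ℤ)]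
  have k9 : 0 < A := by nlinarith [pow_pos (show (0 : ℤ) < q by omega) 4]
  nlinarith [mul_le_mul_of_nonneg_right k4 (show (0 : ℤ) ≤ q - 1 by omega), mul_le_mul_of_nonneg_right (k8.trans k5) k9.le]

end Cfsg.Agent.H4.UT
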